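import Cfsg.Agent.Lib.Block.ConstDiff
import Cfsg.Agent.Lib.Block.QuotCartan
import Cfsg.Agent.Lib.Grp.FourCover
import Cfsg.Agent.Lib.Char.Prod
import Cfsg.Agent.Lib.Char.SymSq
import Cfsg.Agent.Lib.Char.Degrees

/-!
# Groups with `χ(1) - χ(u) = 4` or `χ(u) = 0` for all nonprincipal `χ`
-/

set_option autoImplicit false
set_option linter.unusedSectionVars false

namespace BT

open Cfsg CT GT Subgroup
open scoped ComplexConjugate

variable {G : Type*} [Group G] [Finite G]

theorem isCharacter_half_add {H : Type*} [Group H] {θ : G → ℂ} (hθ : IsCharacter G θ)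
    (φ : H →* G) {z : G} (hz : z * z = 1) (hc : ∀ h, φ h * z = z * φ h) :
    IsCharacter H fun h => 2⁻¹ * (θ (φ h) + θ (φ h * z)) := by
  obtain ⟨n, ρ, rfl⟩ := hθ
  have := isCharacter_trace_mul_idem (ρ.comp φ) ((2 : ℂ)⁻¹ • (1 + ρ z)) ?_ fun h => ?_
  · convert this using 2 with h
    simp [Representation.character, mul_add]
  · rw [smul_mul_smul_comm, mul_smul, mul_add, add_mul, add_mul, ← map_mul, hz, map_one, mul_one,
      mul_one, one_mul, add_comm (ρ z), ← two_smul ℂ, inv_smul_smul₀ two_ne_zero]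
  · rw [mul_smul_comm, smul_mul_assoc, mul_add, add_mul, MonoidHom.comp_apply, ← map_mul,
      ← map_mul, hc, mul_one, one_mul]

/-- `χ(1) - χ(u) = 4` or `χ(u) = 0` for all nonprincipal characters. -/
structure Four (u : G) : Prop where
  ne : u ≠ 1
  hyp : ∀ χ : IrrCharacter G, χ ≠ irrOne G → χ.1 1 - χ.1 u = 4 ∨ χ.1 u = 0

/-- The value `χ(u)` as an integer. -/
noncomputable def fourVal (u : G) (χ : IrrCharacter G) : ℤ := ⌊(χ.1 u).re⌋

theorem fourVal_one (u : G) : fourVal u (irrOne G) = 1 := by simp [fourVal]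

namespace Four

variable {u : G} (H : Four u)
include H

theorem map {Q : Type*} [Group Q] [Finite Q] {f : G →* Q} (hf : Function.Surjective f)
    (h : f u ≠ 1) : Four (f u) :=
  ⟨h, fun ψ hψ => by
    simpa only [irrComp_apply, map_one] using H.hyp (irrComp f hf ψ) fun h =>
      hψ (irrComp_injective f hf (h.trans (irrComp_irrOne f hf).symm))⟩

theorem eq_top {N : Subgroup G} [N.Normal] (h : u ∈ N) : N = ⊤ := by
  by_contra h1
  obtain ⟨g, hg⟩ := not_forall.1 (mt (eq_top_iff' _).2 h1)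
  obtain ⟨χ, h2, h3⟩ := exists_irr_le_ker_not_mem N hg
  have h4 := (irr_mem_ker_iff χ).1 (h2 h)
  rcases H.hyp χ (by rintro rfl; exact h3 (ker_irrOne (G := G) ▸ mem_top _)) with h5 | h5
  · rw [h4, sub_self] at h5
    norm_num at h5
  · exact irr_apply_one_ne_zero χ (h4 ▸ h5)

theorem cases' {χ : IrrCharacter G} (hχ : χ ≠ irrOne G) : χ.1 u = 0 ∨
    χ.1 u = (charDegree χ.1 - 4 : ℤ) ∧ (charDegree χ.1 = 3 ∨ 5 ≤ charDegree χ.1) := by
  refine or_iff_not_imp_left.2 fun h0 => ?_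
  have h1 : χ.1 u = (charDegree χ.1 - 4 : ℤ) := by
    have := (H.hyp χ hχ).resolve_right h0
    rw [irr_apply_one] at this
    push_cast
    linear_combination -this
  have h2 := (irr_isCharacter χ).norm_le u
  have h3 := fun h => (irr_center_eq_top_iff χ).1 (H.eq_top ((irr_mem_center_iff χ).2 h))
  have h4 := irr_degree_pos χ
  rw [h1] at h0 h2 h3
  refine ⟨h1, by_contra fun h => ?_⟩
  have h5 : charDegree χ.1 ≤ 4 := by omega
  generalize charDegree χ.1 = n at *
  interval_cases n <;> norm_num at *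

theorem val (χ : IrrCharacter G) : χ.1 u = fourVal u χ := by
  by_cases hχ : χ = irrOne G
  · rw [hχ, fourVal_one, irrOne_apply, Int.cast_one]
  · rcases H.cases' hχ with h | ⟨h, -⟩ <;> rw [fourVal, h]
    · simp
    · rw [Complex.intCast_re, Int.floor_intCast]

theorem cases {χ : IrrCharacter G} (hχ : χ ≠ irrOne G) : fourVal u χ = 0 ∨
    fourVal u χ = charDegree χ.1 - 4 ∧ (charDegree χ.1 = 3 ∨ 5 ≤ charDegree χ.1) := by
  have := H.cases' hχ
  rw [H.val] at this
  exact_mod_cast this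

theorem perfect : _root_.commutator G = ⊤ :=
  commutator_eq_top_iff_forall_linear.2 fun χ h => by_contra fun hχ => by
    have := (irr_isCharacter χ).norm_eq_one_of_degree_one h u
    rcases H.cases' hχ with h1 | h1
    · simp [h1] at this
    · omega

theorem sum_eq_zero {S : Finset (IrrCharacter G)} (h : ∑ χ ∈ S, χ.1 1 * χ.1 u = 0) :
    ∑ χ ∈ S, charDegree χ.1 * fourVal u χ = 0 := by
  simp only [irr_apply_one, H.val] at h
  exact_mod_cast h

theorem sum_univ : ∑ χ : IrrCharacter G, charDegree χ.1 * fourVal u χ = 0 :=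
  H.sum_eq_zero (by rw [sum_irr_degree_mul, if_neg H.ne])

theorem not_dvd : ¬ 8 ∣ Nat.card (centralizer ({u} : Set G)) := by
  classical
  have h1 := sum_irr_mul_conj u u
  simp only [if_pos (IsConj.refl u), H.val, map_intCast] at h1
  have h2 : ∑ χ : IrrCharacter G, fourVal u χ * fourVal u χ =
    Nat.card (centralizer ({u} : Set G)) := by exact_mod_cast h1
  have h3 : ∑ χ : IrrCharacter G, (fourVal u χ * fourVal u χ - charDegree χ.1 * fourVal u χ +
      4 * fourVal u χ) = ∑ χ : IrrCharacter G, if χ = irrOne G then 4 else 0 :=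
    Finset.sum_congr rfl fun χ _ => by
      split_ifs with h
      · rw [h, fourVal_one, charDegree_irrOne]; rfl
      · rcases H.cases h with h | ⟨h, -⟩ <;> rw [h] <;> ring
  have h4 : 2 ∣ ∑ χ : IrrCharacter G, (charDegree χ.1 * fourVal u χ - fourVal u χ) :=
    Finset.dvd_sum fun χ _ => by
      by_cases h : χ = irrOne G
      · rw [h, fourVal_one, charDegree_irrOne]; norm_num
      · rcases H.cases h with h | ⟨h, -⟩ <;> rw [h]
        · simp
        · obtain ⟨m, hm⟩ := Int.even_mul_pred_self (charDegree χ.1 : ℤ)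
          exact ⟨m - 2 * (charDegree χ.1 - 1), by linear_combination hm⟩
  rw [Finset.sum_add_distrib, Finset.sum_sub_distrib, ← Finset.mul_sum, h2, H.sum_univ,
    Finset.sum_ite_eq' , if_pos (Finset.mem_univ _)] at h3
  rw [Finset.sum_sub_distrib, H.sum_univ] at h4
  omega

theorem term_cases {χ : IrrCharacter G} (hχ : χ ≠ irrOne G) :
    fourVal u χ = 0 ∨ charDegree χ.1 = 3 ∧ fourVal u χ = -1 ∨
      charDegree χ.1 * fourVal u χ = 5 ∨ 12 ≤ charDegree χ.1 * fourVal u χ := by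
  rcases H.cases hχ with h | ⟨h, h1 | h1⟩
  · exact Or.inl h
  · exact Or.inr (Or.inl ⟨h1, by rw [h, h1]; rfl⟩)
  · rcases h1.eq_or_lt with h1 | h1
    · exact Or.inr (Or.inr (Or.inl (by rw [h, ← h1]; rfl)))
    · exact Or.inr (Or.inr (Or.inr (by rw [h]; nlinarith)))

theorem term_nonneg {χ : IrrCharacter G} (h : ¬ (charDegree χ.1 = 3 ∧ χ.1 u = -1)) :
    0 ≤ charDegree χ.1 * fourVal u χ := by
  by_cases hχ : χ = irrOne G
  · rw [hχ, fourVal_one, charDegree_irrOne]; norm_num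
  rcases H.term_cases hχ with h1 | h1 | h1 | h1
  · simp [h1]
  · exact absurd ⟨h1.1, by rw [H.val, h1.2]; norm_num⟩ h
  all_goals omega

theorem exists_three : ∃ χ : IrrCharacter G, charDegree χ.1 = 3 ∧ χ.1 u = -1 := by
  by_contra h
  have := (Finset.sum_eq_zero_iff_of_nonneg fun χ _ => H.term_nonneg fun h' => h ⟨χ, h'⟩).1
    H.sum_univ (irrOne G) (Finset.mem_univ _)
  rw [fourVal_one, charDegree_irrOne] at this
  norm_num at this

theorem det_eq (χ : IrrCharacter G) (g : G) : detChar χ.1 g = 1 :=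
  (mem_ker_detChar_iff _).1 (commutator_le_ker_detChar _ (H.perfect ▸ mem_top g))

variable {χ : IrrCharacter G} (h3 : charDegree χ.1 = 3) (hu : χ.1 u = -1)
include h3 hu

theorem sq_mem_ker : u * u ∈ ker χ.1 := by
  have h := (irr_isCharacter χ).exists_eigenvalues u
  rw [h3] at h
  obtain ⟨ε, h1, h2, h4⟩ := h
  have h5 : ∀ i, ε i * conj (ε i) = 1 := fun i => by
    rw [Complex.mul_conj', norm_eq_one_of_pow_eq_one' (orderOf_pos u).ne' (h1 i)]; simp
  have h6 := h2 1
  rw [pow_one, hu, Fin.sum_univ_three] at h6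
  have h7 := congrArg conj h6
  rw [H.det_eq, Fin.prod_univ_three] at h4
  rw [irr_mem_ker_iff, ← pow_two, h2, irr_apply_one, h3, Fin.sum_univ_three]
  simp only [pow_one, map_add, map_neg, map_one] at h6 h7
  push_cast
  linear_combination (1 - ε 0 - ε 1 - ε 2) * h6 + 2 * h7 + 2 * ε 1 * ε 2 * h5 0 +
    2 * ε 0 * ε 2 * h5 1 + 2 * ε 0 * ε 1 * h5 2 +
    2 * (conj (ε 0) + conj (ε 1) + conj (ε 2)) * h4

omit H in
theorem ne_irrOne : χ ≠ irrOne G := by
  rintro rfl
  rw [charDegree_irrOne] at h3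
  omega

theorem mem_principal {M : Ideal AlgInt} (hM : IsPModular 2 M) (h2 : u * u = 1)
    (hG : (Nat.card G).factorization 2 ≤ 2) : χ ∈ principalBlock M G := by
  classical
  by_contra h
  have hB := isPBlock_blockOf (M := M) χ
  have h1 : ∀ ψ ∈ bset (blockOf M χ.1), ψ ≠ irrOne G := by
    rintro _ h1 rfl
    exact h (block_eq_of_mem hM hB isPBlock_principalBlock (mem_bset.1 h1)
      (irrOne_mem_principalBlock hM) ▸ mem_blockOf_self hM χ)
  have h4 := (blockDefect_le (p := 2) (blockOf M χ.1)).trans hG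
  have h5 := (card_le_pow_of_defect_le_two hM hB h4).trans (Nat.pow_le_pow_right two_pos h4)
  have h6 := bker_eq_zero_of_regular hM hB not_dvd_orderOf_one
    (orderOf_eq_prime (by rwa [pow_two]) H.ne).symm.dvd
  simp only [bker_def, conj_irr_of_sq _ h2] at h6
  replace h6 := H.sum_eq_zero h6
  rw [← card_bset] at h5
  have h7 : χ ∈ bset (blockOf M χ.1) := mem_bset.2 (mem_blockOf_self hM χ)
  have h8 : fourVal u χ = -1 := by exact_mod_cast (H.val χ).symm.trans hu
  generalize bset (blockOf M χ.1) = S at *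
  set T := fun ψ : IrrCharacter G => charDegree ψ.1 * fourVal u ψ
  change S.sum T = 0 at h6
  have h9 : ∀ ψ ∈ S, T ψ = 0 ∨ T ψ = -3 ∨ T ψ = 5 ∨ 12 ≤ T ψ := fun ψ hψ =>
    (H.term_cases (h1 ψ hψ)).imp (fun h => by simp [T, h]) (Or.imp_left fun h => by
      simp [T, h.1, h.2])
  replace h8 : T χ = -3 := by simp [T, h3, h8]
  clear_value T
  rw [← Finset.sum_filter_add_sum_filter_not S fun ψ => 0 < T ψ] at h6
  rw [← Finset.card_filter_add_card_filter_not fun ψ => 0 < T ψ] at h5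
  have h10 := Finset.card_nsmul_le_sum (S.filter fun ψ => ¬ 0 < T ψ) T (-3) fun ψ hψ => by
    have := h9 ψ (Finset.mem_filter.1 hψ).1
    omega
  have h11 := Finset.card_nsmul_le_sum (S.filter fun ψ => 0 < T ψ) T 5 fun ψ hψ => by
    have := h9 ψ (Finset.mem_filter.1 hψ).1
    have := (Finset.mem_filter.1 hψ).2
    omega
  have h12 : 3 ∣ (S.filter fun ψ => ¬ 0 < T ψ).sum T := Finset.dvd_sum (f := T) fun ψ hψ => by
    have := h9 ψ (Finset.mem_filter.1 hψ).1
    have := (Finset.mem_filter.1 hψ).2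
    omega
  have h13 : (S.filter fun ψ => ¬ 0 < T ψ).sum T < 0 :=
    Finset.sum_neg' (fun ψ hψ => not_lt.1 (Finset.mem_filter.1 hψ).2)
      ⟨χ, Finset.mem_filter.2 ⟨h7, by omega⟩, by omega⟩
  simp only [nsmul_eq_mul] at h10 h11
  change Finset.sum _ T + Finset.sum _ T = 0 at h6
  rcases Nat.lt_trichotomy (S.filter fun ψ => 0 < T ψ).card 1 with h14 | h14 | h14
  · rw [Finset.card_eq_zero.1 (Nat.lt_one_iff.1 h14), Finset.sum_empty] at h6
    omega
  · obtain ⟨ψ, hψ⟩ := Finset.card_eq_one.1 h14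
    have := h9 ψ (Finset.mem_filter.1 (hψ ▸ Finset.mem_singleton_self ψ)).1
    have := (Finset.mem_filter.1 (hψ ▸ Finset.mem_singleton_self ψ)).2
    rw [hψ, Finset.sum_singleton] at h6
    omega
  · omega

variable (hk : ker χ.1 = ⊥)
include hk

theorem invol_val {s : G} (hs : s * s = 1) (h1 : s ≠ 1) : χ.1 s = -1 := by
  obtain ⟨a, b, h4, h5, h6⟩ := (irr_isCharacter χ).exists_nat_of_sq_eq_one (by rwa [pow_two])
  have h7 := mt (fun h => mem_bot.1 (hk ▸ (irr_mem_ker_iff χ).2 h)) h1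
  rw [H.det_eq] at h6
  rw [irr_apply_one, h4, h5] at h7
  obtain rfl : a = 3 - b := by omega
  rw [h4]
  have : b ≤ 3 := by omega
  interval_cases b <;> norm_num at *

theorem isConj {s z : G} (hs : s * s = 1) (hs1 : s ≠ 1) (hz : z * z = 1) (hz1 : z ≠ 1)
    (hi : Odd (centralizer ({z} : Set G)).index) : IsConj s z := by
  by_contra h
  have h1 := isCharacter_half_add (irr_isCharacter χ) (centralizer ({z} : Set G)).subtype hz
    fun c => mem_centralizer_singleton_iff.1 c.2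
  have h2 := h1.apply_one
  rw [map_one, one_mul, irr_apply_one, h3, H.invol_val h3 hu hk hz hz1] at h2
  replace h2 := Nat.cast_injective (R := ℂ) (h2.symm.trans (show _ = ((1 : ℕ) : ℂ) by norm_num))
  obtain ⟨f, hf⟩ := (exists_linChar_eq_iff ⟨_, h1.isIrr_of_degree_one h2⟩).2 h2
  have h4 := transfer_eq_pow_of_forall f s (-1) fun k g hg => by
    have h4 : s ^ 2 = 1 := by rwa [pow_two]
    rcases Nat.even_or_odd' k with ⟨m, rfl | rfl⟩
    · rw [(even_two_mul m).neg_one_pow, ← map_one f]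
      exact congrArg f (Subtype.ext (by simp [pow_mul, h4]))
    · have h5 : s ^ (2 * m + 1) = s := by rw [pow_succ, pow_mul, h4, one_pow, one_mul]
      rw [(odd_two_mul_add_one m).neg_one_pow]
      refine Units.ext ((congrFun (congrArg Subtype.val hf) _).trans ?_)
      rw [h5] at hg
      have h6 : g⁻¹ * s * g * (g⁻¹ * s * g) = 1 := by
        rw [mul_assoc, mul_assoc, mul_assoc, mul_inv_cancel_left, ← mul_assoc s, hs, one_mul,
          inv_mul_cancel]
      have h7 : IsConj s (g⁻¹ * s * g) := isConj_iff.2 ⟨g⁻¹, by rw [inv_inv]⟩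
      simp only [coe_subtype, h5]
      rw [H.invol_val h3 hu hk h6 (fun h => hs1 (isConj_one_left.1 (h ▸ h7))),
        H.invol_val h3 hu hk (by
          rw [mul_assoc, ← mul_assoc z, ← mem_centralizer_singleton_iff.1 hg, ← mul_assoc,
            ← mul_assoc, h6, one_mul, hz]) fun h' => h (by
          rwa [← inv_eq_of_mul_eq_one_left hz, inv_eq_of_mul_eq_one_left h'])]
      norm_num
  rw [hi.neg_one_pow, Abelianization.commutator_subset_ker _ (H.perfect ▸ mem_top s)] at h4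
  have := congrArg Units.val h4
  norm_num at this

theorem faithful : IsSimpleGroup G ∧ Nat.card G = 60 ∧
    Nat.card (centralizer ({u} : Set G)) = 4 ∧ (∀ v ∈ centralizer ({u} : Set G), v * v = 1) ∧
    ∀ s : G, s * s = 1 → s ≠ 1 → IsConj u s := by
  obtain ⟨M, hM⟩ := exists_isPModular Nat.prime_two
  have h2 : u * u = 1 := mem_bot.1 (hk ▸ H.sq_mem_ker h3 hu)
  have h2' : IsPElt 2 u := isPElt_of_pow_eq_one (k := 1) (by rwa [pow_one, pow_two])
  obtain ⟨P, hP, huP⟩ := exists_isSylowIn_ge h2'.isPGroup_zpowers le_top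
  replace huP := zpowers_le.1 huP
  have hP1 : P ≠ ⊥ := fun h => H.ne (mem_bot.1 (h ▸ huP))
  obtain ⟨z, -, hz, hz1, hPz⟩ := exists_invol_centralizing hP.isPGroup hP1
  have h4 := H.isConj h3 hu hk h2 H.ne hz hz1 (Nat.not_even_iff_odd.1 (mt even_iff_two_dvd.1
    (relIndex_top_right (centralizer ({z} : Set G)) ▸ hP.not_dvd_relIndex_of_le hPz)))
  have hG : (Nat.card G).factorization 2 ≤ 2 := not_lt.1 fun h => H.not_dvd (by
    rw [card_centralizer_eq_of_isConj h4]
    refine ((pow_dvd_pow 2 h).trans ?_).trans (card_dvd_of_le hPz)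
    rw [hP.card_eq, card_top])
  have hO : pPrimeCore 2 G = ⊥ := eq_bot_iff.2
    (hk ▸ pPrimeCore_le_ker_of_mem_principal hM (H.mem_principal h3 hu hM h2 hG))
  obtain ⟨h5, h6⟩ := CDiff.cDiff2 hM (k := 4) ⟨hO, H.ne, fun ψ hψ hψ1 =>
    (H.hyp ψ hψ1).resolve_right fun h => by
      obtain ⟨a, b, h4, h5, -⟩ := (irr_isCharacter ψ).exists_nat_of_sq_eq_one (pow_two u ▸ h2)
      rw [h, eq_comm, sub_eq_zero, Nat.cast_inj] at h4
      exact (blockHeight_principal_eq_zero_iff hM ψ hψ).1 (height_eq_zero_of_defect_le_two hM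
        isPBlock_principalBlock ((blockDefect_le _).trans hG) hψ) ⟨a, by omega⟩⟩ hP
  replace h5 : Nat.card P = 4 := by exact_mod_cast h5.symm
  have h7 := h6.index_eq hM hP1 (by omega)
  have h8 := P.card_mul_index
  have h9 : ∀ s : G, s * s = 1 → s ≠ 1 → IsConj u s := fun s hs hs1 => h6.fus u s h2' H.ne
    (isPElt_of_pow_eq_one (k := 1) (by rwa [pow_one, pow_two])) hs1
  rw [h5] at h7 h8
  rw [h6.cent_eq hM huP H.ne]
  have : Nontrivial G := ⟨u, 1, H.ne⟩
  refine ⟨⟨fun N hN => or_iff_not_imp_left.2 fun h => ?_⟩, by omega, h5, h6.sq, h9⟩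
  obtain ⟨⟨j, hj⟩, hj2⟩ := exists_prime_orderOf_dvd_card' 2
    (not_not.1 (mt (pPrimeCore_eq_bot_iff.1 hO N hN) h))
  rw [orderOf_mk] at hj2
  obtain ⟨g, hg⟩ := isConj_iff.1 (h9 j (by rw [← pow_two, ← hj2, pow_orderOf_eq_one])
    (by rintro rfl; simp at hj2)).symm
  exact H.eq_top (hg ▸ hN.conj_mem j hj g)

omit hk

theorem quot : ∃ ψ : IrrCharacter (G ⧸ ker χ.1), inflate _ ψ = χ ∧ Four (u : G ⧸ ker χ.1) ∧
    IsSimpleGroup (G ⧸ ker χ.1) ∧ Nat.card (G ⧸ ker χ.1) = 60 ∧
    Nat.card (centralizer ({(u : G ⧸ ker χ.1)} : Set _)) = 4 ∧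
    (∀ v ∈ centralizer ({(u : G ⧸ ker χ.1)} : Set _), v * v = 1) ∧
    ∀ s : G ⧸ ker χ.1, s * s = 1 → s ≠ 1 → IsConj (u : G ⧸ ker χ.1) s := by
  obtain ⟨ψ, h1, h2⟩ := exists_faithful_inflate_eq χ
  have h4 : Four (u : G ⧸ ker χ.1) := H.map (QuotientGroup.mk'_surjective _) fun h =>
    ne_irrOne h3 hu ((irr_ker_eq_top_iff χ).1 (H.eq_top ((QuotientGroup.eq_one_iff u).1 h)))
  exact ⟨ψ, h1, h4, h4.faithful (by rw [← charDegree_inflate, h1, h3])
    (by rw [← inflate_apply, h1, hu]) h2⟩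

theorem ker_le {χ' : IrrCharacter G} (h3' : charDegree χ'.1 = 3) (hu' : χ'.1 u = -1) :
    ker χ.1 ≤ ker χ'.1 := by
  by_contra h
  obtain ⟨ψ, h1, -⟩ := H.quot h3 hu
  obtain ⟨ψ', h1', -, h2, -⟩ := H.quot h3' hu'
  have h4 := (((inferInstance : (ker χ.1).Normal).map _
    (QuotientGroup.mk'_surjective (ker χ'.1))).eq_bot_or_eq_top).resolve_left (by
      rwa [Subgroup.map_eq_bot_iff, QuotientGroup.ker_mk'])
  have h5 : Function.Surjective
      ((QuotientGroup.mk' (ker χ.1)).prod (QuotientGroup.mk' (ker χ'.1))) := by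
    rintro ⟨a, b⟩
    obtain ⟨a, rfl⟩ := QuotientGroup.mk_surjective a
    obtain ⟨n, hn, h5⟩ := h4.ge (mem_top ((a : G ⧸ ker χ'.1)⁻¹ * b))
    refine ⟨a * n, Prod.ext (QuotientGroup.mk_mul_of_mem a hn) ?_⟩
    exact (map_mul (QuotientGroup.mk' _) a n).trans (h5 ▸ mul_inv_cancel_left _ _)
  have h6 : charDegree (irrComp _ h5 (irrProd ψ ψ')).1 = 9 := by
    rw [charDegree_irrComp, charDegree_irrProd, ← charDegree_inflate, h1, ← charDegree_inflate,
      h1', h3, h3']
  have h7 : (irrComp _ h5 (irrProd ψ ψ')).1 u = 1 := by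
    rw [irrComp_apply, irrProd_apply]
    refine (congrArg₂ (· * ·) ((congrFun (congrArg Subtype.val h1) u).trans hu)
      ((congrFun (congrArg Subtype.val h1') u).trans hu')).trans (by norm_num)
  have := H.hyp (irrComp _ h5 (irrProd ψ ψ')) fun h => by
    rw [h, charDegree_irrOne] at h6
    omega
  rw [irr_apply_one, h6, h7] at this
  norm_num at this

theorem apply_eq_zero {ψ : IrrCharacter G} (h : ψ ∉ kerSet (ker χ.1)) : ψ.1 u = 0 := by
  classical
  obtain ⟨-, -, h1, -⟩ := H.quot h3 hu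
  have h2 := sum_inflate (ker χ.1) fun ψ => ψ.1 1 * ψ.1 u
  simp only [inflate_apply, QuotientGroup.mk_one] at h2
  rw [sum_irr_degree_mul, if_neg h1.ne] at h2
  have h4 := H.sum_univ
  rw [← Finset.sum_filter_add_sum_filter_not _ fun ψ : IrrCharacter G => ker χ.1 ≤ ker ψ.1,
    H.sum_eq_zero h2.symm, zero_add] at h4
  have h5 := (Finset.sum_eq_zero_iff_of_nonneg fun ψ hψ => H.term_nonneg fun h' =>
    absurd (H.ker_le h3 hu h'.1 h'.2) (Finset.mem_filter.1 hψ).2).1 h4
  rw [H.val, (mul_eq_zero.1 (h5 ψ (Finset.mem_filter.2 ⟨Finset.mem_univ _, h⟩))).resolve_left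
    (Nat.cast_ne_zero.2 (irr_degree_pos ψ).ne'), Int.cast_zero]

omit h3 hu in
theorem main : IsMulCommutative (pPrimeCore 2 G) ∧
    ((Nonempty (G ⧸ pPrimeCore 2 G ≃* Matrix.ProjectiveSpecialLinearGroup (Fin 2) (ZMod 5)) ∧
      orderOf u = 2) ∨
    (Nonempty (G ⧸ pPrimeCore 2 G ≃* Matrix.SpecialLinearGroup (Fin 2) (ZMod 5)) ∧
      orderOf u = 4)) := by
  classical
  obtain ⟨χ, h3, hu⟩ := H.exists_three
  obtain ⟨-, -, h1, _, h2, h4, h5, h6⟩ := H.quot h3 hu
  have h7 : ∀ x : G, IsConj (u : G ⧸ ker χ.1) x →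
      (if IsConj u x then (Nat.card (centralizer ({u} : Set G)) : ℂ) else 0) = (4 : ℕ) :=
    fun x hx => by
      rw [← sum_irr_mul_conj, ← sum_bset_eq_sum_univ (kerSet (ker χ.1)) fun ψ hψ => by
        rw [H.apply_eq_zero h3 hu hψ, zero_mul], ← bker_def, bker_kerSet, if_pos hx, h4]
  refine structure_of_card_centralizer_four h2 (QuotientGroup.mk'_surjective _) h1.ne h4 h5
    (fun x hx hx1 => by_contra fun h => ?_) ?_
  · have := h7 x (h6 _ hx hx1)
    rw [if_neg h] at this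
    norm_num at this
  · have := h7 u (IsConj.refl _)
    rwa [if_pos (IsConj.refl _), Nat.cast_inj] at this

end Four

end BT
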