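import Cfsg.Agent.Lib.Block.LThree
import Cfsg.Agent.Lib.Grp.CycFour

/-!
# Blocks with defect groups `D_{2^n} × C₂`, `D_{2^n} ⋊ C₄`, ... have at most three Brauer characters
-/

set_option autoImplicit false
set_option linter.unusedSectionVars false

namespace BT

open Cfsg CT GT Subgroup
open scoped MonoidAlgebra Pointwise ComplexConjugate

universe u

variable {M : Ideal AlgInt} {hM : IsPModular 2 M}
variable {G : Type u} [Group G] [Finite G]

theorem SPair.Fus.mul_self_iff {p : ℕ} [Fact p.Prime] {hM : IsPModular p M} {m : SPair hM G}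
    {u v : G} (h : m.Fus u v) : u * u = 1 ↔ v * v = 1 := by
  rw [← pow_two, ← pow_two, (h.pow 2).eq_one_iff]

theorem SPair.Fus.sq {p : ℕ} [Fact p.Prime] {hM : IsPModular p M} {m : SPair hM G}
    {u v : G} (h : m.Fus u v) : m.Fus (u * u) (v * v) := by
  rw [← pow_two, ← pow_two]; exact h.pow 2

theorem SPair.Le.fus {p : ℕ} [Fact p.Prime] {hM : IsPModular p M} {m a : SPair hM G}
    (ha : a.Le m) {t : G} (ht : t • a = a) {u : G} (hu : u ∈ a.Q) : m.Fus u (t * u * t⁻¹) :=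
  SPair.fus_of_le ha (ht.symm ▸ ha) hu

open Classical in
theorem SPair.Reps.sum_closed {p : ℕ} [Fact p.Prime] {hM : IsPModular p M} {m : SPair hM G}
    {X : Finset G} (hX : m.Reps X) (S : Finset G) (hS : ∀ u ∈ S, u ∈ m.Q)
    (hS' : ∀ u v, u ∈ S → m.Fus u v → v ∈ S) {F : G → ℂ} (hF : m.Stable F) :
    ∑ u ∈ S, F u = ∑ v ∈ X with v ∈ S, (S.filter (m.Fus v)).card * F v := by
  rw [Finset.sum_congr rfl (g := fun u => ∑ v ∈ X with v ∈ S, if m.Fus v u then F v else 0)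
    fun u hu => ?_, Finset.sum_comm]
  · simp only [← Finset.sum_filter, Finset.sum_const, nsmul_eq_mul]
  · obtain ⟨v, ⟨hv, h1⟩, h2⟩ := hX.2 u (hS u hu)
    rw [Finset.sum_eq_single_of_mem v (Finset.mem_filter.2 ⟨hv, hS' u v hu h1⟩)
      fun w hw hwv => if_neg fun h3 => hwv (h2 w ⟨(Finset.mem_filter.1 hw).1, h3.symm⟩),
      if_pos h1.symm, hF u v h1]

/-- The bound for a major subsection with a tame Cartan matrix. -/
theorem MaxP.card_le_of_tame {B : Set (IrrCharacter G)} {m : SPair hM G} (hm : MaxP B m) {c : G}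
    (hc : c ∈ m.Q) (hc' : ∀ g ∈ m.Q, Commute c g) {n : ℕ}
    (h : ∀ (H : Type u) [Group H] [Finite H] (f : m.Q →* H), (∀ g, f g = 1 ↔ (g : G) ∈ zpowers c) →
      ∃ x y z, MaxCl f.range n x y z ∧ y * x * y⁻¹ = x⁻¹ ∧ y * y = 1) :
    blockRank 2 (m.at c).blk = 1 ∨ Nat.card B ≤ orderOf c * (2 ^ n + 3) := by
  obtain ⟨H, _, _, f, b, h1, h2, h3, h4, h5⟩ := SPair.exists_quot hc (hm.defGrp_at_of_central hc hc')
  obtain ⟨x, y, z, h6, h7, h8⟩ := h H f h1
  obtain ⟨m', hm', hQ⟩ := exists_maxP hM h2 h3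
  rcases (hm'.tameC_of_dihedral (hQ ▸ h6) h7 h8).1 with h9 | ⟨-, S, hS⟩ | ⟨S, hS⟩
  · exact Or.inl (h4 ▸ h9)
  · obtain ⟨T, hT⟩ := h5 _ S
    have := hm.card_le_sum_mul_C_of_central hc hc' T (W := !![1, 1; 0, 1]) fun v hv => by
      have h10 : v 0 ≠ 0 ∨ v 1 ≠ 0 := by
        by_contra h10
        push Not at h10
        exact hv (funext fun i => by fin_cases i <;> simp [h10])
      have h11 : (1 : ℤ) ≤ v 0 * v 0 + v 0 * v 1 + v 1 * v 1 := by
        rcases h10 with h10 | h10 <;> nlinarith [mul_self_pos.2 h10, sq_nonneg (2 * v 0 + v 1),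
          sq_nonneg (v 0 + 2 * v 1)]
      simp only [Fin.sum_univ_two, Matrix.of_apply, Matrix.cons_val', Matrix.cons_val_zero,
        Matrix.cons_val_one, Matrix.cons_val_fin_one]
      have : (1 : ℝ) ≤ v 0 * v 0 + v 0 * v 1 + v 1 * v 1 := by exact_mod_cast h11
      linarith
    right
    have h10 : (Nat.card B : ℝ) ≤ orderOf c * (2 ^ n + 3) := by
      refine this.trans_eq ?_
      simp [Fin.sum_univ_two, hT, hS]
      ring
    exact_mod_cast h10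
  · obtain ⟨T, hT⟩ := h5 _ S
    have := hm.card_le_sum_mul_C_of_central hc hc' T (W := !![1, 1, 0; 0, 1, 1; 0, 0, 1])
      fun v hv => by
      have h11 : (1 : ℤ) ≤ v 0 * v 0 + v 0 * v 1 + v 1 * v 1 + v 1 * v 2 + v 2 * v 2 := by
        by_contra h11
        have h12 : (v 0 + v 1) ^ 2 + (v 1 + v 2) ^ 2 + v 0 ^ 2 + v 2 ^ 2 ≤ 0 := by nlinarith
        have h13 : v 0 = 0 := by
          nlinarith [sq_nonneg (v 0 + v 1), sq_nonneg (v 1 + v 2), sq_nonneg (v 2)]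
        have h14 : v 2 = 0 := by
          nlinarith [sq_nonneg (v 0 + v 1), sq_nonneg (v 1 + v 2), sq_nonneg (v 0)]
        have h15 : v 1 = 0 := by rw [h13, h14] at h12; nlinarith
        exact hv (funext fun i => by fin_cases i <;> simp [h13, h14, h15])
      simp only [Fin.sum_univ_three]
      simp
      have : (1 : ℝ) ≤ v 0 * v 0 + v 0 * v 1 + v 1 * v 1 + v 1 * v 2 + v 2 * v 2 := by
        exact_mod_cast h11
      linarith
    right
    have h10 : (Nat.card B : ℝ) ≤ orderOf c * (2 ^ n + 3) := by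
      refine this.trans_eq ?_
      simp [Fin.sum_univ_three, hT, hS]
      ring
    exact_mod_cast h10

namespace MaxP

variable {B : Set (IrrCharacter G)} {m : SPair hM G} (hm : MaxP B m) {n : ℕ} {x c y : G}
  (h : DStar m.Q n x c y)
include hm h

local notation "A" => zpowers x ⊔ zpowers c
local notation "z" => x ^ 2 ^ (n + 1)

theorem ds_eq_of_fus {a b : G} (ha : a ∈ A) (ha2 : a * a = 1) (hb : b ∈ A) (hf : m.Fus a b) :
    a = b :=
  hm.eq_of_fus_central hf (fun _ hg => h.central ha ha2 hg)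
    (fun _ hg => h.central hb (hf.mul_self_iff.1 ha2) hg)
    fun _ ht hr => h.conj_eq_of_regular hr (SPair.smul_eq_self_iff.1 ht).1 ha ha2

theorem ds_mem_of_fus {a v : G} (ha : a ∈ A) (ha2 : a * a ≠ 1) (hf : m.Fus a v) : v ∈ A := by
  by_contra hv
  have h1 := h.sq_out hf.2.1 hv
  have h2 := h.sq_eq_z ha ha2 (hf.sq.mul_self_iff.2 h1)
  exact h.sq v hf.2.1 hv (hm.ds_eq_of_fus h DStar.zA h.zz (h.idx.sq_mem hf.2.1) (h2 ▸ hf.sq)).symm

/-- The `2'`-automorphisms of the centric subgroups. -/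
theorem ds_centric {a : SPair hM G} (ha : a.Le m) {t : G} (ht : IsPRegular 2 t) (hta : t • a = a) :
    t ∈ centralizer (a.Q : Set G) ∨ ((∀ q ∈ a.Q, q ∈ A → q * q = 1) ∧
      ∃ u ∈ a.Q, u ∉ A ∧ ∃ ζ ∈ A, ζ * ζ = 1 ∧ m.Fus u ζ) := by
  have hN := (SPair.smul_eq_self_iff.1 hta).1
  have hc : ∀ {u}, u ∈ a.Q → t * u * t⁻¹ ∈ a.Q := fun hu => (mem_normalizer_iff.1 hN _).1 hu
  have key : (∀ q ∈ a.Q, q ∈ A → t * q * t⁻¹ = q) → t ∈ centralizer (a.Q : Set G) := fun h1 =>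
    mem_centralizer_of_index_le_two (C := A) a.pgrp ht hN h1
      (fun q hq h2 => conj_conj_eq_iff.1 (h1 _ (hc hq) h2) ▸ h2)
      fun u hu v hv => h.idx.inv_mul_mem (ha.le hu) (ha.le hv)
  by_cases h1 : ∀ q ∈ a.Q, q ∈ A → q * q = 1
  · by_cases h2 : ∀ q ∈ a.Q, q ∈ A → t * q * t⁻¹ = q
    · exact Or.inl (key h2)
    push Not at h2
    obtain ⟨q, hq, hqA, h2⟩ := h2
    exact Or.inr ⟨h1, _, hc hq, fun h3 => h2 (hm.ds_eq_of_fus h hqA (h1 q hq hqA) h3
      (ha.fus hta hq)).symm, q, hqA, h1 q hq hqA, (ha.fus hta hq).symm⟩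
  push Not at h1
  obtain ⟨g, hg, hgA, hg2⟩ := h1
  have h2 : ∀ q ∈ a.Q, q ∈ A → t * q * t⁻¹ ∈ A := fun q hq hqA => by
    by_cases h3 : q * q = 1
    · have h4 := hm.ds_mem_of_fus h (mul_mem hqA hgA) (by
        rwa [(h.comm hgA hqA).mul_mul_mul_comm, h3, one_mul]) (ha.fus hta (mul_mem hq hg))
      rwa [← conj_mul, Subgroup.mul_mem_cancel_right _
        (hm.ds_mem_of_fus h hgA hg2 (ha.fus hta hg))] at h4
    · exact hm.ds_mem_of_fus h hqA h3 (ha.fus hta hq)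
  have h3 := h.mem_centralizer_of_le_A (R := a.Q ⊓ A) inf_le_right ⟨hg, hgA⟩ hg2 ht
    (mem_normalizer_fintype fun q hq => ⟨hc hq.1, h2 q hq.1 hq.2⟩)
  exact Or.inl (key fun q hq hqA => by rw [← h3 q ⟨hq, hqA⟩, mul_inv_cancel_right])

theorem ds_fus_iff {a v : G} (ha : a ∈ A) (ha2 : a * a ≠ 1) :
    m.Fus a v ↔ v = a ∨ v = y * a * y⁻¹ := by
  refine ⟨fun hf => ?_, by
    rintro (rfl | rfl)
    exacts [.refl (h.A_le ha), SPair.fus_conj_of_mem h.ym (h.A_le ha)]⟩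
  have h1 := hm.eq_of_fus (fun g => {k | g ∈ A ∧ g * g ≠ 1 ∧ (g = k ∨ g = y * k * y⁻¹)})
    (fun g hg u hu => ?_) (fun b hb _ t ht htb u hu => ?_) hf
  · exact (h1.le ⟨ha, ha2, Or.inl rfl⟩ : a ∈ {k | _}).2.2
  · by_cases hu' : u ∈ A
    · by_cases hg' : g ∈ A
      · rw [h.conj_in hg' hu']
      ext k
      simp only [Set.mem_ofPred_eq, h.conj_out hg hg' hu', h.conj_mem h.ym hu', hu', conj_mul,
        true_and, mul_left_inj, mul_right_inj, ne_eq, conj_eq_one_iff]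
      refine and_congr_right fun _ => or_comm.trans (or_congr_right ?_)
      have h2 : ∀ b ∈ A, y * (y * b * y⁻¹) * y⁻¹ = b := fun b hb => by
        refine Eq.trans ?_ (h.conj_in (h.idx.sq_mem h.ym) hb); group
      refine ⟨fun h3 => by rw [← h3, h2 u hu'], fun h3 => ?_⟩
      rw [h3, h2]
      simpa [h3, mul_assoc] using h.conj_mem (inv_mem h.ym) hu'
    · have h2 : g * u * g⁻¹ ∉ A := fun h2 => hu' (by
        simpa [mul_assoc] using h.conj_mem (inv_mem hg) h2)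
      simp [hu', h2]
  · rcases hm.ds_centric h hb ht htb with h2 | ⟨h2, -⟩
    · rw [← h2 u hu, mul_inv_cancel_right]
    · have h3 : ∀ q ∈ b.Q, {k | q ∈ A ∧ q * q ≠ 1 ∧ (q = k ∨ q = y * k * y⁻¹)} = ∅ := fun q hq =>
        Set.eq_empty_of_forall_notMem fun k hk => hk.2.1 (h2 q hq hk.1)
      rw [h3 u hu, h3 _ ((mem_normalizer_iff.1 (SPair.smul_eq_self_iff.1 htb).1 _).1 hu)]

theorem ds_rank {a : G} (ha : a ∈ A) (ha2 : a * a ≠ 1) : blockRank 2 (m.at a).blk = 1 := by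
  obtain ⟨⟨φ, hφ⟩, -⟩ := hm.exists_uniB_at_of_defGrp (h.A_le ha) (h.inf_centralizer_in ha ha2)
    (fun g hg k hk => (h.comm hk hg).eq) (hm.defGrp_at_of_card_le (h.A_le ha) fun w hw => by
      rw [h.inf_centralizer_in ha ha2, h.inf_centralizer_in (hm.ds_mem_of_fus h ha ha2 hw)
        (mt hw.mul_self_iff.2 ha2)])
    fun t ht _ hN => h.mem_centralizer_of_le_A le_rfl ha ha2 ht hN
  exact hφ.blockRank_eq hM (m.at a).isPBlock_blk

open Classical in
theorem ds_sum [Fintype G] {X : Finset G} (hX : m.Reps X) {F : G → ℂ} (hF : m.Stable F) :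
    ∑ v with v ∈ A ∧ v * v ≠ 1, F v = 2 * ∑ v ∈ X with v ∈ A ∧ v * v ≠ 1, F v := by
  rw [hX.sum_closed _ (fun u hu => h.A_le (Finset.mem_filter.1 hu).2.1) (fun u v hu huv => by
    have := (Finset.mem_filter.1 hu).2
    exact Finset.mem_filter.2 ⟨Finset.mem_univ _, hm.ds_mem_of_fus h this.1 this.2 huv,
      mt huv.mul_self_iff.2 this.2⟩) hF, Finset.mul_sum]
  refine Finset.sum_congr (by simp) fun v hv => ?_
  obtain ⟨-, h1, h2⟩ := Finset.mem_filter.1 hv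
  rw [show (Finset.univ.filter fun v => v ∈ A ∧ v * v ≠ 1).filter (m.Fus v) = {v, y * v * y⁻¹} from
    Finset.ext fun u => by
      rw [Finset.mem_filter, Finset.mem_insert, Finset.mem_singleton, ← hm.ds_fus_iff h h1 h2]
      exact and_iff_right_of_imp fun huv => Finset.mem_filter.2 ⟨Finset.mem_univ _,
        hm.ds_mem_of_fus h h1 h2 huv, mt huv.mul_self_iff.2 h2⟩,
    Finset.card_pair fun h3 => h2 ((h.fix_iff h1).1 h3.symm), Nat.cast_ofNat]

open Classical in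
theorem ds_card {X : Finset G} (hX : m.Reps X) :
    (X.filter fun v => v ∈ A ∧ v * v ≠ 1).card + 2 = 2 ^ (n + 2) := by
  have := Fintype.ofFinite G
  have h1 := hm.ds_sum h hX (F := fun _ => 1) fun _ _ _ => rfl
  have h2 := Finset.card_filter_add_card_filter_not (s := Finset.univ.filter (· ∈ A))
    fun v => v * v = 1
  have h3 := h.ncard_omega
  have h4 := h.card_A
  rw [Nat.card_eq_fintype_card, Fintype.card_subtype] at h4
  rw [Set.ncard_eq_toFinset_card', Set.toFinset_ofPred] at h3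
  rw [Finset.filter_filter, Finset.filter_filter, h3, h4, pow_succ] at h2
  simp only [Finset.sum_const, nsmul_eq_mul, mul_one] at h1
  have h5 : (Finset.univ.filter fun v => v ∈ A ∧ v * v ≠ 1).card =
    2 * (X.filter fun v => v ∈ A ∧ v * v ≠ 1).card := by exact_mod_cast h1
  simp only [ne_eq] at h5 ⊢
  omega

open Classical in
theorem ds_sum_lin {X : Finset G} (hX : m.Reps X) (f : stabLin m) (hf : f.1 ⟨c, h.cm⟩ = -1) :
    ∑ v ∈ X with v ∈ A ∧ v * v ≠ 1, linFun m f.1 v = 0 := by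
  have := Fintype.ofFinite G
  have h1 := hm.ds_sum h hX (stable_linFun f)
  have h2 : ∀ v ∈ A, v * c * (v * c) = v * v := fun v hv => by
    rw [(h.comm DStar.cA hv).mul_mul_mul_comm, h.cc, mul_one]
  rw [Finset.sum_involution (fun v _ => v * c) (fun v hv => ?_) (fun v _ _ => by simp [h.c_ne])
    (fun v hv => ?_) (fun v _ => by rw [mul_assoc, h.cc, mul_one])] at h1
  · simpa using h1
  · have h3 := h.A_le (Finset.mem_filter.1 hv).2.1
    rw [linFun_of_mem _ h3, linFun_of_mem _ (mul_mem h3 h.cm), ← MulMemClass.mk_mul_mk _ _ _ h3 h.cm,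
      map_mul, hf]
    simp
  · obtain ⟨-, h3, h4⟩ := Finset.mem_filter.1 hv
    exact Finset.mem_filter.2 ⟨Finset.mem_univ _, mul_mem h3 DStar.cA, by rwa [h2 v h3]⟩

variable {d : G} (hd : d ∈ zpowers (y * x * y⁻¹ * x⁻¹)) (hd2 : d * d = 1) (hd1 : d ≠ 1)
include hd

theorem ds_fus_d {v : G} (hv : v ∈ m.Q) (hv' : v ∉ A) : m.Fus v (d * v) := by
  obtain ⟨g, hg, h1⟩ := h.exists_conj_out hd hv hv'
  exact h1 ▸ SPair.fus_conj_of_mem hg hv

include hd2 hd1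

/-- An involution outside `A` which is fused to a central involution. -/
theorem ds_exists_fix {a ζ : G} (ha : a ∉ A) (hζ : ζ ∈ A) (hζ2 : ζ * ζ = 1) (hf : m.Fus a ζ) :
    ∃ e ∈ A, e * e = 1 ∧ e ≠ 1 ∧ e ≠ d ∧ e ≠ ζ ∧ m.Fus (e * a) (e * ζ) := by
  obtain ⟨g, hg, h1⟩ := hm.exists_ext_of_central hf fun _ hk => h.central hζ hζ2 hk
  have hdA := h.δ_le hd
  have h2 : ∀ e ∈ A, e * e = 1 → m.Fus e (g * e * g⁻¹) := fun e he he2 =>
    h1 e (h.A_le he) (h.central he he2 hf.1).symm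
  have h3 : ∀ e ∈ A, e * e = 1 → g * e * g⁻¹ ∈ A → m.Fus (e * a) (e * ζ) ∧ e ≠ ζ :=
    fun e he he2 h3 => by
      have h4 := hm.ds_eq_of_fus h he he2 h3 (h2 e he he2)
      have h5 := h1 (e * a) (mul_mem (h.A_le he) hf.1)
        ((h.central he he2 hf.1).symm.mul_right (Commute.refl a))
      rw [← conj_mul, ← h4, hg] at h5
      refine ⟨h5, fun h6 => ha ?_⟩
      rw [h6, ← hg, mul_left_inj, mul_right_inj] at h4
      rwa [h4, hg]
  have h4 : g * d * g⁻¹ ∉ A := fun h4 => hd1 (by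
    have := hm.ds_eq_of_fus h hζ hζ2 (mul_mem hdA hζ)
      (hf.symm.trans ((hm.ds_fus_d h hd hf.1 ha).trans (h3 d hdA hd2 h4).1))
    simpa using this)
  obtain ⟨e, he, he2, he1, hed⟩ : ∃ e ∈ A, e * e = 1 ∧ e ≠ 1 ∧ e ≠ d := by
    by_cases h5 : c = d
    · exact ⟨_, DStar.zA, h.zz, h.z_ne, h5 ▸ h.z_ne_c⟩
    · exact ⟨c, DStar.cA, h.cc, h.c_ne, h5⟩
  by_cases h5 : g * e * g⁻¹ ∈ A
  · exact ⟨e, he, he2, he1, hed, (h3 e he he2 h5).2, (h3 e he he2 h5).1⟩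
  · have h6 := h.mul_sq he hdA he2 hd2
    have h7 := h3 _ (mul_mem he hdA) h6 (by
      rw [← conj_mul]; exact h.idx.mul_mem (h2 e he he2).2.1 (h2 d hdA hd2).2.1 h5 h4)
    exact ⟨_, mul_mem he hdA, h6, fun h8 => hed (by
      rw [eq_inv_of_mul_eq_one_left h8, inv_eq_of_mul_eq_one_left hd2]), by simpa, h7.2, h7.1⟩

theorem ds_all_fused {a ζ : G} (ha : a ∉ A) (hζ : ζ ∈ A) (hζ2 : ζ * ζ = 1) (hf : m.Fus a ζ)
    {g : G} (hg : g ∈ A) (hg2 : g * g = 1) : ∃ ζ' ∈ A, ζ' * ζ' = 1 ∧ m.Fus (g * a) ζ' := by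
  obtain ⟨e, he, he2, he1, hed, -, h1⟩ := hm.ds_exists_fix h hd hd2 hd1 ha hζ hζ2 hf
  rcases h.omega_pair (h.δ_le hd) hd2 hd1 he he2 he1 hed.symm hg hg2 with rfl | rfl | rfl | rfl
  · exact ⟨ζ, hζ, hζ2, by rwa [one_mul]⟩
  · exact ⟨ζ, hζ, hζ2, (hm.ds_fus_d h hd hf.1 ha).symm.trans hf⟩
  · exact ⟨_, mul_mem he hζ, h.mul_sq he hζ he2 hζ2, h1⟩
  · refine ⟨_, mul_mem he hζ, h.mul_sq he hζ he2 hζ2, SPair.Fus.trans ?_ h1⟩
    rw [mul_assoc]
    exact (hm.ds_fus_d h hd h1.1 (h.mul_not_mem he ha)).symm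

variable (hy : y * y = 1) (hw : y * x * y⁻¹ * x = 1 ∨ y * x * y⁻¹ * x = c)
include hy hw

theorem ds_exists_lin : ∃ f : stabLin m, f.1 ⟨c, h.cm⟩ = -1 ∧ f.1 ⟨d, h.A_le (h.δ_le hd)⟩ = 1 := by
  have hdA := h.δ_le hd
  have hcd : c ≠ d := fun h1 => h.c_not_mem_δ hw (h1 ▸ hd)
  have hΩ : ∀ {e}, e ∈ A → e * e = 1 → e ≠ 1 → e ≠ d → e = c ∨ e = d * c := fun he he2 he1 hed => by
    have := h.omega_pair hdA hd2 hd1 DStar.cA h.cc h.c_ne hcd.symm he he2
    tauto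
  obtain ⟨f, hf, hf'⟩ := h.exists_lin hy hw (fun v => m.Fus v d) (fun v hv hv' _ h1 h2 => by
    obtain ⟨e, he, he2, he1, hed, -, h3⟩ := hm.ds_exists_fix h hd hd2 hd1 hv' hdA hd2 h1
    have h4 : m.Fus (c * v) (e * v) := by
      rcases hΩ he he2 he1 hed with rfl | rfl
      · exact .refl h2.1
      · rw [mul_assoc]; exact hm.ds_fus_d h hd h2.1 (h.mul_not_mem DStar.cA hv')
    exact he1 (right_eq_mul.1 (hm.ds_eq_of_fus h hdA hd2 (mul_mem he hdA)
      (h2.symm.trans (h4.trans h3)))))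
    fun g hg v hv h1 => (SPair.fus_conj_of_mem hg hv).trans h1
  have hconj : ∀ g u : m.Q, f (g * u * g⁻¹) = f u := fun g u => by simp
  have hfd : f ⟨d, h.A_le hdA⟩ = 1 := by
    obtain ⟨i, rfl⟩ := mem_zpowers_iff.1 hd
    have := congrArg (· ^ i) (mul_inv_eq_one.2 (hconj ⟨y, h.ym⟩ ⟨x, h.xm⟩))
    simp only [one_zpow] at this
    rw [← this, ← map_inv, ← map_mul, ← map_zpow]; rfl
  have h1 : ∀ e : m.Q, (e : G) ∈ A → (e : G) * e = 1 → (e : G) ≠ 1 → (e : G) ≠ d → f e = -1 :=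
    fun e he he2 he1 hed => by
      rcases hΩ he he2 he1 hed with h2 | h2
      · rw [show e = ⟨c, h.cm⟩ from Subtype.ext h2, hf]
      · rw [show e = ⟨d, h.A_le hdA⟩ * ⟨c, h.cm⟩ from Subtype.ext h2, map_mul, hfd, hf, one_mul]
  have h2 : ∀ a ζ : m.Q, (ζ : G) ∈ A → (ζ : G) * ζ = 1 → m.Fus a ζ → f a = f ζ := by
    intro a ζ hζ hζ2 h2
    by_cases ha : (a : G) ∈ A
    · rw [Subtype.ext (hm.ds_eq_of_fus h hζ hζ2 ha h2.symm)]
    by_cases h3 : (ζ : G) = d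
    · rw [hf' a ha (h2.mul_self_iff.2 hζ2) (h3 ▸ h2), show ζ = ⟨d, h.A_le hdA⟩ from Subtype.ext h3,
        hfd]
    obtain ⟨e, he, he2, he1, hed, heζ, h4⟩ := hm.ds_exists_fix h hd hd2 hd1 ha hζ hζ2 h2
    have hζ1 : (ζ : G) ≠ 1 := fun h5 => ha (h2.eq_one_iff.2 h5 ▸ one_mem _)
    have h5 : e * ζ = d := by
      rcases h.omega_pair he he2 he1 hζ hζ2 hζ1 heζ hdA hd2 with h5 | h5 | h5 | h5
      exacts [absurd h5 hd1, absurd h5.symm hed, absurd h5.symm h3, h5.symm]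
    have h6 := hf' (⟨e, h.A_le he⟩ * a) (h.mul_not_mem he ha) (h4.mul_self_iff.2 (h5 ▸ hd2))
      (h5 ▸ h4)
    rw [map_mul, h1 ⟨e, h.A_le he⟩ he he2 he1 hed, neg_one_mul, neg_eq_iff_eq_neg] at h6
    rw [h6, h1 ζ hζ hζ2 hζ1 h3]
  refine ⟨⟨f, fun u v huv => Units.ext ?_⟩, hf, hfd⟩
  rw [← linFun_of_mem f u.2, ← linFun_of_mem f v.2]
  refine hm.eq_of_fus (linFun m f) (fun g hg u hu => ?_) (fun b hb _ t ht htb u hu => ?_) huv
  · rw [linFun_of_mem f hu, ← hconj ⟨g, hg⟩, linFun_of_mem f (mul_mem (mul_mem hg hu) (inv_mem hg))]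
    rfl
  rcases hm.ds_centric h hb ht htb with h3 | ⟨h3, a, ha, ha', ζ, hζ, hζ2, h4⟩
  · rw [← h3 u hu, mul_inv_cancel_right]
  have h5 := hb.fus htb hu
  obtain ⟨ξ, hξ, hξ2, h6⟩ : ∃ ξ ∈ A, ξ * ξ = 1 ∧ m.Fus u ξ := by
    by_cases hu' : u ∈ A
    · exact ⟨u, hu', h3 u hu hu', .refl h5.1⟩
    · have h6 := h.idx.mul_inv_mem h5.1 h4.1 hu' ha'
      simpa using hm.ds_all_fused h hd hd2 hd1 ha' hζ hζ2 h4 h6 (h3 _ (mul_mem hu (inv_mem ha)) h6)
  rw [linFun_of_mem f h5.1, linFun_of_mem f h5.2.1, h2 ⟨u, h5.1⟩ ⟨ξ, h6.2.1⟩ hξ hξ2 h6,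
    h2 ⟨_, h5.2.1⟩ ⟨ξ, h6.2.1⟩ hξ hξ2 (h5.symm.trans h6)]

omit hd hd2 hd1 in
theorem ds_main : blockRank 2 B ≤ 3 := by
  classical
  obtain ⟨d, hd, hd2, hd1⟩ := h.exists_d
  obtain ⟨f, hfc, hfd⟩ := hm.ds_exists_lin h hd hd2 hd1 hy hw
  have hdA := h.δ_le hd
  have hcd : c ≠ d := fun h1 => h.c_not_mem_δ hw (h1 ▸ hd)
  obtain ⟨X, hX, hP⟩ := m.exists_reps (fun v => (v ∈ A ∧ v * v = 1) ∨
      ¬ ∃ ζ ∈ A, ζ * ζ = 1 ∧ m.Fus v ζ) fun u hu => by
    by_cases h1 : ∃ ζ ∈ A, ζ * ζ = 1 ∧ m.Fus u ζ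
    · obtain ⟨ζ, h1, h2, h3⟩ := h1
      exact ⟨ζ, h3, Or.inl ⟨h1, h2⟩⟩
    · exact ⟨u, .refl hu, Or.inr h1⟩
  have hdX : d ∈ X := by
    obtain ⟨v, ⟨hv, h1⟩, -⟩ := hX.2 d (h.A_le hdA)
    rwa [hm.ds_eq_of_fus h hdA hd2 ((hP v hv).resolve_right
      (not_not.2 ⟨d, hdA, hd2, h1.symm⟩)).1 h1]
  set l : G → ℕ := fun v => blockRank 2 (m.at v).blk with hl
  set r : G → ℝ := fun v => (linFun m f.1 v).re with hr
  set Y := X.filter fun v => v ∈ A ∧ v * v ≠ 1 with hY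
  have hr1 : ∀ v ∈ m.Q, |r v| ≤ 1 := fun v hv => by
    refine (Complex.abs_re_le_norm _).trans_eq ?_
    rw [linFun_of_mem _ hv]
    exact units_hom_norm _ _
  have hk : (Nat.card B : ℝ) = ∑ v ∈ X, (l v : ℝ) := by exact_mod_cast hm.card_eq_sum_reps hX
  have ht : ∑ v ∈ X, r v * l v = 0 := by
    have := congrArg Complex.re (@sum_linFun_mul_blockRank _ _ _ _ _ _ _ _ _ hm _ hX f ⟨c, h.cm⟩
      (fun g hg => h.central DStar.cA h.cc hg) (by
        rw [hfc]; exact fun h1 => by have := congrArg Units.val h1; norm_num at this))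
    simpa [Complex.re_sum] using this
  have hYc : (Y.card : ℝ) + 2 = 2 ^ (n + 2) := by exact_mod_cast hm.ds_card h hX
  have hYs : ∀ ε : ℝ, ∑ v ∈ Y, (1 + ε * r v) * l v = Y.card := fun ε => by
    have := congrArg Complex.re (hm.ds_sum_lin h hX f hfc)
    rw [Complex.re_sum, Complex.zero_re] at this
    rw [Finset.sum_congr rfl (g := fun v => 1 + ε * r v) fun v hv => by
      obtain ⟨-, h1, h2⟩ := Finset.mem_filter.1 hv
      simp only [hl, hm.ds_rank h h1 h2, Nat.cast_one, mul_one],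
      Finset.sum_add_distrib, ← Finset.mul_sum, this]
    simp
  have hks : ∀ ε : ℝ, (Nat.card B : ℝ) = ∑ v ∈ X, (1 + ε * r v) * l v := fun ε => by
    simp only [add_mul, one_mul, Finset.sum_add_distrib, mul_assoc, ← Finset.mul_sum, ht, hk,
      mul_zero, add_zero]
  have hr_one : r 1 = 1 := by
    simp only [hr, linFun_of_mem _ m.Q.one_mem]
    rw [show (⟨1, m.Q.one_mem⟩ : m.Q) = 1 from rfl, map_one]; rfl
  have hr_d : r d = 1 := by simp only [hr, linFun_of_mem _ (h.A_le hdA), hfd]; rfl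
  have hl_pos : ∀ v, 1 ≤ l v := fun v => blockRank_pos (block_nonempty hM (m.at v).isPBlock_blk)
  have hdis : ∀ a b : G, a * a = 1 → b * b = 1 → Disjoint {a, b} Y := fun a b ha hb => by
    rw [Finset.disjoint_left]
    intro v hv hv'
    rcases Finset.mem_insert.1 hv with rfl | hv
    · exact (Finset.mem_filter.1 hv').2.2 ha
    · exact (Finset.mem_filter.1 hv').2.2 (Finset.mem_singleton.1 hv ▸ hb)
  have low : 2 * blockRank 2 B + 2 ^ (n + 2) ≤ Nat.card B := by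
    have h1 := Finset.sum_le_sum_of_subset_of_nonneg (f := fun v => (1 + 1 * r v) * l v)
      (show {1, d} ∪ Y ⊆ X from Finset.union_subset
        (by simp [Finset.insert_subset_iff, hX.one_mem, hdX]) (Finset.filter_subset _ _))
      fun v hv _ => mul_nonneg (by linarith [(abs_le.1 (hr1 v (hX.1 v hv))).1]) (Nat.cast_nonneg _)
    rw [← hks, Finset.sum_union (hdis 1 d (one_mul 1) hd2), hYs, Finset.sum_pair hd1.symm, hr_one,
      hr_d, show l 1 = blockRank 2 B from hm.blockRank_at_one] at h1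
    have h2 : (1 : ℝ) ≤ l d := by exact_mod_cast hl_pos d
    have h3 : (2 * blockRank 2 B + 2 ^ (n + 2) : ℝ) ≤ Nat.card B := by linarith
    exact_mod_cast h3
  suffices up : Nat.card B ≤ 2 ^ (n + 2) + 6 by omega
  have hcc : ∀ g ∈ m.Q, Commute c g := fun g hg => h.central DStar.cA h.cc hg
  rcases hm.card_le_of_tame h.cm hcc (n := n + 1) (fun H _ _ φ hφ =>
    ⟨_, _, _, (h.maxCl_quot hw hφ).1, (h.maxCl_quot hw hφ).2, by
      rw [← map_mul, show (⟨y, h.ym⟩ * ⟨y, h.ym⟩ : m.Q) = 1 from Subtype.ext hy, map_one]⟩)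
    with h1 | h1
  swap
  · rw [orderOf_eq_two_of_mul_self h.cc h.c_ne] at h1
    rw [pow_succ]; omega
  by_cases h2 : ∃ u ∈ m.Q, u ∉ A ∧ ¬ ∃ ζ ∈ A, ζ * ζ = 1 ∧ m.Fus u ζ
  · obtain ⟨u, hu, huA, h2⟩ := h2
    have h3 := hm.defGrp_at_of_card_le hu fun w hw' => by
      rw [h.card_inf_centralizer_out hu huA, h.card_inf_centralizer_out hw'.2.1 fun h3 => ?_]
      by_cases h4 : w * w = 1
      · exact h2 ⟨w, h3, h4, hw'⟩
      · exact huA (hm.ds_mem_of_fus h h3 h4 hw'.symm)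
    have hΩ : ∀ {e}, e ∈ A → e * e = 1 → e ∈ m.Q ⊓ centralizer ({u} : Set G) := fun he he2 =>
      ⟨h.A_le he, mem_centralizer_singleton_iff.2 (h.central he he2 hu).eq⟩
    have h4 := hm.card_height_zero_le hu (SPair.blockRank_at_le_three hu h3
      ⟨hu, mem_centralizer_singleton_iff.2 rfl⟩ (hΩ DStar.cA h.cc) (hΩ DStar.zA h.zz)
      (h.idx_inf_centralizer_out hu huA))
    rw [← SPair.card_defGrp h3, h.card_inf_centralizer_out hu huA] at h4
    have h5 := hm.four_mul_card_le h.cm hcc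
    rw [h1, h.card_D, show 2 ^ (n + 4) = 4 * 2 ^ (n + 2) by ring] at h5
    omega
  push Not at h2
  have hdc2 := h.mul_sq hdA DStar.cA hd2 h.cc
  have hdcA := mul_mem hdA (DStar.cA (x := x) (c := c))
  have h3 : l (d * c) ≤ 3 := by
    obtain ⟨ζ, -, h3, h4⟩ := h2 _ (mul_mem h.xm h.ym) (h.mul_not_mem DStar.xA h.yA)
    have h5 := h4.mul_self_iff.2 h3
    rw [h.sq_mul_out DStar.xA h.ym h.yA, hy, mul_one] at h5
    have h6 : d ∈ zpowers x := by
      rw [eq_inv_of_mul_eq_one_left h5] at hd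
      exact zpowers_le.2 (mul_mem (inv_mem (mem_zpowers x)) (inv_mem (mem_zpowers x))) hd
    have h7 : ∀ g ∈ m.Q, Commute (d * c) g := fun g hg => h.central hdcA hdc2 hg
    refine SPair.blockRank_at_le_three (h.A_le hdcA) (hm.defGrp_at_of_central (h.A_le hdcA) h7)
      (h.A_le hdcA) h.xm h.ym (h.idx.mono le_rfl (sup_le le_sup_left (zpowers_le.2 ?_)))
    exact (Subgroup.mul_mem_cancel_left _ (mem_sup_left h6)).1 (mem_sup_right (mem_zpowers _))
  have h4 := Finset.sum_le_sum_of_subset_of_nonneg (f := fun v => (1 + -1 * r v) * l v)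
    (show X.filter (fun v => (1 + -1 * r v) * l v ≠ 0) ⊆ {c, d * c} ∪ Y from fun v hv => by
      obtain ⟨hv, h4⟩ := Finset.mem_filter.1 hv
      have hvA : v ∈ A := by
        by_contra h5
        exact (hP v hv).elim (fun h6 => h5 h6.1) fun h6 => h6 (h2 v (hX.1 v hv) h5)
      by_cases h5 : v * v = 1
      · rcases h.omega_pair hdA hd2 hd1 DStar.cA h.cc h.c_ne hcd.symm hvA h5 with
          rfl | rfl | rfl | rfl
        · simp [hr_one] at h4
        · simp [hr_d] at h4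
        · simp
        · simp
      · exact Finset.mem_union_right _ (Finset.mem_filter.2 ⟨hv, hvA, h5⟩))
    fun v hv _ => mul_nonneg (by
      have h5 : v ∈ m.Q := by
        rcases Finset.mem_union.1 hv with h5 | h5
        · rcases Finset.mem_insert.1 h5 with rfl | h5
          exacts [h.cm, Finset.mem_singleton.1 h5 ▸ h.A_le hdcA]
        · exact hX.1 v (Finset.mem_filter.1 h5).1
      linarith [(abs_le.1 (hr1 v h5)).2]) (Nat.cast_nonneg _)
  rw [Finset.sum_filter_ne_zero, ← hks, Finset.sum_union (hdis _ _ h.cc hdc2), hYs,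
    Finset.sum_pair (by simpa using hd1), show l c = 1 from h1] at h4
  have h5 : (l (d * c) : ℝ) ≤ 3 := by exact_mod_cast h3
  have h6 := (abs_le.1 (hr1 c h.cm)).1
  have h7 := (abs_le.1 (hr1 _ (h.A_le hdcA))).1
  have h8 : (Nat.card B : ℝ) ≤ 2 ^ (n + 2) + 6 := by
    rw [Nat.cast_one] at h4
    nlinarith [mul_nonneg (sub_nonneg.2 h7) (Nat.cast_nonneg (α := ℝ) (l (d * c)))]
  exact_mod_cast h8

end MaxP

variable (hM) in
include hM in
theorem blockRank_le_three_of_dStar {B : Set (IrrCharacter G)} (hB : IsPBlock M B)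
    {D : Subgroup G} (hD : IsDefectGroup 2 M B D) {n : ℕ} {x c y : G} (h : DStar D n x c y) :
    blockRank 2 B ≤ 3 := by
  obtain ⟨m, hm, rfl⟩ := exists_maxP hM hB hD
  by_cases h1 : ∃ v ∈ m.Q, v ∉ zpowers x ⊔ zpowers c ∧ v * v = 1
  · obtain ⟨v, hv, hv', h2⟩ := h1
    obtain ⟨c', h', hw⟩ := h.exists_normal hv hv' h2
    exact hm.ds_main h' h2 hw
  · rw [hm.blockRank_eq_one_of_centric fun a ha _ t ht hta => (hm.ds_centric h ha ht hta).resolve_right
      fun ⟨_, u, hu, hu', _, _, h2, h3⟩ => h1 ⟨u, ha.le hu, hu', h3.mul_self_iff.2 h2⟩]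
    omega

variable (hM) in
include hM in
theorem blockRank_le_three_of_smallThree {B : Set (IrrCharacter G)} (hB : IsPBlock M B)
    {D : Subgroup G} (hD : IsDefectGroup 2 M B D) (h : SmallThree D) : blockRank 2 B ≤ 3 := by
  rcases h with ⟨a, ha, b, hb, h⟩ | ⟨h1, h2⟩ | ⟨n, a, c, b, h⟩
  · exact blockRank_le_three_of_idx hM hB hD ha hb h
  · exact blockRank_le_three_of_rank_two hM hB hD h1 h2
  · exact blockRank_le_three_of_dStar hM hB hD h

end BT
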