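import Cfsg.Agent.Lib.Char.SetSum
import Cfsg.Agent.Lib.Block.SecondMain

/-!
# Blocks of defect zero through the sum of the elements of a `p`-subgroup
-/

set_option autoImplicit false
set_option linter.unusedSectionVars false

namespace BT

open Cfsg CT GT
open scoped MonoidAlgebra

variable {p : ℕ} [Fact p.Prime] {M : Ideal AlgInt} (hM : IsPModular p M)
variable {G : Type*} [Group G] [Finite G]

include hM in
theorem blockDefect_eq_zero_iff_defGrp_bot {B : Set (IrrCharacter G)} (hB : IsPBlock M B) :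
    blockDefect p B = 0 ↔ DefGrp p ⊤ (idem hM B) ⊥ := by
  constructor
  · intro h
    obtain ⟨D, hD⟩ := exists_isDefectGroup hM hB
    have h1 := card_defectGroup hM hB hD
    rw [h, pow_zero, Subgroup.card_eq_one] at h1
    exact h1 ▸ defGrp_of_isDefectGroup hM hB hD
  · intro h
    have h1 := card_defectGroup hM hB ((isDefectGroup_iff_defGrp hM hB ⊥).2 h)
    rw [Subgroup.card_bot] at h1
    exact (Nat.pow_eq_one.1 h1.symm).resolve_left (Fact.out : p.Prime).one_lt.ne'

theorem DefGrp.br_eq_zero_of_bot {R : Type*} [CommRing R] {e : R[G]} (h : DefGrp p ⊤ e ⊥)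
    {Q : Subgroup G} (hQ : IsPGroup p Q) (hQ1 : Q ≠ ⊥) : br Q e = 0 := by
  by_contra h0
  have := h.card_le le_top hQ h0
  rw [Subgroup.card_bot] at this
  exact hQ1 (Subgroup.card_le_one_iff_eq_bot _ |>.1 this)

theorem ssum_mul_ne_zero {R : Type*} [Field R] [CharP R p] {U : Subgroup G} (hU : IsPGroup p U)
    {e : R[G]} (he : IsCentral e) (hee : e * e = e) (h0 : e ≠ 0) :
    ssum R (U : Set G) * e ≠ 0 := by
  classical
  have := Fintype.ofFinite G
  intro h
  apply h0
  refine eq_zero_of_coset_sum_eq_zero hU hee (he.isFixed U) fun y => ?_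
  rw [← ((isCentral_iff_commute.1 he) _).eq,
    ssum_eq_sum (s := Finset.univ.filter (· ∈ U)) (by simp), Finset.mul_sum] at h
  have h1 := congrArg (fun a => a.coeff y) h
  simp only [coeff_sum_apply, coeff_mul_gel, MonoidAlgebra.coeff_zero, Finsupp.zero_apply] at h1
  rw [← h1, ← Equiv.sum_comp (Equiv.inv U)]
  exact (Finset.sum_subtype (p := (· ∈ U)) _ (by simp) (fun x => e.coeff (y * x⁻¹))).symm

theorem exists_ssum_mul_eq_of_defGrp_bot {R : Type*} [Field R] [CharP R p] {U : Subgroup G}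
    (hU : IsPGroup p U) {e : R[G]} (he : IsCentral e) (hD : DefGrp p ⊤ e ⊥) :
    ∃ x : R[G], ssum R (U : Set G) * e = ssum R (U : Set G) * x * ssum R (U : Set G) := by
  classical
  have := Fintype.ofFinite G
  obtain ⟨x, hx⟩ := exists_eq_sum_cj (he.isFixed U) (fun y hy u hu huy => by
    by_contra hu1
    have hle : Subgroup.zpowers u ≤ U := by simpa using hu
    have h1 := hD.br_eq_zero_of_bot (hU.to_le hle) (by simpa using hu1)
    refine hy (br_eq_zero_iff.1 h1 y ?_)
    rw [Subgroup.mem_centralizer_iff]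
    rintro _ ⟨k, rfl⟩
    exact (Commute.zpow_left huy k).eq)
  refine ⟨x, ?_⟩
  rw [hx, Finset.mul_sum]
  conv_rhs => rw [ssum_eq_sum (S := (U : Set G)) (s := Finset.univ.filter (· ∈ U)) (by simp)]
  rw [← ssum_eq_sum (S := (U : Set G)) (s := Finset.univ.filter (· ∈ U)) (by simp)]
  have h2 : ssum R (U : Set G) = ∑ u : U, gel R ((u : G)⁻¹) := by
    rw [ssum_eq_sum (S := (U : Set G)) (s := Finset.univ.filter (· ∈ U)) (by simp),
      ← Equiv.sum_comp (Equiv.inv U)]
    simp only [Equiv.inv_apply, Subgroup.coe_inv, inv_inv]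
    exact Finset.sum_subtype (p := (· ∈ U)) _ (by simp) (fun x => gel R x)
  conv_rhs => rw [mul_assoc]; enter [2, 2]; rw [h2]
  rw [Finset.mul_sum, Finset.mul_sum]
  refine Finset.sum_congr rfl fun u _ => ?_
  rw [cj_eq_mul, ← mul_assoc, ← mul_assoc, ssum_mul_gel_of_mem u.2, mul_assoc]

theorem exists_smul_of_forall_gel {R : Type*} [CommRing R] {a b c T : R[G]}
    (h : ∀ g g' : G, ∃ r : R, a * gel R g * b * gel R g' * c = r • T) (x y : R[G]) :
    ∃ r : R, a * x * b * y * c = r • T := by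
  have := Fintype.ofFinite G
  choose r hr using h
  refine ⟨∑ g, ∑ g', x.coeff g * y.coeff g' * r g g', ?_⟩
  conv_lhs => rw [eq_sum_smul_single x, eq_sum_smul_single y]
  simp only [Finset.mul_sum, Finset.sum_mul, Finset.sum_smul, mul_smul_comm, smul_mul_assoc,
    Finset.smul_sum]
  rw [Finset.sum_comm]
  refine Finset.sum_congr rfl fun g _ => Finset.sum_congr rfl fun g' _ => ?_
  rw [hr, smul_smul, smul_smul, mul_comm (y.coeff g')]

omit [Finite G] in
theorem coeff_one_mul_comm {R : Type*} [CommRing R] [Fintype G] (a b : R[G]) :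
    (a * b).coeff 1 = (b * a).coeff 1 := by
  rw [coeff_mul_eq_sum, coeff_mul_eq_sum']
  simp [mul_comm]

/-- If `T kG T = kT ≠ 0` then `G` has a block of defect zero. -/
theorem exists_defect_zero_of_rank_one {T : (ResF hM)[G]}
    (h2 : ∀ g : G, ∃ c : ResF hM, T * gel _ g * T = c • T)
    {m : G} (h3 : T * gel _ m * T ≠ 0) :
    ∃ B : Set (IrrCharacter G), IsPBlock M B ∧ blockDefect p B = 0 := by
  classical
  have := Fintype.ofFinite G
  choose l hl using h2
  have hT0 : T ≠ 0 := by rintro rfl; simp at h3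
  have hlm : l m ≠ 0 := by intro h; rw [hl, h, zero_smul] at h3; exact h3 rfl
  have key : ∀ g y : G, l g * T.coeff y⁻¹ = l y * T.coeff g⁻¹ := fun g y => by
    have h1 : (T * gel _ g * T * gel _ y).coeff 1 = l g * T.coeff y⁻¹ := by
      rw [hl, coeff_mul_gel]; simp
    have h2 : (T * gel _ y * T * gel _ g).coeff 1 = l y * T.coeff g⁻¹ := by
      rw [hl, coeff_mul_gel]; simp
    rw [← h1, ← h2, mul_assoc (T * gel _ g), coeff_one_mul_comm, ← mul_assoc]
  obtain ⟨y, hy⟩ : ∃ y : G, T.coeff y⁻¹ ≠ 0 := by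
    by_contra h
    push Not at h
    exact hT0 (ga_ext fun g => by simpa using h g⁻¹)
  set μ := l y / T.coeff y⁻¹ with hμ
  have hlg : ∀ g, l g = μ * T.coeff g⁻¹ := fun g => by
    rw [hμ]; field_simp; rw [key g y]
  have hμ0 : μ ≠ 0 := by intro h; rw [hlg, h, zero_mul] at hlm; exact hlm rfl
  set z : (ResF hM)[G] := ∑ g : G, cj g (T * gel _ m) with hz
  have hzc : IsCentral z := isCentral_sum_cj _
  have hTz : T * z = (μ * l m) • T := by
    rw [hz, Finset.mul_sum]
    have h1 : ∀ g : G, T * cj g (T * gel _ m) =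
        μ • (T * gel _ m * (T.coeff g⁻¹ • gel _ g⁻¹)) := fun g => by
      rw [cj_eq_mul, ← mul_assoc, ← mul_assoc, ← mul_assoc, hl, hlg]
      simp only [smul_mul_assoc, mul_smul_comm, smul_smul]
    simp only [h1]
    have h2 : ∑ g : G, T.coeff g⁻¹ • gel (ResF hM) g⁻¹ = T :=
      (Equiv.sum_comp (Equiv.inv G) (fun g => T.coeff g • gel (ResF hM) g)).trans
        (eq_sum_smul_single T).symm
    rw [← Finset.smul_sum, ← Finset.mul_sum, h2, hl, smul_smul]
  have hzn : ¬ IsNilpotent z := by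
    rintro ⟨k, hk⟩
    have h1 : ∀ j : ℕ, T * z ^ j = (μ * l m) ^ j • T := fun j => by
      induction j with
      | zero => simp
      | succ j ih => rw [pow_succ, ← mul_assoc, ih, smul_mul_assoc, hTz, smul_smul, pow_succ]
    have h2 := h1 k
    rw [hk, mul_zero] at h2
    exact hT0 ((smul_eq_zero.1 h2.symm).resolve_left (pow_ne_zero _ (mul_ne_zero hμ0 hlm)))
  obtain ⟨χ, hχ⟩ : ∃ χ : IrrCharacter G, lam hM χ.1 z ≠ 0 := by
    by_contra h
    push Not at h
    exact hzn (isNilpotent_of_forall_lam_eq_zero hM hzc h)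
  have hB : IsPBlock M (blockOf M χ.1) := isPBlock_blockOf χ
  refine ⟨_, hB, ?_⟩
  obtain ⟨D, hD⟩ := exists_isDefectGroup hM hB
  have hD' := defGrp_of_isDefectGroup hM hB hD
  rw [blockDefect_eq_zero_iff_defGrp_bot hM hB]
  by_cases hD1 : D = ⊥
  · exact hD1 ▸ hD'
  · exact absurd (br_sum_cj_eq_zero hD'.pgroup hD1 _)
      (br_ne_zero_of_lam_ne_zero hM hB (mem_blockOf_self hM χ) hzc hχ hD'.pgroup hD'.br_ne)

/-- If all products `Û g Û g' Û` lie on one line, there is at most one block of defect zero. -/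
theorem defect_zero_unique {U : Subgroup G} (hU : IsPGroup p U) {T : (ResF hM)[G]}
    (h1 : ∀ g g' : G, ∃ c : ResF hM, ssum _ (U : Set G) * gel _ g * ssum _ (U : Set G) *
      gel _ g' * ssum _ (U : Set G) = c • T)
    {B B' : Set (IrrCharacter G)} (hB : IsPBlock M B) (hB' : IsPBlock M B')
    (h : blockDefect p B = 0) (h' : blockDefect p B' = 0) : B = B' := by
  have key : ∀ {B : Set (IrrCharacter G)}, IsPBlock M B → blockDefect p B = 0 →
      ∃ a : ResF hM, a ≠ 0 ∧ ssum _ (U : Set G) * idem hM B = a • T := fun {B} hB h => by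
    have hc := isCentral_idem hM B
    obtain ⟨x, hx⟩ := exists_ssum_mul_eq_of_defGrp_bot hU hc
      ((blockDefect_eq_zero_iff_defGrp_bot hM hB).1 h)
    obtain ⟨a, ha⟩ := exists_smul_of_forall_gel h1 x x
    have h2 : ssum _ (U : Set G) * idem hM B = a • T := by
      rw [← ha, ← idem_mul_self hM hB, ← mul_assoc, hx, mul_assoc _ _ (idem hM B), hx]
      simp only [mul_assoc]
    refine ⟨a, fun h0 => ?_, h2⟩
    rw [h0, zero_smul] at h2
    exact ssum_mul_ne_zero hU hc (idem_mul_self hM hB) (idem_ne_zero hM hB) h2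
  obtain ⟨a, ha0, ha⟩ := key hB h
  obtain ⟨a', ha0', ha'⟩ := key hB' h'
  by_contra hne
  have h2 : T * idem hM B' = 0 := by
    have := congrArg (· * idem hM B') ha
    simp only [mul_assoc, idem_mul_of_ne hM hB hB' hne, mul_zero, smul_mul_assoc] at this
    exact (smul_eq_zero.1 this.symm).resolve_left ha0
  have h3 := congrArg (· * idem hM B') ha'
  simp only [mul_assoc, idem_mul_self hM hB', smul_mul_assoc, h2, smul_zero] at h3
  exact ssum_mul_ne_zero hU (isCentral_idem hM B') (idem_mul_self hM hB') (idem_ne_zero hM hB') h3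

theorem card_defect_zero_eq_one {U : Subgroup G} (hU : IsPGroup p U) {a : (ResF hM)[G]}
    (h1 : ∀ g g' : G, ∃ c : ResF hM, ssum _ (U : Set G) * gel _ g * ssum _ (U : Set G) *
      gel _ g' * ssum _ (U : Set G) = c • (ssum _ (U : Set G) * a * ssum _ (U : Set G)))
    {m : G} (h3 : (ssum _ (U : Set G) * a * ssum _ (U : Set G)) * gel _ m *
      (ssum _ (U : Set G) * a * ssum _ (U : Set G)) ≠ 0) :
    Nat.card {B : Set (IrrCharacter G) // IsPBlock M B ∧ blockDefect p B = 0} = 1 := by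
  rw [Nat.card_eq_one_iff_exists]
  obtain ⟨B, hB, hB0⟩ := exists_defect_zero_of_rank_one hM
    (T := ssum _ (U : Set G) * a * ssum _ (U : Set G)) (fun g => by
      obtain ⟨c, hc⟩ := exists_smul_of_forall_gel h1 a (gel _ g)
      obtain ⟨d, hd⟩ := exists_smul_of_forall_gel h1 a a
      refine ⟨c * d, ?_⟩
      rw [← mul_assoc, ← mul_assoc, hc, smul_mul_assoc, smul_mul_assoc, hd, smul_smul]) h3
  exact ⟨⟨B, hB, hB0⟩, fun B' => Subtype.ext
    (defect_zero_unique hM hU h1 B'.2.1 hB B'.2.2 hB0)⟩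

end BT
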