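import Cfsg.Agent.Lib.Grp.Ord64C
import Cfsg.Agent.Lib.Block.LThree
import Cfsg.Agent.Lib.Block.Alp

/-!
# Maximal Brauer pairs with automorphisms of odd order
-/

set_option autoImplicit false
set_option linter.unusedSectionVars false

namespace BT

open Cfsg CT GT Subgroup
open scoped MonoidAlgebra Pointwise

universe u

variable {M : Ideal AlgInt} {hM : IsPModular 2 M}
variable {G : Type u} [Group G] [Finite G]

namespace MaxP

variable {B : Set (IrrCharacter G)} {m : SPair hM G} (hm : MaxP B m)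
include hm

theorem exists_ess (h : blockRank 2 B ≠ 1) : ∃ Q N, Ess m.Q Q N := by
  obtain ⟨S, hS⟩ : ∃ S : Set (SPair hM G), ∀ a, a ∈ S ↔ a.Le m ∧
      ∃ t, t • a = a ∧ IsPRegular 2 t ∧ t ∉ centralizer (a.Q : Set G) := ⟨{a | _}, fun _ => Iff.rfl⟩
  obtain ⟨a₀, ha₀, hmax⟩ := S.exists_max_image (fun a => Nat.card a.Q) (Set.toFinite S) (by
    by_contra h1
    exact h (hm.blockRank_eq_one_of_centric fun a ha _ t ht h2 => by_contra fun h3 =>
      h1 ⟨a, (hS a).2 ⟨ha, t, h2, ht, h3⟩⟩))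
  obtain ⟨h1, t₀, h2, h3, h4⟩ := (hS a₀).1 ha₀
  obtain ⟨x, -, h5, hD⟩ := hm.max.exists_conj_fullyNormalized hM h1
  obtain ⟨a, ha⟩ : ∃ a, a = x • a₀ := ⟨_, rfl⟩
  replace h5 : a.Le m := ha ▸ h5
  replace hD : DefGrp 2 (NP ⊤ a.Q a.e) a.e (m.Q ⊓ normalizer (a.Q : Set G)) := ha ▸ hD
  have h6 : Nat.card a₀.Q = Nat.card a.Q := ha ▸ (card_conj_smul x a₀.Q).symm
  have hC : centralizer (a.Q : Set G) ≤ NP ⊤ a.Q a.e :=
    (le_inf le_top le_rfl).trans a.bp.inf_centralizer_le_NP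
  refine ⟨a.Q, NP ⊤ a.Q a.e, m.pgrp, h5.le, hC, NP_le_normalizer, hD.le, ?_,
    ⟨x * t₀ * x⁻¹, SPair.smul_eq_iff_mem_NP.1 ?_, h3.conj x, fun e => h4 fun q hq => ?_⟩,
    fun t ht ht1 ht2 K hK1 hK2 hK3 => ?_⟩
  · have := DefGrp.not_dvd_relIndex_sup hM a.bp.bidem a.bp.inf_centralizer_le_NP
      NP_le_normalizer_inf_centralizer isFixed_NP hD
    rwa [top_inf_eq] at this
  · rw [ha, mul_smul, mul_smul, inv_smul_smul, h2]
  · have := e (x * q * x⁻¹) (ha ▸ SPair.conj_mem_smul_Q.2 hq)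
    rwa [conj_mul, conj_mul, mul_left_inj, mul_right_inj] at this
  have hL := sup_le hD.le hC
  have hQD : a.Q ≤ m.Q ⊓ normalizer (a.Q : Set G) := le_inf h5.le le_normalizer
  have hta := SPair.smul_eq_iff_mem_NP.2 ht
  obtain ⟨c, hc, hcQ⟩ := m.exists_le (Q := m.Q ⊓ K) inf_le_left
  obtain ⟨d, hd, hdQ⟩ := m.exists_le (Q := m.Q ⊓ normalizer (a.Q : Set G)) inf_le_left
  have hac : a.Le c := h5.of_le hc (hcQ ▸ le_inf h5.le (le_sup_left.trans hK1))
  have htK : (t • c).Q ≤ K := fun g hg => by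
    rw [SPair.mem_smul_Q, hcQ] at hg
    exact (mem_normalizer_iff''.1 hK3 g).2 hg.2
  have hn1 : NSub 2 ⊤ a.Q a.e d.Q d.e :=
    PLe.nsub hM (h5.of_le hd (hdQ ▸ hQD)) (hdQ ▸ inf_le_right)
  have hn2 : NSub 2 ⊤ a.Q a.e (t • c).Q (t • c).e := by
    have := hac.smul t
    rw [hta] at this
    exact PLe.nsub hM this (htK.trans (hK2.trans (hL.trans NP_le_normalizer)))
  have hD' := hD.of_le_of_bIdem hM le_sup_left hL (a.bp.bIdem_of_le hM le_top
    (hQD.trans le_sup_left) (inf_le_right.trans le_sup_right) (hL.trans NP_le_normalizer)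
    (isFixed_NP.mono hL))
  obtain ⟨l, hl, h7⟩ := hn1.exists_conj_ple_of_defGrp hM hn2 (hQD.trans le_sup_left)
    (inf_le_right.trans le_sup_right) hL (by rw [hdQ]; exact hD') (htK.trans hK2)
  obtain ⟨u, hu, k, hk, rfl⟩ := (mem_sup_of_le_normalizer_right
    (inf_le_right.trans (normalizer_le_normalizer_centralizer a.Q))).1 hl
  have h8 := (SPair.Le.trans (show ((u * k) • t • c).Le d from h7) hd).smul u⁻¹
  rw [SPair.smul_of_mem (inv_mem hu.1), mul_smul, inv_smul_smul, ← mul_smul] at h8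
  have h9 : (k * t) • c = c := h8.unique hc (eq_of_le_of_card_ge (fun g hg => by
    rw [hcQ]
    refine ⟨h8.le hg, ?_⟩
    rw [SPair.mem_smul_Q, hcQ] at hg
    exact (mem_normalizer_iff''.1 (mul_mem (le_normalizer (hK1 (mem_sup_right hk))) hK3) g).2 hg.2)
    (card_conj_smul (k * t) c.Q).ge)
  have h10 := hmax c ((hS c).2 ⟨hc, pRegPart 2 (k * t),
    pRegPart_mem (K := MulAction.stabilizer G c) 2 h9, isPRegular_pRegPart 2 _, fun e => ht2 ?_⟩)
  · exact hcQ ▸ (eq_of_le_of_card_ge hac.le (h6 ▸ h10)).ge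
  have h11 := NP_le_normalizer ht
  have h12 : k * t ∈ normalizer (a.Q : Set G) := mul_mem (centralizer_le_normalizer _ hk) h11
  have h13 : ∀ g (hg : g ∈ normalizer (a.Q : Set G)), a.Q.normalizerMonoidHom ⟨g, hg⟩ = 1 ↔
      g ∈ centralizer (a.Q : Set G) := fun g hg => by
    rw [← MonoidHom.mem_ker, normalizerMonoidHom_ker, mem_subgroupOf]
  refine (h13 t h11).1 (IsPElt.eq_one_of_isPRegular (p := 2) ?_ (((isPRegular_mk h11).2 ht1).map _))
  have h14 : (⟨t, h11⟩ : normalizer (a.Q : Set G)) = ⟨k, centralizer_le_normalizer _ hk⟩⁻¹ *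
      ⟨_, pPart_mem 2 h12⟩ * ⟨_, pRegPart_mem 2 h12⟩ := Subtype.ext (by
    change t = k⁻¹ * _ * _
    rw [mul_assoc, pPart_mul_pRegPart, inv_mul_cancel_left])
  rw [h14, map_mul, map_mul, map_inv, (h13 k _).2 hk, (h13 _ _).2 (centralizer_le hac.le e),
    inv_one, one_mul, mul_one]
  exact ((isPElt_mk _).2 (isPElt_pPart 2 _)).map _

theorem typeTwo_of_blockRank_at (h64 : Nat.card m.Q = 64)
    (hg : ∀ N ≤ m.Q, (∀ u ∈ m.Q, u * u ∈ N) → 16 ≤ Nat.card N)
    (he : ∀ u ∈ m.Q, (∀ g ∈ m.Q, g * u = u * g) → u * u = 1) (hx : ∀ u ∈ m.Q, orderOf u ≤ 8)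
    {z : G} (hz : z ∈ m.Q) (hc : ∀ g ∈ m.Q, g * z = z * g) (hz1 : z ≠ 1)
    (h : blockRank 2 (m.at z).blk ≠ 1) : TypeTwo m.Q z := by
  have hD := hm.defGrp_at_of_central hz fun g hg => (hc g hg).symm
  obtain ⟨Q, N, h1⟩ := (SPair.maxP_resC_of_defGrp (m.at_le z) hD.le hD).exists_ess h
  have hC := SPair.centralizer_at hz
  rw [SPair.resC_Q] at h1
  have hle := hD.le
  generalize centralizer ((m.at z).Q : Set G) = C at Q N h1 hC hle
  have h2 := (h1.typeTwo (z := ⟨z, hle hz⟩) ⟨h1.pg, by rw [card_subgroupOf_of_le hle, h64],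
    fun N hN hs => ?_, fun u hu h2 => Subtype.ext (he u hu fun g hg =>
      congrArg Subtype.val (h2 ⟨g, hle hg⟩ hg)), fun u hu => orderOf_coe u ▸ hx u hu, hz,
    mem_center_iff.2 fun g => Subtype.ext (mem_centralizer_singleton_iff.1 (hC ▸ g.2)),
    fun e => hz1 (congrArg Subtype.val e)⟩).map C.subtype_injective
  · rwa [map_subgroupOf_eq_of_le hle] at h2
  · rw [← card_map_of_injective C.subtype_injective]
    exact hg _ ((map_mono hN).trans (map_subgroupOf_eq_of_le hle).le) fun u hu =>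
      ⟨_, hs ⟨u, hle hu⟩ hu, rfl⟩

/-- Brauer's bound for `2`-generated defect groups of order `64` and exponent at most `8` with
elementary abelian centre. -/
theorem card_le_of_ord64 (h64 : Nat.card m.Q = 64)
    (hg : ∀ N ≤ m.Q, (∀ u ∈ m.Q, u * u ∈ N) → 16 ≤ Nat.card N)
    (he : ∀ u ∈ m.Q, (∀ g ∈ m.Q, g * u = u * g) → u * u = 1) (hx : ∀ u ∈ m.Q, orderOf u ≤ 8) :
    Nat.card B ≤ Nat.card m.Q := by
  by_contra h
  have key : ∀ z ∈ m.Q, (∀ g ∈ m.Q, g * z = z * g) → z ≠ 1 → TypeTwo m.Q z := fun z hz hc hz1 =>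
    hm.typeTwo_of_blockRank_at h64 hg he hx hz hc hz1 fun e =>
      h (hm.card_le_of_blockRank_at_le_three hz (fun g hg => (hc g hg).symm) (by omega))
  obtain ⟨⟨z, hz, hc⟩, hz1⟩ := ne_bot_iff_exists_ne_one.1
    (inf_centralizer_ne_bot_of_isPGroup m.pgrp m.pgrp (fun e => by
      rw [e, card_bot] at h64; omega) le_normalizer)
  obtain ⟨v, h1, h2, h3, h4⟩ := (key z hz hc fun e => hz1 (Subtype.ext e)).exists_not h64 he
  exact h4 (key v h1 h2 h3)

end MaxP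

end BT
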