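import Cfsg.Agent.Lib.Lin.Eig
import Cfsg.Agent.Lib.Char.Galois
import Cfsg.Agent.Lib.Char.Induce

/-!
# Free linear `p'`-groups at the level of characters: definitions and sign rules
-/

set_option autoImplicit false
set_option linter.unusedSectionVars false

namespace FE

open Cfsg CT LG Subgroup Complex
open scoped Real

variable {E : Type*} [Group E] [Finite E]

/-- The lifted character of a fixed point free module over the prime field. -/
structure FreeCh (p : ℕ) (β : E → ℂ) : Prop where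
  char : IsCharacter E β
  cop : ¬ p ∣ Nat.card E
  frob : ∀ g, β (g ^ p) = β g
  free : ∀ g, g ≠ 1 → ∀ s, IsEig β g s → (1 : ℂ) ∉ s

/-- The normalised product of truncated geometric sums. -/
noncomputable def wf (N : ℕ) (θ : ℝ) (s : Multiset ℂ) : ℂ :=
  (s.map fun a => exp (-((N - 1 : ℕ) * θ * I)) *
    ∑ j ∈ Finset.range N, (exp (2 * θ * I) * a) ^ j).prod

/-- There is a window with at least `c` non-positive classes. -/
def Win (p : ℕ) (β : E → ℂ) (c : ℕ) : Prop :=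
  ∃ (f : ℕ) (χ : E → ℂ) (θ : ℝ) (T : Finset (ConjClasses E)), IsCharacter E χ ∧
    β = ∑ i ∈ Finset.range f, powFun (p ^ i) χ ∧
    (∀ i < f, ∀ j < f, i ≠ j → ip (powFun (p ^ i) χ) (powFun (p ^ j) χ) = 0) ∧ c ≤ T.card ∧
    ∀ g, ConjClasses.mk g ∈ T → ∀ s, IsEig χ g s → (wf (p ^ f) θ s).re ≤ 0

theorem Win.mono {p : ℕ} {β : E → ℂ} {c c' : ℕ} (h : Win p β c) (hc : c' ≤ c) : Win p β c' := by
  obtain ⟨f, χ, θ, T, h1, h2, h3, h4, h5⟩ := h
  exact ⟨f, χ, θ, T, h1, h2, h3, hc.trans h4, h5⟩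

/-- It suffices to list pairwise non-conjugate good elements. -/
theorem win_of_set {p f c : ℕ} {β χ : E → ℂ} (θ : ℝ) (h1 : IsCharacter E χ)
    (h2 : β = ∑ i ∈ Finset.range f, powFun (p ^ i) χ)
    (h3 : ∀ i < f, ∀ j < f, i ≠ j → ip (powFun (p ^ i) χ) (powFun (p ^ j) χ) = 0) (S : Set E)
    (hS : ∀ g ∈ S, ∀ s, IsEig χ g s → (wf (p ^ f) θ s).re ≤ 0)
    (hc : c ≤ (ConjClasses.mk '' S).ncard) : Win p β c := by
  refine ⟨f, χ, θ, (ConjClasses.mk '' S).toFinite.toFinset, h1, h2, h3,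
    by rwa [← Set.ncard_eq_toFinset_card], fun g hg s hs => ?_⟩
  obtain ⟨x, hx, e⟩ := (Set.Finite.mem_toFinset _).1 hg
  exact hS x hx s (hs.of_isConj h1.isClassFunction (ConjClasses.mk_eq_mk_iff_isConj.1 e).symm)

theorem map_pow_eq {χ : E → ℂ} {N : ℕ} (h : ∀ g, χ (g ^ N) = χ g) {g : E} {s : Multiset ℂ}
    (hs : IsEig χ g s) : s.map (· ^ N) = s :=
  ((hs.pow N).congr fun k => by rw [pow_right_comm, h]).unique hs

section Sign

variable {N m : ℕ} {s : Multiset ℂ}

theorem wf_mul (θ : ℝ) (hs : s.map (· ^ N) = s) :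
    wf N θ s * (s.map fun a => 1 - exp (2 * θ * I) * a).prod =
      exp (-((N - 1 : ℕ) * θ * I)) ^ s.card * (s.map fun a => 1 - exp (2 * θ * I) ^ N * a).prod := by
  conv_rhs => enter [2]; rw [← hs, Multiset.map_map]
  rw [wf, ← Multiset.prod_map_mul, ← Multiset.prod_replicate, ← Multiset.map_const',
    ← Multiset.prod_map_mul]
  congr 1
  refine Multiset.map_congr rfl fun a _ => ?_
  rw [mul_assoc, geom_sum_mul_neg, mul_pow]
  rfl

theorem cos_le_of_mem {a φ : ℝ} (h0 : 0 ≤ a) (h1 : a ≤ φ) (h2 : φ ≤ 2 * π - a) :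
    Real.cos φ ≤ Real.cos a := by
  by_cases h : φ ≤ π
  · exact Real.cos_le_cos_of_nonneg_of_le_pi h0 h h1
  · rw [← Real.cos_two_pi_sub φ]
    exact Real.cos_le_cos_of_nonneg_of_le_pi h0 (by linarith) (by linarith)

theorem cos_lt_of_mem {a φ : ℝ} (h0 : 0 ≤ a) (h1 : a < φ) (h2 : φ < 2 * π - a) :
    Real.cos φ < Real.cos a := by
  by_cases h : φ ≤ π
  · exact Real.cos_lt_cos_of_nonneg_of_le_pi h0 h h1
  · rw [← Real.cos_two_pi_sub φ]
    exact Real.cos_lt_cos_of_nonneg_of_le_pi h0 (by linarith) (by linarith)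

theorem exists_angle {M : ℕ} (hM : M ≠ 0) {c : ℂ} (h : c ^ M = 1) :
    ∃ k : ℕ, k + 1 ≤ M ∧ c = exp ((2 * π * k / M : ℝ) * I) := by
  have : NeZero M := ⟨hM⟩
  obtain ⟨k, h1, rfl⟩ := (isPrimitiveRoot_exp M hM).eq_pow_of_pow_eq_one h
  refine ⟨k, h1, ?_⟩
  rw [← exp_nat_mul]
  congr 1
  push_cast
  ring

theorem exp_pow_eq (hN : 1 ≤ N) (hm : m ≠ 0) :
    exp (-((N - 1 : ℕ) * (π / (m * N) : ℝ) * I)) ^ m = -exp ((π / N : ℝ) * I) ∧
    exp (2 * (π / (m * N) : ℝ) * I) ^ m = exp ((π / N : ℝ) * I) ^ 2 ∧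
    exp ((π / N : ℝ) * I) ^ N = -1 := by
  have h1 : (N : ℂ) ≠ 0 := Nat.cast_ne_zero.2 (by omega)
  have h2 : (m : ℂ) ≠ 0 := Nat.cast_ne_zero.2 hm
  refine ⟨?_, ?_, ?_⟩
  · rw [← exp_nat_mul, ← exp_sub_pi_mul_I]
    congr 1
    push_cast [hN]
    field_simp
    ring
  · rw [← exp_nat_mul, ← exp_nat_mul]
    congr 1
    push_cast
    field_simp
  · rw [← exp_nat_mul, ← exp_pi_mul_I]
    congr 1
    push_cast
    field_simp

theorem re_nonpos_of_mul {w d : ℂ} {r : ℝ} (hd : d ≠ 0) (h : w * (d * (starRingEnd ℂ) d) = r)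
    (hr : r ≤ 0) : w.re ≤ 0 := by
  rw [mul_conj] at h
  have h1 := congrArg re h
  rw [re_mul_ofReal, ofReal_re] at h1
  have h2 := normSq_pos.2 hd
  nlinarith

/-- Elements whose eigenvalues are all the `m`-th roots of one number. -/
theorem wf_roots (hN : 2 ≤ N) (hm : m ≠ 0) (hs : s.map (· ^ N) = s) (hc : s.card = m) {c : ℂ}
    (hP : ∀ T, (s.map fun a => 1 - T * a).prod = 1 - c * T ^ m) (hcN : c ^ (N - 1) = 1) :
    (wf N (π / (m * N)) s).re ≤ 0 := by
  obtain ⟨e1, e2, e3⟩ := exp_pow_eq (show 1 ≤ N by omega) hm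
  have h := wf_mul (π / (m * N)) hs
  rw [hP, hP, hc, e1, pow_right_comm, e2, pow_right_comm, e3] at h
  obtain ⟨k, hk, rfl⟩ := exists_angle (by omega) hcN
  have hN' : (2 : ℝ) ≤ N := by exact_mod_cast hN
  have hk' : (k : ℝ) + 1 ≤ N - 1 := by
    have : ((k + 1 : ℕ) : ℝ) ≤ ((N - 1 : ℕ) : ℝ) := by exact_mod_cast hk
    rwa [Nat.cast_sub (by omega), Nat.cast_add, Nat.cast_one] at this
  rw [Nat.cast_sub (by omega), Nat.cast_one] at h
  set a : ℝ := π / N with ha
  set γ : ℝ := 2 * π * k / (N - 1) with hγ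
  have a0 : 0 < a := by positivity
  have g0 : 0 ≤ γ := div_nonneg (by positivity) (by linarith)
  have g1 : γ + 2 * a < 2 * π := by
    rw [hγ, ha, ← mul_div_assoc, div_add_div _ _ (by linarith) (by linarith),
      div_lt_iff₀ (by nlinarith)]
    nlinarith [mul_pos Real.pi_pos (show (0 : ℝ) < N by linarith), Real.pi_pos,
      mul_le_mul_of_nonneg_left hk' (mul_pos Real.pi_pos (show (0 : ℝ) < N by linarith)).le]
  have h1 := cos_le_of_mem (φ := γ + a) a0.le (by linarith) (by linarith)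
  have h2 := cos_lt_of_mem (φ := γ + 2 * a) le_rfl (by linarith) (by linarith)
  have hd : 1 - exp (γ * I) * exp (a * I) ^ 2 ≠ 0 := fun e => by
    rw [← exp_nat_mul, ← exp_add, sub_eq_zero] at e
    have := congrArg re e
    rw [show γ * I + (2 : ℕ) * (a * I) = (γ + 2 * a : ℝ) * I by push_cast; ring, exp_ofReal_mul_I_re,
      one_re] at this
    rw [Real.cos_zero] at h2
    linarith
  refine re_nonpos_of_mul hd (r := 2 * Real.cos (γ + a) - 2 * Real.cos a) ?_ (by linarith)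
  rw [← mul_assoc, h]
  simp only [map_sub, map_mul, map_pow, map_one, ← exp_conj, conj_ofReal, conj_I, ofReal_sub,
    ofReal_mul, ofReal_cos, ofReal_ofNat, two_cos, ofReal_add, add_mul, neg_mul, mul_neg, neg_add,
    exp_add, exp_neg]
  field_simp
  ring

/-- Elements of determinant one in dimension two. -/
theorem wf_det_one (hN : 2 ≤ N) {a b : ℂ} (hs : ({a, b} : Multiset ℂ).map (· ^ N) = {a, b})
    (hab : a * b = 1) (ha : a ≠ 1) : (wf N (π / ((2 : ℕ) * N)) {a, b}).re ≤ 0 := by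
  obtain ⟨e1, -, e3⟩ := exp_pow_eq (m := 2) (show 1 ≤ N by omega) two_ne_zero
  have h := wf_mul (π / ((2 : ℕ) * N)) hs
  have hN' : (2 : ℝ) ≤ N := by exact_mod_cast hN
  have e2 : exp (2 * (π / ((2 : ℕ) * N) : ℝ) * I) = exp ((π / N : ℝ) * I) := by
    congr 1
    push_cast
    field_simp
  rw [Multiset.card_pair, e1, e2, e3] at h
  have h0 : a ≠ 0 := left_ne_zero_of_mul_eq_one hab
  obtain ⟨M, h1, h2, h3⟩ : ∃ M : ℕ, M ≠ 0 ∧ M < 2 * N ∧ a ^ M = 1 := by
    have : a ^ N ∈ ({a, b} : Multiset ℂ) := hs ▸ Multiset.mem_map_of_mem _ (by simp)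
    rcases (by simpa using this : a ^ N = a ∨ a ^ N = b) with e | e
    · refine ⟨N - 1, by omega, by omega, mul_right_cancel₀ h0 ?_⟩
      rw [← pow_succ, Nat.sub_add_cancel (by omega), e, one_mul]
    · exact ⟨N + 1, by omega, by omega, by rw [pow_succ', e, hab]⟩
  obtain ⟨k, hk, rfl⟩ := exists_angle h1 h3
  have k0 : (1 : ℝ) ≤ k := by
    exact_mod_cast Nat.one_le_iff_ne_zero.2 fun e => ha (by simp [e])
  have hk' : (k : ℝ) + 1 ≤ M := by exact_mod_cast hk
  have hM : (M : ℝ) < 2 * N := by exact_mod_cast h2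
  obtain rfl := eq_inv_of_mul_eq_one_right hab
  set γ : ℝ := 2 * π * k / M with hγ
  have g0 : π / N < γ := by
    rw [hγ, div_lt_div_iff₀ (by linarith) (by linarith)]
    nlinarith [Real.pi_pos, mul_le_mul_of_nonneg_left k0
      (mul_pos Real.pi_pos (show (0 : ℝ) < N by linarith)).le]
  have g1 : γ < 2 * π - π / N := by
    rw [hγ, lt_sub_iff_add_lt, div_add_div _ _ (by linarith) (by linarith),
      div_lt_iff₀ (by nlinarith)]
    nlinarith [Real.pi_pos, mul_le_mul_of_nonneg_left hk'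
      (mul_pos Real.pi_pos (show (0 : ℝ) < N by linarith)).le]
  have h4 := cos_lt_of_mem (by positivity) g0 g1
  set v : ℝ := π / N
  have h5 : wf N (π / ((2 : ℕ) * N)) {exp (γ * I), (exp (γ * I))⁻¹} *
      (2 * Real.cos v - 2 * Real.cos γ : ℝ) = (-(2 + 2 * Real.cos γ) : ℝ) := by
    refine mul_right_cancel₀ (exp_ne_zero (v * I)) ?_
    simp only [Multiset.insert_eq_cons, Multiset.map_cons, Multiset.map_singleton,
      Multiset.prod_cons, Multiset.prod_singleton] at h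
    simp only [ofReal_sub, ofReal_mul, ofReal_cos, ofReal_ofNat, two_cos, ofReal_add, ofReal_neg,
      neg_mul, exp_neg, Multiset.insert_eq_cons]
    have := exp_ne_zero (v * I)
    field_simp at h ⊢
    linear_combination h
  have h6 := congrArg re h5
  rw [re_mul_ofReal, ofReal_re] at h6
  nlinarith [Real.neg_one_le_cos γ]

end Sign

/-- The eigenvalues of an element whose character values are those of a weighted cycle. -/
theorem prod_eig_of_cycle {χ : E → ℂ} {g : E} {m : ℕ} (hm : m ≠ 0) {c : ℂ} (hc : c ≠ 0)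
    (h0 : ∀ k, ¬ m ∣ k → χ (g ^ k) = 0) (h1 : ∀ k, χ (g ^ (m * k)) = c ^ k * m) {s : Multiset ℂ}
    (hs : IsEig χ g s) (T : ℂ) : (s.map fun a => 1 - T * a).prod = 1 - c * T ^ m := by
  obtain ⟨b, rfl⟩ := IsAlgClosed.exists_pow_nat_eq c (Nat.pos_of_ne_zero hm)
  have hζ := isPrimitiveRoot_exp m hm
  set ζ := exp (2 * π * I / m)
  have hb : b ≠ 0 := fun e => hc (by simp [e, hm])
  have h2 : IsEig χ g ((Finset.range m).val.map fun i => ζ ^ i * b) := ⟨fun a ha => by
    obtain ⟨i, -, rfl⟩ := Multiset.mem_map.1 ha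
    exact mul_ne_zero (pow_ne_zero _ (hζ.ne_zero hm)) hb, fun k => by
    rw [Multiset.map_map]
    change _ = ∑ i ∈ Finset.range m, (ζ ^ i * b) ^ k
    simp only [mul_pow, pow_right_comm ζ _ k, ← Finset.sum_mul]
    by_cases h : m ∣ k
    · obtain ⟨k, rfl⟩ := h
      rw [h1]
      simp [pow_mul, hζ.pow_eq_one, mul_comm]
    · rw [h0 k h, geom_sum_eq fun e => h ((hζ.pow_eq_one_iff_dvd k).1 e), pow_right_comm,
        hζ.pow_eq_one]
      simp⟩
  have h3 := congrArg (Polynomial.eval 1)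
    (X_pow_sub_C_eq_prod hζ (Nat.pos_of_ne_zero hm) (α := T * b) rfl)
  rw [hs.unique h2, Multiset.map_map, ← mul_pow, mul_comm b]
  simp only [Polynomial.eval_sub, Polynomial.eval_pow, Polynomial.eval_X, one_pow, Polynomial.eval_C,
    Polynomial.eval_prod] at h3
  rw [h3]
  exact Finset.prod_congr rfl fun i _ => by simp [mul_left_comm]

namespace FreeCh

variable {p : ℕ} [hp : Fact p.Prime] {β : E → ℂ} (F : FreeCh p β)
include F

theorem coprime (i : ℕ) : (p ^ i).Coprime (Nat.card E) :=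
  (hp.out.coprime_iff_not_dvd.2 F.cop).pow_left i

theorem frob_pow (i : ℕ) (g : E) : β (g ^ p ^ i) = β g := by
  induction i with
  | zero => simp
  | succ i ih => rw [pow_succ, pow_mul, F.frob, ih]

theorem pow_mem {g : E} {s : Multiset ℂ} (h : IsEig β g s) {a : ℂ} (ha : a ∈ s) (i : ℕ) :
    a ^ p ^ i ∈ s := map_pow_eq (F.frob_pow i) h ▸ Multiset.mem_map_of_mem _ ha

theorem pow_eq_one_iff {g : E} {s : Multiset ℂ} (h : IsEig β g s) {a : ℂ} (ha : a ∈ s) (k : ℕ) :
    a ^ k = 1 ↔ orderOf g ∣ k := by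
  refine ⟨fun e => orderOf_dvd_iff_pow_eq_one.2 (by_contra fun h1 =>
    F.free _ h1 _ (h.pow k) (e ▸ Multiset.mem_map_of_mem _ ha)), ?_⟩
  rintro ⟨k, rfl⟩
  rw [pow_mul, h.pow_orderOf F.char ha, one_pow]

/-- Restriction to a subgroup. -/
theorem res (K : Subgroup E) : FreeCh p (res K β) where
  char := F.char.res K
  cop h := F.cop (h.trans (card_subgroup_dvd_card K))
  frob g := F.frob g
  free g hg s hs := F.free g (fun e => hg (Subtype.ext e)) s (hs.congr fun _ => rfl)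

/-- The eigenvalues on a constituent are eigenvalues. -/
theorem eig_le {ψ : IrrCharacter E} (h : ip β ψ.1 ≠ 0) {g : E} {s t : Multiset ℂ}
    (hs : IsEig β g s) (ht : IsEig ψ.1 g t) : t ≤ s := by
  obtain ⟨u, hu⟩ := exists_isEig (F.char.sub_irr ψ h) g
  have h1 := hu.add ht
  rw [sub_add_cancel] at h1
  rw [hs.unique h1]
  exact Multiset.le_add_left _ _

theorem ker_eq_bot {ψ : IrrCharacter E} (h : ip β ψ.1 ≠ 0) : CT.ker ψ.1 = ⊥ := by
  refine eq_bot_iff.2 fun g hg => by_contra fun h1 => ?_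
  obtain ⟨s, hs⟩ := exists_isEig F.char g
  have h2 : IsEig ψ.1 g (Multiset.replicate (charDegree ψ.1) 1) :=
    isEig_replicate one_ne_zero fun k => by
      rw [(irr_mem_ker_iff ψ).1 (_root_.pow_mem hg k), (irr_isCharacter ψ).apply_one, one_pow, one_mul]
  exact F.free g h1 s hs (Multiset.mem_of_le (F.eig_le h hs h2)
    (Multiset.mem_replicate.2 ⟨(irr_degree_pos ψ).ne', rfl⟩))

theorem exists_irr (hn : charDegree β ≠ 0) : ∃ ψ : IrrCharacter E, ip β ψ.1 ≠ 0 ∧
    CT.ker ψ.1 = ⊥ ∧ charDegree ψ.1 ≤ charDegree β := by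
  obtain ⟨ψ, h⟩ := F.char.exists_irr_ip_ne_zero fun e => hn (by
    rw [e]; exact charDegree_eq_of_apply_one (by simp))
  exact ⟨ψ, h, F.ker_eq_bot h, F.char.degree_le_of_ip_ne_zero ψ h⟩

/-- A central element has each eigenvalue at least as often as the degree of a constituent. -/
theorem exists_degree_le_count [DecidableEq ℂ] {ψ : IrrCharacter E} (h : ip β ψ.1 ≠ 0) {z : E}
    (hz : z ∈ Subgroup.center E) {s : Multiset ℂ} (hs : IsEig β z s) :
    ∃ c, charDegree ψ.1 ≤ s.count c := by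
  obtain ⟨c, -, -, h1⟩ := exists_scalar (irr_isCharacter ψ) (center_le_irr_center ψ hz)
  exact ⟨c, Multiset.le_count_iff_replicate_le.2 (F.eig_le h hs h1)⟩

theorem pow_pow_inj {g : E} {s : Multiset ℂ} (h : IsEig β g s) {a : ℂ} (ha : a ∈ s) {n : ℕ}
    (hy : ∀ j, 0 < j → j < n → ¬ orderOf g ∣ p ^ j - 1) {i j : ℕ} (hi : i < n) (hj : j < n)
    (e : a ^ p ^ i = a ^ p ^ j) : i = j := by
  wlog hij : i < j generalizing i j
  · by_contra h1
    exact h1 (this hj hi e.symm (by omega)).symm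
  obtain ⟨d, rfl⟩ := Nat.exists_eq_add_of_lt hij
  refine (hy (d + 1) (by omega) (by omega) ((F.pow_eq_one_iff h (F.pow_mem h ha i) _).1
    (mul_right_cancel₀ (pow_ne_zero (p ^ i) (h.ne a ha)) ?_))).elim
  rw [← pow_succ, Nat.sub_add_cancel (Nat.one_le_pow _ _ hp.out.pos), ← pow_mul, ← pow_add, one_mul,
    e, add_assoc]

/-- The eigenvalues of an element of primitive order form one Frobenius orbit. -/
theorem eig_eq {y : E} (hy : ∀ j, 0 < j → j < charDegree β → ¬ orderOf y ∣ p ^ j - 1)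
    {s : Multiset ℂ} (h : IsEig β y s) {a : ℂ} (ha : a ∈ s) :
    s = (Finset.range (charDegree β)).val.map fun i => a ^ p ^ i := by
  refine (Multiset.eq_of_le_of_card_le ((Multiset.le_iff_subset ?_).2 fun x hx => ?_) ?_).symm
  · exact (Finset.range _).nodup.map_on fun i hi j hj e =>
      F.pow_pow_inj h ha hy (Finset.mem_range.1 hi) (Finset.mem_range.1 hj) e
  · obtain ⟨i, -, rfl⟩ := Multiset.mem_map.1 hx
    exact F.pow_mem h ha i
  · simp [h.card]

theorem nodup_eig {y : E} (hy : ∀ j, 0 < j → j < charDegree β → ¬ orderOf y ∣ p ^ j - 1)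
    {s : Multiset ℂ} (h : IsEig β y s) : s.Nodup := by
  rcases s.empty_or_exists_mem with rfl | ⟨a, ha⟩
  · simp
  rw [F.eig_eq hy h ha]
  exact (Finset.range _).nodup.map_on fun i hi j hj e =>
    F.pow_pow_inj h ha hy (Finset.mem_range.1 hi) (Finset.mem_range.1 hj) e

theorem isCyclic_of_degree_one {ψ : IrrCharacter E} (h : ip β ψ.1 ≠ 0) (h1 : charDegree ψ.1 = 1) :
    IsCyclic E := by
  obtain ⟨f, hf⟩ := (irr_isCharacter ψ).exists_monoidHom_of_degree_one h1
  refine isCyclic_of_injective_monoidHom f fun g hg => mem_bot.1 (F.ker_eq_bot h ▸ ?_)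
  rw [irr_mem_ker_iff, hf]
  simp [hg]

theorem isCyclic_of_comm (hn : charDegree β ≠ 0) (h : ∀ a b : E, a * b = b * a) : IsCyclic E := by
  obtain ⟨ψ, h1, -⟩ := F.exists_irr hn
  exact F.isCyclic_of_degree_one h1 (irr_degree_eq_one_of_comm h ψ)

theorem isCyclic_centralizer (hn : charDegree β ≠ 0) {y : E}
    (hy : ∀ j, 0 < j → j < charDegree β → ¬ orderOf y ∣ p ^ j - 1) :
    IsCyclic (centralizer ({y} : Set E)) := by
  classical
  obtain ⟨ψ, h1, -⟩ := (F.res (centralizer ({y} : Set E))).exists_irr hn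
  obtain ⟨s, hs⟩ := exists_isEig F.char y
  obtain ⟨c, hc⟩ := (F.res _).exists_degree_le_count h1
    (z := ⟨y, mem_centralizer_singleton_iff.2 rfl⟩)
    (mem_center_iff.2 fun g => Subtype.ext (mem_centralizer_singleton_iff.1 g.2))
    (hs.congr fun _ => rfl)
  exact (F.res _).isCyclic_of_degree_one h1 (le_antisymm
    (hc.trans (Multiset.nodup_iff_count_le_one.1 (F.nodup_eig hy hs) c)) (irr_degree_pos ψ))

/-- Every eigenvalue of an involution is `-1`. -/
theorem eig_of_mul_self {z : E} (hz : z * z = 1) (h1 : z ≠ 1) {s : Multiset ℂ} (h : IsEig β z s)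
    {a : ℂ} (ha : a ∈ s) : a = -1 :=
  (sq_eq_one_iff.1 ((F.pow_eq_one_iff h ha 2).2
    (orderOf_dvd_of_pow_eq_one (by rwa [sq])))).resolve_left fun e => F.free z h1 s h (e ▸ ha)

theorem ker_eq_bot' (hn : charDegree β ≠ 0) : CT.ker β = ⊥ := by
  obtain ⟨ψ, h1, h2, -⟩ := F.exists_irr hn
  exact le_bot_iff.1 (h2 ▸ F.char.ker_le_of_ip_ne_zero ψ h1)

/-- Involutions are central. -/
theorem mem_center_of_mul_self (hn : charDegree β ≠ 0) {z : E} (hz : z * z = 1) :
    z ∈ Subgroup.center E := by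
  by_cases h1 : z = 1
  · exact h1 ▸ one_mem _
  obtain ⟨s, hs⟩ := exists_isEig F.char z
  exact F.char.center_le_center_of_faithful (F.ker_eq_bot' hn)
    (hs.mem_center F.char fun a ha => F.eig_of_mul_self hz h1 hs ha)

end FreeCh

end FE
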