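import Cfsg.Agent.Lib.Block.FE0
import Cfsg.Agent.Lib.Block.FE1Num
import Cfsg.Agent.Lib.Block.FE1Small
import Cfsg.Agent.Lib.Char.UnifCent

/-!
# A free group of order `(p ^ n - 1) / r` has a normal irreducible cyclic subgroup
-/

set_option autoImplicit false
set_option linter.unusedSectionVars false
set_option linter.style.haveILetI false

namespace FE

open Cfsg CT LG GT Subgroup

theorem swap_lt {P : ℕ → Prop} {o : ℕ} (h : ∀ j < o, 0 < j → P j) : ∀ j, 0 < j → j < o → P j :=
  fun j h1 h2 => h j h2 h1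

open FEcp FEcp.BT in
/-- Brauer's bound for a Sylow subgroup of prime order. -/
theorem sylow_normal_of_lt {G : Type*} [Group G] [Finite G] {χ : G → ℂ} (hχ : IsCharacter G χ)
    (hk : CT.ker χ = ⊥) {l : ℕ} [hl : Fact l.Prime] (hsq : ¬ l ^ 2 ∣ Nat.card G)
    (hd : 2 * charDegree χ + 1 < l) (R : Sylow l G) : (R : Subgroup G).Normal := by
  by_cases hdiv : l ∣ Nat.card G
  · obtain ⟨A, _, _, ι, H⟩ := exists_primeSyl_of_dvd hdiv hsq
    have h1 : ι.range.Normal := by
      by_contra h
      have := (H.faithful_small hχ hk (by omega) h).1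
      omega
    have h2 : ι.range ≤ (R : Subgroup G) := (le_pCore (IsPGroup.of_card
      (H.card_range.trans (pow_one l).symm))).trans (pCore_le_sylow R)
    have h3 : Nat.card R ≤ Nat.card ι.range := by
      rw [H.card_range, R.card_eq_multiplicity]
      refine (Nat.pow_le_pow_right hl.out.pos ?_).trans_eq (pow_one l)
      have := mt (hl.out.pow_dvd_iff_le_factorization Nat.card_pos.ne').2 hsq
      omega
    exact eq_of_le_of_card_ge h2 h3 ▸ h1
  · have h1 : (R : Subgroup G) = ⊥ := by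
      rw [← card_eq_one, R.card_eq_multiplicity, Nat.factorization_eq_zero_of_not_dvd hdiv, pow_zero]
    exact h1 ▸ inferInstance

namespace FreeCh

variable {E : Type*} [Group E] [Finite E] {p : ℕ} [hp : Fact p.Prime] {β : E → ℂ}
  (F : FreeCh p β)
include F

theorem comm_of_zsig (hn : charDegree β ≠ 0) {x : E}
    (hx : ∀ j, 0 < j → j < charDegree β → ¬ orderOf x ∣ p ^ j - 1) :
    ∀ a ∈ centralizer ({x} : Set E), ∀ b ∈ centralizer ({x} : Set E), a * b = b * a := by
  intro a ha b hb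
  have := F.isCyclic_centralizer hn hx
  exact congrArg Subtype.val (IsCyclic.commGroup.mul_comm (⟨a, ha⟩ : centralizer ({x} : Set E))
    ⟨b, hb⟩)

omit F in
theorem exists_central_sylow {l : ℕ} [hl : Fact l.Prime] (hd : l ∣ Nat.card E) (R : Sylow l E) :
    ∃ z ∈ (R : Subgroup E), orderOf z = l ∧ (R : Subgroup E) ≤ centralizer {z} := by
  have hR : (R : Subgroup E) ≠ ⊥ := R.ne_bot_of_dvd_card hd
  haveI := (nontrivial_iff_ne_bot _).2 hR
  haveI := R.isPGroup'.center_nontrivial
  obtain ⟨z, hz⟩ := exists_prime_orderOf_dvd_card' (G := Subgroup.center R) l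
    ((R.isPGroup'.to_subgroup _).card_eq_or_dvd.resolve_left Finite.one_lt_card.ne')
  exact ⟨((z : R) : E), (z : R).2, by rw [orderOf_coe, orderOf_coe, hz], fun y hy =>
    mem_centralizer_singleton_iff.2 (congrArg Subtype.val (mem_center_iff.1 z.2 ⟨y, hy⟩))⟩

/-- A normal Sylow subgroup for a primitive prime divisor is cyclic. -/
theorem gen_of_normal (hn : charDegree β ≠ 0) {l : ℕ} [hl : Fact l.Prime] (hd : l ∣ Nat.card E)
    (hz : ∀ j, 0 < j → j < charDegree β → ¬ l ∣ p ^ j - 1) (R : Sylow l E)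
    (hR : (R : Subgroup E).Normal) : ∃ y : E, (zpowers y).Normal ∧
      ∀ j, 0 < j → j < charDegree β → ¬ orderOf y ∣ p ^ j - 1 := by
  obtain ⟨z, hz1, hz2, hz3⟩ := exists_central_sylow hd R
  have := F.isCyclic_centralizer hn (y := z) (hz2 ▸ hz)
  obtain ⟨y, hy⟩ := (Subgroup.isCyclic_iff_exists_zpowers_eq_top _).1
    (Subgroup.isCyclic_of_le hz3)
  refine ⟨y, hy ▸ hR, fun j h1 h2 h3 => hz j h1 h2 (dvd_trans ?_ h3)⟩
  rw [← hz2]
  exact orderOf_dvd_of_mem_zpowers (hy ▸ hz1)

/-- Primitive prime divisors with non-normal Sylow subgroups are small. -/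
theorem small_of_not_normal (hn : charDegree β ≠ 0) {l : ℕ} [hl : Fact l.Prime]
    (hd : l ∣ Nat.card E) (h1 : l ∣ p ^ charDegree β - 1)
    (hz : ∀ j, 0 < j → j < charDegree β → ¬ l ∣ p ^ j - 1) (R : Sylow l E)
    (hnn : ¬ (R : Subgroup E).Normal) :
    (l = charDegree β + 1 ∨ l = 2 * charDegree β + 1) ∧ ¬ l ^ 2 ∣ Nat.card E := by
  have hr := hl.out
  have hk := F.ker_eq_bot' hn
  have hab : ∀ x : E, orderOf x = l → ∀ a ∈ centralizer ({x} : Set E),
      ∀ b ∈ centralizer ({x} : Set E), a * b = b * a := fun x hx =>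
    F.comm_of_zsig hn (hx ▸ hz)
  obtain ⟨z, -, hzo, hRz⟩ := exists_central_sylow hd R
  have hU : UnifCent (R : Subgroup E) := fun x hx hx1 => by
    refine le_antisymm ?_ (centralizer_le (Set.singleton_subset_iff.2 hx))
    obtain ⟨y, hy, hyo⟩ : ∃ y ∈ zpowers x, orderOf y = l := by
      obtain ⟨y, hy⟩ := exists_prime_orderOf_dvd_card' (G := zpowers x) l
        (by rw [Nat.card_zpowers]; exact (isPElt_of_mem_sylow R hx).dvd_orderOf hx1)
      exact ⟨y, y.2, by rw [orderOf_coe, hy]⟩
    intro c hc u hu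
    refine hab y hyo u (mem_centralizer_singleton_iff.2 (hab _ hzo _ (hRz hu) _
      (hRz (zpowers_le.2 hx hy)))) c (mem_centralizer_singleton_iff.2 ?_)
    exact (commute_of_mem_zpowers hy (mem_centralizer_singleton_iff.1 hc).symm).symm
  generalize hn' : charDegree β = n at *
  have hn1 : n ∣ l - 1 := by
    have h3 : ∀ j, l ∣ p ^ j - 1 ↔ (p : ZMod l) ^ j = 1 := fun j => by
      rw [← ZMod.natCast_eq_zero_iff, Nat.cast_sub (Nat.one_le_pow _ _ hp.out.pos), sub_eq_zero]
      simp
    have h4 : orderOf (p : ZMod l) = n := (orderOf_eq_iff (by omega)).2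
      ⟨(h3 n).1 h1, fun m hm hm0 h => hz m hm0 hm ((h3 m).2 h)⟩
    rw [← h4]
    refine ZMod.orderOf_dvd_card_sub_one fun h => ?_
    rw [h, orderOf_zero] at h4
    omega
  obtain ⟨t, ht⟩ := hn1
  have hr2 := hr.two_le
  have ht0 : t ≠ 0 := by rintro rfl; omega
  have hsq : ¬ l ^ 2 ∣ Nat.card E := fun h => by
    refine hnn (UnifCent.normal_of_faithful E hU F.char hk ?_)
    have h3 := Nat.le_of_dvd Nat.card_pos (R.pow_dvd_card_of_pow_dvd_card h)
    have h4 : n + 1 ≤ l := by
      have := Nat.le_mul_of_pos_right n (Nat.pos_of_ne_zero ht0)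
      omega
    have h5 := Nat.pow_le_pow_left h4 2
    rw [hn']
    nlinarith [Nat.pos_of_ne_zero hn]
  refine ⟨?_, hsq⟩
  have h3 : l ≤ 2 * n + 1 := by
    by_contra h
    exact hnn (sylow_normal_of_lt F.char hk hsq (by omega) R)
  have h4 : t ≤ 2 := by
    by_contra h
    have := Nat.mul_le_mul_left n (show 3 ≤ t by omega)
    omega
  interval_cases t <;> omega

/-- Sylow count with the central involution. -/
theorem normal_of_count (hn : charDegree β ≠ 0) {l : ℕ} [hl : Fact l.Prime] (h2 : l ≠ 2)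
    (hd : l ∣ Nat.card E) (hd2 : 2 ∣ Nat.card E)
    (h : ∀ k, k * (2 * l) ∣ Nat.card E → k ≡ 1 [MOD l] → k = 1) (R : Sylow l E) :
    (R : Subgroup E).Normal := by
  obtain ⟨z, hz⟩ := exists_prime_orderOf_dvd_card' (G := E) 2 hd2
  have hz1 : z ∈ normalizer ((R : Subgroup E) : Set E) := center_le_normalizer _
    (F.mem_center_of_mul_self hn (by rw [← sq, ← hz, pow_orderOf_eq_one]))
  have h3 : 2 ∣ Nat.card (normalizer ((R : Subgroup E) : Set E)) :=
    hz ▸ orderOf_dvd_natCard _ hz1
  have h4 : l ∣ Nat.card (normalizer ((R : Subgroup E) : Set E)) :=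
    (R.dvd_card_of_dvd_card hd).trans (card_dvd_of_le le_normalizer)
  have h5 := ((Nat.coprime_primes Nat.prime_two hl.out).2 h2.symm).mul_dvd_of_dvd_of_dvd h3 h4
  rw [← normalizer_eq_top_iff, ← index_eq_one]
  refine h _ ?_ ?_
  · rw [← (normalizer ((R : Subgroup E) : Set E)).index_mul_card]
    exact Nat.mul_dvd_mul_left _ h5
  · exact R.card_eq_index_normalizer ▸ card_sylow_modEq_one l E

/-- A central element with a long Frobenius orbit bounds the degrees of the constituents. -/
theorem mul_degree_le {ψ : IrrCharacter E} (h : ip β ψ.1 ≠ 0) {z : E}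
    (hz : z ∈ Subgroup.center E) {o : ℕ} (ho : ∀ j, 0 < j → j < o → ¬ orderOf z ∣ p ^ j - 1) :
    o * charDegree ψ.1 ≤ charDegree β := by
  classical
  obtain ⟨s, hs⟩ := exists_isEig F.char z
  obtain ⟨c, hc⟩ := F.exists_degree_le_count h hz hs
  have hcs : c ∈ s := Multiset.count_pos.1 ((irr_degree_pos ψ).trans_le hc)
  have h1 : ∀ i, charDegree ψ.1 ≤ s.count (c ^ p ^ i) := fun i => by
    have h2 := Multiset.map_le_map (f := (· ^ p ^ i)) (Multiset.le_count_iff_replicate_le.1 hc)
    rw [map_pow_eq (F.frob_pow i) hs, Multiset.map_replicate] at h2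
    exact Multiset.le_count_iff_replicate_le.2 h2
  have h2 : Set.InjOn (fun i => c ^ p ^ i) (Finset.range o) := fun i hi j hj e =>
    F.pow_pow_inj hs hcs ho (Finset.mem_range.1 hi) (Finset.mem_range.1 hj) e
  calc o * charDegree ψ.1 ≤ ∑ i ∈ Finset.range o, s.count (c ^ p ^ i) := by
        simpa using Finset.card_nsmul_le_sum (Finset.range o) _ _ fun i _ => h1 i
    _ = ∑ a ∈ (Finset.range o).image fun i => c ^ p ^ i, s.count a :=
        (Finset.sum_image (f := fun a => s.count a) h2).symm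
    _ ≤ ∑ a ∈ s.toFinset, s.count a := Finset.sum_le_sum_of_subset fun a ha => by
        obtain ⟨i, -, rfl⟩ := Finset.mem_image.1 ha
        exact Multiset.mem_toFinset.2 (F.pow_mem hs hcs i)
    _ = charDegree β := by rw [Multiset.toFinset_sum_count_eq, hs.card]

/-- A large prime `s` with normal Sylow subgroup makes the Sylow `l`-subgroup normal. -/
theorem normal_of_big (hn : charDegree β ≠ 0) {l s o : ℕ} [hl : Fact l.Prime] [hs : Fact s.Prime]
    (hd : s ∣ Nat.card E) (hd2 : ¬ s ^ 2 ∣ Nat.card E) (hbig : 2 * charDegree β + 1 < s)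
    (hl2 : ¬ l ^ 2 ∣ Nat.card E) (hls : ¬ l ∣ s - 1) (ho : ∀ j, 0 < j → j < o → ¬ s ∣ p ^ j - 1)
    (hol : ∀ e, o * e ≤ charDegree β → 2 * e + 1 < l) (R : Sylow l E) :
    (R : Subgroup E).Normal := by
  obtain ⟨S⟩ : Nonempty (Sylow s E) := inferInstance
  haveI := sylow_normal_of_lt F.char (F.ker_eq_bot' hn) hd2 hbig S
  have hS : Nat.card S = s := by
    rw [S.card_eq_multiplicity]
    have h1 := (hs.out.dvd_iff_one_le_factorization Nat.card_pos.ne').1 hd
    have h2 := mt (hs.out.pow_dvd_iff_le_factorization Nat.card_pos.ne').2 hd2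
    rw [show (Nat.card E).factorization s = 1 by omega, pow_one]
  haveI : IsCyclic S := isCyclic_of_prime_card hS
  set C := centralizer ((S : Subgroup E) : Set E) with hC
  have hRC : (R : Subgroup E) ≤ C := fun x hx => by
    obtain ⟨k, hk⟩ := R.isPGroup' ⟨x, hx⟩
    have h1 : (MulAut.conjNormal x : MulAut S) ^ l ^ k = 1 := by
      rw [← map_pow, show x ^ l ^ k = 1 from congrArg Subtype.val hk, map_one]
    have h2 : (MulAut.conjNormal x : MulAut S) ^ (s - 1) = 1 := by
      rw [← Nat.totient_prime hs.out, ← congrArg Nat.totient hS, ← IsCyclic.card_mulAut,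
        pow_card_eq_one']
    have h3 : (MulAut.conjNormal x : MulAut S) = 1 := orderOf_eq_one_iff.1
      (Nat.eq_one_of_dvd_coprimes ((hl.out.coprime_iff_not_dvd.2 hls).pow_left k)
        (orderOf_dvd_of_pow_eq_one h1) (orderOf_dvd_of_pow_eq_one h2))
    intro u hu
    have h4 := congrArg (fun f : MulAut S => (f ⟨u, hu⟩ : E)) h3
    simp only [MulAut.conjNormal_apply, MulAut.one_apply] at h4
    exact (mul_inv_eq_iff_eq_mul.1 h4).symm
  obtain ⟨z, hz1, hz2, hz3⟩ := exists_central_sylow hd S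
  have hzC : z ∈ C := fun u hu => mem_centralizer_singleton_iff.1 (hz3 hu)
  obtain ⟨ψ, h1, h2, -⟩ := (F.res C).exists_irr hn
  have h3 := (F.res C).mul_degree_le h1 (z := ⟨z, hzC⟩)
    (mem_center_iff.2 fun g => Subtype.ext (g.2 z hz1).symm) (o := o)
    (by rw [Subgroup.orderOf_mk, hz2]; exact ho)
  haveI := sylow_normal_of_lt (irr_isCharacter ψ) h2
    (fun h => hl2 (h.trans (card_subgroup_dvd_card C))) (hol _ h3) (R.subtype hRC)
  haveI := Sylow.characteristic_of_normal (R.subtype hRC) inferInstance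
  have h4 : ((R.subtype hRC : Subgroup C).map C.subtype).Normal := inferInstance
  rwa [Sylow.coe_subtype, subgroupOf_map_subtype, inf_eq_left.2 hRC] at h4

/-- **FE1.** -/
theorem exists_normal_gen (hp2 : p ≠ 2) (hn : 3 ≤ charDegree β) {r : ℕ} (hr : r = 1 ∨ r = 2)
    (hc : Nat.card E * r + 1 = p ^ charDegree β) : ∃ y : E, (zpowers y).Normal ∧
      ∀ j, 0 < j → j < charDegree β → ¬ orderOf y ∣ p ^ j - 1 := by
  have hn0 : charDegree β ≠ 0 := by omega
  have hc' : p ^ charDegree β - 1 = Nat.card E * r := by omega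
  have hr2 : r ∣ 2 := by rcases hr with rfl | rfl <;> norm_num
  have hdv : ∀ m : ℕ, m.Coprime 2 → m ∣ p ^ charDegree β - 1 → m ∣ Nat.card E := fun m h1 h2 =>
    (h1.coprime_dvd_right hr2).dvd_of_dvd_mul_right (hc' ▸ h2)
  have hdv' : Nat.card E ∣ p ^ charDegree β - 1 := hc' ▸ dvd_mul_right _ _
  have hev : 4 ∣ p ^ charDegree β - 1 → 2 ∣ Nat.card E := fun h => by
    rw [hc'] at h
    rcases hr with rfl | rfl <;> omega
  by_contra hno
  have hnn : ∀ (l : ℕ) [Fact l.Prime], l ∣ Nat.card E →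
      (∀ j, 0 < j → j < charDegree β → ¬ l ∣ p ^ j - 1) → ∀ R : Sylow l E,
      ¬ (R : Subgroup E).Normal := fun l _ h1 h2 R hR => hno (F.gen_of_normal hn0 h1 h2 R hR)
  have key : ∀ l : ℕ, l.Prime → l ∣ p ^ charDegree β - 1 →
      (∀ j, 0 < j → j < charDegree β → ¬ l ∣ p ^ j - 1) →
      (l = charDegree β + 1 ∨ l = 2 * charDegree β + 1) ∧ ¬ l ^ 2 ∣ p ^ charDegree β - 1 := by
    intro l hl h1 h2
    haveI := Fact.mk hl
    have h3 : l.Coprime 2 := (Nat.coprime_primes hl Nat.prime_two).2 fun e => by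
      refine h2 1 one_pos (by omega) ?_
      have := hp.out.eq_two_or_odd
      rw [e, pow_one]
      omega
    obtain ⟨R⟩ : Nonempty (Sylow l E) := inferInstance
    obtain ⟨h4, h5⟩ := F.small_of_not_normal hn0 (hdv l h3 h1) h1 h2 R (hnn l (hdv l h3 h1) h2 R)
    exact ⟨h4, fun h => h5 (hdv _ (h3.pow_left 2) h)⟩
  haveI : Fact (Nat.Prime 5) := ⟨by norm_num⟩
  haveI : Fact (Nat.Prime 7) := ⟨by norm_num⟩
  haveI : Fact (Nat.Prime 19) := ⟨by norm_num⟩
  haveI : Fact (Nat.Prime 31) := ⟨by norm_num⟩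
  haveI : Fact (Nat.Prime 307) := ⟨by norm_num⟩
  haveI : Fact (Nat.Prime 757) := ⟨by norm_num⟩
  by_cases h5 : 5 ≤ p
  · obtain ⟨h6, h7⟩ := eq_of_zsigmondy_small hp.out h5 hn key
    obtain ⟨R⟩ : Nonempty (Sylow 7 E) := inferInstance
    rw [h6] at hdv hdv'
    rcases h7 with rfl | rfl
    · refine hnn 7 (hdv 7 (by norm_num) (by norm_num)) (h6 ▸ swap_lt (by decide)) R
        (F.normal_of_big hn0 (s := 31) (o := 3) (hdv 31 (by norm_num) (by norm_num))
          (fun h => absurd (h.trans hdv') (by norm_num)) (by omega)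
          (fun h => absurd (h.trans hdv') (by norm_num)) (by norm_num) (swap_lt (by decide))
          (fun e he => by omega) R)
    · refine hnn 7 (hdv 7 (by norm_num) (by norm_num)) (h6 ▸ swap_lt (by decide)) R
        (F.normal_of_big hn0 (s := 307) (o := 3) (hdv 307 (by norm_num) (by norm_num))
          (fun h => absurd (h.trans hdv') (by norm_num)) (by omega)
          (fun h => absurd (h.trans hdv') (by norm_num)) (by norm_num) (swap_lt (by decide))
          (fun e he => by omega) R)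
  obtain rfl : p = 3 := by
    have h1 := hp.out.two_le
    have h2 : p ≠ 4 := by rintro rfl; exact absurd hp.out (by norm_num)
    omega
  rcases eq_of_zsigmondy_three hn key with h6 | h6 | h6 <;> rw [h6] at hdv hdv' hev
  · obtain ⟨R⟩ : Nonempty (Sylow 5 E) := inferInstance
    refine hnn 5 (hdv 5 (by norm_num) (by norm_num)) (h6 ▸ swap_lt (by decide)) R
      (F.normal_of_count hn0 (by norm_num) (hdv 5 (by norm_num) (by norm_num)) (hev (by norm_num))
        (fun k h1 h2 => ?_) R)
    have h3 : k ∣ 8 := Nat.dvd_of_mul_dvd_mul_right (show 0 < 2 * 5 by norm_num) (h1.trans hdv')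
    have h4 := Nat.le_of_dvd (by norm_num) h3
    revert h2 h3
    interval_cases k <;> decide
  · obtain ⟨R⟩ : Nonempty (Sylow 7 E) := inferInstance
    refine hnn 7 (hdv 7 (by norm_num) (by norm_num)) (h6 ▸ swap_lt (by decide)) R
      (F.normal_of_count hn0 (by norm_num) (hdv 7 (by norm_num) (by norm_num)) (hev (by norm_num))
        (fun k h1 h2 => ?_) R)
    have h3 : k ∣ 52 := Nat.dvd_of_mul_dvd_mul_right (show 0 < 2 * 7 by norm_num) (h1.trans hdv')
    have h4 := Nat.le_of_dvd (by norm_num) h3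
    revert h2 h3
    interval_cases k <;> decide
  · obtain ⟨R⟩ : Nonempty (Sylow 19 E) := inferInstance
    refine hnn 19 (hdv 19 (by norm_num) (by norm_num)) (h6 ▸ swap_lt (by decide)) R
      (F.normal_of_big hn0 (s := 757) (o := 9) (hdv 757 (by norm_num) (by norm_num))
        (fun h => absurd (h.trans hdv') (by norm_num)) (by omega)
          (fun h => absurd (h.trans hdv') (by norm_num)) (by norm_num) (swap_lt (by decide))
        (fun e he => by omega) R)

end FreeCh

end FE
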