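import Mathlib

/-!
# Metacyclic groups `⟨a, g⟩` inside `ΓL₁(q)`
-/

set_option autoImplicit false
set_option linter.unusedSectionVars false

namespace GB

open Subgroup

/-- `E = ⟨a⟩⟨g⟩`, `g⁻¹ a g = a ^ P0`, `E / ⟨a⟩` cyclic of order `m`, all elements of prime
order lie in `⟨a⟩`. -/
structure MC {E : Type*} [Group E] (P0 m n : ℕ) (a g : E) : Prop where
  ord : orderOf a = n
  mpos : 0 < m
  rel : a * g = g * a ^ P0
  span : ∀ e : E, ∃ c < m, ∃ x < n, e = g ^ c * a ^ x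
  out : ∀ c : ℕ, g ^ c ∈ zpowers a ↔ m ∣ c
  prim : ∀ (h : E) (l : ℕ), l.Prime → h ^ l = 1 → h ∈ zpowers a

namespace MC

variable {E : Type*} [Group E] [Finite E] {P0 m n : ℕ} {a g : E} (h : MC P0 m n a g)
include h

theorem npos : 0 < n := h.ord ▸ orderOf_pos a

theorem pow_eq_iff {x y : ℕ} : a ^ x = a ^ y ↔ x ≡ y [MOD n] := by
  rw [pow_eq_pow_iff_modEq, h.ord]

omit [Finite E] in
theorem pow_comm₁ (x : ℕ) : a ^ x * g = g * a ^ (x * P0) := by
  induction x with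
  | zero => simp
  | succ x ih =>
    rw [pow_succ', mul_assoc, ih, ← mul_assoc, h.rel, mul_assoc, ← pow_add]
    congr 2; ring

omit [Finite E] in
theorem pow_comm (x c : ℕ) : a ^ x * g ^ c = g ^ c * a ^ (x * P0 ^ c) := by
  induction c with
  | zero => simp
  | succ c ih =>
    rw [pow_succ g, ← mul_assoc, ih, mul_assoc, h.pow_comm₁, ← mul_assoc, pow_succ P0, mul_assoc x]

omit [Finite E] in
theorem mul_eq (c x c' x' : ℕ) :
    g ^ c * a ^ x * (g ^ c' * a ^ x') = g ^ (c + c') * a ^ (x * P0 ^ c' + x') := by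
  rw [mul_assoc, ← mul_assoc (a ^ x), h.pow_comm, pow_add, pow_add]
  simp only [mul_assoc]

theorem mem_iff {e : E} : e ∈ zpowers a ↔ ∃ x < n, e = a ^ x := by
  constructor
  · intro he
    rw [← mem_powers_iff_mem_zpowers] at he
    obtain ⟨x, rfl⟩ := he
    exact ⟨x % n, Nat.mod_lt _ h.npos, by rw [← h.ord, pow_mod_orderOf]⟩
  · rintro ⟨x, -, rfl⟩
    exact npow_mem_zpowers a x

theorem exists_pow_m : ∃ z < n, g ^ m = a ^ z := h.mem_iff.1 ((h.out m).2 dvd_rfl)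

omit [Finite E] in
theorem mul_mem_iff (c x : ℕ) : g ^ c * a ^ x ∈ zpowers a ↔ m ∣ c := by
  rw [mul_mem_cancel_right (npow_mem_zpowers a x), h.out]

omit [Finite E] in
theorem coset_eq {c x c' x' : ℕ} (e : g ^ c * a ^ x = g ^ c' * a ^ x') : c ≡ c' [MOD m] := by
  wlog hc : c ≤ c' generalizing c x c' x'
  · exact (this e.symm (not_le.1 hc).le).symm
  obtain ⟨u, rfl⟩ := Nat.exists_eq_add_of_le hc
  rw [pow_add, mul_assoc, mul_right_inj] at e
  have h1 : m ∣ u := (h.mul_mem_iff u x').1 (e ▸ npow_mem_zpowers a x)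
  exact ((Nat.modEq_iff_dvd' hc).2 (by simpa using h1))

theorem card : n * m = Nat.card E := by
  have hb : Function.Bijective fun x : Fin m × Fin n => g ^ (x.1 : ℕ) * a ^ (x.2 : ℕ) := by
    refine ⟨?_, fun e => ?_⟩
    · rintro ⟨c, x⟩ ⟨c', x'⟩ e
      have h1 : c = c' := Fin.ext ((h.coset_eq e).eq_of_lt_of_lt c.2 c'.2)
      subst h1
      simp only [mul_right_inj] at e
      rw [Fin.ext ((h.pow_eq_iff.1 e).eq_of_lt_of_lt x.2 x'.2)]
    · obtain ⟨c, hc, x, hx, rfl⟩ := h.span e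
      exact ⟨(⟨c, hc⟩, ⟨x, hx⟩), rfl⟩
  rw [← Nat.card_eq_of_bijective _ hb]
  simp [mul_comm]

theorem per : P0 ^ m ≡ 1 [MOD n] := by
  obtain ⟨z, -, hz⟩ := h.exists_pow_m
  have h1 := h.pow_comm 1 m
  rw [hz, ← pow_add, ← pow_add, h.pow_eq_iff, one_mul, add_comm] at h1
  exact (Nat.ModEq.add_left_cancel' z h1).symm

theorem conj_inner {x y : ℕ} (hc : IsConj (a ^ x) (a ^ y)) :
    ∃ i < m, y ≡ x * P0 ^ i [MOD n] := by
  obtain ⟨e, he⟩ := isConj_iff.1 hc.symm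
  obtain ⟨c, hc, u, -, rfl⟩ := h.span e
  refine ⟨c, hc, ?_⟩
  rw [mul_inv_eq_iff_eq_mul, ← mul_assoc, h.pow_comm, mul_assoc, mul_assoc, mul_right_inj,
    ← pow_add, ← pow_add, h.pow_eq_iff, add_comm] at he
  exact Nat.ModEq.add_right_cancel' u he

theorem conj_coset {c x c' x' : ℕ} (hc : IsConj (g ^ c * a ^ x) (g ^ c' * a ^ x')) :
    c ≡ c' [MOD m] := by
  obtain ⟨e, he⟩ := isConj_iff.1 hc
  obtain ⟨v, -, u, -, rfl⟩ := h.span e
  rw [mul_inv_eq_iff_eq_mul, h.mul_eq, h.mul_eq] at he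
  have h1 := h.coset_eq he
  rw [add_comm] at h1
  exact Nat.ModEq.add_right_cancel' v h1

omit h in
theorem mul_pow_modEq (P0 n u c : ℕ) (hP : 0 < P0) :
    u * P0 ^ c ≡ u [MOD Nat.gcd n (P0 - 1)] := by
  have h1 : P0 ≡ 1 [MOD Nat.gcd n (P0 - 1)] :=
    ((Nat.modEq_iff_dvd' hP).2 (Nat.gcd_dvd_right _ _)).symm
  simpa using (h1.pow c).mul_left u

theorem conj_outer (hP : 0 < P0) {c x x' : ℕ} (hc : IsConj (g ^ c * a ^ x) (g ^ c * a ^ x')) :
    x ≡ x' [MOD Nat.gcd n (P0 - 1)] := by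
  obtain ⟨e, he⟩ := isConj_iff.1 hc
  obtain ⟨v, -, u, -, rfl⟩ := h.span e
  rw [mul_inv_eq_iff_eq_mul, h.mul_eq, h.mul_eq, add_comm v, mul_right_inj, h.pow_eq_iff] at he
  have h1 := he.of_dvd (Nat.gcd_dvd_left n (P0 - 1))
  have h2 := ((mul_pow_modEq P0 n u c hP).symm.add_right x).trans
    (h1.trans ((mul_pow_modEq P0 n x' v hP).add_right u))
  rw [add_comm] at h2
  exact Nat.ModEq.add_right_cancel' u h2

theorem orderOf_pow_m_dvd (hP : 0 < P0) : orderOf (g ^ m) ∣ Nat.gcd n (P0 - 1) := by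
  obtain ⟨z, -, hz⟩ := h.exists_pow_m
  refine Nat.dvd_gcd ?_ ?_
  · rw [hz, ← h.ord]; exact orderOf_pow_dvd z
  · have h1 := h.pow_comm₁ z
    rw [pow_mul, ← hz, ← pow_succ, pow_succ', mul_right_inj] at h1
    obtain ⟨k, rfl⟩ := Nat.exists_eq_add_of_le' hP
    rw [pow_succ', left_eq_mul] at h1
    exact orderOf_dvd_of_pow_eq_one (by simpa using h1)

omit [Finite E] in
theorem prime_dvd_orderOf {l : ℕ} (hl : l.Prime) (hm : l ∣ m) : l ∣ orderOf (g ^ m) := by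
  obtain ⟨u, hu⟩ := hm
  have h1 : (g ^ (u * orderOf (g ^ m))) ^ l = 1 := by
    have h0 : ∀ o, u * o * l = m * o := fun o => by rw [hu]; ring
    rw [← pow_mul, h0, pow_mul, pow_orderOf_eq_one]
  have h2 := (h.out _).1 (h.prim _ l hl h1)
  have h3 : 0 < u := Nat.pos_of_mul_pos_left (hu ▸ h.mpos)
  generalize orderOf (g ^ m) = o at h2 ⊢
  rw [hu, mul_comm u] at h2
  exact Nat.dvd_of_mul_dvd_mul_right h3 h2

theorem prime_dvd (hP : 0 < P0) {l : ℕ} (hl : l.Prime) (hm : l ∣ m) :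
    l ∣ Nat.gcd n (P0 - 1) :=
  (h.prime_dvd_orderOf hl hm).trans (h.orderOf_pow_m_dvd hP)

/-- The `m`-th power of any element lies in `⟨a⟩`. -/
theorem exists_pow_eq (e : E) : ∃ z < n, e ^ m = a ^ z := by
  obtain ⟨c, -, x, -, rfl⟩ := h.span e
  have h1 : ∀ j : ℕ, ∃ y, (g ^ c * a ^ x) ^ j = g ^ (c * j) * a ^ y := fun j => by
    induction j with
    | zero => exact ⟨0, by simp⟩
    | succ j ih =>
      obtain ⟨y, hy⟩ := ih
      exact ⟨_, by rw [pow_succ, hy, h.mul_eq, Nat.mul_succ]⟩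
  obtain ⟨y, hy⟩ := h1 m
  exact h.mem_iff.1 (hy ▸ (h.mul_mem_iff _ _).2 (dvd_mul_left _ _))

end MC

end GB
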