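import Cfsg.Agent.Lib.Block.FE0
import Cfsg.Agent.Lib.Block.GBMc

/-!
# Free linear groups with a normal irreducible cyclic subgroup: the structure
-/

set_option autoImplicit false
set_option linter.unusedSectionVars false

namespace FE

open Cfsg CT LG GB Subgroup Complex
open scoped Real

variable {E : Type*} [Group E] [Finite E] {p : ℕ} [hp : Fact p.Prime] {β : E → ℂ}

namespace FreeCh

variable (F : FreeCh p β)
include F

theorem sum_mul_pow {t : E} (ht : t ≠ 1) (e : E) {l : ℕ} (hl : t ^ l = 1) :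
    ∑ k ∈ Finset.range l, β (e * t ^ k) = 0 := by
  obtain ⟨s, hs⟩ := exists_isEig F.char t
  have h1 := F.free t ht s hs
  have h5 := fun a ha => (F.pow_eq_one_iff hs (a := a) ha l).2 (orderOf_dvd_of_pow_eq_one hl)
  obtain ⟨n, ρ, rfl⟩ := F.char
  obtain ⟨b, ε, h2, rfl, -⟩ := hs.exists_basis
  have h3 : ∑ k ∈ Finset.range l, ρ t ^ k = 0 := b.ext fun j => by
    have h4 : ∀ k, (ρ t ^ k) (b j) = ε j ^ k • b j := fun k => by
      induction k with
      | zero => simp
      | succ k ih => rw [pow_succ', Module.End.mul_apply, ih, map_smul, h2, smul_smul, pow_succ]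
    have h6 : ε j ∈ Finset.univ.val.map ε := Multiset.mem_map_of_mem _ (Finset.mem_univ j)
    simp only [LinearMap.sum_apply, h4, ← Finset.sum_smul, LinearMap.zero_apply]
    rw [geom_sum_eq fun e => h1 (e ▸ h6), h5 _ h6, sub_self, zero_div, zero_smul]
  simp only [Representation.character, map_mul, map_pow]
  rw [← map_sum, ← Finset.mul_sum, h3, mul_zero, map_zero]

theorem apply_eq_zero {a e : E} {u : ℕ} (h : a * e = e * a ^ u) (h1 : a * e ≠ e * a) : β e = 0 := by
  have h2 : ∀ k : ℕ, a ^ k * e = e * (a ^ u) ^ k := fun k => by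
    induction k with
    | zero => simp
    | succ k ih => rw [pow_succ', mul_assoc, ih, ← mul_assoc, h, mul_assoc, ← pow_succ']
  have h3 := F.sum_mul_pow (t := a ^ u * a⁻¹) (fun h4 => h1 (by
    rw [h, mul_inv_eq_one.1 h4])) e (pow_orderOf_eq_one _)
  rw [Finset.sum_congr rfl (g := fun _ => β e) fun k _ => by
    rw [((Commute.refl a).pow_left u).inv_right.mul_pow, ← mul_assoc, ← h2, inv_pow,
      F.char.isClassFunction]] at h3
  simpa [(orderOf_pos _).ne'] using h3

variable {a : E} (hy : ∀ j, 0 < j → j < charDegree β → ¬ orderOf a ∣ p ^ j - 1)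
  (hd : orderOf a ∣ p ^ charDegree β - 1)
include hy hd

theorem pow_pow_eq_iff (hn : charDegree β ≠ 0) (j : ℕ) : a ^ p ^ j = a ↔ charDegree β ∣ j := by
  have h1 : ∀ j, a ^ p ^ j = a ↔ orderOf a ∣ p ^ j - 1 := fun j => by
    rw [orderOf_dvd_iff_pow_eq_one, ← mul_left_inj a (b := a ^ (p ^ j - 1)), ← pow_succ,
      Nat.sub_add_cancel (Nat.one_le_pow _ _ hp.out.pos), one_mul]
  have h2 : ∀ k, a ^ p ^ (charDegree β * k) = a := fun k => by
    induction k with
    | zero => simp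
    | succ k ih => rw [Nat.mul_succ, pow_add, pow_mul, ih, (h1 _).2 hd]
  refine ⟨fun h => by_contra fun h3 => ?_, by rintro ⟨k, rfl⟩; exact h2 k⟩
  rw [← Nat.div_add_mod j (charDegree β), pow_add, pow_mul, h2, h1] at h
  exact hy _ (Nat.pos_of_ne_zero fun e => h3 (Nat.dvd_of_mod_eq_zero e))
    (Nat.mod_lt _ (Nat.pos_of_ne_zero hn)) h

theorem exists_mc (hn : charDegree β ≠ 0) (hN : (zpowers a).Normal)
    (hC : centralizer ({a} : Set E) ≤ zpowers a) :
    ∃ f m g, f * m = charDegree β ∧ MC (p ^ f) m (orderOf a) a g ∧ ∀ e ∉ zpowers a, β e = 0 := by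
  classical
  obtain ⟨s, hs⟩ := exists_isEig F.char a
  obtain ⟨μ, hμ⟩ := Multiset.card_pos_iff_exists_mem.1 (hs.card ▸ Nat.pos_of_ne_zero hn)
  have h1 : ∀ e : E, ∃ i, a * e = e * a ^ p ^ i := fun e => by
    obtain ⟨u, hu⟩ := mem_powers_iff_mem_zpowers.2 (hN.conj_mem' a (mem_zpowers a) e)
    dsimp only at hu
    have h2 : IsEig β (a ^ u) s := hu ▸ hs.of_isConj F.char.isClassFunction
      (isConj_iff.2 ⟨e⁻¹, by rw [inv_inv]⟩)
    have h3 : μ ^ u ∈ s := (hs.pow u).unique h2 ▸ Multiset.mem_map_of_mem _ hμ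
    rw [F.eig_eq hy hs hμ] at h3
    obtain ⟨i, -, hi⟩ := Multiset.mem_map.1 h3
    refine ⟨i, ?_⟩
    have h4 : IsPrimitiveRoot μ (orderOf a) := ⟨hs.pow_orderOf F.char hμ,
      fun l => (F.pow_eq_one_iff hs hμ l).1⟩
    have h5 : IsOfFinOrder μ := isOfFinOrder_iff_pow_eq_one.2 ⟨_, orderOf_pos a, h4.1⟩
    rw [h5.pow_eq_pow_iff_modEq, ← h4.eq_orderOf, ← pow_eq_pow_iff_modEq] at hi
    rw [hi, hu]; group
  have hv : ∀ e ∉ zpowers a, β e = 0 := fun e he => by
    obtain ⟨i, hi⟩ := h1 e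
    exact F.apply_eq_zero hi fun h => he (hC (mem_centralizer_singleton_iff.2 h.symm))
  have h2 : ∃ f, 0 < f ∧ ∃ g : E, a * g = g * a ^ p ^ f :=
    ⟨_, Nat.pos_of_ne_zero hn, 1, by rw [(F.pow_pow_eq_iff hy hd hn _).2 dvd_rfl]; simp⟩
  obtain ⟨f0, g, hg⟩ := Nat.find_spec h2
  have hmin := fun r => Nat.find_min h2 (m := r)
  set f := Nat.find h2
  have h3 : ∀ c x : ℕ, a ^ x * g ^ c = g ^ c * (a ^ x) ^ p ^ (f * c) := fun c => by
    have h4 : ∀ x : ℕ, a ^ x * g = g * (a ^ x) ^ p ^ f := fun x => by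
      induction x with
      | zero => simp
      | succ x ih => rw [pow_succ', mul_assoc, ih, ← mul_assoc, hg, mul_assoc,
          ((Commute.refl a).pow_right x).mul_pow]
    induction c with
    | zero => simp
    | succ c ih => intro x; rw [pow_succ, ← mul_assoc, ih, mul_assoc, ← pow_mul a, h4, pow_mul a,
        ← pow_mul, ← pow_add, Nat.mul_succ, mul_assoc]
  have h4 : ∀ (e : E) (i : ℕ), a * e = e * a ^ p ^ i →
      f ∣ i ∧ (g ^ (i / f))⁻¹ * e ∈ zpowers a := fun e i hi => by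
    have h5 : a * (e * (g ^ (i / f))⁻¹) = e * (g ^ (i / f))⁻¹ * a ^ p ^ (i % f) := by
      rw [← mul_assoc, hi, mul_assoc, mul_assoc, mul_right_inj, eq_inv_mul_iff_mul_eq, ← mul_assoc,
        mul_inv_eq_iff_eq_mul, h3, ← pow_mul, ← pow_add, Nat.mod_add_div]
    have h6 : i % f = 0 := by_contra fun h =>
      hmin _ (Nat.mod_lt _ f0) ⟨Nat.pos_of_ne_zero h, _, h5⟩
    rw [h6, pow_zero, pow_one] at h5
    refine ⟨Nat.dvd_of_mod_eq_zero h6, ?_⟩
    simpa [mul_assoc] using hN.conj_mem' _ (hC (mem_centralizer_singleton_iff.2 h5.symm)) (g ^ (i / f))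
  obtain ⟨m, hm⟩ := (h4 1 _ (by rw [(F.pow_pow_eq_iff hy hd hn _).2 dvd_rfl]; simp)).1
  have m0 : 0 < m := Nat.pos_of_ne_zero fun e => hn (by rw [hm, e, mul_zero])
  have h5 : ∀ c, g ^ c ∈ zpowers a ↔ m ∣ c := fun c => by
    rw [← Nat.mul_dvd_mul_iff_left f0, ← hm, ← F.pow_pow_eq_iff hy hd hn, ← mul_right_inj (g ^ c)]
    have h6 := h3 c 1
    rw [pow_one] at h6
    rw [← h6, ← mem_centralizer_singleton_iff (g := a) |>.trans eq_comm]
    exact ⟨fun h => mem_centralizer_singleton_iff.2 (by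
      obtain ⟨k, hk⟩ := mem_zpowers_iff.1 h
      rw [← hk]; exact ((Commute.refl a).zpow_left k).eq), fun h => hC h⟩
  refine ⟨f, m, g, hm.symm, ⟨rfl, m0, hg, fun e => ?_, h5, fun h l hl h6 => by_contra fun h7 => ?_⟩, hv⟩
  · obtain ⟨i, hi⟩ := h1 e
    have h6 := (h4 e i hi).2
    rw [← Nat.mod_add_div (i / f) m, pow_add, mul_inv_rev, mul_assoc,
      mul_mem_cancel_left (inv_mem ((h5 _).2 (dvd_mul_right _ _)))] at h6
    obtain ⟨x, hx⟩ := mem_powers_iff_mem_zpowers.2 h6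
    dsimp only at hx
    exact ⟨_, Nat.mod_lt (i / f) m0, _, Nat.mod_lt x (orderOf_pos a), by
      rw [pow_mod_orderOf, hx, mul_inv_cancel_left]⟩
  · have h8 : h ≠ 1 := fun e => h7 (e ▸ one_mem _)
    have h9 := F.sum_mul_pow h8 1 h6
    rw [Finset.sum_eq_single_of_mem 0 (Finset.mem_range.2 hl.pos) fun k hk h0 => hv _ fun h10 => h7 ?_,
      pow_zero, mul_one, F.char.apply_one, Nat.cast_eq_zero] at h9
    · exact hn h9
    have : Fact l.Prime := ⟨hl⟩
    obtain ⟨u, hu⟩ := exists_pow_eq_self_of_coprime (x := h) (n := k) (by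
      rw [orderOf_eq_prime h6 h8]
      exact (Nat.coprime_of_lt_prime h0 (Finset.mem_range.1 hk) hl).symm)
    rw [one_mul] at h10
    exact hu ▸ _root_.pow_mem h10 u

end FreeCh

/-- The data of a group inside the semilinear group of dimension one. -/
structure GL1 (p f m : ℕ) (β χ : E → ℂ) (a g : E) (μ : ℂ) : Prop where
  free : FreeCh p β
  mc : MC (p ^ f) m (orderOf a) a g
  char : IsCharacter E χ
  sum : β = ∑ i ∈ Finset.range f, powFun (p ^ i) χ
  orth : ∀ i < f, ∀ j < f, i ≠ j → ip (powFun (p ^ i) χ) (powFun (p ^ j) χ) = 0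
  out : ∀ e ∉ zpowers a, χ e = 0
  inn : ∀ x, χ (a ^ x) = ∑ c ∈ Finset.range m, μ ^ (x * (p ^ f) ^ c)
  prim : IsPrimitiveRoot μ (orderOf a)
  cen : centralizer ({a} : Set E) ≤ zpowers a

theorem sum_range_mul' (u : ℕ → ℂ) (f m : ℕ) : ∑ j ∈ Finset.range (f * m), u j =
    ∑ i ∈ Finset.range f, ∑ c ∈ Finset.range m, u (i + f * c) := by
  induction m with
  | zero => simp
  | succ m ih => 
    rw [Nat.mul_succ, Finset.sum_range_add, ih]
    simp only [Finset.sum_range_succ, Finset.sum_add_distrib, add_comm]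

theorem FreeCh.pow_notMem (F : FreeCh p β) {A : Subgroup E} {e : E} (he : e ∉ A) (i : ℕ) :
    e ^ p ^ i ∉ A := fun h => by
  obtain ⟨u, hu⟩ := exists_pow_eq_self_of_coprime
    ((F.coprime i).coprime_dvd_right (orderOf_dvd_natCard e))
  exact he (hu ▸ _root_.pow_mem h u)

theorem FreeCh.exists_gl1 (F : FreeCh p β) (hn : charDegree β ≠ 0) {y : E} (hN : (zpowers y).Normal)
    (hy : ∀ j, 0 < j → j < charDegree β → ¬ orderOf y ∣ p ^ j - 1)
    (hd : Nat.card E ∣ p ^ charDegree β - 1) :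
    ∃ f m χ a g μ, f * m = charDegree β ∧ GL1 p f m β χ a g μ := by
  classical
  obtain ⟨a, ha⟩ : ∃ a : E, centralizer ({y} : Set E) = zpowers a :=
    ((Subgroup.isCyclic_iff_exists_zpowers_eq_top _).1 (F.isCyclic_centralizer hn hy)).imp
      fun _ h => h.symm
  have h1 : y ∈ zpowers a := ha ▸ mem_centralizer_singleton_iff.2 rfl
  have hya : ∀ j, 0 < j → j < charDegree β → ¬ orderOf a ∣ p ^ j - 1 := fun j h h' e =>
    hy j h h' ((orderOf_dvd_of_mem_zpowers h1).trans e)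
  have hN' : (zpowers a).Normal := by
    rw [← ha, ← centralizer_closure, ← zpowers_eq_closure]; infer_instance
  have hC : centralizer ({a} : Set E) ≤ zpowers a :=
    fun e he => ha ▸ mem_centralizer_singleton_iff.2 (by
      obtain ⟨k, rfl⟩ := mem_zpowers_iff.1 h1
      exact (Commute.zpow_right (mem_centralizer_singleton_iff.1 he) k).eq)
  obtain ⟨f, m, g, hm, h, hv⟩ := F.exists_mc hya ((orderOf_dvd_natCard a).trans hd) hn hN' hC
  obtain ⟨lam, h2, -⟩ := (F.char.res (zpowers a)).exists_sum_monoidHom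
    IsCyclic.commGroup.mul_comm
  let a' : zpowers a := ⟨a, mem_zpowers a⟩
  have hs : IsEig β a (Finset.univ.val.map fun i => lam i a') := isEig_of_fun
    (fun i => ne_zero_of_pow_eq_one' (orderOf_pos a').ne' (monoidHom_pow_orderOf _ a'))
    fun k => by simpa using h2 (a' ^ k)
  let l := lam ⟨0, Nat.pos_of_ne_zero (by exact hn)⟩
  have hμ : l a' ∈ Finset.univ.val.map fun i => lam i a' :=
    Multiset.mem_map.2 ⟨_, Finset.mem_univ_val _, rfl⟩
  have h3 : Function.Bijective fun c : Fin m => ((g ^ (c : ℕ) : E) : E ⧸ zpowers a) := by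
    refine ⟨fun c c' e => ?_, fun q => ?_⟩
    · obtain ⟨x, -, hx⟩ := h.mem_iff.1 (QuotientGroup.eq.1 e)
      exact Fin.ext ((h.coset_eq (c := c) (x := x) (c' := c') (x' := 0)
        (by rw [← hx]; simp)).eq_of_lt_of_lt c.2 c'.2)
    · obtain ⟨e, rfl⟩ := QuotientGroup.mk_surjective q
      obtain ⟨c, hc, x, -, rfl⟩ := h.span e
      exact ⟨⟨c, hc⟩, (QuotientGroup.mk_mul_of_mem _ (npow_mem_zpowers a x)).symm⟩
  have hl := (isIrrCharacter_of_monoidHom l).isCharacter
  have h4 : ∀ x, ind (zpowers a) (fun u => l u) (a ^ x) =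
      ∑ c ∈ Finset.range m, l a' ^ (x * (p ^ f) ^ c) := fun x => by
    rw [ind_apply_eq_sum_transversal _ _ h3 hl.isClassFunction, Finset.sum_range]
    refine Finset.sum_congr rfl fun c _ => ?_
    rw [mul_assoc, h.pow_comm, inv_mul_cancel_left, ← map_pow]
    exact extendByZero_coe _ _ (a' ^ _)
  have h5 : ∀ e ∉ zpowers a, ind (zpowers a) (fun u => l u) e = 0 := fun e he =>
    ind_apply_eq_zero_of_normal _ he
  have h6 : ∀ i x, powFun (p ^ i) (ind (zpowers a) fun u => l u) (a ^ x) =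
      ∑ c ∈ Finset.range m, (l a' ^ x) ^ p ^ (i + f * c) := fun i x => by
    rw [powFun_apply, ← pow_mul, h4]
    exact Finset.sum_congr rfl fun c _ => by rw [← pow_mul, ← pow_mul, pow_add, mul_assoc]
  refine ⟨f, m, _, a, g, l a', hm, F, h, hl.ind, funext fun e => ?_, fun i hi j hj hij => ?_, h5, h4,
    ⟨hs.pow_orderOf F.char hμ, fun k => (F.pow_eq_one_iff hs hμ k).1⟩, hC⟩
  · rw [Finset.sum_apply]
    by_cases he : e ∈ zpowers a
    · obtain ⟨x, -, rfl⟩ := h.mem_iff.1 he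
      simp only [h6]
      rw [hs.sum, F.eig_eq hya hs hμ, ← hm, ← sum_range_mul' fun j => (l a' ^ x) ^ p ^ j,
        Multiset.map_map]
      exact Finset.sum_congr rfl fun j _ => pow_right_comm _ _ _
    · exact (hv e he).trans (Finset.sum_eq_zero fun i _ => h5 _ (F.pow_notMem he i)).symm
  · have h7 : ∀ i, CT.res (zpowers a) (powFun (p ^ i) (ind (zpowers a) fun u => l u)) =
        ∑ c ∈ Finset.range m, fun u => (l ^ p ^ (i + f * c)) u := fun i => funext fun u => by
      obtain ⟨x, -, hx⟩ := h.mem_iff.1 u.2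
      obtain rfl : u = a' ^ x := Subtype.ext hx
      rw [Finset.sum_apply]
      simpa using h6 i x
    have h8 := ip_res_res_of_vanish (zpowers a)
      (χ := powFun (p ^ i) (ind (zpowers a) fun u => l u)) (ψ := powFun (p ^ j) (ind (zpowers a) fun u => l u))
      fun e he => h5 _ (F.pow_notMem he i)
    rw [h7, h7, ip_sum_left, Finset.sum_eq_zero fun c hc => ?_, eq_comm, mul_eq_zero] at h8
    · exact h8.resolve_left (Nat.cast_ne_zero.2 index_ne_zero_of_finite)
    rw [ip_sum_right]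
    refine Finset.sum_eq_zero fun c' hc' => ip_irr_ne (χ := ⟨_, isIrrCharacter_of_monoidHom _⟩)
      (ψ := ⟨_, isIrrCharacter_of_monoidHom _⟩) fun e => hij ?_
    have h9 : ∀ {i c}, i < f → c ∈ Finset.range m → i + f * c < charDegree β := fun hi hc => by
      have := Nat.mul_le_mul_left f (Finset.mem_range.1 hc)
      rw [Nat.mul_succ] at this
      omega
    have h10 := congrArg (· % f) (F.pow_pow_inj hs hμ hya (h9 hi hc) (h9 hj hc')
      (by simpa using congrFun (congrArg Subtype.val e) a'))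
    simpa [Nat.mod_eq_of_lt hi, Nat.mod_eq_of_lt hj] using h10

end FE
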