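import Cfsg.Agent.Lib.Block.FE2

/-!
# Free linear groups with a normal irreducible cyclic subgroup: the window
-/

set_option autoImplicit false
set_option linter.unusedSectionVars false

namespace FE

open Cfsg CT LG GB Subgroup Complex
open scoped Real

variable {E : Type*} [Group E] [Finite E] {p : ℕ} [hp : Fact p.Prime] {β : E → ℂ}

theorem wf_eq_zero {N m K : ℕ} {s : Multiset ℂ} (hN : N ≠ 0) (hm : m ≠ 0) (hs : s.map (· ^ N) = s)
    (hK : ¬ N ∣ K) (h : ∀ a ∈ s, a ^ K = 1) {a : ℂ} (ha : a ∈ s)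
    (h1 : exp (2 * π * I / m) * a = 1) : wf N (π / (m * N)) s = 0 := by
  have h2 := wf_mul (π / (m * N)) hs
  have h3 : (N : ℂ) ≠ 0 := Nat.cast_ne_zero.2 hN
  have e1 : exp (2 * (π / (m * N) : ℝ) * I) = exp (2 * π * I / (m * N : ℕ)) := by
    congr 1; push_cast; ring
  have e2 : exp (2 * π * I / (m * N : ℕ)) ^ N = exp (2 * π * I / m) := by
    rw [← exp_nat_mul]; congr 1; push_cast; field_simp
  rw [e1, e2, Multiset.prod_eq_zero (s := s.map fun a => 1 - exp (2 * π * I / m) * a)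
    (Multiset.mem_map.2 ⟨a, ha, by rw [h1, sub_self]⟩), mul_zero, mul_eq_zero] at h2
  refine h2.resolve_right (Multiset.prod_ne_zero fun h4 => hK ?_)
  obtain ⟨b, hb, h5⟩ := Multiset.mem_map.1 h4
  have h6 := congrArg (· ^ K) (sub_eq_zero.1 h5)
  simp only [one_pow, mul_pow, h b hb, mul_one] at h6
  exact (dvd_mul_left N m).trans
    (((isPrimitiveRoot_exp _ (mul_ne_zero hm hN)).pow_eq_one_iff_dvd K).1 h6.symm)

namespace GL1

variable {f m : ℕ} {χ : E → ℂ} {a g : E} {μ : ℂ} (D : GL1 p f m β χ a g μ)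
include D

theorem pow_eq_iff {x y : ℕ} : μ ^ x = μ ^ y ↔ x ≡ y [MOD orderOf a] := by
  rw [(isOfFinOrder_iff_pow_eq_one.2 ⟨_, orderOf_pos a, D.prim.1⟩).pow_eq_pow_iff_modEq,
    ← D.prim.eq_orderOf]

theorem ne_zero : μ ≠ 0 := D.prim.ne_zero (orderOf_pos a).ne'

theorem frob (e : E) : χ (e ^ p ^ f) = χ e := by
  by_cases he : e ∈ zpowers a
  · obtain ⟨x, -, rfl⟩ := D.mc.mem_iff.1 he
    have h1 := Finset.sum_range_succ' (fun c => μ ^ (x * (p ^ f) ^ c)) m
    rw [Finset.sum_range_succ, D.pow_eq_iff.2 (D.mc.per.mul_left x), pow_zero, add_left_inj] at h1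
    rw [← pow_mul, D.inn, D.inn, h1]
    exact Finset.sum_congr rfl fun c _ => by rw [pow_succ', mul_assoc]
  · rw [D.out _ he, D.out _ (D.free.pow_notMem he f)]

theorem degree : charDegree χ = m := charDegree_eq_of_apply_one (by simpa using D.inn 0)

/-- The eigenvalues of the elements of a generating coset. -/
theorem eig_outer {c : ℕ} (hc : m.Coprime c) (x : ℕ) : ∃ w, (g ^ c * a ^ x) ^ m = a ^ w ∧
    w * p ^ f ≡ w [MOD orderOf a] ∧ ∀ s, IsEig χ (g ^ c * a ^ x) s →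
      ∀ T, (s.map fun b => 1 - T * b).prod = 1 - μ ^ w * T ^ m := by
  obtain ⟨w, -, hw⟩ := D.mc.exists_pow_eq (g ^ c * a ^ x)
  have h1 : ∀ j : ℕ, ∃ y, (g ^ c * a ^ x) ^ j = g ^ (c * j) * a ^ y := fun j => by
    induction j with
    | zero => exact ⟨0, by simp⟩
    | succ j ih =>
      obtain ⟨y, hy⟩ := ih
      exact ⟨_, by rw [pow_succ, hy, D.mc.mul_eq, Nat.mul_succ]⟩
  have h2 : Commute (a ^ w) g := by
    have h3 : Commute (a ^ w) (g ^ c) := by
      have h4 := (hw ▸ (Commute.refl (g ^ c * a ^ x)).pow_left m).mul_right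
        ((Commute.refl a).pow_pow w x).inv_right
      rwa [mul_inv_cancel_right] at h4
    obtain ⟨z, -, hz⟩ := D.mc.exists_pow_m
    have h4 : Commute (a ^ w) (g ^ m) := hz ▸ (Commute.refl a).pow_pow w z
    have h5 := (h4.zpow_right (m.gcdA c)).mul_right (h3.zpow_right (m.gcdB c))
    rwa [← zpow_natCast g, ← zpow_natCast g, ← zpow_mul, ← zpow_mul, ← zpow_add,
      ← Nat.gcd_eq_gcd_ab, hc, Nat.cast_one, zpow_one] at h5
  have h3 : w * p ^ f ≡ w [MOD orderOf a] :=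
    D.mc.pow_eq_iff.1 (mul_left_cancel (a := g) ((D.mc.pow_comm₁ w).symm.trans h2.eq))
  refine ⟨w, hw, h3, fun s hs => prod_eig_of_cycle D.mc.mpos.ne' (pow_ne_zero _ D.ne_zero)
    (fun k hk => D.out _ fun h => hk ?_) (fun k => ?_) hs⟩
  · obtain ⟨y, hy⟩ := h1 k
    exact hc.dvd_of_dvd_mul_left ((D.mc.mul_mem_iff _ _).1 (hy ▸ h))
  · have h4 : ∀ i, w * (p ^ f) ^ i ≡ w [MOD orderOf a] := fun i => by
      induction i with
      | zero => simp [Nat.ModEq.refl]
      | succ i ih => rw [pow_succ, ← mul_assoc]; exact (ih.mul_right _).trans h3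
    rw [pow_mul, hw, ← pow_mul, D.inn, Finset.sum_congr rfl (g := fun _ => μ ^ (w * k)) fun i _ =>
      D.pow_eq_iff.2 (by rw [mul_right_comm]; exact (h4 i).mul_right k)]
    simp [pow_mul, mul_comm]

theorem good_outer (h2 : 2 ≤ p ^ f) {c : ℕ} (hc : m.Coprime c) (x : ℕ) (s : Multiset ℂ)
    (hs : IsEig χ (g ^ c * a ^ x) s) : (wf (p ^ f) (π / (m * (p ^ f : ℕ))) s).re ≤ 0 := by
  obtain ⟨w, -, h1, h3⟩ := D.eig_outer hc x
  refine wf_roots h2 D.mc.mpos.ne' (map_pow_eq D.frob hs) (hs.card.trans D.degree) (h3 s hs)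
    (mul_right_cancel₀ (pow_ne_zero w D.ne_zero) ?_)
  rw [← pow_succ, Nat.sub_add_cancel (by omega), one_mul, ← pow_mul, D.pow_eq_iff.2 h1]

/-- The classes in the generating cosets together with some classes of one further coset. -/
theorem win_add (h2 : 2 ≤ p ^ f) (c₀ : ℕ) (X : Finset ℕ) (h0 : ∀ x ∈ X, ¬ m.Coprime c₀)
    (hX : ∀ x ∈ X, ∀ y ∈ X, IsConj (g ^ c₀ * a ^ x) (g ^ c₀ * a ^ y) → x = y)
    (hg : ∀ x ∈ X, ∀ s, IsEig χ (g ^ c₀ * a ^ x) s →
      (wf (p ^ f) (π / (m * (p ^ f : ℕ))) s).re ≤ 0) :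
    Win p β (m.totient * Nat.gcd (orderOf a) (p ^ f - 1) + X.card) := by
  classical
  let I := ((Finset.range m).filter m.Coprime ×ˢ Finset.range (Nat.gcd (orderOf a) (p ^ f - 1))) ∪
    {c₀} ×ˢ X
  have h1 : ∀ u ∈ I, u.1 < m ∧ m.Coprime u.1 ∧ u.2 < Nat.gcd (orderOf a) (p ^ f - 1) ∨
      u.1 = c₀ ∧ u.2 ∈ X := fun u hu => by
    simpa only [I, Finset.mem_union, Finset.mem_product, Finset.mem_filter, Finset.mem_range,
      Finset.mem_singleton, and_assoc] using hu
  refine ⟨f, χ, π / (m * (p ^ f : ℕ)), I.image fun u => ConjClasses.mk (g ^ u.1 * a ^ u.2), D.char, D.sum, D.orth,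
    le_of_eq ?_, fun e he s hs => ?_⟩
  · rw [Finset.card_image_of_injOn, Finset.card_union_of_disjoint, Finset.card_product,
      Finset.card_product, Finset.card_range, Finset.card_singleton, one_mul, Nat.totient]
    · refine Finset.disjoint_left.2 fun u h h' => ?_
      simp only [Finset.mem_product, Finset.mem_filter, Finset.mem_singleton] at h h'
      exact h0 _ h'.2 (h'.1 ▸ h.1.2)
    · rintro ⟨c, x⟩ hu ⟨c', x'⟩ hv e
      have h3 := ConjClasses.mk_eq_mk_iff_isConj.1 e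
      have h4 := D.mc.conj_coset h3
      have h5 : m.Coprime c ↔ m.Coprime c' := by
        rw [Nat.Coprime, Nat.Coprime, Nat.gcd_comm m, Nat.gcd_comm m, h4.gcd_eq]
      rcases h1 _ hu with h | h <;> rcases h1 _ hv with h' | h'
      · obtain rfl : c = c' := h4.eq_of_lt_of_lt h.1 h'.1
        exact Prod.ext rfl ((D.mc.conj_outer (by omega) h3).eq_of_lt_of_lt h.2.2 h'.2.2)
      · exact (h0 _ h'.2 (h'.1 ▸ h5.1 h.2.1)).elim
      · exact (h0 _ h.2 (h.1 ▸ h5.2 h'.2.1)).elim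
      · obtain rfl : c = c₀ := h.1
        obtain rfl : c' = c := h'.1
        exact Prod.ext rfl (hX _ h.2 _ h'.2 h3)
  · obtain ⟨u, hu, e'⟩ := Finset.mem_image.1 he
    have h3 := hs.of_isConj D.char.isClassFunction (ConjClasses.mk_eq_mk_iff_isConj.1 e').symm
    rcases h1 u hu with h | h
    · exact D.good_outer h2 h.2.1 _ s h3
    · exact hg _ h.2 s (h.1 ▸ h3)

theorem win_outer (h2 : 2 ≤ p ^ f) : Win p β (m.totient * Nat.gcd (orderOf a) (p ^ f - 1)) :=
  D.win_add h2 0 ∅ (by simp) (by simp) (by simp)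

end GL1

theorem GL1.win_two {f : ℕ} {χ : E → ℂ} {a g : E} {μ : ℂ} (D : GL1 p f 2 β χ a g μ) {N P : ℕ}
    (hN : orderOf a = N) (hP : p ^ f = P) (h2 : 2 ≤ P) (X : Finset ℕ)
    (h1 : ∀ x ∈ X, N ∣ x * (P + 1) ∧ ¬ N ∣ x)
    (hX : ∀ x ∈ X, ∀ y ∈ X, ∀ i < 2, y ≡ x * P ^ i [MOD N] → x = y) :
    Win p β (Nat.gcd N (P - 1) + X.card) := by
  subst hN hP
  have h := D.win_add h2 0 X (by simp) (fun x hx y hy h => by
    rw [pow_zero, one_mul, one_mul] at h
    obtain ⟨i, hi, h3⟩ := D.mc.conj_inner h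
    exact hX x hx y hy i hi h3) fun x hx s hs => by
    rw [pow_zero, one_mul] at hs
    have h3 : IsEig χ (a ^ x) {μ ^ x, μ ^ (x * p ^ f)} :=
      ⟨by simp [D.ne_zero], fun k => by
        rw [← pow_mul, D.inn]
        simp [Finset.sum_range_succ, ← pow_mul, mul_right_comm]⟩
    obtain rfl := hs.unique h3
    exact wf_det_one h2 (map_pow_eq D.frob hs) (by
      rw [← pow_add, add_comm, ← Nat.mul_succ, D.prim.pow_eq_one_iff_dvd]; exact (h1 x hx).1)
      fun e => (h1 x hx).2 ((D.prim.pow_eq_one_iff_dvd x).1 e)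
  rwa [Nat.totient_two, one_mul] at h

theorem GL1.win_four {f : ℕ} {χ : E → ℂ} {a g : E} {μ : ℂ} (D : GL1 p f 4 β χ a g μ)
    (h2 : 2 ≤ p ^ f) (hz : Nat.gcd (orderOf a) (p ^ f - 1) = 2) : Win p β 5 := by
  have h := D.win_add h2 2 {0} (fun _ _ => by decide) (by simp) fun x hx s hs => by
    obtain rfl := Finset.mem_singleton.1 hx
    obtain ⟨w, h1, -, h3⟩ := D.eig_outer (c := 1) (by decide) 0
    rw [pow_zero, mul_one] at hs h1 h3
    rw [pow_one] at h1 h3
    obtain ⟨t, ht⟩ := exists_isEig D.char g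
    have h4 : orderOf (a ^ w) = 2 := h1 ▸ Nat.dvd_antisymm (hz ▸ D.mc.orderOf_pow_m_dvd (by omega))
      (D.mc.prime_dvd_orderOf Nat.prime_two (by decide))
    have h5 : μ ^ w = -1 := (sq_eq_one_iff.1 (by
      rw [← pow_mul, D.prim.pow_eq_one_iff_dvd, orderOf_dvd_iff_pow_eq_one, pow_mul, ← h4,
        pow_orderOf_eq_one])).resolve_left fun e => by
      rw [D.prim.pow_eq_one_iff_dvd, orderOf_dvd_iff_pow_eq_one] at e
      simp [e] at h4
    obtain ⟨T, hT⟩ := IsAlgClosed.exists_pow_nat_eq (exp (2 * π * I / (4 : ℕ))) two_pos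
    have h6 := h3 t ht T
    have h7 : T ^ 4 = -1 := by
      rw [show 4 = 2 * 2 from rfl, pow_mul, hT, ← exp_nat_mul, ← exp_pi_mul_I]
      congr 1; push_cast; ring
    rw [h5, h7, neg_mul_neg, mul_one, sub_self, Multiset.prod_eq_zero_iff] at h6
    obtain ⟨b, hb, h8⟩ := Multiset.mem_map.1 h6
    rw [wf_eq_zero (K := Nat.card E) (by omega) (by decide) (map_pow_eq D.frob hs) (fun h => D.free.cop
      ((dvd_pow_self p (by rintro rfl; simp at h2)).trans h)) (fun c hc => ?_) (a := b ^ 2)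
      ((ht.pow 2).unique hs ▸ Multiset.mem_map_of_mem _ hb)
      (by rw [← hT, ← mul_pow, ← sub_eq_zero.1 h8, one_pow]), zero_re]
    obtain ⟨k, hk⟩ := _root_.orderOf_dvd_natCard (g ^ 2)
    rw [hk, pow_mul, hs.pow_orderOf D.char hc, one_pow]
  rwa [hz] at h

theorem FreeCh.win_of_normal (F : FreeCh p β) (hp2 : p ≠ 2) {y : E} (hN : (zpowers y).Normal)
    (hy : ∀ j, 0 < j → j < charDegree β → ¬ orderOf y ∣ p ^ j - 1) {r : ℕ} (hr : r = 1 ∨ r = 2)
    (hc : Nat.card E * r + 1 = p ^ charDegree β)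
    (h : 25 ≤ p ^ charDegree β ∨ (IsCyclic E ∧ 6 ≤ Nat.card E)) : Win p β (7 - r) := by
  have hE := Nat.card_pos (α := E)
  have hn : charDegree β ≠ 0 := fun e => by
    rw [e, pow_zero] at hc; rcases hr with rfl | rfl <;> omega
  obtain ⟨f, m, χ, a, g, μ, hm, D⟩ := F.exists_gl1 hn hN hy ⟨r, by omega⟩
  have h1 : Odd (p ^ f) := (hp.out.odd_of_ne_two hp2).pow
  have h2 : 2 ≤ p ^ f := Nat.one_lt_pow (by rintro rfl; simp at hm; omega) hp.out.one_lt
  have h3 := D.mc.card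
  have h4 := D.win_outer h2
  have h5 := fun l hl => D.mc.prime_dvd (l := l) (by omega) hl
  have h6 : 0 < Nat.gcd (orderOf a) (p ^ f - 1) := Nat.gcd_pos_of_pos_left _ (orderOf_pos a)
  rw [← hm, pow_mul] at hc h
  by_cases m1 : m = 1
  · subst m1
    rw [pow_one] at hc h
    rw [mul_one] at h3
    rw [Nat.gcd_eq_left ⟨r, by rw [h3]; omega⟩, Nat.totient_one, one_mul, h3] at h4
    exact h4.mono (by rcases hr with rfl | rfl <;> omega)
  replace h : 25 ≤ (p ^ f) ^ m := h.resolve_right fun h => m1 (by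
    have := h.1
    exact Nat.dvd_one.1 ((D.mc.out 1).1
      (D.cen (mem_centralizer_singleton_iff.2 (IsCyclic.commGroup.mul_comm _ a)))))
  obtain ⟨k, hk⟩ := h1
  by_cases m2 : m = 2
  · subst m2
    by_cases h7 : 6 ≤ Nat.gcd (orderOf a) (p ^ f - 1)
    · exact h4.mono (by rw [Nat.totient_two]; omega)
    rw [← h3, hk] at hc
    rw [hk] at h h7
    have h8 : orderOf a * r = 2 * k * (k + 1) := by nlinarith
    rcases hr with rfl | rfl
    · have h9 := Nat.le_of_dvd (hk ▸ h6) (Nat.dvd_gcd (k := 2 * k) (m := orderOf a)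
        (n := 2 * k + 1 - 1) ⟨k + 1, by omega⟩ dvd_rfl)
      obtain rfl : k = 2 := by
        have : ¬ k ≤ 1 := fun h' => by nlinarith
        omega
      exact (D.win_two (N := 12) (P := 5) (by omega) hk (by omega) {2, 4} (by decide)
        (by decide)).mono (by decide)
    · have h10 : orderOf a = k * (k + 1) := by nlinarith
      have h9 := Nat.le_of_dvd (hk ▸ h6) (Nat.dvd_gcd (k := k) (m := orderOf a)
        (n := 2 * k + 1 - 1) ⟨k + 1, h10⟩ (dvd_mul_left k 2))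
      have : ¬ k ≤ 1 := fun h' => by nlinarith
      obtain rfl | rfl | rfl | rfl : k = 2 ∨ k = 3 ∨ k = 4 ∨ k = 5 := by omega
      all_goals rw [h10] at h7
      · exact (D.win_two (N := 6) (P := 5) h10 hk (by omega) {1, 2, 3} (by decide)
          (by decide)).mono (by decide)
      · exact absurd (by decide) h7
      · exact (D.win_two (N := 20) (P := 9) h10 hk (by omega) {2} (by decide)
          (by decide)).mono (by decide)
      · exact absurd (by decide) h7
  have m0 := D.mc.mpos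
  have h7 : 2 ≤ m.totient := Nat.le_of_dvd (Nat.totient_pos.2 m0)
    (Nat.totient_even (by omega)).two_dvd
  by_cases h8 : 3 ≤ Nat.gcd (orderOf a) (p ^ f - 1)
  · exact h4.mono ((show 7 - r ≤ 2 * 3 by omega).trans (Nat.mul_le_mul h7 h8))
  have h9 : ∀ {l}, l.Prime → l ∣ m → l = 2 := fun hl h => by
    have := Nat.le_of_dvd h6 (h5 _ hl h)
    have := hl.two_le
    omega
  have h10 : Nat.gcd (orderOf a) (p ^ f - 1) = 2 := by
    have := Nat.le_of_dvd h6 (h5 _ (Nat.minFac_prime m1) (Nat.minFac_dvd m))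
    have := (Nat.minFac_prime m1).two_le
    omega
  obtain ⟨j, rfl⟩ : ∃ j, m = 2 ^ j := ⟨_, Nat.eq_prime_pow_of_unique_prime_dvd m0.ne' h9⟩
  rcases j with _ | _ | _ | j
  · simp at m1
  · simp at m2
  · rcases hr with rfl | rfl
    swap
    · exact D.win_four h2 h10
    exfalso
    rw [← h3, hk] at hc
    have h11 : orderOf a = 2 * k * ((k + 1) * (2 * k ^ 2 + 2 * k + 1)) := by
      norm_num at hc; nlinarith
    have h12 := Nat.le_of_dvd h6 (Nat.dvd_gcd (k := 2 * k) ⟨_, h11⟩ (by rw [hk]; rfl))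
    obtain rfl : k = 1 := by omega
    obtain ⟨w, h13, h14⟩ := D.mc.exists_pow_m
    have h15 := D.mc.orderOf_pow_m_dvd (by omega)
    have h16 := D.mc.prime_dvd_orderOf Nat.prime_two (by decide)
    rw [h10, h14, orderOf_dvd_iff_pow_eq_one, ← pow_mul, ← orderOf_dvd_iff_pow_eq_one] at h15
    have h17 : w ≠ 0 := by
      rintro rfl
      rw [h14] at h16
      simp at h16
    rw [show orderOf a = 20 from h11] at h13 h15
    obtain rfl : w = 10 := by omega
    have h18 := D.mc.prim (g ^ 2 * a ^ 1) 2 Nat.prime_two (by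
      rw [sq, D.mc.mul_eq, hk]
      refine (congrArg (· * _) h14).trans ?_
      rw [← pow_add, ← orderOf_dvd_iff_pow_eq_one, h11]
      decide)
    exact absurd ((D.mc.mul_mem_iff _ _).1 h18) (by decide)
  · refine h4.mono ?_
    rw [h10, Nat.totient_prime_pow_succ Nat.prime_two, pow_succ, pow_succ]
    have := Nat.one_le_two_pow (n := j)
    omega

end FE
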