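import Cfsg.Agent.Lib.Block.FE0
import Cfsg.Agent.Lib.Char.UnifCent
import Cfsg.Agent.Lib.Grp.DoubleCover
import Cfsg.Agent.S4473

/-!
# Free linear `p'`-groups in dimension two
-/

set_option autoImplicit false
set_option linter.unusedSectionVars false

namespace FE

open Cfsg CT LG Subgroup Complex
open scoped Real ComplexConjugate

section
variable {K : Type*} [Group K] [Finite K]

theorem ex_three_sq {ι : Type*} (s : Finset ι) (f : ι → ℕ) (h : s.card ≤ 3) :
    ∃ a b c : ℕ, ∑ i ∈ s, f i ^ 2 = a ^ 2 + b ^ 2 + c ^ 2 ∧ (s.card ≤ 2 → c = 0) := by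
  classical
  obtain h | h | h | h : s.card = 0 ∨ s.card = 1 ∨ s.card = 2 ∨ s.card = 3 := by omega
  · rw [Finset.card_eq_zero] at h
    exact ⟨0, 0, 0, by simp [h], fun _ => rfl⟩
  · obtain ⟨a, rfl⟩ := Finset.card_eq_one.1 h
    exact ⟨f a, 0, 0, by simp, fun _ => rfl⟩
  · obtain ⟨a, b, hab, rfl⟩ := Finset.card_eq_two.1 h
    exact ⟨f a, f b, 0, by simp [hab], fun _ => rfl⟩
  · obtain ⟨a, b, c, h1, h2, h3, rfl⟩ := Finset.card_eq_three.1 h
    exact ⟨f a, f b, f c, by simp [h1, h2, h3, add_assoc], fun h' => by omega⟩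

theorem three_sq_cases {a b c m : ℕ} (h : m = a ^ 2 + b ^ 2 + c ^ 2) :
    m ≠ 23 ∧ m ≠ 60 ∧ (c = 0 → m ≠ 12 ∧ m ≠ 24) := by
  by_cases hm : m < 64
  · have ha : a < 8 := by nlinarith
    have hb : b < 8 := by nlinarith
    have hc : c < 8 := by nlinarith
    have key : ∀ a ∈ List.range 8, ∀ b ∈ List.range 8, ∀ c ∈ List.range 8,
        a ^ 2 + b ^ 2 + c ^ 2 ∉ [23, 60] ∧ a ^ 2 + b ^ 2 ∉ [12, 24] := by decide +kernel
    have := key a (List.mem_range.2 ha) b (List.mem_range.2 hb) c (List.mem_range.2 hc)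
    simp only [List.mem_cons, List.not_mem_nil, or_false, not_or] at this
    refine ⟨by omega, by omega, ?_⟩
    rintro rfl
    omega
  · omega

theorem card_conj_ge_center {c c₁ : ℕ}
    (h : ∀ s : Finset (IrrCharacter K), ∑ χ ∈ s, charDegree χ.1 ^ 2 = (Subgroup.center K).index →
      c ≤ s.card ∧ (irrOne K ∈ s → c₁ ≤ s.card)) :
    c₁ + c * (Nat.card (Subgroup.center K) - 1) ≤ Nat.card (ConjClasses K) := by
  classical
  have hd : ∀ θ : IrrCharacter (Subgroup.center K), charDegree θ.1 = 1 :=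
    irr_charDegree_eq_one_of_comm fun a b => Subtype.ext (mem_center_iff.1 b.2 a)
  have h1 : ∀ θ : IrrCharacter (Subgroup.center K),
      ∑ χ ∈ irrOver (Subgroup.center K) θ.1, charDegree χ.1 ^ 2 = (Subgroup.center K).index := fun θ => by
    rw [sum_irrOver_degree_sq_of_invariant fun g => conjSmul_of_le_center le_rfl g θ, hd,
      one_pow, mul_one]
  have h2 : Fintype.card (IrrCharacter (Subgroup.center K)) = Nat.card (Subgroup.center K) := by
    rw [← sum_irr_degree_sq]
    simp [hd]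
  have h3 : ∑ θ : IrrCharacter (Subgroup.center K), (irrOver (Subgroup.center K) θ.1).card ≤
      Nat.card (ConjClasses K) := by
    rw [← card_irr_eq_card_conjClasses, Nat.card_eq_fintype_card, ← Finset.card_biUnion]
    · exact Finset.card_le_univ _
    intro θ _ φ _ hne
    refine Finset.disjoint_left.2 fun χ h4 h5 => hne ?_
    obtain ⟨g, hg⟩ := (mem_irrOver.1 h5).mem_orbit (mem_irrOver.1 h4)
    exact hg.symm.trans (conjSmul_of_le_center le_rfl g φ)
  refine le_trans ?_ h3
  rw [← Finset.add_sum_erase _ _ (Finset.mem_univ (irrOne _))]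
  refine add_le_add ((h _ (h1 _)).2 (mem_irrOver.2 ?_)) ?_
  · exact (ip_irr_self (irrOne (Subgroup.center K))).trans_ne one_ne_zero
  · have := Finset.card_nsmul_le_sum (Finset.univ.erase (irrOne (Subgroup.center K))) _ c
      fun θ _ => (h _ (h1 θ)).1
    rwa [Finset.card_erase_of_mem (Finset.mem_univ _), Finset.card_univ, h2, smul_eq_mul,
      mul_comm] at this

end

variable {E : Type*} [Group E] [Finite E] {p : ℕ} [hp : Fact p.Prime] {χ : IrrCharacter E}

/-- Non-positive value in the standard window of dimension two. -/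
def Good (p : ℕ) (χ : IrrCharacter E) (g : E) : Prop :=
  ∀ s, IsEig χ.1 g s → (wf p (π / ((2 : ℕ) * p)) s).re ≤ 0

theorem win_list (l : List E) (h : ∀ g ∈ l, Good p χ g) (hl : l.Pairwise fun a b => ¬ IsConj a b) :
    Win p χ.1 l.length := by
  classical
  refine win_of_set (f := 1) (π / ((2 : ℕ) * p)) (irr_isCharacter χ) (by ext g; simp)
    (fun i _ j _ _ => by omega) {g | g ∈ l} (fun g hg => by simpa [Good] using h g hg) ?_
  have h1 : (l.map ConjClasses.mk).Nodup :=
    List.pairwise_map.2 (hl.imp fun h e => h (ConjClasses.mk_eq_mk_iff_isConj.1 e))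
  rw [show ConjClasses.mk '' {g | g ∈ l} = ↑(l.map ConjClasses.mk).toFinset by ext; simp,
    Set.ncard_coe_finset, List.toFinset_card_of_nodup h1, List.length_map]

theorem not_conj_of_order {a b : E} {m n : ℕ} (ha : orderOf a = m) (hb : orderOf b = n)
    (h : m ≠ n) : ¬ IsConj a b := fun e => by
  obtain ⟨c, rfl⟩ := isConj_iff.1 e
  exact h (ha.symm.trans ((MulAut.conj c).orderOf_eq a).symm |>.trans hb)

theorem conj_mem_center {a b : E} (h : IsConj a b) (ha : a ∈ Subgroup.center E) : a = b := by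
  obtain ⟨c, rfl⟩ := isConj_iff.1 h
  rw [mem_center_iff.1 ha c, mul_inv_cancel_right]

theorem orderOf_mul_inv {i x : E} (hi : orderOf i = 2) (hc : i ∈ Subgroup.center E) {n : ℕ}
    (hx : orderOf x = n) (hn : Nat.Coprime 2 n) : orderOf (i * x) = 2 * n := by
  rw [Commute.orderOf_mul_eq_mul_orderOf_of_coprime (mem_center_iff.1 hc x).symm
    (by rwa [hi, hx]), hi, hx]

theorem factor_real {N : ℕ} (θ : ℝ) {a : ℂ} (h0 : ‖a‖ = 1) (ha : a ^ (N - 1) = 1) :
    ∃ r : ℝ, exp (-((N - 1 : ℕ) * θ * I)) * ∑ j ∈ Finset.range N, (exp (2 * θ * I) * a) ^ j = r := by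
  refine ⟨_, (conj_eq_iff_re.1 ?_).symm⟩
  rw [map_mul, map_sum, ← Finset.sum_range_reflect, Finset.mul_sum, Finset.mul_sum]
  refine Finset.sum_congr rfl fun j hj => ?_
  obtain ⟨d, hd⟩ := Nat.exists_eq_add_of_le (Nat.le_sub_one_of_lt (Finset.mem_range.1 hj))
  have h1 : a * conj a = 1 := by rw [mul_conj, normSq_eq_norm_sq, h0]; simp
  have h2 : conj a ^ d = a ^ j := by
    rw [← one_mul (conj a ^ d), ← ha, hd, pow_add, mul_assoc, ← mul_pow, h1, one_pow, mul_one]
  rw [hd, Nat.add_sub_cancel_left, map_pow, map_mul, mul_pow, mul_pow, h2, ← exp_conj, ← exp_conj,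
    ← exp_nat_mul, ← exp_nat_mul, ← mul_assoc, ← mul_assoc, ← exp_add, ← exp_add]
  congr 2
  simp only [map_neg, map_mul, map_natCast, conj_ofReal, conj_I, map_ofNat]
  push_cast
  ring

namespace FreeCh

variable (F : FreeCh p χ.1) (h2 : charDegree χ.1 = 2)
include F h2

theorem exists_pair (g : E) : ∃ a b, IsEig χ.1 g {a, b} := by
  obtain ⟨s, hs⟩ := exists_isEig F.char g
  obtain ⟨a, b, rfl⟩ := Multiset.card_eq_two.1 (hs.card.trans h2)
  exact ⟨a, b, hs⟩

theorem eq_iff {g : E} {a b : ℂ} (h : IsEig χ.1 g {a, b}) : a = b ↔ g ∈ Subgroup.center E := by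
  refine ⟨fun e => F.char.center_le_center_of_faithful (F.ker_eq_bot' (by omega))
    (h.mem_center F.char (c := a) (by simp [e])), fun hg => ?_⟩
  obtain ⟨c, -, -, h1⟩ := exists_scalar F.char (center_le_irr_center χ hg)
  have h3 := fun x => (h.unique h1 ▸ Multiset.eq_of_mem_replicate : x ∈ ({a, b} : Multiset ℂ) → _)
  exact (h3 a (by simp)).trans (h3 b (by simp)).symm

theorem eq_neg {g : E} (hg : g ∉ Subgroup.center E) (hg' : g * g ∈ Subgroup.center E) {a b : ℂ}
    (h : IsEig χ.1 g {a, b}) : b = -a :=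
  (sq_eq_sq_iff_eq_or_eq_neg.1 ((F.eq_iff h2 (g := g ^ 2) (by simpa using h.pow 2)).2
    (sq g ▸ hg')).symm).resolve_left fun e => hg ((F.eq_iff h2 h).1 e.symm)

theorem good_sq {g : E} (hg : g ∉ Subgroup.center E) (hg' : g * g ∈ Subgroup.center E) :
    Good p χ g := fun s hs => by
  obtain ⟨a, b, h⟩ := F.exists_pair h2 g
  obtain rfl := h.unique hs
  obtain rfl := F.eq_neg h2 hg hg' h
  refine wf_roots hp.out.two_le two_ne_zero (map_pow_eq F.frob h) rfl (c := a ^ 2)
    (fun T => by simp; ring) (mul_right_cancel₀ (pow_ne_zero 2 (h.ne a (by simp))) ?_)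
  have h3 := F.pow_mem h (a := a) (by simp) 1
  rw [← pow_succ, Nat.sub_add_cancel hp.out.pos, pow_right_comm, one_mul]
  simp only [pow_one, Multiset.insert_eq_cons, Multiset.mem_cons, Multiset.mem_singleton] at h3
  rcases h3 with e | e <;> simp [e]

theorem good_det {g : E} (hg : g ≠ 1) {a b : ℂ} (h : IsEig χ.1 g {a, b}) (hab : a * b = 1) :
    Good p χ g := fun s hs => h.unique hs ▸ wf_det_one hp.out.two_le (map_pow_eq F.frob h) hab
      fun e => F.free g hg _ h (by simp [e])

theorem det_of_dvd {g : E} (hg : g ≠ 1) (hd : orderOf g ∣ p + 1) {a b : ℂ}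
    (h : IsEig χ.1 g {a, b}) : a * b = 1 := by
  have h1 := (F.pow_eq_one_iff h (a := a) (by simp) _).2 hd
  have h3 := F.pow_mem h (a := a) (by simp) 1
  simp only [pow_one, Multiset.insert_eq_cons, Multiset.mem_cons, Multiset.mem_singleton] at h3
  rw [pow_succ'] at h1
  rcases h3 with e | e <;> rw [e] at h1
  · have h4 := orderOf_dvd_iff_pow_eq_one.1
      ((F.pow_eq_one_iff h (a := a) (by simp) 2).1 (by rw [sq, h1]))
    rw [F.eig_of_mul_self (sq g ▸ h4) hg h (a := a) (by simp),
      F.eig_of_mul_self (sq g ▸ h4) hg h (a := b) (by simp)]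
    simp
  · exact h1

theorem good_dvd {g : E} (hg : g ≠ 1) (hd : orderOf g ∣ p + 1) : Good p χ g := by
  obtain ⟨a, b, h⟩ := F.exists_pair h2 g
  exact F.good_det h2 hg h (F.det_of_dvd h2 hg hd h)

theorem good_six {g : E} (hg : g ∉ Subgroup.center E) (ho : orderOf g = 3 ∨ orderOf g = 6) :
    Good p χ g := by
  obtain ⟨a, b, h⟩ := F.exists_pair h2 g
  have h1 := sub_ne_zero.2 (mt (F.eq_iff h2 h).1 hg)
  refine F.good_det h2 (fun e => hg (e ▸ one_mem _)) h ?_
  rcases ho with ho | ho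
  · have h3 : ∀ x ∈ ({a, b} : Multiset ℂ), x ^ 2 + x + 1 = 0 := fun x hx =>
      mul_left_cancel₀ (sub_ne_zero.2 (mt (fun e : x = 1 =>
        (F.pow_eq_one_iff h hx 1).1 (by simp [e])) (by simp [ho])))
        (by linear_combination (F.pow_eq_one_iff h hx 3).2 (by simp [ho]))
    refine mul_left_cancel₀ h1 ?_
    linear_combination b * h3 a (by simp) - a * h3 b (by simp)
  · have h3 : ∀ x ∈ ({a, b} : Multiset ℂ), x ^ 2 - x + 1 = 0 := fun x hx =>
      mul_left_cancel₀ (mul_ne_zero
        (sub_ne_zero.2 (mt (F.pow_eq_one_iff h hx 3).1 (by simp [ho])))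
        (sub_ne_zero.2 (mt (F.pow_eq_one_iff h hx 2).1 (by simp [ho]))))
        (by linear_combination (x - 1) * (F.pow_eq_one_iff h hx 6).2 (by simp [ho]))
    refine mul_left_cancel₀ h1 ?_
    linear_combination b * h3 a (by simp) - a * h3 b (by simp)

theorem card_center_dvd : Nat.card (Subgroup.center E) ∣ p - 1 := by
  have := irr_isCyclic_center_of_faithful χ (F.ker_eq_bot' (by omega))
  obtain ⟨w, hw⟩ := IsCyclic.exists_ofOrder_eq_natCard (α := Subgroup.center E)
  obtain ⟨a, b, h⟩ := F.exists_pair h2 w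
  obtain rfl := (F.eq_iff h2 h).2 w.2
  have h3 := F.pow_mem h (a := a) (by simp) 1
  rw [← hw, ← orderOf_coe, ← F.pow_eq_one_iff h (a := a) (by simp)]
  refine mul_right_cancel₀ (h.ne a (by simp)) ?_
  rw [← pow_succ, Nat.sub_add_cancel hp.out.pos, one_mul]
  simpa using h3

theorem win_coset (hN : 2 ∣ (Subgroup.center E).index) (l : List E) (h : ∀ g ∈ l, Good p χ g)
    (hl : l.Pairwise fun a b => ¬ IsConj a b)
    (hl' : ∀ g ∈ l, g * g ∈ Subgroup.center E → g ∈ Subgroup.center E) :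
    Win p χ.1 (l.length + Nat.card (Subgroup.center E) / 2) := by
  have := irr_isCyclic_center_of_faithful χ (F.ker_eq_bot' (by omega))
  obtain ⟨w, hw⟩ := IsCyclic.exists_ofOrder_eq_natCard (α := Subgroup.center E)
  obtain ⟨t, ht⟩ := exists_prime_orderOf_dvd_card' (G := E ⧸ Subgroup.center E) 2 hN
  obtain ⟨t, rfl⟩ := QuotientGroup.mk_surjective t
  have h1 : t ∉ Subgroup.center E := fun e => by
    rw [(QuotientGroup.eq_one_iff t).2 e] at ht
    simp at ht
  have h3 : t * t ∈ Subgroup.center E := by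
    rw [← QuotientGroup.eq_one_iff, QuotientGroup.mk_mul, ← sq, ← ht, pow_orderOf_eq_one]
  have h4 : ∀ i : ℕ, t * w ^ i * (t * w ^ i) = t * t * (w ^ (2 * i) : Subgroup.center E) :=
    fun i => by
      rw [mul_assoc, ← mul_assoc (w.1 ^ i), ← mem_center_iff.1 (_root_.pow_mem w.2 i), two_mul, pow_add]
      simp [mul_assoc]
  have h5 : ∀ i : ℕ, t * w ^ i ∉ Subgroup.center E := fun i e =>
    h1 ((mul_mem_cancel_right (_root_.pow_mem w.2 i)).1 e)
  have h6 : ∀ i : ℕ, t * w ^ i * (t * w ^ i) ∈ Subgroup.center E := fun i =>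
    h4 i ▸ mul_mem h3 (w ^ (2 * i)).2
  have := win_list (p := p) (χ := χ)
    (l ++ (List.range (Nat.card (Subgroup.center E) / 2)).map fun i => t * w ^ i) ?_ ?_
  · simpa using this
  · intro g hg
    rcases List.mem_append.1 hg with hg | hg
    · exact h g hg
    · obtain ⟨i, -, rfl⟩ := List.mem_map.1 hg
      exact F.good_sq h2 (h5 i) (h6 i)
  · refine List.pairwise_append.2 ⟨hl, List.pairwise_map.2 (List.pairwise_lt_range.imp_of_mem
      fun {i j} _ hj hij e => ?_), fun a ha b hb e => ?_⟩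
    · have h7 := conj_mem_center (by simpa [sq] using e.pow 2) (h6 i)
      rw [h4, h4, mul_left_cancel_iff, Subtype.coe_inj, pow_inj_mod, hw] at h7
      have := List.mem_range.1 hj
      rw [Nat.mod_eq_of_lt (by omega), Nat.mod_eq_of_lt (by omega)] at h7
      omega
    · obtain ⟨i, -, rfl⟩ := List.mem_map.1 hb
      have h7 := conj_mem_center (by simpa [sq] using e.symm.pow 2) (h6 i)
      have h8 := hl' a ha (h7 ▸ h6 i)
      exact h5 i (conj_mem_center e h8 ▸ h8)

theorem index_center (hA : ∀ A : Subgroup E, ⁅A, A⁆ = ⊥ → ¬ A.index ≤ 2) :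
    (Subgroup.center E).index = 12 ∨ (Subgroup.center E).index = 24 ∨
      (Subgroup.center E).index = 60 := by
  have hk := F.ker_eq_bot' (by omega)
  have := Fintype.ofFinite E
  refine Cfsg.Agent.S4473.result χ (F.char.ker_eq_bot_iff.1 hk) h2 fun H hH θ hθ h => ?_
  rw [indFun_eq_ind] at h
  have h1 := charDegree_ind hθ
  rw [← h, h2] at h1
  have h3 : H.index ≠ 1 := by rwa [Ne, index_eq_one]
  have h4 : H.index = 2 := ((Nat.dvd_prime Nat.prime_two).1 ⟨_, h1⟩).resolve_left h3
  rw [h4] at h1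
  have := normal_of_index_eq_two h4
  refine hA H (le_bot_iff.1 ?_) h4.le
  rw [← hk, h]
  refine le_ker_ind_of_normal (commutator_le_left H H) (le_trans ?_
    (commutator_le_ker_of_degree_one hθ (by omega)))
  rw [← map_subtype_commutator, subgroupOf, comap_map_eq_self_of_injective H.subtype_injective]

theorem exists_eight (hz : Nat.card (Subgroup.center E) = 2) (h16 : 2 ^ 4 ∣ Nat.card E) :
    ∃ y : E, orderOf y = 8 := by
  classical
  obtain ⟨S, hS⟩ := Sylow.exists_subgroup_card_pow_prime 2 h16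
  by_contra hn
  push Not at hn
  have := Fintype.ofFinite S
  have h1 : ∀ g : S, χ.1 g * conj (χ.1 g) = if g.1 ∈ Subgroup.center E then 4 else 0 := fun g => by
    obtain ⟨a, b, h⟩ := F.exists_pair h2 g
    split_ifs with hg
    · obtain rfl := (F.eq_iff h2 h).2 hg
      rw [h.apply, mul_conj, normSq_eq_norm_sq]
      simp [← two_mul, h.norm_eq F.char (a := a) (by simp)]
      norm_num
    · obtain ⟨i, hi, e⟩ := (Nat.dvd_prime_pow Nat.prime_two).1 (hS ▸ orderOf_dvd_natCard g)
      rw [← orderOf_coe] at e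
      have h3 : orderOf g.1 ∣ 4 := by
        interval_cases i
        exacts [e ▸ by norm_num, e ▸ by norm_num, e ▸ by norm_num, (hn _ e).elim,
          (hn (g ^ 2) (by rw [orderOf_pow, e]; norm_num)).elim]
      rw [h.apply, F.eq_neg h2 hg (F.mem_center_of_mul_self (by omega) (by
        rw [← orderOf_dvd_iff_pow_eq_one.1 h3]; simp [pow_succ, mul_assoc])) h]
      simp
  obtain ⟨n, hn⟩ := (F.char.res S).exists_nat_ip (F.char.res S)
  rw [ip_def, hS] at hn
  simp only [res_apply, h1, Finset.sum_ite, Finset.sum_const, smul_zero, add_zero] at hn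
  have h3 : (Finset.univ.filter fun g : S => g.1 ∈ Subgroup.center E).card ≤ 2 := by
    rw [← Fintype.card_subtype, ← Nat.card_eq_fintype_card, ← hz]
    exact Nat.card_le_card_of_injective (fun g => ⟨g.1.1, g.2⟩) fun x y e =>
      Subtype.ext (Subtype.ext (congrArg Subtype.val e :))
  have h4 : 0 < (Finset.univ.filter fun g : S => g.1 ∈ Subgroup.center E).card :=
    Finset.card_pos.2 ⟨1, by simp⟩
  generalize (Finset.univ.filter fun g : S => g.1 ∈ Subgroup.center E).card = c at *
  have h5 : ((c * 4 : ℕ) : ℂ) = (16 * n : ℕ) := by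
    push_cast at hn ⊢
    rw [nsmul_eq_mul] at hn
    linear_combination 16 * hn
  have := Nat.cast_injective h5
  omega

theorem two_of_five {y : E} (hy : orderOf y = 5) (hy' : y ∉ Subgroup.center E) (h5 : 5 ∣ p - 1) :
    ∃ u v : E, orderOf u = 5 ∧ orderOf v = 5 ∧ Good p χ u ∧ Good p χ v ∧ ¬ IsConj u v := by
  have ho : ∀ i, Nat.Coprime 5 i → orderOf (y ^ i) = 5 := fun i hi => by
    rw [(hy ▸ hi : (orderOf y).Coprime i).orderOf_pow, hy]
  have hm : ∀ {a : ℂ}, IsPrimitiveRoot a 5 → ∀ m n, a ^ m = a ^ n → m % 5 = n % 5 :=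
    fun h m n e => h.pow_inj (Nat.mod_lt _ (by omega)) (Nat.mod_lt _ (by omega)) (by
      rw [← pow_eq_pow_mod _ h.1, ← pow_eq_pow_mod _ h.1, e])
  have hp5 : ∀ {s}, IsEig χ.1 y s → ∀ a ∈ s, IsPrimitiveRoot a 5 := fun h a ha =>
    ⟨(F.pow_eq_one_iff h ha 5).2 (by simp [hy]), fun l e => hy ▸ (F.pow_eq_one_iff h ha l).1 e⟩
  have key : ∀ a, IsEig χ.1 y {a, a ^ 2} → ∃ u v : E, orderOf u = 5 ∧ orderOf v = 5 ∧
      Good p χ u ∧ Good p χ v ∧ ¬ IsConj u v := fun a h => by
    have h1 := hp5 h a (by simp)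
    have h3 : ∀ i, (a ^ i) ^ (p - 1) = 1 := fun i => by
      rw [pow_right_comm, (h1.pow_eq_one_iff_dvd _).2 h5, one_pow]
    choose r hr using fun i : ℕ => factor_real (N := p) (π / ((2 : ℕ) * p)) (a := a ^ i)
      (by rw [norm_pow, h.norm_eq F.char (by simp), one_pow]) (h3 i)
    have h4 : ∀ i j, (wf p (π / ((2 : ℕ) * p)) {a ^ i, a ^ j}).re = r i * r j := fun i j => by
      simp only [wf, Multiset.insert_eq_cons, Multiset.map_cons, Multiset.map_singleton,
        Multiset.prod_cons, Multiset.prod_singleton, hr, ← ofReal_mul, ofReal_re]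
    have h6 : ∀ i j, i + j = 5 → 0 < j → 0 < i → r i * r j ≤ 0 := fun i j e _ _ =>
      h4 i j ▸ wf_det_one hp.out.two_le (by
        have h7 : ∀ i, (a ^ i) ^ p = a ^ i := fun i => by
          rw [← Nat.sub_add_cancel hp.out.pos, pow_succ, h3, one_mul]
        simp [h7]) (by rw [← pow_add, e, h1.1]) (h1.pow_ne_one_of_pos_of_lt (by omega) (by omega))
    have h7 : ∀ i, IsEig χ.1 (y ^ i) {a ^ i, a ^ (2 * i % 5)} := fun i => by
      simpa [← pow_mul, ← pow_eq_pow_mod _ h1.1] using h.pow i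
    have h8 : ∀ i, r i * r (2 * i % 5) ≤ 0 → Good p χ (y ^ i) := fun i e s hs =>
      (h7 i).unique hs ▸ h4 _ _ ▸ e
    have h9 : ∀ i j, (i + 2 * i % 5) % 5 ≠ (j + 2 * j % 5) % 5 → ¬ IsConj (y ^ i) (y ^ j) :=
      fun i j e hc => e (hm h1 _ _ (by
        simpa [pow_add] using congrArg Multiset.prod
          (((h7 i).of_isConj F.char.isClassFunction hc).unique (h7 j))))
    have a1 := h6 1 4 rfl (by omega) (by omega)
    have a2 : r 1 * r 2 ≤ 0 ∨ r 2 * r 4 ≤ 0 := by
      by_contra hn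
      push Not at hn
      nlinarith [mul_pos hn.1 hn.2, sq_nonneg (r 2)]
    have a3 : r 3 * r 1 ≤ 0 ∨ r 4 * r 3 ≤ 0 := by
      by_contra hn
      push Not at hn
      nlinarith [mul_pos hn.1 hn.2, sq_nonneg (r 3)]
    rcases a2 with a2 | a2 <;> rcases a3 with a3 | a3
    exacts [⟨_, _, ho 1 (by norm_num), ho 3 (by norm_num), h8 1 a2, h8 3 a3, h9 _ _ (by norm_num)⟩,
      ⟨_, _, ho 1 (by norm_num), ho 4 (by norm_num), h8 1 a2, h8 4 a3, h9 _ _ (by norm_num)⟩,
      ⟨_, _, ho 2 (by norm_num), ho 3 (by norm_num), h8 2 a2, h8 3 a3, h9 _ _ (by norm_num)⟩,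
      ⟨_, _, ho 2 (by norm_num), ho 4 (by norm_num), h8 2 a2, h8 4 a3, h9 _ _ (by norm_num)⟩]
  obtain ⟨a, b, h⟩ := F.exists_pair h2 y
  have h1 := hp5 h a (by simp)
  obtain ⟨j, hj, rfl⟩ := h1.eq_pow_of_pow_eq_one (hp5 h b (by simp)).1
  interval_cases j
  · exact ((hp5 h _ (by simp)).ne_one (by omega) (pow_zero a)).elim
  · exact (hy' ((F.eq_iff h2 h).1 (pow_one a).symm)).elim
  · exact key a h
  · refine key (a ^ 3) ?_
    rwa [← pow_mul, pow_eq_pow_mod (3 * 2) h1.1, show 3 * 2 % 5 = 1 from rfl, pow_one,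
      Multiset.pair_comm]
  · have h3 : IsEig χ.1 (y ^ 2) {a ^ 2, (a ^ 4) ^ 2} := by simpa using h.pow 2
    refine ⟨y, y ^ 2, hy, ho 2 (by norm_num), F.good_det h2 (fun e => by simp [e] at hy) h
      (by rw [← pow_succ', h1.1]), F.good_det h2 (fun e => by simpa [e] using ho 2 (by norm_num)) h3
      (by rw [← mul_pow, ← pow_succ', h1.1, one_pow]), fun hc => ?_⟩
    have h4 : a ^ 1 ∈ ({a ^ 2, (a ^ 4) ^ 2} : Multiset ℂ) :=
      (h.of_isConj F.char.isClassFunction hc).unique h3 ▸ by simp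
    simp only [Multiset.insert_eq_cons, Multiset.mem_cons, Multiset.mem_singleton, ← pow_mul] at h4
    rcases h4 with e | e <;> simpa using hm h1 _ _ e

theorem win_twelve (hA : ∀ A : Subgroup E, ⁅A, A⁆ = ⊥ → ¬ A.index ≤ 2) (hE : Nat.card E = 24)
    (hz : Nat.card (Subgroup.center E) = 2) (hp' : p = 5 ∨ p = 7) : Win p χ.1 6 := by
  classical
  have := Fintype.ofFinite (ConjClasses E)
  have hZ := (Subgroup.center E).card_mul_index
  have h1 := card_conj_ge_center (K := E) (c := 3) (c₁ := 4) fun s h => by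
    rw [show (Subgroup.center E).index = 12 by rw [hz, hE] at hZ; omega] at h
    refine ⟨not_lt.1 fun h3 => ?_, fun h1 => not_lt.1 fun h3 => ?_⟩
    · obtain ⟨a, b, c, h4, h5⟩ := ex_three_sq s (fun χ => charDegree χ.1) (by omega)
      exact ((three_sq_cases (h.symm.trans h4)).2.2 (h5 (by omega))).1 rfl
    · obtain ⟨a, b, c, h4, h5⟩ := ex_three_sq (s.erase (irrOne E)) (fun χ => charDegree χ.1)
        (by rw [Finset.card_erase_of_mem h1]; omega)
      rw [← Finset.add_sum_erase _ _ h1, charDegree_irrOne, h4,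
        h5 (by rw [Finset.card_erase_of_mem h1]; omega)] at h
      have : a ≤ 3 := by nlinarith
      have : b ≤ 3 := by nlinarith
      interval_cases a <;> interval_cases b <;> omega
  refine ⟨1, χ.1, π / ((2 : ℕ) * p), Finset.univ.erase (ConjClasses.mk 1), F.char, by ext g; simp,
    fun i _ j _ _ => by omega, ?_, fun g hg => ?_⟩
  · rw [Finset.card_erase_of_mem (Finset.mem_univ _), Finset.card_univ, ← Nat.card_eq_fintype_card]
    omega
  rw [pow_one]
  have hg1 : g ≠ 1 := fun e => (Finset.mem_erase.1 hg).1 (e ▸ rfl)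
  have h3 : ¬ orderOf g ∣ 2 → g ∉ Subgroup.center E := fun h e =>
    h (hz ▸ orderOf_dvd_natCard (⟨g, e⟩ : Subgroup.center E) |> fun h => orderOf_mk g e ▸ h)
  have h4 := hA (zpowers g) (commutator_self_eq_bot_iff.2 inferInstance)
  have h5 := (zpowers g).card_mul_index
  rw [Nat.card_zpowers, hE] at h5
  have h6 : orderOf g ≠ 1 := mt orderOf_eq_one_iff.1 hg1
  have h7 : orderOf g ∈ ({2, 3, 4, 6, 8} : Finset ℕ) := by
    generalize orderOf g = n, (zpowers g).index = m at *
    have : n ≤ 8 := by nlinarith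
    interval_cases n <;> simp <;> omega
  simp only [Finset.mem_insert, Finset.mem_singleton] at h7
  rcases h7 with e | e | e | e | e
  · exact F.good_dvd h2 hg1 (by rcases hp' with rfl | rfl <;> simp [e])
  · exact F.good_six h2 (h3 (by simp [e])) (Or.inl e)
  · exact F.good_sq h2 (h3 (by simp [e])) (F.mem_center_of_mul_self (by omega) (by
      rw [← pow_orderOf_eq_one g, e]; simp [pow_succ, mul_assoc]))
  · exact F.good_six h2 (h3 (by simp [e])) (Or.inr e)
  rcases hp' with rfl | rfl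
  · obtain ⟨a, b, h⟩ := F.exists_pair h2 g
    have h8 := F.pow_mem h (a := a) (by simp) 1
    have h9 : a ^ 4 = -1 := (sq_eq_one_iff.1 (by
      rw [← pow_mul, F.pow_eq_one_iff h (by simp), e])).resolve_left
        (mt (F.pow_eq_one_iff h (by simp) 4).1 (by simp [e]))
    rw [pow_one, pow_succ, h9, neg_one_mul] at h8
    obtain rfl : -a = b := by
      simpa [neg_eq_self, h.ne a (by simp)] using h8
    exact F.good_sq h2 (h3 (by simp [e])) (sq g ▸ (F.eq_iff h2 (g := g ^ 2) (a := a ^ 2)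
      (by simpa using h.pow 2)).1 rfl)
  · exact F.good_dvd h2 hg1 (by simp [e])

theorem win_prim (hA : ∀ A : Subgroup E, ⁅A, A⁆ = ⊥ → ¬ A.index ≤ 2) {r : ℕ} (hr : r = 1 ∨ r = 2)
    (hc : Nat.card E * r + 1 = p ^ 2) : Win p χ.1 (7 - r) := by
  have hN := F.index_center h2 hA
  have hZ := (Subgroup.center E).card_mul_index
  have hd := F.card_center_dvd h2
  have hN2 : 2 ∣ (Subgroup.center E).index := by omega
  obtain ⟨i, hi⟩ := exists_prime_orderOf_dvd_card' (G := E) 2 (hZ ▸ hN2.mul_left _)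
  have hii : i * i = 1 := by rw [← sq, ← hi, pow_orderOf_eq_one]
  have hiZ := F.mem_center_of_mul_self (by omega) hii
  have hi1 : i ≠ 1 := fun e => by simp [e] at hi
  have hig : Good p χ i := by
    obtain ⟨a, b, h⟩ := F.exists_pair h2 i
    refine F.good_det h2 hi1 h ?_
    rw [F.eig_of_mul_self hii hi1 h (a := a) (by simp), F.eig_of_mul_self hii hi1 h (a := b) (by simp)]
    simp
  have hm : ∀ {g : E} {n : ℕ}, orderOf g = n → g ∈ Subgroup.center E →
      n ∣ Nat.card (Subgroup.center E) := fun {g n} h e =>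
    h ▸ orderOf_mk g e ▸ orderOf_dvd_natCard (⟨g, e⟩ : Subgroup.center E)
  have hm2 : ∀ {g : E} {n : ℕ}, orderOf g = n → g * g ∈ Subgroup.center E →
      n ∣ 2 * Nat.card (Subgroup.center E) := fun {g n} h e => by
    rw [← h, orderOf_dvd_iff_pow_eq_one, pow_mul, sq, ← orderOf_dvd_iff_pow_eq_one]
    exact hm rfl e
  have hz2 := hm hi hiZ
  by_cases hb : 6 - r ≤ Nat.card (Subgroup.center E) / 2
  · exact (F.win_coset h2 hN2 [i] (by simpa) (by simp) (by simp [hiZ])).mono (by simp; omega)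
  have hx : ∀ n, n.Prime → n ∣ (Subgroup.center E).index → ∃ x : E, orderOf x = n := fun n h h' =>
    have := Fact.mk h
    exists_prime_orderOf_dvd_card' n (hZ ▸ h'.mul_left _)
  obtain ⟨x, hx3⟩ := hx 3 (by norm_num) (by omega)
  have hx6 := orderOf_mul_inv hi hiZ hx3 (by norm_num)
  have hcase : (Nat.card E = 24 ∧ Nat.card (Subgroup.center E) = 2 ∧ (p = 5 ∨ p = 7)) ∨
      (Nat.card E = 48 ∧ Nat.card (Subgroup.center E) = 2 ∧ p = 7) ∨
      ((Subgroup.center E).index = 60 ∧ Nat.card (Subgroup.center E) = 2 ∧ p = 11) ∨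
      ((Subgroup.center E).index = 60 ∧ Nat.card (Subgroup.center E) = 6 ∧ p = 19) := by
    have h0 := Nat.card_pos (α := Subgroup.center E)
    rw [← hZ] at hc ⊢
    generalize Nat.card (Subgroup.center E) = z, (Subgroup.center E).index = N at *
    have h1 : z = 2 ∨ z = 4 ∨ z = 6 ∨ z = 8 := by omega
    have h3 : p < 32 := by
      refine lt_of_pow_lt_pow_left₀ 2 (by omega) (hc ▸ ?_)
      rcases hr with rfl | rfl <;> rcases hN with rfl | rfl | rfl <;> omega
    clear * - hr hN h1 hc hd h3 hb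
    rcases hr with rfl | rfl <;> rcases hN with rfl | rfl | rfl <;>
      rcases h1 with rfl | rfl | rfl | rfl <;> interval_cases p <;> omega
  rcases hcase with ⟨e1, e2, e3⟩ | ⟨e1, e2, rfl⟩ | ⟨e1, e2, rfl⟩ | ⟨e1, e2, rfl⟩
  · exact (F.win_twelve h2 hA e1 e2 e3).mono (by omega)
  · obtain ⟨y, hy⟩ := F.exists_eight h2 e2 (by simp [e1])
    have hy' : orderOf (y ^ 5) = 8 := by
      rw [(by rw [hy]; norm_num : (orderOf y).Coprime 5).orderOf_pow, hy]
    refine (F.win_coset h2 hN2 [i, x, i * x, y, y ^ 5] ?_ ?_ ?_).mono (by simp [e2]; omega)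
    · simp only [List.forall_mem_cons, List.not_mem_nil, false_imp_iff, implies_true, and_true]
      exact ⟨hig, F.good_six h2 (fun e => by simpa [e2] using hm hx3 e) (Or.inl hx3),
        F.good_six h2 (fun e => by simpa [e2] using hm hx6 e) (Or.inr hx6),
        F.good_dvd h2 (fun e => by simp [e] at hy) (by simp [hy]),
        F.good_dvd h2 (fun e => by simp [e] at hy') (by simp [hy'])⟩
    · have h1 : ¬ IsConj y (y ^ 5) := fun hc => by
        obtain ⟨a, b, h⟩ := F.exists_pair h2 y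
        have h3 := F.det_of_dvd h2 (fun e => by simp [e] at hy) (by simp [hy]) h
        have h4 : a ^ 5 ∈ ({a, b} : Multiset ℂ) :=
          ((h.of_isConj F.char.isClassFunction hc).unique (h.pow 5)).symm ▸ by simp
        simp only [Multiset.insert_eq_cons, Multiset.mem_cons, Multiset.mem_singleton] at h4
        rcases h4 with e | e
        · simpa [hy] using (F.pow_eq_one_iff h (a := a) (by simp) 4).1
            (mul_right_cancel₀ (h.ne a (by simp)) (by rw [← pow_succ, e, one_mul]))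
        · simpa [hy] using (F.pow_eq_one_iff h (a := a) (by simp) 6).1 (by rw [pow_succ', e, h3])
      simp [not_conj_of_order hi hx3, not_conj_of_order hi hx6, not_conj_of_order hi hy,
        not_conj_of_order hi hy', not_conj_of_order hx3 hx6, not_conj_of_order hx3 hy,
        not_conj_of_order hx3 hy', not_conj_of_order hx6 hy, not_conj_of_order hx6 hy', h1,
        -isConj_iff]
    · simp only [List.forall_mem_cons, List.not_mem_nil, false_imp_iff, implies_true, and_true]
      exact ⟨fun _ => hiZ, fun e => by simpa [e2] using hm2 hx3 e,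
        fun e => by simpa [e2] using hm2 hx6 e, fun e => by simpa [e2] using hm2 hy e,
        fun e => by simpa [e2] using hm2 hy' e⟩
  · obtain ⟨y, hy⟩ := hx 5 (by norm_num) (by omega)
    obtain ⟨u, v, hu, hv, h3, h4, h1⟩ :=
      F.two_of_five h2 hy (fun e => by simpa [e2] using hm hy e) (by norm_num)
    refine (F.win_coset h2 hN2 [i, x, i * x, u, v] ?_ ?_ ?_).mono (by simp [e2]; omega)
    · simp only [List.forall_mem_cons, List.not_mem_nil, false_imp_iff, implies_true, and_true]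
      exact ⟨hig, F.good_six h2 (fun e => by simpa [e2] using hm hx3 e) (Or.inl hx3),
        F.good_six h2 (fun e => by simpa [e2] using hm hx6 e) (Or.inr hx6), h3, h4⟩
    · simp [not_conj_of_order hi hx3, not_conj_of_order hi hx6, not_conj_of_order hi hu,
        not_conj_of_order hi hv, not_conj_of_order hx3 hx6, not_conj_of_order hx3 hu,
        not_conj_of_order hx3 hv, not_conj_of_order hx6 hu, not_conj_of_order hx6 hv, h1,
        -isConj_iff]
    · simp only [List.forall_mem_cons, List.not_mem_nil, false_imp_iff, implies_true, and_true]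
      exact ⟨fun _ => hiZ, fun e => by simpa [e2] using hm2 hx3 e,
        fun e => by simpa [e2] using hm2 hx6 e, fun e => by simpa [e2] using hm2 hu e,
        fun e => by simpa [e2] using hm2 hv e⟩
  · obtain ⟨y, hy⟩ := hx 5 (by norm_num) (by omega)
    have hy' := orderOf_mul_inv hi hiZ hy (by norm_num)
    refine (F.win_coset h2 hN2 [i, y, i * y] ?_ ?_ ?_).mono (by simp [e2]; omega)
    · simp only [List.forall_mem_cons, List.not_mem_nil, false_imp_iff, implies_true, and_true]
      exact ⟨hig, F.good_dvd h2 (fun e => by simp [e] at hy) (by simp [hy]),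
        F.good_dvd h2 (fun e => by simp [e] at hy') (by simp [hy'])⟩
    · simp [not_conj_of_order hi hy, not_conj_of_order hi hy', not_conj_of_order hy hy',
        -isConj_iff]
    · simp only [List.forall_mem_cons, List.not_mem_nil, false_imp_iff, implies_true, and_true]
      exact ⟨fun _ => hiZ, fun e => by simpa [e2] using hm2 hy e,
        fun e => by simpa [e2] using hm2 hy' e⟩

end FreeCh

/-- Dimension two: a cyclic normal subgroup of index at most two, or a large window. -/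
theorem FreeCh.normal_or_win {β : E → ℂ} (F : FreeCh p β) (h2 : charDegree β = 2) (h5 : 5 ≤ p)
    {r : ℕ} (hr : r = 1 ∨ r = 2) (hc : Nat.card E * r + 1 = p ^ charDegree β) :
    (∃ y : E, (zpowers y).Normal ∧ ∀ j, 0 < j → j < charDegree β → ¬ orderOf y ∣ p ^ j - 1) ∨
      Win p β (7 - r) := by
  rw [h2] at hc
  by_cases hA : ∀ A : Subgroup E, ⁅A, A⁆ = ⊥ → ¬ A.index ≤ 2
  · obtain ⟨ψ, h1, h3, h4⟩ := F.exists_irr (by omega)
    have h6 := irr_degree_pos ψ
    have h7 : charDegree ψ.1 ≠ 1 := fun h => hA ⊤ (le_bot_iff.1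
      (h3 ▸ commutator_le_ker_of_degree_one (irr_isCharacter ψ) h)) (by simp)
    obtain rfl := F.char.eq_irr_of_ip_ne_zero_of_degree_le ψ h1 (by omega)
    exact Or.inr (F.win_prim h2 hA hr hc)
  push Not at hA
  obtain ⟨A, h1, h3⟩ := hA
  have := (F.res A).isCyclic_of_comm (by change charDegree β ≠ 0; omega) fun a b => Subtype.ext
    (commutatorElement_eq_one_iff_mul_comm.1 (mem_bot.1 (h1 ▸ commutator_mem_commutator a.2 b.2)))
  obtain ⟨y, hy⟩ := (isCyclic_iff_exists_zpowers_eq_top).1 this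
  have h4 : zpowers y.1 = A := (MonoidHom.map_zpowers A.subtype y).symm.trans (by
    rw [hy, ← MonoidHom.range_eq_map, A.range_subtype])
  have h6 := A.card_mul_index
  have h7 := A.index_ne_zero_of_finite
  refine Or.inl ⟨y, ?_, fun j _ _ h => ?_⟩
  · rw [h4]
    rcases (show A.index = 1 ∨ A.index = 2 by omega) with e | e
    · rw [index_eq_one.1 e]; infer_instance
    · exact normal_of_index_eq_two e
  · rw [show j = 1 by omega, pow_one, ← Nat.card_zpowers, h4] at h
    have h8 := Nat.le_of_dvd (by omega) h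
    have h9 := Nat.mul_le_mul (Nat.mul_le_mul h8 h3) (show r ≤ 2 by omega)
    rw [h6] at h9
    obtain ⟨q, rfl⟩ := Nat.exists_eq_add_of_le h5
    rw [show 5 + q - 1 = 4 + q by omega] at h9
    nlinarith

end FE
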