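import Cfsg.Agent.Lib.Block.FE3
import Cfsg.Agent.Lib.Block.FE4

/-!
# Free linear groups with at most two orbits: the window
-/

set_option autoImplicit false
set_option linter.unusedSectionVars false

namespace FE

open Cfsg CT LG Subgroup

variable {E : Type*} [Group E] [Finite E] {p : ℕ} [hp : Fact p.Prime] {β : E → ℂ}

theorem FreeCh.win_of (F : FreeCh p β) (hp2 : p ≠ 2) (h2 : 2 ≤ charDegree β) {r : ℕ}
    (hr : r = 1 ∨ r = 2) (hc : Nat.card E * r + 1 = p ^ charDegree β)
    (h9 : p ^ charDegree β ≠ 9 ∨ (r = 1 ∧ IsCyclic E))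
    (h3 : 3 ≤ charDegree β → ∃ y : E, (zpowers y).Normal ∧
      ∀ j, 0 < j → j < charDegree β → ¬ orderOf y ∣ p ^ j - 1) : Win p β (7 - r) := by
  have hp3 : 3 ≤ p := by have := hp.out.two_le; omega
  by_cases h : 3 ≤ charDegree β
  · obtain ⟨y, h4, h5⟩ := h3 h
    refine F.win_of_normal hp2 h4 h5 hr hc (Or.inl ?_)
    exact le_trans (by norm_num) ((Nat.pow_le_pow_left hp3 3).trans (Nat.pow_le_pow_right hp.out.pos h))
  have h4 : charDegree β = 2 := by omega
  by_cases h5 : 5 ≤ p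
  · refine (F.normal_or_win h4 h5 hr hc).elim (fun ⟨y, h6, h7⟩ => ?_) id
    exact F.win_of_normal hp2 h6 h7 hr hc (Or.inl (by rw [h4]; nlinarith))
  obtain rfl : p = 3 := by
    have : p ≠ 4 := by rintro rfl; exact absurd hp.out (by decide)
    omega
  obtain ⟨rfl, hE⟩ := h9.resolve_left (by simp [h4])
  have h6 : Nat.card E = 8 := by rw [h4] at hc; omega
  obtain ⟨y, hy⟩ := isCyclic_iff_exists_zpowers_eq_top.1 hE
  refine F.win_of_normal hp2 (y := y) (hy ▸ inferInstance) (fun j h7 h8 => ?_) hr hc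
    (Or.inr ⟨hE, by omega⟩)
  obtain rfl : j = 1 := by omega
  rw [← Nat.card_zpowers, hy, card_top, h6]
  decide

end FE
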