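import Cfsg.Agent.Lib.Block.GBFun
import Mathlib.Algebra.Polynomial.Roots
import Mathlib.FieldTheory.IsAlgClosed.Basic

/-!
# The graded algebra side of the graded stable equivalence (abstract part)

`SA k A B` axiomatises `A = k[P : E]`, `B = k[E]`; `ID k B ι` a complete family of primitive
idempotents of the split semisimple algebra `B`; `S.Gr` a grading of `A`.
-/

set_option autoImplicit false
set_option linter.unusedSectionVars false

namespace GB

open Module AM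

universe u

variable {k : Type} [Field k]

theorem coeff_eq_zero_of_sum [Infinite k] {V : Type*} [AddCommGroup V] [Module k V] {n : ℕ}
    {v : ℕ → V} (h : ∀ t : kˣ, ∑ d ∈ Finset.range n, (t : k) ^ d • v d = 0) {d : ℕ} (hd : d < n) :
    v d = 0 := by
  classical
  refine (Module.forall_dual_apply_eq_zero_iff k _).1 fun φ => ?_
  let q : Polynomial k := ∑ d ∈ Finset.range n, Polynomial.monomial d (φ (v d))
  have hq : q = 0 := by
    refine Polynomial.eq_zero_of_infinite_isRoot q ?_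
    refine (Set.finite_singleton (0 : k)).infinite_compl.mono fun t ht => ?_
    have h1 := congrArg φ (h (Units.mk0 t ht))
    simp only [map_sum, map_smul, map_zero, Units.val_mk0, smul_eq_mul] at h1
    simp only [Set.mem_ofPred_eq, Polynomial.IsRoot.def, q, Polynomial.eval_finsetSum,
      Polynomial.eval_monomial]
    rw [← h1]
    exact Finset.sum_congr rfl fun _ _ => mul_comm _ _
  have h2 := congrArg (fun r => Polynomial.coeff r d) hq
  simpa [q, Polynomial.finsetSum_coeff, Polynomial.coeff_monomial, hd] using h2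

theorem coeff_eq_of_sum [Infinite k] {V : Type*} [AddCommGroup V] [Module k V] {n : ℕ}
    {v w : ℕ → V} (h : ∀ t : kˣ, ∑ d ∈ Finset.range n, (t : k) ^ d • v d =
      ∑ d ∈ Finset.range n, (t : k) ^ d • w d) {d : ℕ} (hd : d < n) : v d = w d :=
  sub_eq_zero.1 (coeff_eq_zero_of_sum (k := k) (v := fun d => v d - w d) (fun t => by
    simp only [smul_sub, Finset.sum_sub_distrib, h t, sub_self]) hd)

variable {A B : Type u} [Ring A] [Algebra k A] [Ring B] [Algebra k B]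

/-- The left ideal `A e`. -/
@[reducible] def AM.le [FiniteDimensional k A] (e : A) : AM k A where
  V := LinearMap.ker (LinearMap.mulRight k e - LinearMap.id)
  ρ := AlgHom.ofLinearMap
    { toFun := fun a => (LinearMap.mulLeft k a).restrict fun x hx => by
        have h : x * e - x = 0 := hx
        change a * x * e - a * x = 0
        rw [mul_assoc, ← mul_sub, h, mul_zero]
      map_add' := fun a b => by ext x; simp [add_mul]
      map_smul' := fun c a => by ext x; simp }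
    (by ext x; simp) (fun a b => by ext x; simp)

section le

variable [FiniteDimensional k A] {e : A}

theorem AM.le_ρ (a : A) (x : (AM.le e : AM k A).V) : (((AM.le e : AM k A).ρ a x).1 : A) = a * x.1 := rfl

theorem AM.le_mul (x : (AM.le e : AM k A).V) : x.1 * e = x.1 := sub_eq_zero.1 x.2

theorem AM.mem_le {x : A} (h : x * e = x) :
    x ∈ LinearMap.ker (LinearMap.mulRight k e - LinearMap.id) := sub_eq_zero.2 h

theorem Cas.proj_le (C : Cas k A) (he : e * e = e) : C.Proj (AM.le e) := by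
  refine ⟨(C.τ ∘ₗ Submodule.subtype _).smulRight ⟨e, mem_le he⟩, LinearMap.ext fun x => ?_⟩
  refine Subtype.ext ?_
  rw [Cas.Tr_apply, Submodule.coe_sum]
  have h : ∀ i, (((AM.le e : AM k A).ρ (C.a i) (((C.τ ∘ₗ Submodule.subtype _).smulRight
      (⟨e, mem_le he⟩ : (AM.le e : AM k A).V)) ((AM.le e : AM k A).ρ (C.b i) x))).1 : A) =
      (C.τ (C.b i * x.1) • C.a i) * e := fun i => by
    rw [le_ρ, smul_mul_assoc, ← mul_smul_comm]; rfl
  simp only [h]
  rw [← Finset.sum_mul, C.d1, le_mul]; rfl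

end le

variable (k A B) in
/-- `A = k[P : E]`, `B = k[E]`, `σ` the sum of the elements of `P`. -/
structure SA where
  ι : B →ₐ[k] A
  π : A →ₐ[k] B
  πι : ∀ y, π (ι y) = y
  σ : A
  comm : ∀ a, σ * a = a * σ
  mul_σ : ∀ a, a * σ = ι (π a) * σ
  inj : ∀ y, ι y * σ = 0 → y = 0
  fix : ∀ (X : AM k A) (v : X.V), v ≠ 0 → ∃ r, X.ρ r v ≠ 0 ∧
    ∀ a, X.ρ a (X.ρ r v) = X.ρ (ι (π a)) (X.ρ r v)
  soc : ∀ x, (∀ a, a * x = ι (π a) * x) → ∃ y, x = ι y * σ
  τ0 : A →ₗ[k] k
  symm : ∀ x y, τ0 (x * y) = τ0 (y * x)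
  nd : ∀ y, y ≠ 0 → ∃ y', τ0 (ι (y' * y) * σ) ≠ 0

variable (k B) in
/-- A complete family of primitive idempotents of a split semisimple algebra. -/
structure ID (I : Type*) where
  ε : I → B
  idem : ∀ a, ε a * ε a = ε a
  nz : ∀ a, ε a ≠ 0
  ne : ∀ a b, a ≠ b → ∀ y, ε a * y * ε b = 0
  loc : ∀ a y, ∃ c : k, ε a * y * ε a = c • ε a
  gen : ∀ a x, x ≠ 0 → x * ε a = x → ∃ y, y * x = ε a
  all : ∀ (M : Type u) [AddCommGroup M] [Module k M] (ρ : B →ₐ[k] Module.End k M),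
    (∀ a, ρ (ε a) = 0) → ∀ v : M, v = 0

namespace SA

variable (S : SA k A B)

/-- A grading of `A` with `B` in degree `0` and `σ` in the top degree. -/
structure Gr where
  α : kˣ →* (A ≃ₐ[k] A)
  s : ℕ
  c : ℕ → A →ₗ[k] A
  hc : ∀ (t : kˣ) a, α t a = ∑ d ∈ Finset.range (s + 1), (t : k) ^ d • c d a
  hι : ∀ t y, α t (S.ι y) = S.ι y
  hσ : ∀ t : kˣ, α t S.σ = (t : k) ^ s • S.σ

theorem inj' {y y' : B} (h : S.ι y * S.σ = S.ι y' * S.σ) : y = y' :=
  sub_eq_zero.1 (S.inj _ (by rw [map_sub, sub_mul, h, sub_self]))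

namespace Gr

variable {S} (Γ : S.Gr) [Infinite k]

theorem α_mul (t t' : kˣ) (a : A) : Γ.α (t * t') a = Γ.α t (Γ.α t' a) := by
  rw [map_mul]; rfl

theorem c_α (t : kˣ) (a : A) {d : ℕ} (hd : d < Γ.s + 1) :
    Γ.c d (Γ.α t a) = (t : k) ^ d • Γ.c d a :=
  coeff_eq_of_sum (k := k) (v := fun d => Γ.c d (Γ.α t a)) (w := fun d => (t : k) ^ d • Γ.c d a)
    (fun t' => by
      rw [← Γ.hc, ← α_mul, Γ.hc]
      exact Finset.sum_congr rfl fun d _ => by rw [smul_smul, Units.val_mul, mul_pow]) hd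

theorem α_c (t : kˣ) (a : A) {d : ℕ} (hd : d < Γ.s + 1) :
    Γ.α t (Γ.c d a) = (t : k) ^ d • Γ.c d a :=
  coeff_eq_of_sum (k := k) (v := fun d => Γ.α t (Γ.c d a)) (w := fun d => (t : k) ^ d • Γ.c d a)
    (fun t' => by
      simp only [← map_smul (Γ.α t)]
      rw [← map_sum, ← Γ.hc, ← α_mul, Γ.hc]
      exact Finset.sum_congr rfl fun d _ => by
        rw [smul_smul, Units.val_mul, mul_pow, mul_comm]) hd

theorem sum_c (a : A) : ∑ d ∈ Finset.range (Γ.s + 1), Γ.c d a = a := by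
  have h := Γ.hc 1 a
  simpa using h.symm

/-- The component of a homogeneous element. -/
theorem c_of_homog {a : A} {j d : ℕ} (hj : j < Γ.s + 1) (hd : d < Γ.s + 1)
    (h : ∀ t : kˣ, Γ.α t a = (t : k) ^ j • a) : Γ.c d a = if d = j then a else 0 :=
  coeff_eq_of_sum (k := k) (v := fun d => Γ.c d a) (w := fun d => if d = j then a else 0) (fun t => by
    rw [← Γ.hc, h]
    simp [Finset.sum_ite_eq', Finset.mem_range.2 hj]) hd

theorem π_α (t : kˣ) (a : A) : S.π (Γ.α t a) = S.π a := by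
  refine S.inj' ?_
  have h := congrArg (Γ.α t) (S.mul_σ a)
  rw [map_mul, map_mul, Γ.hι, Γ.hσ, mul_smul_comm, mul_smul_comm, S.mul_σ] at h
  exact smul_right_injective A (pow_ne_zero _ t.ne_zero) h

/-- The homogeneous symmetrising form. -/
def τ : A →ₗ[k] k := S.τ0 ∘ₗ Γ.c Γ.s

theorem τ_symm (x y : A) : Γ.τ (x * y) = Γ.τ (y * x) :=
  coeff_eq_of_sum (k := k) (V := k) (v := fun d => S.τ0 (Γ.c d (x * y))) (w := fun d => S.τ0 (Γ.c d (y * x)))
    (fun t => by
      simp only [← map_smul S.τ0]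
      rw [← map_sum, ← map_sum, ← Γ.hc, ← Γ.hc, map_mul (Γ.α t), map_mul (Γ.α t), S.symm])
    (Nat.lt_succ_self _)

theorem τ_α (t : kˣ) (a : A) : Γ.τ (Γ.α t a) = (t : k) ^ Γ.s * Γ.τ a := by
  change S.τ0 (Γ.c Γ.s (Γ.α t a)) = _
  rw [Γ.c_α t a (Nat.lt_succ_self _), map_smul]; rfl

variable [FiniteDimensional k A]

theorem τ_nd (x : A) (h : ∀ y, Γ.τ (x * y) = 0) : x = 0 := by
  by_contra h0
  obtain ⟨r, h1, h2⟩ := S.fix (AM.le 1) ⟨x, mem_le (mul_one x)⟩ fun e => h0 (congrArg Subtype.val e)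
  obtain ⟨y, hy⟩ := S.soc (r * x) fun a => congrArg Subtype.val (h2 a)
  have h3 : y ≠ 0 := by
    rintro rfl
    exact h1 (Subtype.ext (hy.trans (by simp)))
  obtain ⟨y', h4⟩ := S.nd y h3
  refine h4 ?_
  have h5 := h (S.ι y' * r)
  rw [τ_symm, mul_assoc, hy, ← mul_assoc, ← map_mul] at h5
  rw [← h5]
  change _ = S.τ0 (Γ.c Γ.s _)
  rw [Γ.c_of_homog (Nat.lt_succ_self _) (Nat.lt_succ_self _) fun t => by
    rw [map_mul, Γ.hι, Γ.hσ, mul_smul_comm], if_pos rfl]

/-- The graded symmetric algebra. -/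
noncomputable def ga : GA k A where
  C := (exists_cas Γ.τ Γ.τ_symm Γ.τ_nd).choose
  α := Γ.α
  s := Γ.s
  c := Γ.c
  hc := Γ.hc
  hτ t a := by rw [(exists_cas Γ.τ Γ.τ_symm Γ.τ_nd).choose_spec]; exact Γ.τ_α t a

theorem ga_s : Γ.ga.s = Γ.s := rfl

/-- The graded projective module `A e`. -/
@[reducible] noncomputable def ple (e : B) : GM Γ.ga where
  toAM := AM.le (S.ι e)
  θ :=
    { toFun := fun t => (Γ.α t).toLinearMap.restrict fun x hx => mem_le (by
        have h := congrArg (Γ.α t) (sub_eq_zero.1 hx : x * S.ι e = x)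
        rwa [map_mul, Γ.hι] at h)
      map_one' := by ext x; simp
      map_mul' := fun t t' => by ext x; simp }
  compat t a x := Subtype.ext (map_mul (Γ.α t) a x.1)
  span := by
    refine eq_top_iff.2 fun x _ => ?_
    have h1 : ∀ d, d < Γ.s + 1 → Γ.c d x.1 * S.ι e = Γ.c d x.1 := fun d hd =>
      coeff_eq_of_sum (k := k) (v := fun d => Γ.c d x.1 * S.ι e) (w := fun d => Γ.c d x.1) (fun t => by
        simp only [← smul_mul_assoc]
        rw [← Finset.sum_mul, ← Γ.hc]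
        have h := congrArg (Γ.α t) (le_mul x)
        rwa [map_mul, Γ.hι] at h) hd
    have h2 : x = ∑ d ∈ (Finset.range (Γ.s + 1)).attach,
        ⟨Γ.c d.1 x.1, mem_le (h1 d.1 (Finset.mem_range.1 d.2))⟩ := Subtype.ext (by
      rw [Submodule.coe_sum, Finset.sum_attach _ fun d => Γ.c d x.1, sum_c])
    rw [h2]
    refine Submodule.sum_mem _ fun d _ => Submodule.mem_iSup_of_mem (d.1 : ℤ) fun t => ?_
    refine Subtype.ext ?_
    change Γ.α t (Γ.c d.1 x.1) = _
    rw [Γ.α_c t _ (Finset.mem_range.1 d.2), zpow_natCast, Units.val_pow_eq_pow_val]; rfl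

theorem ple_θ (e : B) (t : kˣ) (x : (Γ.ple e).V) : ((Γ.ple e).θ t x).1 = Γ.α t x.1 := rfl

variable [FiniteDimensional k B]

/-- The module `B e` in degree `s`. -/
@[reducible] noncomputable def tle (e : B) : GM Γ.ga where
  toAM := (AM.le e).res S.π
  θ :=
    { toFun := fun t => ((t : k) ^ Γ.s) • 1
      map_one' := by simp
      map_mul' := fun t t' => by simp [mul_pow, smul_smul, mul_comm] }
  compat t a x := Subtype.ext (by
    change (t : k) ^ Γ.s • (S.π a * x.1) = S.π (Γ.α t a) * ((t : k) ^ Γ.s • x.1)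
    rw [π_α, mul_smul_comm])
  span := eq_top_iff.2 fun x _ => Submodule.mem_iSup_of_mem (Γ.s : ℤ) fun t => by
    rw [zpow_natCast, Units.val_pow_eq_pow_val]; rfl

theorem tle_ρ (e : B) (a : A) (x : (Γ.tle e).V) : ((Γ.tle e).ρ a x).1 = S.π a * x.1 := rfl

/-- The socle embedding. -/
noncomputable def jle (e : B) : (Γ.tle e).V →ₗ[k] (Γ.ple e).V where
  toFun y := ⟨S.ι y.1 * S.σ, mem_le (by
    rw [mul_assoc, S.comm, ← mul_assoc, ← map_mul, le_mul])⟩
  map_add' y y' := Subtype.ext (by simp [add_mul])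
  map_smul' c y := Subtype.ext (by simp)

theorem jle_coe (e : B) (y : (Γ.tle e).V) : (Γ.jle e y).1 = S.ι y.1 * S.σ := rfl

theorem jle_mem (e : B) : Γ.jle e ∈ Hom (Γ.tle e).toAM (Γ.ple e).toAM := fun a y =>
  Subtype.ext (by
    change S.ι (S.π a * y.1) * S.σ = a * (S.ι y.1 * S.σ)
    rw [← mul_assoc, S.mul_σ (a * _), map_mul S.π, S.πι])

theorem jle_inj (e : B) : Function.Injective (Γ.jle e) := fun _ _ h =>
  Subtype.ext (S.inj' (congrArg Subtype.val h))

variable {I : Type*} (D : ID k B I)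

/-- The generator of `B ε`. -/
def gt (a : I) : (Γ.tle (D.ε a)).V := ⟨D.ε a, mem_le (D.idem a)⟩

theorem ρ_gt (a : I) (x : (Γ.tle (D.ε a)).V) : (Γ.tle (D.ε a)).ρ (S.ι x.1) (Γ.gt D a) = x :=
  Subtype.ext (by rw [tle_ρ, S.πι]; exact le_mul x)

theorem tle_simple (a : I) : (Γ.tle (D.ε a)).toAM.Simple := by
  refine ⟨⟨Γ.gt D a, 0, fun e => D.nz a (congrArg Subtype.val e)⟩, fun W hW => ?_⟩
  refine or_iff_not_imp_left.2 fun h => eq_top_iff.2 fun z _ => ?_
  obtain ⟨x, hx, h0⟩ := Submodule.exists_mem_ne_zero_of_ne_bot h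
  obtain ⟨y, hy⟩ := D.gen a x.1 (fun e => h0 (Subtype.ext e)) (le_mul x)
  have h1 : (Γ.tle (D.ε a)).ρ (S.ι y) x = Γ.gt D a := Subtype.ext (by rw [tle_ρ, S.πι]; exact hy)
  rw [← Γ.ρ_gt D a z, ← h1]
  exact hW _ _ (hW _ _ hx)

theorem hom_gt {a b : I} {g : (Γ.tle (D.ε a)).V →ₗ[k] (Γ.tle (D.ε b)).V}
    (hg : g ∈ Hom (Γ.tle (D.ε a)).toAM (Γ.tle (D.ε b)).toAM) :
    (g (Γ.gt D a)).1 = D.ε a * (g (Γ.gt D a)).1 * D.ε b := by
  have h := congrArg Subtype.val (hg (S.ι (D.ε a)) (Γ.gt D a))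
  have h1 := Γ.ρ_gt D a (Γ.gt D a)
  change (Γ.tle (D.ε a)).ρ (S.ι (D.ε a)) (Γ.gt D a) = _ at h1
  rw [h1, tle_ρ, S.πι] at h
  rw [← h, le_mul]

/-- Projective indecomposable modules and their socles. -/
noncomputable def pd : PD Γ.ga I where
  P a := Γ.ple (D.ε a)
  T a := Γ.tle (D.ε a)
  j a := Γ.jle (D.ε a)
  hj a := Γ.jle_mem _
  hj0 a t := LinearMap.ext fun y => Subtype.ext (by
    change Γ.α t (S.ι (((t⁻¹ : kˣ) : k) ^ Γ.s • y.1) * S.σ) = ((t ^ (0 : ℤ) : kˣ) : k) • (S.ι y.1 * S.σ)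
    rw [map_mul, Γ.hι, Γ.hσ, map_smul, smul_mul_smul_comm, ← mul_pow]
    simp)
  inj a := Γ.jle_inj _
  proj a := Cas.proj_le _ (by rw [← map_mul, D.idem])
  simple := Γ.tle_simple D
  ess a Y g hg h := by
    refine LinearMap.ker_eq_bot.1 ((Submodule.eq_bot_iff _).2 fun x hx => ?_)
    by_contra h0
    obtain ⟨r, h1, h2⟩ := S.fix _ x h0
    obtain ⟨y, hy⟩ := S.soc (r * x.1) fun a => congrArg Subtype.val (h2 a)
    have h3 : y * D.ε a = y := S.inj' (by
      rw [map_mul, mul_assoc, ← S.comm, ← mul_assoc, ← hy, mul_assoc, le_mul])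
    have h4 : Γ.jle (D.ε a) ⟨y, mem_le h3⟩ = (Γ.ple (D.ε a)).ρ r x := Subtype.ext hy.symm
    have h5 := (Γ.tle_simple D a).injective (comp_mem hg (Γ.jle_mem _)) h
    have h6 : (⟨y, mem_le h3⟩ : (Γ.tle (D.ε a)).V) = 0 := h5 (by
      rw [LinearMap.comp_apply, h4, hg, LinearMap.mem_ker.1 hx, map_zero, map_zero])
    exact h1 (by rw [← h4, h6, map_zero])
  schur a g hg := by
    obtain ⟨c, hc⟩ := D.loc a (g (Γ.gt D a)).1
    refine ⟨c, LinearMap.ext fun x => Subtype.ext ?_⟩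
    conv_lhs => rw [← Γ.ρ_gt D a x, hg, tle_ρ, S.πι, Γ.hom_gt D hg, hc, mul_smul_comm, le_mul]
    rfl
  ne a b h g hg := LinearMap.ext fun x => Subtype.ext (by
    conv_lhs => rw [← Γ.ρ_gt D a x, hg, tle_ρ, S.πι, Γ.hom_gt D hg, D.ne a b h, mul_zero]
    rfl)
  all X hX := by
    have := hX.1
    obtain ⟨v, hv⟩ := exists_ne (0 : X.V)
    obtain ⟨r, h1, h2⟩ := S.fix X v hv
    let W : Submodule k X.V :=
      { carrier := {w | ∀ a, X.ρ a w = X.ρ (S.ι (S.π a)) w}
        add_mem' := fun ha hb a => by rw [map_add, map_add, ha a, hb a]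
        zero_mem' := fun a => by rw [map_zero, map_zero]
        smul_mem' := fun c w hw a => by rw [map_smul, map_smul, hw a] }
    have hW : X.Inv W := fun b w hw a => by
      rw [← ρ_mul, ← ρ_mul, hw, hw (_ * b), map_mul S.π, map_mul S.π, S.πι]
    have h3 : W = ⊤ := (hX.2 W hW).resolve_left fun e => h1 ((Submodule.eq_bot_iff _).1 e _ h2)
    have h4 : ∃ a, X.ρ (S.ι (D.ε a)) ≠ 0 := by
      by_contra h
      push Not at h
      exact hv (D.all X.V (X.ρ.comp S.ι) h v)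
    obtain ⟨a, ha⟩ := h4
    obtain ⟨w, hw⟩ : ∃ w, X.ρ (S.ι (D.ε a)) w ≠ 0 := by
      by_contra h
      push Not at h
      exact ha (LinearMap.ext h)
    refine ⟨a, LinearMap.applyₗ w ∘ₗ X.ρ.toLinearMap ∘ₗ S.ι.toLinearMap ∘ₗ Submodule.subtype _,
      fun b y => ?_, fun e => hw (LinearMap.congr_fun e (Γ.gt D a))⟩
    change X.ρ (S.ι (S.π b * y.1)) w = X.ρ b (X.ρ (S.ι y.1) w)
    rw [map_mul S.ι, ρ_mul]
    exact ((h3 ▸ Submodule.mem_top : X.ρ (S.ι y.1) w ∈ W) b).symm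

/-- The homogeneous part of degree `j` of the corner `e A e'`. -/
def cor (e e' : B) (j : ℤ) : Submodule k A where
  carrier := {x | S.ι e * x = x ∧ x * S.ι e' = x ∧ ∀ t, Γ.α t x = ((t ^ j : kˣ) : k) • x}
  add_mem' ha hb := ⟨by rw [mul_add, ha.1, hb.1], by rw [add_mul, ha.2.1, hb.2.1],
    fun t => by rw [map_add, ha.2.2, hb.2.2, smul_add]⟩
  zero_mem' := by simp
  smul_mem' c a ha := ⟨by rw [mul_smul_comm, ha.1], by rw [smul_mul_assoc, ha.2.1],
    fun t => by rw [map_smul, ha.2.2, smul_comm]⟩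

theorem gd_ple {e : B} (he : e * e = e) (e' : B) (j : ℤ) :
    (Γ.ple e).gd (Γ.ple e') j = finrank k (Γ.cor e e' j) := by
  have he' : S.ι e * S.ι e = S.ι e := by rw [← map_mul, he]
  let g : (Γ.ple e).V := ⟨S.ι e, mem_le he'⟩
  have hg : ∀ x : (Γ.ple e).V, (Γ.ple e).ρ x.1 g = x := fun x => Subtype.ext (le_mul x)
  have hθ : ∀ t, (Γ.ple e).θ t g = g := fun t => Subtype.ext (Γ.hι t e)
  unfold GM.gd
  rw [(Cas.proj_le _ he').eq_left]
  refine LinearEquiv.finrank_eq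
    { toFun := fun f => ⟨(f.1 g).1, ?_, le_mul _, fun t => ?_⟩
      invFun := fun x => ⟨((LinearMap.mulRight k x.1).comp (Submodule.subtype _)).codRestrict _
        fun y => mem_le (by change y.1 * x.1 * _ = y.1 * x.1; rw [mul_assoc, x.2.2.1]), ?_, ?_⟩
      map_add' := fun _ _ => rfl
      map_smul' := fun _ _ => rfl
      left_inv := fun f => Subtype.ext (LinearMap.ext fun y => Subtype.ext ?_)
      right_inv := fun x => Subtype.ext x.2.1 }
  · have h := congrArg Subtype.val (f.2.1 (S.ι e) g)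
    rw [hg g] at h
    exact h.symm
  · have h := congrArg Subtype.val (LinearMap.congr_fun (f.2.2 t) g)
    change Γ.α t (f.1 ((Γ.ple e).θ t⁻¹ g)).1 = _ at h
    rw [hθ] at h
    exact h
  · exact fun a y => Subtype.ext (mul_assoc _ _ _)
  · refine fun t => LinearMap.ext fun y => Subtype.ext ?_
    change Γ.α t (Γ.α t⁻¹ y.1 * x.1) = ((t ^ j : kˣ) : k) • (y.1 * x.1)
    rw [map_mul, ← α_mul, mul_inv_cancel, map_one, x.2.2.2, mul_smul_comm]; rfl
  · have h := congrArg Subtype.val (f.2.1 y.1 g)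
    rw [hg y] at h
    exact h.symm

theorem gd_pd (a b : I) (j : ℤ) :
    ((Γ.pd D).P a).gd ((Γ.pd D).P b) j = finrank k (Γ.cor (D.ε a) (D.ε b) j) :=
  Γ.gd_ple (D.idem a) _ j

/-! ### Regrading by a central involution -/

theorem sum_range_two_mul {M : Type*} [AddCommMonoid M] (f : ℕ → M) (n : ℕ) :
    ∑ j ∈ Finset.range (2 * n), f j = ∑ d ∈ Finset.range n, (f (2 * d) + f (2 * d + 1)) := by
  induction n with
  | zero => simp
  | succ n ih => rw [Nat.mul_succ, Finset.sum_range_succ, Finset.sum_range_succ, ih,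
      Finset.sum_range_succ, add_assoc]

/-- A central involution of `B` inducing `α (-1)`. -/
structure Inv where
  z : B
  two : (2 : k) ≠ 0
  sq : z * z = 1
  cen : ∀ y, z * y = y * z
  conj : ∀ a, Γ.α (-1) a = S.ι z * a * S.ι z
  h : ℕ
  hs : Γ.s = 2 * h

namespace Inv

variable {Γ} (Z : Γ.Inv)

/-- The idempotent `(1 + z) / 2`. -/
noncomputable def ep : B := (2 : k)⁻¹ • (1 + Z.z)

/-- The idempotent `(1 - z) / 2`. -/
noncomputable def em : B := (2 : k)⁻¹ • (1 - Z.z)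

include Z in
theorem half_add (x : B) : (2 : k)⁻¹ • (x + x) = x := by
  rw [← two_smul k x, smul_smul, inv_mul_cancel₀ Z.two, one_smul]

theorem ep_add_em : Z.ep + Z.em = 1 := by
  rw [ep, em, ← smul_add, add_add_sub_cancel, Z.half_add]

theorem ep_sub_em : Z.ep - Z.em = Z.z := by
  rw [ep, em, ← smul_sub, add_sub_sub_cancel, Z.half_add]

theorem z_ep : Z.z * Z.ep = Z.ep := by rw [ep, mul_smul_comm, mul_add, mul_one, Z.sq, add_comm]

theorem z_em : Z.z * Z.em = -Z.em := by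
  rw [em, mul_smul_comm, mul_sub, mul_one, Z.sq, ← smul_neg, neg_sub]

theorem ep_mul {y : B} (h : Z.z * y = y) : Z.ep * y = y := by
  rw [ep, smul_mul_assoc, add_mul, one_mul, h, Z.half_add]

theorem em_mul {y : B} (h : Z.z * y = y) : Z.em * y = 0 := by
  rw [em, smul_mul_assoc, sub_mul, one_mul, h, sub_self, smul_zero]

theorem ep_mul' {y : B} (h : Z.z * y = -y) : Z.ep * y = 0 := by
  rw [ep, smul_mul_assoc, add_mul, one_mul, h, add_neg_cancel, smul_zero]

theorem em_mul' {y : B} (h : Z.z * y = -y) : Z.em * y = y := by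
  rw [em, smul_mul_assoc, sub_mul, one_mul, h, sub_neg_eq_add, Z.half_add]

/-- The units `r e₊ + e₋`. -/
noncomputable def u (r : kˣ) : B := (r : k) • Z.ep + Z.em

theorem u_mul (r r' : kˣ) : Z.u r * Z.u r' = Z.u (r * r') := by
  simp only [u, add_mul, mul_add, smul_mul_assoc, mul_smul_comm, Z.ep_mul Z.z_ep, Z.em_mul Z.z_ep,
    Z.ep_mul' Z.z_em, Z.em_mul' Z.z_em, smul_zero, add_zero, zero_add, smul_smul, Units.val_mul,
    mul_comm]

theorem u_one : Z.u 1 = 1 := by rw [u, Units.val_one, one_smul, ep_add_em]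

theorem u_neg_one : Z.u (-1) = -Z.z := by
  rw [u, Units.val_neg, Units.val_one, neg_smul, one_smul, ← ep_sub_em, neg_sub, sub_eq_neg_add]

theorem u_cen (r : kˣ) (y : B) : Z.u r * y = y * Z.u r := by
  simp only [u, ep, em, add_mul, mul_add, sub_mul, mul_sub, smul_mul_assoc, mul_smul_comm, one_mul,
    mul_one, Z.cen]

theorem ιu_inv (r : kˣ) : S.ι (Z.u r) * S.ι (Z.u r⁻¹) = 1 := by
  rw [← map_mul, u_mul, mul_inv_cancel, u_one, map_one]

theorem ιu_inv' (r : kˣ) : S.ι (Z.u r⁻¹) * S.ι (Z.u r) = 1 := by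
  rw [← map_mul, u_mul, inv_mul_cancel, u_one, map_one]

/-- Conjugation by `u r`. -/
noncomputable def cj (r : kˣ) : A ≃ₐ[k] A where
  toFun a := S.ι (Z.u r) * a * S.ι (Z.u r⁻¹)
  invFun a := S.ι (Z.u r⁻¹) * a * S.ι (Z.u r)
  left_inv a := by
    simp only [← mul_assoc]
    rw [ιu_inv', one_mul, mul_assoc, ιu_inv', mul_one]
  right_inv a := by
    simp only [← mul_assoc]
    rw [ιu_inv, one_mul, mul_assoc, ιu_inv, mul_one]
  map_mul' a b := by
    simp only [← mul_assoc]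
    rw [mul_assoc _ (S.ι (Z.u r⁻¹)) (S.ι (Z.u r)), ιu_inv', mul_one]
  map_add' a b := by rw [mul_add, add_mul]
  commutes' c := by
    rw [Algebra.algebraMap_eq_smul_one, mul_smul_comm, smul_mul_assoc, mul_one, ιu_inv]

/-- The twisted one-parameter group. -/
noncomputable def β : kˣ →* (A ≃ₐ[k] A) where
  toFun r := Z.cj r * Γ.α r
  map_one' := AlgEquiv.ext fun a => by
    change S.ι (Z.u 1) * Γ.α 1 a * S.ι (Z.u 1⁻¹) = a
    simp [u_one]
  map_mul' r r' := AlgEquiv.ext fun a => by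
    change S.ι (Z.u (r * r')) * Γ.α (r * r') a * S.ι (Z.u (r * r')⁻¹) =
      S.ι (Z.u r) * Γ.α r (S.ι (Z.u r') * Γ.α r' a * S.ι (Z.u r'⁻¹)) * S.ι (Z.u r⁻¹)
    rw [map_mul (Γ.α r), map_mul (Γ.α r), Γ.hι, Γ.hι, α_mul, mul_inv_rev, ← u_mul, ← u_mul,
      map_mul, map_mul]
    simp only [mul_assoc]

theorem β_apply (r : kˣ) (a : A) : Z.β r a = S.ι (Z.u r) * Γ.α r a * S.ι (Z.u r⁻¹) := rfl

theorem β_neg_one : Z.β (-1) = 1 := AlgEquiv.ext fun a => by
  have h : S.ι Z.z * S.ι Z.z = 1 := by rw [← map_mul, Z.sq, map_one]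
  rw [β_apply, inv_neg, inv_one, u_neg_one, Z.conj, map_neg, neg_mul, neg_mul, mul_neg, neg_neg,
    ← mul_assoc, ← mul_assoc, h, one_mul, mul_assoc, h, mul_one]; rfl

theorem z_mul {x : A} {j : ℕ} (hx : ∀ t : kˣ, Γ.α t x = (t : k) ^ j • x) :
    S.ι Z.z * x = (-1 : k) ^ j • (x * S.ι Z.z) := by
  have h : S.ι Z.z * S.ι Z.z = 1 := by rw [← map_mul, Z.sq, map_one]
  have h1 := congrArg (· * S.ι Z.z) ((Z.conj x).symm.trans (hx (-1)))
  simpa only [mul_assoc, h, mul_one, smul_mul_assoc, Units.val_neg, Units.val_one] using h1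

theorem β_even {x : A} {d : ℕ} (hx : ∀ t : kˣ, Γ.α t x = (t : k) ^ (2 * d) • x) (r : kˣ) :
    Z.β r x = (r : k) ^ (2 * d) • x := by
  have h := Z.z_mul hx
  rw [pow_mul, neg_one_sq, one_pow, one_smul] at h
  have h1 : S.ι (Z.u r) * x = x * S.ι (Z.u r) := by
    simp only [u, ep, em, map_add, map_smul, map_sub, map_one, add_mul, mul_add, sub_mul, mul_sub,
      smul_mul_assoc, mul_smul_comm, one_mul, mul_one, h]
  rw [β_apply, hx, mul_smul_comm, smul_mul_assoc, h1, mul_assoc, ιu_inv, mul_one]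

theorem β_odd {x : A} {d : ℕ} (hx : ∀ t : kˣ, Γ.α t x = (t : k) ^ (2 * d + 1) • x) (r : kˣ) :
    Z.β r x = (r : k) ^ (2 * (d + 1)) • (S.ι Z.ep * x) + (r : k) ^ (2 * d) • (S.ι Z.em * x) := by
  have h := Z.z_mul hx
  rw [pow_succ, pow_mul, neg_one_sq, one_pow, one_mul, neg_one_smul] at h
  have h' : x * S.ι Z.z = -(S.ι Z.z * x) := by rw [h, neg_neg]
  have h1 : x * S.ι Z.ep = S.ι Z.em * x := by
    simp only [ep, em, map_add, map_smul, map_sub, map_one, mul_add, sub_mul,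
      smul_mul_assoc, mul_smul_comm, one_mul, mul_one, h', ← sub_eq_add_neg]
  have h2 : x * S.ι Z.em = S.ι Z.ep * x := by
    simp only [ep, em, map_add, map_smul, map_sub, map_one, add_mul, mul_sub,
      smul_mul_assoc, mul_smul_comm, one_mul, mul_one, h', sub_neg_eq_add]
  have h3 : x * S.ι (Z.u r⁻¹) = S.ι (((r⁻¹ : kˣ) : k) • Z.em + Z.ep) * x := by
    rw [u, map_add, map_add, map_smul, map_smul, mul_add, add_mul, mul_smul_comm, smul_mul_assoc,
      h1, h2]
  have h4 : Z.u r * (((r⁻¹ : kˣ) : k) • Z.em + Z.ep) =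
      (r : k) • Z.ep + ((r⁻¹ : kˣ) : k) • Z.em := by
    simp only [u, add_mul, mul_add, smul_mul_assoc, mul_smul_comm, Z.ep_mul Z.z_ep, Z.em_mul Z.z_ep,
      Z.ep_mul' Z.z_em, Z.em_mul' Z.z_em, smul_zero, add_zero, zero_add, add_comm]
  rw [β_apply, hx, mul_smul_comm, smul_mul_assoc, mul_assoc, h3, ← mul_assoc, ← map_mul, h4,
    map_add, map_smul, map_smul, add_mul, smul_mul_assoc, smul_mul_assoc, smul_add, smul_smul,
    smul_smul, ← pow_succ, pow_succ (r : k) (2 * d), mul_assoc, Units.mul_inv, mul_one]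
  rfl

variable [IsAlgClosed k]

theorem sq_surj : Function.Surjective (powMonoidHom 2 : kˣ →* kˣ) := fun t => by
  obtain ⟨r, hr⟩ := IsAlgClosed.exists_pow_nat_eq (t : k) two_pos
  have h0 : r ≠ 0 := fun e => t.ne_zero (by rw [← hr, e]; simp)
  exact ⟨Units.mk0 r h0, Units.ext (by simpa using hr)⟩

theorem exists_sq (t : kˣ) : ∃ r : kˣ, r ^ 2 = t := sq_surj t

/-- The regraded one-parameter group. -/
noncomputable def α' : kˣ →* (A ≃ₐ[k] A) :=
  (powMonoidHom 2 : kˣ →* kˣ).liftOfSurjective sq_surj ⟨Z.β, fun r hr => by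
    have h : (r : k) ^ 2 = 1 := by simpa using congrArg Units.val (MonoidHom.mem_ker.1 hr)
    rcases sq_eq_one_iff.1 h with h | h
    · rw [show r = 1 from Units.ext h]; exact one_mem _
    · rw [show r = -1 from Units.ext h]; exact Z.β_neg_one⟩

theorem α'_sq (r : kˣ) : Z.α' (r ^ 2) = Z.β r :=
  MonoidHom.liftOfRightInverse_comp_apply (powMonoidHom 2 : kˣ →* kˣ) _ _ _ r

/-- The regrading. -/
noncomputable def gr : S.Gr where
  α := Z.α'
  s := Z.h
  c d := Γ.c (2 * d) + (if d = 0 then 0 else LinearMap.mulLeft k (S.ι Z.ep) ∘ₗ Γ.c (2 * (d - 1) + 1))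
    + (if d < Z.h then LinearMap.mulLeft k (S.ι Z.em) ∘ₗ Γ.c (2 * d + 1) else 0)
  hc t a := by
    obtain ⟨r, rfl⟩ := exists_sq t
    have hs := Z.hs
    rw [α'_sq]
    conv_lhs => rw [← Γ.sum_c a, map_sum, Finset.sum_range_succ, hs, sum_range_two_mul]
    simp only [LinearMap.add_apply, smul_add, Finset.sum_add_distrib,
      Units.val_pow_eq_pow_val, ← pow_mul]
    rw [Finset.sum_range_succ (fun d => (r : k) ^ (2 * d) • Γ.c (2 * d) a), Finset.sum_range_succ',
      Finset.sum_range_succ, if_pos rfl, if_neg (lt_irrefl _), LinearMap.zero_apply, smul_zero,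
      smul_zero, add_zero, add_zero, Z.β_even (fun t => Γ.α_c t a (by omega)), add_right_comm,
      add_assoc (_ + _), ← Finset.sum_add_distrib]
    refine congrArg₂ (· + ·) (congrArg (· + _) ?_) ?_
    · exact Finset.sum_congr rfl fun d hd => Z.β_even (fun t => Γ.α_c t a
        (by have := Finset.mem_range.1 hd; omega)) r
    · refine Finset.sum_congr rfl fun d hd => ?_
      have h1 := Finset.mem_range.1 hd
      rw [Z.β_odd (fun t => Γ.α_c t a (by omega)), if_neg (Nat.succ_ne_zero d), if_pos h1]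
      rfl
  hι t y := by
    obtain ⟨r, rfl⟩ := exists_sq t
    rw [α'_sq, β_apply, Γ.hι, ← map_mul, u_cen, map_mul, mul_assoc, ιu_inv, mul_one]
  hσ t := by
    obtain ⟨r, rfl⟩ := exists_sq t
    rw [α'_sq, Z.β_even (d := Z.h) (fun t => by rw [Γ.hσ, Z.hs]), Units.val_pow_eq_pow_val, pow_mul]

theorem gr_s : Z.gr.s = Z.h := rfl

theorem gr_α : Z.gr.α = Z.α' := rfl

theorem u_mul_of_pos {e : B} (h : Z.z * e = e) (r : kˣ) :
    Z.u r * e = ((r ^ (1 : ℤ) : kˣ) : k) • e := by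
  rw [u, add_mul, smul_mul_assoc, Z.ep_mul h, Z.em_mul h, add_zero, zpow_one]

theorem u_mul_of_neg {e : B} (h : Z.z * e = -e) (r : kˣ) :
    Z.u r * e = ((r ^ (0 : ℤ) : kˣ) : k) • e := by
  rw [u, add_mul, smul_mul_assoc, Z.ep_mul' h, Z.em_mul' h, smul_zero, zero_add, zpow_zero,
    Units.val_one, one_smul]

theorem cor_gr {e e' : B} {m m' : ℤ} (he : ∀ r, Z.u r * e = ((r ^ m : kˣ) : k) • e)
    (he' : ∀ r, Z.u r * e' = ((r ^ m' : kˣ) : k) • e') (j : ℤ) :
    Z.gr.cor e e' j = Γ.cor e e' (2 * j - m + m') := by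
  have key : ∀ x, S.ι e * x = x → x * S.ι e' = x → ∀ r : kˣ,
      Z.β r x = ((r ^ (m - m') : kˣ) : k) • Γ.α r x := fun x h1 h2 r => by
    have h3 : Γ.α r x = S.ι e * Γ.α r x * S.ι e' := by
      conv_lhs => rw [← h2, ← h1, map_mul, map_mul, Γ.hι, Γ.hι]
    rw [β_apply]
    conv_lhs => rw [h3, ← mul_assoc, ← mul_assoc, ← map_mul, he, mul_assoc, ← map_mul, ← u_cen, he',
      map_smul, map_smul, smul_mul_assoc, smul_mul_smul_comm, ← h3, ← Units.val_mul, inv_zpow',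
      ← zpow_add, ← sub_eq_add_neg]
  ext x
  refine and_congr_right fun h1 => and_congr_right fun h2 => ⟨fun h r => ?_, fun h t => ?_⟩
  · have h3 := h (r ^ 2)
    rw [gr_α, α'_sq, key x h1 h2] at h3
    refine smul_right_injective A (r ^ (m - m')).ne_zero (h3.trans ?_)
    change _ = ((r ^ (m - m') : kˣ) : k) • _
    rw [smul_smul, ← Units.val_mul, ← zpow_add, ← zpow_natCast, ← zpow_mul]
    congr 3
    push_cast
    ring
  · obtain ⟨r, rfl⟩ := exists_sq t
    rw [gr_α, α'_sq, key x h1 h2, h, smul_smul, ← Units.val_mul, ← zpow_add, ← zpow_natCast, ← zpow_mul]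
    congr 3
    push_cast
    ring

end Inv

end Gr

end SA

end GB
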