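import Mathlib.RepresentationTheory.Maschke
import Mathlib.RepresentationTheory.Semisimple
import Mathlib.RingTheory.Artinian.Ring
import Mathlib.RingTheory.Artinian.Algebra
import Mathlib.FieldTheory.Finiteness
import Mathlib.Algebra.Module.ZMod
import Mathlib.Algebra.Group.Submonoid.Finsupp
import Mathlib.Algebra.CharP.Algebra
import Mathlib.Algebra.CharP.Lemmas
import Mathlib.Algebra.Field.ZMod
import Mathlib.LinearAlgebra.Dimension.OrzechProperty
import Mathlib.LinearAlgebra.FiniteDimensional.Lemmas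

/-!
# The group algebra of an elementary abelian group as a truncated polynomial algebra
-/

set_option autoImplicit false
set_option linter.unusedSectionVars false

namespace GB

open Module
open scoped MonoidAlgebra

universe u

variable {k : Type} [Field k] {Q : Type u} [CommGroup Q] [Fintype Q]

variable (k Q) in
/-- The augmentation. -/
noncomputable def aug : k[Q] →ₐ[k] k := MonoidAlgebra.lift k k Q 1

@[simp] theorem aug_single (u : Q) (c : k) : aug k Q (MonoidAlgebra.single u c) = c := by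
  simp [aug]

variable (k Q) in
/-- The augmentation ideal. -/
noncomputable def aI : Ideal k[Q] := RingHom.ker (aug k Q)

theorem mem_aI {x : k[Q]} : x ∈ aI k Q ↔ aug k Q x = 0 := RingHom.mem_ker

theorem single_sub_one_mem (u : Q) : MonoidAlgebra.single u (1 : k) - 1 ∈ aI k Q := by
  rw [mem_aI, map_sub, aug_single, map_one, sub_self]

theorem sub_aug_mem (x : k[Q]) : x - aug k Q x • 1 ∈ aI k Q := by
  rw [mem_aI, map_sub, map_smul, map_one, smul_eq_mul, mul_one, sub_self]

theorem finrank_monoidAlgebra (G : Type*) [Fintype G] : finrank k k[G] = Fintype.card G :=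
  finrank_eq_card_basis (MonoidAlgebra.basis G k)

variable (k Q) in
/-- The sum of the group elements. -/
noncomputable def sgQ : k[Q] := ∑ u : Q, MonoidAlgebra.single u 1

theorem coeff_sg (u : Q) : (sgQ k Q).coeff u = 1 := by
  classical
  simp [sgQ, MonoidAlgebra.coeff_sum, Finsupp.single_apply]

theorem eq_smul_sg {y : k[Q]} (h : ∀ u, MonoidAlgebra.single u (1 : k) * y = y) :
    y = y.coeff 1 • sgQ k Q := by
  ext u
  have h1 := congrArg (fun z => z.coeff u) (h u)
  simp only [MonoidAlgebra.coeff_single_mul_apply, inv_mul_cancel, one_mul] at h1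
  simp [coeff_sg, h1]

/-- Induction for the augmentation ideal. -/
theorem aI_le {S : Submodule k k[Q]} (h : ∀ u, MonoidAlgebra.single u (1 : k) - 1 ∈ S) {y : k[Q]}
    (hy : y ∈ aI k Q) : y ∈ S := by
  have h1 : ∀ x : k[Q], x - aug k Q x • 1 ∈ S := fun x => by
    induction x using MonoidAlgebra.induction_on with
    | of m => simpa using h m
    | add x y hx hy => rw [map_add, add_smul, add_sub_add_comm]; exact add_mem hx hy
    | smul r x hx => rw [map_smul, smul_assoc, ← smul_sub]; exact S.smul_mem r hx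
  simpa [mem_aI.1 hy] using h1 y

variable {p : ℕ} [hp : Fact p.Prime] [CharP k p]

theorem pow_p_eq_zero (hQ : ∀ u : Q, u ^ p = 1) {x : k[Q]} (hx : x ∈ aI k Q) : x ^ p = 0 := by
  have : CharP k[Q] p := charP_of_injective_algebraMap (algebraMap k k[Q]).injective p
  have h : ∀ x : k[Q], x ^ p = aug k Q x ^ p • 1 := fun x => by
    induction x using MonoidAlgebra.induction_on with
    | of m => simp [MonoidAlgebra.single_pow, hQ, MonoidAlgebra.one_def]
    | add x y hx hy => rw [add_pow_char, hx, hy, map_add, add_pow_char, add_smul]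
    | smul r x hx => rw [smul_pow, hx, map_smul, smul_smul, smul_eq_mul, mul_pow]
  rw [h, mem_aI.1 hx, zero_pow hp.out.ne_zero, zero_smul]

theorem exists_aI_pow (hQ : ∀ u : Q, u ^ p = 1) : ∃ N, aI k Q ^ N = ⊥ := by
  have : IsArtinianRing k[Q] := IsArtinianRing.of_finite k _
  obtain ⟨N, hN⟩ := IsArtinianRing.isNilpotent_nilradical (R := k[Q])
  refine ⟨N, le_bot_iff.1 ?_⟩
  rw [← Ideal.zero_eq_bot, ← hN]
  exact Ideal.pow_right_mono (fun x hx => mem_nilradical.2 ⟨p, pow_p_eq_zero hQ hx⟩) N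

/-- Every non-zero vector generates a non-zero fixed vector. -/
theorem exists_fixed (hQ : ∀ u : Q, u ^ p = 1) {M : Type*} [AddCommGroup M] [Module k M]
    (ρ : k[Q] →ₐ[k] Module.End k M) {v : M} (hv : v ≠ 0) :
    ∃ r, ρ r v ≠ 0 ∧ ∀ u, ρ (MonoidAlgebra.single u 1) (ρ r v) = ρ r v := by
  classical
  have h : ∃ n, ∀ y ∈ aI k Q ^ n, ρ y v = 0 := by
    obtain ⟨N, hN⟩ := exists_aI_pow (k := k) hQ
    exact ⟨N, fun y hy => by rw [hN, Ideal.mem_bot] at hy; simp [hy]⟩
  have h0 : Nat.find h ≠ 0 := fun e => by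
    have h1 := Nat.find_spec h 1 (by simp [e])
    exact hv (by simpa using h1)
  obtain ⟨n, hn⟩ := Nat.exists_eq_succ_of_ne_zero h0
  have h1 := Nat.find_min h (m := n) (by omega)
  push Not at h1
  obtain ⟨y, hy, h2⟩ := h1
  refine ⟨y, h2, fun u => ?_⟩
  have h3 := Nat.find_spec h ((MonoidAlgebra.single u 1 - 1) * y) (by
    rw [hn, Nat.succ_eq_add_one, pow_succ']
    exact Ideal.mul_mem_mul (single_sub_one_mem u) hy)
  rwa [map_mul, map_sub, map_one, Module.End.mul_apply, LinearMap.sub_apply, Module.End.one_apply,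
    sub_eq_zero] at h3

variable (k Q) in
/-- The square of the augmentation ideal. -/
noncomputable def aI2 : Submodule k k[Q] := (aI k Q ^ 2).restrictScalars k

variable {ι : Type} [Fintype ι] [DecidableEq ι]

/-- Monomials. -/
noncomputable def mono (x : ι → k[Q]) (m : ι → ℕ) : k[Q] := ∏ i, x i ^ m i

theorem mono_add (x : ι → k[Q]) (m m' : ι → ℕ) : mono x (m + m') = mono x m * mono x m' := by
  simp [mono, pow_add, Finset.prod_mul_distrib]

theorem mono_single (x : ι → k[Q]) (i : ι) : mono x (Pi.single i 1) = x i := by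
  rw [mono, Finset.prod_eq_single i (fun j _ h => by simp [h]) (by simp)]
  simp

theorem map_mono {x : ι → k[Q]} (f : k[Q] →ₐ[k] k[Q]) {c : ι → k} (h : ∀ i, f (x i) = c i • x i)
    (m : ι → ℕ) : f (mono x m) = (∏ i, c i ^ m i) • mono x m := by
  simp only [mono, map_prod, map_pow, h, smul_pow, Finset.prod_smul]

variable (p) in
/-- A family generating the augmentation ideal modulo its square. -/
structure Fr0 (x : ι → k[Q]) : Prop where
  exp : ∀ u : Q, u ^ p = 1
  mem : ∀ i, x i ∈ aI k Q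
  gen : ∀ y ∈ aI k Q, y ∈ Submodule.span k (Set.range x) ⊔ aI2 k Q

namespace Fr0

variable {x : ι → k[Q]} (F : Fr0 p x)
include F

theorem adjoin_eq : Algebra.adjoin k (Set.range x) = ⊤ := by
  set B := Algebra.adjoin k (Set.range x)
  have h1 : ∀ y ∈ aI k Q, ∃ b ∈ B, b ∈ aI k Q ∧ y - b ∈ aI k Q ^ 2 := fun y hy => by
    obtain ⟨b, hb, c, hc, rfl⟩ := Submodule.mem_sup.1 (F.gen y hy)
    refine ⟨b, Algebra.span_le_adjoin k _ hb, ?_, by rw [add_sub_cancel_left]; exact hc⟩
    exact (Submodule.span_le (p := (aI k Q).restrictScalars k)).2 (Set.range_subset_iff.2 F.mem) hb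
  have h2 : ∀ r, ∀ y ∈ aI k Q ^ r, ∃ b ∈ B, b ∈ aI k Q ^ r ∧ y - b ∈ aI k Q ^ (r + 1) := fun r => by
    induction r with
    | zero => exact fun y _ => ⟨aug k Q y • 1, B.smul_mem B.one_mem _, by simp,
        by simpa using sub_aug_mem y⟩
    | succ r ih =>
      intro y hy
      rw [pow_succ] at hy
      refine Submodule.mul_induction_on hy (fun a ha c hc => ?_) ?_
      · obtain ⟨b, hb, h3, h4⟩ := ih a ha
        obtain ⟨s, hs, h5, h6⟩ := h1 c hc
        refine ⟨b * s, B.mul_mem hb hs, pow_succ (aI k Q) r ▸ Ideal.mul_mem_mul h3 h5, ?_⟩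
        have e : a * c - b * s = b * (c - s) + (a - b) * c := by ring
        rw [e]
        exact add_mem (by rw [add_assoc, pow_add]; exact Ideal.mul_mem_mul h3 h6)
          (pow_succ (aI k Q) (r + 1) ▸ Ideal.mul_mem_mul h4 hc)
      · rintro a c ⟨b, hb, h3, h4⟩ ⟨b', hb', h5, h6⟩
        exact ⟨b + b', add_mem hb hb', add_mem h3 h5, by
          rw [add_sub_add_comm]; exact add_mem h4 h6⟩
  have h3 : ∀ r y, ∃ b ∈ B, y - b ∈ aI k Q ^ r := fun r y => by
    induction r with
    | zero => exact ⟨0, B.zero_mem, by simp⟩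
    | succ r ih =>
      obtain ⟨b, hb, h4⟩ := ih
      obtain ⟨b', hb', -, h5⟩ := h2 r _ h4
      exact ⟨b + b', add_mem hb hb', by rwa [← sub_sub]⟩
  obtain ⟨N, hN⟩ := exists_aI_pow (k := k) F.exp
  refine eq_top_iff.2 fun y _ => ?_
  obtain ⟨b, hb, h4⟩ := h3 N y
  rw [hN, Ideal.mem_bot, sub_eq_zero] at h4
  exact h4 ▸ hb

theorem algHom_ext {A : Type*} [Semiring A] [Algebra k A] {f g : k[Q] →ₐ[k] A}
    (h : ∀ i, f (x i) = g (x i)) : f = g :=
  AlgHom.ext_of_adjoin_eq_top F.adjoin_eq (by rintro _ ⟨i, rfl⟩; exact h i)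

theorem mono_eq_zero {m : ι → ℕ} {i : ι} (h : p ≤ m i) : mono x m = 0 :=
  Finset.prod_eq_zero (Finset.mem_univ i) (pow_eq_zero_of_le h (pow_p_eq_zero F.exp (F.mem i)))

theorem span_eq : ⊤ ≤ Submodule.span k (Set.range fun m : ι → Fin p => mono x fun i => m i) := by
  intro y _
  have h : y ∈ Subalgebra.toSubmodule (Algebra.adjoin k (Set.range x)) := by
    rw [F.adjoin_eq]; trivial
  rw [Algebra.adjoin_eq_span] at h
  refine Submodule.span_le.2 (fun z hz => ?_) h
  obtain ⟨m, rfl⟩ := Submonoid.mem_closure_range_iff_of_fintype.1 hz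
  by_cases h1 : ∀ i, m i < p
  · exact Submodule.subset_span ⟨fun i => ⟨m i, h1 i⟩, rfl⟩
  · push Not at h1
    obtain ⟨i, hi⟩ := h1
    rw [show ∏ i, x i ^ m i = 0 from F.mono_eq_zero hi]
    exact zero_mem _

theorem card_le : Fintype.card Q ≤ p ^ Fintype.card ι := by
  have h := finrank_range_le_card (R := k) fun m : ι → Fin p => mono x fun i => m i
  rw [Set.finrank, top_le_iff.1 F.span_eq, finrank_top, finrank_monoidAlgebra] at h
  simpa using h

theorem aug_mono {m : ι → ℕ} (h : m ≠ 0) : aug k Q (mono x m) = 0 := by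
  obtain ⟨i, hi⟩ := Function.ne_iff.1 h
  rw [mono, map_prod]
  exact Finset.prod_eq_zero (Finset.mem_univ i) (by
    rw [map_pow, mem_aI.1 (F.mem i), zero_pow hi])

end Fr0

variable (p) in
/-- A minimal such family. -/
structure Fr (x : ι → k[Q]) : Prop extends Fr0 p x where
  card : p ^ Fintype.card ι = Fintype.card Q

namespace Fr

variable {x : ι → k[Q]} (F : Fr p x)

/-- The basis of truncated monomials. -/
noncomputable def basis : Basis (ι → Fin p) k k[Q] :=
  basisOfTopLeSpanOfCardEqFinrank _ F.span_eq (by simp [finrank_monoidAlgebra, F.card])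

theorem basis_apply (m : ι → Fin p) : F.basis m = mono x fun i => m i :=
  congrFun (coe_basisOfTopLeSpanOfCardEqFinrank _ _ _) m

/-- The scaling map. -/
noncomputable def sc0 (c : ι → k) : k[Q] →ₗ[k] k[Q] :=
  F.basis.constr k fun m => (∏ i, c i ^ (m i : ℕ)) • mono x fun i => m i

theorem sc0_mono (c : ι → k) (m : ι → ℕ) : F.sc0 c (mono x m) = (∏ i, c i ^ m i) • mono x m := by
  by_cases h1 : ∀ i, m i < p
  · have h := F.basis.constr_basis k (fun m => (∏ i, c i ^ (m i : ℕ)) • mono x fun i => m i)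
      fun i => ⟨m i, h1 i⟩
    rwa [basis_apply] at h
  · push Not at h1
    obtain ⟨i, hi⟩ := h1
    rw [F.mono_eq_zero hi, map_zero, smul_zero]

/-- The scaling endomorphism `x i ↦ c i • x i`. -/
noncomputable def sc (c : ι → k) : k[Q] →ₐ[k] k[Q] :=
  AlgHom.ofLinearMap (F.sc0 c) (by simpa [mono] using F.sc0_mono c 0) fun a b => by
    have h : (LinearMap.mul k k[Q]).compr₂ (F.sc0 c) =
        (LinearMap.mul k k[Q]).compl₁₂ (F.sc0 c) (F.sc0 c) :=
      F.basis.ext fun m => F.basis.ext fun m' => by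
        simp only [LinearMap.compr₂_apply, LinearMap.compl₁₂_apply, LinearMap.mul_apply',
          basis_apply, ← mono_add, sc0_mono, smul_mul_smul_comm, Pi.add_apply, pow_add,
          Finset.prod_mul_distrib]
    exact LinearMap.congr_fun₂ h a b

theorem sc_apply (c : ι → k) (i : ι) : F.sc c (x i) = c i • x i := by
  have h := F.sc0_mono c (Pi.single i 1)
  rw [mono_single, Finset.prod_eq_single i (fun j _ h => by simp [h]) (by simp),
    Pi.single_eq_same, pow_one] at h
  exact h

include F in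
theorem exists_top : ∃ c : k, sgQ k Q = c • mono x fun _ => p - 1 := by
  have h0 : (mono x fun _ => p - 1) ≠ 0 := by
    have h := F.basis.ne_zero fun _ => ⟨p - 1, Nat.sub_one_lt hp.out.ne_zero⟩
    rwa [basis_apply] at h
  have h1 : ∀ y ∈ aI k Q, y * (mono x fun _ => p - 1) = 0 := fun y hy => by
    have h2 : ∀ m : ι → Fin p, F.basis m * (mono x fun _ => p - 1) =
        aug k Q (F.basis m) • mono x fun _ => p - 1 := fun m => by
      rw [basis_apply]
      by_cases hm : (fun i => (m i : ℕ)) = 0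
      · rw [hm]; simp [mono]
      · obtain ⟨i, hi⟩ := Function.ne_iff.1 hm
        rw [F.aug_mono hm, zero_smul, ← mono_add]
        refine F.mono_eq_zero (i := i) ?_
        have : (m i : ℕ) ≠ 0 := hi
        change p ≤ m i + (p - 1)
        omega
    have h3 : LinearMap.mulRight k (mono x fun _ => p - 1) =
        (aug k Q).toLinearMap.smulRight (mono x fun _ => p - 1) := F.basis.ext h2
    have h4 := LinearMap.congr_fun h3 y
    simpa [mem_aI.1 hy] using h4
  have h2 := eq_smul_sg (y := mono x fun _ => p - 1) fun u => by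
    have h3 := h1 _ (single_sub_one_mem u)
    rwa [sub_mul, one_mul, sub_eq_zero] at h3
  have h3 : (mono x fun _ => p - 1).coeff 1 ≠ 0 := fun e => h0 (by rw [h2, e, zero_smul])
  exact ⟨_, ((inv_smul_eq_iff₀ h3).2 h2).symm⟩

end Fr

variable (p) in
/-- A splitting `W ⊕ W'` of the augmentation ideal modulo its square. -/
structure Sp (W W' : Submodule k k[Q]) : Prop where
  exp : ∀ u : Q, u ^ p = 1
  le : ∀ w ∈ W, w ∈ aI k Q
  le' : ∀ w ∈ W', w ∈ aI k Q
  gen : ∀ y ∈ aI k Q, y ∈ W ⊔ W' ⊔ aI2 k Q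
  card : p ^ (finrank k W + finrank k W') = Fintype.card Q

namespace Sp

variable {W W' : Submodule k k[Q]} (S : Sp p W W') {ι' : Type} [Fintype ι'] [DecidableEq ι']

/-- The frame attached to bases of `W` and `W'`. -/
noncomputable def fam (b : Basis ι k W) (b' : Basis ι' k W') : ι ⊕ ι' → k[Q] :=
  Sum.elim (fun i => b i) fun i => b' i

theorem span_basis (b : Basis ι k W) : Submodule.span k (Set.range fun i => (b i : k[Q])) = W := by
  have h := congrArg (Submodule.map W.subtype) b.span_eq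
  rwa [Submodule.map_span, ← Set.range_comp, Submodule.map_subtype_top] at h

include S in
theorem fr (b : Basis ι k W) (b' : Basis ι' k W') : Fr p (fam b b') where
  exp := S.exp
  mem := by rintro (i | i); exacts [S.le _ (b i).2, S.le' _ (b' i).2]
  gen y hy := by
    rw [fam, Set.Sum.elim_range, Submodule.span_union, span_basis, span_basis]
    exact S.gen y hy
  card := by rw [← S.card, finrank_eq_card_basis b, finrank_eq_card_basis b', Fintype.card_sum]

include S in
theorem algHom_ext {A : Type*} [Semiring A] [Algebra k A] {f g : k[Q] →ₐ[k] A}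
    (h : ∀ w ∈ W, f w = g w) (h' : ∀ w ∈ W', f w = g w) : f = g :=
  (S.fr (finBasis k W) (finBasis k W')).algHom_ext (by
    rintro (i | i); exacts [h _ (finBasis k W i).2, h' _ (finBasis k W' i).2])

/-- The endomorphism scaling `W` by `t` and fixing `W'`. -/
noncomputable def α (t : k) : k[Q] →ₐ[k] k[Q] :=
  (S.fr (finBasis k W) (finBasis k W')).sc (Sum.elim (fun _ => t) fun _ => 1)

theorem α_W (t : k) {w : k[Q]} (hw : w ∈ W) : S.α t w = t • w := by
  have h : (S.α t).toLinearMap ∘ₗ W.subtype = t • W.subtype := (finBasis k W).ext fun i =>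
    (S.fr (finBasis k W) (finBasis k W')).sc_apply _ (Sum.inl i)
  exact LinearMap.congr_fun h ⟨w, hw⟩

theorem α_W' (t : k) {w : k[Q]} (hw : w ∈ W') : S.α t w = w := by
  have h : (S.α t).toLinearMap ∘ₗ W'.subtype = W'.subtype := (finBasis k W').ext fun i =>
    ((S.fr (finBasis k W) (finBasis k W')).sc_apply _ (Sum.inr i)).trans (one_smul _ _)
  exact LinearMap.congr_fun h ⟨w, hw⟩

theorem α_one : S.α 1 = AlgHom.id k _ :=
  S.algHom_ext (fun w hw => by simp [S.α_W 1 hw]) fun w hw => by simp [S.α_W' 1 hw]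

theorem α_mul (t t' : k) : S.α (t * t') = (S.α t).comp (S.α t') :=
  S.algHom_ext (fun w hw => by simp [S.α_W _ hw, smul_smul, mul_comm])
    fun w hw => by simp [S.α_W' _ hw]

theorem α_comm (t : k) {f : k[Q] →ₐ[k] k[Q]} (h : ∀ w ∈ W, f w ∈ W) (h' : ∀ w ∈ W', f w ∈ W')
    (y : k[Q]) : S.α t (f y) = f (S.α t y) :=
  AlgHom.congr_fun (S.algHom_ext (f := (S.α t).comp f) (g := f.comp (S.α t))
    (fun w hw => by simp [S.α_W _ hw, S.α_W _ (h w hw)])
    fun w hw => by simp [S.α_W' _ hw, S.α_W' _ (h' w hw)]) y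

theorem α_mono (t : k) (b : Basis ι k W) (b' : Basis ι' k W') (m : ι ⊕ ι' → ℕ) :
    S.α t (mono (fam b b') m) = t ^ (∑ i, m (Sum.inl i)) • mono (fam b b') m := by
  rw [map_mono (S.α t) (c := Sum.elim (fun _ => t) fun _ => 1) (by
    rintro (i | i); exacts [S.α_W t (b i).2, (S.α_W' t (b' i).2).trans (one_smul _ _).symm])]
  simp [Finset.prod_pow_eq_pow_sum]

theorem α_sg (t : k) : S.α t (sgQ k Q) = t ^ (finrank k W * (p - 1)) • sgQ k Q := by
  obtain ⟨c, hc⟩ := (S.fr (finBasis k W) (finBasis k W')).exists_top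
  rw [hc, map_smul, α_mono, smul_comm]
  simp

end Sp

theorem exists_gens_add (V : Type*) [AddCommGroup V] [Module (ZMod p) V] [Fintype V] :
    ∃ (n : ℕ) (u : Fin n → V), p ^ n = Fintype.card V ∧ ∀ y, ∃ c : Fin n → ℕ, y = ∑ i, c i • u i := by
  have : NeZero p := ⟨hp.out.ne_zero⟩
  let b := finBasis (ZMod p) V
  refine ⟨_, b, by rw [card_eq_pow_finrank (K := ZMod p) (V := V), ZMod.card],
    fun y => ⟨fun i => (b.repr y i).val, ?_⟩⟩
  conv_lhs => rw [← b.sum_repr y]
  refine Finset.sum_congr rfl fun i _ => ?_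
  rw [← Nat.cast_smul_eq_nsmul (ZMod p), ZMod.natCast_zmod_val]

theorem exists_gens (hQ : ∀ u : Q, u ^ p = 1) : ∃ (n : ℕ) (u : Fin n → Q),
    p ^ n = Fintype.card Q ∧ ∀ T : Submonoid Q, (∀ i, u i ∈ T) → T = ⊤ := by
  have : NeZero p := ⟨hp.out.ne_zero⟩
  obtain ⟨n, u, h1, h2⟩ := @exists_gens_add p _ (Additive Q) _
    (AddCommGroup.zmodModule fun x => hQ x.toMul) _
  refine ⟨n, fun i => (u i).toMul, h1.trans (Fintype.card_congr Additive.toMul),
    fun T hT => eq_top_iff.2 fun y _ => ?_⟩
  obtain ⟨c, hc⟩ := h2 (Additive.ofMul y)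
  rw [← toMul_ofMul y, hc, toMul_sum]
  exact prod_mem fun i _ => pow_mem (hT i) _

variable {E : Type*} [Group E] [Finite E] (φ : E →* MulAut Q)

variable (k) in
/-- The action on the group algebra. -/
noncomputable def act : E →* (k[Q] →ₐ[k] k[Q]) where
  toFun e := (MonoidAlgebra.domCongr k k (φ e)).toAlgHom
  map_one' := by ext; simp
  map_mul' e e' := by ext; simp

@[simp] theorem act_single (e : E) (u : Q) (c : k) :
    act k φ e (MonoidAlgebra.single u c) = MonoidAlgebra.single (φ e u) c :=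
  MonoidAlgebra.domCongr_single _ _ _

theorem aug_act (e : E) (y : k[Q]) : aug k Q (act k φ e y) = aug k Q y :=
  AlgHom.congr_fun (φ₁ := (aug k Q).comp (act k φ e)) (by ext; simp) y

theorem act_mem (e : E) {y : k[Q]} (hy : y ∈ aI k Q) : act k φ e y ∈ aI k Q := by
  rwa [mem_aI, aug_act]

theorem act_mem2 (e : E) {y : k[Q]} (hy : y ∈ aI2 k Q) : act k φ e y ∈ aI2 k Q := by
  change _ ∈ aI k Q ^ 2 at hy ⊢
  rw [sq] at hy ⊢
  exact Submodule.mul_induction_on hy (fun a ha b hb => by
    rw [map_mul]; exact Ideal.mul_mem_mul (act_mem φ e ha) (act_mem φ e hb))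
    fun a b ha hb => by rw [map_add]; exact add_mem ha hb

variable (k) in
/-- The action as a representation. -/
noncomputable def actR : Representation k E k[Q] where
  toFun e := (act k φ e).toLinearMap
  map_one' := by rw [map_one]; rfl
  map_mul' e e' := by rw [map_mul]; rfl

/-- An invariant complement of the square of the augmentation ideal. -/
theorem exists_sp (hQ : ∀ u : Q, u ^ p = 1) (hE : ¬ p ∣ Nat.card E) :
    ∃ V : Submodule k k[Q], Sp p V ⊥ ∧ (∀ e, ∀ w ∈ V, act k φ e w ∈ V) ∧ Disjoint V (aI2 k Q) := by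
  have : NeZero (Nat.card E : k) := ⟨by rwa [Ne, CharP.cast_eq_zero_iff _ p]⟩
  obtain ⟨B, hB⟩ := exists_isCompl
    (⟨aI2 k Q, fun e _ hy => act_mem2 φ e hy⟩ : Subrepresentation (actR k φ))
  have h1 : aI2 k Q ⊓ B.toSubmodule = ⊥ := congrArg Subrepresentation.toSubmodule hB.inf_eq_bot
  have h2 : aI2 k Q ⊔ B.toSubmodule = ⊤ := congrArg Subrepresentation.toSubmodule hB.sup_eq_top
  set V := B.toSubmodule ⊓ (aI k Q).restrictScalars k
  have h3 : ∀ y ∈ aI k Q, y ∈ V ⊔ aI2 k Q := fun y hy => by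
    obtain ⟨a, ha, b, hb, rfl⟩ := Submodule.mem_sup.1 (h2 ▸ Submodule.mem_top (x := y))
    have h4 : a ∈ aI k Q := Ideal.pow_le_self two_ne_zero ha
    rw [add_comm]
    exact Submodule.add_mem_sup ⟨hb, by simpa using sub_mem hy h4⟩ ha
  have h4 : Disjoint V (aI2 k Q) :=
    disjoint_iff.2 (le_bot_iff.1 (h1 ▸ le_inf inf_le_right (inf_le_left.trans inf_le_left)))
  obtain ⟨n, u, hn, hu⟩ := exists_gens hQ
  have h5 : finrank k V ≤ n := by
    let S := Submodule.span k (Set.range fun i => MonoidAlgebra.single (u i) (1 : k) - 1)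
    have h6 : ∀ v, MonoidAlgebra.single v (1 : k) - 1 ∈ S ⊔ aI2 k Q := fun v => by
      let T : Submonoid Q :=
        { carrier := {v | MonoidAlgebra.single v (1 : k) - 1 ∈ S ⊔ aI2 k Q}
          one_mem' := by simp [← MonoidAlgebra.one_def]
          mul_mem' := fun {a b} ha hb => by
            have e : MonoidAlgebra.single (a * b) (1 : k) - 1 = (MonoidAlgebra.single a 1 - 1) +
                (MonoidAlgebra.single b 1 - 1) +
                (MonoidAlgebra.single a 1 - 1) * (MonoidAlgebra.single b 1 - 1) := by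
              rw [← mul_one (1 : k), ← MonoidAlgebra.single_mul_single, mul_one]; ring
            change _ ∈ S ⊔ aI2 k Q
            rw [e]
            refine add_mem (add_mem ha hb) (Submodule.mem_sup_right ?_)
            change _ ∈ aI k Q ^ 2
            rw [sq]
            exact Ideal.mul_mem_mul (single_sub_one_mem a) (single_sub_one_mem b) }
      exact (hu T fun i => Submodule.mem_sup_left (Submodule.subset_span ⟨i, rfl⟩)).ge
        (Submonoid.mem_top v)
    have h7 : V ⊔ aI2 k Q ≤ S ⊔ aI2 k Q := sup_le (fun y hy => aI_le h6 hy.2) le_sup_right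
    have h8 := Submodule.finrank_mono h7
    have h9 := Submodule.finrank_sup_add_finrank_inf_eq V (aI2 k Q)
    have h10 := Submodule.finrank_sup_add_finrank_inf_eq S (aI2 k Q)
    have h11 : finrank k S ≤ n :=
      (finrank_range_le_card (R := k) fun i => MonoidAlgebra.single (u i) (1 : k) - 1).trans_eq
        (Fintype.card_fin n)
    rw [h4.eq_bot, finrank_bot] at h9
    omega
  have h6 : Fr0 p fun i => (finBasis k V i : k[Q]) :=
    ⟨hQ, fun i => (finBasis k V i).2.2, fun y hy => by rw [Sp.span_basis]; exact h3 y hy⟩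
  have h7 := h6.card_le
  rw [Fintype.card_fin, ← hn, Nat.pow_le_pow_iff_right hp.out.one_lt] at h7
  refine ⟨V, ⟨hQ, fun w hw => hw.2, fun w hw => by simp_all, fun y hy => ?_, ?_⟩,
    fun e w hw => ⟨B.apply_mem_toSubmodule e hw.1, act_mem φ e hw.2⟩, h4⟩
  · rw [sup_bot_eq]; exact h3 y hy
  · rw [finrank_bot, add_zero, le_antisymm h5 h7, hn]

end GB
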