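import Cfsg.Agent.Lib.Block.GBA0
import Cfsg.Agent.Lib.Block.GBA1
import Mathlib.GroupTheory.Complement

/-!
# The graded group algebra of `P : E`
-/

set_option autoImplicit false
set_option linter.unusedSectionVars false

namespace GB

open Module
open scoped MonoidAlgebra

universe u

/-- `H` is the semidirect product of `Q` and `E`. -/
structure SDP (H Q E : Type u) [Group H] [CommGroup Q] [Group E] where
  j : Q →* H
  s : E →* H
  φ : E →* MulAut Q
  conj : ∀ e u, s e * j u = j (φ e u) * s e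
  bij : Function.Bijective fun x : Q × E => j x.1 * s x.2

namespace SDP

variable {k : Type} [Field k] {H Q E : Type u} [Group H] [CommGroup Q] [Group E]
  [Fintype H] [Fintype Q] [Fintype E] (D : SDP H Q E)

theorem exists_eq (h : H) : ∃ u e, h = D.j u * D.s e := by
  obtain ⟨x, hx⟩ := D.bij.2 h
  exact ⟨x.1, x.2, hx.symm⟩

theorem eq_iff {u u' : Q} {e e' : E} : D.j u * D.s e = D.j u' * D.s e' ↔ u = u' ∧ e = e' :=
  ⟨fun h => Prod.ext_iff.1 (D.bij.1 (a₁ := (u, e)) (a₂ := (u', e')) h), fun h => by rw [h.1, h.2]⟩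

theorem mul_eq (u u' : Q) (e e' : E) :
    D.j u * D.s e * (D.j u' * D.s e') = D.j (u * D.φ e u') * D.s (e * e') := by
  rw [mul_assoc, ← mul_assoc (D.s e), D.conj, map_mul, map_mul]
  simp only [mul_assoc]

/-- The two coordinates. -/
noncomputable def co (h : H) : Q × E := (Equiv.ofBijective _ D.bij).symm h

theorem co_eq (u : Q) (e : E) : D.co (D.j u * D.s e) = (u, e) :=
  (Equiv.ofBijective _ D.bij).symm_apply_apply (u, e)

/-- The projection onto `E`. -/
noncomputable def pr : H →* E := MonoidHom.mk' (fun h => (D.co h).2) fun a b => by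
  obtain ⟨u, e, rfl⟩ := D.exists_eq a
  obtain ⟨u', e', rfl⟩ := D.exists_eq b
  simp only [mul_eq, co_eq]

theorem pr_eq (u : Q) (e : E) : D.pr (D.j u * D.s e) = e := congrArg Prod.snd (D.co_eq u e)

theorem pr_s (e : E) : D.pr (D.s e) = e := by simpa using D.pr_eq 1 e

variable (k)

/-- The embedding of `k[Q]`. -/
noncomputable def ιQ : k[Q] →ₐ[k] k[H] := MonoidAlgebra.mapDomainAlgHom k k D.j

/-- The embedding of `k[E]`. -/
noncomputable def ιE : k[E] →ₐ[k] k[H] := MonoidAlgebra.mapDomainAlgHom k k D.s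

/-- The projection onto `k[E]`. -/
noncomputable def πE : k[H] →ₐ[k] k[E] := MonoidAlgebra.mapDomainAlgHom k k D.pr

variable {k}

@[simp] theorem ιQ_single (u : Q) (c : k) :
    D.ιQ k (MonoidAlgebra.single u c) = MonoidAlgebra.single (D.j u) c := by simp [ιQ]

@[simp] theorem ιE_single (e : E) (c : k) :
    D.ιE k (MonoidAlgebra.single e c) = MonoidAlgebra.single (D.s e) c := by simp [ιE]

@[simp] theorem πE_single (h : H) (c : k) :
    D.πE k (MonoidAlgebra.single h c) = MonoidAlgebra.single (D.pr h) c := by simp [πE]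

theorem single_eq (u : Q) (e : E) : MonoidAlgebra.single (D.j u * D.s e) (1 : k) =
    D.ιQ k (MonoidAlgebra.single u 1) * D.ιE k (MonoidAlgebra.single e 1) := by
  simp [MonoidAlgebra.single_mul_single]

theorem ιE_mul_ιQ (e : E) (y : k[Q]) : D.ιE k (MonoidAlgebra.single e 1) * D.ιQ k y =
    D.ιQ k (act k D.φ e y) * D.ιE k (MonoidAlgebra.single e 1) := by
  induction y using MonoidAlgebra.induction_linear with
  | zero => simp
  | add x y hx hy => simp only [map_add, mul_add, add_mul, hx, hy]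
  | single u c => simp [MonoidAlgebra.single_mul_single, D.conj]

/-- Induction on the elements of `k[H]`. -/
@[elab_as_elim]
theorem induction {P : k[H] → Prop} (a : k[H])
    (h : ∀ u e, P (D.ιQ k (MonoidAlgebra.single u 1) * D.ιE k (MonoidAlgebra.single e 1)))
    (add : ∀ x y, P x → P y → P (x + y)) (smul : ∀ (c : k) x, P x → P (c • x)) : P a := by
  induction a using MonoidAlgebra.induction_on with
  | of m => obtain ⟨u, e, rfl⟩ := D.exists_eq m; rw [MonoidAlgebra.of_apply, single_eq]; exact h u e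
  | add x y hx hy => exact add x y hx hy
  | smul c x hx => exact smul c x hx

theorem single_mul_sg (u : Q) : MonoidAlgebra.single u (1 : k) * sgQ k Q = sgQ k Q := by
  ext v; simp [coeff_sg]

theorem act_sg (e : E) : act k D.φ e (sgQ k Q) = sgQ k Q := by
  rw [sgQ, map_sum]
  simp only [act_single]
  exact Equiv.sum_comp (D.φ e).toEquiv fun u => MonoidAlgebra.single u (1 : k)

theorem πE_ιQ_single (u : Q) : D.πE k (D.ιQ k (MonoidAlgebra.single u 1)) = 1 := by
  have h : D.pr (D.j u) = 1 := by simpa using D.pr_eq u 1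
  simp [h, MonoidAlgebra.one_def]

theorem πE_ιE (y : k[E]) : D.πE k (D.ιE k y) = y :=
  AlgHom.congr_fun (φ₁ := (D.πE k).comp (D.ιE k)) (φ₂ := AlgHom.id k _) (by ext; simp [pr_s]) y

theorem coeff_ισ (y : k[E]) (u : Q) (e : E) :
    (D.ιE k y * D.ιQ k (sgQ k Q)).coeff (D.j u * D.s e) = y.coeff e := by
  classical
  induction y using MonoidAlgebra.induction_on with
  | add x y hx hy => simp only [map_add, add_mul, MonoidAlgebra.coeff_add, Finsupp.add_apply, hx, hy]
  | smul c x hx => simp only [map_smul, smul_mul_assoc, MonoidAlgebra.coeff_smul, Finsupp.smul_apply, hx]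
  | of m =>
    rw [MonoidAlgebra.of_apply, ιE_mul_ιQ, act_sg, sgQ, map_sum, Finset.sum_mul]
    simp only [← single_eq, MonoidAlgebra.coeff_sum, Finsupp.finsetSum_apply,
      MonoidAlgebra.coeff_single, Finsupp.single_apply, eq_iff]
    by_cases h : m = e <;> simp [h]

variable {p : ℕ} [hp : Fact p.Prime] [CharP k p]

variable (k) in
/-- The abstract data of `k[H]`. -/
noncomputable def sa (hQ : ∀ u : Q, u ^ p = 1) : SA k k[H] k[E] where
  ι := D.ιE k
  π := D.πE k
  πι := D.πE_ιE
  σ := D.ιQ k (sgQ k Q)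
  comm a := D.induction a (fun u e => by
      rw [mul_assoc, ιE_mul_ιQ, act_sg, ← mul_assoc, ← mul_assoc, ← map_mul, ← map_mul, mul_comm (sgQ k Q)])
    (fun x y hx hy => by rw [mul_add, add_mul, hx, hy])
    fun c x hx => by rw [mul_smul_comm, smul_mul_assoc, hx]
  mul_σ a := D.induction a (fun u e => by
      rw [map_mul, πE_ιQ_single, πE_ιE, one_mul, mul_assoc, ιE_mul_ιQ, act_sg, ← mul_assoc, ← map_mul,
        single_mul_sg])
    (fun x y hx hy => by rw [map_add, map_add, add_mul, add_mul, hx, hy])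
    fun c x hx => by rw [map_smul, map_smul, smul_mul_assoc, smul_mul_assoc, hx]
  inj y h := by
    ext e
    rw [← D.coeff_ισ y 1 e, h]; rfl
  fix X v hv := by
    obtain ⟨r, h1, h2⟩ := exists_fixed hQ (X.ρ.comp (D.ιQ k)) hv
    refine ⟨D.ιQ k r, h1, fun a => D.induction a (fun u e => ?_)
      (fun x y hx hy => by simp only [map_add, LinearMap.add_apply, hx, hy])
      fun c x hx => by simp only [map_smul, LinearMap.smul_apply, hx]⟩
    have h3 := D.ιE_mul_ιQ (k := k) e (MonoidAlgebra.single ((D.φ e).symm u) 1)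
    rw [act_single, MulEquiv.apply_symm_apply] at h3
    rw [map_mul (D.πE k), πE_ιQ_single, πE_ιE, one_mul, ← h3, X.ρ_mul]
    exact congrArg _ (h2 _)
  soc x h := by
    refine ⟨MonoidAlgebra.ofCoeff (Finsupp.equivFunOnFinite.symm fun e => x.coeff (D.s e)), ?_⟩
    ext g
    obtain ⟨u, e, rfl⟩ := D.exists_eq g
    have h1 := h (D.ιQ k (MonoidAlgebra.single u 1))
    rw [πE_ιQ_single, map_one, one_mul, ιQ_single] at h1
    have h2 := congrArg (fun z => z.coeff (D.j u * D.s e)) h1
    rw [coeff_ισ]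
    simpa using h2.symm
  τ0 := Finsupp.lapply 1 ∘ₗ (MonoidAlgebra.coeffLinearEquiv k).toLinearMap
  symm x y := by
    classical
    induction x using MonoidAlgebra.induction_linear with
    | zero => simp
    | add a b ha hb => simp only [add_mul, mul_add, map_add, ha, hb]
    | single g c => simp [mul_comm]
  nd y hy := by
    obtain ⟨e, he⟩ : ∃ e, y.coeff e ≠ 0 := by
      by_contra h
      push Not at h
      exact hy (by ext e; simpa using h e)
    refine ⟨MonoidAlgebra.single e⁻¹ 1, ?_⟩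
    have h := D.coeff_ισ (MonoidAlgebra.single e⁻¹ 1 * y) 1 1
    simp only [map_one, mul_one, MonoidAlgebra.coeff_single_mul_apply, inv_inv, one_mul] at h
    exact fun h' => he (h.symm.trans h')

section basis

variable {κ μ : Type*} [Fintype κ] [Fintype μ] (bR : Basis κ k k[Q]) (bE : Basis μ k k[E])

theorem span_prod : ⊤ ≤ Submodule.span k
    (Set.range fun x : κ × μ => D.ιQ k (bR x.1) * D.ιE k (bE x.2)) := fun a _ => by
  refine D.induction a (fun u e => ?_) (fun _ _ => add_mem) fun c _ => Submodule.smul_mem _ c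
  rw [← bR.sum_repr (MonoidAlgebra.single u 1), ← bE.sum_repr (MonoidAlgebra.single e 1), map_sum,
    map_sum, Finset.sum_mul_sum]
  refine Submodule.sum_mem _ fun i _ => Submodule.sum_mem _ fun l _ => ?_
  rw [map_smul, map_smul, smul_mul_smul_comm]
  exact Submodule.smul_mem _ _ (Submodule.subset_span ⟨(i, l), rfl⟩)

/-- The product basis of `k[H]`. -/
noncomputable def basis : Basis (κ × μ) k k[H] :=
  basisOfTopLeSpanOfCardEqFinrank _ (D.span_prod bR bE) (by
    rw [Fintype.card_prod, ← finrank_eq_card_basis bR, ← finrank_eq_card_basis bE,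
      finrank_monoidAlgebra, finrank_monoidAlgebra, finrank_monoidAlgebra, ← Fintype.card_prod,
      Fintype.card_of_bijective D.bij])

theorem basis_apply (x : κ × μ) : D.basis bR bE x = D.ιQ k (bR x.1) * D.ιE k (bE x.2) :=
  congrFun (coe_basisOfTopLeSpanOfCardEqFinrank _ _ _) x

end basis

/-- Extension of an equivariant endomorphism of `k[Q]` to `k[H]`. -/
noncomputable def ext (f : k[Q] →ₐ[k] k[Q]) (hf : ∀ e y, f (act k D.φ e y) = act k D.φ e (f y)) :
    k[H] →ₐ[k] k[H] :=
  MonoidAlgebra.lift k k[H] H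
    { toFun := fun h => D.ιQ k (f (MonoidAlgebra.single (D.co h).1 1)) *
        D.ιE k (MonoidAlgebra.single (D.co h).2 1)
      map_one' := by
        have h := D.co_eq 1 1
        rw [map_one, map_one, one_mul] at h
        simp [h, ← MonoidAlgebra.one_def]
      map_mul' := fun a b => by
        obtain ⟨u, e, rfl⟩ := D.exists_eq a
        obtain ⟨u', e', rfl⟩ := D.exists_eq b
        simp only [mul_eq, co_eq]
        rw [mul_assoc, ← mul_assoc (D.ιE k _), ιE_mul_ιQ, ← hf, act_single, mul_assoc, ← map_mul,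
          ← mul_assoc, ← map_mul, ← map_mul]
        simp [MonoidAlgebra.single_mul_single] }

section ext

variable {f : k[Q] →ₐ[k] k[Q]} (hf : ∀ e y, f (act k D.φ e y) = act k D.φ e (f y))

theorem ext_ιQ (y : k[Q]) : D.ext f hf (D.ιQ k y) = D.ιQ k (f y) :=
  AlgHom.congr_fun (φ₁ := (D.ext f hf).comp (D.ιQ k)) (φ₂ := (D.ιQ k).comp f)
    (MonoidAlgebra.algHom_ext (fun u => by
      have h := D.co_eq u 1
      rw [map_one, mul_one] at h
      simp [ext, h, ← MonoidAlgebra.one_def]) (by ext)) y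

theorem ext_ιE (y : k[E]) : D.ext f hf (D.ιE k y) = D.ιE k y :=
  AlgHom.congr_fun (φ₁ := (D.ext f hf).comp (D.ιE k)) (φ₂ := D.ιE k)
    (MonoidAlgebra.algHom_ext (fun e => by
      have h := D.co_eq 1 e
      rw [map_one, one_mul] at h
      simp [ext, h, ← MonoidAlgebra.one_def]) (by ext)) y

end ext

theorem algHom_ext {f g : k[H] →ₐ[k] k[H]} (h : ∀ y, f (D.ιQ k y) = g (D.ιQ k y))
    (h' : ∀ y, f (D.ιE k y) = g (D.ιE k y)) : f = g :=
  MonoidAlgebra.algHom_ext (fun m => by
    obtain ⟨u, e, rfl⟩ := D.exists_eq m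
    rw [single_eq, map_mul, map_mul, h, h']) (by ext)

variable (p) in
/-- An invariant splitting. -/
structure ISp (W W' : Submodule k k[Q]) : Prop extends Sp p W W' where
  inv : ∀ e, ∀ w ∈ W, act k D.φ e w ∈ W
  inv' : ∀ e, ∀ w ∈ W', act k D.φ e w ∈ W'

theorem exists_isp (hQ : ∀ u : Q, u ^ p = 1) (hE : ¬ p ∣ Nat.card E) :
    ∃ V : Submodule k k[Q], D.ISp p V ⊥ ∧ Disjoint V (aI2 k Q) := by
  obtain ⟨V, h1, h2, h3⟩ := exists_sp (k := k) D.φ hQ hE
  exact ⟨V, ⟨h1, h2, fun e w hw => by simp_all⟩, h3⟩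

namespace ISp

variable {D} {W W' : Submodule k k[Q]} (S : D.ISp p W W')

theorem α_act (t : k) (e : E) (y : k[Q]) :
    S.toSp.α t (act k D.φ e y) = act k D.φ e (S.toSp.α t y) :=
  S.toSp.α_comm t (S.inv e) (S.inv' e) y

/-- The scaling endomorphisms of `k[H]`. -/
noncomputable def β (t : k) : k[H] →ₐ[k] k[H] := D.ext (S.toSp.α t) (S.α_act t)

theorem β_ιQ (t : k) (y : k[Q]) : S.β t (D.ιQ k y) = D.ιQ k (S.toSp.α t y) := D.ext_ιQ _ y

theorem β_ιE (t : k) (y : k[E]) : S.β t (D.ιE k y) = D.ιE k y := D.ext_ιE _ y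

theorem β_one : S.β 1 = AlgHom.id k _ :=
  D.algHom_ext (fun y => by rw [β_ιQ, Sp.α_one]; rfl) fun y => S.β_ιE 1 y

theorem β_mul (t t' : k) : S.β (t * t') = (S.β t).comp (S.β t') :=
  D.algHom_ext (fun y => by rw [AlgHom.comp_apply, β_ιQ, β_ιQ, β_ιQ, Sp.α_mul]; rfl)
    fun y => by rw [AlgHom.comp_apply, β_ιE, β_ιE, β_ιE]

/-- The one-parameter group of automorphisms. -/
noncomputable def α : kˣ →* (k[H] ≃ₐ[k] k[H]) where
  toFun t := AlgEquiv.ofAlgHom (S.β t) (S.β (t⁻¹ : kˣ)) (by rw [← β_mul, Units.mul_inv, β_one])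
    (by rw [← β_mul, Units.inv_mul, β_one])
  map_one' := AlgEquiv.ext fun a => AlgHom.congr_fun S.β_one a
  map_mul' t t' := AlgEquiv.ext fun a => AlgHom.congr_fun (S.β_mul t t') a

theorem α_apply (t : kˣ) (a : k[H]) : S.α t a = S.β t a := rfl

variable {ι ι' : Type} [Fintype ι] [DecidableEq ι] [Fintype ι'] [DecidableEq ι']
  (b : Basis ι k W) (b' : Basis ι' k W') {μ : Type*} [Fintype μ] (bE : Basis μ k k[E])

/-- The degree of a monomial. -/
def dg (m : ι ⊕ ι' → Fin p) : ℕ := ∑ i, (m (Sum.inl i) : ℕ)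

theorem dg_lt (m : ι ⊕ ι' → Fin p) : dg m < Fintype.card ι * (p - 1) + 1 :=
  Nat.lt_succ_of_le ((Finset.sum_le_card_nsmul _ _ (p - 1) fun i _ =>
    Nat.le_sub_one_of_lt (m _).2).trans_eq (by simp))

/-- The homogeneous basis attached to bases of `W`, `W'` and `k[E]`. -/
noncomputable def hb : Basis ((ι ⊕ ι' → Fin p) × μ) k k[H] := D.basis (S.toSp.fr b b').basis bE

theorem hb_apply (x : (ι ⊕ ι' → Fin p) × μ) :
    S.hb b b' bE x = D.ιQ k (mono (Sp.fam b b') fun i => x.1 i) * D.ιE k (bE x.2) := by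
  rw [hb, basis_apply, Fr.basis_apply]

theorem β_hb (t : k) (x : (ι ⊕ ι' → Fin p) × μ) :
    S.β t (S.hb b b' bE x) = t ^ dg x.1 • S.hb b b' bE x := by
  rw [hb_apply, map_mul, β_ιQ, β_ιE, Sp.α_mono, map_smul, smul_mul_assoc]; rfl

open Classical in
/-- The grading of `k[H]`. -/
noncomputable def gr : (D.sa k S.exp).Gr where
  α := S.α
  s := finrank k W * (p - 1)
  c d := (S.hb (finBasis k W) (finBasis k W') (MonoidAlgebra.basis E k)).constr k fun x =>
    if dg x.1 = d then S.hb (finBasis k W) (finBasis k W') (MonoidAlgebra.basis E k) x else 0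
  hc t a := by
    have h : (S.β t).toLinearMap = ∑ d ∈ Finset.range (finrank k W * (p - 1) + 1), (t : k) ^ d •
        (S.hb (finBasis k W) (finBasis k W') (MonoidAlgebra.basis E k)).constr k fun x =>
        if dg x.1 = d then S.hb (finBasis k W) (finBasis k W') (MonoidAlgebra.basis E k) x else 0 :=
      (S.hb (finBasis k W) (finBasis k W') (MonoidAlgebra.basis E k)).ext fun x => by
        have h1 := dg_lt x.1
        rw [Fintype.card_fin] at h1
        simp only [AlgHom.toLinearMap_apply, β_hb, LinearMap.sum_apply, LinearMap.smul_apply,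
          Basis.constr_basis, smul_ite, smul_zero, Finset.sum_ite_eq, Finset.mem_range.2 h1, if_true]
    have h2 := LinearMap.congr_fun h a
    simp only [LinearMap.sum_apply, LinearMap.smul_apply] at h2
    exact h2
  hι t y := S.β_ιE t y
  hσ t := by
    change S.β t (D.ιQ k (sgQ k Q)) = _ • D.ιQ k (sgQ k Q)
    rw [β_ιQ, Sp.α_sg, map_smul]

theorem gr_s : S.gr.s = finrank k W * (p - 1) := rfl

theorem gr_α (t : kˣ) (a : k[H]) : S.gr.α t a = S.β t a := rfl

theorem gr_c_hb [Infinite k] {d : ℕ} (hd : d < S.gr.s + 1) (x : (ι ⊕ ι' → Fin p) × μ) :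
    S.gr.c d (S.hb b b' bE x) = if d = dg x.1 then S.hb b b' bE x else 0 :=
  S.gr.c_of_homog (by rw [gr_s, finrank_eq_card_basis b]; exact dg_lt x.1) hd
    fun t => S.β_hb b b' bE t x

end ISp

open scoped IsMulCommutative in
/-- The semidirect decomposition given by a normal abelian subgroup and a complement. -/
noncomputable def ofCompl {H : Type u} [Group H] (P E : Subgroup H) [P.Normal] [IsMulCommutative P]
    (h : Subgroup.IsComplement' P E) : SDP H P E where
  j := P.subtype
  s := E.subtype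
  φ := MulAut.conjNormal.comp E.subtype
  conj e u := by simp
  bij := h

end SDP

end GB
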