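import Cfsg.Agent.Lib.Block.IBr
import Cfsg.Agent.Lib.Block.Fong
import Cfsg.Agent.Lib.Block.GBA0

/-!
# Brauer characters of modules for `p'`-groups through ranks of idempotents
-/

set_option autoImplicit false
set_option linter.unusedSectionVars false

namespace GB

open Module Cfsg CT BT
open scoped MonoidAlgebra ComplexConjugate

universe u

section Lin

variable {k : Type*} [Field k] {V : Type*} [AddCommGroup V] [Module k V] [FiniteDimensional k V]

theorem finrank_range_mul_le {f g : Module.End k V} (h : f * g * (f * g) = f * g) :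
    finrank k (LinearMap.range (f * g)) ≤ finrank k (LinearMap.range (g * f)) := by
  refine le_trans (Submodule.finrank_mono ?_) (Submodule.finrank_map_le f _)
  rintro _ ⟨x, rfl⟩
  exact ⟨_, ⟨g x, rfl⟩, LinearMap.congr_fun h x⟩

theorem finrank_range_add {e f : Module.End k V} (he : e * e = e) (hf : f * f = f) (h : e * f = 0)
    (h' : f * e = 0) : finrank k (LinearMap.range (e + f)) =
      finrank k (LinearMap.range e) + finrank k (LinearMap.range f) := by
  have h1 : LinearMap.range (e + f) = LinearMap.range e ⊔ LinearMap.range f := by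
    refine le_antisymm ?_ (sup_le ?_ ?_)
    · rintro _ ⟨x, rfl⟩
      exact Submodule.add_mem_sup ⟨x, rfl⟩ ⟨x, rfl⟩
    · rintro _ ⟨x, rfl⟩
      exact ⟨e x, by rw [← Module.End.mul_apply, add_mul, he, h', add_zero]⟩
    · rintro _ ⟨x, rfl⟩
      exact ⟨f x, by rw [← Module.End.mul_apply, add_mul, hf, h, zero_add]⟩
  have h2 : LinearMap.range e ⊓ LinearMap.range f = ⊥ := by
    refine (Submodule.eq_bot_iff _).2 ?_
    rintro _ ⟨⟨x, rfl⟩, y, hy⟩
    rw [← he, Module.End.mul_apply, ← hy, ← Module.End.mul_apply, h, LinearMap.zero_apply]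
  have h3 := Submodule.finrank_sup_add_finrank_inf_eq (LinearMap.range e) (LinearMap.range f)
  rw [h2, finrank_bot, add_zero] at h3
  rw [h1, h3]

theorem finrank_range_sum {T : Type*} (s : Finset T) (f : T → Module.End k V)
    (hf : ∀ t, f t * f t = f t) (ho : ∀ t t', t ≠ t' → f t * f t' = 0) :
    finrank k (LinearMap.range (∑ t ∈ s, f t)) = ∑ t ∈ s, finrank k (LinearMap.range (f t)) := by
  classical
  induction s using Finset.induction_on with
  | empty => exact (congrArg (fun W : Submodule k V => finrank k W) LinearMap.range_zero).trans (finrank_bot k V)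
  | insert a s ha ih =>
    rw [Finset.sum_insert ha, Finset.sum_insert ha, finrank_range_add (hf a) ?_ ?_ ?_, ih]
    · rw [Finset.sum_mul_sum]
      exact Finset.sum_congr rfl fun t ht => by
        rw [Finset.sum_eq_single_of_mem t ht fun t' _ h => ho _ _ h.symm, hf]
    · rw [Finset.mul_sum]
      exact Finset.sum_eq_zero fun t ht => ho _ _ fun e => ha (e ▸ ht)
    · rw [Finset.sum_mul]
      exact Finset.sum_eq_zero fun t ht => ho _ _ fun e => ha (e ▸ ht)

theorem finrank_range_of_basis {ι : Type*} [DecidableEq ι] (b : Basis ι k V) (T : Finset ι)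
    {f : Module.End k V} (h : ∀ j, f (b j) = if j ∈ T then b j else 0) :
    finrank k (LinearMap.range f) = T.card := by
  have h1 : LinearMap.range f = Submodule.span k (Set.range fun j : T => b j) := by
    rw [LinearMap.range_eq_map, ← b.span_eq, Submodule.map_span]
    refine le_antisymm (Submodule.span_le.2 ?_) (Submodule.span_mono ?_)
    · rintro _ ⟨_, ⟨j, rfl⟩, rfl⟩
      rw [h]
      split_ifs with hj
      exacts [Submodule.subset_span ⟨⟨j, hj⟩, rfl⟩, zero_mem _]
    · rintro _ ⟨j, rfl⟩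
      exact ⟨_, ⟨j, rfl⟩, by rw [h, if_pos j.2]⟩
  rw [h1]
  exact (finrank_span_eq_card (b := fun j : T => b j)
    (b.linearIndependent.comp _ Subtype.val_injective)).trans (Fintype.card_coe T)

theorem exists_eigenbasis [IsAlgClosed k] (f : Module.End k V) {m : ℕ} (hm : (m : k) ≠ 0)
    (hf : f ^ (m + 1) = f) : ∃ (b : Basis (Fin (finrank k V)) k V) (ε : Fin (finrank k V) → k),
      (∀ i, ε i = 0 ∨ ε i ^ m = 1) ∧ ∀ i, f (b i) = ε i • b i := by
  classical
  have hm0 : m ≠ 0 := by rintro rfl; simp at hm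
  have hss : Module.End.IsSemisimple f := by
    apply Module.End.isSemisimple_of_squarefree_aeval_eq_zero
      (p := (Polynomial.X * (Polynomial.X ^ m - 1) : Polynomial k))
    · refine (Polynomial.separable_X.mul (Polynomial.X_pow_sub_one_separable_iff.2 hm)
        ⟨Polynomial.X ^ (m - 1), -1, ?_⟩).squarefree
      rw [← pow_succ, Nat.sub_add_cancel (Nat.pos_of_ne_zero hm0)]; ring
    · simp [mul_sub, ← pow_succ', hf]
  let dec := DirectSum.isInternal_submodule_of_iSupIndep_of_iSup_eq_top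
    (Module.End.eigenspaces_iSupIndep f) hss.iSup_eigenspace_eq_top
  let I := (ν : k) × Fin (finrank k (Module.End.eigenspace f ν))
  let v : Basis I k V := dec.collectedBasis fun μ ↦ finBasis k (Module.End.eigenspace f μ)
  have : Fintype I := FiniteDimensional.fintypeBasisIndex v
  have hsv (i : I) : f (v i) = i.1 • v i :=
    Module.End.mem_eigenspace_iff.mp (dec.collectedBasis_mem _ i)
  let e : I ≃ Fin (finrank k V) := Fintype.equivFinOfCardEq (finrank_eq_card_basis v).symm
  refine ⟨v.reindex e, fun i => (e.symm i).1, fun i => ?_, fun i => ?_⟩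
  · have h1 : ∀ n : ℕ, (f ^ n) (v (e.symm i)) = (e.symm i).1 ^ n • v (e.symm i) := by
      intro n
      induction n with
      | zero => simp
      | succ n ih => rw [pow_succ', Module.End.mul_apply, ih, map_smul, hsv, smul_smul, pow_succ]
    have h2 := h1 (m + 1)
    rw [hf, hsv, ← sub_eq_zero, ← sub_smul, smul_eq_zero, or_iff_left (v.ne_zero _), pow_succ',
      ← mul_one_sub, mul_eq_zero, sub_eq_zero] at h2
    exact h2.imp_right Eq.symm
  · simp only [Basis.reindex_apply]
    exact hsv _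

theorem finrank_range_pi {N : ℕ} {n : Fin N → ℕ} [∀ i, NeZero (n i)]
    (σ : (Π i, Matrix (Fin (n i)) (Fin (n i)) k) →ₗ[k] Module.End k V)
    (hσ : ∀ x y, σ (x * y) = σ x * σ y) {X : Π i, Matrix (Fin (n i)) (Fin (n i)) k}
    (hX : X * X = X) : finrank k (LinearMap.range (σ X)) =
      ∑ i, (X i).rank * finrank k (LinearMap.range (σ (Pi.single i (Matrix.single 0 0 1)))) := by
  classical
  choose x y h2 h3 using fun i => exists_vecMulVec_of_idem (congrFun hX i)
  let F : (Σ i, Fin (X i).rank) → Π i, Matrix (Fin (n i)) (Fin (n i)) k := fun t =>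
    Pi.single t.1 (Matrix.vecMulVec (x t.1 t.2) (y t.1 t.2))
  have hF : ∀ t, F t * F t = F t := fun t => by
    simp only [F]
    rw [← Pi.single_mul, Matrix.vecMulVec_mul_vecMulVec, h3, if_pos rfl, one_smul]
  have h4 : X = ∑ t, F t := by
    rw [Fintype.sum_sigma]
    funext l
    rw [Finset.sum_apply, Finset.sum_eq_single l]
    · simp only [F, Finset.sum_apply, Pi.single_eq_same]
      exact h2 l
    · intro i _ hi
      simp only [F, Finset.sum_apply, Pi.single_eq_of_ne hi.symm, Finset.sum_const_zero]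
    · simp
  conv_lhs => rw [h4, map_sum]
  rw [finrank_range_sum _ _ (fun t => by rw [← hσ, hF]) ?_, Fintype.sum_sigma]
  · refine Finset.sum_congr rfl fun i _ => ?_
    rw [Finset.sum_congr rfl (g := fun _ => finrank k (LinearMap.range
      (σ (Pi.single i (Matrix.single 0 0 1))))) fun j _ => ?_, Finset.sum_const, Finset.card_univ,
      Fintype.card_fin, smul_eq_mul]
    have e1 : F ⟨i, j⟩ = Pi.single i (Matrix.vecMulVec (x i j) (Pi.single 0 1)) *
        Pi.single i (Matrix.vecMulVec (Pi.single 0 1) (y i j)) := by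
      rw [← Pi.single_mul, Matrix.vecMulVec_mul_vecMulVec]
      simp [F]
    have e2 : (Pi.single i (Matrix.single 0 0 1) : Π i, Matrix (Fin (n i)) (Fin (n i)) k) =
        Pi.single i (Matrix.vecMulVec (Pi.single 0 1) (y i j)) *
          Pi.single i (Matrix.vecMulVec (x i j) (Pi.single 0 1)) := by
      rw [← Pi.single_mul, Matrix.vecMulVec_mul_vecMulVec, h3, if_pos rfl, one_smul,
        Matrix.single_eq_single_vecMulVec_single]
    have e3 := hF ⟨i, j⟩
    have e4 : (Pi.single i (Matrix.single 0 0 1) : Π i, Matrix (Fin (n i)) (Fin (n i)) k) *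
        Pi.single i (Matrix.single 0 0 1) = Pi.single i (Matrix.single 0 0 1) := by
      rw [← Pi.single_mul, Matrix.single_mul_single_same, mul_one]
    rw [e1] at e3 ⊢
    rw [e2] at e4 ⊢
    rw [hσ, hσ]
    exact le_antisymm (finrank_range_mul_le (by simp only [← hσ]; rw [e3]))
      (finrank_range_mul_le (by simp only [← hσ]; rw [e4]))
  · rintro ⟨i, j⟩ ⟨i', j'⟩ hne
    rw [← hσ, ← map_zero σ]
    congr 1
    by_cases hi : i = i'
    · subst hi
      have : j ≠ j' := fun h => hne (h ▸ rfl)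
      simp only [F]
      rw [← Pi.single_mul, Matrix.vecMulVec_mul_vecMulVec, h3, if_neg this, zero_smul,
        Matrix.vecMulVec_zero, Pi.single_zero]
    · funext l
      simp only [F, Pi.mul_apply, Pi.zero_apply]
      by_cases hl : l = i
      · subst hl
        rw [Pi.single_eq_of_ne hi, mul_zero]
      · rw [Pi.single_eq_of_ne hl, zero_mul]

end Lin

theorem geom_ite {m : ℕ} {z : ℂ} (hz : z ^ m = 1) :
    ∑ i ∈ Finset.range m, z ^ i = if z = 1 then (m : ℂ) else 0 := by
  split_ifs with h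
  · simp [h]
  · rw [geom_sum_eq h, hz, sub_self, zero_div]

attribute [local irreducible] instFieldResF

variable {p : ℕ} [hp : Fact p.Prime] {M : Ideal AlgInt} {hM : IsPModular p M}

theorem root_mem (hM : IsPModular p M) {m : ℕ} (hm : ¬ p ∣ m) {ζ : ℂ} (h : ζ ^ m = 1) :
    ζ ∈ locRing hM :=
  mem_locRing_of_isIntegral hM (BT.isIntegral_of_pow_eq_one (m := m) (fun e => hm (e ▸ dvd_zero p)) h)

theorem natCast_ne {m : ℕ} (hm : ¬ p ∣ m) : (m : ResF hM) ≠ 0 := by
  rwa [Ne, CharP.cast_eq_zero_iff _ p]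

theorem eq_one_of_red {m : ℕ} (hm : ¬ p ∣ m) {ζ : ℂ} (h : ζ ^ m = 1) (h1 : red hM ζ = 1) : ζ = 1 :=
  eq_one_of_sub_one_mem_locIdeal hM hm h
    ((red_eq_iff hM (root_mem hM hm h) (one_mem _)).1 (h1.trans (red_one hM).symm))

theorem exists_red_root {m : ℕ} (hm : ¬ p ∣ m) {x : ResF hM} (h : x ^ m = 1) :
    ∃ ζ : ℂ, ζ ^ m = 1 ∧ red hM ζ = x := by
  have h0 : m ≠ 0 := fun e => hm (e ▸ dvd_zero p)
  have : NeZero m := ⟨h0⟩
  have h1 := Complex.isPrimitiveRoot_exp m h0
  set ξ := Complex.exp (2 * Real.pi * Complex.I / m)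
  have h2 := root_mem hM hm h1.pow_eq_one
  have h3 : ∀ l : ℕ, (ξ ^ l) ^ m = 1 := fun l => by rw [pow_right_comm, h1.pow_eq_one, one_pow]
  have h4 : IsPrimitiveRoot (red hM ξ) m :=
    ⟨by rw [← red_pow hM h2, h1.pow_eq_one, red_one], fun l hl =>
      h1.dvd_of_pow_eq_one l (eq_one_of_red hm (h3 l) (by rwa [red_pow hM h2]))⟩
  obtain ⟨i, -, hi⟩ := h4.eq_pow_of_pow_eq_one h
  exact ⟨ξ ^ i, h3 i, by rw [red_pow hM h2, hi]⟩

variable {E : Type u} [Group E] [Finite E] (W : Wed hM E) (hE : ¬ p ∣ Nat.card E)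

include hE in
theorem wed_bij : Function.Bijective W.ρ := by
  refine ⟨(injective_iff_map_eq_zero _).2 fun a ha => ?_, W.surj⟩
  have : NeZero (Nat.card E : ResF hM) := ⟨natCast_ne hE⟩
  obtain ⟨e, he, h⟩ := IsSemisimpleRing.ideal_eq_span_idempotent (RingHom.ker W.ρ)
  have h1 : e = 0 := he.eq_zero_of_isNilpotent
    (W.nil e (RingHom.mem_ker.1 (h ▸ Ideal.subset_span rfl)))
  have h2 : a ∈ RingHom.ker W.ρ := ha
  simpa [h, h1] using h2

/-- The primitive idempotents of `k[E]`. -/
noncomputable def wε (i : Fin W.N) : (ResF hM)[E] := redA hM (W.e i)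

theorem ρ_wε (i : Fin W.N) : W.ρ (wε W i) = Pi.single i (Matrix.single 0 0 1) := W.ρ_e i

theorem wε_idem (i : Fin W.N) : wε W i * wε W i = wε W i := by
  rw [wε, ← redA_mul hM (W.e_int i) (W.e_int i), W.e_idem]

/-- The family of primitive idempotents. -/
noncomputable def wid : ID (ResF hM) (ResF hM)[E] (Fin W.N) where
  ε := wε W
  idem := wε_idem W
  nz a h := by
    have h1 := congrFun₂ (congrFun (ρ_wε W a) a) 0 0
    simp [h] at h1
  ne a b h y := (wed_bij W hE).1 (by
    rw [map_mul, map_mul, ρ_wε, ρ_wε, map_zero]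
    funext l
    by_cases hl : l = a
    · subst hl
      simp [Pi.single_eq_of_ne h]
    · simp [Pi.single_eq_of_ne hl])
  loc a y := ⟨W.ρ y a 0 0, (wed_bij W hE).1 (by
    rw [map_mul, map_mul, map_smul, ρ_wε]
    funext l
    by_cases hl : l = a
    · subst hl
      simp [Matrix.single_mul_mul_single, Matrix.smul_single]
    · simp [Pi.single_eq_of_ne hl])⟩
  gen a x h0 hx := by
    have h1 : W.ρ x = W.ρ x * Pi.single a (Matrix.single 0 0 1) := by rw [← ρ_wε, ← map_mul, hx]
    obtain ⟨r, hr⟩ : ∃ r, W.ρ x a r 0 ≠ 0 := by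
      by_contra h
      push Not at h
      refine h0 ((wed_bij W hE).1 ?_)
      rw [h1, map_zero]
      funext l
      by_cases hl : l = a
      · subst hl
        ext i j
        by_cases hj : j = 0 <;> simp [hj, h]
      · simp [Pi.single_eq_of_ne hl]
    obtain ⟨y, hy⟩ := W.surj (Pi.single a (Matrix.single 0 r (W.ρ x a r 0)⁻¹))
    refine ⟨y, (wed_bij W hE).1 ?_⟩
    rw [map_mul, hy, h1, ρ_wε]
    funext l
    by_cases hl : l = a
    · subst hl
      simp [← mul_assoc, Matrix.single_mul_mul_single, hr]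
    · simp [Pi.single_eq_of_ne hl]
  all V _ _ ρ h v := by
    have h1 : (1 : W.Tgt) = ∑ a : Fin W.N, ∑ r : Fin (W.n a), Pi.single a (Matrix.single r 0 1) *
        Pi.single a (Matrix.single 0 0 1) * Pi.single a (Matrix.single 0 r 1) := by
      funext l
      simp only [← Pi.single_mul, Matrix.single_mul_single_same, mul_one, Finset.sum_apply]
      rw [Finset.sum_eq_single l (fun i _ hi => by simp [Pi.single_eq_of_ne hi.symm]) (by simp)]
      simp [Matrix.sum_single_one]
    choose s hs using W.surj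
    have h2 : (1 : (ResF hM)[E]) = ∑ a : Fin W.N, ∑ r : Fin (W.n a), s (Pi.single a (Matrix.single r 0 1)) * wε W a *
        s (Pi.single a (Matrix.single 0 r 1)) := (wed_bij W hE).1 (by
      simp only [map_one, map_sum, map_mul, hs, ρ_wε]
      exact h1)
    have h3 := LinearMap.congr_fun (congrArg ρ h2) v
    simpa [h] using h3

theorem wid_ε (i : Fin W.N) : (wid W hE).ε i = wε W i := rfl

include hE in
theorem Φ_eq_φ (i : Fin W.N) : ∃ χ : IrrCharacter E, W.Φ i = χ.1 ∧ W.φ i = χ.1 := by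
  classical
  obtain ⟨χ, hχ⟩ := W.exists_d_ne_zero i
  have h1 : W.blk i = {χ} := block_eq_of_mem hM (W.isPBlock_blk i)
    (isPBlock_singleton_of_not_dvd hM hE χ) (W.mem_blk_of_d_ne_zero hχ) rfl
  have h2 : bset (W.blk i) = {χ} := by ext; simp [h1]
  have h3 : ∑ χ ∈ bset (W.blk i), W.a i χ * W.d χ i = if i = i then 1 else 0 :=
    (W.exists_a i).choose_spec i
  rw [h2, Finset.sum_singleton, if_pos rfl] at h3
  have h4 : (W.d χ i : ℤ) = 1 := Int.eq_one_of_mul_eq_one_left (by positivity) h3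
  refine ⟨χ, ?_, ?_⟩
  · rw [W.Φ_eq_sum, Finset.sum_eq_single χ (fun ψ _ h => by
      rw [W.d_eq_zero_of_not_mem (by simp [h1, h])]; simp) (by simp)]
    rw [show W.d χ i = 1 by exact_mod_cast h4]; simp
  · rw [W.φ_eq_sum, h2, Finset.sum_singleton, show W.a i χ = 1 by simpa [h4] using h3]
    funext g
    simp [pRegularPart_of_not_dvd χ.1 fun h => hE (h.trans (orderOf_dvd_natCard g))]

variable {V : Type*} [AddCommGroup V] [Module (ResF hM) V] [FiniteDimensional (ResF hM) V]
  (σ : (ResF hM)[E] →ₗ[ResF hM] Module.End (ResF hM) V)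

/-- The Brauer character of a (non-unital) representation. -/
noncomputable def bch : E → ℂ :=
  ∑ i, (finrank (ResF hM) (LinearMap.range (σ (wε W i))) : ℂ) • W.φ i

theorem isClassFunction_bch : IsClassFunction E (bch W σ) := fun g h => by
  simp only [bch, Finset.sum_apply, Pi.smul_apply, W.isClassFunction_φ _ g h]

theorem ip_bch (i : Fin W.N) :
    ip (bch W σ) (W.Φ i) = finrank (ResF hM) (LinearMap.range (σ (wε W i))) := by
  simp [bch, ip_sum_left, ip_smul_left, W.ip_φ_Φ]

variable {σ} (hσ : ∀ x y, σ (x * y) = σ x * σ y)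
include hE hσ

theorem ev_bch {e : ℂ[E]} (he : IsInt hM e) (hee : e * e = e) :
    ev (bch W σ) e = finrank (ResF hM) (LinearMap.range (σ (redA hM e))) := by
  let ψ := AlgEquiv.ofBijective W.ρ (wed_bij W hE)
  have h1 : ∀ a, ψ.symm (W.ρ a) = a := ψ.symm_apply_apply
  have h := finrank_range_pi (σ ∘ₗ ψ.symm.toLinearMap) (fun x y => by simp [hσ]) (X := W.r e)
    (by rw [← W.r_mul he he, hee])
  have h2 : ∀ a, (σ ∘ₗ ψ.symm.toLinearMap) (W.ρ a) = σ a := fun a => congrArg σ (h1 a)
  rw [W.r_def, h2] at h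
  rw [h, bch, ev_sum_fun, Nat.cast_sum]
  refine Finset.sum_congr rfl fun i _ => ?_
  rw [← ρ_wε, h2, ev_smul_fun, W.ev_φ_idem he hee, Nat.cast_mul, mul_comm, W.r_def]

theorem bch_apply {ι : Type*} [Fintype ι] [DecidableEq ι] (b : Basis ι (ResF hM) V) (S : Finset ι)
    (ζ : ι → ℂ) (hζ : ∀ j ∈ S, ζ j ^ Nat.card E = 1) (g : E)
    (h : ∀ (i : ℕ) j, σ (MonoidAlgebra.single (g ^ i) 1) (b j) =
      if j ∈ S then red hM (ζ j) ^ i • b j else 0) : bch W σ g = ∑ j ∈ S, ζ j := by
  classical
  set m := Nat.card E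
  have h0 : m ≠ 0 := Nat.card_pos.ne'
  have h0' : (m : ℂ) ≠ 0 := Nat.cast_ne_zero.2 h0
  have : NeZero m := ⟨h0⟩
  have hξ := Complex.isPrimitiveRoot_exp m h0
  set ξ := Complex.exp (2 * Real.pi * Complex.I / m)
  have hξ0 : ξ ≠ 0 := hξ.ne_zero h0
  have h3 : ∀ l : ℕ, (ξ ^ l)⁻¹ ^ m = 1 := fun l => by
    rw [inv_pow, pow_right_comm, hξ.pow_eq_one, one_pow, inv_one]
  let e : ℕ → ℂ[E] := fun a => (m : ℂ)⁻¹ • ∑ i ∈ Finset.range m,
    (ξ ^ a)⁻¹ ^ i • MonoidAlgebra.single (g ^ i) (1 : ℂ)
  have e1 : ∀ a, MonoidAlgebra.single g (1 : ℂ) * e a = ξ ^ a • e a := fun a => by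
    simp only [e, mul_smul_comm, Finset.mul_sum, MonoidAlgebra.single_mul_single, mul_one]
    rw [smul_comm (ξ ^ a), Finset.smul_sum (r := ξ ^ a)]
    congr 1
    have h4 := Finset.sum_range_succ' (fun i => ξ ^ a • (ξ ^ a)⁻¹ ^ i •
      MonoidAlgebra.single (g ^ i) (1 : ℂ)) m
    rw [Finset.sum_range_succ, h3, pow_card_eq_one', pow_zero, pow_zero, add_left_inj] at h4
    rw [h4]
    refine Finset.sum_congr rfl fun i _ => ?_
    rw [smul_smul, pow_succ', pow_succ', mul_inv_cancel_left₀ (pow_ne_zero _ hξ0)]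
  have e2 : ∀ a i, MonoidAlgebra.single (g ^ i) (1 : ℂ) * e a = (ξ ^ a) ^ i • e a := fun a i => by
    induction i with
    | zero => simp [← MonoidAlgebra.one_def]
    | succ i ih => rw [pow_succ, ← mul_one (1 : ℂ), ← MonoidAlgebra.single_mul_single, mul_assoc, e1,
        mul_smul_comm, ih, smul_smul, pow_succ']
  have e3 : ∀ a, e a * e a = e a := fun a => by
    conv_lhs => enter [1]; simp only [e]
    rw [smul_mul_assoc, Finset.sum_mul]
    simp only [smul_mul_assoc, e2, smul_smul, ← mul_pow, inv_mul_cancel₀ (pow_ne_zero _ hξ0), one_pow,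
      one_smul, Finset.sum_const, Finset.card_range, ← Nat.cast_smul_eq_nsmul ℂ,
      inv_mul_cancel₀ h0']
  have e4 : ∑ a ∈ Finset.range m, e a = 1 := by
    simp only [e]
    rw [← Finset.smul_sum, Finset.sum_comm]
    simp only [← Finset.sum_smul]
    rw [Finset.sum_eq_single 0 (fun i hi h => ?_) (by simp [h0])]
    · simp [smul_smul, h0', ← MonoidAlgebra.one_def]
    · simp only [← inv_pow, pow_right_comm _ _ i]
      rw [geom_ite (by simpa only [inv_pow] using h3 i), if_neg, zero_smul]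
      rw [inv_pow, inv_eq_one]
      exact hξ.pow_ne_one_of_pos_of_lt h (Finset.mem_range.1 hi)
  have hm : (m : ℂ)⁻¹ ∈ locRing hM := inv_natCast_mem_locRing hM hE
  have i1 : ∀ a i, IsInt hM ((ξ ^ a)⁻¹ ^ i • MonoidAlgebra.single (g ^ i) (1 : ℂ)) := fun a i =>
    IsInt.smul hM (pow_mem (root_mem hM hE (h3 a)) i) (isInt_single hM _ (one_mem _))
  have e5 : ∀ a, IsInt hM (e a) := fun a => IsInt.smul hM hm ((intAlg hM E).sum_mem fun i _ => i1 a i)
  have e6 : ∀ a, finrank (ResF hM) (LinearMap.range (σ (redA hM (e a)))) =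
      (S.filter fun j => ζ j = ξ ^ a).card := fun a => finrank_range_of_basis b _ fun j => by
    simp only [e]
    rw [redA_smul hM hm ((intAlg hM E).sum_mem fun i _ => i1 a i), redA_sum hM _ _ fun i _ => i1 a i]
    simp only [redA_smul hM (pow_mem (root_mem hM hE (h3 a)) _) (isInt_single hM _ (one_mem _)),
      redA_single, red_one, map_smul, map_sum, LinearMap.smul_apply, LinearMap.sum_apply, h,
      Finset.mem_filter]
    by_cases hj : j ∈ S
    · have h5 : ((ξ ^ a)⁻¹ * ζ j) ^ m = 1 := by rw [mul_pow, h3, hζ j hj, one_mul]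
      have h6 : ∀ i, red hM ((ξ ^ a)⁻¹ ^ i) * red hM (ζ j) ^ i = red hM (((ξ ^ a)⁻¹ * ζ j) ^ i) :=
        fun i => by
          rw [mul_pow, red_mul hM (pow_mem (root_mem hM hE (h3 a)) i)
            (pow_mem (root_mem hM hE (hζ j hj)) i), red_pow hM (root_mem hM hE (hζ j hj))]
      simp only [hj, if_true, true_and, smul_smul, ← Finset.sum_smul, h6]
      rw [← red_sum hM _ _ fun i _ => pow_mem (root_mem hM hE h5) i, geom_ite h5]
      by_cases h7 : ζ j = ξ ^ a
      · rw [if_pos (by rw [h7, inv_mul_cancel₀ (pow_ne_zero _ hξ0)]), if_pos h7,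
          ← red_mul hM hm (natCast_mem _ _), inv_mul_cancel₀ h0', red_one, one_smul]
      · rw [if_neg (fun e => h7 ((inv_mul_eq_one₀ (pow_ne_zero _ hξ0)).1 e).symm), if_neg h7,
          red_zero, mul_zero, zero_smul]
    · simp [hj]
  have e7 : MonoidAlgebra.single g (1 : ℂ) = ∑ a ∈ Finset.range m, ξ ^ a • e a := by
    rw [← mul_one (MonoidAlgebra.single g (1 : ℂ)), ← e4, Finset.mul_sum]
    simp only [e1]
  have e8 := congrArg (ev (bch W σ)) e7
  simp only [ev_single, one_mul, map_sum, map_smul, ev_bch W hE hσ (e5 _) (e3 _), e6,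
    smul_eq_mul] at e8
  rw [e8]
  simp only [Finset.card_filter, Nat.cast_sum, Finset.mul_sum]
  rw [Finset.sum_comm]
  refine Finset.sum_congr rfl fun j hj => ?_
  obtain ⟨a, ha, h7⟩ := hξ.eq_pow_of_pow_eq_one (hζ j hj)
  rw [Finset.sum_eq_single a (fun c hc h => ?_) (by simp [ha])]
  · simp [h7]
  · rw [if_neg fun e => h (hξ.pow_inj (Finset.mem_range.1 hc) ha (e.symm.trans h7.symm))]; simp

end GB
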