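import Mathlib.Algebra.Polynomial.Laurent
import Mathlib.LinearAlgebra.Trace
import Mathlib.LinearAlgebra.Dual.Lemmas
import Mathlib.LinearAlgebra.Eigenspace.Triangularizable
import Mathlib.LinearAlgebra.Eigenspace.Zero
import Mathlib.LinearAlgebra.Matrix.NonsingularInverse
import Mathlib.RingTheory.RootsOfUnity.AlgebraicallyClosed

/-!
# Graded linear algebra: gradings as families of projections, graded dimensions
-/

set_option autoImplicit false
set_option linter.unusedSectionVars false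

namespace GBG

open Module LaurentPolynomial

/-- A `ℤ`-grading of a vector space with finitely many nonzero components. -/
structure Gr (k V : Type*) [Field k] [AddCommGroup V] [Module k V] where
  /-- the projections onto the components -/
  p : ℤ → V →ₗ[k] V
  /-- a finite set containing the degrees that occur -/
  s : Finset ℤ
  zero : ∀ d ∉ s, ∀ x, p d x = 0
  same : ∀ d x, p d (p d x) = p d x
  ne : ∀ d e, d ≠ e → ∀ x, p d (p e x) = 0
  sum : ∀ x, ∑ d ∈ s, p d x = x

variable {k : Type*} [Field k] {U V W : Type*} [AddCommGroup U] [Module k U] [AddCommGroup V]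
  [Module k V] [AddCommGroup W] [Module k W]

namespace Gr

theorem sum_of_subset (g : Gr k V) {S : Finset ℤ} (h : g.s ⊆ S) (x : V) :
    ∑ d ∈ S, g.p d x = x := by
  rw [← Finset.sum_subset h fun d _ hd => g.zero d hd x, g.sum]

theorem sum_shift (g : Gr k V) (n : ℤ) {S : Finset ℤ} (h : ∀ d ∈ g.s, d - n ∈ S) (x : V) :
    ∑ d ∈ S, g.p (d + n) x = x := by
  have h1 : ∑ d ∈ S.image (· + n), g.p d x = ∑ d ∈ S, g.p (d + n) x :=
    Finset.sum_image fun a _ b _ hab => by simpa using hab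
  rw [← h1]
  exact g.sum_of_subset (fun d hd => Finset.mem_image.2 ⟨d - n, h d hd, by ring⟩) x

theorem pp (g : Gr k V) (d e : ℤ) (x : V) : g.p d (g.p e x) = if d = e then g.p d x else 0 := by
  split_ifs with h
  · rw [← h, g.same]
  · exact g.ne d e h x

theorem p_of_eq (g : Gr k V) {d e : ℤ} {x : V} (hx : g.p e x = x) :
    g.p d x = if d = e then x else 0 := by
  conv_lhs => rw [← hx, g.pp]
  split_ifs with h
  · rw [h, hx]
  · rfl

theorem induction (g : Gr k V) {Q : V → Prop} (h0 : Q 0) (ha : ∀ x y, Q x → Q y → Q (x + y))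
    (hp : ∀ d x, Q (g.p d x)) (x : V) : Q x := by
  rw [← g.sum x]
  exact Finset.sum_induction _ Q ha h0 fun d _ => hp d x

theorem exists_ne_zero (g : Gr k V) {x : V} (hx : x ≠ 0) : ∃ d, g.p d x ≠ 0 := by
  by_contra h
  push Not at h
  exact hx (by rw [← g.sum x]; exact Finset.sum_eq_zero fun d _ => h d)

/-- The component of degree `d`. -/
def cp (g : Gr k V) (d : ℤ) : Submodule k V := LinearMap.eqLocus (g.p d) LinearMap.id

@[simp] theorem mem_cp (g : Gr k V) {d : ℤ} {x : V} : x ∈ g.cp d ↔ g.p d x = x := Iff.rfl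

/-- A homogeneous subspace. -/
def Hm (g : Gr k V) (X : Submodule k V) : Prop := ∀ d, ∀ x ∈ X, g.p d x ∈ X

theorem hm_top (g : Gr k V) : g.Hm ⊤ := fun _ _ _ => trivial

theorem Hm.inf {g : Gr k V} {X Y : Submodule k V} (hX : g.Hm X) (hY : g.Hm Y) : g.Hm (X ⊓ Y) :=
  fun d x hx => ⟨hX d x hx.1, hY d x hx.2⟩

theorem Hm.exists_not_mem {g : Gr k V} {X : Submodule k V} {x : V} (hx : x ∉ X) :
    ∃ d, g.p d x ∉ X := by
  by_contra h
  push Not at h
  exact hx (by rw [← g.sum x]; exact X.sum_mem fun d _ => h d)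

/-- The graded dimension of a subspace. -/
noncomputable def gd (g : Gr k V) (X : Submodule k V) : ℤ[T;T⁻¹] :=
  ∑ d ∈ g.s, C (finrank k ↥(X ⊓ g.cp d) : ℤ) * T d

theorem coeff_C_mul_T (a d e : ℤ) : (C a * T d : ℤ[T;T⁻¹]).coeff e = if d = e then a else 0 := by
  rw [← single_eq_C_mul_T, AddMonoidAlgebra.coeff_single, Finsupp.single_apply]

theorem coeff_T_mul (f : ℤ[T;T⁻¹]) (n d : ℤ) : (T n * f).coeff d = f.coeff (d - n) := by
  have := AddMonoidAlgebra.coeff_single_mul_add f (1 : ℤ) n (d - n)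
  rw [add_sub_cancel, one_mul] at this
  exact this

theorem coeff_gd (g : Gr k V) (X : Submodule k V) (d : ℤ) :
    (g.gd X).coeff d = finrank k ↥(X ⊓ g.cp d) := by
  rw [gd, AddMonoidAlgebra.coeff_sum, Finsupp.finsetSum_apply]
  simp only [coeff_C_mul_T, Finset.sum_ite_eq']
  split_ifs with h
  · rfl
  · have : X ⊓ g.cp d = ⊥ := by
      rw [eq_bot_iff]
      intro x hx
      rw [Submodule.mem_bot, ← g.mem_cp.1 hx.2, g.zero d h]
    rw [this, finrank_bot, Nat.cast_zero]

theorem gd_bot (g : Gr k V) : g.gd ⊥ = 0 := by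
  ext d
  rw [coeff_gd, bot_inf_eq, finrank_bot]
  simp

end Gr

/-- `f` is homogeneous of degree `n`. -/
def IsDeg (g : Gr k V) (g' : Gr k W) (n : ℤ) (f : V →ₗ[k] W) : Prop :=
  ∀ d x, f (g.p d x) = g'.p (d + n) (f x)

theorem isDeg_of (g : Gr k V) (g' : Gr k W) (n : ℤ) (f : V →ₗ[k] W) {S : Set V}
    (hS : Submodule.span k S = ⊤) (h : ∀ x ∈ S, ∃ d, g.p d x = x ∧ g'.p (d + n) (f x) = f x) :
    IsDeg g g' n f := by
  intro d x
  have : f ∘ₗ g.p d = g'.p (d + n) ∘ₗ f := by
    refine LinearMap.ext_on hS fun x hx => ?_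
    obtain ⟨e, h1, h2⟩ := h x hx
    rw [LinearMap.comp_apply, LinearMap.comp_apply, g.p_of_eq h1, g'.p_of_eq h2]
    simp only [add_left_inj]
    split_ifs <;> simp
  exact LinearMap.congr_fun this x

theorem isDeg_of' (g : Gr k V) (g' : Gr k W) (n : ℤ) (f : V →ₗ[k] W)
    (h : ∀ d x, g.p d x = x → g'.p (d + n) (f x) = f x) : IsDeg g g' n f := by
  refine isDeg_of g g' n f (S := {x | ∃ d, g.p d x = x}) ?_ fun x ⟨d, hd⟩ => ⟨d, hd, h d x hd⟩
  rw [eq_top_iff]
  intro x _
  exact g.induction (Q := fun x => x ∈ Submodule.span k {x | ∃ d, g.p d x = x}) (zero_mem _)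
    (fun _ _ => add_mem) (fun d x => Submodule.subset_span ⟨d, g.same d x⟩) x

theorem IsDeg.comp {g : Gr k U} {g' : Gr k V} {g'' : Gr k W} {m n : ℤ} {f : U →ₗ[k] V}
    {f' : V →ₗ[k] W} (h' : IsDeg g' g'' n f') (h : IsDeg g g' m f) :
    IsDeg g g'' (m + n) (f' ∘ₗ f) := fun d x => by
  rw [LinearMap.comp_apply, h, h', add_assoc, LinearMap.comp_apply]

theorem isDeg_id (g : Gr k V) : IsDeg g g 0 LinearMap.id := fun d x => by simp

theorem IsDeg.ker {g : Gr k V} {g' : Gr k W} {n : ℤ} {f : V →ₗ[k] W} (h : IsDeg g g' n f) :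
    g.Hm (LinearMap.ker f) := fun d x hx => by
  rw [LinearMap.mem_ker] at hx ⊢
  rw [h, hx, map_zero]

theorem IsDeg.map {g : Gr k V} {g' : Gr k W} {n : ℤ} {f : V →ₗ[k] W} (h : IsDeg g g' n f)
    {X : Submodule k V} (hX : g.Hm X) : g'.Hm (X.map f) := by
  rintro d _ ⟨x, hx, rfl⟩
  exact ⟨g.p (d - n) x, hX _ x hx, by rw [h, sub_add_cancel]⟩

theorem IsDeg.range {g : Gr k V} {g' : Gr k W} {n : ℤ} {f : V →ₗ[k] W} (h : IsDeg g g' n f) :
    g'.Hm (LinearMap.range f) := by
  rw [← Submodule.map_top]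
  exact h.map g.hm_top

theorem finrank_eq_add [FiniteDimensional k V] (f : V →ₗ[k] W) (X : Submodule k V) :
    finrank k X = finrank k ↥(X ⊓ LinearMap.ker f) + finrank k (X.map f) := by
  have h1 := LinearMap.finrank_range_add_finrank_ker (f.domRestrict X)
  rw [LinearMap.range_domRestrict, LinearMap.ker_domRestrict] at h1
  have h2 : finrank k ↥((LinearMap.ker f).comap X.subtype) = finrank k ↥(X ⊓ LinearMap.ker f) := by
    rw [← (Submodule.equivMapOfInjective X.subtype X.injective_subtype _).finrank_eq.symm,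
      Submodule.map_comap_subtype]
  omega

/-- Additivity of the graded dimension along a homogeneous map. -/
theorem IsDeg.gd_add [FiniteDimensional k V] {g : Gr k V} {g' : Gr k W} {n : ℤ} {f : V →ₗ[k] W}
    (h : IsDeg g g' n f) {X : Submodule k V} (hX : g.Hm X) :
    g.gd X = g.gd (X ⊓ LinearMap.ker f) + T (-n) * g'.gd (X.map f) := by
  ext d
  rw [AddMonoidAlgebra.coeff_add, Finsupp.add_apply, Gr.coeff_T_mul, Gr.coeff_gd, Gr.coeff_gd,
    Gr.coeff_gd, finrank_eq_add f (X ⊓ g.cp d), sub_neg_eq_add]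
  have h1 : (X ⊓ g.cp d).map f = X.map f ⊓ g'.cp (d + n) := by
    ext y
    constructor
    · rintro ⟨x, hx, rfl⟩
      exact ⟨⟨x, hx.1, rfl⟩, by rw [SetLike.mem_coe, Gr.mem_cp, ← h, g.mem_cp.1 hx.2]⟩
    · rintro ⟨⟨x, hx, rfl⟩, hy⟩
      exact ⟨g.p d x, ⟨hX d x hx, g.same d x⟩, by rw [h]; exact hy⟩
  rw [h1, inf_right_comm]
  push_cast
  rfl

theorem IsDeg.gd_map [FiniteDimensional k V] {g : Gr k V} {g' : Gr k W} {n : ℤ} {f : V →ₗ[k] W}
    (h : IsDeg g g' n f) {X : Submodule k V} (hX : g.Hm X) (hi : ∀ x ∈ X, f x = 0 → x = 0) :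
    g'.gd (X.map f) = T n * g.gd X := by
  have h1 : X ⊓ LinearMap.ker f = ⊥ := by
    rw [eq_bot_iff]
    exact fun x hx => hi x hx.1 hx.2
  rw [h.gd_add hX, h1, Gr.gd_bot, zero_add, ← mul_assoc, ← T_add, add_neg_cancel, T_zero, one_mul]

/-- The graded dimension of a line spanned by a homogeneous vector. -/
theorem Gr.gd_span (g : Gr k V) {n : ℤ} {x : V} (hx : g.p n x = x) (h0 : x ≠ 0) :
    g.gd (Submodule.span k {x}) = T n := by
  ext d
  rw [Gr.coeff_gd, T_apply]
  split_ifs with h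
  · rw [inf_of_le_left (by rw [Submodule.span_singleton_le_iff_mem, ← h]; exact hx),
      finrank_span_singleton h0, Nat.cast_one]
  · have : Submodule.span k {x} ⊓ g.cp d = ⊥ := by
      rw [eq_bot_iff]
      rintro y ⟨h1, h2⟩
      obtain ⟨c, rfl⟩ := Submodule.mem_span_singleton.1 h1
      rw [Submodule.mem_bot, ← g.mem_cp.1 h2, map_smul, g.p_of_eq hx, if_neg (Ne.symm h), smul_zero]
    rw [this, finrank_bot, Nat.cast_zero]

theorem Gr.gd_eq_T [FiniteDimensional k V] (g : Gr k V) {X : Submodule k V} (hX : g.Hm X)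
    (h1 : finrank k X = 1) : ∃ n, g.gd X = T n := by
  have hne : X ≠ ⊥ := by
    rintro rfl
    simp at h1
  obtain ⟨x, hx, hx0⟩ := X.ne_bot_iff.1 hne
  obtain ⟨d, hd⟩ := g.exists_ne_zero hx0
  refine ⟨d, ?_⟩
  rw [← g.gd_span (g.same d x) hd]
  congr 1
  refine (Submodule.eq_of_le_of_finrank_eq ?_ ?_).symm
  · rw [Submodule.span_singleton_le_iff_mem]
    exact hX d x hx
  · rw [finrank_span_singleton hd, h1]

/-- The graded dimension at `T = 1`. -/
theorem Gr.sum_finrank [FiniteDimensional k V] (g : Gr k V) {X : Submodule k V} (hX : g.Hm X) :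
    ∑ d ∈ g.s, finrank k ↥(X ⊓ g.cp d) = finrank k X := by
  let f : X →ₗ[k] (∀ d : g.s, ↥(X ⊓ g.cp d)) :=
    LinearMap.pi fun d => ((g.p d).domRestrict X).codRestrict _ fun x => ⟨hX d x x.2, g.same d x⟩
  have hf : ∀ (x : X) (d : g.s), (f x d : V) = g.p d x := fun _ _ => rfl
  have hb : Function.Bijective f := by
    constructor
    · refine (injective_iff_map_eq_zero f).2 fun x hx => Subtype.ext ?_
      rw [← g.sum x, ← Finset.sum_coe_sort]
      exact Finset.sum_eq_zero fun d _ => by rw [← hf, hx]; rfl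
    · intro y
      refine ⟨⟨∑ d, (y d : V), X.sum_mem fun d _ => (y d).2.1⟩, funext fun d => Subtype.ext ?_⟩
      rw [hf, map_sum, Finset.sum_eq_single d]
      · exact (y d).2.2
      · intro e _ he
        rw [g.p_of_eq (y e).2.2, if_neg fun h => he (Subtype.ext h).symm]
      · simp
  rw [(LinearEquiv.ofBijective f hb).finrank_eq, Module.finrank_pi_fintype, Finset.sum_coe_sort
    g.s fun d => finrank k ↥(X ⊓ g.cp d)]

theorem Gr.eval_gd [FiniteDimensional k V] (g : Gr k V) {X : Submodule k V} (hX : g.Hm X)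
    {R : Type*} [CommRing R] : eval₂ (Int.castRingHom R) 1 (g.gd X) = finrank k X := by
  rw [← g.sum_finrank hX, Gr.gd, map_sum, Nat.cast_sum]
  exact Finset.sum_congr rfl fun d _ => by rw [eval₂_C_mul_T]; simp

/-! ### Constructions -/

/-- The grading of the quotient by a homogeneous subspace. -/
def Gr.quot (g : Gr k V) (X : Submodule k V) (hX : g.Hm X) : Gr k (V ⧸ X) where
  p d := X.mapQ X (g.p d) (hX d)
  s := g.s
  zero d hd x := by
    obtain ⟨x, rfl⟩ := X.mkQ_surjective x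
    rw [Submodule.mkQ_apply, Submodule.mapQ_apply, g.zero d hd, Submodule.Quotient.mk_zero]
  same d x := by
    obtain ⟨x, rfl⟩ := X.mkQ_surjective x
    rw [Submodule.mkQ_apply, Submodule.mapQ_apply, Submodule.mapQ_apply, g.same]
  ne d e h x := by
    obtain ⟨x, rfl⟩ := X.mkQ_surjective x
    rw [Submodule.mkQ_apply, Submodule.mapQ_apply, Submodule.mapQ_apply, g.ne d e h,
      Submodule.Quotient.mk_zero]
  sum x := by
    obtain ⟨x, rfl⟩ := X.mkQ_surjective x
    conv_rhs => rw [← g.sum x, map_sum]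
    rfl

theorem isDeg_mkQ (g : Gr k V) (X : Submodule k V) (hX : g.Hm X) :
    IsDeg g (g.quot X hX) 0 X.mkQ := fun d x => by rw [add_zero]; rfl

/-- A grading from an independent spanning family of subspaces with degrees. -/
theorem exists_gr [FiniteDimensional k V] {ι : Type*} (X : ι → Submodule k V) (hi : iSupIndep X)
    (ht : ⨆ i, X i = ⊤) (deg : ι → ℤ) :
    ∃ g : Gr k V, ∀ i, ∀ x ∈ X i, ∀ d, g.p d x = if d = deg i then x else 0 := by
  classical
  have h := DirectSum.isInternal_submodule_of_iSupIndep_of_iSup_eq_top hi ht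
  let p : ℤ → V →ₗ[k] V := fun d =>
    DirectSum.toModule k ι V (fun i => if d = deg i then (X i).subtype else 0) ∘ₗ
      (LinearEquiv.ofBijective (DirectSum.coeLinearMap X) h).symm.toLinearMap
  have hp : ∀ i, ∀ x ∈ X i, ∀ d, p d x = if d = deg i then x else 0 := fun i x hx d => by
    have h1 : (LinearEquiv.ofBijective (DirectSum.coeLinearMap X) h).symm x =
        DirectSum.lof k ι (fun i => X i) i ⟨x, hx⟩ := by
      rw [LinearEquiv.symm_apply_eq]
      exact (DirectSum.coeLinearMap_of X i ⟨x, hx⟩).symm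
    change DirectSum.toModule k ι V _
      ((LinearEquiv.ofBijective (DirectSum.coeLinearMap X) h).symm x) = _
    rw [h1, DirectSum.toModule_lof]
    split_ifs <;> rfl
  have ext : ∀ {f f' : V →ₗ[k] V}, (∀ i, ∀ x ∈ X i, f x = f' x) → ∀ x, f x = f' x := by
    intro f f' hf x
    have hx : x ∈ ⨆ i, X i := ht ▸ Submodule.mem_top
    induction hx using Submodule.iSup_induction' with
    | mem i x hx => exact hf i x hx
    | zero => simp
    | add x y _ _ h1 h2 => rw [map_add, map_add, h1, h2]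
  have hf := Submodule.finite_ne_bot_of_iSupIndep hi
  have hs : ∀ i, ∀ x ∈ X i, deg i ∉ hf.toFinset.image deg → x = 0 := fun i x hx h0 => by
    by_contra h1
    exact h0 (Finset.mem_image_of_mem deg (hf.mem_toFinset.2
      ((X i).ne_bot_iff.2 ⟨x, hx, h1⟩)))
  refine ⟨⟨p, hf.toFinset.image deg, fun d hd => ext (f' := 0) fun i x hx => ?_,
    fun d => ext (f := p d ∘ₗ p d) fun i x hx => ?_,
    fun d e hde => ext (f := p d ∘ₗ p e) (f' := 0) fun i x hx => ?_,
    fun x => ?_⟩, hp⟩
  · rw [hp i x hx]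
    split_ifs with h1
    · exact hs i x hx (h1 ▸ hd)
    · rfl
  · rw [LinearMap.comp_apply, hp i x hx]
    split_ifs with h1
    · rw [hp i x hx, if_pos h1]
    · exact map_zero _
  · rw [LinearMap.comp_apply, hp i x hx]
    split_ifs with h1
    · rw [hp i x hx, if_neg (h1 ▸ hde)]
      rfl
    · exact map_zero _
  · rw [← LinearMap.sum_apply]
    refine ext (f' := LinearMap.id) (fun i x hx => ?_) x
    rw [LinearMap.sum_apply, Finset.sum_congr rfl fun d _ => hp i x hx d, Finset.sum_ite_eq']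
    split_ifs with h1
    · rfl
    · exact (hs i x hx h1).symm

theorem zpow_injective [Infinite k] {i j : ℤ} (h : ∀ t : kˣ, t ^ i = t ^ j) : i = j := by
  by_contra hne
  wlog hlt : j < i generalizing i j
  · exact this (fun t => (h t).symm) (Ne.symm hne) (by omega)
  obtain ⟨n, hn⟩ : ∃ n : ℕ, i = j + (n + 1 : ℕ) := ⟨(i - j - 1).toNat, by omega⟩
  have h1 : ∀ x : k, x ≠ 0 → x ^ (n + 1) = 1 := fun x hx => by
    have := h (Units.mk0 x hx)
    rw [hn, zpow_add, mul_eq_left, zpow_natCast] at this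
    simpa using congrArg Units.val this
  refine Polynomial.X_pow_sub_C_ne_zero (R := k) n.succ_pos 1
    (Polynomial.eq_zero_of_infinite_isRoot _ ((Set.finite_singleton (0 : k)).infinite_compl.mono
      fun x hx => ?_))
  simp [h1 x hx]

/-- Independence of the characters `t ↦ t ^ j`. -/
theorem mem_of_sum [Infinite k] {ι : Type*} (s : Finset ι) (deg : ι → ℤ) (hd : Set.InjOn deg s)
    (v : ι → V) (X : Submodule k V) (h : ∀ t : kˣ, ∑ i ∈ s, ((t ^ deg i : kˣ) : k) • v i ∈ X) :
    ∀ i ∈ s, v i ∈ X := by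
  intro i hi
  rw [← Subspace.forall_mem_dualAnnihilator_apply_eq_zero_iff]
  intro φ hφ
  let χ : s → (kˣ →* k) := fun j => (Units.coeHom k).comp (zpowGroupHom (deg j))
  have hχ : Function.Injective χ := fun a b hab => Subtype.ext (hd a.2 b.2
    (zpow_injective (k := k) fun t => Units.ext (DFunLike.congr_fun hab t)))
  have h1 := Fintype.linearIndependent_iff.1 ((linearIndependent_monoidHom kˣ k).comp χ hχ)
    (fun j => φ (v j)) (funext fun t => by
      have := (Submodule.mem_dualAnnihilator φ).1 hφ _ (h t)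
      rw [map_sum, ← Finset.sum_coe_sort] at this
      simpa [χ, mul_comm] using this)
  exact h1 ⟨i, hi⟩

end GBG
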