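import Cfsg.Agent.Lib.Block.GBFun
import Cfsg.Agent.Lib.Block.GBGrLin

/-!
# The graded radical argument: the matrix of graded projective homomorphisms is invertible
-/

set_option autoImplicit false
set_option linter.unusedSectionVars false

namespace GB

open Module AM GBG LaurentPolynomial TensorProduct

universe u

variable {k : Type} [Field k] [Infinite k] {A : Type u} [Ring A] [Algebra k A]

section Wt

variable {V W : Type*} [AddCommGroup V] [Module k V] [AddCommGroup W] [Module k W]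

theorem mem_wt {θ : kˣ →* Module.End k V} {j : ℤ} {v : V} :
    v ∈ wt θ j ↔ ∀ t, θ t v = ((t ^ j : kˣ) : k) • v := Iff.rfl

theorem iSupIndep_wt (θ : kˣ →* Module.End k V) : iSupIndep (wt θ) := by
  rw [iSupIndep_iff_finsetSum_eq_zero_imp_eq_zero]
  intro s v hv h0 i hi
  refine mem_of_sum (k := k) s id (Set.injOn_id _) v ⊥ (fun t => ?_) i hi
  have := congrArg (θ t) h0
  rw [map_sum, map_zero, Finset.sum_congr rfl fun j hj => hv j hj t] at this
  exact this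

theorem span_wt_of (θ : kˣ →* Module.End k V) {S : Set V} (hS : Submodule.span k S = ⊤)
    (h : ∀ x ∈ S, ∃ j, x ∈ wt θ j) : ⨆ j : ℤ, wt θ j = ⊤ := by
  rw [eq_top_iff, ← hS, Submodule.span_le]
  intro x hx
  obtain ⟨j, hj⟩ := h x hx
  exact Submodule.mem_iSup_of_mem j hj

variable [FiniteDimensional k V] [FiniteDimensional k W]

/-- The grading by the weight spaces. -/
noncomputable def grOf (θ : kˣ →* Module.End k V) (h : ⨆ j : ℤ, wt θ j = ⊤) : Gr k V :=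
  (exists_gr (wt θ) (iSupIndep_wt θ) h id).choose

variable {θ : kˣ →* Module.End k V} {h : ⨆ j : ℤ, wt θ j = ⊤}

theorem grOf_p {j : ℤ} {x : V} (hx : x ∈ wt θ j) (d : ℤ) :
    (grOf θ h).p d x = if d = j then x else 0 :=
  (exists_gr (wt θ) (iSupIndep_wt θ) h id).choose_spec j x hx d

theorem p_mem_wt (d : ℤ) (x : V) : (grOf θ h).p d x ∈ wt θ d := by
  have hx : x ∈ ⨆ j, wt θ j := h ▸ Submodule.mem_top
  induction hx using Submodule.iSup_induction' with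
  | mem j x hx =>
    rw [grOf_p hx]
    split_ifs with h1
    · exact h1 ▸ hx
    · exact zero_mem _
  | zero => rw [map_zero]; exact zero_mem _
  | add x y _ _ h1 h2 => rw [map_add]; exact add_mem h1 h2

theorem p_eq_iff {d : ℤ} {x : V} : (grOf θ h).p d x = x ↔ x ∈ wt θ d :=
  ⟨fun e => e ▸ p_mem_wt d x, fun hx => by rw [grOf_p hx, if_pos rfl]⟩

theorem cp_grOf (d : ℤ) : (grOf θ h).cp d = wt θ d := Submodule.ext fun _ => p_eq_iff

theorem hm_of_stable {X : Submodule k V} (hX : ∀ t, ∀ x ∈ X, θ t x ∈ X) : (grOf θ h).Hm X := by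
  intro d x hx
  by_cases hd : d ∈ (grOf θ h).s
  · refine mem_of_sum (grOf θ h).s id (Set.injOn_id _) (fun d => (grOf θ h).p d x) X
      (fun t => ?_) d hd
    have := hX t x hx
    rwa [← (grOf θ h).sum x, map_sum, Finset.sum_congr rfl fun j _ => p_mem_wt j x t] at this
  · rw [(grOf θ h).zero d hd]
    exact zero_mem _

theorem stable_of_hm {X : Submodule k V} (hX : (grOf θ h).Hm X) (t : kˣ) (x : V) (hx : x ∈ X) :
    θ t x ∈ X := by
  rw [← (grOf θ h).sum x, map_sum]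
  exact X.sum_mem fun j _ => by rw [p_mem_wt j x t]; exact X.smul_mem _ (hX j x hx)

theorem isDeg_of_wt {θ' : kˣ →* Module.End k W} {h' : ⨆ j : ℤ, wt θ' j = ⊤} {n : ℤ}
    {f : V →ₗ[k] W} (hf : ∀ j, ∀ x ∈ wt θ j, f x ∈ wt θ' (j + n)) :
    IsDeg (grOf θ h) (grOf θ' h') n f :=
  isDeg_of' _ _ n f fun d x hx => p_eq_iff.2 (hf d x (p_eq_iff.1 hx))

end Wt

namespace GM

variable {Γ : GA k A} {X Y Z : GM Γ}

theorem hθ_apply (t : kˣ) (f : X.V →ₗ[k] Y.V) : X.hθ Y t f = Y.θ t ∘ₗ f ∘ₗ X.θ t⁻¹ := rfl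

theorem θ_inv (X : GM Γ) (t : kˣ) (x : X.V) : X.θ t⁻¹ (X.θ t x) = x := by
  rw [← Module.End.mul_apply, ← map_mul, inv_mul_cancel, map_one, Module.End.one_apply]

theorem θ_inv' (X : GM Γ) (t : kˣ) (x : X.V) : X.θ t (X.θ t⁻¹ x) = x := by
  rw [← Module.End.mul_apply, ← map_mul, mul_inv_cancel, map_one, Module.End.one_apply]

theorem mem_wt_hθ {f : X.V →ₗ[k] Y.V} {n : ℤ} : f ∈ wt (X.hθ Y) n ↔
    ∀ t x, Y.θ t (f x) = ((t ^ n : kˣ) : k) • f (X.θ t x) := by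
  refine forall_congr' fun t => ⟨fun h x => ?_, fun h => LinearMap.ext fun x => ?_⟩
  · have := LinearMap.congr_fun h (X.θ t x)
    rwa [hθ_apply, LinearMap.comp_apply, LinearMap.comp_apply, θ_inv] at this
  · rw [hθ_apply, LinearMap.comp_apply, LinearMap.comp_apply, h, θ_inv']
    rfl

theorem map_wt {f : X.V →ₗ[k] Y.V} {n : ℤ} (hf : f ∈ wt (X.hθ Y) n) {j : ℤ} {x : X.V}
    (hx : x ∈ wt X.θ j) : f x ∈ wt Y.θ (j + n) := fun t => by
  rw [mem_wt_hθ.1 hf, hx t, map_smul, smul_smul, zpow_add, Units.val_mul, mul_comm]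

theorem comp_wt {g : Y.V →ₗ[k] Z.V} {f : X.V →ₗ[k] Y.V} {m n : ℤ} (hg : g ∈ wt (Y.hθ Z) n)
    (hf : f ∈ wt (X.hθ Y) m) : g ∘ₗ f ∈ wt (X.hθ Z) (m + n) := mem_wt_hθ.2 fun t x => by
  rw [LinearMap.comp_apply, mem_wt_hθ.1 hg, mem_wt_hθ.1 hf, map_smul, smul_smul, zpow_add,
    Units.val_mul, mul_comm]
  rfl

theorem id_wt (X : GM Γ) : LinearMap.id ∈ wt (X.hθ X) 0 := mem_wt_hθ.2 fun t x => by simp

/-- The grading of the module. -/
noncomputable def gr (X : GM Γ) : Gr k X.V := grOf X.θ X.span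

theorem isDeg_of_mem {f : X.V →ₗ[k] Y.V} {n : ℤ} (hf : f ∈ wt (X.hθ Y) n) : IsDeg X.gr Y.gr n f :=
  isDeg_of_wt fun _ _ hx => map_wt hf hx

theorem p_θ (X : GM Γ) (d : ℤ) (t : kˣ) (x : X.V) :
    X.gr.p d (X.θ t x) = ((t ^ d : kˣ) : k) • X.gr.p d x := by
  have h : X.θ t ∈ wt (X.hθ X) 0 := mem_wt_hθ.2 fun u y => by
    rw [← Module.End.mul_apply, ← Module.End.mul_apply, ← map_mul, ← map_mul, mul_comm]
    simp
  have := isDeg_of_mem h d x
  rw [add_zero] at this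
  rw [← this]
  exact p_mem_wt d x t

theorem hspan (X Y : GM Γ) : ⨆ j : ℤ, wt (X.hθ Y) j = ⊤ := by
  rw [eq_top_iff]
  intro f _
  have h : f = ∑ e ∈ Y.gr.s, ∑ d ∈ X.gr.s, Y.gr.p e ∘ₗ f ∘ₗ X.gr.p d := by
    ext x
    simp only [LinearMap.sum_apply, LinearMap.comp_apply, ← map_sum, Gr.sum]
  rw [h]
  refine Submodule.sum_mem _ fun e _ => Submodule.sum_mem _ fun d _ =>
    Submodule.mem_iSup_of_mem (e - d) (mem_wt_hθ.2 fun t x => ?_)
  simp only [LinearMap.comp_apply]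
  rw [p_θ, map_smul, map_smul, smul_smul, ← Units.val_mul, ← zpow_add, sub_add_cancel]
  exact p_mem_wt e _ t

/-- The grading of the space of linear maps. -/
noncomputable def hgr (X Y : GM Γ) : Gr k (X.V →ₗ[k] Y.V) := grOf (X.hθ Y) (hspan X Y)

theorem hgr_p_mem (d : ℤ) (f : X.V →ₗ[k] Y.V) : (X.hgr Y).p d f ∈ wt (X.hθ Y) d := p_mem_wt d f

theorem isDeg_post (X : GM Γ) {q : Y.V →ₗ[k] Z.V} {n : ℤ} (hq : q ∈ wt (Y.hθ Z) n) :
    IsDeg (X.hgr Y) (X.hgr Z) n (LinearMap.llcomp k X.V Y.V Z.V q) :=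
  isDeg_of_wt fun _ _ hf => comp_wt hq hf

theorem isDeg_pre (Z : GM Γ) {u : X.V →ₗ[k] Y.V} {n : ℤ} (hu : u ∈ wt (X.hθ Y) n) :
    IsDeg (Y.hgr Z) (X.hgr Z) n (LinearMap.lcomp k Z.V u) :=
  isDeg_of_wt fun j _ hf => add_comm n j ▸ comp_wt hf hu

theorem α_inv (t : kˣ) (a : A) : Γ.α t (Γ.α t⁻¹ a) = a := by
  rw [← AlgEquiv.mul_apply, ← map_mul, mul_inv_cancel, map_one, AlgEquiv.one_apply]

theorem α_inv' (t : kˣ) (a : A) : Γ.α t⁻¹ (Γ.α t a) = a := by
  rw [← AlgEquiv.mul_apply, ← map_mul, inv_mul_cancel, map_one, AlgEquiv.one_apply]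

theorem hm_Hom (X Y : GM Γ) : (X.hgr Y).Hm (Hom X.toAM Y.toAM) :=
  hm_of_stable fun t f hf a x => by
    simp only [hθ_apply, LinearMap.comp_apply]
    rw [X.compat, hf, Y.compat, α_inv]

theorem hθ_Tr (t : kˣ) (f : X.V →ₗ[k] Y.V) : X.hθ Y t (Γ.C.Tr X.toAM Y.toAM f) =
    (t : k) ^ Γ.s • Γ.C.Tr X.toAM Y.toAM (X.hθ Y t f) := by
  have h := Γ.C.sum_aut (Cas.lr X.toAM Y.toAM (X.hθ Y t f)) (Γ.α t) (Γ.hτ t)
  simp only [Cas.lr_apply] at h
  rw [Cas.Tr_def, Cas.Tr_def, ← h, map_sum]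
  refine Finset.sum_congr rfl fun i _ => LinearMap.ext fun x => ?_
  simp only [hθ_apply, LinearMap.comp_apply]
  rw [Y.compat, X.compat, α_inv']

theorem hm_PHom (X Y : GM Γ) : (X.hgr Y).Hm (Γ.C.PHom X.toAM Y.toAM) :=
  hm_of_stable (by
    rintro t _ ⟨f, rfl⟩
    rw [hθ_Tr]
    exact Submodule.smul_mem _ _ ⟨_, rfl⟩)

theorem Tr_wt {f : X.V →ₗ[k] Y.V} {j : ℤ} (hf : f ∈ wt (X.hθ Y) j) :
    Γ.C.Tr X.toAM Y.toAM f ∈ wt (X.hθ Y) (j + Γ.s) := fun t => by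
  rw [hθ_Tr, hf t, map_smul, smul_smul, zpow_add, zpow_natCast, Units.val_mul,
    Units.val_pow_eq_pow_val, mul_comm]

theorem trace_eq_zero {f : X.V →ₗ[k] X.V} {n : ℤ} (hf : f ∈ wt (X.hθ X) n) (hn : n ≠ 0) :
    LinearMap.trace k X.V f = 0 := by
  by_contra h0
  refine hn (zpow_injective (k := k) fun t => Units.ext ?_)
  have h1 := congrArg (LinearMap.trace k X.V) (hf t)
  have h2 : X.θ t⁻¹ ∘ₗ X.θ t = LinearMap.id := LinearMap.ext (X.θ_inv t)
  rw [hθ_apply, LinearMap.trace_comp_comm', LinearMap.comp_assoc, h2, LinearMap.comp_id,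
    map_smul, smul_eq_mul] at h1
  rw [zpow_zero, Units.val_one]
  exact (mul_left_eq_self₀.1 h1.symm).resolve_right h0

theorem gd_le (X Y : GM Γ) (j : ℤ) : gd X Y j ≤ gd Y X (Γ.s - j) := by
  refine (Cas.finrank_le_of_pairing (C := Γ.C) _ inf_le_left (wt (Y.hθ X) (-j))
    fun f hf h => Cas.eq_zero_of_trace fun g => ?_).trans (Submodule.finrank_mono ?_)
  · rw [← (Y.hgr X).sum g]
    change LinearMap.trace k _ (LinearMap.llcomp k Y.V X.V Y.V f _) = 0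
    rw [map_sum, map_sum]
    refine Finset.sum_eq_zero fun e _ => ?_
    by_cases he : e = -j
    · exact h _ (he ▸ hgr_p_mem e g)
    · exact trace_eq_zero (comp_wt hf.2 (hgr_p_mem e g)) (by omega)
  · rintro _ ⟨g, hg, rfl⟩
    exact ⟨⟨g, rfl⟩, by rw [sub_eq_neg_add]; exact Tr_wt hg⟩

/-- The graded dimensions of projective homomorphisms are hermitian. -/
theorem gd_symm (X Y : GM Γ) (j : ℤ) : gd X Y j = gd Y X (Γ.s - j) :=
  le_antisymm (gd_le X Y j) (by simpa using gd_le Y X (Γ.s - j))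

/-- The graded dimension of the projective homomorphisms. -/
noncomputable def G (X Y : GM Γ) : ℤ[T;T⁻¹] := (X.hgr Y).gd (Γ.C.PHom X.toAM Y.toAM)

theorem coeff_G (X Y : GM Γ) (j : ℤ) : (G X Y).coeff j = gd X Y j := by
  rw [G, Gr.coeff_gd, hgr, cp_grOf]
  rfl

theorem G_symm (X Y : GM Γ) : G X Y = T Γ.s * invert (G Y X) := by
  ext j
  rw [Gr.coeff_T_mul, invert_apply, coeff_G, coeff_G, neg_sub, gd_symm]

theorem eval_G (X Y : GM Γ) {R : Type*} [CommRing R] :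
    eval₂ (Int.castRingHom R) 1 (G X Y) = finrank k (Γ.C.PHom X.toAM Y.toAM) :=
  Gr.eval_gd _ (hm_PHom X Y)

/-! ### Additivity -/

theorem exists_fac {X Y Z : AM k A} {u : Y.V →ₗ[k] Z.V} (hu : u ∈ Hom Y Z)
    (hi : Function.Injective u) {g : X.V →ₗ[k] Z.V} (hg : g ∈ Hom X Z)
    (h : ∀ x, g x ∈ LinearMap.range u) : ∃ g' ∈ Hom X Y, u ∘ₗ g' = g := by
  obtain ⟨r, hr⟩ := u.exists_leftInverse_of_injective (LinearMap.ker_eq_bot.2 hi)
  have h1 : ∀ x, u (r (g x)) = g x := fun x => by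
    obtain ⟨y, hy⟩ := h x
    rw [← hy, ← LinearMap.comp_apply r, hr, LinearMap.id_apply]
  exact ⟨r ∘ₗ g, fun a x => hi (by
    rw [hu, LinearMap.comp_apply, LinearMap.comp_apply, h1, h1, hg]), LinearMap.ext h1⟩

theorem G_add (Y : GM Γ) {Y1 Y2 Y3 : GM Γ} {u : Y1.V →ₗ[k] Y2.V} {q : Y2.V →ₗ[k] Y3.V} {m n : ℤ}
    (hu : u ∈ Hom Y1.toAM Y2.toAM) (hu' : u ∈ wt (Y1.hθ Y2) m) (hi : Function.Injective u)
    (hq : q ∈ Hom Y2.toAM Y3.toAM) (hq' : q ∈ wt (Y2.hθ Y3) n) (hs : Function.Surjective q)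
    (he : LinearMap.ker q = LinearMap.range u) {S : Submodule k (Y.V →ₗ[k] Y1.V)}
    (hS : (Y.hgr Y1).Hm S)
    (hS' : ∀ g, g ∈ S ↔ g ∈ Hom Y.toAM Y1.toAM ∧ u ∘ₗ g ∈ Γ.C.PHom Y.toAM Y2.toAM) :
    G Y Y2 = T m * (Y.hgr Y1).gd S + T (-n) * G Y Y3 := by
  have h1 : (Γ.C.PHom Y.toAM Y2.toAM).map (LinearMap.llcomp k Y.V Y2.V Y3.V q) =
      Γ.C.PHom Y.toAM Y3.toAM := by
    refine le_antisymm ?_ fun f hf => Cas.exists_lift hf hq hs
    rintro _ ⟨g, hg, rfl⟩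
    exact Cas.comp_left hq hg
  have h2 : Γ.C.PHom Y.toAM Y2.toAM ⊓ LinearMap.ker (LinearMap.llcomp k Y.V Y2.V Y3.V q) =
      S.map (LinearMap.llcomp k Y.V Y1.V Y2.V u) := by
    ext g
    constructor
    · rintro ⟨hg, h0⟩
      obtain ⟨g', hg', rfl⟩ := exists_fac hu hi (Cas.PHom_le hg) fun x =>
        he ▸ (LinearMap.congr_fun h0 x : q (g x) = 0)
      exact ⟨g', (hS' g').2 ⟨hg', hg⟩, rfl⟩
    · rintro ⟨g', hg', rfl⟩
      exact ⟨((hS' g').1 hg').2, LinearMap.ext fun x =>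
        (he ▸ LinearMap.mem_range_self u (g' x) : u (g' x) ∈ LinearMap.ker q)⟩
  rw [G, (isDeg_post Y hq').gd_add (hm_PHom Y Y2), h1, h2, (isDeg_post Y hu').gd_map hS
    fun g _ h0 => LinearMap.ext fun x => hi ((LinearMap.congr_fun h0 x).trans (map_zero u).symm)]
  rfl

theorem G_add' (Y : GM Γ) {Y1 Y2 Y3 : GM Γ} {u : Y1.V →ₗ[k] Y2.V} {q : Y2.V →ₗ[k] Y3.V} {m n : ℤ}
    (hu : u ∈ Hom Y1.toAM Y2.toAM) (hu' : u ∈ wt (Y1.hθ Y2) m) (hi : Function.Injective u)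
    (hq : q ∈ Hom Y2.toAM Y3.toAM) (hq' : q ∈ wt (Y2.hθ Y3) n) (hs : Function.Surjective q)
    (he : LinearMap.ker q = LinearMap.range u)
    (hS : ∀ g ∈ Hom Y.toAM Y1.toAM, u ∘ₗ g ∈ Γ.C.PHom Y.toAM Y2.toAM →
      g ∈ Γ.C.PHom Y.toAM Y1.toAM) :
    G Y Y2 = T m * G Y Y1 + T (-n) * G Y Y3 :=
  G_add Y hu hu' hi hq hq' hs he (hm_PHom Y Y1) fun g =>
    ⟨fun h => ⟨Cas.PHom_le h, Cas.comp_left hu h⟩, fun h => hS g h.1 h.2⟩

/-! ### Constructions -/

/-- The quotient by the range of a homogeneous homomorphism. -/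
@[reducible] def coker {u : X.V →ₗ[k] Y.V} {m : ℤ} (hu : u ∈ Hom X.toAM Y.toAM)
    (hu' : u ∈ wt (X.hθ Y) m) : GM Γ where
  toAM := Y.toAM.quot _ (inv_range hu)
  θ :=
    { toFun := fun t => (LinearMap.range u).mapQ _ (Y.θ t)
        (stable_of_hm (h := Y.span) (isDeg_of_mem hu').range t)
      map_one' := by ext x; simp
      map_mul' := fun _ _ => by ext x; simp }
  compat t a x := by
    obtain ⟨x, rfl⟩ := Submodule.mkQ_surjective _ x
    exact congrArg (LinearMap.range u).mkQ (Y.compat t a x)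
  span := by
    rw [eq_top_iff]
    intro x _
    obtain ⟨x, rfl⟩ := Submodule.mkQ_surjective _ x
    rw [← Y.gr.sum x, map_sum]
    refine Submodule.sum_mem _ fun d _ => Submodule.mem_iSup_of_mem d fun t => ?_
    rw [← map_smul]
    exact congrArg (LinearMap.range u).mkQ (p_mem_wt d x t)

theorem mkQ_wt {u : X.V →ₗ[k] Y.V} {m : ℤ} (hu : u ∈ Hom X.toAM Y.toAM)
    (hu' : u ∈ wt (X.hθ Y) m) : (LinearMap.range u).mkQ ∈ wt (Y.hθ (coker hu hu')) 0 :=
  mem_wt_hθ.2 fun t x => by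
    rw [zpow_zero, Units.val_one, one_smul]
    rfl

/-- The direct sum, with the second summand shifted by `n`. -/
@[reducible] def prod (X Y : GM Γ) (n : ℤ) : GM Γ where
  toAM := X.toAM.prod Y.toAM
  θ :=
    { toFun := fun t => (X.θ t).prodMap (((t ^ n : kˣ) : k) • Y.θ t)
      map_one' := LinearMap.ext fun x => by simp
      map_mul' := fun _ _ => LinearMap.ext fun x => by simp [mul_zpow, smul_smul, mul_comm] }
  compat t a x := Prod.ext (X.compat t a _) (by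
    change ((t ^ n : kˣ) : k) • Y.θ t (Y.ρ a x.2) = Y.ρ _ (((t ^ n : kˣ) : k) • Y.θ t x.2)
    rw [Y.compat, map_smul])
  span := by
    rw [eq_top_iff]
    rintro ⟨x, y⟩ _
    have h : (x, y) = ∑ d ∈ X.gr.s, (X.gr.p d x, 0) + ∑ d ∈ Y.gr.s, (0, Y.gr.p d y) :=
      Prod.ext (by simp [Prod.fst_sum, Gr.sum]) (by simp [Prod.snd_sum, Gr.sum])
    rw [h]
    refine add_mem (Submodule.sum_mem _ fun d _ => Submodule.mem_iSup_of_mem d fun t => ?_)
      (Submodule.sum_mem _ fun d _ => Submodule.mem_iSup_of_mem (n + d) fun t => ?_)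
    · exact Prod.ext (p_mem_wt d x t) (by simp)
    · refine Prod.ext (by simp) ?_
      change ((t ^ n : kˣ) : k) • Y.θ t (Y.gr.p d y) = ((t ^ (n + d) : kˣ) : k) • Y.gr.p d y
      rw [zpow_add, Units.val_mul, mul_smul]
      exact congrArg _ (p_mem_wt d y t)

theorem fst_wt (X Y : GM Γ) (n : ℤ) : LinearMap.fst k X.V Y.V ∈ wt ((X.prod Y n).hθ X) 0 :=
  mem_wt_hθ.2 fun t x => by
    rw [zpow_zero, Units.val_one, one_smul]
    rfl

theorem inr_wt (X Y : GM Γ) (n : ℤ) : LinearMap.inr k X.V Y.V ∈ wt (Y.hθ (X.prod Y n)) n :=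
  mem_wt_hθ.2 fun t x => Prod.ext (by simp) rfl

theorem prod_wt {f : X.V →ₗ[k] Y.V} {g : X.V →ₗ[k] Z.V} {m n : ℤ} (hf : f ∈ wt (X.hθ Y) m)
    (hg : g ∈ wt (X.hθ Z) n) : f.prod g ∈ wt (X.hθ (Y.prod Z (m - n))) m :=
  mem_wt_hθ.2 fun t x => Prod.ext (mem_wt_hθ.1 hf t x) (by
    change ((t ^ (m - n) : kˣ) : k) • Z.θ t (g x) = ((t ^ m : kˣ) : k) • g (X.θ t x)
    rw [mem_wt_hθ.1 hg, smul_smul, ← Units.val_mul, ← zpow_add, sub_add_cancel])

theorem α_c (Γ : GA k A) (t : kˣ) {d : ℕ} (hd : d ∈ Finset.range (Γ.s + 1)) (a : A) :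
    Γ.α t (Γ.c d a) = (t : k) ^ d • Γ.c d a := by
  refine sub_eq_zero.1 (mem_of_sum (k := k) (Finset.range (Γ.s + 1)) (fun d : ℕ => (d : ℤ))
    (fun _ _ _ _ h => Int.natCast_inj.1 h)
    (fun d => Γ.α t (Γ.c d a) - (t : k) ^ d • Γ.c d a) ⊥ (fun u => ?_) d hd)
  have h1 := Γ.hc (t * u) a
  rw [map_mul, AlgEquiv.mul_apply, Γ.hc u, map_sum] at h1
  rw [Submodule.mem_bot]
  simp only [smul_sub, Finset.sum_sub_distrib, zpow_natCast, Units.val_pow_eq_pow_val, smul_smul]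
  simp only [map_smul, Units.val_mul, mul_pow] at h1
  rw [h1, sub_eq_zero]
  exact Finset.sum_congr rfl fun d _ => by rw [mul_comm]

theorem sum_c (Γ : GA k A) (a : A) : ∑ d ∈ Finset.range (Γ.s + 1), Γ.c d a = a := by
  simpa using (Γ.hc 1 a).symm

variable [FiniteDimensional k A]

/-- The graded free module on a graded module. -/
@[reducible] noncomputable def free (X : GM Γ) : GM Γ where
  toAM := AM.free X.V
  θ :=
    { toFun := fun t => TensorProduct.map (Γ.α t).toLinearMap (X.θ t)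
      map_one' := by ext x y; simp
      map_mul' := fun _ _ => by ext x y; simp }
  compat t a x := by
    induction x using TensorProduct.induction_on with
    | zero => simp
    | tmul b y =>
      change Γ.α t (a * b) ⊗ₜ[k] X.θ t y = (Γ.α t a * Γ.α t b) ⊗ₜ[k] X.θ t y
      rw [map_mul]
    | add y z hy hz => simp only [map_add, hy, hz]
  span := by
    rw [eq_top_iff]
    intro x hx
    clear hx
    induction x using TensorProduct.induction_on with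
    | zero => exact zero_mem _
    | tmul b y =>
      rw [← sum_c Γ b, ← X.gr.sum y, sum_tmul]
      refine Submodule.sum_mem _ fun d hd => ?_
      rw [tmul_sum]
      refine Submodule.sum_mem _ fun e _ => Submodule.mem_iSup_of_mem (d + e) fun t => ?_
      change Γ.α t (Γ.c d b) ⊗ₜ[k] X.θ t (X.gr.p e y) = _
      rw [α_c Γ t hd, show X.θ t (X.gr.p e y) = _ from p_mem_wt (h := X.span) e y t,
        smul_tmul_smul, zpow_add, zpow_natCast, Units.val_mul, Units.val_pow_eq_pow_val]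
      rfl
    | add y z hy hz => exact add_mem hy hz

theorem emb_wt (X : GM Γ) : Γ.C.emb X.toAM ∈ wt (X.hθ X.free) Γ.s := by
  have h : TensorProduct.mk k A X.V 1 ∈ wt (X.hθ X.free) 0 := mem_wt_hθ.2 fun t x => by
    rw [zpow_zero, Units.val_one, one_smul]
    change Γ.α t 1 ⊗ₜ[k] X.θ t x = _
    rw [map_one]
    rfl
  have := Tr_wt h
  rwa [zero_add] at this

theorem G_prod (Y Z I : GM Γ) (hI : Γ.C.Proj I.toAM) (n : ℤ) :
    G Y (Z.prod I n) = T n * G Y I + G Y Z := by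
  have := G_add' Y (inr_mem Z.toAM I.toAM) (inr_wt Z I n) LinearMap.inr_injective
    (fst_mem Z.toAM I.toAM) (fst_wt Z I n) LinearMap.fst_surjective
    (LinearMap.ker_fst _ _ _) fun g hg _ => hI.mem_right hg
  rwa [neg_zero, T_zero, one_mul] at this

theorem proj_coker {u : X.V →ₗ[k] Y.V} {m : ℤ} (hu : u ∈ Hom X.toAM Y.toAM)
    (hu' : u ∈ wt (X.hθ Y) m) (hi : Function.Injective u) (hX : Γ.C.Proj X.toAM)
    (hY : Γ.C.Proj Y.toAM) : Γ.C.Proj (coker hu hu').toAM := by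
  obtain ⟨r, hr, e⟩ := hX.exists_retract hu hi
  have h1 : LinearMap.id - u ∘ₗ r ∈ Hom Y.toAM Y.toAM := sub_mem (id_mem _) (comp_mem hu hr)
  refine hY.of_retract (i := (LinearMap.range u).liftQ (LinearMap.id - u ∘ₗ r) ?_)
    (fun a x => ?_) (mkQ_mem _ (inv_range hu)) ?_
  · rintro _ ⟨x, rfl⟩
    have : r (u x) = x := LinearMap.congr_fun e x
    simp [this]
  · obtain ⟨x, rfl⟩ := Submodule.mkQ_surjective _ x
    exact h1 a x
  · ext x
    simp

end GM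

open GM

variable [FiniteDimensional k A] {Γ : GA k A} {ιA ιB : Type*}

namespace PD

variable (Pd : PD Γ ιA)

theorem j_ne (a : ιA) : Pd.j a ≠ 0 := (Pd.simple a).ne_zero (Pd.inj a)

theorem exists_smul {a b : ιA} {g : (Pd.T a).V →ₗ[k] (Pd.P b).V}
    (hg : g ∈ Hom (Pd.T a).toAM (Pd.P b).toAM) (h0 : g ≠ 0) :
    ∃ h ∈ Hom (Pd.T b).toAM (Pd.T a).toAM, h ≠ 0 ∧ g ∘ₗ h = Pd.j b := by
  have h1 : (LinearMap.range g).mkQ ∘ₗ Pd.j b = 0 := by
    by_contra h2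
    have := Pd.ess b _ _ (mkQ_mem _ (inv_range hg)) h2
    rw [← LinearMap.ker_eq_bot, Submodule.ker_mkQ, LinearMap.range_eq_bot] at this
    exact h0 this
  obtain ⟨h, hh, e⟩ := exists_fac hg ((Pd.simple a).injective hg h0) (Pd.hj b) fun x =>
    (Submodule.Quotient.mk_eq_zero _).1 (LinearMap.congr_fun h1 x)
  exact ⟨h, hh, fun h2 => Pd.j_ne b (by rw [← e, h2, LinearMap.comp_zero]), e⟩

theorem G_T_P [DecidableEq ιA] (a b : ιA) : G (Pd.T a) (Pd.P b) = if b = a then 1 else 0 := by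
  rw [G, (Pd.proj b).eq_right]
  split_ifs with hab
  · subst hab
    rw [← T_zero, ← Gr.gd_span ((Pd.T b).hgr (Pd.P b)) (p_eq_iff.2 (Pd.hj0 b)) (Pd.j_ne b)]
    congr 1
    refine le_antisymm (fun g hg => ?_) ((Submodule.span_singleton_le_iff_mem _ _).2 (Pd.hj b))
    by_cases h0 : g = 0
    · exact h0 ▸ zero_mem _
    obtain ⟨h, hh, h1, e⟩ := Pd.exists_smul hg h0
    obtain ⟨c, rfl⟩ := Pd.schur b h hh
    have hc : c ≠ 0 := fun h2 => h1 (by rw [h2, zero_smul])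
    rw [LinearMap.comp_smul, LinearMap.comp_id] at e
    exact Submodule.mem_span_singleton.2 ⟨c⁻¹, by rw [← e, smul_smul, inv_mul_cancel₀ hc, one_smul]⟩
  · have : Hom (Pd.T a).toAM (Pd.P b).toAM = ⊥ := (Submodule.eq_bot_iff _).2 fun g hg => by
      by_contra h0
      obtain ⟨h, hh, h1, -⟩ := Pd.exists_smul hg h0
      exact h1 (Pd.ne b a hab h hh)
    rw [this, Gr.gd_bot]

/-- A projective graded module is built from the projective indecomposables. -/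
theorem mem_of_proj {ι : Type*} (O : ι → GM Γ) (R : Submodule ℤ[T;T⁻¹] (ι → ℤ[T;T⁻¹]))
    (hR : ∀ a, (fun x => G (O x) (Pd.P a)) ∈ R) (Z : GM Γ) (hZ : Γ.C.Proj Z.toAM) :
    (fun x => G (O x) Z) ∈ R := by
  induction hn : finrank k Z.V using Nat.strong_induction_on generalizing Z with
  | _ n ih =>
  rcases Nat.eq_zero_or_pos n with rfl | h0
  · have := Module.finrank_zero_iff.1 hn
    have h1 : (fun x => G (O x) Z) = 0 := funext fun x => by
      rw [G, Subsingleton.elim (Γ.C.PHom _ _) ⊥, Gr.gd_bot, Pi.zero_apply]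
    exact h1 ▸ zero_mem R
  obtain ⟨S, hS, i, hi, hi'⟩ := exists_simple Z.toAM (hn ▸ h0)
  obtain ⟨a, g, hg, hg0⟩ := Pd.all S hS
  obtain ⟨d, hd⟩ := ((Pd.T a).hgr Z).exists_ne_zero (x := i ∘ₗ g) fun h => hg0
    (LinearMap.ext fun x => hi' ((LinearMap.congr_fun h x).trans (map_zero i).symm))
  obtain ⟨g', hg', e⟩ := Cas.exists_extend (hZ.mem_right (hm_Hom _ _ d _ (comp_mem hi hg)))
    (Pd.hj a) (Pd.inj a)
  have hu := hm_Hom _ _ d _ (Cas.PHom_le hg')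
  have hu' := hgr_p_mem d g'
  have h1 : ((Pd.P a).hgr Z).p d g' ∘ₗ Pd.j a ≠ 0 := by
    have := isDeg_pre Z (Pd.hj0 a) d g'
    rw [add_zero, LinearMap.lcomp_apply', LinearMap.lcomp_apply', e, Gr.same] at this
    rwa [this]
  have hui := Pd.ess a _ _ hu h1
  have h2 : (fun x => G (O x) Z) =
      (LaurentPolynomial.T d : ℤ[T;T⁻¹]) • (fun x => G (O x) (Pd.P a)) + fun x => G (O x) (coker hu hu') :=
    funext fun x => by
      have := G_add' (O x) hu hu' hui (mkQ_mem _ (inv_range hu)) (mkQ_wt hu hu')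
        (Submodule.mkQ_surjective _) (Submodule.ker_mkQ _) fun g hg _ => (Pd.proj a).mem_right hg
      rwa [neg_zero, T_zero, one_mul] at this
  rw [h2]
  refine add_mem (R.smul_mem _ (hR a)) (ih _ ?_ _ (proj_coker hu hu' hui (Pd.proj a) hZ) rfl)
  have h3 := Submodule.finrank_quotient_add_finrank (LinearMap.range (((Pd.P a).hgr Z).p d g'))
  have h4 := LinearMap.finrank_range_of_inj hui
  have h5 := LinearMap.finrank_le_finrank_of_injective (Pd.inj a)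
  have h6 := (Pd.simple a).pos
  change finrank k (Z.V ⧸ _) < n
  omega

/-- The matrix of graded dimensions of projective homomorphisms. -/
noncomputable def M (X : ιB → GM Γ) : Matrix (ιA ⊕ ιB) (ιA ⊕ ιB) ℤ[T;T⁻¹] :=
  Matrix.of fun x y => G (Sum.elim Pd.P X x) (Sum.elim Pd.P X y)

variable {X : ιB → GM Γ} {cd : AM k A → ℕ}

theorem side (h : XD Γ.C (fun j => (X j).toAM) cd) {j : ιB} {Z : AM k A} {f : (X j).V →ₗ[k] Z.V}
    (hf' : f ∉ Γ.C.PHom (X j).toAM Z) (hf : f ∈ Hom (X j).toAM Z) (x : ιA ⊕ ιB)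
    {g : (Sum.elim Pd.P X x).V →ₗ[k] (X j).V} (hg : g ∈ Hom (Sum.elim Pd.P X x).toAM (X j).toAM)
    (hfg : f ∘ₗ g ∈ Γ.C.PHom (Sum.elim Pd.P X x).toAM Z) :
    g ∈ Γ.C.PHom (Sum.elim Pd.P X x).toAM (X j).toAM := by
  rcases x with a | i
  · exact (Pd.proj a).mem_left hg
  by_cases hij : i = j
  · subst hij
    revert g
    change ∀ g : (X i).V →ₗ[k] (X i).V, g ∈ Hom (X i).toAM (X i).toAM →
      f ∘ₗ g ∈ Γ.C.PHom (X i).toAM Z → g ∈ Γ.C.PHom (X i).toAM (X i).toAM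
    intro g hg hfg
    obtain ⟨c, hc⟩ := h.schur i g hg
    have h1 := sub_mem hfg (Cas.comp_left hf hc)
    by_cases h0 : c = 0
    · rwa [h0, zero_smul, sub_zero] at hc
    · refine absurd ((Submodule.smul_mem_iff _ h0).1 ?_) hf'
      rwa [LinearMap.comp_sub, sub_sub_cancel, LinearMap.comp_smul, LinearMap.comp_id] at h1
  · exact h.ne i j hij g hg

theorem mem_span (h : XD Γ.C (fun j => (X j).toAM) cd)
    (R : Submodule ℤ[T;T⁻¹] (ιA ⊕ ιB → ℤ[T;T⁻¹]))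
    (hR : ∀ y, (fun x => G (Sum.elim Pd.P X x) (Sum.elim Pd.P X y)) ∈ R) (Z : GM Γ) :
    (fun x => G (Sum.elim Pd.P X x) Z) ∈ R := by
  induction hn : cd Z.toAM using Nat.strong_induction_on generalizing Z with
  | _ n ih =>
  have hP := Pd.mem_of_proj (Sum.elim Pd.P X) R fun a => hR (.inl a)
  by_cases h0 : cd Z.toAM = 0
  · exact hP Z (h.zero _ h0)
  obtain ⟨j, f, hf, hf'⟩ := h.pos _ h0
  obtain ⟨d, hd⟩ := Gr.Hm.exists_not_mem (g := (X j).hgr Z) hf'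
  have hf1 := hm_Hom _ _ d _ hf
  have hu := prod_mem hf1 (Γ.C.emb_mem (X j).toAM)
  have hu' := prod_wt (hgr_p_mem d f) (emb_wt (X j))
  have hI : Γ.C.Proj (X j).free.toAM := Γ.C.proj_free _
  have h1 : (fun x => G (Sum.elim Pd.P X x) Z) =
      (LaurentPolynomial.T d : ℤ[T;T⁻¹]) • (fun x => G (Sum.elim Pd.P X x) (X j)) +
        (fun x => G (Sum.elim Pd.P X x) (coker (Y := Z.prod (X j).free (d - Γ.s)) hu hu')) -
        (LaurentPolynomial.T (d - Γ.s) : ℤ[T;T⁻¹]) • fun x => G (Sum.elim Pd.P X x) (X j).free := funext fun x => by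
    have h2 := G_add' (Sum.elim Pd.P X x) (Y2 := Z.prod (X j).free (d - Γ.s)) hu hu'
      (fun y z e => Γ.C.emb_injective _ (congrArg Prod.snd e)) (mkQ_mem _ (inv_range hu))
      (mkQ_wt hu hu') (Submodule.mkQ_surjective _) (Submodule.ker_mkQ _) fun g hg hfg =>
        Pd.side h hd hf1 x hg (Cas.comp_left (fst_mem Z.toAM (X j).free.toAM) hfg :)
    rw [G_prod _ _ _ hI, neg_zero, T_zero, one_mul] at h2
    simp only [Pi.sub_apply, Pi.add_apply, Pi.smul_apply, smul_eq_mul]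
    rw [← h2, add_sub_cancel_left]
  rw [h1]
  refine sub_mem (add_mem (R.smul_mem _ (hR (.inr j))) (ih _ ?_ _ rfl)) (R.smul_mem _ (hP _ hI))
  rw [← hn]
  exact h.lt j _ _ _ hI _ hf1 hd _ (Γ.C.emb_mem (X j).toAM) (Γ.C.emb_injective _) _
    (mkQ_mem _ (inv_range hu)) (Submodule.mkQ_surjective _) (Submodule.ker_mkQ _)

variable [DecidableEq ιA] [DecidableEq ιB]

theorem G_T (h : XD Γ.C (fun j => (X j).toAM) cd) (a : ιA) :
    (fun x => G (Sum.elim Pd.P X x) (Pd.T a)) =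
      (LaurentPolynomial.T Γ.s : ℤ[T;T⁻¹]) • (Pi.single (.inl a) 1 : ιA ⊕ ιB → ℤ[T;T⁻¹]) := by
  funext x
  rw [G_symm, Pi.smul_apply, smul_eq_mul]
  congr 1
  rcases x with b | i
  · rw [Sum.elim_inl, G_T_P, Pi.single_apply]
    simp only [Sum.inl.injEq]
    split_ifs <;> simp
  · have : Γ.C.PHom (Pd.T a).toAM (X i).toAM = ⊥ := (Submodule.eq_bot_iff _).2 fun g hg =>
      (h.pfree i).eq_zero (Pd.simple a) hg
    rw [Sum.elim_inr, G, this, Gr.gd_bot]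
    simp

theorem gd_Hom (h : XD Γ.C (fun j => (X j).toAM) cd) (j : ιB) (x : ιA ⊕ ιB) :
    ((Sum.elim Pd.P X x).hgr (X j)).gd (Hom (Sum.elim Pd.P X x).toAM (X j).toAM) =
      G (Sum.elim Pd.P X x) (X j) + (Pi.single (.inr j) 1 : ιA ⊕ ιB → ℤ[T;T⁻¹]) x := by
  rcases x with a | i
  · rw [G, Sum.elim_inl, (Pd.proj a).eq_left]
    simp
  by_cases hij : i = j
  · subst hij
    rw [Sum.elim_inr, Pi.single_eq_same, (isDeg_mkQ _ _ (hm_PHom (X i) (X i))).gd_add (hm_Hom _ _),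
      Submodule.ker_mkQ, inf_of_le_right Cas.PHom_le, neg_zero, T_zero, one_mul, ← T_zero,
      ← Gr.gd_span (((X i).hgr (X i)).quot _ (hm_PHom (X i) (X i))) (n := 0)
        (x := (Γ.C.PHom (X i).toAM (X i).toAM).mkQ LinearMap.id)
        (congrArg (Γ.C.PHom (X i).toAM (X i).toAM).mkQ (p_eq_iff.2 (id_wt (X i))))
        fun e => h.nproj i ((Submodule.Quotient.mk_eq_zero _).1 e)]
    congr 2
    refine le_antisymm ?_ ((Submodule.span_singleton_le_iff_mem _ _).2 ⟨_, id_mem _, rfl⟩)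
    rintro _ ⟨g, hg, rfl⟩
    obtain ⟨c, hc⟩ := h.schur i g hg
    exact Submodule.mem_span_singleton.2 ⟨c, by
      rw [← map_smul]
      exact ((Submodule.Quotient.eq _).2 hc).symm⟩
  · rw [G, Sum.elim_inr, le_antisymm (h.ne i j hij) Cas.PHom_le, Pi.single_eq_of_ne
      fun e => hij (Sum.inr.inj e), add_zero]

/-- The matrix of graded dimensions is invertible. -/
theorem isUnit_M [Fintype ιA] [Fintype ιB] (h : XD Γ.C (fun j => (X j).toAM) cd) :
    IsUnit (Pd.M X) := by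
  rw [← Matrix.mulVec_surjective_iff_isUnit]
  let R := LinearMap.range (Pd.M X).mulVecLin
  have hR := Pd.mem_span h R fun y => ⟨Pi.single y 1, funext fun x => by simp [M]⟩
  have hT : ∀ v : ιA ⊕ ιB → ℤ[T;T⁻¹], (LaurentPolynomial.T Γ.s : ℤ[T;T⁻¹]) • v ∈ R → v ∈ R := fun v hv => by
    have := R.smul_mem (LaurentPolynomial.T (-Γ.s)) hv
    rwa [smul_smul, ← T_add, neg_add_cancel, T_zero, one_smul] at this
  have h1 : ∀ x, (Pi.single x 1 : ιA ⊕ ιB → ℤ[T;T⁻¹]) ∈ R := by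
    rintro (a | j)
    · exact hT _ (Pd.G_T h a ▸ hR (Pd.T a))
    have hu := Γ.C.emb_mem (X j).toAM
    have hu' := emb_wt (X j)
    have h2 : (LaurentPolynomial.T Γ.s : ℤ[T;T⁻¹]) • (Pi.single (.inr j) 1 : ιA ⊕ ιB → ℤ[T;T⁻¹]) =
        (fun x => G (Sum.elim Pd.P X x) (X j).free) -
          (fun x => G (Sum.elim Pd.P X x) (coker (Y := (X j).free) hu hu')) -
          (LaurentPolynomial.T Γ.s : ℤ[T;T⁻¹]) • fun x => G (Sum.elim Pd.P X x) (X j) := funext fun x => by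
      have h3 := G_add (Sum.elim Pd.P X x) (Y2 := (X j).free) hu hu' (Γ.C.emb_injective _)
        (mkQ_mem _ (inv_range hu)) (mkQ_wt hu hu') (Submodule.mkQ_surjective _)
        (Submodule.ker_mkQ _) (hm_Hom _ _) fun g =>
          ⟨fun hg => ⟨hg, (Γ.C.proj_free _).mem_right (comp_mem hu hg)⟩, fun hg => hg.1⟩
      rw [Pd.gd_Hom h, neg_zero, T_zero, one_mul] at h3
      simp only [Pi.sub_apply, Pi.smul_apply, smul_eq_mul]
      rw [h3]
      ring
    exact hT _ (h2 ▸ sub_mem (sub_mem (hR _) (hR _)) (R.smul_mem _ (hR _)))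
  intro v
  change v ∈ R
  rw [← Finset.univ_sum_single v]
  exact R.sum_mem fun x _ => by
    have := R.smul_mem (v x) (h1 x)
    rwa [← Pi.single_smul, smul_eq_mul, mul_one] at this

end PD

end GB
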