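import Cfsg.Agent.Lib.Block.GBA2
import Cfsg.Agent.Lib.Block.GBA3
import Cfsg.Agent.Lib.Block.GBGr

/-!
# The graded Cartan matrix of `k[P : E]`
-/

set_option autoImplicit false
set_option linter.unusedSectionVars false

namespace GB

open Module Cfsg CT BT LaurentPolynomial
open scoped MonoidAlgebra ComplexConjugate

universe u

namespace SA.Gr

variable {k : Type} [Field k] [Infinite k] {A B : Type u} [Ring A] [Algebra k A] [Ring B]
  [Algebra k B] {S : SA k A B} (Γ : S.Gr) [FiniteDimensional k A] [FiniteDimensional k B]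

theorem c_ι_mul {d : ℕ} (hd : d < Γ.s + 1) (y : B) (a : A) :
    Γ.c d (S.ι y * a) = S.ι y * Γ.c d a :=
  coeff_eq_of_sum (k := k) (v := fun d => Γ.c d (S.ι y * a)) (w := fun d => S.ι y * Γ.c d a)
    (fun t => by
      simp only [← mul_smul_comm]
      rw [← Finset.mul_sum, ← Γ.hc, ← Γ.hc, map_mul, Γ.hι]) hd

theorem c_mul_ι {d : ℕ} (hd : d < Γ.s + 1) (a : A) (y : B) :
    Γ.c d (a * S.ι y) = Γ.c d a * S.ι y :=
  coeff_eq_of_sum (k := k) (v := fun d => Γ.c d (a * S.ι y)) (w := fun d => Γ.c d a * S.ι y)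
    (fun t => by
      simp only [← smul_mul_assoc]
      rw [← Finset.sum_mul, ← Γ.hc, ← Γ.hc, map_mul, Γ.hι]) hd

theorem c_c {d : ℕ} (hd : d < Γ.s + 1) (a : A) : Γ.c d (Γ.c d a) = Γ.c d a := by
  rw [Γ.c_of_homog hd hd fun t => Γ.α_c t a hd, if_pos rfl]

/-- The action of `B` on the degree `d` part of `A e`. -/
noncomputable def sa (d : ℕ) (e : B) : B →ₗ[k] Module.End k A where
  toFun y := LinearMap.mulLeft k (S.ι y) ∘ₗ Γ.c d ∘ₗ LinearMap.mulRight k (S.ι e)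
  map_add' _ _ := by ext; simp [add_mul]
  map_smul' _ _ := by ext; simp

theorem sa_apply (d : ℕ) (e y : B) (a : A) : Γ.sa d e y a = S.ι y * Γ.c d (a * S.ι e) := rfl

theorem sa_mul {d : ℕ} (hd : d < Γ.s + 1) {e : B} (he : e * e = e) (x y : B) :
    Γ.sa d e (x * y) = Γ.sa d e x * Γ.sa d e y := LinearMap.ext fun a => by
  rw [Module.End.mul_apply, sa_apply, sa_apply, sa_apply, mul_assoc, Γ.c_ι_mul hd, ← Γ.c_mul_ι hd,
    Γ.c_c hd, mul_assoc a, ← map_mul, he, map_mul, mul_assoc]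

theorem range_sa {d : ℕ} (hd : d < Γ.s + 1) {e e' : B} (he : e * e = e) (he' : e' * e' = e') :
    LinearMap.range (Γ.sa d e' e) = Γ.cor e e' d := by
  ext x
  constructor
  · rintro ⟨a, rfl⟩
    rw [sa_apply]
    refine ⟨by rw [← mul_assoc, ← map_mul, he], ?_, fun t => ?_⟩
    · rw [mul_assoc, ← Γ.c_mul_ι hd, mul_assoc, ← map_mul, he']
    · rw [map_mul, Γ.hι, Γ.α_c t _ hd, mul_smul_comm, zpow_natCast, Units.val_pow_eq_pow_val]
  · rintro ⟨h1, h2, h3⟩
    exact ⟨x, by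
      rw [sa_apply, h2, Γ.c_of_homog hd hd fun t => by
        rw [h3, zpow_natCast, Units.val_pow_eq_pow_val], if_pos rfl, h1]⟩

theorem cor_eq_bot (e e' : B) {j : ℤ} (hj : ∀ d : ℕ, d < Γ.s + 1 → (d : ℤ) ≠ j) :
    Γ.cor e e' j = ⊥ := by
  refine (Submodule.eq_bot_iff _).2 fun x hx => ?_
  rw [← Γ.sum_c x]
  refine Finset.sum_eq_zero fun d hd => ?_
  have h1 := Finset.mem_range.1 hd
  let θ : kˣ →* Module.End k A :=
    { toFun := fun t => (Γ.α t).toLinearMap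
      map_one' := by ext; simp
      map_mul' := fun _ _ => by ext; simp }
  have h2 : Γ.c d x ∈ wt θ d := fun t => by
    rw [zpow_natCast, Units.val_pow_eq_pow_val]; exact Γ.α_c t x h1
  have h3 : Γ.c d x ∈ wt θ j := fun t => by
    have h4 := Γ.c_α t x h1
    rw [hx.2.2, map_smul] at h4
    exact (Γ.α_c t x h1).trans h4.symm
  exact Submodule.disjoint_def.1 ((iSupIndep_wt θ).pairwiseDisjoint (hj d h1)) _ h2 h3

theorem G_pd {I : Type*} (D : ID k B I) (a b : I) : GM.G ((Γ.pd D).P a) ((Γ.pd D).P b) =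
    ∑ d ∈ Finset.range (Γ.s + 1), C (finrank k (Γ.cor (D.ε a) (D.ε b) d) : ℤ) * T d := by
  ext j
  rw [GM.coeff_G, gd_pd]
  simp only [← single_eq_C_mul_T, AddMonoidAlgebra.coeff_sum, Finsupp.finsetSum_apply,
    AddMonoidAlgebra.coeff_single, Finsupp.single_apply]
  by_cases h : ∃ d : ℕ, d < Γ.s + 1 ∧ (d : ℤ) = j
  · obtain ⟨d, hd, rfl⟩ := h
    rw [Finset.sum_eq_single_of_mem d (Finset.mem_range.2 hd) fun c _ h => by simp [h], if_pos rfl]
  · push Not at h
    rw [Γ.cor_eq_bot _ _ h, finrank_bot, Finset.sum_eq_zero fun d hd =>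
      if_neg (h d (Finset.mem_range.1 hd)), Nat.cast_zero]

theorem eval_G_pd {I : Type*} (D : ID k B I) (a b : I) {R : Type*} [CommRing R] (z : Rˣ) :
    eval₂ (Int.castRingHom R) z (GM.G ((Γ.pd D).P a) ((Γ.pd D).P b)) =
      ∑ d ∈ Finset.range (Γ.s + 1), (finrank k (Γ.cor (D.ε a) (D.ε b) d) : R) * z ^ d := by
  rw [G_pd, map_sum]
  exact Finset.sum_congr rfl fun d _ => by rw [eval₂_C_mul_T_n]; simp

end SA.Gr

attribute [local irreducible] instFieldResF

variable {p : ℕ} [hp : Fact p.Prime] {M : Ideal AlgInt} {hM : IsPModular p M}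

instance : Infinite (ResF hM) := IsAlgClosed.instInfinite

section

variable {E : Type u} [Group E] [Fintype E] (W : Wed hM E) (hE : ¬ p ∣ Nat.card E)

/-- The action of `k[E]` on `k[E] e`. -/
noncomputable def se (e : (ResF hM)[E]) : (ResF hM)[E] →ₗ[ResF hM] Module.End (ResF hM) (ResF hM)[E] where
  toFun y := LinearMap.mulLeft _ y ∘ₗ LinearMap.mulRight _ e
  map_add' _ _ := by ext1; ext1; simp [add_mul]
  map_smul' _ _ := by ext1; ext1; simp

theorem se_apply (e y a : (ResF hM)[E]) : se e y a = y * (a * e) := rfl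

theorem se_mul {e : (ResF hM)[E]} (he : e * e = e) (x y : (ResF hM)[E]) :
    se e (x * y) = se e x * se e y := LinearMap.ext fun a => by
  simp only [Module.End.mul_apply, se_apply, mul_assoc, he]

include hE in
theorem bch_se (b : Fin W.N) : bch W (se (wε W b)) = W.φ b := by
  rw [bch, Finset.sum_eq_single b (fun a _ h => ?_) (by simp)]
  · have h : LinearMap.range (se (wε W b) (wε W b)) = Submodule.span _ {wε W b} := by
      refine le_antisymm ?_ ((Submodule.span_singleton_le_iff_mem _ _).2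
        ⟨1, by rw [se_apply, one_mul, wε_idem]⟩)
      rintro _ ⟨y, rfl⟩
      obtain ⟨c, hc⟩ := (wid W hE).loc b y
      exact Submodule.mem_span_singleton.2 ⟨c, hc.symm.trans (mul_assoc _ _ _)⟩
    rw [h, finrank_span_singleton (v := wε W b) ((wid W hE).nz b), Nat.cast_one, one_smul]
  · have h1 : LinearMap.range (se (wε W b) (wε W a)) = ⊥ := LinearMap.range_eq_bot.2
      (LinearMap.ext fun y => (mul_assoc _ _ _).symm.trans ((wid W hE).ne a b h y))
    rw [h1, finrank_bot, Nat.cast_zero, zero_smul]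

include hE in
theorem exists_eig_se (b : Fin W.N) (g : E) : ∃ (n : ℕ) (v : Basis (Fin n) (ResF hM) (ResF hM)[E])
    (L : Finset (Fin n)) (μ : Fin n → ℂ), (∀ l ∈ L, μ l ^ Nat.card E = 1) ∧
    (∀ (i : ℕ) l, MonoidAlgebra.single (g ^ i) 1 * (v l * wε W b) =
      if l ∈ L then red hM (μ l) ^ i • v l else 0) ∧ W.φ b g = ∑ l ∈ L, μ l := by
  classical
  have h0 : ∀ i, se (wε W b) (MonoidAlgebra.single g 1) ^ (i + 1) =
      se (wε W b) (MonoidAlgebra.single (g ^ (i + 1)) 1) := fun i => by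
    induction i with
    | zero => simp
    | succ i ih => rw [pow_succ, ih, ← se_mul (wε_idem W b), MonoidAlgebra.single_mul_single,
        ← pow_succ, mul_one]
  obtain ⟨v, ε, h1, h2⟩ := exists_eigenbasis (se (wε W b) (MonoidAlgebra.single g 1))
    (natCast_ne (hM := hM) hE) (by rw [h0, pow_succ, pow_card_eq_one', one_mul])
  have h3 : ∀ l, ∃ ζ : ℂ, ε l ≠ 0 → ζ ^ Nat.card E = 1 ∧ red hM ζ = ε l := fun l => by
    rcases h1 l with h | h
    · exact ⟨0, fun e => absurd h e⟩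
    · obtain ⟨ζ, hζ⟩ := exists_red_root hE h
      exact ⟨ζ, fun _ => hζ⟩
  choose μ hμ using h3
  have h4 : ∀ l, v l * wε W b = ε l • (MonoidAlgebra.single g⁻¹ 1 * v l) := fun l => by
    rw [← mul_smul_comm, ← h2, se_apply, ← mul_assoc, MonoidAlgebra.single_mul_single,
      inv_mul_cancel, mul_one, ← MonoidAlgebra.one_def, one_mul]
  have h5 : ∀ (i : ℕ) l, MonoidAlgebra.single (g ^ i) 1 * (v l * wε W b) =
      if l ∈ Finset.univ.filter (ε · ≠ 0) then red hM (μ l) ^ i • v l else 0 := fun i l => by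
    by_cases h : ε l = 0
    · simp [h4, h]
    · have h6 : v l * wε W b = v l := smul_right_injective _ h (by
        change ε l • _ = ε l • _
        rw [← smul_mul_assoc, ← h2, se_apply, mul_assoc, mul_assoc, wε_idem])
      have h7 := h2 l
      rw [se_apply, h6] at h7
      rw [if_pos (by simpa using h), (hμ l h).2, h6]
      induction i with
      | zero => simp [← MonoidAlgebra.one_def]
      | succ i ih => rw [pow_succ, ← mul_one (1 : ResF hM), ← MonoidAlgebra.single_mul_single,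
          mul_assoc, h7, mul_smul_comm, ih, smul_smul, pow_succ']
  have h6 : ∀ l ∈ Finset.univ.filter (ε · ≠ 0), μ l ^ Nat.card E = 1 := fun l hl =>
    (hμ l (by simpa using hl)).1
  exact ⟨_, v, _, μ, h6, h5, by
    rw [← bch_se W hE, bch_apply W hE (se_mul (wε_idem W b)) v _ μ h6 g h5]⟩

include hE in
theorem sum_ip_φ {θ : E → ℂ} (hθ : IsClassFunction E θ) : ∑ i, ip θ (W.φ i) • W.φ i = θ := by
  have h := W.pRegularPart_eq_sum hθ
  have h1 : ∀ i, W.Φ i = W.φ i := fun i => by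
    obtain ⟨χ, h1, h2⟩ := Φ_eq_φ W hE i
    rw [h1, h2]
  simp only [h1] at h
  rw [← h]
  funext g
  exact pRegularPart_of_not_dvd θ fun h => hE (h.trans (orderOf_dvd_natCard g))

include hE in
theorem ip_φ_φ (i j : Fin W.N) : ip (W.φ i) (W.φ j) = if i = j then 1 else 0 := by
  obtain ⟨χ, h1, h2⟩ := Φ_eq_φ W hE j
  rw [← W.ip_φ_Φ, h1, h2]

end

namespace SDP.ISp

variable {H Q E : Type u} [Group H] [CommGroup Q] [Group E] [Fintype H] [Fintype Q] [Fintype E]
  {D : SDP H Q E} {U U' : Submodule (ResF hM) (ResF hM)[Q]} (S : D.ISp p U U')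
  {ι ι' : Type} [Fintype ι] [DecidableEq ι] [Fintype ι'] [DecidableEq ι']

variable (D U U') in
/-- Lifted eigenvalues of `g` on `U` and `U'`. -/
def Eig (g : E) (ζ : ι → ℂ) (ζ' : ι' → ℂ) : Prop :=
  ∃ (b : Basis ι (ResF hM) U) (b' : Basis ι' (ResF hM) U'),
    (∀ i, ζ i ^ Nat.card E = 1 ∧ act (ResF hM) D.φ g (b i) = red hM (ζ i) • (b i : (ResF hM)[Q])) ∧
    ∀ i, ζ' i ^ Nat.card E = 1 ∧ act (ResF hM) D.φ g (b' i) = red hM (ζ' i) • (b' i : (ResF hM)[Q])

theorem exists_eig_aux (hE : ¬ p ∣ Nat.card E) {U : Submodule (ResF hM) (ResF hM)[Q]}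
    (hU : ∀ e, ∀ w ∈ U, act (ResF hM) D.φ e w ∈ U) (g : E) :
    ∃ (ζ : Fin (finrank (ResF hM) U) → ℂ) (b : Basis (Fin (finrank (ResF hM) U)) (ResF hM) U),
    ∀ i, ζ i ^ Nat.card E = 1 ∧ act (ResF hM) D.φ g (b i) = red hM (ζ i) • (b i : (ResF hM)[Q]) := by
  let ρ : E →* Module.End (ResF hM) U :=
    { toFun := fun e => (actR (ResF hM) D.φ e).restrict (hU e)
      map_one' := by ext1 x; exact Subtype.ext (by simp)
      map_mul' := fun a b => by ext1 x; exact Subtype.ext (by simp; rfl) }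
  obtain ⟨b, ε, h1, h2⟩ := exists_eigenbasis (ρ g) (natCast_ne (hM := hM) hE)
    (by rw [← map_pow, pow_succ, pow_card_eq_one', one_mul])
  have h3 : ∀ i, ε i ^ Nat.card E = 1 := fun i => (h1 i).resolve_left fun e => b.ne_zero i (by
    have h4 := congrArg (ρ g⁻¹) (h2 i)
    rwa [e, zero_smul, map_zero, ← Module.End.mul_apply, ← map_mul, inv_mul_cancel, map_one,
      Module.End.one_apply] at h4)
  choose ζ h4 h5 using fun i => exists_red_root hE (h3 i)
  exact ⟨ζ, b, fun i => ⟨h4 i, (h5 i).symm ▸ congrArg Subtype.val (h2 i)⟩⟩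

include S in
theorem exists_eig (hE : ¬ p ∣ Nat.card E) (g : E) : ∃ (ζ : Fin (finrank (ResF hM) U) → ℂ)
    (ζ' : Fin (finrank (ResF hM) U') → ℂ), Eig D U U' g ζ ζ' := by
  obtain ⟨ζ, b, h⟩ := exists_eig_aux hE S.inv g
  obtain ⟨ζ', b', h'⟩ := exists_eig_aux hE S.inv' g
  exact ⟨ζ, ζ', b, b', h, h'⟩

variable (W : Wed hM E) (hE : ¬ p ∣ Nat.card E)

open Classical in
include hE in
theorem bch_sa {g : E} {ζ : ι → ℂ} {ζ' : ι' → ℂ} (h : Eig D U U' g ζ ζ') {d : ℕ}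
    (hd : d < S.gr.s + 1) (b : Fin W.N) : bch W (S.gr.sa d (wε W b)) g =
      (∑ m : ι ⊕ ι' → Fin p with dg m = d, ∏ i, Sum.elim ζ ζ' i ^ (m i : ℕ)) * W.φ b g := by
  obtain ⟨bU, bU', h1, h2⟩ := h
  obtain ⟨n, v, L, μ, h3, h4, h5⟩ := exists_eig_se W hE b g
  have h6 : ∀ i, Sum.elim ζ ζ' i ^ Nat.card E = 1 := by
    rintro (i | i); exacts [(h1 i).1, (h2 i).1]
  have h7 : ∀ m : ι ⊕ ι' → Fin p, (∏ i, Sum.elim ζ ζ' i ^ (m i : ℕ)) ^ Nat.card E = 1 := fun m => by
    rw [← Finset.prod_pow]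
    exact Finset.prod_eq_one fun i _ => by rw [pow_right_comm, h6, one_pow]
  have h8 : ∀ (m : ι ⊕ ι' → Fin p) (i : ℕ), act (ResF hM) D.φ (g ^ i) (mono (Sp.fam bU bU') fun j => m j) =
      red hM (∏ i, Sum.elim ζ ζ' i ^ (m i : ℕ)) ^ i • mono (Sp.fam bU bU') fun j => m j := fun m i => by
    have e : act (ResF hM) D.φ g (mono (Sp.fam bU bU') fun j => m j) =
        red hM (∏ i, Sum.elim ζ ζ' i ^ (m i : ℕ)) • mono (Sp.fam bU bU') fun j => m j := by
      rw [map_mono _ (c := fun i => red hM (Sum.elim ζ ζ' i)) (by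
        rintro (i | i); exacts [(h1 i).2, (h2 i).2]),
        red_prod hM _ _ fun i _ => pow_mem (root_mem hM hE (h6 i)) _]
      simp only [red_pow hM (root_mem hM hE (h6 _))]
    induction i with
    | zero => simp
    | succ i ih => rw [pow_succ, map_mul, AlgHom.mul_apply, e, map_smul, ih, smul_smul, pow_succ']
  rw [bch_apply W hE (S.gr.sa_mul hd (wε_idem W b)) (S.hb bU bU' v)
    ((Finset.univ.filter fun m => dg m = d) ×ˢ L)
    (fun x => (∏ i, Sum.elim ζ ζ' i ^ (x.1 i : ℕ)) * μ x.2) (fun x hx => by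
      rw [mul_pow, h7, h3 _ (Finset.mem_product.1 hx).2, one_mul]) g fun i x => ?_,
    Finset.sum_product, h5, Finset.sum_mul_sum]
  rw [SA.Gr.sa_apply, S.gr.c_mul_ι hd, S.gr_c_hb _ _ _ hd]
  simp only [Finset.mem_product, Finset.mem_filter, Finset.mem_univ, true_and]
  by_cases h9 : dg x.1 = d
  · rw [if_pos h9.symm, hb_apply]
    change D.ιE _ _ * (_ * D.ιE _ _) = _
    rw [mul_assoc, ← mul_assoc (D.ιE _ _), ιE_mul_ιQ, h8, mul_assoc, ← map_mul, ← map_mul, h4]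
    by_cases h10 : x.2 ∈ L
    · rw [if_pos h10, if_pos ⟨h9, h10⟩, map_smul, map_smul, smul_mul_smul_comm, ← mul_pow,
        red_mul hM (root_mem hM hE (h7 _)) (root_mem hM hE (h3 _ h10))]
    · simp [h10]
  · simp [h9, Ne.symm h9]

/-- The graded Brauer character of `k[Q]`. -/
noncomputable def Ψ (z : ℂ) : E → ℂ := ∑ d ∈ Finset.range (S.gr.s + 1),
  z ^ d • ∑ b, ip 1 (W.φ b) • bch W (S.gr.sa d (wε W b))

theorem isClassFunction_Ψ (z : ℂ) : IsClassFunction E (S.Ψ W z) := fun g h => by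
  simp only [Ψ, Finset.sum_apply, Pi.smul_apply, isClassFunction_bch W _ g h]

open Classical in
include hE in
theorem ψ_apply {g : E} {ζ : ι → ℂ} {ζ' : ι' → ℂ} (h : Eig D U U' g ζ ζ') {d : ℕ}
    (hd : d < S.gr.s + 1) : (∑ b, ip 1 (W.φ b) • bch W (S.gr.sa d (wε W b))) g =
      ∑ m : ι ⊕ ι' → Fin p with dg m = d, ∏ i, Sum.elim ζ ζ' i ^ (m i : ℕ) := by
  have h1 := congrFun (sum_ip_φ W hE (θ := 1) fun _ _ => rfl) g
  simp only [Finset.sum_apply, Pi.smul_apply, smul_eq_mul, S.bch_sa W hE h hd] at h1 ⊢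
  simp only [mul_left_comm (ip 1 _), ← Finset.mul_sum, h1, Pi.one_apply, mul_one]

include hE in
theorem Ψ_apply {g : E} {ζ : ι → ℂ} {ζ' : ι' → ℂ} (h : Eig D U U' g ζ ζ') (z : ℂ) :
    S.Ψ W z g = (∏ i, ∑ j ∈ Finset.range p, (z * ζ i) ^ j) *
      ∏ i, ∑ j ∈ Finset.range p, ζ' i ^ j := by
  classical
  have hs : S.gr.s = Fintype.card ι * (p - 1) := by
    obtain ⟨b, -⟩ := h
    rw [gr_s, finrank_eq_card_basis b]
  have h1 : (∏ i, ∑ j ∈ Finset.range p, (z * ζ i) ^ j) * ∏ i, ∑ j ∈ Finset.range p, ζ' i ^ j =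
      ∏ i, ∑ j : Fin p, Sum.elim (fun i => z * ζ i) ζ' i ^ (j : ℕ) := by
    simp only [Fintype.prod_sum_type, Sum.elim_inl, Sum.elim_inr, Finset.sum_range]
  rw [h1, Finset.prod_univ_sum, Fintype.piFinset_univ, Ψ, Finset.sum_apply,
    ← Finset.sum_fiberwise_of_maps_to (t := Finset.range (S.gr.s + 1)) (g := dg)
      fun m _ => Finset.mem_range.2 (hs ▸ dg_lt m)]
  refine Finset.sum_congr rfl fun d hd => ?_
  rw [Pi.smul_apply, S.ψ_apply W hE h (Finset.mem_range.1 hd), smul_eq_mul, Finset.mul_sum]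
  refine Finset.sum_congr (by convert rfl) fun m hm => ?_
  rw [← (Finset.mem_filter.1 hm).2]
  simp [dg, mul_pow, Finset.prod_mul_distrib, Finset.prod_pow_eq_pow_sum, mul_assoc]

include hE in
theorem sum_cor (a b : Fin W.N) (z : ℂ) : ∑ d ∈ Finset.range (S.gr.s + 1),
    (finrank (ResF hM) (S.gr.cor (wε W a) (wε W b) d) : ℂ) * z ^ d =
      ip (S.Ψ W z * W.φ b) (W.φ a) := by
  rw [Ψ, Finset.sum_mul, ip_sum_left]
  refine Finset.sum_congr rfl fun d hd => ?_
  have h1 := Finset.mem_range.1 hd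
  obtain ⟨χ, h2, h3⟩ := Φ_eq_φ W hE a
  rw [smul_mul_assoc, ip_smul_left, ← S.gr.range_sa h1 (wε_idem W a) (wε_idem W b), ← ip_bch, h2,
    h3, mul_comm]
  congr 2
  funext g
  obtain ⟨ζ, ζ', h⟩ := S.exists_eig hE g
  rw [Pi.mul_apply, S.ψ_apply W hE h h1, S.bch_sa W hE h h1]

/-- The graded Cartan matrix of `k[H]`. -/
theorem eval_G (a b : Fin W.N) (z : ℂˣ) :
    eval₂ (Int.castRingHom ℂ) z (GM.G ((S.gr.pd (wid W hE)).P a) ((S.gr.pd (wid W hE)).P b)) =
      ip (S.Ψ W z * W.φ b) (W.φ a) :=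
  (S.gr.eval_G_pd _ a b z).trans (S.sum_cor W hE a b z)

end SDP.ISp

end GB
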