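import Mathlib.Analysis.Matrix.Spectrum
import Mathlib.Topology.Instances.Matrix
import Mathlib.Analysis.Normed.Module.FiniteDimension

/-!
# The signature along a path of invertible hermitian matrices
-/

set_option autoImplicit false
set_option linter.unusedSectionVars false

namespace GBS

open Matrix Module Filter Topology

variable {n : Type*} [Fintype n] [DecidableEq n]

/-- The real value of the hermitian form of `H` at `x`. -/
noncomputable def qf (H : Matrix n n ℂ) (x : n → ℂ) : ℝ := (star x ⬝ᵥ H *ᵥ x).re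

/-- The form of `H` is positive definite on `W`. -/
def PosOn (H : Matrix n n ℂ) (W : Submodule ℂ (n → ℂ)) : Prop := ∀ x ∈ W, x ≠ 0 → 0 < qf H x

theorem qf_neg (H : Matrix n n ℂ) (x : n → ℂ) : qf (-H) x = -qf H x := by
  simp [qf, neg_mulVec]

theorem qf_smul (H : Matrix n n ℂ) (c : ℝ) (x : n → ℂ) : qf H ((c : ℂ) • x) = c ^ 2 * qf H x := by
  rw [qf, qf, star_smul, mulVec_smul, smul_dotProduct, dotProduct_smul, smul_smul, smul_eq_mul,
    Complex.star_def, Complex.conj_ofReal, ← Complex.ofReal_mul, Complex.re_ofReal_mul, sq]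

theorem qf_diagonal (d : n → ℝ) (x : n → ℂ) :
    qf (diagonal fun i => (d i : ℂ)) x = ∑ i, d i * ‖x i‖ ^ 2 := by
  rw [qf, dotProduct, Complex.re_sum]
  refine Finset.sum_congr rfl fun i _ => ?_
  rw [mulVec_diagonal, mul_left_comm, Complex.re_ofReal_mul, Pi.star_apply, Complex.star_def,
    Complex.conj_mul', ← Complex.ofReal_pow, Complex.ofReal_re]

theorem qf_conj {m : Type*} [Fintype m] (H : Matrix n n ℂ) (U : Matrix n m ℂ) (x : m → ℂ) :
    (star x ⬝ᵥ (Uᴴ * H * U) *ᵥ x).re = qf H (U *ᵥ x) := by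
  rw [qf, star_mulVec, ← dotProduct_mulVec, mulVec_mulVec, mulVec_mulVec]

theorem finrank_add_le {H : Matrix n n ℂ} {W W' : Submodule ℂ (n → ℂ)} (h : PosOn H W)
    (h' : ∀ x ∈ W', qf H x ≤ 0) : finrank ℂ W + finrank ℂ W' ≤ Fintype.card n := by
  rw [← finrank_fintype_fun_eq_card ℂ]
  refine Submodule.finrank_add_finrank_le_of_disjoint (Submodule.disjoint_def.2 fun x hx hx' => ?_)
  by_contra h0
  exact (h x hx h0).not_ge (h' x hx')

theorem exists_split {H : Matrix n n ℂ} (hH : H.IsHermitian) (h0 : ∀ x, H *ᵥ x = 0 → x = 0) :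
    ∃ W W' : Submodule ℂ (n → ℂ), finrank ℂ W + finrank ℂ W' = Fintype.card n ∧ PosOn H W ∧
      PosOn (-H) W' := by
  have hU := hH.conjStarAlgAut_star_eigenvectorUnitary
  rw [Unitary.conjStarAlgAut_star_apply] at hU
  set U : Matrix n n ℂ := (hH.eigenvectorUnitary : Matrix n n ℂ) with hUd
  have hinj : Function.Injective (mulVecLin U) := by
    intro x y h
    have := congrArg (star U *ᵥ ·) h
    simpa [mulVec_mulVec, hUd] using this
  have key : ∀ x, qf H (U *ᵥ x) = ∑ i, hH.eigenvalues i * ‖x i‖ ^ 2 := fun x => by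
    rw [← qf_conj, ← qf_diagonal, qf]
    congr 3
  have hpos : ∀ (d : n → ℝ) (x : n → ℂ), x ∈ Pi.spanSubset ℂ {i | 0 < d i} → x ≠ 0 →
      0 < ∑ i, d i * ‖x i‖ ^ 2 := fun d x hx h1 => by
    obtain ⟨i, hi⟩ := Function.ne_iff.1 h1
    rw [Pi.mem_spanSubset_iff] at hx
    refine Finset.sum_pos' (fun j _ => ?_) ⟨i, Finset.mem_univ _, mul_pos ?_ (by positivity)⟩
    · by_cases hj : 0 < d j
      · positivity
      · simp [hx j hj]
    · by_contra h2
      exact hi (hx i h2)
  have hne : ∀ i, hH.eigenvalues i ≠ 0 := fun i h => by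
    have h1 := hH.mulVec_eigenvectorBasis i
    rw [h, zero_smul] at h1
    exact hH.eigenvectorBasis.orthonormal.ne_zero i (by simpa using h0 _ h1)
  refine ⟨(Pi.spanSubset ℂ {i | 0 < hH.eigenvalues i}).map (mulVecLin U),
    (Pi.spanSubset ℂ {i | 0 < -hH.eigenvalues i}).map (mulVecLin U), ?_, ?_, ?_⟩
  · rw [← (Submodule.equivMapOfInjective _ hinj _).finrank_eq,
      ← (Submodule.equivMapOfInjective _ hinj _).finrank_eq, Pi.dim_spanSubset, Pi.dim_spanSubset,
      ← Nat.card_eq_fintype_card, ← Set.ncard_add_ncard_compl {i | 0 < hH.eigenvalues i}]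
    congr 2
    ext i
    have := hne i
    simp only [Set.mem_ofPred_eq, Set.mem_compl_iff]
    constructor
    · intro h; linarith
    · intro h; exact neg_pos.2 (lt_of_le_of_ne (not_lt.1 h) this)
  · rintro _ ⟨x, hx, rfl⟩ h1
    rw [mulVecLin_apply, key]
    exact hpos _ x hx fun h => h1 (by simp [h])
  · rintro _ ⟨x, hx, rfl⟩ h1
    rw [mulVecLin_apply, qf_neg, key, ← Finset.sum_neg_distrib]
    simpa using hpos _ x hx fun h => h1 (by simp [h])

variable {X : Type*} [TopologicalSpace X]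

theorem isOpen_posOn {H : X → Matrix n n ℂ} (hH : Continuous H) (W : Submodule ℂ (n → ℂ)) :
    IsOpen {θ | PosOn (H θ) W} := by
  refine isOpen_iff_mem_nhds.2 fun θ hθ => ?_
  have hK : IsCompact (Metric.sphere (0 : n → ℂ) 1 ∩ W) :=
    (isCompact_sphere _ _).inter_right W.closed_of_finiteDimensional
  have hc : Continuous fun z : X × (n → ℂ) => qf (H z.1) z.2 :=
    Complex.continuous_re.comp ((continuous_star.comp continuous_snd).dotProduct
      ((hH.comp continuous_fst).matrix_mulVec continuous_snd))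
  have := hK.eventually_forall_of_forall_eventually (x₀ := θ) (P := fun a y => 0 < qf (H a) y)
    fun y hy => hc.continuousAt.eventually (lt_mem_nhds (hθ y hy.2 fun h => by simpa [h] using hy.1))
  refine this.mono fun a ha x hx h0 => ?_
  have h1 : 0 < ‖x‖ := norm_pos_iff.2 h0
  have h2 := ha (((‖x‖⁻¹ : ℝ) : ℂ) • x) ⟨by
    rw [mem_sphere_zero_iff_norm, norm_smul, Complex.norm_real, norm_inv, norm_norm,
      inv_mul_cancel₀ h1.ne'], W.smul_mem _ hx⟩
  rw [qf_smul] at h2
  exact pos_of_mul_pos_right h2 (sq_nonneg _)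

/-- The positive index cannot drop along a path of invertible hermitian matrices. -/
theorem finrank_add_le_of_path [PreconnectedSpace X] {H : X → Matrix n n ℂ} (hc : Continuous H)
    (hH : ∀ θ, (H θ).IsHermitian) (h0 : ∀ θ x, H θ *ᵥ x = 0 → x = 0) {θ₀ θ₁ : X}
    {W W' : Submodule ℂ (n → ℂ)} (h : PosOn (H θ₀) W) (h' : ∀ x ∈ W', qf (H θ₁) x ≤ 0) :
    finrank ℂ W + finrank ℂ W' ≤ Fintype.card n := by
  let S : Set X := {θ | ∃ V : Submodule ℂ (n → ℂ), finrank ℂ W ≤ finrank ℂ V ∧ PosOn (H θ) V}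
  have h1 : IsOpen S := isOpen_iff_mem_nhds.2 fun θ ⟨V, hV, hV'⟩ =>
    mem_of_superset ((isOpen_posOn hc V).mem_nhds hV') fun _ h => ⟨V, hV, h⟩
  have h2 : IsOpen Sᶜ := isOpen_iff_mem_nhds.2 fun θ hθ => by
    obtain ⟨V, V', h3, h4, h5⟩ := exists_split (hH θ) (h0 θ)
    have h6 : finrank ℂ V < finrank ℂ W := not_le.1 fun h => hθ ⟨V, h, h4⟩
    refine mem_of_superset ((isOpen_posOn hc.neg V').mem_nhds h5) fun a ha ⟨Y, h7, h8⟩ => ?_
    have := finrank_add_le h8 (W' := V') fun x hx => by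
      by_cases h9 : x = 0
      · simp [h9, qf]
      · have := ha x hx h9
        rw [Pi.neg_apply, qf_neg] at this
        linarith
    omega
  have h3 : S = Set.univ := (IsClopen.eq_univ ⟨isOpen_compl_iff.1 h2, h1⟩ ⟨θ₀, W, le_rfl, h⟩)
  obtain ⟨V, h4, h5⟩ : θ₁ ∈ S := h3 ▸ Set.mem_univ _
  have := finrank_add_le h5 h'
  omega

variable {ι κ : Type*} [Fintype ι] [Fintype κ] [DecidableEq ι] [DecidableEq κ]

theorem qf_fromBlocks_inl (A : Matrix ι ι ℂ) (B : Matrix ι κ ℂ) (C : Matrix κ ι ℂ)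
    (D : Matrix κ κ ℂ) (x : ι → ℂ) : qf (fromBlocks A B C D) (Sum.elim x 0) = qf A x := by
  rw [qf, qf, fromBlocks_mulVec]
  simp [dotProduct]

/-- Two hermitian families with isomorphic linking forms: a subspace on which the first becomes
non-positive is no larger than the size of the second. -/
theorem finrank_le_card [PreconnectedSpace X] {CA U : X → Matrix ι ι ℂ} {CB V : X → Matrix κ κ ℂ}
    {R : X → Matrix ι κ ℂ} {I : X → Matrix κ ι ℂ} (c1 : Continuous CA) (c2 : Continuous R)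
    (c3 : Continuous V) (h1 : ∀ θ, (CA θ).IsHermitian) (h2 : ∀ θ, (V θ).IsHermitian)
    (h3 : ∀ θ, I θ * CA θ = CB θ * (R θ)ᴴ) (h4 : ∀ θ, I θ * R θ = 1 + CB θ * V θ)
    (h5 : ∀ θ, R θ * I θ = 1 + CA θ * U θ) {θ₀ θ₁ : X} (h6 : PosOn (CA θ₀) ⊤)
    {W : Submodule ℂ (ι → ℂ)} (h7 : ∀ x ∈ W, qf (CA θ₁) x ≤ 0) :
    finrank ℂ W ≤ Fintype.card κ := by
  let j : (ι → ℂ) →ₗ[ℂ] (ι ⊕ κ → ℂ) :=
    { toFun := fun x => Sum.elim x 0
      map_add' := fun x y => by ext (i | i) <;> simp
      map_smul' := fun c x => by ext (i | i) <;> simp }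
  have hj : Function.Injective j := fun x y h => funext fun i => congrFun h (.inl i)
  have := finrank_add_le_of_path (H := fun θ => fromBlocks (CA θ) (R θ) (R θ)ᴴ (V θ))
    (c1.matrix_fromBlocks c2 c2.matrix_conjTranspose c3)
    (fun θ => (h1 θ).fromBlocks rfl (h2 θ)) (fun θ z hz => by
      rw [← Sum.elim_comp_inl_inr z, fromBlocks_mulVec] at hz
      have e1 : CA θ *ᵥ (z ∘ Sum.inl) + R θ *ᵥ (z ∘ Sum.inr) = 0 :=
        funext fun i => congrFun hz (.inl i)
      have e2 : (R θ)ᴴ *ᵥ (z ∘ Sum.inl) + V θ *ᵥ (z ∘ Sum.inr) = 0 :=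
        funext fun i => congrFun hz (.inr i)
      have e3 : z ∘ Sum.inr = 0 := by
        have a1 := congrArg (I θ *ᵥ ·) e1
        have a2 := congrArg (CB θ *ᵥ ·) e2
        simp only [mulVec_add, mulVec_mulVec, mulVec_zero, h3, h4, add_mulVec, one_mulVec] at a1 a2
        linear_combination a1 - a2
      rw [e3, mulVec_zero, add_zero] at e1 e2
      have e4 : z ∘ Sum.inl = 0 := by
        have a1 := congrArg (fun A => Aᴴ *ᵥ (z ∘ Sum.inl)) (h5 θ)
        simp only [conjTranspose_mul, conjTranspose_add, conjTranspose_one, ← mulVec_mulVec,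
          add_mulVec, one_mulVec, (h1 θ).eq, e1, e2, mulVec_zero, add_zero] at a1
        exact a1.symm
      rw [← Sum.elim_comp_inl_inr z, e3, e4]
      simp) (θ₀ := θ₀) (θ₁ := θ₁) (W := (⊤ : Submodule ℂ (ι → ℂ)).map j) (W' := W.map j)
    (by
      rintro _ ⟨x, -, rfl⟩ h
      exact (qf_fromBlocks_inl ..).ge.trans_lt' (h6 x trivial fun h0 => h (by simp [h0])))
    (by
      rintro _ ⟨x, hx, rfl⟩
      exact (qf_fromBlocks_inl ..).le.trans (h7 x hx))
  rw [← (Submodule.equivMapOfInjective _ hj _).finrank_eq,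
    ← (Submodule.equivMapOfInjective _ hj _).finrank_eq, finrank_top,
    finrank_fintype_fun_eq_card, Fintype.card_sum] at this
  omega

end GBS
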