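import Cfsg.Agent.Lib.Block.GBGr
import Cfsg.Agent.Lib.Block.GBSig
import Mathlib.NumberTheory.Zsqrtd.GaussianInt
import Mathlib.Data.Matrix.ColumnRowPartitioned
import Mathlib.Analysis.SpecialFunctions.Trigonometric.Basic

/-!
# Consequences of the invertibility of the graded matrix: signature bound and a congruence
-/

set_option autoImplicit false
set_option linter.unusedSectionVars false

namespace GBG

open Matrix LaurentPolynomial

/-- Reduction of Gaussian integers modulo `1 + i`. -/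
def red : GaussianInt →+* ZMod 2 := Zsqrtd.lift ⟨1, by decide⟩

theorem red_apply (z : GaussianInt) : red z = z.re + z.im := by
  simp [red, Zsqrtd.lift]

theorem red_star (z : GaussianInt) : red (star z) = red z := by
  rw [red_apply, red_apply, Zsqrtd.re_star, Zsqrtd.im_star, Int.cast_neg, ZMod.neg_eq_self_mod_two]

theorem four_dvd_mul {x y : GaussianInt} (hx : star x = x) (hy : star y = y) (h1 : red x = 0)
    (h2 : red y = 0) : (4 : GaussianInt) ∣ x * y := by
  have key : ∀ x : GaussianInt, star x = x → red x = 0 → (2 : GaussianInt) ∣ x := fun x hx h => by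
    have h3 : x.im = 0 := by
      have := congrArg Zsqrtd.im hx
      rw [Zsqrtd.im_star] at this
      omega
    rw [red_apply, h3, Int.cast_zero, add_zero, ZMod.intCast_zmod_eq_zero_iff_dvd] at h
    obtain ⟨c, hc⟩ := h
    exact ⟨c, Zsqrtd.ext (by simpa using hc) (by simpa using h3)⟩
  have := mul_dvd_mul (key x hx h1) (key y hy h2)
  rwa [show (2 * 2 : GaussianInt) = 4 by norm_num] at this

theorem four_dvd_norm {b : GaussianInt} (h : red b ≠ 0) : (4 : GaussianInt) ∣ b * star b - 1 := by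
  rw [red_apply, ← Int.cast_add, Ne, ZMod.intCast_zmod_eq_zero_iff_dvd] at h
  have h1 : (4 : ℤ) ∣ b.re * b.re + b.im * b.im - 1 := by
    rcases Int.even_or_odd' b.re with ⟨x, hx | hx⟩ <;> rcases Int.even_or_odd' b.im with ⟨y, hy | hy⟩
    · exact absurd ⟨x + y, by rw [hx, hy]; push_cast; ring⟩ h
    · exact ⟨x * x + y * y + y, by rw [hx, hy]; ring⟩
    · exact ⟨x * x + x + y * y, by rw [hx, hy]; ring⟩
    · exact absurd ⟨x + y + 1, by rw [hx, hy]; push_cast; ring⟩ h
  obtain ⟨c, hc⟩ := h1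
  refine ⟨c, Zsqrtd.ext ?_ ?_⟩
  · simp [← hc]
  · simp [mul_comm]

/-- The determinant of an even hermitian matrix over the Gaussian integers modulo four. -/
theorem det_mod_four (n : ℕ) : ∀ {ι : Type} [Fintype ι] [DecidableEq ι]
    (N : Matrix ι ι GaussianInt), Fintype.card ι = n → Nᴴ = N → (∀ j, red (N j j) = 0) →
    red N.det ≠ 0 → ∃ m, n = 2 * m ∧ (4 : GaussianInt) ∣ N.det - (-1) ^ m := by
  induction n using Nat.strong_induction_on with
  | _ n ih =>
  intro ι _ _ N hn hN hd h0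
  rcases isEmpty_or_nonempty ι with hι | ⟨⟨a⟩⟩
  · exact ⟨0, by rw [← hn, Fintype.card_eq_zero], by simp⟩
  obtain ⟨b, hb⟩ : ∃ b, red (N a b) ≠ 0 := by
    by_contra h
    push Not at h
    exact h0 (by rw [RingHom.map_det]; exact det_eq_zero_of_row_eq_zero a h)
  have hab : a ≠ b := fun e => hb (e ▸ hd a)
  have hs : ∀ i j, star (N i j) = N j i := fun i j => congrFun (congrFun hN j) i
  let v : Fin 2 → ι := ![a, b]
  have hv : Function.Injective v := by
    intro i j hij
    fin_cases i <;> fin_cases j <;> simp_all [v, hab.symm]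
  let e : Fin 2 ⊕ ↥(Set.range v)ᶜ ≃ ι :=
    ((Equiv.ofInjective v hv).sumCongr (Equiv.refl _)).trans (Equiv.Set.sumCompl _)
  have e0 : e (.inl 0) = a := rfl
  have e1 : e (.inl 1) = b := rfl
  let N' := N.submatrix e e
  let P := N'.toBlocks₁₁
  let Q := N'.toBlocks₁₂
  let Q' := N'.toBlocks₂₁
  let S := P.det • N'.toBlocks₂₂ - Q' * P.adjugate * Q
  have hc : 2 + Fintype.card ↥(Set.range v)ᶜ = n := by
    rw [← hn, ← Fintype.card_congr e, Fintype.card_sum, Fintype.card_fin]
  have hP : P.det = N a a * N b b - N a b * N b a := det_fin_two P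
  have h1 : P.det ^ Fintype.card ↥(Set.range v)ᶜ * N.det = P.det * S.det := by
    have h2 : fromBlocks 1 0 (-(Q' * P.adjugate)) (P.det • 1) * N' = fromBlocks P Q 0 S := by
      conv_lhs => rw [← fromBlocks_toBlocks N']
      rw [fromBlocks_multiply]
      congr 1
      · simp [P]
      · simp [Q]
      · rw [Matrix.neg_mul, Matrix.mul_assoc, adjugate_mul, Matrix.mul_smul, Matrix.smul_mul,
          Matrix.mul_one, Matrix.one_mul, neg_add_cancel]
      · rw [Matrix.neg_mul, Matrix.smul_mul, Matrix.one_mul, neg_add_eq_sub]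
    have h3 := congrArg det h2
    rwa [det_mul, det_fromBlocks_zero₁₂, det_fromBlocks_zero₂₁, det_one, one_mul, det_smul, det_one,
      mul_one, det_submatrix_equiv_self] at h3
  have h4 : (4 : GaussianInt) ∣ P.det + 1 := by
    have := dvd_sub (four_dvd_mul (hs a a) (hs b b) (hd a) (hd b)) (four_dvd_norm hb)
    rwa [hs, ← sub_add, ← hP] at this
  have h5 : red P.det = 1 := by
    obtain ⟨c, hc⟩ := h4
    rw [eq_sub_of_add_eq hc, map_sub, map_mul, map_ofNat, map_one,
      show (4 : ZMod 2) = 0 from rfl, zero_mul]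
    rfl
  have hSe : ∀ i j, S i j = P.det * N (e (.inr i)) (e (.inr j)) -
      ((N (e (.inr i)) a * N b b - N (e (.inr i)) b * N b a) * N a (e (.inr j)) +
        (N (e (.inr i)) b * N a a - N (e (.inr i)) a * N a b) * N b (e (.inr j))) := fun i j => by
    simp only [S, Matrix.sub_apply, Matrix.smul_apply, smul_eq_mul, mul_apply, Fin.sum_univ_two, adjugate_fin_two,
      of_apply, cons_val', cons_val_zero, cons_val_one, cons_val_fin_one]
    simp only [P, Q, Q', N', toBlocks₁₁, toBlocks₁₂, toBlocks₂₁, toBlocks₂₂, of_apply,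
      submatrix_apply, e0, e1]
    ring
  obtain ⟨m, hm, h6⟩ := ih _ (by omega) S rfl
    (by
      refine Matrix.ext fun i j => ?_
      rw [conjTranspose_apply, hSe, hSe, hP]
      simp only [star_sub, star_add, star_mul', hs]
      ring)
    (fun j => by
      have h7 : ∀ x y, red (N x y) = red (N y x) := fun x y => by rw [← hs, red_star]
      rw [hSe]
      simp only [map_sub, map_add, map_mul, hd, h7 a (e _), h7 b (e _), h7 b a]
      have : ∀ x y z : ZMod 2, (0 : ZMod 2) - ((x * 0 - y * z) * x + (y * 0 - x * z) * y) = 0 := by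
        decide
      rw [mul_zero]
      exact this _ _ _)
    (fun h7 => h0 (by
      have := congrArg red h1
      rwa [map_mul, map_mul, map_pow, h5, h7, one_pow, one_mul, mul_zero] at this))
  refine ⟨m + 1, by omega, ?_⟩
  obtain ⟨c, hc1⟩ := h4
  obtain ⟨c', hc2⟩ := h6
  have h8 : (4 : GaussianInt) ∣ P.det ^ (2 * m) - 1 := by
    have := sub_dvd_pow_sub_pow (P.det ^ 2) 1 m
    rw [one_pow, ← pow_mul] at this
    refine Dvd.dvd.trans ⟨c * (P.det - 1), ?_⟩ this
    rw [← mul_assoc, ← hc1]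
    ring
  obtain ⟨c'', hc3⟩ := h8
  rw [hm, eq_add_of_sub_eq hc3, eq_add_of_sub_eq hc2, eq_sub_of_add_eq hc1] at h1
  exact ⟨-c'' * N.det + (4 * c * c' + c * (-1) ^ m - c'), by linear_combination h1⟩

/-- The units of the ring of integral Laurent polynomials. -/
theorem unit_laurent {f : ℤ[T;T⁻¹]} (hf : IsUnit f) : ∃ (c : ℤ) (n : ℤ), IsUnit c ∧ f = C c * T n := by
  obtain ⟨g, hg⟩ := hf.exists_right_inv
  obtain ⟨a, p, hp⟩ := exists_T_pow f
  obtain ⟨b, q, hq⟩ := exists_T_pow g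
  have h1 : p * q = Polynomial.X ^ (a + b) := Polynomial.toLaurent_injective (by
    rw [map_mul, hp, hq, Polynomial.toLaurent_X_pow, mul_mul_mul_comm, hg, one_mul, ← T_add,
      Nat.cast_add])
  obtain ⟨i, -, u, hu⟩ := (dvd_prime_pow Polynomial.prime_X _).1 ⟨q, h1.symm⟩
  obtain ⟨c, hc, hc'⟩ := Polynomial.isUnit_iff.1 u⁻¹.isUnit
  refine ⟨c, i - a, hc, ?_⟩
  rw [← Units.eq_mul_inv_iff_mul_eq, ← hc'] at hu
  rw [hu, map_mul, Polynomial.toLaurent_X_pow, Polynomial.toLaurent_C] at hp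
  rw [T_sub, ← mul_assoc, mul_comm (C c), hp, mul_assoc, ← T_add, add_neg_cancel, T_zero, mul_one]

theorem unit_laurent_symm {f : ℤ[T;T⁻¹]} (hf : IsUnit f) (h : invert f = f) :
    ∃ c : ℤ, IsUnit c ∧ f = C c := by
  obtain ⟨c, n, hc, rfl⟩ := unit_laurent hf
  have h1 := congrArg (fun f => f.coeff n) h
  simp only [invert_apply, Gr.coeff_C_mul_T, if_true] at h1
  split_ifs at h1 with h2
  · exact ⟨c, hc, by rw [show n = 0 by omega, T_zero, mul_one]⟩
  · exact absurd h1.symm hc.ne_zero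

theorem star_eval {R : Type*} [CommRing R] [StarRing R] {u : Rˣ} (hu : star (u : R) = (u⁻¹ : Rˣ))
    (f : ℤ[T;T⁻¹]) :
    star (eval₂ (Int.castRingHom R) u f) = eval₂ (Int.castRingHom R) u (invert f) := by
  have h1 : star u = u⁻¹ := Units.ext hu
  induction f using LaurentPolynomial.induction_on' with
  | add f g hf hg => simp only [map_add, star_add, hf, hg]
  | C_mul_T n a =>
    rw [map_mul invert, invert_C, invert_T, eval₂_C_mul_T, eval₂_C_mul_T, star_mul',
      ← Units.coe_star, star_zpow, h1, _root_.inv_zpow']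
    simp

theorem map_eval {R S : Type*} [CommRing R] [CommRing S] (φ : R →+* S) (u : Rˣ) (f : ℤ[T;T⁻¹]) :
    φ (eval₂ (Int.castRingHom R) u f) = eval₂ (Int.castRingHom S) (Units.map φ u) f := by
  induction f using LaurentPolynomial.induction_on' with
  | add f g hf hg => simp only [map_add, hf, hg]
  | C_mul_T n a =>
    rw [eval₂_C_mul_T, eval₂_C_mul_T, map_mul, ← map_zpow (Units.map (φ : R →* S)),
      eq_intCast, eq_intCast, map_intCast]
    rfl

/-- A congruence for the determinant of a corner of a unimodular hermitian matrix. -/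
theorem corner_mod_four {α β : Type*} [Fintype α] [Fintype β] [DecidableEq α] [DecidableEq β]
    {H : Matrix (α ⊕ β) (α ⊕ β) ℤ[T;T⁻¹]} (hH : IsUnit H) (hs : ∀ x y, invert (H x y) = H y x)
    (he : ∀ j, Even (eval₂ (Int.castRingHom ℤ) 1 (H⁻¹ (.inr j) (.inr j))))
    (ho : Odd (eval₂ (Int.castRingHom ℤ) 1 H.toBlocks₁₁.det)) {u : GaussianIntˣ}
    (hu : star (u : GaussianInt) = (u⁻¹ : GaussianIntˣ)) :
    (4 : GaussianInt) ∣ eval₂ (Int.castRingHom _) 1 H.toBlocks₁₁.det -
      eval₂ (Int.castRingHom _) u H.toBlocks₁₁.det := by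
  have hd := (isUnit_iff_isUnit_det H).1 hH
  have hs' : (invert (R := ℤ)).toRingHom.mapMatrix H = Hᵀ := Matrix.ext hs
  obtain ⟨c, hc, hc'⟩ := unit_laurent_symm hd (by
    have := (invert (R := ℤ)).toRingHom.map_det H
    rwa [hs', det_transpose] at this)
  have hi : ∀ x y, invert (H⁻¹ x y) = H⁻¹ y x := by
    have h1 : Hᵀ * (invert (R := ℤ)).toRingHom.mapMatrix H⁻¹ = 1 := by
      rw [← hs', ← map_mul, mul_nonsing_inv H hd, map_one]
    have h2 := inv_eq_right_inv h1
    rw [← transpose_nonsing_inv] at h2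
    exact fun x y => (congrFun (congrFun h2 x) y).symm
  have hj : C c * H⁻¹.toBlocks₂₂.det = H.toBlocks₁₁.det := by
    have h1 : H * fromBlocks 1 H⁻¹.toBlocks₁₂ 0 H⁻¹.toBlocks₂₂ =
        fromBlocks H.toBlocks₁₁ 0 H.toBlocks₂₁ 1 := by
      have h2 := mul_nonsing_inv H hd
      rw [← fromBlocks_toBlocks H⁻¹, ← fromBlocks_one] at h2
      conv_lhs at h2 => arg 1; rw [← fromBlocks_toBlocks H]
      conv_lhs => arg 1; rw [← fromBlocks_toBlocks H]
      rw [fromBlocks_multiply] at h2 ⊢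
      obtain ⟨-, h3, -, h4⟩ := fromBlocks_inj.1 h2
      rw [h3, h4]
      simp
    have h3 := congrArg det h1
    rwa [det_mul, det_fromBlocks_zero₂₁, det_fromBlocks_zero₁₂, det_one, det_one, one_mul, mul_one,
      hc'] at h3
  have hr : ∀ (v : GaussianIntˣ) f, red (eval₂ (Int.castRingHom _) v f) =
      ((eval₂ (Int.castRingHom ℤ) 1 f : ℤ) : ZMod 2) := fun v f => by
    have h1 := map_eval (Int.castRingHom (ZMod 2)) 1 f
    rw [map_eval, Subsingleton.elim (Units.map _ v) 1]
    rw [map_one] at h1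
    exact h1.symm
  let e := Fintype.equivFin β
  have key : ∀ v : GaussianIntˣ, star (v : GaussianInt) = (v⁻¹ : GaussianIntˣ) → ∃ m,
      Fintype.card β = 2 * m ∧
        (4 : GaussianInt) ∣ eval₂ (Int.castRingHom _) v H⁻¹.toBlocks₂₂.det - (-1) ^ m := by
    intro v hv
    have h1 : ((eval₂ (Int.castRingHom _) v).mapMatrix
        (H⁻¹.toBlocks₂₂.submatrix e.symm e.symm)).det =
        eval₂ (Int.castRingHom _) v H⁻¹.toBlocks₂₂.det := by
      rw [← RingHom.map_det, det_submatrix_equiv_self]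
    rw [← h1]
    refine det_mod_four _ _ (Fintype.card_fin _) (Matrix.ext fun i j => ?_) (fun j => ?_) ?_
    · exact (star_eval hv _).trans (congrArg _ (hi _ _))
    · exact (hr v _).trans (he _).intCast_zmod_two
    · rw [h1, hr]
      intro h2
      have h3 := ho.intCast_zmod_two
      rw [← hj, map_mul, Int.cast_mul, h2, mul_zero] at h3
      exact zero_ne_one h3
  obtain ⟨m, hm, h1⟩ := key 1 (by simp)
  obtain ⟨m', hm', h2⟩ := key u hu
  rw [show m' = m by omega] at h2
  rw [← hj, map_mul, map_mul, eval₂_C, eval₂_C, ← mul_sub]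
  exact Dvd.dvd.mul_left (by simpa using dvd_sub h1 h2) _

end GBG

namespace GB

open Module AM GBG LaurentPolynomial Matrix Complex

universe u

variable {k : Type} [Field k] [Infinite k] {A : Type u} [Ring A] [Algebra k A] {Γ : GA k A}

/-- The point `exp (2 θ i)` of the unit circle. -/
noncomputable def circ (θ : ℝ) : ℂˣ := Units.mk0 (exp (2 * θ * I)) (exp_ne_zero _)

namespace GM

/-- The normalised graded dimension on the unit circle. -/
noncomputable def hz (X Y : GM Γ) (θ : ℝ) : ℂ :=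
  exp (-(Γ.s * θ * I)) * eval₂ (Int.castRingHom ℂ) (circ θ) (G X Y)

theorem hz_eq_sum (X Y : GM Γ) (θ : ℝ) {S : Finset ℤ} (hS : ∀ j ∉ S, gd X Y j = 0) :
    hz X Y θ = ∑ j ∈ S, (gd X Y j : ℂ) * exp (I * θ * (2 * j - Γ.s)) := by
  have h : G X Y = ∑ j ∈ S, C (gd X Y j : ℤ) * T j := by
    ext d
    rw [coeff_G, AddMonoidAlgebra.coeff_sum, Finsupp.finsetSum_apply]
    simp only [Gr.coeff_C_mul_T, Finset.sum_ite_eq']
    split_ifs with h1
    · rfl
    · rw [hS d h1, Nat.cast_zero]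
  rw [hz, h, map_sum, Finset.mul_sum]
  refine Finset.sum_congr rfl fun j _ => ?_
  rw [eval₂_C_mul_T, Units.val_zpow_eq_zpow_val, circ, Units.val_mk0, ← exp_int_mul, mul_left_comm,
    ← Complex.exp_add]
  congr 2
  ring

theorem exists_supp (X Y : GM Γ) : ∃ S : Finset ℤ, ∀ j ∉ S, gd X Y j = 0 :=
  ⟨(G X Y).coeff.support, fun j hj => by
    rw [Finsupp.notMem_support_iff, coeff_G] at hj
    exact_mod_cast hj⟩

theorem continuous_hz (X Y : GM Γ) : Continuous (hz X Y) := by
  obtain ⟨S, hS⟩ := exists_supp X Y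
  rw [show hz X Y = _ from funext fun θ => hz_eq_sum X Y θ hS]
  fun_prop

theorem star_circ (θ : ℝ) : star (circ θ : ℂ) = ((circ θ)⁻¹ : ℂˣ) := by
  rw [Units.val_inv_eq_inv_val, circ, Units.val_mk0, star_def, ← exp_conj, ← exp_neg]
  simp [map_ofNat]

theorem star_hz (X Y : GM Γ) (θ : ℝ) : star (hz X Y θ) = hz Y X θ := by
  rw [hz, hz, star_mul', star_eval (star_circ θ), G_symm Y X, map_mul, eval₂_T, ← mul_assoc,
    Units.val_zpow_eq_zpow_val, circ, Units.val_mk0, ← exp_int_mul, ← Complex.exp_add, star_def,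
    ← exp_conj]
  congr 2
  simp
  ring

theorem hz_zero (X Y : GM Γ) : hz X Y 0 = finrank k (Γ.C.PHom X.toAM Y.toAM) := by
  rw [hz, show circ 0 = 1 from Units.ext (by simp [circ]), eval_G]
  simp

end GM

open GM

variable [FiniteDimensional k A] {ιA ιB : Type*} [Fintype ιA] [Fintype ιB] [DecidableEq ιA]
  [DecidableEq ιB]

namespace PD

variable (Pd : PD Γ ιA) {X : ιB → GM Γ} {cd : AM k A → ℕ}

/-- The graded Cartan matrix on the unit circle. -/
noncomputable def HA (θ : ℝ) : Matrix ιA ιA ℂ := Matrix.of fun a b => hz (Pd.P a) (Pd.P b) θ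

/-- A subspace on which the graded Cartan form is non-positive is small. -/
theorem finrank_le_card (h : XD Γ.C (fun j => (X j).toAM) cd) (h0 : GBS.PosOn (Pd.HA 0) ⊤) {θ : ℝ}
    {W : Submodule ℂ (ιA → ℂ)} (hW : ∀ x ∈ W, GBS.qf (Pd.HA θ) x ≤ 0) :
    finrank ℂ W ≤ Fintype.card ιB := by
  let j : (ιA → ℂ) →ₗ[ℂ] (ιA ⊕ ιB → ℂ) :=
    { toFun := fun x => Sum.elim x 0
      map_add' := fun x y => by ext (i | i) <;> simp
      map_smul' := fun c x => by ext (i | i) <;> simp }
  have hj : Function.Injective j := fun x y h => funext fun i => congrFun h (.inl i)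
  let H : ℝ → Matrix (ιA ⊕ ιB) (ιA ⊕ ιB) ℂ := fun θ =>
    Matrix.of fun x y => hz (Sum.elim Pd.P X x) (Sum.elim Pd.P X y) θ
  have hq : ∀ θ x, GBS.qf (H θ) (j x) = GBS.qf (Pd.HA θ) x := fun θ x => by
    rw [← fromBlocks_toBlocks (H θ)]
    exact GBS.qf_fromBlocks_inl ..
  have := GBS.finrank_add_le_of_path (H := H)
    (continuous_matrix fun x y => continuous_hz _ _)
    (fun θ => Matrix.ext fun x y => star_hz _ _ θ) (fun θ z hz => by
      have h1 : H θ = exp (-(Γ.s * θ * I)) •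
          (eval₂ (Int.castRingHom ℂ) (circ θ)).mapMatrix (Pd.M X) := rfl
      rw [h1, smul_mulVec, smul_eq_zero_iff_right (exp_ne_zero _)] at hz
      exact mulVec_injective_of_isUnit ((Pd.isUnit_M h).map _) (hz.trans (mulVec_zero _).symm))
    (θ₀ := 0) (θ₁ := θ) (W := (⊤ : Submodule ℂ (ιA → ℂ)).map j) (W' := W.map j)
    (by
      rintro _ ⟨x, -, rfl⟩ h1
      rw [hq]
      exact h0 x trivial fun h2 => h1 (by rw [h2, map_zero]))
    (by
      rintro _ ⟨x, hx, rfl⟩
      rw [hq]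
      exact hW x hx)
  rw [← (Submodule.equivMapOfInjective _ hj _).finrank_eq,
    ← (Submodule.equivMapOfInjective _ hj _).finrank_eq, finrank_top,
    finrank_fintype_fun_eq_card, Fintype.card_sum] at this
  omega

variable (X) in
/-- The matrix of dimensions of projective homomorphisms. -/
noncomputable def M1 : Matrix (ιA ⊕ ιB) (ιA ⊕ ιB) ℤ := Matrix.of fun x y =>
  finrank k (Γ.C.PHom (Sum.elim Pd.P X x).toAM (Sum.elim Pd.P X y).toAM)

theorem map_M : (eval₂ (Int.castRingHom ℤ) 1).mapMatrix (Pd.M X) = Pd.M1 X :=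
  Matrix.ext fun _ _ => eval_G _ _

theorem isUnit_M1 (h : XD Γ.C (fun j => (X j).toAM) cd) : IsUnit (Pd.M1 X) := by
  rw [← Pd.map_M]
  exact (Pd.isUnit_M h).map _

/-- The congruence for forms of degree two whose linked form is even. -/
theorem det_mod_four (h : XD Γ.C (fun j => (X j).toAM) cd) (hs : Γ.s = 2)
    (he : ∀ j, Even ((Pd.M1 X)⁻¹ (.inr j) (.inr j))) {d₁ d₂ : ℤ} (h1 : (Pd.HA 0).det = d₁)
    (h2 : (Pd.HA (Real.pi / 4)).det = d₂) (ho : Odd d₁) : 4 ∣ d₁ - d₂ := by
  let H := (LaurentPolynomial.T (-1) : ℤ[T;T⁻¹]) • Pd.M X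
  have hM := (isUnit_iff_isUnit_det _).1 (Pd.isUnit_M h)
  have hHe : ∀ x y, H x y =
      LaurentPolynomial.T (-1) * G (Sum.elim Pd.P X x) (Sum.elim Pd.P X y) := fun _ _ => rfl
  have hH : IsUnit H := by
    rw [isUnit_iff_isUnit_det, det_smul]
    exact ((isUnit_T _).pow _).mul hM
  have hA : ∀ θ : ℝ, (Pd.HA θ).det = eval₂ (Int.castRingHom ℂ) (circ θ) H.toBlocks₁₁.det := by
    intro θ
    rw [RingHom.map_det]
    refine congrArg det (Matrix.ext fun a b => ?_)
    rw [RingHom.mapMatrix_apply, map_apply, toBlocks₁₁, of_apply, hHe, HA, of_apply,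
      Sum.elim_inl, Sum.elim_inl, hz, map_mul, eval₂_T, hs, Units.val_zpow_eq_zpow_val, circ, Units.val_mk0, ← exp_int_mul]
    congr 2
    push_cast
    ring
  let u : GaussianIntˣ := ⟨⟨0, 1⟩, ⟨0, -1⟩, by decide, by decide⟩
  have e1 : eval₂ (Int.castRingHom ℤ) 1 H.toBlocks₁₁.det = d₁ := by
    have := map_eval (Int.castRingHom ℂ) 1 H.toBlocks₁₁.det
    rw [map_one, ← show circ 0 = 1 from Units.ext (by simp [circ]), ← hA, h1, eq_intCast] at this
    exact_mod_cast this
  have h3 := corner_mod_four hH (fun x y => by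
      rw [hHe, hHe, G_symm (Sum.elim Pd.P X y), map_mul, invert_T, hs, ← mul_assoc, ← T_add]
      rfl)
    (fun j => by
      have h4 : (Pd.M1 X)⁻¹ = (eval₂ (Int.castRingHom ℤ) 1).mapMatrix H⁻¹ := by
        refine inv_eq_right_inv ?_
        have h5 : (eval₂ (Int.castRingHom ℤ) 1).mapMatrix H = Pd.M1 X := by
          rw [← Pd.map_M]
          refine Matrix.ext fun x y => ?_
          rw [RingHom.mapMatrix_apply, map_apply, hHe, map_mul, eval₂_T, _root_.one_zpow, Units.val_one, one_mul]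
          rfl
        rw [← h5, ← map_mul, mul_nonsing_inv H ((isUnit_iff_isUnit_det _).1 hH), map_one]
      have := he j
      rwa [h4] at this)
    (e1 ▸ ho) (u := u) (by decide)
  have e2 : eval₂ (Int.castRingHom GaussianInt) 1 H.toBlocks₁₁.det = d₁ := by
    have := map_eval (Int.castRingHom GaussianInt) 1 H.toBlocks₁₁.det
    rw [map_one, e1] at this
    exact this.symm
  have e3 : eval₂ (Int.castRingHom GaussianInt) u H.toBlocks₁₁.det = d₂ := by
    refine GaussianInt.toComplex_injective ?_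
    rw [map_eval, map_intCast, ← h2, hA]
    congr 2
    refine Units.ext ?_
    change GaussianInt.toComplex ⟨0, 1⟩ = exp _
    rw [GaussianInt.toComplex_def', show (2 * ((Real.pi / 4 : ℝ) : ℂ) * I) = Real.pi / 2 * I by
      push_cast; ring, exp_pi_div_two_mul_I]
    simp
  rw [e2, e3, ← Int.cast_sub] at h3
  obtain ⟨c, hc⟩ := h3
  exact ⟨c.re, by simpa using congrArg Zsqrtd.re hc⟩

/-- The lower right block of the inverse matrix from the linear equations it satisfies. -/
theorem inv_M1 (h : XD Γ.C (fun j => (X j).toAM) cd) {N : Matrix ιB ιB ℤ} {Y : Matrix ιA ιB ℤ}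
    (h1 : (Pd.M1 X).toBlocks₁₁ * Y = (Pd.M1 X).toBlocks₁₂ * N)
    (h2 : (Pd.M1 X).toBlocks₂₁ * Y = 1 + (Pd.M1 X).toBlocks₂₂ * N) (i j : ιB) :
    (Pd.M1 X)⁻¹ (.inr i) (.inr j) = -N i j := by
  have hd := (isUnit_iff_isUnit_det _).1 (Pd.isUnit_M1 h)
  have h3 : Pd.M1 X * fromRows Y (-N) = fromRows 0 1 := by
    conv_lhs => rw [← fromBlocks_toBlocks (Pd.M1 X)]
    rw [fromBlocks_mul_fromRows, h1, h2]
    simp
  have h4 := congrArg ((Pd.M1 X)⁻¹ * ·) h3
  simp only [← Matrix.mul_assoc, nonsing_inv_mul _ hd, Matrix.one_mul] at h4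
  have h5 := congrFun (congrFun h4 (.inr i)) j
  rw [mul_apply, Fintype.sum_sum_type] at h5
  simpa [one_apply] using h5.symm

/-- The form in which the congruence is used: `N` is the Cartan matrix on the other side. -/
theorem det_mod_four' (h : XD Γ.C (fun j => (X j).toAM) cd) (hs : Γ.s = 2) {N : Matrix ιB ιB ℤ}
    {Y : Matrix ιA ιB ℤ} (e1 : (Pd.M1 X).toBlocks₁₁ * Y = (Pd.M1 X).toBlocks₁₂ * N)
    (e2 : (Pd.M1 X).toBlocks₂₁ * Y = 1 + (Pd.M1 X).toBlocks₂₂ * N) (he : ∀ j, Even (N j j))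
    {d₁ d₂ : ℤ} (h1 : (Pd.HA 0).det = d₁) (h2 : (Pd.HA (Real.pi / 4)).det = d₂) (ho : Odd d₁) :
    4 ∣ d₁ - d₂ :=
  Pd.det_mod_four h hs (fun j => by rw [Pd.inv_M1 h e1 e2]; exact (he j).neg) h1 h2 ho

end PD

end GB
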