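import Cfsg.Agent.Lib.Block.GBA4
import Cfsg.Agent.Lib.Block.GBGrSig

/-!
# The graded Cartan form of `k[P : E]` is diagonal on the conjugacy classes of `E`
-/

set_option autoImplicit false
set_option linter.unusedSectionVars false

namespace GB

open Module Cfsg CT BT Complex
open scoped MonoidAlgebra ComplexConjugate Matrix

universe u

theorem toMatrix_actR {K : Type} [Field K] {Q E : Type u} [CommGroup Q] [Group E] [Fintype Q]
    [DecidableEq Q] [Fintype E] (φ : E →* MulAut Q) (a : K[E]) (u v : Q) :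
    LinearMap.toMatrix (MonoidAlgebra.basis Q K) (MonoidAlgebra.basis Q K)
      ((actR K φ).asAlgebraHom a) u v = ∑ g, if φ g v = u then a.coeff g else 0 := by
  rw [LinearMap.toMatrix_apply, MonoidAlgebra.basis_apply]
  change ((actR K φ).asAlgebraHom a (MonoidAlgebra.single v 1)).coeff u = _
  induction a using MonoidAlgebra.induction_linear with
  | zero => simp
  | add x y hx hy =>
    simp only [map_add, LinearMap.add_apply, MonoidAlgebra.coeff_add, Finsupp.add_apply, hx, hy,
      ← Finset.sum_add_distrib]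
    exact Finset.sum_congr rfl fun g _ => by split_ifs <;> simp
  | single g c =>
    classical
    rw [Representation.asAlgebraHom_single, Finset.sum_eq_single g (fun h _ hh => by
      simp [Finsupp.single_apply, hh.symm]) (by simp)]
    change (c • act K φ g (MonoidAlgebra.single v 1)).coeff u = _
    simp [Finsupp.single_apply]

attribute [local irreducible] instFieldResF

variable {p : ℕ} [hp : Fact p.Prime] {M : Ideal AlgInt} {hM : IsPModular p M}

section

variable {E : Type u} [Group E] [Fintype E] (W : Wed hM E) (hE : ¬ p ∣ Nat.card E)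

theorem Φ_eq (hE : ¬ p ∣ Nat.card E) (i : Fin W.N) : W.Φ i = W.φ i := by
  obtain ⟨χ, h1, h2⟩ := Φ_eq_φ W hE i
  rw [h1, h2]

include hE in
theorem bch_actR {Q : Type u} [CommGroup Q] [Fintype Q] (φ : E →* MulAut Q) (g : E) :
    bch W (actR (ResF hM) φ).asAlgebraHom.toLinearMap g = Nat.card {u // φ g u = u} := by
  classical
  let π : E → ℂ := fun g => ∑ u, if φ g u = u then 1 else 0
  have hπ : IsClassFunction E π := fun g h => by
    refine (Equiv.sum_comp (φ h).toEquiv _).symm.trans (Finset.sum_congr rfl fun u _ => ?_)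
    simp
  have h1 : π g = Nat.card {u // φ g u = u} := by
    simp [π, Fintype.card_subtype]
  rw [← h1, ← sum_ip_φ W hE hπ, bch]
  refine congrFun (Finset.sum_congr rfl fun i _ => congrArg (· • W.φ i) ?_) g
  let b := fun (K : Type) [Field K] => MonoidAlgebra.basis Q K
  let X := LinearMap.toMatrix (b ℂ) (b ℂ) ((actR ℂ φ).asAlgebraHom (W.e i))
  have hX : ∀ u v, X u v = ∑ g, if φ g v = u then (W.e i).coeff g else 0 := toMatrix_actR φ _
  have h2 : X * X = X := by rw [← LinearMap.toMatrix_mul, ← map_mul, W.e_idem]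
  have h3 : ∀ g u v, (if φ g v = u then (W.e i).coeff g else 0) ∈ locRing hM := fun g u v => by
    split_ifs
    exacts [W.e_int i g, zero_mem _]
  have h4 : X.map (red hM) =
      LinearMap.toMatrix (b _) (b _) ((actR (ResF hM) φ).asAlgebraHom (wε W i)) := by
    ext u v
    rw [Matrix.map_apply, toMatrix_actR, hX, red_sum hM _ _ fun g _ => h3 g u v]
    exact Finset.sum_congr rfl fun g _ => by split_ifs <;> simp [wε]
  have h5 := rank_map_red_of_idem hM (E := X)
    (fun u v => by rw [hX]; exact sum_mem fun g _ => h3 g u v) h2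
  rw [h4, Matrix.rank_eq_finrank_range_toLin _ (b _) (b _), Matrix.toLin_toMatrix] at h5
  rw [← Φ_eq W hE, W.ip_Φ_right hπ, ev_eq_sum, AlgHom.toLinearMap_apply, h5,
    ← trace_eq_rank_of_idem h2, Matrix.trace]
  simp only [Matrix.diag, hX, π, Finset.mul_sum, mul_ite, mul_one, mul_zero]
  exact Finset.sum_comm

/-- The matrix of the multiplication by `F` in the basis of the irreducible characters. -/
noncomputable def mulM (F : E → ℂ) : Matrix (Fin W.N) (Fin W.N) ℂ :=
  Matrix.of fun a b => ip (F * W.φ b) (W.φ a)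

theorem qf_mulM (F : E → ℂ) (x : Fin W.N → ℂ) : GBS.qf (mulM W F) x =
    (Nat.card E : ℝ)⁻¹ * ∑ g, (F g).re * ‖(∑ b, x b • W.φ b) g‖ ^ 2 := by
  have h : star x ⬝ᵥ mulM W F *ᵥ x = ip (F * ∑ b, x b • W.φ b) (∑ b, x b • W.φ b) := by
    simp only [dotProduct, Matrix.mulVec, mulM, Matrix.of_apply, ip_sum_right, ip_smul_right,
      Finset.mul_sum, ip_sum_left, mul_smul_comm, ip_smul_left, Pi.star_apply, star_def, mul_comm]
  rw [GBS.qf, h, ip_def, ← ofReal_natCast, ← ofReal_inv, re_ofReal_mul, re_sum]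
  congr 1
  refine Finset.sum_congr rfl fun g _ => ?_
  rw [Pi.mul_apply, mul_assoc, mul_conj', ← ofReal_pow, re_mul_ofReal]

theorem posOn_mulM {F : E → ℂ} (h : ∀ g, 0 < (F g).re) : GBS.PosOn (mulM W F) ⊤ := fun x _ hx => by
  obtain ⟨g, hg⟩ : ∃ g, (∑ b, x b • W.φ b) g ≠ 0 := Function.ne_iff.1 fun e =>
    hx (funext (Fintype.linearIndependent_iff.1 W.linearIndependent_φ x e))
  rw [qf_mulM]
  refine mul_pos (inv_pos.2 (Nat.cast_pos.2 Nat.card_pos)) (Finset.sum_pos' (fun g _ =>
    mul_nonneg (h g).le (sq_nonneg _)) ⟨g, Finset.mem_univ _, mul_pos (h g) (by positivity)⟩)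

open Classical in
/-- The indicator function of a conjugacy class. -/
noncomputable def cind (C : ConjClasses E) : E → ℂ := fun g => if ConjClasses.mk g = C then 1 else 0

theorem isClassFunction_cind (C : ConjClasses E) : IsClassFunction E (cind C) := fun g h => by
  have e : ConjClasses.mk (h * g * h⁻¹) = ConjClasses.mk g :=
    (ConjClasses.mk_eq_mk_iff_isConj.2 (isConj_iff.2 ⟨h, rfl⟩)).symm
  unfold cind
  rw [e]

theorem mk_out (C : ConjClasses E) : ConjClasses.mk C.out = C := Quotient.out_eq C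

theorem apply_out {F : E → ℂ} (hF : IsClassFunction E F) (g : E) :
    F (ConjClasses.mk g).out = F g := by
  obtain ⟨c, hc⟩ := isConj_iff.1 (ConjClasses.mk_eq_mk_iff_isConj.1 (mk_out (ConjClasses.mk g)))
  rw [← hF _ c, hc]

include hE in
theorem exists_nonpos {F : E → ℂ} (T : Finset (ConjClasses E))
    (hT : ∀ g, ConjClasses.mk g ∈ T → (F g).re ≤ 0) : ∃ U : Submodule ℂ (Fin W.N → ℂ),
    T.card ≤ finrank ℂ U ∧ ∀ x ∈ U, GBS.qf (mulM W F) x ≤ 0 := by
  classical
  let x : T → Fin W.N → ℂ := fun C b => ip (cind C.1) (W.φ b)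
  let L : (Fin W.N → ℂ) →ₗ[ℂ] (E → ℂ) := Fintype.linearCombination ℂ W.φ
  have hL : ∀ C, L (x C) = cind C.1 := fun C => sum_ip_φ W hE (isClassFunction_cind C.1)
  have h1 : LinearIndependent ℂ x := LinearIndependent.of_comp L (Fintype.linearIndependent_iff.2
    fun c hc C => by
      have h2 := congrFun hc C.1.out
      simp only [Function.comp, hL, Finset.sum_apply, Pi.smul_apply, cind, mk_out, smul_eq_mul,
        mul_ite, mul_one, mul_zero, Pi.zero_apply, Subtype.coe_inj, Finset.sum_ite_eq,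
        Finset.mem_univ, if_true] at h2
      exact h2)
  refine ⟨Submodule.span ℂ (Set.range x), by rw [finrank_span_eq_card h1, Fintype.card_coe],
    fun y hy => ?_⟩
  have h2 : ∀ g, ConjClasses.mk g ∉ T → L y g = 0 := fun g hg => by
    induction hy using Submodule.span_induction with
    | mem _ h => obtain ⟨C, rfl⟩ := h; rw [hL, cind, if_neg fun e : ConjClasses.mk g = C.1 => hg (e ▸ C.2)]
    | zero => simp
    | add a b _ _ ha hb => rw [map_add, Pi.add_apply, ha, hb, add_zero]
    | smul c a _ ha => rw [map_smul, Pi.smul_apply, ha, smul_zero]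
  rw [qf_mulM]
  refine mul_nonpos_of_nonneg_of_nonpos (by positivity) (Finset.sum_nonpos fun g _ => ?_)
  by_cases hg : ConjClasses.mk g ∈ T
  · exact mul_nonpos_of_nonpos_of_nonneg (hT g hg) (sq_nonneg _)
  · rw [show (∑ b, y b • W.φ b) g = 0 from h2 g hg]; simp

include hE in
theorem det_mulM [Fintype (ConjClasses E)] {F : E → ℂ} (hF : IsClassFunction E F) :
    (mulM W F).det = ∏ C : ConjClasses E, F C.out := by
  classical
  let X : Matrix (Fin W.N) (ConjClasses E) ℂ := Matrix.of fun a C => ip (cind C) (W.φ a)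
  let Y : Matrix (ConjClasses E) (Fin W.N) ℂ := Matrix.of fun C b => W.φ b C.out
  have h0 : ∀ θ : E → ℂ, IsClassFunction E θ → ∑ C, θ C.out • cind C = θ := fun θ hθ => by
    funext g
    simp [cind, apply_out hθ]
  have h1 : X * Y = 1 := by
    ext a b
    rw [Matrix.one_apply, if_congr eq_comm rfl rfl, ← ip_φ_φ W hE, ← h0 _ (W.isClassFunction_φ b), ip_sum_left]
    simp only [Matrix.mul_apply, X, Y, Matrix.of_apply, ip_smul_left, mul_comm]
  have h2 : Y * X = 1 := by
    ext C C'
    have h3 := congrFun (sum_ip_φ W hE (isClassFunction_cind C')) C.out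
    simp only [Finset.sum_apply, Pi.smul_apply, smul_eq_mul, cind, mk_out] at h3
    simp only [Matrix.mul_apply, X, Y, Matrix.of_apply, mul_comm, Matrix.one_apply]
    convert h3
  have h3 : mulM W F = (X * Matrix.diagonal (fun C : ConjClasses E => F C.out) :
      Matrix (Fin W.N) (ConjClasses E) ℂ) * Y := by
    ext a b
    rw [mulM, Matrix.of_apply, ← h0 (F * W.φ b) fun g h => by
      rw [Pi.mul_apply, Pi.mul_apply, hF, W.isClassFunction_φ], ip_sum_left, Matrix.mul_apply]
    simp only [Matrix.mul_diagonal, X, Y, Matrix.of_apply, ip_smul_left, Pi.mul_apply]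
    exact Finset.sum_congr rfl fun C _ => by ring
  rw [h3, Matrix.det_conj_of_mul_eq_one h1 h2, Matrix.det_diagonal]

end

namespace SDP.ISp

variable {H Q E : Type u} [Group H] [CommGroup Q] [Group E] [Fintype H] [Fintype Q] [Fintype E]
  {D : SDP H Q E} {U U' : Submodule (ResF hM) (ResF hM)[Q]} (S : D.ISp p U U')
  {ι ι' : Type} [Fintype ι] [DecidableEq ι] [Fintype ι'] [DecidableEq ι']
  (W : Wed hM E) (hE : ¬ p ∣ Nat.card E)

include S hE in
/-- The product of the truncated geometric sums of all eigenvalues counts the fixed points. -/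
theorem prod_eig {g : E} {ζ : ι → ℂ} {ζ' : ι' → ℂ} (h : Eig D U U' g ζ ζ') :
    (∏ i, ∑ j ∈ Finset.range p, ζ i ^ j) * ∏ i, ∑ j ∈ Finset.range p, ζ' i ^ j =
      Nat.card {u // D.φ g u = u} := by
  classical
  obtain ⟨W⟩ := exists_wed hM E
  obtain ⟨bU, bU', h1, h2⟩ := h
  have h6 : ∀ i, Sum.elim ζ ζ' i ^ Nat.card E = 1 := by
    rintro (i | i); exacts [(h1 i).1, (h2 i).1]
  rw [← bch_actR W hE, bch_apply W hE (map_mul (actR (ResF hM) D.φ).asAlgebraHom) (S.toSp.fr bU bU').basis Finset.univ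
    (fun m => ∏ i, Sum.elim ζ ζ' i ^ (m i : ℕ)) (fun m _ => by
      rw [← Finset.prod_pow]
      exact Finset.prod_eq_one fun i _ => by rw [pow_right_comm, h6, one_pow]) g fun i m => ?_,
    ← Fintype.piFinset_univ, ← Finset.prod_univ_sum _ fun i (j : Fin p) => Sum.elim ζ ζ' i ^ (j : ℕ)]
  · simp only [Fintype.prod_sum_type, Sum.elim_inl, Sum.elim_inr, Finset.sum_range]
  · have e : act (ResF hM) D.φ g (mono (Sp.fam bU bU') fun j => m j) =
        red hM (∏ i, Sum.elim ζ ζ' i ^ (m i : ℕ)) • mono (Sp.fam bU bU') fun j => m j := by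
      rw [map_mono _ (c := fun i => red hM (Sum.elim ζ ζ' i)) (by
        rintro (i | i); exacts [(h1 i).2, (h2 i).2]),
        red_prod hM _ _ fun i _ => pow_mem (root_mem hM hE (h6 i)) _]
      simp only [red_pow hM (root_mem hM hE (h6 _))]
    rw [AlgHom.toLinearMap_apply, Representation.asAlgebraHom_single_one, if_pos (Finset.mem_univ _),
      Fr.basis_apply]
    change act (ResF hM) D.φ (g ^ i) _ = _
    induction i with
    | zero => simp
    | succ i ih => rw [pow_succ, map_mul, AlgHom.mul_apply, e, map_smul, ih, smul_smul, pow_succ']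

/-- The normalised graded character. -/
noncomputable def F (θ : ℝ) : E → ℂ := exp (-(S.gr.s * θ * I)) • S.Ψ W (exp (2 * θ * I))

theorem isClassFunction_F (θ : ℝ) : IsClassFunction E (S.F W θ) := fun g h => by
  simp only [F, Pi.smul_apply, S.isClassFunction_Ψ W _ g h]

include hE in
theorem F_apply {g : E} {ζ : ι → ℂ} {ζ' : ι' → ℂ} (h : Eig D U U' g ζ ζ') (θ : ℝ) :
    S.F W θ g = exp (-((Fintype.card ι * (p - 1) : ℕ) * θ * I)) *
      ((∏ i, ∑ j ∈ Finset.range p, (exp (2 * θ * I) * ζ i) ^ j) *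
        ∏ i, ∑ j ∈ Finset.range p, ζ' i ^ j) := by
  rw [F, Pi.smul_apply, S.Ψ_apply W hE h, smul_eq_mul]
  obtain ⟨b, -⟩ := h
  rw [gr_s, finrank_eq_card_basis b]

include hE in
theorem F_zero (g : E) : S.F W 0 g = Nat.card {u // D.φ g u = u} := by
  obtain ⟨ζ, ζ', h⟩ := S.exists_eig hE g
  rw [S.F_apply W hE h, ← S.prod_eig hE h]
  simp

theorem HA_eq (θ : ℝ) : (S.gr.pd (wid W hE)).HA θ = mulM W (S.F W θ) := by
  ext a b
  rw [PD.HA, Matrix.of_apply, GM.hz, S.eval_G W hE, mulM, Matrix.of_apply, F, smul_mul_assoc,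
    ip_smul_left]
  rfl

theorem posOn_HA : GBS.PosOn ((S.gr.pd (wid W hE)).HA 0) ⊤ := by
  rw [HA_eq]
  refine posOn_mulM W fun g => ?_
  have : Nonempty {u // D.φ g u = u} := ⟨⟨1, map_one _⟩⟩
  rw [S.F_zero W hE, natCast_re]
  exact Nat.cast_pos.2 Nat.card_pos

theorem det_HA [Fintype (ConjClasses E)] (θ : ℝ) :
    ((S.gr.pd (wid W hE)).HA θ).det = ∏ C : ConjClasses E, S.F W θ C.out := by
  rw [HA_eq, det_mulM W hE (S.isClassFunction_F W θ)]

include hE in
/-- The lower bound for the number of simple modules on the other side. -/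
theorem card_le {ιB : Type*} [Fintype ιB] [DecidableEq ιB] {X : ιB → GM S.gr.ga}
    {cd : AM (ResF hM) (ResF hM)[H] → ℕ} (h : XD S.gr.ga.C (fun j => (X j).toAM) cd) (θ : ℝ)
    (T : Finset (ConjClasses E)) (hT : ∀ g, ConjClasses.mk g ∈ T → (S.F W θ g).re ≤ 0) :
    T.card ≤ Fintype.card ιB := by
  obtain ⟨V, h1, h2⟩ := exists_nonpos W hE T hT
  exact h1.trans ((S.gr.pd (wid W hE)).finrank_le_card h (S.posOn_HA W hE) (θ := θ)
    (by rwa [HA_eq]))

end SDP.ISp

end GB
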