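import Cfsg.Agent.Lib.Block.GBA5

/-!
# The regraded algebra `k[3² : Q₈]`
-/

set_option autoImplicit false
set_option linter.unusedSectionVars false

namespace GB

open Module Cfsg CT BT Complex
open scoped MonoidAlgebra Matrix

universe u

namespace SA.Gr.Inv

variable {k : Type} [Field k] [IsAlgClosed k] [Infinite k] {A B : Type u} [Ring A] [Algebra k A]
  [Ring B] [Algebra k B] {S : SA k A B} {Γ : S.Gr} [FiniteDimensional k A] [FiniteDimensional k B]
  (Z : Γ.Inv)

theorem cor_eq_bot {e e' : B} {m m' : ℤ} (he : ∀ r, Z.u r * e = ((r ^ m : kˣ) : k) • e)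
    (he' : ∀ r, Z.u r * e' = ((r ^ m' : kˣ) : k) • e') {j : ℤ} (hj : Odd (j + m + m')) :
    Γ.cor e e' j = ⊥ := by
  refine (Submodule.eq_bot_iff _).2 fun x hx => ?_
  have h1 := hx.2.2 (-1)
  have h2 := he (-1)
  have h3 := he' (-1)
  rw [u_neg_one, neg_mul, neg_eq_iff_eq_neg] at h2 h3
  rw [Z.conj, ← hx.1, ← hx.2.1, ← mul_assoc, ← mul_assoc, ← map_mul, mul_assoc, mul_assoc, ← map_mul,
    ← Z.cen, h2, h3, map_neg, map_neg, map_smul, map_smul, neg_mul, mul_neg, mul_neg, neg_neg,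
    mul_smul_comm, smul_mul_smul_comm, hx.2.1, hx.1, ← Units.val_mul, ← zpow_add] at h1
  have h4 := congrArg ((((-1 : kˣ) ^ (m + m') : kˣ) : k) • ·) h1
  simp only [smul_smul, ← Units.val_mul, ← zpow_add] at h4
  rw [Even.neg_one_zpow ⟨_, rfl⟩, Odd.neg_one_zpow (by rwa [add_comm, ← add_assoc]), Units.val_one,
    one_smul, Units.val_neg, Units.val_one, neg_one_smul, eq_neg_iff_add_eq_zero, ← two_smul k,
    smul_eq_zero] at h4
  exact h4.resolve_left Z.two

theorem exists_sign {I : Type*} (D : ID k B I) (a : I) :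
    ∃ m : ℤ, ∀ r, Z.u r * D.ε a = ((r ^ m : kˣ) : k) • D.ε a := by
  obtain ⟨c, hc⟩ := D.loc a Z.z
  rw [← Z.cen, mul_assoc, D.idem] at hc
  have h : (c ^ 2 - 1) • D.ε a = 0 := by
    rw [sub_smul, pow_two, ← smul_smul, ← hc, ← mul_smul_comm, ← hc, ← mul_assoc, Z.sq, one_mul, one_smul,
      sub_self]
  rcases sq_eq_one_iff.1 (sub_eq_zero.1 ((smul_eq_zero.1 h).resolve_right (D.nz a))) with h | h
  · exact ⟨1, Z.u_mul_of_pos (by rw [hc, h, one_smul])⟩
  · exact ⟨0, Z.u_mul_of_neg (by rw [hc, h, neg_one_smul])⟩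

theorem det_HA {J : Type*} [Fintype J] [DecidableEq J] (D : ID k B J) (θ : ℝ) :
    ((Z.gr.pd D).HA θ).det = ((Γ.pd D).HA (θ / 2)).det := by
  choose m hm using Z.exists_sign D
  have h : (Γ.pd D).HA (θ / 2) = Matrix.diagonal (fun a => exp (-(I * θ * m a))) *
      (Z.gr.pd D).HA θ * Matrix.diagonal fun a => exp (I * θ * m a) := by
    ext a b
    obtain ⟨T, hT⟩ := GM.exists_supp ((Z.gr.pd D).P a) ((Z.gr.pd D).P b)
    have h1 : ∀ j, ((Z.gr.pd D).P a).gd ((Z.gr.pd D).P b) j =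
        ((Γ.pd D).P a).gd ((Γ.pd D).P b) (2 * j - m a + m b) := fun j => by
      rw [gd_pd, gd_pd, Z.cor_gr (hm a) (hm b)]
    rw [Matrix.mul_diagonal, Matrix.diagonal_mul, PD.HA, PD.HA, Matrix.of_apply, Matrix.of_apply,
      GM.hz_eq_sum _ _ _ hT, GM.hz_eq_sum _ _ _ (S := T.image fun j => 2 * j - m a + m b) ?_,
      Finset.sum_image fun i _ j _ h => by omega, Finset.mul_sum, Finset.sum_mul]
    · refine Finset.sum_congr rfl fun j _ => ?_
      rw [h1, mul_left_comm (exp _), mul_assoc _ _ (exp _), ← exp_add, ← exp_add, ga_s, ga_s, gr_s, Z.hs]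
      congr 2
      push_cast
      ring
    · intro j hj
      rcases Int.even_or_odd (j + m a + m b) with ⟨c, hc⟩ | hc
      · have h2 : j = 2 * (c - m b) - m a + m b := by omega
        rw [h2, ← h1]
        exact hT _ fun h => hj (Finset.mem_image.2 ⟨_, h, h2.symm⟩)
      · rw [gd_pd, Z.cor_eq_bot (hm a) (hm b) hc, finrank_bot]
  rw [h, Matrix.det_mul, Matrix.det_mul, Matrix.det_diagonal, Matrix.det_diagonal, mul_right_comm,
    ← Finset.prod_mul_distrib]
  simp [← exp_add]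

end SA.Gr.Inv

section Quat

variable {E : Type*} [Group E] [Finite E] (h8 : Nat.card E = 8) (hc : ¬ IsCyclic E) {z : E}
  (hz : ∀ g : E, g * g = 1 → g = 1 ∨ g = z)
include h8 hc hz

theorem quat_sq {g : E} (h1 : g ≠ 1) (h2 : g ≠ z) : g * g = z ∧ orderOf g = 4 := by
  have h3 : orderOf g ∣ 2 ^ 3 := (orderOf_dvd_natCard g).trans (by rw [h8]; rfl)
  have h4 : g * g ≠ 1 := fun e => (hz g e).elim h1 h2
  obtain ⟨i, hi, h5⟩ := (Nat.dvd_prime_pow Nat.prime_two).1 h3
  have h6 : orderOf g = 4 := by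
    interval_cases i
    · exact absurd (orderOf_eq_one_iff.1 h5) h1
    · exact absurd (by rw [← sq, show 2 = orderOf g from h5.symm, pow_orderOf_eq_one]) h4
    · exact h5
    · exact absurd (isCyclic_of_orderOf_eq_card g (h5.trans h8.symm)) hc
  refine ⟨(hz _ ?_).resolve_left h4, h6⟩
  rw [← sq, ← sq, ← pow_mul, show 2 * 2 = orderOf g from h6.symm, pow_orderOf_eq_one]

theorem quat_card (hz1 : z ≠ 1) (hz2 : z * z = 1) : Nat.card (ConjClasses E) = 5 := by
  classical
  have := Fintype.ofFinite E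
  have h0 : ∀ g, Commute z g := fun g => by
    have h1 := hz (g * z * g⁻¹) (by
      rw [show g * z * g⁻¹ * (g * z * g⁻¹) = g * (z * z) * g⁻¹ by group, hz2]; group)
    exact (mul_inv_eq_iff_eq_mul.1 (h1.resolve_left fun e => hz1 (by simpa using e))).symm
  have h1 : ∀ g, g ≠ 1 → g ≠ z → Nat.card {h // Commute g h} = 4 := fun g g1 g2 => by
    obtain ⟨h2, h3⟩ := quat_sq h8 hc hz g1 g2
    let C := Subgroup.centralizer ({g} : Set E)
    have h4 : Nat.card {h // Commute g h} = Nat.card C := Nat.card_congr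
      (Equiv.subtypeEquivRight fun h => by
        rw [Subgroup.mem_centralizer_singleton_iff]; exact ⟨fun e => e.symm, fun e => e.symm⟩)
    have h5 : Subgroup.zpowers g ≤ C := by
      rw [Subgroup.zpowers_le, Subgroup.mem_centralizer_singleton_iff]
    have h6 : C ≤ Subgroup.zpowers g := fun h hh => by
      have h7 : z ∈ Subgroup.zpowers g := h2 ▸ mul_mem (Subgroup.mem_zpowers g) (Subgroup.mem_zpowers g)
      by_contra h9
      have h10 := (quat_sq h8 hc hz (g := h) (fun e => h9 (e ▸ one_mem _)) fun e => h9 (e ▸ h7)).1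
      have h11 := Subgroup.mem_centralizer_singleton_iff.1 hh
      have h12 := hz (h * g) (by
        rw [mul_assoc, ← mul_assoc g, ← h11, mul_assoc, ← mul_assoc, h10, h2, hz2])
      refine h9 ((Subgroup.mul_mem_cancel_right _ (Subgroup.mem_zpowers g)).1 ?_)
      rcases h12 with e | e <;> rw [e]
      exacts [one_mem _, h7]
    rw [h4, le_antisymm h6 h5, Nat.card_zpowers, h3]
  have h2 : ∀ g : E, (∀ h, Commute g h) → Nat.card {h // Commute g h} = 8 := fun g hg =>
    (Nat.card_congr (Equiv.subtypeUnivEquiv hg)).trans h8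
  have h3 := card_comm_eq_card_conjClasses_mul_card E
  rw [Nat.card_congr (Equiv.subtypeProdEquivSigmaSubtype Commute), Nat.card_sigma,
    ← Finset.add_sum_erase _ _ (Finset.mem_univ 1),
    ← Finset.add_sum_erase _ _ (Finset.mem_erase.2 ⟨hz1, Finset.mem_univ z⟩),
    Finset.sum_congr rfl fun g hg => h1 g (by simp_all) (by simp_all), h2 1 Commute.one_left, h2 z h0,
    Finset.sum_const, Finset.card_erase_of_mem (Finset.mem_erase.2 ⟨hz1, Finset.mem_univ z⟩),
    Finset.card_erase_of_mem (Finset.mem_univ 1), Finset.card_univ, ← Nat.card_eq_fintype_card,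
    h8] at h3
  rw [smul_eq_mul] at h3
  omega

end Quat

attribute [local irreducible] instFieldResF

variable {p : ℕ} [hp : Fact p.Prime] {M : Ideal AlgInt} {hM : IsPModular p M}

theorem eq_of_red {m n : ℕ} (hm : ¬ p ∣ m) (hn : ¬ p ∣ n) {a b : ℂ} (ha : a ^ m = 1) (hb : b ^ n = 1)
    (h : red hM a = red hM b) : a = b := by
  have hb0 : b ≠ 0 := fun e => by
    rw [e, zero_pow (n := n) fun e => hn (e ▸ dvd_zero p)] at hb; exact zero_ne_one hb
  have hb' : b⁻¹ ^ n = 1 := by rw [inv_pow, hb, inv_one]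
  have h1 := eq_one_of_red (hM := hM) (m := m * n) (ζ := a * b⁻¹)
    (fun e => ((Nat.Prime.dvd_mul hp.out).1 e).elim hm hn)
    (by rw [mul_pow, pow_mul, ha, mul_comm m, pow_mul, hb', one_pow, one_pow, one_mul])
    (by rw [red_mul hM (root_mem hM hm ha) (root_mem hM hn hb'), h,
      ← red_mul hM (root_mem hM hn hb) (root_mem hM hn hb'), mul_inv_cancel₀ hb0, red_one])
  exact (mul_inv_eq_one₀ hb0).1 h1

namespace SDP

variable {H Q E : Type u} [Group H] [CommGroup Q] [Group E] [Fintype H] [Fintype Q] [Fintype E]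
  (D : SDP H Q E)

theorem act_inv {k : Type} [Field k] {z : E} (hz : ∀ u, D.φ z u = u⁻¹) {V : Submodule k k[Q]}
    (h1 : ∀ w ∈ V, w ∈ aI k Q) (h2 : ∀ w ∈ V, act k D.φ z w ∈ V) (h3 : Disjoint V (aI2 k Q))
    {w : k[Q]} (hw : w ∈ V) : act k D.φ z w = -w := by
  refine eq_neg_of_add_eq_zero_left (Submodule.disjoint_def.1 h3 _ (add_mem (h2 w hw) hw) ?_)
  refine aI_le (S := (aI2 k Q).comap ((act k D.φ z).toLinearMap + LinearMap.id)) (fun u => ?_)
    (h1 w hw)
  change act k D.φ z _ + (MonoidAlgebra.single u 1 - 1) ∈ aI k Q ^ 2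
  have e : act k D.φ z (MonoidAlgebra.single u 1 - 1) + (MonoidAlgebra.single u 1 - 1) =
      -((MonoidAlgebra.single u⁻¹ 1 - 1) * (MonoidAlgebra.single u 1 - 1)) := by
    rw [map_sub, map_one, act_single, hz, sub_mul, mul_sub, MonoidAlgebra.single_mul_single,
      inv_mul_cancel, mul_one, ← MonoidAlgebra.one_def]
    ring
  rw [e, sq]
  exact neg_mem (Ideal.mul_mem_mul (single_sub_one_mem _) (single_sub_one_mem _))

/-- The regraded algebra for `E = Q₈` acting on `3²`. -/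
theorem exists_quat {M : Ideal AlgInt} (hM : IsPModular 3 M) (hQ : ∀ u : Q, u ^ 3 = 1)
    (h9 : Nat.card Q = 9) (h8 : Nat.card E = 8) (hc : ¬ IsCyclic E) {z : E}
    (hzi : ∀ u, D.φ z u = u⁻¹) (hz2 : z * z = 1) (hz : ∀ g : E, g * g = 1 → g = 1 ∨ g = z) :
    ∃ (n : ℕ) (Γ : GA (ResF hM) (ResF hM)[H]) (Pd : PD Γ (Fin n)), Γ.s = 2 ∧
      (Pd.HA 0).det = (9 : ℤ) ∧ (Pd.HA (Real.pi / 4)).det = (-1 : ℤ) := by
  classical
  have hE : ¬ 3 ∣ Nat.card E := by rw [h8]; decide
  obtain ⟨W⟩ := exists_wed hM E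
  obtain ⟨V, S, hV⟩ := D.exists_isp (k := ResF hM) hQ hE
  have h2 : finrank (ResF hM) V = 2 := by
    have h := S.card
    rw [finrank_bot, add_zero, ← Nat.card_eq_fintype_card, h9] at h
    exact Nat.pow_right_injective (by norm_num : 2 ≤ 3) h
  have hinv : ∀ u : Q, u⁻¹ = u → u = 1 := fun u h => by
    have h1 := hQ u
    rwa [pow_succ, sq, inv_eq_iff_mul_eq_one.1 h, one_mul] at h1
  have hz1 : z ≠ 1 := fun e => by
    have h1 : ∀ u : Q, u = 1 := fun u => hinv u (by rw [← hzi, e, map_one]; rfl)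
    have : Subsingleton Q := ⟨fun a b => by rw [h1 a, h1 b]⟩
    have := Nat.card_of_subsingleton (1 : Q)
    omega
  have h0 : ∀ g, z * g = g * z := fun g => by
    have h1 := hz (g * z * g⁻¹) (by
      rw [show g * z * g⁻¹ * (g * z * g⁻¹) = g * (z * z) * g⁻¹ by group, hz2]; group)
    exact (mul_inv_eq_iff_eq_mul.1 (h1.resolve_left fun e => hz1 (by simpa using e))).symm
  have hact : ∀ w ∈ V, act (ResF hM) D.φ z w = -w := fun w => D.act_inv hzi S.le (S.inv z) hV
  have hα : S.toSp.α (-1) = act (ResF hM) D.φ z := S.toSp.algHom_ext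
    (fun w hw => by rw [S.toSp.α_W _ hw, hact w hw, neg_one_smul]) fun w hw => by simp_all
  let Z : S.gr.Inv :=
    { z := MonoidAlgebra.single z 1
      two := by exact_mod_cast natCast_ne (hM := hM) (m := 2) (by decide)
      sq := by rw [MonoidAlgebra.single_mul_single, hz2, mul_one, MonoidAlgebra.one_def]
      cen := fun y => by
        induction y using MonoidAlgebra.induction_linear with
        | zero => simp
        | add x y hx hy => rw [mul_add, add_mul, hx, hy]
        | single g c => simp [MonoidAlgebra.single_mul_single, h0]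
      conj := fun a => by
        change S.β (-1) a = D.ιE _ _ * a * D.ιE _ _
        refine D.induction a (fun u e => ?_)
          (fun x y hx hy => by rw [map_add, mul_add, add_mul, hx, hy])
          fun c x hx => by rw [map_smul, mul_smul_comm, smul_mul_assoc, hx]
        rw [map_mul, S.β_ιQ, S.β_ιE, hα, ← mul_assoc, ιE_mul_ιQ, mul_assoc, mul_assoc, ← map_mul,
          ← map_mul, MonoidAlgebra.single_mul_single, MonoidAlgebra.single_mul_single, ← h0,
          ← mul_assoc, hz2, one_mul, one_mul, one_mul]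
      h := 2
      hs := by rw [S.gr_s, h2] }
  have key : ∀ θ : ℝ, ((S.gr.pd (wid W hE)).HA θ).det * (exp (2 * θ * I) ^ 2) ^ 5 =
      ((1 + exp (2 * θ * I) ^ 2) ^ 2 - exp (2 * θ * I) ^ 2) ^ 2 *
        ((1 - exp (2 * θ * I) ^ 2) ^ 2 + exp (2 * θ * I) ^ 2) ^ 3 := fun θ => by
    set y := exp (2 * θ * I) with hy
    have hF : ∀ g, ∃ a b : ℂ, S.F W θ g * y ^ 2 = (1 + y * a + (y * a) ^ 2) * (1 + y * b + (y * b) ^ 2) ∧
        (1 + a + a ^ 2) * (1 + b + b ^ 2) = Nat.card {u // D.φ g u = u} ∧ ∀ c ∈ ({a, b} : Set ℂ),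
        c ^ 8 = 1 ∧ ∃ w ∈ V, w ≠ 0 ∧ act (ResF hM) D.φ g w = red hM c • w := fun g => by
      obtain ⟨ζ, ζ', h⟩ := S.exists_eig hE g
      have h3 := S.F_apply W hE h θ
      have h4 := S.prod_eig hE h
      obtain ⟨b, -, h5, -⟩ := h
      have h6 : ∀ i, ζ i ^ 8 = 1 ∧ ∃ w ∈ V, w ≠ 0 ∧ act (ResF hM) D.φ g w = red hM (ζ i) • w :=
        fun i => ⟨h8 ▸ (h5 i).1, b i, (b i).2, fun e => b.ne_zero i (Subtype.ext e), (h5 i).2⟩
      clear h5 b
      revert ζ ζ'
      rw [h2, finrank_bot]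
      intro ζ ζ' h3 h4 h6
      refine ⟨ζ 0, ζ 1, ?_, by simpa [Finset.sum_range_succ] using h4, by
        rintro c (rfl | rfl) <;> exact h6 _⟩
      rw [h3, mul_right_comm, hy, ← exp_nat_mul, ← exp_add]
      simp [Finset.sum_range_succ, show -(4 * θ * I) + 2 * (2 * θ * I) = 0 by ring]
    have h3 : ∀ {g : E} {c x : ℂ}, c ^ 8 = 1 → x ^ 2 = 1 → ∀ {w : (ResF hM)[Q]}, w ≠ 0 →
        act (ResF hM) D.φ g w = red hM c • w → act (ResF hM) D.φ g w = red hM x • w → c = x :=
      fun hc hx w hw h h' => eq_of_red (hM := hM) (by decide) (by decide) hc hx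
        (smul_left_injective _ hw (h.symm.trans h'))
    have f1 : S.F W θ 1 * y ^ 2 = (1 + y + y ^ 2) ^ 2 := by
      obtain ⟨a, b, h4, -, h5⟩ := hF 1
      have h6 : ∀ c ∈ ({a, b} : Set ℂ), c = 1 := fun c hc => by
        obtain ⟨h6, w, -, h7, h8⟩ := h5 c hc
        exact h3 h6 (one_pow 2) h7 h8 (by simp)
      rw [h4, h6 a (by simp), h6 b (by simp)]; ring
    have f2 : S.F W θ z * y ^ 2 = (1 - y + y ^ 2) ^ 2 := by
      obtain ⟨a, b, h4, -, h5⟩ := hF z
      have h6 : ∀ c ∈ ({a, b} : Set ℂ), c = -1 := fun c hc => by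
        obtain ⟨h6, w, h9, h7, h8⟩ := h5 c hc
        exact h3 h6 neg_one_sq h7 h8 (by rw [hact w h9, red_neg hM (one_mem _)]; simp)
      rw [h4, h6 a (by simp), h6 b (by simp)]; ring
    have f3 : ∀ g, g ≠ 1 → g ≠ z → S.F W θ g * y ^ 2 = (1 - y ^ 2) ^ 2 + y ^ 2 := fun g g1 g2 => by
      obtain ⟨a, b, h4, h10, h5⟩ := hF g
      have h11 := (quat_sq h8 hc hz g1 g2).1
      have h6 : ∀ c ∈ ({a, b} : Set ℂ), c ^ 2 = -1 := fun c hc => by
        obtain ⟨h6, w, h9, h7, h8⟩ := h5 c hc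
        refine h3 (g := z) (by rw [pow_right_comm, h6, one_pow]) neg_one_sq h7 ?_
          (by rw [hact w h9, red_neg hM (one_mem _)]; simp)
        rw [← h11, map_mul, AlgHom.mul_apply, h8, map_smul, h8, smul_smul, ← sq,
          red_pow hM (root_mem hM (m := 8) (by decide) h6)]
      have h12 : Nat.card {u // D.φ g u = u} = 1 := Nat.card_eq_one_iff_exists.2
        ⟨⟨1, map_one _⟩, fun u => Subtype.ext (hinv _ (by
          rw [← hzi, ← h11, map_mul, MulAut.mul_apply, u.2, u.2]))⟩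
      have ha := h6 a (by simp)
      have hb := h6 b (by simp)
      rw [h12, ha, hb] at h10
      have h13 : a * b = 1 := by push_cast at h10; linear_combination h10
      have h14 : a + b = 0 := by linear_combination a * hb - b * h13
      rw [h4]
      linear_combination (y ^ 2 * (1 + y * b + (y * b) ^ 2)) * ha + (y ^ 2 * (1 + y * a - y ^ 2)) * hb +
        y ^ 2 * h13 + (y - y ^ 3) * h14
    have c1 : ConjClasses.mk z ≠ ConjClasses.mk 1 := fun e =>
      hz1 (isConj_one_left.1 (ConjClasses.mk_eq_mk_iff_isConj.1 e))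
    have c5 : Fintype.card (ConjClasses E) = 5 := by
      rw [← Nat.card_eq_fintype_card, quat_card h8 hc hz hz1 hz2]
    have c2 := Finset.mem_erase.2 ⟨c1, Finset.mem_univ _⟩
    rw [S.det_HA, ← c5, ← Finset.card_univ, ← Finset.prod_const, ← Finset.prod_mul_distrib,
      ← Finset.mul_prod_erase _ _ (Finset.mem_univ (ConjClasses.mk 1)), ← Finset.mul_prod_erase _ _ c2,
      apply_out (S.isClassFunction_F W θ), apply_out (S.isClassFunction_F W θ), f1, f2,
      Finset.prod_congr rfl fun C hC => f3 C.out (fun e => by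
        rw [← mk_out C, e] at hC; simp at hC) (fun e => by rw [← mk_out C, e] at hC; simp at hC),
      Finset.prod_const, Finset.card_erase_of_mem c2, Finset.card_erase_of_mem (Finset.mem_univ _),
      Finset.card_univ, c5]
    ring
  refine ⟨_, Z.gr.ga, Z.gr.pd (wid W hE), rfl, ?_, ?_⟩
  · have h := key (0 / 2)
    rw [Z.det_HA]
    norm_num at h ⊢
    exact h
  · have h := key (Real.pi / 4 / 2)
    have h1 : exp (2 * (Real.pi / 4 / 2 : ℝ) * I) ^ 2 = I := by
      refine Eq.trans ?_ exp_pi_div_two_mul_I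
      rw [← exp_nat_mul]
      congr 1
      push_cast
      ring
    rw [h1] at h
    rw [Z.det_HA]
    refine mul_right_cancel₀ (pow_ne_zero 5 I_ne_zero) (h.trans ?_)
    have h2 : (1 + I) ^ 2 - I = I := by linear_combination I_sq
    have h3 : (1 - I) ^ 2 + I = -I := by linear_combination I_sq
    rw [h2, h3, Int.cast_neg, Int.cast_one]
    ring

end SDP

end GB
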