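import Cfsg.Agent.Lib.Block.GBCore

/-!
# The Cartan matrix of the block from the projective homomorphisms between the images of simples
-/

set_option autoImplicit false
set_option linter.unusedSectionVars false

namespace GB

open Module AM Cas

universe u

variable {k : Type} [Field k] {L A : Type u} [Ring L] [Algebra k L] [Ring A] [Algebra k A]
  [FiniteDimensional k L] [FiniteDimensional k A]

theorem Split.finrank_Hom' {Y Q R : AM k L} (S : Split k Y Q R) (T : AM k L) :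
    finrank k (Hom Y T) = finrank k (Hom Q T) + finrank k (Hom R T) := by
  rw [← Module.finrank_prod]
  refine LinearEquiv.finrank_eq
    { toFun := fun f => (⟨f.1 ∘ₗ S.i1, comp_mem f.2 S.hi1⟩, ⟨f.1 ∘ₗ S.i2, comp_mem f.2 S.hi2⟩)
      invFun := fun g => ⟨g.1.1 ∘ₗ S.p1 + g.2.1 ∘ₗ S.p2,
        add_mem (comp_mem g.1.2 S.hp1) (comp_mem g.2.2 S.hp2)⟩
      map_add' := fun f g => by ext <;> simp
      map_smul' := fun c f => by ext <;> simp
      left_inv := fun f => Subtype.ext (S.ctot' f.1)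
      right_inv := fun g => by ext <;> simp [S.e11, S.e12, S.e21, S.e22] }

theorem finrank_Hom_congr {X Y : AM k L} {g : X.V →ₗ[k] Y.V} (hg : g ∈ Hom X Y)
    (hb : Function.Bijective g) (T : AM k L) : finrank k (Hom T X) = finrank k (Hom T Y) := by
  obtain ⟨g', hg', e1, e2⟩ := exists_inv hg hb
  exact LinearEquiv.finrank_eq
    { toFun := fun f => ⟨g ∘ₗ f.1, comp_mem hg f.2⟩
      invFun := fun f => ⟨g' ∘ₗ f.1, comp_mem hg' f.2⟩
      map_add' := fun _ _ => Subtype.ext (LinearMap.comp_add _ _ _)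
      map_smul' := fun _ _ => Subtype.ext (LinearMap.comp_smul _ _ _)
      left_inv := fun f => Subtype.ext (LinearMap.ext fun x => LinearMap.congr_fun e1 (f.1 x))
      right_inv := fun f => Subtype.ext (LinearMap.ext fun x => LinearMap.congr_fun e2 (f.1 x)) }

theorem finrank_Hom_of_zero_left {X : AM k L} (h : finrank k X.V = 0) (T : AM k L) :
    finrank k (Hom X T) = 0 := by
  have := Module.finrank_zero_iff.1 h
  exact Module.finrank_zero_of_subsingleton

theorem finrank_Hom_of_zero_right {X : AM k L} (h : finrank k X.V = 0) (T : AM k L) :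
    finrank k (Hom T X) = 0 := by
  have := Module.finrank_zero_iff.1 h
  exact Module.finrank_zero_of_subsingleton

/-- A short exact sequence. -/
structure Ses (Y1 Y2 Y3 : AM k L) (u : Y1.V →ₗ[k] Y2.V) (q : Y2.V →ₗ[k] Y3.V) : Prop where
  hu : u ∈ Hom Y1 Y2
  hq : q ∈ Hom Y2 Y3
  inj : Function.Injective u
  surj : Function.Surjective q
  ex : LinearMap.ker q = LinearMap.range u

namespace Cas

variable {C : Cas k L} {Q : AM k L}

theorem Proj.finrank_Hom_comm (hQ : C.Proj Q) (V : AM k L) :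
    finrank k (Hom Q V) = finrank k (Hom V Q) := by
  rw [← hQ.eq_left, ← hQ.eq_right, finrank_PHom_comm]

theorem Proj.finrank_Hom_ses (hQ : C.Proj Q) {Y1 Y2 Y3 : AM k L} {u : Y1.V →ₗ[k] Y2.V}
    {q : Y2.V →ₗ[k] Y3.V} (h : Ses Y1 Y2 Y3 u q) :
    finrank k (Hom Q Y2) = finrank k (Hom Q Y1) + finrank k (Hom Q Y3) := by
  let φ : Hom Q Y2 →ₗ[k] Hom Q Y3 :=
    { toFun := fun f => ⟨q ∘ₗ f.1, comp_mem h.hq f.2⟩
      map_add' := fun _ _ => Subtype.ext (LinearMap.comp_add _ _ _)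
      map_smul' := fun _ _ => Subtype.ext (LinearMap.comp_smul _ _ _) }
  let ψ : Hom Q Y1 →ₗ[k] Hom Q Y2 :=
    { toFun := fun f => ⟨u ∘ₗ f.1, comp_mem h.hu f.2⟩
      map_add' := fun _ _ => Subtype.ext (LinearMap.comp_add _ _ _)
      map_smul' := fun _ _ => Subtype.ext (LinearMap.comp_smul _ _ _) }
  have h1 : LinearMap.range φ = ⊤ := LinearMap.range_eq_top.2 fun f => by
    obtain ⟨g, hg, e⟩ := exists_lift (hQ.mem_left f.2) h.hq h.surj
    exact ⟨⟨g, PHom_le hg⟩, Subtype.ext e⟩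
  have h2 : Function.Injective ψ := fun f g e => Subtype.ext (LinearMap.ext fun x =>
    h.inj (LinearMap.congr_fun (congrArg Subtype.val e) x))
  have h3 : LinearMap.ker φ = LinearMap.range ψ := by
    refine le_antisymm (fun f hf => ?_) ?_
    · have h4 : ∀ x, f.1 x ∈ LinearMap.range u := fun x =>
        h.ex.le (LinearMap.congr_fun (congrArg Subtype.val hf) x)
      obtain ⟨g, hg, e⟩ := exists_lift (hQ.mem_left (codRestrict_mem (inv_range h.hu) f.2 h4))
        (codRestrict_mem (inv_range h.hu) h.hu (LinearMap.mem_range_self u))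
        fun ⟨_, x, hx⟩ => ⟨x, Subtype.ext hx⟩
      exact ⟨⟨g, PHom_le hg⟩, Subtype.ext (LinearMap.ext fun x =>
        congrArg Subtype.val (LinearMap.congr_fun e x))⟩
    · rintro _ ⟨f, rfl⟩
      exact Subtype.ext (LinearMap.ext fun x => h.ex.ge (LinearMap.mem_range_self u (f.1 x)))
  have h5 := φ.finrank_range_add_finrank_ker
  rw [h1, h3, finrank_top, LinearMap.finrank_range_of_inj h2] at h5
  omega

variable (C) in
/-- The simple modules with a property and their projective covers. -/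
structure SP {ι : Type*} [DecidableEq ι] (R : AM k L → Prop) (T P : ι → AM k L) : Prop where
  sub : ∀ X Y, R Y → ∀ j ∈ Hom X Y, Function.Injective j → R X
  quot : ∀ X Y, R X → ∀ q ∈ Hom X Y, Function.Surjective q → R Y
  simple : ∀ m, (T m).Simple
  all : ∀ S : AM k L, S.Simple → R S → ∃ m, ∃ g ∈ Hom (T m) S, g ≠ 0
  proj : ∀ m, C.Proj (P m)
  mem : ∀ m, R (P m)
  dim : ∀ m i, finrank k (Hom (T m) (P i)) = if m = i then 1 else 0

namespace SP

variable {ι : Type*} [Fintype ι] [DecidableEq ι] {R : AM k L → Prop} {T P : ι → AM k L}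
  (h : C.SP R T P)
include h

theorem exists_inj {U : AM k L} (hU : R U) (h0 : 0 < finrank k U.V) :
    ∃ m, ∃ t ∈ Hom (T m) U, Function.Injective t := by
  obtain ⟨S, hS, s, hs, hi⟩ := exists_simple U h0
  obtain ⟨m, g, hg, hg0⟩ := h.all S hS (h.sub _ _ hU s hs hi)
  exact ⟨m, _, comp_mem hs hg, hi.comp ((h.simple m).injective hg hg0)⟩

theorem exists_ess (m : ι) : ∃ j ∈ Hom (T m) (P m), Function.Injective j ∧
    ∀ Y : AM k L, ∀ g ∈ Hom (P m) Y, g ∘ₗ j ≠ 0 → Function.Injective g := by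
  have h1 := h.dim m m
  rw [if_pos rfl] at h1
  obtain ⟨j, hj0, hj⟩ := finrank_eq_one_iff'.1 h1
  refine ⟨j.1, j.2, (h.simple m).injective j.2 fun e => hj0 (Subtype.ext e), fun Y g hg h0 => ?_⟩
  by_contra hn
  obtain ⟨i, t, ht, hti⟩ := h.exists_inj (U := (P m).sub _ (inv_ker hg))
    (h.sub _ _ (h.mem m) _ (subtype_mem _ _) (Submodule.injective_subtype _))
    (Nat.pos_of_ne_zero fun e => hn (LinearMap.ker_eq_bot.1 (Submodule.finrank_eq_zero.1 e)))
  have h2 := comp_mem (subtype_mem _ (inv_ker hg)) ht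
  have h3 := (h.simple i).ne_zero (f := (LinearMap.ker g).subtype ∘ₗ t)
    ((Submodule.injective_subtype _).comp hti)
  obtain rfl : i = m := by
    by_contra hne
    have h4 := h.dim i m
    rw [if_neg hne] at h4
    exact h3 ((Submodule.eq_bot_iff _).1 (Submodule.finrank_eq_zero.1 h4) _ h2)
  obtain ⟨c, hc⟩ := hj ⟨_, h2⟩
  have h5 : c • j.1 = (LinearMap.ker g).subtype ∘ₗ t := congrArg Subtype.val hc
  have h6 : c • g ∘ₗ j.1 = 0 := by
    rw [← LinearMap.comp_smul, h5]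
    exact LinearMap.ext fun x => (t x).2
  exact h3 (by rw [← h5, (smul_eq_zero.1 h6).resolve_right h0, zero_smul])

theorem finrank_Hom_proj (hQ : C.Proj Q) (hR : R Q) (V : AM k L) :
    finrank k (Hom Q V) = ∑ m, finrank k (Hom (T m) Q) * finrank k (Hom (P m) V) := by
  induction hn : finrank k Q.V using Nat.strong_induction_on generalizing Q with
  | _ n ih =>
  rcases Nat.eq_zero_or_pos n with rfl | h0
  · simp [finrank_Hom_of_zero_left hn, finrank_Hom_of_zero_right hn]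
  obtain ⟨m, t, ht, hti⟩ := h.exists_inj hR (hn ▸ h0)
  obtain ⟨j, hj, hji, hj'⟩ := h.exists_ess m
  obtain ⟨g, hg, e⟩ := exists_extend (hQ.mem_right ht) hj hji
  obtain ⟨Q', S, -⟩ := (h.proj m).exists_split (PHom_le hg)
    (hj' _ g (PHom_le hg) (e ▸ (h.simple m).ne_zero hti))
  have h1 := S.finrank_eq
  have h2 := LinearMap.finrank_le_finrank_of_injective hji
  have h3 := (h.simple m).pos
  rw [S.finrank_Hom', ih _ (by omega) (hQ.split_right S) (h.sub _ _ hR _ S.hi2 S.i2_inj) rfl]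
  simp [S.finrank_Hom, h.dim, add_mul, Finset.sum_add_distrib]

theorem dim' (m i : ι) : finrank k (Hom (P i) (T m)) = if m = i then 1 else 0 := by
  rw [(h.proj i).finrank_Hom_comm, h.dim]

/-- An additive function is determined by its values on the simple modules. -/
theorem additive (μ : AM k L → ℕ)
    (hμ : ∀ Y1 Y2 Y3 u q, Ses Y1 Y2 Y3 u q → μ Y2 = μ Y1 + μ Y3) {U : AM k L} (hU : R U) :
    μ U = ∑ m, finrank k (Hom (P m) U) * μ (T m) := by
  induction hn : finrank k U.V using Nat.strong_induction_on generalizing U with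
  | _ n ih =>
  rcases Nat.eq_zero_or_pos n with rfl | h0
  · have := Module.finrank_zero_iff.1 hn
    have h1 := hμ U U U 0 0 ⟨zero_mem _, zero_mem _, fun _ _ _ => Subsingleton.elim _ _,
      fun _ => ⟨0, Subsingleton.elim _ _⟩, Subsingleton.elim _ _⟩
    simp [finrank_Hom_of_zero_right hn]
    omega
  obtain ⟨m, t, ht, hti⟩ := h.exists_inj hU (hn ▸ h0)
  have hs : Ses (T m) U (U.quot _ (inv_range ht)) t (LinearMap.range t).mkQ :=
    ⟨ht, mkQ_mem _ _, hti, Submodule.mkQ_surjective _, Submodule.ker_mkQ _⟩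
  have h1 := (LinearMap.range t).finrank_quotient_add_finrank
  rw [LinearMap.finrank_range_of_inj hti] at h1
  have h3 := (h.simple m).pos
  rw [hμ _ _ _ _ _ hs, ih _ (show finrank k (U.V ⧸ LinearMap.range t) < n by omega)
    (h.quot _ _ hU _ hs.hq hs.surj) rfl]
  simp [fun i => (h.proj i).finrank_Hom_ses hs, h.dim', add_mul, Finset.sum_add_distrib]

theorem finrank_End_of_proj {m : ι} (hm : C.Proj (T m)) : finrank k (Hom (P m) (P m)) = 1 := by
  obtain ⟨j, hj, hji, hj'⟩ := h.exists_ess m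
  obtain ⟨r, hr, e⟩ := hm.exists_retract hj hji
  have h1 := hj' _ r hr (e ▸ (h.simple m).ne_zero fun _ _ e => e)
  rw [finrank_Hom_congr hr ⟨h1, fun x => ⟨j x, LinearMap.congr_fun e x⟩⟩, h.dim', if_pos rfl]

end SP

end Cas

theorem PD.sp {Γ : GA k A} {ι : Type*} [DecidableEq ι] (Pd : PD Γ ι) :
    Γ.C.SP (fun _ => True) (fun a => (Pd.T a).toAM) fun a => (Pd.P a).toAM := by
  have key : ∀ b a, ∀ g ∈ Hom (Pd.T b).toAM (Pd.P a).toAM, g ≠ 0 →
      ∃ s ∈ Hom (Pd.T a).toAM (Pd.T b).toAM, g ∘ₗ s = Pd.j a := fun b a g hg h0 => by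
    have hi := (Pd.simple b).injective hg h0
    have h1 : (LinearMap.range g).mkQ ∘ₗ Pd.j a = 0 := by
      by_contra hn
      have h2 := LinearMap.ker_eq_bot.2 (Pd.ess a _ _ (mkQ_mem _ (inv_range hg)) hn)
      rw [Submodule.ker_mkQ] at h2
      exact h0 (LinearMap.range_eq_bot.1 h2)
    have h3 : ∀ x, Pd.j a x ∈ LinearMap.range g := fun x =>
      (Submodule.Quotient.mk_eq_zero _).1 (LinearMap.congr_fun h1 x)
    obtain ⟨s, hs, -, e⟩ := exists_inv (codRestrict_mem (inv_range hg) hg (LinearMap.mem_range_self g))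
      ⟨fun x y e => hi (congrArg Subtype.val e), fun ⟨_, x, hx⟩ => ⟨x, Subtype.ext hx⟩⟩
    exact ⟨_, comp_mem hs (codRestrict_mem (inv_range hg) (Pd.hj a) h3), LinearMap.ext fun x =>
      congrArg Subtype.val (LinearMap.congr_fun e ⟨Pd.j a x, h3 x⟩)⟩
  have hj0 : ∀ a, Pd.j a ≠ 0 := fun a => (Pd.simple a).ne_zero (Pd.inj a)
  refine ⟨fun _ _ _ _ _ _ => trivial, fun _ _ _ _ _ _ => trivial, Pd.simple,
    fun S hS _ => Pd.all S hS, Pd.proj, fun _ => trivial, fun b a => ?_⟩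
  split_ifs with e
  · subst e
    refine finrank_eq_one_iff'.2 ⟨⟨Pd.j b, Pd.hj b⟩, fun e => hj0 b (congrArg Subtype.val e),
      fun g => ?_⟩
    by_cases h0 : g.1 = 0
    · exact ⟨0, Subtype.ext (by rw [zero_smul, h0]; rfl)⟩
    obtain ⟨s, hs, e⟩ := key b b g.1 g.2 h0
    obtain ⟨c, rfl⟩ := Pd.schur b s hs
    rw [LinearMap.comp_smul, LinearMap.comp_id] at e
    have hc : c ≠ 0 := fun e' => hj0 b (by rw [← e, e', zero_smul])
    exact ⟨c⁻¹, Subtype.ext (by
      change c⁻¹ • Pd.j b = g.1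
      rw [← e, inv_smul_smul₀ hc])⟩
  · refine Submodule.finrank_eq_zero.2 ((Submodule.eq_bot_iff _).2 fun g hg => ?_)
    by_contra h0
    obtain ⟨s, hs, e'⟩ := key b a g hg h0
    exact hj0 a (by rw [← e', Pd.ne a b (Ne.symm e) s hs, LinearMap.comp_zero])

theorem BD.ses_F (D : BD k L A) {Y1 Y2 Y3 : AM k L} {u : Y1.V →ₗ[k] Y2.V} {q : Y2.V →ₗ[k] Y3.V}
    (h : Ses Y1 Y2 Y3 u q) : Ses (D.F Y1) (D.F Y2) (D.F Y3) (D.Fm u) (D.Fm q) := by
  refine ⟨D.Fm_mem h.hu, D.Fm_mem h.hq, fun x y e => Subtype.ext (h.inj ?_), fun y => ?_,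
    le_antisymm (fun x hx => ?_) ?_⟩
  · rw [← D.Fm_coe h.hu, ← D.Fm_coe h.hu, e]
  · obtain ⟨x, hx⟩ := h.surj y.1
    exact ⟨D.pr Y2 x, Subtype.ext (by rw [D.Fm_coe h.hq, BD.pr_coe, h.hq, hx, y.2])⟩
  · have h1 : q x.1 = 0 := by
      rw [← D.Fm_coe h.hq, LinearMap.mem_ker.1 hx]; rfl
    obtain ⟨z, hz⟩ := h.ex.le h1
    exact ⟨D.pr Y1 z, Subtype.ext (by rw [D.Fm_coe h.hu, BD.pr_coe, h.hu, hz, x.2])⟩
  · rintro _ ⟨x, rfl⟩
    refine Subtype.ext ?_
    rw [D.Fm_coe h.hq, D.Fm_coe h.hu]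
    exact h.ex.ge (LinearMap.mem_range_self u x.1)

theorem cartan_arith {κ ι : Type*} [Fintype κ] [Fintype ι] {t c : κ → ℕ} {n x : ι → ℕ}
    {q : κ → ι → ℕ} {d : ℕ} (h : ∑ b, t b * c b = ∑ m, (∑ b, q b m * c b + x m) * n m + d) :
    ∑ b, (c b : ℤ) * (t b - ∑ j, (q b j : ℤ) * n j) = ∑ j, (x j : ℤ) * n j + d := by
  have h3 := congrArg (Nat.cast : ℕ → ℤ) h
  push_cast at h3
  simp only [mul_sub, Finset.sum_sub_distrib, Finset.mul_sum]
  simp only [add_mul, Finset.sum_add_distrib, Finset.sum_mul] at h3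
  rw [Finset.sum_comm (f := fun x j => _ * (_ * _)), sub_eq_iff_eq_add]
  simp only [mul_comm, mul_left_comm] at h3 ⊢
  linear_combination h3

namespace SD

variable {D : BD k L A} {ι : Type*} [Fintype ι] [DecidableEq ι] (Sg : SD D ι) {CL : Cas k L}

theorem spOf {PB : ι → AM k L} (h1 : ∀ i, CL.Proj (PB i)) (h2 : ∀ i, D.In (PB i))
    (h3 : ∀ i j, finrank k (Hom (PB i) (Sg.S j)) = if j = i then 1 else 0) :
    CL.SP D.In Sg.S PB :=
  ⟨fun _ _ hY _ hj hi => hY.of_injective hj hi, fun _ _ hX q hq hs y => by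
    obtain ⟨x, rfl⟩ := hs y
    rw [← hq, hX], Sg.simple, Sg.all, h1, h2, fun m i => by rw [← (h1 i).finrank_Hom_comm, h3]⟩

/-- The Cartan matrix is the negative of the corner of the inverse of the matrix of the dimensions
of the spaces of projective homomorphisms. -/
theorem cartan {CA : Cas k A} (h : D.SE CL CA) {κ : Type*} [Fintype κ] [DecidableEq κ]
    {T P : κ → AM k A} (hA : CA.SP (fun _ => True) T P) {PB : ι → AM k L}
    (hB : CL.SP D.In Sg.S PB) (hn : ∀ j, ¬ CL.Proj (Sg.S j)) : ∃ y : κ → ι → ℤ,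
      (∀ a i, ∑ b, (finrank k (CA.PHom (P a) (P b)) : ℤ) * y b i =
        ∑ j, (finrank k (CA.PHom (P a) (Sg.X CA j)) : ℤ) * finrank k (Hom (PB j) (PB i))) ∧
      ∀ j i, ∑ b, (finrank k (CA.PHom (Sg.X CA j) (P b)) : ℤ) * y b i =
        ∑ m, (finrank k (CA.PHom (Sg.X CA j) (Sg.X CA m)) : ℤ) * finrank k (Hom (PB m) (PB i)) +
          if j = i then 1 else 0 := by
  refine ⟨fun b i => finrank k (Hom (T b) (D.F (PB i))) -
    ∑ j, (finrank k (Hom (T b) (Sg.Q CA j)) : ℤ) * finrank k (Hom (PB j) (PB i)),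
    fun a i => ?_, fun j i => ?_⟩
  · have h1 := hA.finrank_Hom_proj (h.proj_F (hB.proj i)) trivial (P a)
    have h2 := hB.additive (fun U => finrank k (Hom (P a) (D.F U)))
      (fun _ _ _ _ _ hs => (hA.proj a).finrank_Hom_ses (D.ses_F hs)) (hB.mem i)
    rw [(hA.proj a).finrank_Hom_comm, h1] at h2
    have h3 : ∀ m, finrank k (Hom (P a) (D.F (Sg.S m))) =
        ∑ b, finrank k (Hom (T b) (Sg.Q CA m)) * finrank k (Hom (P b) (P a)) +
          finrank k (Hom (P a) (Sg.X CA m)) := fun m => by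
      rw [(Sg.sp CA m).finrank_Hom, (hA.proj a).finrank_Hom_comm (Sg.Q CA m),
        hA.finrank_Hom_proj (Sg.proj_Q CA m) trivial]
    have h4 := cartan_arith (d := 0) (h2.trans ((Finset.sum_congr rfl fun m _ => by
      rw [h3, mul_comm]).trans (add_zero _).symm))
    rw [Nat.cast_zero, add_zero] at h4
    refine ((Finset.sum_congr rfl fun b _ => ?_).trans h4).trans
      (Finset.sum_congr rfl fun j _ => by rw [(hA.proj a).eq_left])
    rw [(hA.proj a).eq_left, (hA.proj a).finrank_Hom_comm (P b)]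
  · obtain ⟨Q0, R0, hQ0, hR0, ⟨S0⟩⟩ := exists_core (C := CL) (D.G (Sg.X CA j))
    obtain ⟨r, hr, hri⟩ := h.exists_emb (Sg.inn j) (Sg.sp CA j).hi2 (Sg.sp CA j).hp2
      (Sg.sp CA j).c22 S0 hR0
    have a1 : 0 < finrank k R0.V := Nat.pos_of_ne_zero fun e => Sg.nproj_X h (hn j) <|
      h.proj_of_G (mem_of_i2 S0 hQ0 (id_mem _) ((proj_of_finrank_eq_zero e).mem_left S0.hi2))
    have a2 := (Sg.simple j).surjective hr (((Sg.simple j).of_injective a1 hr hri).ne_zero hri)
    have h1 := hA.finrank_Hom_proj (h.proj_F (hB.proj i)) trivial (Sg.X CA j)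
    rw [(D.adjEquiv (hB.mem i) _).finrank_eq, S0.finrank_Hom, finrank_Hom_congr hr ⟨hri, a2⟩,
      hB.dim', ← hQ0.finrank_Hom_comm,
      hB.finrank_Hom_proj hQ0 ((D.in_G _).of_injective S0.hi1 S0.i1_inj)] at h1
    have h2 : ∀ m, finrank k (Hom (Sg.S m) Q0) =
        ∑ b, finrank k (Hom (T b) (Sg.Q CA m)) * finrank k (Hom (P b) (Sg.X CA j)) +
          finrank k (CA.PHom (Sg.X CA m) (Sg.X CA j)) := fun m => by
      rw [← finrank_PHom_core S0 hQ0 hR0 (Sg.simple m), ← h.finrank_PHom (Sg.inn m),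
        ← hA.finrank_Hom_proj (Sg.proj_Q CA m) trivial, ← Module.finrank_prod]
      let S := Sg.sp CA m
      exact LinearEquiv.finrank_eq
        { toFun := fun f => (⟨f.1 ∘ₗ S.i1, comp_mem (PHom_le f.2) S.hi1⟩,
            ⟨f.1 ∘ₗ S.i2, comp_right f.2 S.hi2⟩)
          invFun := fun g => ⟨g.1.1 ∘ₗ S.p1 + g.2.1 ∘ₗ S.p2,
            add_mem (comp_right ((Sg.proj_Q CA m).mem_left g.1.2) S.hp1) (comp_right g.2.2 S.hp2)⟩
          map_add' := fun f g => by ext <;> simp
          map_smul' := fun c f => by ext <;> simp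
          left_inv := fun f => Subtype.ext (S.ctot' f.1)
          right_inv := fun g => by ext <;> simp [S.e11, S.e12, S.e21, S.e22] }
    simp only [h2] at h1
    have h4 := cartan_arith h1.symm
    rw [Finset.sum_congr rfl fun b _ => by
      rw [(hA.proj b).eq_right, ← (hA.proj b).finrank_Hom_comm], h4, Nat.cast_ite, Nat.cast_one,
      Nat.cast_zero, Finset.sum_congr rfl fun m _ => by rw [CA.finrank_PHom_comm]]

end SD

end GB
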