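import Cfsg.Agent.Lib.Block.GBFun
import Mathlib.Algebra.Polynomial.Roots
import Mathlib.LinearAlgebra.Matrix.ToLinearEquiv

/-!
# The images of the simple modules under a stable equivalence
-/

set_option autoImplicit false
set_option linter.unusedSectionVars false

namespace GB

open Module AM Cas

universe u

variable {k : Type} [Field k] {L A : Type u} [Ring L] [Algebra k L] [Ring A] [Algebra k A]
  [FiniteDimensional k L] [FiniteDimensional k A]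

theorem AM.Simple.of_injective {R S : AM k L} (hS : S.Simple) (h0 : 0 < finrank k R.V)
    {r : R.V →ₗ[k] S.V} (hr : r ∈ Hom R S) (hi : Function.Injective r) : R.Simple := by
  have hn : Nontrivial R.V := Module.finrank_pos_iff.1 h0
  have hs : Function.Surjective r := hS.surjective hr fun e => by
    obtain ⟨x, y, hxy⟩ := hn
    exact hxy (hi (by rw [e]; rfl))
  refine ⟨hn, fun W hW => ?_⟩
  rcases hS.2 (W.map r) (by rintro a _ ⟨x, hx, rfl⟩; exact ⟨_, hW a x hx, hr a x⟩) with h | h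
  · refine Or.inl ((Submodule.eq_bot_iff _).2 fun x hx => hi ?_)
    rw [map_zero]
    exact (Submodule.eq_bot_iff _).1 h _ ⟨x, hx, rfl⟩
  · refine Or.inr (eq_top_iff.2 fun x _ => ?_)
    obtain ⟨y, hy, e⟩ := (h ▸ Submodule.mem_top : r x ∈ W.map r)
    exact hi e ▸ hy

/-- The decomposition of a product. -/
def Split.ofProd (X Y : AM k L) : Split k (X.prod Y) X Y :=
  ⟨.inl k _ _, .fst k _ _, .inr k _ _, .snd k _ _, inl_mem X Y, fst_mem X Y, inr_mem X Y,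
    snd_mem X Y, fun _ => rfl, fun _ => rfl, fun _ => rfl, fun _ => rfl, fun y => by simp⟩

namespace Cas

variable (C : Cas k L)

/-- The dimension of the projective-free part. -/
noncomputable def cd (Y : AM k L) : ℕ := finrank k (exists_core (C := C) Y).choose_spec.choose.V

variable {C} {Y Q R : AM k L}

theorem cd_add_le (hQ : C.Proj Q) {g : Q.V →ₗ[k] Y.V} (hg : g ∈ Hom Q Y)
    (hi : Function.Injective g) : C.cd Y + finrank k Q.V ≤ finrank k Y.V := by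
  obtain ⟨h1, h2, ⟨S⟩⟩ := (exists_core (C := C) Y).choose_spec.choose_spec
  have h3 := finrank_le_core S h1 h2 hQ hg hi
  have h4 := S.finrank_eq
  unfold cd
  omega

theorem cd_eq (S : Split k Y Q R) (hQ : C.Proj Q) (hR : C.PFree R) : C.cd Y = finrank k R.V := by
  obtain ⟨h1, h2, ⟨S'⟩⟩ := (exists_core (C := C) Y).choose_spec.choose_spec
  have h3 := finrank_le_core S hQ hR h1 S'.hi1 S'.i1_inj
  have h4 := cd_add_le hQ S.hi1 S.i1_inj
  have h5 := S.finrank_eq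
  have h6 := S'.finrank_eq
  unfold cd at h4 ⊢
  omega

theorem id_sub_mem (S : Split k Y Q R) (hQ : C.Proj Q) :
    LinearMap.id - S.i2 ∘ₗ S.p2 ∈ C.PHom Y Y := by
  have h := S.ctot LinearMap.id
  rw [LinearMap.comp_id, LinearMap.comp_id] at h
  rw [← h, add_sub_cancel_right]
  exact comp_left S.hi1 (hQ.mem_right S.hp1)

/-- A homomorphism is projective when its restriction to the core is. -/
theorem mem_of_i2 (S : Split k Y Q R) (hQ : C.Proj Q) {Z : AM k L} {g : Y.V →ₗ[k] Z.V}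
    (hg : g ∈ Hom Y Z) (h : g ∘ₗ S.i2 ∈ C.PHom R Z) : g ∈ C.PHom Y Z := by
  rw [← S.ctot' g]
  exact add_mem (comp_right (hQ.mem_left (comp_mem hg S.hi1)) S.hp1) (comp_right h S.hp2)

theorem mem_of_p2 (S : Split k Y Q R) (hQ : C.Proj Q) {Z : AM k L} {g : Z.V →ₗ[k] Y.V}
    (hg : g ∈ Hom Z Y) (h : S.p2 ∘ₗ g ∈ C.PHom Z R) : g ∈ C.PHom Z Y := by
  rw [← S.ctot g]
  exact add_mem (comp_left S.hi1 (hQ.mem_right (comp_mem S.hp1 hg))) (comp_left S.hi2 h)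

end Cas

namespace BD

variable (D : BD k L A) {U Y : AM k L} {Z Z' : AM k A}

theorem Fm_id (U : AM k L) : D.Fm (LinearMap.id : U.V →ₗ[k] U.V) = LinearMap.id :=
  LinearMap.ext fun x => D.pr_self U x

theorem Fm_comp {U' : AM k L} (g : Y.V →ₗ[k] U'.V) {h : U.V →ₗ[k] Y.V} (hh : h ∈ Hom U Y) :
    D.Fm (g ∘ₗ h) = D.Fm g ∘ₗ D.Fm h := LinearMap.ext fun x => by
  change D.pr U' (g (h x)) = D.pr U' (g (D.Fm h x : D.fix Y))
  rw [D.Fm_coe hh]

theorem Fm_sub (g h : U.V →ₗ[k] Y.V) : D.Fm (g - h) = D.Fm g - D.Fm h := by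
  ext x; simp [Fm]

theorem Fm_smul (c : k) (h : U.V →ₗ[k] Y.V) : D.Fm (c • h) = c • D.Fm h := by
  ext x; simp [Fm]

theorem Fm_zero : D.Fm (0 : U.V →ₗ[k] Y.V) = 0 := by
  ext x; simp [Fm]

theorem ε_Fm_adj (hU : D.In U) {g : (D.F U).V →ₗ[k] Z.V} (hg : g ∈ Hom (D.F U) Z) :
    D.ε Z ∘ₗ D.Fm (D.adj hg) = g := LinearMap.ext fun x => by
  change ((D.Fm (D.adj hg) x : D.fix _) : (D.G Z).V).1 (D.mkW 1) = g x
  rw [D.Fm_coe (D.adj_mem hg), adj_apply]
  refine congrArg g (Subtype.ext ?_)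
  rw [pr_coe, mkW_coe, one_mul, ρ_mul, hU, x.2, x.2]

theorem adj_ε {h : U.V →ₗ[k] (D.G Z).V} (hh : h ∈ Hom U (D.G Z)) :
    D.adj (comp_mem (D.ε_mem Z) (D.Fm_mem hh)) = h :=
  LinearMap.ext fun u => Subtype.ext (LinearMap.ext fun w => by
    rw [adj_apply]
    change ((D.Fm h (D.pr U (U.ρ w.1.1 u)) : D.fix _) : (D.G Z).V).1 (D.mkW 1) = _
    rw [D.Fm_coe hh, pr_coe, ← ρ_mul, f_mul_W, hh, G_ρ, rm_mkW, one_mul, mkW_self])

theorem adj_congr {g g' : (D.F U).V →ₗ[k] Z.V} (hg : g ∈ Hom (D.F U) Z) (hg' : g' ∈ Hom (D.F U) Z)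
    (e : g = g') : D.adj hg = D.adj hg' := by subst e; rfl

theorem adj_ε_id (Z : AM k A) : D.adj (D.ε_mem Z) = LinearMap.id :=
  (D.adj_congr _ _ (by rw [Fm_id, LinearMap.comp_id])).trans (D.adj_ε (id_mem _))

theorem adj_comp_Fm {g : (D.F Y).V →ₗ[k] Z.V} (hg : g ∈ Hom (D.F Y) Z) {h : U.V →ₗ[k] Y.V}
    (hh : h ∈ Hom U Y) : D.adj (comp_mem hg (D.Fm_mem hh)) = D.adj hg ∘ₗ h :=
  LinearMap.ext fun u => Subtype.ext (LinearMap.ext fun w => by
    rw [adj_apply, LinearMap.comp_apply, LinearMap.comp_apply, adj_apply]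
    refine congrArg g (Subtype.ext ?_)
    rw [D.Fm_coe hh, pr_coe, pr_coe, hh, hh])

theorem Gm_adj {q : Z.V →ₗ[k] Z'.V} (hq : q ∈ Hom Z Z') {g : (D.F U).V →ₗ[k] Z.V}
    (hg : g ∈ Hom (D.F U) Z) : D.adj (comp_mem hq hg) = D.Gm hq ∘ₗ D.adj hg := rfl

theorem adj_sub {g g' : (D.F U).V →ₗ[k] Z.V} (hg : g ∈ Hom (D.F U) Z) (hg' : g' ∈ Hom (D.F U) Z) :
    D.adj (sub_mem hg hg') = D.adj hg - D.adj hg' := rfl

/-- The adjunction. -/
noncomputable def adjEquiv (hU : D.In U) (Z : AM k A) : Hom (D.F U) Z ≃ₗ[k] Hom U (D.G Z) where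
  toFun g := ⟨D.adj g.2, D.adj_mem g.2⟩
  invFun h := ⟨D.ε Z ∘ₗ D.Fm h.1, comp_mem (D.ε_mem Z) (D.Fm_mem h.2)⟩
  map_add' _ _ := rfl
  map_smul' _ _ := rfl
  left_inv g := Subtype.ext (D.ε_Fm_adj hU g.2)
  right_inv h := Subtype.ext (D.adj_ε h.2)

theorem In.of_injective {D : BD k L A} (hY : D.In Y) {j : U.V →ₗ[k] Y.V} (hj : j ∈ Hom U Y)
    (hi : Function.Injective j) : D.In U := fun u => hi (by rw [hj, hY])

theorem Gm_injective {q : Z.V →ₗ[k] Z'.V} (hq : q ∈ Hom Z Z') (hi : Function.Injective q) :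
    Function.Injective (D.Gm hq) := fun _ _ e =>
  Subtype.ext (LinearMap.ext fun w => hi (LinearMap.congr_fun (congrArg Subtype.val e) w))

theorem exists_Gm_eq {X : AM k A} {u : X.V →ₗ[k] Z.V} (hu : u ∈ Hom X Z)
    (hi : Function.Injective u) {q : Z.V →ₗ[k] Z'.V} (hq : q ∈ Hom Z Z')
    (h : LinearMap.ker q ≤ LinearMap.range u) {φ : (D.G Z).V} (h0 : D.Gm hq φ = 0) :
    ∃ χ, D.Gm hu χ = φ := by
  have h1 : ∀ w, φ.1 w ∈ LinearMap.range u := fun w =>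
    h (LinearMap.congr_fun (congrArg Subtype.val h0) w)
  have hc := codRestrict_mem (inv_range hu) hu (LinearMap.mem_range_self u)
  obtain ⟨s, hs, -, e⟩ := exists_inv hc
    ⟨fun x y e => hi (congrArg Subtype.val e), fun ⟨_, x, hx⟩ => ⟨x, Subtype.ext hx⟩⟩
  exact ⟨⟨_, comp_mem hs (codRestrict_mem (inv_range hu) φ.2 h1)⟩, Subtype.ext
    (LinearMap.ext fun w => congrArg Subtype.val (LinearMap.congr_fun e ⟨φ.1 w, h1 w⟩))⟩

theorem proj_Le (C : Cas k L) : C.Proj D.Le := by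
  refine ⟨(C.τ ∘ₗ Submodule.subtype _).smulRight ⟨D.e, sub_eq_zero.2 D.he⟩,
    LinearMap.ext fun x => Subtype.ext ?_⟩
  rw [Tr_apply, Submodule.coe_sum]
  change ∑ i, C.a i * (C.τ (C.b i * x.1) • D.e) = x.1
  simp only [mul_smul_comm, ← smul_mul_assoc]
  rw [← Finset.sum_mul, C.d1, D.Le_mul_e]

variable {D} {CL : Cas k L} {CA : Cas k A}

theorem SE.congr (h : D.SE CL CA) (CL' : Cas k L) (CA' : Cas k A) : D.SE CL' CA' := by
  obtain ⟨h1, h2, h3, h4, h5⟩ := h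
  simp only [PHom_eq CL CL', PHom_eq CA CA'] at h1 h2 h3 h4 h5
  exact ⟨h1, h2, h3, h4, h5⟩

variable (h : D.SE CL CA)
include h

theorem SE.proj_F (hU : CL.Proj U) : CA.Proj (D.F U) := by
  rw [Proj, ← D.Fm_id]; exact h.Fp _ _ _ hU

theorem SE.proj_W : CA.Proj D.W := h.proj_F (D.proj_Le CL)

theorem SE.adj_mem_iff (hU : D.In U) {g : (D.F U).V →ₗ[k] Z.V} (hg : g ∈ Hom (D.F U) Z) :
    D.adj hg ∈ CL.PHom U (D.G Z) ↔ g ∈ CA.PHom (D.F U) Z :=
  ⟨fun h' => D.ε_Fm_adj hU hg ▸ comp_left (D.ε_mem Z) (h.Fp _ _ _ h'), h.adjp U Z hU g hg⟩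

theorem SE.finrank_PHom (hU : D.In U) (Z : AM k A) :
    finrank k (CA.PHom (D.F U) Z) = finrank k (CL.PHom U (D.G Z)) :=
  LinearEquiv.finrank_eq
    { toFun := fun g => ⟨D.adj (PHom_le g.2), (h.adj_mem_iff hU _).2 g.2⟩
      invFun := fun g => ⟨D.ε Z ∘ₗ D.Fm g.1, comp_left (D.ε_mem Z) (h.Fp _ _ _ g.2)⟩
      map_add' := fun _ _ => rfl
      map_smul' := fun _ _ => rfl
      left_inv := fun g => Subtype.ext (D.ε_Fm_adj hU (PHom_le g.2))
      right_inv := fun g => Subtype.ext (D.adj_ε (PHom_le g.2)) }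

theorem SE.proj_G (hZ : CA.Proj Z) : CL.Proj (D.G Z) := by
  rw [Proj, ← D.adj_ε_id]
  exact (h.adj_mem_iff (D.in_G Z) _).2 (hZ.mem_right (D.ε_mem Z))

theorem SE.proj_of_G (hZ : CL.Proj (D.G Z)) : CA.Proj Z := by
  obtain ⟨ι, hι, e⟩ := h.unit Z
  have := add_mem e (comp_left (D.ε_mem Z) ((h.proj_F hZ).mem_right hι))
  rwa [sub_add_cancel] at this

theorem SE.Gm_surjective {q : Z.V →ₗ[k] Z'.V} (hq : q ∈ Hom Z Z') (hs : Function.Surjective q) :
    Function.Surjective (D.Gm hq) := fun φ => by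
  obtain ⟨g, hg, e⟩ := exists_lift (h.proj_W.mem_left φ.2) hq hs
  exact ⟨⟨g, PHom_le hg⟩, Subtype.ext e⟩

/-- The core of `G X` embeds in `U` when `X` is a retract of `F U`. -/
theorem SE.exists_emb (hU : D.In U) {X : AM k A} {i : X.V →ₗ[k] (D.F U).V}
    {p : (D.F U).V →ₗ[k] X.V} (hi : i ∈ Hom X (D.F U)) (hp : p ∈ Hom (D.F U) X)
    (e : p ∘ₗ i = LinearMap.id) {Q R : AM k L} (S : Split k (D.G X) Q R) (hR : CL.PFree R) :
    ∃ r ∈ Hom R U, Function.Injective r := by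
  obtain ⟨g, hg, h1⟩ := h.full _ _ (D.in_G X) hU _ (comp_mem hi (D.ε_mem X))
  have h2 := comp_left hp h1
  rw [LinearMap.comp_sub, ← LinearMap.comp_assoc, e, LinearMap.id_comp] at h2
  have h3 := (h.adj_mem_iff (D.in_G X) (sub_mem (D.ε_mem X) (comp_mem hp (D.Fm_mem hg)))).2 h2
  rw [D.adj_sub (D.ε_mem X) (comp_mem hp (D.Fm_mem hg)), adj_ε_id, D.adj_comp_Fm hp hg] at h3
  have h4 := comp_left S.hp2 (comp_right h3 S.hi2)
  rw [LinearMap.sub_comp, LinearMap.comp_sub, LinearMap.id_comp, S.c22] at h4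
  have h5 := hR.injective (comp_mem S.hp2 (comp_mem (comp_mem (D.adj_mem hp) hg) S.hi2)) h4
  exact ⟨_, comp_mem hg S.hi2, fun x y e => h5 (congrArg (fun z => S.p2 (D.adj hp z)) e)⟩

end BD

/-- A complete family of the simple modules on which `e` acts as the identity. -/
structure SD (D : BD k L A) (ι : Type*) where
  S : ι → AM k L
  inn : ∀ j, D.In (S j)
  simple : ∀ j, (S j).Simple
  schur : ∀ j, ∀ g ∈ Hom (S j) (S j), ∃ c : k, g = c • LinearMap.id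
  ne : ∀ i j, i ≠ j → ∀ g ∈ Hom (S i) (S j), g = 0
  all : ∀ T : AM k L, T.Simple → D.In T → ∃ j, ∃ g ∈ Hom (S j) T, g ≠ 0

namespace SD

variable {D : BD k L A} {ι : Type*} (Sg : SD D ι) (CA : Cas k A)

/-- The projective part of the image of a simple module. -/
noncomputable def Q (j : ι) : AM k A := (exists_core (C := CA) (D.F (Sg.S j))).choose

/-- The projective-free part of the image of a simple module. -/
noncomputable def X (j : ι) : AM k A := (exists_core (C := CA) (D.F (Sg.S j))).choose_spec.choose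

theorem proj_Q (j : ι) : CA.Proj (Sg.Q CA j) :=
  (exists_core (C := CA) (D.F (Sg.S j))).choose_spec.choose_spec.1

theorem pfree_X (j : ι) : CA.PFree (Sg.X CA j) :=
  (exists_core (C := CA) (D.F (Sg.S j))).choose_spec.choose_spec.2.1

/-- The decomposition of the image of a simple module. -/
noncomputable def sp (j : ι) : Split k (D.F (Sg.S j)) (Sg.Q CA j) (Sg.X CA j) :=
  (exists_core (C := CA) (D.F (Sg.S j))).choose_spec.choose_spec.2.2.some

variable {CA} {CL : Cas k L} (h : D.SE CL CA)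
include h

theorem exists_sub_mem (i j : ι) {g : (Sg.X CA i).V →ₗ[k] (Sg.X CA j).V}
    (hg : g ∈ Hom (Sg.X CA i) (Sg.X CA j)) : ∃ f ∈ Hom (Sg.S i) (Sg.S j),
      g - (Sg.sp CA j).p2 ∘ₗ D.Fm f ∘ₗ (Sg.sp CA i).i2 ∈ CA.PHom (Sg.X CA i) (Sg.X CA j) := by
  obtain ⟨f, hf, h1⟩ := h.full _ _ (Sg.inn i) (Sg.inn j) _
    (comp_mem (Sg.sp CA j).hi2 (comp_mem hg (Sg.sp CA i).hp2))
  refine ⟨f, hf, ?_⟩
  convert comp_left (Sg.sp CA j).hp2 (comp_right h1 (Sg.sp CA i).hi2) using 1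
  ext x
  simp [(Sg.sp CA i).e22, (Sg.sp CA j).e22]

theorem nproj_X {j : ι} (hj : ¬ CL.Proj (Sg.S j)) : ¬ CA.Proj (Sg.X CA j) := fun h' => hj <| by
  refine h.faith _ _ (Sg.inn j) (Sg.inn j) _ (id_mem _) ?_
  rw [D.Fm_id]
  exact mem_of_i2 (Sg.sp CA j) (Sg.proj_Q CA j) (id_mem _) (h'.mem_left (Sg.sp CA j).hi2)

theorem mem_of_ne {i j : ι} (hij : i ≠ j) {g : (Sg.X CA i).V →ₗ[k] (Sg.X CA j).V}
    (hg : g ∈ Hom (Sg.X CA i) (Sg.X CA j)) : g ∈ CA.PHom (Sg.X CA i) (Sg.X CA j) := by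
  obtain ⟨f, hf, h1⟩ := Sg.exists_sub_mem h i j hg
  rwa [Sg.ne i j hij f hf, D.Fm_zero, LinearMap.zero_comp, LinearMap.comp_zero, sub_zero] at h1

theorem schur_X (j : ι) {g : (Sg.X CA j).V →ₗ[k] (Sg.X CA j).V}
    (hg : g ∈ Hom (Sg.X CA j) (Sg.X CA j)) :
    ∃ c : k, g - c • LinearMap.id ∈ CA.PHom (Sg.X CA j) (Sg.X CA j) := by
  obtain ⟨f, hf, h1⟩ := Sg.exists_sub_mem h j j hg
  obtain ⟨c, rfl⟩ := Sg.schur j f hf
  rw [D.Fm_smul, D.Fm_id, LinearMap.smul_comp, LinearMap.comp_smul, LinearMap.id_comp,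
    Split.c22] at h1
  exact ⟨c, h1⟩

/-- A simple submodule of the core of `G Z` gives a stably non-zero map `X j → Z`. -/
theorem exists_not_mem {Z : AM k A} {Q R : AM k L} (S : Split k (D.G Z) Q R) (hR : CL.PFree R)
    (h0 : 0 < finrank k R.V) : ∃ j, ¬ CL.Proj (Sg.S j) ∧ ∃ g ∈ Hom (Sg.S j) R,
      Function.Injective g ∧ (D.ε Z ∘ₗ D.Fm (S.i2 ∘ₗ g)) ∘ₗ (Sg.sp CA j).i2 ∉
        CA.PHom (Sg.X CA j) Z := by
  obtain ⟨T, hT, t, ht, hti⟩ := exists_simple R h0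
  obtain ⟨j, g, hg, hg0⟩ := Sg.all T hT
    (((D.in_G Z).of_injective S.hi2 S.i2_inj).of_injective ht hti)
  have hgi := hti.comp ((Sg.simple j).injective hg hg0)
  have htg := comp_mem ht hg
  refine ⟨j, fun hp => (Sg.simple j).pos.ne' (hR _ hp _ htg hgi), _, htg, hgi, fun h1 => ?_⟩
  have h2 := comp_mem S.hi2 htg
  have h3 := (h.adj_mem_iff (Sg.inn j) (comp_mem (D.ε_mem Z) (D.Fm_mem h2))).2
    (mem_of_i2 (Sg.sp CA j) (Sg.proj_Q CA j) (comp_mem (D.ε_mem Z) (D.Fm_mem h2)) h1)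
  rw [D.adj_ε h2] at h3
  have h4 := hR.eq_zero (Sg.simple j) (comp_left S.hp2 h3)
  rw [← LinearMap.comp_assoc, S.c22, LinearMap.id_comp] at h4
  exact (Sg.simple j).ne_zero hgi h4

theorem cd_lt (j : ι) {Z I Z' : AM k A} (hI : CA.Proj I) {f : (Sg.X CA j).V →ₗ[k] Z.V}
    (hf : f ∈ Hom (Sg.X CA j) Z) (hf' : f ∉ CA.PHom (Sg.X CA j) Z) {t : (Sg.X CA j).V →ₗ[k] I.V}
    (ht : t ∈ Hom (Sg.X CA j) I) (hti : Function.Injective t) {q : (Z.prod I).V →ₗ[k] Z'.V}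
    (hq : q ∈ Hom (Z.prod I) Z') (hqs : Function.Surjective q)
    (hk : LinearMap.ker q = LinearMap.range (f.prod t)) : CL.cd (D.G Z') < CL.cd (D.G Z) := by
  have hu := prod_mem hf ht
  have hui : Function.Injective (f.prod t) := fun x y e => hti (congrArg Prod.snd e)
  have hGu := D.Gm_mem hu
  have hGi := D.Gm_injective hu hui
  have hGq := D.Gm_mem hq
  obtain ⟨Q0, R0, hQ0, hR0, ⟨S0⟩⟩ := exists_core (C := CL) (D.G (Sg.X CA j))
  obtain ⟨r, hr, hri⟩ := h.exists_emb (Sg.inn j) (Sg.sp CA j).hi2 (Sg.sp CA j).hp2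
    (Sg.sp CA j).c22 S0 hR0
  have hA : D.Gm hu ∘ₗ S0.i2 ∉ CL.PHom R0 (D.G (Z.prod I)) := fun h1 => hf' <| by
    have h2 := comp_right (mem_of_i2 S0 hQ0 hGu h1) (D.adj_mem (Sg.sp CA j).hp2)
    rw [← D.Gm_adj, h.adj_mem_iff (Sg.inn j)] at h2
    convert comp_left (fst_mem Z I) (comp_right h2 (Sg.sp CA j).hi2) using 1
    ext x
    simp [(Sg.sp CA j).e22]
  obtain ⟨R1, S1, e1⟩ := hQ0.exists_split (comp_mem hGu S0.hi1) (hGi.comp S0.i1_inj)
  obtain ⟨Q2, R2, hQ2, hR2, ⟨S2⟩⟩ := exists_core (C := CL) R1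
  have hμ := comp_mem (S1.trans S2).hp2 (comp_mem hGu S0.hi2)
  have hμ0 : (S1.trans S2).p2 ∘ₗ D.Gm hu ∘ₗ S0.i2 ≠ 0 := fun e => hA <|
    mem_of_p2 (S1.trans S2) (hQ0.prod hQ2) (comp_mem hGu S0.hi2) (e ▸ zero_mem _)
  have hpos : 0 < finrank k R0.V := Nat.pos_of_ne_zero fun e => hμ0 <| by
    have := Module.finrank_zero_iff.1 e
    exact Subsingleton.elim _ _
  have hμi := ((Sg.simple j).of_injective hpos hr hri).injective hμ hμ0
  have h21 : ∀ a, S1.p2 (D.Gm hu (S0.i1 a)) = 0 := fun a => by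
    have := S1.e21 a
    rwa [e1] at this
  have hinj : Function.Injective (D.Gm hq ∘ₗ S1.i2 ∘ₗ S2.i1) :=
    (injective_iff_map_eq_zero _).2 fun y hy => by
      obtain ⟨x, hx⟩ := D.exists_Gm_eq hu hui hq hk.le hy
      have h1 : S1.p2 (D.Gm hu (S0.i2 (S0.p2 x))) = S2.i1 y := by
        have := congrArg S1.p2 hx
        rwa [← S0.tot x, map_add, map_add, h21, zero_add, LinearMap.comp_apply, S1.e22] at this
      have h2 : S0.p2 x = 0 := hμi (by
        change S2.p2 (S1.p2 (D.Gm hu (S0.i2 (S0.p2 x)))) = _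
        rw [h1, S2.e21, map_zero])
      rw [h2, map_zero, map_zero, map_zero] at h1
      exact S2.i1_inj (by rw [← h1, map_zero])
  have a1 := cd_add_le hQ2 (comp_mem hGq (comp_mem S1.hi2 S2.hi1)) hinj
  have a2 := (D.Gm hq).finrank_range_add_finrank_ker
  rw [LinearMap.range_eq_top.2 (h.Gm_surjective hq hqs), finrank_top] at a2
  have a3 : finrank k (D.G (Sg.X CA j)).V ≤ finrank k (LinearMap.ker (D.Gm hq)) := by
    rw [← LinearMap.finrank_range_of_inj hGi]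
    refine Submodule.finrank_mono ?_
    rintro _ ⟨φ, rfl⟩
    exact Subtype.ext (LinearMap.ext fun w => hk.ge (LinearMap.mem_range_self _ (φ.1 w)))
  have a4 := S0.finrank_eq
  have a5 := S1.finrank_eq
  have a6 := S2.finrank_eq
  have a7 := cd_eq (S1.trans S2) (hQ0.prod hQ2) hR2
  obtain ⟨Q3, R3, hQ3, hR3, ⟨S3⟩⟩ := exists_core (C := CL) (D.G Z)
  have a8 := cd_eq S3 hQ3 hR3
  have a9 := S3.finrank_eq
  have a10 : finrank k (D.G (Z.prod I)).V = finrank k (D.G Z).V + finrank k (D.G I).V :=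
    (Split.ofProd Z I).finrank_Hom D.W
  have a11 := cd_add_le (hQ3.prod (h.proj_G hI))
    (coprod_mem (comp_mem (D.Gm_mem (inl_mem Z I)) S3.hi1) (D.Gm_mem (inr_mem Z I)))
    ((injective_iff_map_eq_zero _).2 fun y hy => by
      have b1 : ∀ w, ((S3.i1 y.1).1 w, (0 : I.V)) + ((0 : Z.V), y.2.1 w) = 0 := fun w =>
        LinearMap.congr_fun (congrArg Subtype.val hy) w
      refine Prod.ext (S3.i1_inj (Subtype.ext (LinearMap.ext fun w => ?_)))
        (Subtype.ext (LinearMap.ext fun w => ?_))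
      · simpa using congrArg Prod.fst (b1 w)
      · simpa using congrArg Prod.snd (b1 w))
  rw [Module.finrank_prod] at a11
  have a12 := LinearMap.finrank_le_finrank_of_injective hμi
  omega

theorem xd : XD CA (fun j : {j // ¬ CL.Proj (Sg.S j)} => Sg.X CA j.1) fun Z => CL.cd (D.G Z) where
  pfree j := Sg.pfree_X CA j
  nproj j := Sg.nproj_X h j.2
  ne _ _ hij _ hg := Sg.mem_of_ne h (fun e => hij (Subtype.ext e)) hg
  schur j _ hg := Sg.schur_X h j hg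
  zero Z h0 := by
    obtain ⟨Q, R, hQ, hR, ⟨S⟩⟩ := exists_core (C := CL) (D.G Z)
    exact h.proj_of_G (mem_of_i2 S hQ (id_mem _)
      ((proj_of_finrank_eq_zero (cd_eq S hQ hR ▸ h0)).mem_left S.hi2))
  pos Z h0 := by
    obtain ⟨Q, R, hQ, hR, ⟨S⟩⟩ := exists_core (C := CL) (D.G Z)
    obtain ⟨j, hj, g, hg, -, h1⟩ := Sg.exists_not_mem h S hR
      (Nat.pos_of_ne_zero (cd_eq S hQ hR ▸ h0))
    exact ⟨⟨j, hj⟩, _, comp_mem (comp_mem (D.ε_mem Z) (D.Fm_mem (comp_mem S.hi2 hg)))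
      (Sg.sp CA j).hi2, h1⟩
  lt j _ _ _ hI _ hf hf' _ ht hti _ hq hqs hk := Sg.cd_lt h j hI hf hf' ht hti hq hqs hk

end SD

end GB
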