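import Cfsg.Agent.Lib.Block.GBMod

/-!
# The functors attached to a corner embedding, graded algebras and graded modules (definitions)
-/

set_option autoImplicit false
set_option linter.unusedSectionVars false

namespace GB

open Module AM

universe u

variable {k : Type} [Field k] {L A : Type u} [Ring L] [Algebra k L] [Ring A] [Algebra k A]

variable (k L A) in
/-- A central idempotent `e` of `L` and a multiplicative linear map `ψ : A → L`. -/
structure BD where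
  e : L
  he : e * e = e
  hc : ∀ x, e * x = x * e
  ψ : A →ₗ[k] L
  hψ : ∀ a b, ψ (a * b) = ψ a * ψ b

namespace BD

variable (D : BD k L A)

/-- `e` acts as the identity. -/
def In (U : AM k L) : Prop := ∀ u, U.ρ D.e u = u

/-- The fixed space of the idempotent `ψ 1`. -/
def fix (U : AM k L) : Submodule k U.V where
  carrier := {u | U.ρ (D.ψ 1) u = u}
  add_mem' ha hb := by simp_all
  zero_mem' := by simp
  smul_mem' c a ha := by simp_all

theorem mem_fix {U : AM k L} {u : U.V} : u ∈ D.fix U ↔ U.ρ (D.ψ 1) u = u := Iff.rfl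

theorem ψ_mem (U : AM k L) (a : A) (u : U.V) : U.ρ (D.ψ a) u ∈ D.fix U := by
  rw [mem_fix, ← ρ_mul, ← D.hψ, one_mul]

/-- The functor `U ↦ f U`. -/
@[reducible] def F (U : AM k L) : AM k A where
  V := D.fix U
  ρ := AlgHom.ofLinearMap
    { toFun := fun a => (U.ρ (D.ψ a)).restrict fun u _ => D.ψ_mem U a u
      map_add' := fun a b => by ext x; simp
      map_smul' := fun c a => by ext x; simp }
    (LinearMap.ext fun x => Subtype.ext x.2) (fun a b => by ext x; simp [D.hψ])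

theorem F_ρ (U : AM k L) (a : A) (x : D.fix U) :
    (((D.F U).ρ a x : D.fix U) : U.V) = U.ρ (D.ψ a) x := rfl

/-- The projection `U → f U`. -/
def pr (U : AM k L) : U.V →ₗ[k] D.fix U := (U.ρ (D.ψ 1)).codRestrict _ (D.ψ_mem U 1)

theorem pr_coe (U : AM k L) (u : U.V) : (D.pr U u : U.V) = U.ρ (D.ψ 1) u := rfl

theorem pr_self (U : AM k L) (u : D.fix U) : D.pr U u = u := Subtype.ext u.2

/-- The functor on linear maps: `h ↦ f h f`. -/
def Fm {U Y : AM k L} (h : U.V →ₗ[k] Y.V) : (D.F U).V →ₗ[k] (D.F Y).V :=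
  D.pr Y ∘ₗ h ∘ₗ (D.fix U).subtype

theorem Fm_coe {U Y : AM k L} {h : U.V →ₗ[k] Y.V} (hh : h ∈ Hom U Y) (x : D.fix U) :
    ((D.Fm h x : D.fix Y) : Y.V) = h x := by
  change Y.ρ (D.ψ 1) (h x) = h x
  rw [← hh, x.2]

theorem Fm_mem {U Y : AM k L} {h : U.V →ₗ[k] Y.V} (hh : h ∈ Hom U Y) :
    D.Fm h ∈ Hom (D.F U) (D.F Y) := fun a x => Subtype.ext (by
  rw [D.Fm_coe hh, F_ρ, F_ρ, D.Fm_coe hh, hh])

variable [FiniteDimensional k L]

/-- The left ideal `L e`. -/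
@[reducible] def Le : AM k L where
  V := LinearMap.ker (LinearMap.mulRight k D.e - LinearMap.id)
  ρ := AlgHom.ofLinearMap
    { toFun := fun a => (LinearMap.mulLeft k a).restrict fun x hx => by
        have h : x * D.e - x = 0 := hx
        change a * x * D.e - a * x = 0
        rw [mul_assoc, ← mul_sub, h, mul_zero]
      map_add' := fun a b => by ext x; simp [add_mul]
      map_smul' := fun c a => by ext x; simp }
    (by ext x; simp) (fun a b => by ext x; simp)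

theorem Le_ρ (a : L) (x : D.Le.V) : ((D.Le.ρ a x).1 : L) = a * x.1 := rfl

theorem Le_mul_e (x : D.Le.V) : x.1 * D.e = x.1 := sub_eq_zero.1 x.2

/-- The bimodule `f L e` as a left `A`-module. -/
abbrev W : AM k A := D.F D.Le

theorem W_ext {x y : D.W.V} (h : x.1.1 = y.1.1) : x = y := Subtype.ext (Subtype.ext h)

theorem f_mul_W (x : D.W.V) : D.ψ 1 * x.1.1 = x.1.1 := congrArg Subtype.val x.2

/-- The element `f x e` of `W`. -/
def mkW : L →ₗ[k] D.W.V := D.pr D.Le ∘ₗ (LinearMap.mulRight k D.e).codRestrict _ fun x => by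
  change x * D.e * D.e - x * D.e = 0
  rw [mul_assoc, D.he, sub_self]

theorem mkW_coe (x : L) : (D.mkW x).1.1 = D.ψ 1 * (x * D.e) := rfl

theorem mkW_self (x : D.W.V) : D.mkW x.1.1 = x :=
  D.W_ext (by rw [mkW_coe, D.Le_mul_e, f_mul_W])

theorem W_ρ (a : A) (x : D.W.V) : (D.W.ρ a x).1.1 = D.ψ a * x.1.1 := rfl

theorem ρ_mkW (a : A) (x : L) : D.W.ρ a (D.mkW x) = D.mkW (D.ψ a * x) :=
  D.W_ext (by rw [W_ρ, mkW_coe, mkW_coe, ← mul_assoc, ← D.hψ, mul_one, mul_assoc (D.ψ a), ← mul_assoc (D.ψ 1),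
    ← D.hψ, one_mul])

/-- Right multiplication on `W`. -/
def rm : L →ₗ[k] D.W.V →ₗ[k] D.W.V :=
  LinearMap.mk₂ k (fun y w => D.mkW (w.1.1 * y)) (fun _ _ _ => by simp [mul_add])
    (fun _ _ _ => by simp) (fun _ _ _ => by simp [add_mul]) (fun _ _ _ => by simp)

theorem rm_coe (y : L) (w : D.W.V) : (D.rm y w).1.1 = w.1.1 * y := by
  change D.ψ 1 * (w.1.1 * y * D.e) = _
  rw [mul_assoc, ← D.hc, ← mul_assoc w.1.1, D.Le_mul_e, ← mul_assoc, f_mul_W]

theorem rm_mem (y : L) : D.rm y ∈ Hom D.W D.W := fun a w =>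
  D.W_ext (by rw [rm_coe, W_ρ, W_ρ, rm_coe, mul_assoc])

theorem rm_mkW (y x : L) : D.rm y (D.mkW x) = D.mkW (x * y) :=
  D.W_ext (by rw [rm_coe, mkW_coe, mkW_coe, mul_assoc, mul_assoc, mul_assoc, D.hc])

/-- The functor `Z ↦ Hom_A(f L e, Z)`. -/
@[reducible] def G (Z : AM k A) : AM k L where
  V := Hom D.W Z
  ρ := AlgHom.ofLinearMap
    { toFun := fun y =>
        { toFun := fun φ => ⟨φ.1 ∘ₗ D.rm y, comp_mem φ.2 (D.rm_mem y)⟩
          map_add' := fun _ _ => rfl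
          map_smul' := fun _ _ => rfl }
      map_add' := fun a b => by ext φ w; simp
      map_smul' := fun c a => by ext φ w; simp }
    (LinearMap.ext fun φ => Subtype.ext (LinearMap.ext fun w =>
      congrArg φ.1 (D.W_ext (by rw [rm_coe, mul_one]))))
    (fun a b => LinearMap.ext fun φ => Subtype.ext (LinearMap.ext fun w =>
      congrArg φ.1 (D.W_ext (by rw [rm_coe, rm_coe, rm_coe, mul_assoc]))))

theorem G_ρ (Z : AM k A) (y : L) (φ : (D.G Z).V) (w : D.W.V) :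
    ((D.G Z).ρ y φ).1 w = φ.1 (D.rm y w) := rfl

theorem in_G (Z : AM k A) : D.In (D.G Z) := fun φ => Subtype.ext (LinearMap.ext fun w =>
  congrArg φ.1 (D.W_ext (by rw [rm_coe, D.Le_mul_e])))

/-- The functor `G` on homomorphisms. -/
def Gm {Z Z' : AM k A} {g : Z.V →ₗ[k] Z'.V} (hg : g ∈ Hom Z Z') : (D.G Z).V →ₗ[k] (D.G Z').V where
  toFun φ := ⟨g ∘ₗ φ.1, comp_mem hg φ.2⟩
  map_add' _ _ := Subtype.ext (LinearMap.comp_add _ _ _)
  map_smul' _ _ := Subtype.ext (LinearMap.comp_smul _ _ _)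

theorem Gm_mem {Z Z' : AM k A} {g : Z.V →ₗ[k] Z'.V} (hg : g ∈ Hom Z Z') :
    D.Gm hg ∈ Hom (D.G Z) (D.G Z') := fun _ _ => rfl

/-- The counit `F G Z → Z`, evaluation at `f e`. -/
def ε (Z : AM k A) : (D.F (D.G Z)).V →ₗ[k] Z.V where
  toFun φ := φ.1.1 (D.mkW 1)
  map_add' _ _ := rfl
  map_smul' _ _ := rfl

theorem ε_mem (Z : AM k A) : D.ε Z ∈ Hom (D.F (D.G Z)) Z := fun a φ => by
  change φ.1.1 (D.rm (D.ψ a) (D.mkW 1)) = Z.ρ a (φ.1.1 (D.mkW 1))
  rw [← φ.1.2, rm_mkW, ρ_mkW, mul_one, one_mul]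

/-- The adjoint `u ↦ (w ↦ g (w u))` of `g : F U → Z`. -/
def adj {U : AM k L} {Z : AM k A} {g : (D.F U).V →ₗ[k] Z.V} (hg : g ∈ Hom (D.F U) Z) :
    U.V →ₗ[k] (D.G Z).V where
  toFun u := ⟨g ∘ₗ D.pr U ∘ₗ (LinearMap.applyₗ u ∘ₗ U.ρ.toLinearMap) ∘ₗ
      (Submodule.subtype _) ∘ₗ (D.fix D.Le).subtype, fun a w => by
    change g (D.pr U (U.ρ (D.ψ a * w.1.1) u)) = Z.ρ a (g (D.pr U (U.ρ w.1.1 u)))
    rw [← hg]
    refine congrArg g (Subtype.ext ?_)
    rw [F_ρ, pr_coe, pr_coe, ρ_mul, ← ρ_mul, ← ρ_mul U (D.ψ a), ← D.hψ, ← D.hψ, one_mul, mul_one]⟩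
  map_add' _ _ := by ext; simp
  map_smul' _ _ := by ext; simp

theorem adj_apply {U : AM k L} {Z : AM k A} {g : (D.F U).V →ₗ[k] Z.V} (hg : g ∈ Hom (D.F U) Z)
    (u : U.V) (w : D.W.V) : (D.adj hg u).1 w = g (D.pr U (U.ρ w.1.1 u)) := rfl

theorem adj_mem {U : AM k L} {Z : AM k A} {g : (D.F U).V →ₗ[k] Z.V} (hg : g ∈ Hom (D.F U) Z) :
    D.adj hg ∈ Hom U (D.G Z) := fun y u => Subtype.ext (LinearMap.ext fun w => by
  rw [G_ρ, adj_apply, adj_apply, rm_coe, ρ_mul])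

/-- The two functors are inverse stable equivalences (the part of it that is used). -/
structure SE (CL : Cas k L) (CA : Cas k A) : Prop where
  faith : ∀ U Y : AM k L, D.In U → D.In Y → ∀ h ∈ Hom U Y,
    D.Fm h ∈ CA.PHom (D.F U) (D.F Y) → h ∈ CL.PHom U Y
  full : ∀ U Y : AM k L, D.In U → D.In Y → ∀ g ∈ Hom (D.F U) (D.F Y),
    ∃ h ∈ Hom U Y, g - D.Fm h ∈ CA.PHom (D.F U) (D.F Y)
  Fp : ∀ U Y : AM k L, ∀ h ∈ CL.PHom U Y, D.Fm h ∈ CA.PHom (D.F U) (D.F Y)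
  adjp : ∀ (U : AM k L) (Z : AM k A), D.In U → ∀ (g : (D.F U).V →ₗ[k] Z.V)
    (hg : g ∈ Hom (D.F U) Z), g ∈ CA.PHom (D.F U) Z → D.adj hg ∈ CL.PHom U (D.G Z)
  unit : ∀ Z : AM k A, ∃ ι ∈ Hom Z (D.F (D.G Z)), LinearMap.id - D.ε Z ∘ₗ ι ∈ CA.PHom Z Z

end BD

/-! ### Gradings -/

/-- The weight space of weight `j` of a one-parameter group. -/
def wt {V : Type*} [AddCommGroup V] [Module k V] (θ : kˣ →* Module.End k V) (j : ℤ) :
    Submodule k V where
  carrier := {v | ∀ t, θ t v = ((t ^ j : kˣ) : k) • v}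
  add_mem' ha hb t := by rw [map_add, ha t, hb t, smul_add]
  zero_mem' t := by simp
  smul_mem' c a ha t := by rw [map_smul, ha t, smul_comm]

variable (k A) in
/-- A graded symmetric algebra with a homogeneous form of degree `s`. -/
structure GA where
  C : Cas k A
  α : kˣ →* (A ≃ₐ[k] A)
  s : ℕ
  c : ℕ → A →ₗ[k] A
  hc : ∀ (t : kˣ) a, α t a = ∑ d ∈ Finset.range (s + 1), (t : k) ^ d • c d a
  hτ : ∀ (t : kˣ) a, C.τ (α t a) = (t : k) ^ s * C.τ a

/-- A graded module. -/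
structure GM (Γ : GA k A) extends AM k A where
  θ : kˣ →* Module.End k V
  compat : ∀ t a x, θ t (ρ a x) = ρ (Γ.α t a) (θ t x)
  span : ⨆ j : ℤ, wt θ j = ⊤

/-- The one-parameter group on the linear maps between graded modules. -/
def GM.hθ {Γ : GA k A} (X Y : GM Γ) : kˣ →* Module.End k (X.V →ₗ[k] Y.V) where
  toFun t :=
    { toFun := fun f => Y.θ t ∘ₗ f ∘ₗ X.θ t⁻¹
      map_add' := fun _ _ => by ext; simp
      map_smul' := fun _ _ => by ext; simp }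
  map_one' := by ext; simp
  map_mul' s t := by ext; simp [mul_inv_rev]

/-- The dimension of the projective homomorphisms of degree `j`. -/
noncomputable def GM.gd {Γ : GA k A} (X Y : GM Γ) (j : ℤ) : ℕ :=
  finrank k ↥(Γ.C.PHom X.toAM Y.toAM ⊓ wt (X.hθ Y) j)

/-- The data on the side of the graded algebra: projective indecomposables and their socles. -/
structure PD (Γ : GA k A) (ι : Type*) where
  P : ι → GM Γ
  T : ι → GM Γ
  j : ∀ a, (T a).V →ₗ[k] (P a).V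
  hj : ∀ a, j a ∈ Hom (T a).toAM (P a).toAM
  hj0 : ∀ a, j a ∈ wt ((T a).hθ (P a)) 0
  inj : ∀ a, Function.Injective (j a)
  proj : ∀ a, Γ.C.Proj (P a).toAM
  simple : ∀ a, (T a).toAM.Simple
  ess : ∀ a (Y : AM k A), ∀ g ∈ Hom (P a).toAM Y, g ∘ₗ j a ≠ 0 → Function.Injective g
  schur : ∀ a, ∀ g ∈ Hom (T a).toAM (T a).toAM, ∃ c : k, g = c • LinearMap.id
  ne : ∀ a b, a ≠ b → ∀ g ∈ Hom (T a).toAM (T b).toAM, g = 0
  all : ∀ S : AM k A, S.Simple → ∃ a, ∃ g ∈ Hom (T a).toAM S, g ≠ 0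

/-- The images of the simple modules under a stable equivalence, with a length function. -/
structure XD (C : Cas k A) {ι : Type*} (X : ι → AM k A) (cd : AM k A → ℕ) : Prop where
  pfree : ∀ j, C.PFree (X j)
  nproj : ∀ j, ¬ C.Proj (X j)
  ne : ∀ i j, i ≠ j → ∀ g ∈ Hom (X i) (X j), g ∈ C.PHom (X i) (X j)
  schur : ∀ j, ∀ g ∈ Hom (X j) (X j), ∃ c : k, g - c • LinearMap.id ∈ C.PHom (X j) (X j)
  zero : ∀ Z, cd Z = 0 → C.Proj Z
  pos : ∀ Z, cd Z ≠ 0 → ∃ j, ∃ f ∈ Hom (X j) Z, f ∉ C.PHom (X j) Z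
  lt : ∀ j (Z I Z' : AM k A), C.Proj I → ∀ f ∈ Hom (X j) Z, f ∉ C.PHom (X j) Z →
    ∀ ι ∈ Hom (X j) I, Function.Injective ι → ∀ q ∈ Hom (Z.prod I) Z', Function.Surjective q →
    LinearMap.ker q = LinearMap.range (f.prod ι) → cd Z' < cd Z

end GB
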