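import Cfsg.Agent.Lib.Block.GBFun
import Mathlib.LinearAlgebra.Eigenspace.Triangularizable
import Mathlib.LinearAlgebra.Eigenspace.Minpoly
import Mathlib.LinearAlgebra.Charpoly.Basic
import Mathlib.LinearAlgebra.Charpoly.ToMatrix
import Mathlib.FieldTheory.IsAlgClosed.Basic

/-!
# A module that is stable under almost all twists is gradable
-/

set_option autoImplicit false
set_option linter.unusedSectionVars false

namespace GB

open Module AM Polynomial

universe u

variable {k : Type} [Field k] {A : Type u} [Ring A] [Algebra k A]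

/-- A one-parameter group acting by scalars on the summands of a decomposition. -/
theorem gap_exists_theta {V : Type*} [AddCommGroup V] [Module k V] {ι : Type*}
    (W : ι → Submodule k V) (hi : iSupIndep W) (ht : ⨆ i, W i = ⊤) (deg : ι → ℤ) :
    ∃ θ : kˣ →* Module.End k V, ∀ u i, ∀ x ∈ W i, θ u x = ((u ^ deg i : kˣ) : k) • x := by
  classical
  let e := LinearEquiv.ofBijective (DirectSum.coeLinearMap W)
    (DirectSum.isInternal_submodule_of_iSupIndep_of_iSup_eq_top hi ht)
  let θ : kˣ → Module.End k V := fun u =>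
    DirectSum.toModule k ι V (fun i => ((u ^ deg i : kˣ) : k) • (W i).subtype) ∘ₗ e.symm.toLinearMap
  have h : ∀ u i, ∀ x ∈ W i, θ u x = ((u ^ deg i : kˣ) : k) • x := fun u i x hx => by
    have h1 : e.symm x = DirectSum.lof k ι (fun i => W i) i ⟨x, hx⟩ :=
      e.symm_apply_eq.2 (DirectSum.coeLinearMap_lof W i ⟨x, hx⟩).symm
    change DirectSum.toModule k ι V _ (e.symm x) = _
    rw [h1, DirectSum.toModule_lof]
    rfl
  have hext : ∀ f g : Module.End k V, (∀ i, ∀ x ∈ W i, f x = g x) → f = g := fun f g hfg =>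
    LinearMap.ext fun x => by
      have : x ∈ LinearMap.eqLocus f g := (ht.symm.le.trans (iSup_le fun i => hfg i)) trivial
      exact this
  refine ⟨⟨⟨θ, hext _ _ fun i x hx => ?_⟩, fun u v => hext _ _ fun i x hx => ?_⟩, h⟩
  · rw [h 1 i x hx]; simp
  · rw [Module.End.mul_apply, h v i x hx, map_smul, h u i x hx, h _ i x hx, mul_zpow, smul_smul,
      Units.val_mul, mul_comm]

/-- A degree function on a finite set of scalars. -/
theorem gap_exists_deg (S : Finset k) (s : ℕ) {t : k} (h0 : t ≠ 0) (hS : (0 : k) ∉ S)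
    (ht : ∀ j, 0 < j → j ≤ (S.card + 1) * s → t ^ j ≠ 1) :
    ∃ deg : k → ℤ, ∀ x ∈ S, ∀ d ≤ s, t ^ d * x ∈ S → deg (t ^ d * x) = deg x + d := by
  classical
  have hex : ∀ x ∈ S, ∃ j, ∀ i, 0 < i → i ≤ s → t ^ (j + i) * x ∉ S := fun x hx => by
    by_contra h
    push Not at h
    choose i hi0 his hi using h
    have hx0 : x ≠ 0 := fun e => hS (e ▸ hx)
    have key : ∀ a b, a < b → b ≤ S.card →
        t ^ (a * s + i (a * s)) * x ≠ t ^ (b * s + i (b * s)) * x := fun a b hab hb e => by
      have h1 := his (a * s)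
      have h2 := hi0 (b * s)
      have h3 := his (b * s)
      have h4 : (a + 1) * s ≤ b * s := Nat.mul_le_mul_right s hab
      have h5 : b * s ≤ S.card * s := Nat.mul_le_mul_right s hb
      rw [add_mul, one_mul] at h4
      obtain ⟨j, hj⟩ := Nat.exists_eq_add_of_le
        (show a * s + i (a * s) ≤ b * s + i (b * s) by omega)
      rw [hj, pow_add t _ j] at e
      refine ht j (by omega) (by rw [add_mul, one_mul]; omega) ?_
      exact (mul_eq_left₀ (pow_ne_zero _ h0)).1 (mul_right_cancel₀ hx0 e).symm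
    have := Finset.card_le_card_of_injOn (s := Finset.range (S.card + 1)) (t := S)
      (fun a => t ^ (a * s + i (a * s)) * x) (fun a _ => hi _) fun a ha b hb e => by
        have ha' : a ≤ S.card := by simpa [Nat.lt_succ_iff] using ha
        have hb' : b ≤ S.card := by simpa [Nat.lt_succ_iff] using hb
        rcases lt_trichotomy a b with h | h | h
        · exact absurd e (key a b h hb')
        · exact h
        · exact absurd e.symm (key b a h ha')
    simp at this
  refine ⟨fun x => if h : x ∈ S then -(Nat.find (hex x h) : ℤ) else 0, fun x hx d hd hy => ?_⟩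
  have : Nat.find (hex x hx) = Nat.find (hex _ hy) + d := by
    rw [Nat.find_eq_iff]
    refine ⟨fun i h1 h2 => ?_, fun j hj h => ?_⟩
    · have := Nat.find_spec (hex _ hy) i h1 h2
      rwa [← mul_assoc, ← pow_add, add_right_comm] at this
    · rcases Nat.lt_or_ge j d with h1 | h1
      · refine h (d - j) (by omega) (by omega) ?_
        rwa [show j + (d - j) = d by omega]
      · refine Nat.find_min (hex _ hy) (show j - d < _ by omega) fun i h2 h3 => ?_
        rw [← mul_assoc, ← pow_add, show j - d + i + d = j + i by omega]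
        exact h i h2 h3
  simp only [dif_pos hx, dif_pos hy, this]
  push_cast
  ring

theorem gap_infinite_units [Infinite k] : Infinite kˣ :=
  have : Infinite {a : k // a ≠ 0} := (Set.finite_singleton (0 : k)).infinite_compl.to_subtype
  Infinite.of_injective _ (unitsEquivNeZero (G₀ := k)).symm.injective

theorem gap_exists_unit [Infinite k] {B : Set kˣ} (hB : B.Finite) (N : ℕ) :
    ∃ t : kˣ, t ∉ B ∧ ∀ j, 0 < j → j ≤ N → (t : k) ^ j ≠ 1 := by
  classical
  have h1 : (⋃ j ∈ Set.Ioc 0 N, {t : kˣ | (t : k) ^ j = 1}).Finite := by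
    refine (Set.finite_Ioc 0 N).biUnion fun j hj => ?_
    refine Set.Finite.of_finite_image (f := fun t : kˣ => (t : k)) ?_ Units.val_injective.injOn
    refine (nthRoots j (1 : k)).toFinset.finite_toSet.subset ?_
    rintro _ ⟨t, ht, rfl⟩
    simpa [mem_nthRoots hj.1] using ht
  have := gap_infinite_units (k := k)
  obtain ⟨t, ht⟩ := (hB.union h1).exists_notMem
  refine ⟨t, fun h => ht (Or.inl h), fun j h2 h3 h => ht (Or.inr ?_)⟩
  exact Set.mem_biUnion (show j ∈ Set.Ioc 0 N from ⟨h2, h3⟩) h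

/-- The components of an element are homogeneous. -/
theorem GA.α_c [Infinite k] (Γ : GA k A) (t : kˣ) {d : ℕ} (hd : d ≤ Γ.s) (a : A) :
    Γ.α t (Γ.c d a) = (t : k) ^ d • Γ.c d a := by
  refine sub_eq_zero.1 ((Module.forall_dual_apply_eq_zero_iff k _).1 fun φ => ?_)
  set q : k[X] := ∑ e ∈ Finset.range (Γ.s + 1),
    monomial e (φ (Γ.α t (Γ.c e a) - (t : k) ^ e • Γ.c e a)) with hq
  have := gap_infinite_units (k := k)
  have h0 : q = 0 := by
    refine eq_zero_of_infinite_isRoot q ((Set.infinite_range_of_injective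
      (Units.val_injective (α := k))).mono ?_)
    rintro _ ⟨u, rfl⟩
    have h1 : Γ.α (t * u) a = Γ.α t (Γ.α u a) := by rw [map_mul]; rfl
    rw [Γ.hc (t * u), Γ.hc u, map_sum] at h1
    have h2 := congrArg φ h1
    simp only [map_sum, map_smul, Units.val_mul, mul_pow, smul_eq_mul] at h2
    change eval _ q = 0
    rw [hq, eval_finsetSum]
    simp only [eval_monomial]
    simp only [map_sub, map_smul, smul_eq_mul, sub_mul, Finset.sum_sub_distrib]
    rw [sub_eq_zero]
    simpa only [mul_comm, mul_left_comm, mul_assoc] using h2.symm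
  have h3 := congrArg (fun r : k[X] => r.coeff d) h0
  simpa [hq, finsetSum_coeff, coeff_monomial, Nat.lt_succ_iff, hd] using h3

theorem GA.sum_c (Γ : GA k A) (a : A) : ∑ d ∈ Finset.range (Γ.s + 1), Γ.c d a = a := by
  simpa using (Γ.hc 1 a).symm

/-- **Gap trick.** -/
theorem exists_gm_of_twist [IsAlgClosed k] (Γ : GA k A) (X : AM k A) {B : Set kˣ} (hB : B.Finite)
    (h : ∀ t ∉ B, ∃ f ∈ Hom X (X.res (Γ.α t : A →ₐ[k] A)), Function.Bijective f) :
    ∃ Y : GM Γ, Y.toAM = X := by
  classical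
  obtain ⟨t, htB, ht⟩ := gap_exists_unit hB ((finrank k X.V + 1) * Γ.s)
  obtain ⟨f₀, hf, hb⟩ := h t htB
  let f : Module.End k X.V := f₀
  have hf' : ∀ a x, f (X.ρ a x) = X.ρ (Γ.α t a) (f x) := hf
  set S : Finset k := (minpoly k f).roots.toFinset with hS
  have hmem : ∀ μ, μ ∈ S ↔ f.HasEigenvalue μ := fun μ => by
    rw [hS, Multiset.mem_toFinset, mem_roots (minpoly.ne_zero (LinearMap.isIntegral f)),
      Module.End.hasEigenvalue_iff_isRoot]
  have hcard : S.card ≤ finrank k X.V := (Multiset.toFinset_card_le _).trans ((card_roots' _).trans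
    ((natDegree_le_of_dvd f.minpoly_dvd_charpoly f.charpoly_monic.ne_zero).trans
      f.charpoly_natDegree.le))
  have h0 : (0 : k) ∉ S := fun h0 => by
    obtain ⟨x, hx⟩ := ((hmem 0).1 h0).exists_hasEigenvector
    exact hx.2 (hb.1 (hx.apply_eq_smul.trans (by simp)))
  obtain ⟨deg, hdeg⟩ := gap_exists_deg S Γ.s t.ne_zero h0 fun j h1 h2 =>
    ht j h1 (h2.trans (Nat.mul_le_mul_right _ (by omega)))
  obtain ⟨θ, hθ⟩ := gap_exists_theta f.maxGenEigenspace f.independent_maxGenEigenspace
    f.iSup_maxGenEigenspace_eq_top deg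
  have hS' : ∀ μ, ∀ x ∈ f.maxGenEigenspace μ, x ≠ 0 → μ ∈ S := fun μ x hx hx0 => by
    rw [hmem]
    refine Module.End.HasUnifEigenvalue.lt (k := ⊤) zero_lt_one ?_
    exact fun e => hx0 ((Submodule.eq_bot_iff _).1 e x hx)
  have hmap : ∀ d ≤ Γ.s, ∀ a μ, ∀ x ∈ f.maxGenEigenspace μ,
      X.ρ (Γ.c d a) x ∈ f.maxGenEigenspace ((t : k) ^ d * μ) := fun d hd a μ x hx => by
    rw [Module.End.mem_maxGenEigenspace] at hx ⊢
    obtain ⟨n, hn⟩ := hx
    refine ⟨n, ?_⟩
    have key : ∀ n x, ((f - ((t : k) ^ d * μ) • (1 : Module.End k X.V)) ^ n) (X.ρ (Γ.c d a) x) =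
        ((t : k) ^ d) ^ n • X.ρ (Γ.c d a) (((f - μ • (1 : Module.End k X.V)) ^ n) x) := by
      intro n
      induction n with
      | zero => simp
      | succ n ih =>
        intro x
        have h1 : (f - ((t : k) ^ d * μ) • (1 : Module.End k X.V)) (X.ρ (Γ.c d a) x) =
            (t : k) ^ d • X.ρ (Γ.c d a) ((f - μ • (1 : Module.End k X.V)) x) := by
          simp [hf', Γ.α_c t hd, smul_sub, mul_smul]
        rw [pow_succ, pow_succ (f - μ • 1), Module.End.mul_apply, Module.End.mul_apply, h1,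
          map_smul, ih, smul_smul, pow_succ']
    rw [key, hn, map_zero, smul_zero]
  refine ⟨⟨X, θ, fun u a x => ?_, ?_⟩, rfl⟩
  · have hx : x ∈ LinearMap.eqLocus (θ u ∘ₗ X.ρ a) (X.ρ (Γ.α u a) ∘ₗ θ u) := by
      refine (f.iSup_maxGenEigenspace_eq_top.symm.le.trans (iSup_le fun μ x hx => ?_)) trivial
      change θ u (X.ρ a x) = X.ρ (Γ.α u a) (θ u x)
      by_cases hx0 : x = 0
      · simp [hx0]
      rw [Γ.hc u a, hθ u μ x hx]
      conv_lhs => rw [← Γ.sum_c a]
      simp only [map_sum, LinearMap.sum_apply, map_smul, LinearMap.smul_apply, Finset.smul_sum]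
      refine Finset.sum_congr rfl fun d hd => ?_
      have hd' : d ≤ Γ.s := by simpa [Nat.lt_succ_iff] using hd
      by_cases hy : X.ρ (Γ.c d a) x = 0
      · simp [hy]
      rw [hθ u _ _ (hmap d hd' a μ x hx), hdeg μ (hS' μ x hx hx0) d hd'
        (hS' _ _ (hmap d hd' a μ x hx) hy), zpow_add, zpow_natCast, smul_smul]
      simp
    exact hx
  · exact top_le_iff.1 (f.iSup_maxGenEigenspace_eq_top.symm.le.trans (iSup_le fun μ x hx =>
      Submodule.mem_iSup_of_mem (deg μ) fun u => hθ u μ x hx))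

end GB
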