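import Cfsg.Agent.Lib.Block.GBTr
import Cfsg.Agent.Lib.Block.Principal
import Cfsg.Agent.Lib.Grp.Retract

/-!
# The stable equivalence for a principal block with nilpotent centralizers
-/

set_option autoImplicit false
set_option linter.unusedSectionVars false

namespace GB

open Module AM CT
open scoped MonoidAlgebra

universe u

variable {k : Type} [Field k] {G H : Type u} [Group G] [Finite G] [Group H] [Finite H]

/-- The facts on the group and on the coefficients of the idempotent that are used. -/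
structure GH (R : G → Prop) (P N : Subgroup G) (π : N →* H) (e : k[G]) : Prop where
  le : P ≤ N
  surj : Function.Surjective π
  idem : e * e = e
  cent : IsCentral e
  idx : (P.index : k) ≠ 0
  ker : (Nat.card π.ker : k) ≠ 0
  inv : ∀ c, R c → R c⁻¹
  kerR : ∀ n, π n = 1 → R n ∧ ∀ u ∈ P, Commute u n
  fus : ∀ x : G, (∃ u ∈ P, u ≠ 1 ∧ x⁻¹ * u * x ∈ P) → ∃ c, R c ∧ c⁻¹ * x ∈ N ∧
    ∀ u ∈ P, x⁻¹ * u * x ∈ P → Commute u c
  cf1 : ∀ u ∈ P, u ≠ 1 → ∀ g c, Commute u g → Commute u c → R c → e.coeff (g * c) = e.coeff g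
  cf2 : ∀ u ∈ P, u ≠ 1 → ∀ n : N, Commute u n → π n ≠ 1 → e.coeff n = 0
  cf3 : e.coeff 1 * Nat.card π.ker = 1

variable {R : G → Prop} {P N : Subgroup G} (π : N →* H) {e : k[G]}

variable (k) in
/-- The average over the kernel of `π`. -/
noncomputable def avg : k[G] := (Nat.card π.ker : k)⁻¹ • ∑ o ∈ sfin π.ker, gel k (o : G)

theorem sg_mul_avg {n : N} (h : π n = 1) : gel k (n : G) * avg k π = avg k π := by
  rw [avg, mul_smul_comm, Finset.mul_sum]
  congr 1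
  refine Finset.sum_nbij' (fun o => n * o) (fun o => n⁻¹ * o) (fun o ho => ?_) (fun o ho => ?_)
    (fun o _ => by simp) (fun o _ => by simp) fun o _ => by rw [sg_mul, Subgroup.coe_mul]
  all_goals simp_all [MonoidHom.mem_ker]

theorem avg_comm (n : N) : avg k π * gel k (n : G) = gel k (n : G) * avg k π := by
  rw [avg, mul_smul_comm, smul_mul_assoc, Finset.mul_sum, Finset.sum_mul]
  congr 1
  refine Finset.sum_nbij' (fun o => n⁻¹ * o * n) (fun o => n * o * n⁻¹) (fun o ho => ?_)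
    (fun o ho => ?_) (fun o _ => by simp [mul_assoc]) (fun o _ => by simp [mul_assoc])
    fun o _ => by simp [mul_assoc]
  all_goals simp_all [MonoidHom.mem_ker]

theorem card_sfin {Γ : Type*} [Group Γ] [Finite Γ] (Q : Subgroup Γ) : (sfin Q).card = Nat.card Q :=
  (Nat.subtype_card _ fun _ => mem_sfin).symm

theorem avg_lin (h : (Nat.card π.ker : k) ≠ 0) {M : Type*} [AddCommGroup M] [Module k M]
    (φ : k[G] →ₗ[k] M) {m : M} (hm : ∀ o : N, π o = 1 → φ (gel k (o : G)) = m) :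
    φ (avg k π) = m := by
  rw [avg, map_smul, map_sum, Finset.sum_congr rfl fun o ho => hm o (mem_sfin.1 ho),
    Finset.sum_const, card_sfin, ← Nat.cast_smul_eq_nsmul k, smul_smul, inv_mul_cancel₀ h, one_smul]

theorem avg_mul_avg (h : (Nat.card π.ker : k) ≠ 0) : avg k π * avg k π = avg k π :=
  avg_lin π h (LinearMap.mulRight k (avg k π)) fun _ ho => sg_mul_avg π ho

theorem sg_mul_avg_congr {n n' : N} (h : π n = π n') :
    gel k (n : G) * avg k π = gel k (n' : G) * avg k π := by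
  rw [← sg_mul_avg π (n := n⁻¹ * n') (by simp [h]), ← mul_assoc, sg_mul, ← Subgroup.coe_mul,
    mul_inv_cancel_left, sg_mul_avg π (n := n⁻¹ * n') (by simp [h])]

variable (k) in
/-- The truncation to `N` followed by `π`. -/
noncomputable def tN : k[G] →ₗ[k] k[H] :=
  (MonoidAlgebra.mapDomainAlgHom k k π).toLinearMap ∘ₗ proj N

theorem emb_sg (n : N) : emb N (gel k n) = gel k (n : G) := MonoidAlgebra.mapDomain_single

theorem tN_left (n : N) (w : k[G]) : tN k π (gel k (n : G) * w) = gel k (π n) * tN k π w := by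
  change MonoidAlgebra.mapDomainAlgHom k k π (proj N _) =
    _ * MonoidAlgebra.mapDomainAlgHom k k π (proj N w)
  rw [← emb_sg, proj_emb_mul, map_mul]
  congr 1
  exact MonoidAlgebra.mapDomain_single

theorem tN_right (n : N) (w : k[G]) : tN k π (w * gel k (n : G)) = tN k π w * gel k (π n) := by
  change MonoidAlgebra.mapDomainAlgHom k k π (proj N _) =
    MonoidAlgebra.mapDomainAlgHom k k π (proj N w) * _
  rw [← emb_sg, proj_mul_emb, map_mul]
  congr 1
  exact MonoidAlgebra.mapDomain_single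

theorem tN_one : tN k π 1 = 1 := by
  change MonoidAlgebra.mapDomainAlgHom k k π (proj N _) = _
  rw [proj_one, map_one]

theorem tN_sg (n : N) : tN k π (gel k (n : G)) = gel k (π n) := by
  simpa [tN_one] using tN_left (k := k) π n 1

theorem tN_congr {a b : k[G]} (h : ∀ n : N, a.coeff n = b.coeff n) : tN k π a = tN k π b :=
  congrArg (MonoidAlgebra.mapDomainAlgHom k k π) (ga_ext h : proj N a = proj N b)

theorem tN_sg_of_not_mem {g : G} (h : g ∉ N) : tN k π (gel k g) = 0 := by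
  rw [← map_zero (tN k π)]
  refine tN_congr π fun n => ?_
  have : (n : G) ≠ g := fun e => h (e ▸ n.2)
  simp [this]

theorem tN_avg_mul (h : (Nat.card π.ker : k) ≠ 0) (w : k[G]) :
    tN k π (avg k π * w) = tN k π w :=
  avg_lin π h (tN k π ∘ₗ LinearMap.mulRight k w) fun o ho => by
    change tN k π (_ * w) = _
    rw [tN_left, ho, sg_one, one_mul]

theorem tN_mul_avg (h : (Nat.card π.ker : k) ≠ 0) (w : k[G]) :
    tN k π (w * avg k π) = tN k π w :=
  avg_lin π h (tN k π ∘ₗ LinearMap.mulLeft k w) fun o ho => by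
    change tN k π (w * _) = _
    rw [tN_right, ho, sg_one, mul_one]

theorem sg_ind {Γ : Type u} [Group Γ] [Finite Γ] {M : Type*} [AddCommGroup M] [Module k M]
    {φ φ' : k[Γ] →ₗ[k] M} (h : ∀ g, φ (gel k g) = φ' (gel k g)) (a : k[Γ]) : φ a = φ' a := by
  induction a using MonoidAlgebra.induction_linear with
  | zero => simp
  | add x y hx hy => rw [map_add, map_add, hx, hy]
  | single g r => rw [single_eq_smul, map_smul, map_smul, h]

namespace GH

variable {π} (S : GH R P N π e)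
include S

/-- The embedding of `k[H]` into the corner of `k[G]`. -/
noncomputable def ψ : k[H] →ₗ[k] k[G] :=
  Finsupp.linearCombination k (fun h => gel k ((Function.surjInv S.surj h : N) : G) * avg k π) ∘ₗ
    (MonoidAlgebra.coeffLinearEquiv k).toLinearMap

theorem ψ_sg (n : N) : S.ψ (gel k (π n)) = gel k (n : G) * avg k π := by
  change Finsupp.linearCombination k _ (Finsupp.single (π n) 1) = _
  rw [Finsupp.linearCombination_single, one_smul]
  exact sg_mul_avg_congr π (Function.surjInv_eq S.surj _)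

theorem ψ_one : S.ψ 1 = avg k π := by simpa [sg_one] using S.ψ_sg 1

theorem ind {M : Type*} [AddCommGroup M] [Module k M] {φ φ' : k[H] →ₗ[k] M}
    (h : ∀ n : N, φ (gel k (π n)) = φ' (gel k (π n))) (a : k[H]) : φ a = φ' a :=
  sg_ind (fun g => by obtain ⟨n, rfl⟩ := S.surj g; exact h n) a

theorem ψ_mul (a b : k[H]) : S.ψ (a * b) = S.ψ a * S.ψ b := by
  refine S.ind (φ := S.ψ ∘ₗ LinearMap.mulRight k b) (φ' := LinearMap.mulRight k (S.ψ b) ∘ₗ S.ψ)
    (fun n => ?_) a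
  refine S.ind (φ := S.ψ ∘ₗ LinearMap.mulLeft k (gel k (π n)))
    (φ' := LinearMap.mulLeft k (S.ψ (gel k (π n))) ∘ₗ S.ψ) (fun m => ?_) b
  change S.ψ (gel k (π n) * gel k (π m)) = S.ψ (gel k (π n)) * S.ψ (gel k (π m))
  rw [sg_mul, ← map_mul, ψ_sg, ψ_sg, ψ_sg, mul_assoc, ← mul_assoc (avg k π), avg_comm, mul_assoc,
    avg_mul_avg π S.ker, ← mul_assoc, sg_mul, Subgroup.coe_mul]

/-- The bimodule data. -/
noncomputable def bd : BD k k[G] k[H] where
  e := e
  he := S.idem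
  hc x := (isCentral_iff_commute.1 S.cent x).eq
  ψ := S.ψ
  hψ := S.ψ_mul

theorem tN_ψ_mul (a : k[H]) (w : k[G]) : tN k π (S.ψ a * w) = a * tN k π w :=
  S.ind (φ := tN k π ∘ₗ LinearMap.mulRight k w ∘ₗ S.ψ) (φ' := LinearMap.mulRight k (tN k π w))
    (fun n => by
      change tN k π (S.ψ _ * w) = _ * _
      rw [ψ_sg, mul_assoc, tN_left, tN_avg_mul π S.ker]) a

theorem tN_mul_ψ (a : k[H]) (w : k[G]) : tN k π (w * S.ψ a) = tN k π w * a :=
  S.ind (φ := tN k π ∘ₗ LinearMap.mulLeft k w ∘ₗ S.ψ) (φ' := LinearMap.mulLeft k (tN k π w))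
    (fun n => by
      change tN k π (w * S.ψ _) = _ * _
      rw [ψ_sg, ← mul_assoc, tN_mul_avg π S.ker, tN_right]) a

variable {U Y : AM k k[G]} {Z : AM k k[H]}

theorem F_sg (n : N) (x : S.bd.fix U) :
    (((S.bd.F U).ρ (gel k (π n)) x : S.bd.fix U) : U.V) = U.ρ (gel k (n : G)) x := by
  have h : U.ρ (S.ψ 1) x = x := x.2
  change U.ρ (S.ψ _) x = _
  rw [ψ_sg, ρ_mul, ← S.ψ_one, h]

theorem pr_sg (n : N) (u : U.V) :
    S.bd.pr U (U.ρ (gel k (n : G)) u) = (S.bd.F U).ρ (gel k (π n)) (S.bd.pr U u) :=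
  Subtype.ext (by
    rw [F_sg]
    change U.ρ (S.ψ 1) _ = U.ρ _ (U.ρ (S.ψ 1) u)
    rw [← ρ_mul, ← ρ_mul, ψ_one, avg_comm])

/-- The extension `g ↦ incl g pr`. -/
noncomputable def ext (U Y : AM k k[G]) :
    ((S.bd.F U).V →ₗ[k] (S.bd.F Y).V) →ₗ[k] (U.V →ₗ[k] Y.V) where
  toFun g := (S.bd.fix Y).subtype ∘ₗ g ∘ₗ S.bd.pr U
  map_add' _ _ := by ext; simp
  map_smul' _ _ := by ext; simp

/-- The functor on linear maps, as a linear map. -/
noncomputable def fm (U Y : AM k k[G]) :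
    (U.V →ₗ[k] Y.V) →ₗ[k] ((S.bd.F U).V →ₗ[k] (S.bd.F Y).V) where
  toFun h := S.bd.Fm h
  map_add' _ _ := by ext; simp [BD.Fm]
  map_smul' _ _ := by ext; simp [BD.Fm]

theorem ext_cjr (n : N) (g : (S.bd.F U).V →ₗ[k] (S.bd.F Y).V) :
    S.ext U Y (cjr _ _ (π n) g) = cjr U Y n (S.ext U Y g) := LinearMap.ext fun u => by
  change (((S.bd.F Y).ρ (gel k (π n)) (g ((S.bd.F U).ρ (gel k (π n)⁻¹) (S.bd.pr U u))) :
    S.bd.fix Y) : Y.V) = Y.ρ _ (g (S.bd.pr U (U.ρ (gel k ((n⁻¹ : N) : G)) u)) : S.bd.fix Y)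
  rw [F_sg, pr_sg, map_inv]

theorem fm_cjr (n : N) (h : U.V →ₗ[k] Y.V) :
    S.fm U Y (cjr U Y n h) = cjr _ _ (π n) (S.fm U Y h) := LinearMap.ext fun x => by
  change S.bd.pr Y (Y.ρ _ (h (U.ρ (gel k ((n⁻¹ : N) : G)) x.1))) = (S.bd.F Y).ρ (gel k (π n))
    (S.bd.pr Y (h ((S.bd.F U).ρ (gel k (π n)⁻¹) x : S.bd.fix U)))
  rw [pr_sg, ← map_inv, F_sg]

theorem fm_ext (g : (S.bd.F U).V →ₗ[k] (S.bd.F Y).V) : S.fm U Y (S.ext U Y g) = g :=
  LinearMap.ext fun x => by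
    change S.bd.pr Y (g (S.bd.pr U x.1) : S.bd.fix Y) = g x
    rw [BD.pr_self, BD.pr_self]

theorem PHom_H (C : Cas k k[H]) (Z Z' : AM k k[H]) :
    C.PHom Z Z' = TQ ((cjr Z Z').comp π) ⊤ := by rw [PHom_eq_TQ, TQ_comp_surj π S.surj S.ker]

theorem idxN : ((P.subgroupOf N).index : k) ≠ 0 := fun h => S.idx (by
  rw [← Subgroup.relIndex_mul_index S.le, Nat.cast_mul, Subgroup.relIndex, h, zero_mul])

theorem mem_PHom_H (C : Cas k k[H]) {Z Z' : AM k k[H]} {g : Z.V →ₗ[k] Z'.V} (hg : g ∈ Hom Z Z')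
    (h : g ∈ TQ ((cjr Z Z').comp π) (P.subgroupOf N)) : g ∈ C.PHom Z Z' := by
  rw [S.PHom_H]
  exact mem_TQ_top S.idxN (fun n => mem_Hom_iff.1 hg (π n)) h

theorem fm_mem {Q : Subgroup G} (hQ : Q ≤ N) {h : U.V →ₗ[k] Y.V} (hh : h ∈ TQ (cjr U Y) Q) :
    S.fm U Y h ∈ TQ ((cjr (S.bd.F U) (S.bd.F Y)).comp π) (Q.subgroupOf N) :=
  map_mem_TQ (σ := (cjr U Y).comp N.subtype) (S.fm U Y) (fun n _ => S.fm_cjr n)
    (by rwa [TQ_subgroupOf hQ])

theorem e_sub_mem {Q : Subgroup G} (hQ : Q ≤ P) {c : G} (hc : R c) (h : ∀ u ∈ Q, Commute u c) :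
    e - e * gel k c ∈ TQ (cjL k G) Q := by
  refine mem_TQ_cjL (isFixed_iff_commute.2 fun q hq => ?_) fun u hu h1 g hg => ?_
  · have h2 := (isCentral_iff_commute.1 S.cent (gel k q)).symm
    refine h2.sub_right (h2.mul_right ?_)
    change gel k q * gel k c = gel k c * gel k q
    rw [sg_mul, sg_mul, (h q hq).eq]
  · change e.coeff g - (e * gel k c).coeff g = 0
    rw [MonoidAlgebra.coeff_mul_single_apply, mul_one,
      S.cf1 u (hQ hu) h1 g c⁻¹ hg (h u hu).inv_right (S.inv c hc), sub_self]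

theorem cjr_sub_mem (hU : S.bd.In U) (hY : S.bd.In Y) {Q : Subgroup G} (hQ : Q ≤ P) {c : G}
    (hc : R c) (h : ∀ u ∈ Q, Commute u c) {m : U.V →ₗ[k] Y.V} (hm : ∀ q ∈ Q, cjr U Y q m = m) :
    cjr U Y c m - m ∈ TQ (cjr U Y) Q := by
  have h1 := right_mem_TQ (S.e_sub_mem hQ (S.inv c hc) fun u hu => (h u hu).inv_right) hm
  have h2 := left_mem_TQ (S.e_sub_mem hQ hc h) (h := m ∘ₗ U.ρ (gel k c⁻¹)) fun q hq => by
    ext u
    conv_rhs => rw [← hm q hq]
    simp only [cjr_apply, LinearMap.comp_apply, ρ_sg_mul, (h q hq).inv_inv.eq]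
  convert neg_mem (add_mem h1 h2) using 1
  ext u
  have e1 : ∀ u, U.ρ e u = u := hU
  have e2 : ∀ y, Y.ρ e y = y := hY
  simp [cjr_apply, e1, e2]

theorem faith (CL : Cas k k[G]) (CA : Cas k k[H]) (hU : S.bd.In U) {h : U.V →ₗ[k] Y.V}
    (hh : h ∈ Hom U Y) (h0 : S.bd.Fm h ∈ CA.PHom _ _) : h ∈ CL.PHom U Y := by
  have e1 : ∀ u, U.ρ e u = u := hU
  rw [S.PHom_H] at h0
  have h1 := map_mem_TQ (σ' := (cjr U Y).comp N.subtype) (S.ext U Y) (fun n _ => S.ext_cjr n)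
    (TQ_anti (le_top (a := P.subgroupOf N)) h0)
  rw [TQ_subgroupOf S.le] at h1
  have h2 : e - e * avg k π ∈ TQ (cjL k G) P := by
    have := avg_lin π S.ker ((TQ (cjL k G) P).mkQ ∘ₗ LinearMap.mulLeft k e)
      (m := (TQ (cjL k G) P).mkQ e) fun o ho => ((Submodule.Quotient.eq _).2
        (S.e_sub_mem le_rfl (S.kerR o ho).1 (S.kerR o ho).2)).symm
    exact (Submodule.Quotient.eq _).1 this.symm
  rw [PHom_eq_TQ]
  refine mem_TQ_top S.idx (mem_Hom_iff.1 hh) ?_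
  convert add_mem h1 (right_mem_TQ h2 fun q _ => mem_Hom_iff.1 hh q) using 1
  ext u
  change h u = (S.bd.Fm h (S.bd.pr U u) : S.bd.fix Y) + h (U.ρ (e - e * avg k π) u)
  rw [S.bd.Fm_coe hh, BD.pr_coe, ← map_add]
  change _ = h (U.ρ (S.ψ 1) u + _)
  simp [ψ_one, e1]

theorem full (CA : Cas k k[H]) (hU : S.bd.In U) (hY : S.bd.In Y)
    {g : (S.bd.F U).V →ₗ[k] (S.bd.F Y).V} (hg : g ∈ Hom _ _) :
    ∃ h ∈ Hom U Y, g - S.bd.Fm h ∈ CA.PHom _ _ := by
  have := Fintype.ofFinite (G ⧸ P)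
  set m := S.ext U Y g with hm
  have h1 : ∀ n ∈ N, cjr U Y n m = m := fun n hn => by
    rw [hm, ← S.ext_cjr ⟨n, hn⟩, mem_Hom_iff.1 hg]
  have h2 : ∀ (x : G) (c : G ⧸ P), cjr U Y (x • c).out m = cjr U Y x (cjr U Y c.out m) := by
    intro x c
    have h3 : (x * c.out)⁻¹ * (x • c).out ∈ P := QuotientGroup.eq.1 (by
      rw [QuotientGroup.out_eq', ← smul_eq_mul, MulAction.Quotient.mk_smul_out])
    rw [← mul_inv_cancel_left (x * c.out) (x • c).out, map_mul, map_mul, Module.End.mul_apply,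
      Module.End.mul_apply, h1 _ (S.le h3)]
  have h3 := sum_mem_TQ (σ := cjr U Y) (Q := P) (MulAction.toPermHom G (G ⧸ P))
    (fun c => cjr U Y c.out m - m)
    (fun q hq c => by rw [map_sub, ← h2, h1 q (S.le hq)]; rfl) fun c => by
      have h4 : ∀ u, u ∈ MulAction.stabilizer G c ↔ c.out⁻¹ * u * c.out ∈ P := fun u => by
        rw [MulAction.mem_stabilizer_iff, ← MulAction.Quotient.mk_smul_out, eq_comm]
        conv_lhs => rw [← QuotientGroup.out_eq' c]
        rw [QuotientGroup.eq, QuotientGroup.out_eq', smul_eq_mul, mul_assoc]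
      refine ⟨1, P.one_mem, P ⊓ MulAction.stabilizer G c, fun g => by simp, ?_⟩
      by_cases h5 : ∀ q ∈ P ⊓ MulAction.stabilizer G c, q = 1
      · exact mem_TQ_of_triv h5 _
      push Not at h5
      obtain ⟨u, hu, hu1⟩ := h5
      obtain ⟨y, hy, hn, hc⟩ := S.fus c.out ⟨u, hu.1, hu1, (h4 u).1 hu.2⟩
      have h6 := S.cjr_sub_mem hU hY inf_le_left hy
        (fun u hu => hc u hu.1 ((h4 u).1 hu.2)) fun q hq => h1 q (S.le hq.1)
      rw [← h1 _ hn, ← Module.End.mul_apply, ← map_mul, mul_inv_cancel_left, h1 _ hn] at h6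
      simpa using h6
  have h4 : (P.index : k)⁻¹ • ∑ c : G ⧸ P, cjr U Y c.out m ∈ Hom U Y := by
    refine Submodule.smul_mem _ _ (mem_Hom_iff.2 fun x => ?_)
    rw [map_sum]
    exact Fintype.sum_equiv (MulAction.toPerm x) _ _ fun c => (h2 x c).symm
  refine ⟨_, h4, S.mem_PHom_H CA (sub_mem hg (S.bd.Fm_mem h4)) ?_⟩
  convert neg_mem (S.fm_mem S.le (Submodule.smul_mem _ (P.index : k)⁻¹ h3)) using 1
  rw [Finset.sum_sub_distrib, Finset.sum_const, Finset.card_univ, ← Nat.card_eq_fintype_card,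
    ← Subgroup.index, ← Nat.cast_smul_eq_nsmul k, smul_sub, smul_smul, inv_mul_cancel₀ S.idx,
    one_smul, map_sub, neg_sub, hm, fm_ext]
  rfl

theorem Fp (CL : Cas k k[G]) (CA : Cas k k[H]) {h : U.V →ₗ[k] Y.V} (hh : h ∈ CL.PHom U Y) :
    S.bd.Fm h ∈ CA.PHom _ _ := by
  rw [PHom_eq_TQ] at hh
  have := S.fm_mem le_rfl (TQ_anti le_top hh)
  rwa [Subgroup.subgroupOf_self, ← S.PHom_H CA] at this

/-- The element `w ↦ s(w) z` of `G Z`. -/
noncomputable def ιG (Z : AM k k[H]) : Z.V →ₗ[k] (S.bd.G Z).V where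
  toFun z := ⟨LinearMap.applyₗ z ∘ₗ Z.ρ.toLinearMap ∘ₗ tN k π ∘ₗ (Submodule.subtype _) ∘ₗ
      (S.bd.fix S.bd.Le).subtype, fun a w => by
    change Z.ρ (tN k π (S.ψ a * w.1.1)) z = Z.ρ a (Z.ρ (tN k π w.1.1) z)
    rw [tN_ψ_mul, ρ_mul]⟩
  map_add' _ _ := by ext; simp
  map_smul' _ _ := by ext; simp

theorem ιG_apply (z : Z.V) (w : S.bd.W.V) : (S.ιG Z z).1 w = Z.ρ (tN k π w.1.1) z := rfl

theorem ιG_ψ (a : k[H]) (z : Z.V) : (S.bd.G Z).ρ (S.ψ a) (S.ιG Z z) = S.ιG Z (Z.ρ a z) :=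
  Subtype.ext (LinearMap.ext fun w => by
    rw [BD.G_ρ, ιG_apply, ιG_apply, BD.rm_coe, tN_mul_ψ, ρ_mul])

theorem adj_key (g0 : (S.bd.F U).V →ₗ[k] Z.V) (u : U.V) (y : k[G]) :
    ∑ x ∈ sfin ⊤, Z.ρ (tN k π (y * gel k x)) (g0 (S.bd.pr U (U.ρ (gel k x⁻¹) u))) =
      ∑ n ∈ sfin ⊤, cjr (S.bd.F U) Z (π n) g0 (S.bd.pr U (U.ρ y u)) := by
  classical
  induction y using MonoidAlgebra.induction_linear with
  | zero => simp
  | add x y hx hy => simp only [add_mul, map_add, LinearMap.add_apply, Finset.sum_add_distrib, hx, hy]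
  | single y r =>
    rw [single_eq_smul]
    simp only [smul_mul_assoc, map_smul, LinearMap.smul_apply, ← Finset.smul_sum]
    congr 1
    symm
    refine Finset.sum_of_injOn (fun n : N => y⁻¹ * n) (fun _ _ _ _ e => by simpa using e)
      (fun _ _ => by simp) (fun x _ hx => ?_) fun n _ => ?_
    · rw [sg_mul, tN_sg_of_not_mem π fun hn => hx ⟨⟨_, hn⟩, by simp, by simp⟩, map_zero,
        LinearMap.zero_apply]
    · rw [cjr_apply, sg_mul, mul_inv_cancel_left, tN_sg, ← map_inv, ← pr_sg, ρ_sg_mul,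
        mul_inv_rev, inv_inv, Subgroup.coe_inv]

theorem adjp (CL : Cas k k[G]) (CA : Cas k k[H]) {g : (S.bd.F U).V →ₗ[k] Z.V}
    (hg : g ∈ Hom (S.bd.F U) Z) (h : g ∈ CA.PHom _ _) : S.bd.adj hg ∈ CL.PHom U (S.bd.G Z) := by
  rw [S.PHom_H] at h
  obtain ⟨g0, h0⟩ := mem_TQ.1 h
  rw [PHom_eq_TQ]
  refine mem_TQ.2 ⟨S.ιG Z ∘ₗ g0 ∘ₗ S.bd.pr U, LinearMap.ext fun u =>
    Subtype.ext (LinearMap.ext fun w => ?_)⟩
  have h1 := LinearMap.congr_fun h0 (S.bd.pr U (U.ρ w.1.1 u))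
  rw [LinearMap.sum_apply] at h1
  rw [BD.adj_apply, ← h1, LinearMap.sum_apply, AddSubmonoidClass.coe_finsetSum,
    LinearMap.sum_apply]
  refine Eq.trans (Finset.sum_congr rfl fun x _ => ?_) (S.adj_key g0 u w.1.1)
  rw [cjr_apply, BD.G_ρ, ← BD.rm_coe, LinearMap.comp_apply, ιG_apply, LinearMap.comp_apply]

theorem unit (CA : Cas k k[H]) (Z : AM k k[H]) : ∃ ι ∈ Hom Z (S.bd.F (S.bd.G Z)),
    LinearMap.id - S.bd.ε Z ∘ₗ ι ∈ CA.PHom Z Z := by
  classical
  have h1 : ∀ z, S.ιG Z z ∈ S.bd.fix (S.bd.G Z) := fun z => by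
    change (S.bd.G Z).ρ (S.ψ 1) _ = _
    rw [ιG_ψ, map_one]; rfl
  have h2 : (S.ιG Z).codRestrict _ h1 ∈ Hom Z (S.bd.F (S.bd.G Z)) :=
    fun a z => Subtype.ext (S.ιG_ψ a z).symm
  refine ⟨_, h2, S.mem_PHom_H CA (sub_mem (id_mem Z) (comp_mem (S.bd.ε_mem Z) h2)) ?_⟩
  have hf : ∀ n : N, (avg k π).coeff n = if π n = 1 then (Nat.card π.ker : k)⁻¹ else 0 := fun n => by
    rw [avg, MonoidAlgebra.coeff_smul, Finsupp.smul_apply, coeff_sum_apply]
    simp [Finsupp.single_apply, MonoidHom.mem_ker]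
  have h3 : trunc N (avg k π - e) ∈ TQ (cjL k G) P := by
    refine mem_TQ_cjL (fun q hq x => ?_) fun u hu hu1 g hg => ?_
    · have h4 : IsFixed P (avg k π - e) := isFixed_iff_commute.2 fun q hq =>
        Commute.sub_right (avg_comm π ⟨q, S.le hq⟩).symm
          (isCentral_iff_commute.1 S.cent _).symm
      rw [coeff_trunc, coeff_trunc, h4 q hq]
      congr 1
      rw [SetLike.mem_coe, SetLike.mem_coe, N.mul_mem_cancel_right (N.inv_mem (S.le hq)),
        N.mul_mem_cancel_left (S.le hq)]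
    · rw [coeff_trunc]
      split_ifs with hn
      · change (avg k π).coeff (⟨g, hn⟩ : N) - e.coeff g = 0
        rw [hf]
        split_ifs with h5
        · have := S.cf1 u hu hu1 1 g (Commute.one_right u) hg (S.kerR _ h5).1
          rw [one_mul] at this
          rw [this, eq_inv_of_mul_eq_one_left S.cf3, sub_self]
        · rw [S.cf2 u hu hu1 ⟨g, hn⟩ hg h5, sub_self]
      · rfl
  rw [← TQ_subgroupOf S.le] at h3
  convert map_mem_TQ (σ' := (cjr Z Z).comp π) (Z.ρ.toLinearMap ∘ₗ tN k π) (fun n _ a => ?_) h3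
    using 1
  · ext z
    change z - Z.ρ (tN k π (S.ψ 1 * (1 * e))) z = Z.ρ (tN k π _) z
    rw [tN_congr π (b := avg k π - e) fun n => coeff_trunc_of_mem _ n.2, tN_ψ_mul, map_sub,
      ← mul_one (avg k π), tN_avg_mul π S.ker, tN_one]
    simp
  · ext z
    change Z.ρ (tN k π (cjL k G n a)) z = Z.ρ _ (Z.ρ (tN k π a) (Z.ρ _ z))
    rw [cjL_apply, ← Subgroup.coe_inv, tN_right, tN_left, ρ_mul, ρ_mul, map_inv]

theorem se (CL : Cas k k[G]) (CA : Cas k k[H]) : S.bd.SE CL CA where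
  faith _ _ hU _ _ hh h0 := S.faith CL CA hU hh h0
  full _ _ hU hY _ hg := S.full CA hU hY hg
  Fp _ _ _ hh := S.Fp CL CA hh
  adjp _ _ _ _ hg h := S.adjp CL CA hg h
  unit Z := S.unit CA Z

end GH

section Principal

open Cfsg BT GT Subgroup
open scoped Pointwise

variable {p : ℕ} [Fact p.Prime] {M : Ideal AlgInt} (hM : IsPModular p M)

theorem coeff_idem_of_nilp {Q : Subgroup G} (hQ : IsPGroup p Q)
    (h : HasNormalPComplement p (centralizer (Q : Set G))) (g : centralizer (Q : Set G))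
    [Decidable (g ∈ pPrimeCore p (centralizer (Q : Set G)))] :
    (idem hM (principalBlock M G)).coeff g = if g ∈ pPrimeCore p (centralizer (Q : Set G)) then
      (Nat.card (pPrimeCore p (centralizer (Q : Set G))) : ResF hM)⁻¹ else 0 := by
  have h1 := congrArg (fun a => a.coeff (g : G)) (br_idem_principal hM hQ)
  simp only [sidem, coeff_emb_coe, br_def, coeff_trunc_of_mem _ g.2] at h1
  rw [h1, coeff_idem, principalBlock_eq_kerSet hM h, blockCoeff_kerSet]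
  split_ifs
  · rw [red_inv hM (natCast_mem _ _)
      (by rw [natCast_mem_locIdeal_iff]; exact not_dvd_card_pPrimeCore p _), red_natCast]
  · exact red_zero hM

theorem gh_principal (P : Sylow p G) (hP1 : (P : Subgroup G) ≠ ⊥)
    (hab : ∀ x ∈ (P : Subgroup G), ∀ y ∈ (P : Subgroup G), Commute x y)
    (hnil : ∀ u ∈ (P : Subgroup G), u ≠ 1 → HasNormalPComplement p (centralizer ({u} : Set G)))
    (π : normalizer ((P : Subgroup G) : Set G) →* H) (hπ : Function.Surjective π)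
    (hker : ∀ n, π n = 1 ↔ (n : G) ∈ centralizer ((P : Subgroup G) : Set G) ∧ ¬ p ∣ orderOf (n : G)) :
    GH (fun c => ¬ p ∣ orderOf c) (P : Subgroup G) _ π (idem hM (principalBlock M G)) := by
  classical
  have h1 : ∀ Q : Subgroup G, Q ≤ P → Q ≠ ⊥ → HasNormalPComplement p (centralizer (Q : Set G)) :=
    fun Q hQ h => by
      obtain ⟨⟨u, hu⟩, h2⟩ := ne_bot_iff_exists_ne_one.1 h
      exact hasNormalPComplement_of_le (hnil u (hQ hu) fun e => h2 (Subtype.ext e))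
        (centralizer_le (Set.singleton_subset_iff.2 hu))
  have h2 : ∀ (C : Subgroup G), HasNormalPComplement p C → ∀ g : C,
      g ∈ pPrimeCore p C ↔ ¬ p ∣ orderOf (g : G) := fun C h g => by
    rw [orderOf_coe]
    exact ⟨isPRegular_of_mem_pPrimeCore, hasNormalPComplement_iff_forall_mem.1 h g⟩
  have h3 : ∀ u g : G, Commute u g → g ∈ centralizer (zpowers u : Set G) := fun u g h => by
    rintro _ ⟨i, rfl⟩; exact (h.zpow_left i).eq
  have h4 : Nat.card π.ker = Nat.card (pPrimeCore p (centralizer ((P : Subgroup G) : Set G))) :=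
    Nat.card_congr ⟨fun n => ⟨⟨n.1, ((hker _).1 n.2).1⟩, (h2 _ (h1 _ le_rfl hP1) _).2 ((hker _).1 n.2).2⟩,
      fun c => ⟨⟨c.1, centralizer_le_normalizer _ c.1.2⟩,
        (hker _).2 ⟨c.1.2, (h2 _ (h1 _ le_rfl hP1) _).1 c.2⟩⟩, fun _ => rfl, fun _ => rfl⟩
  have h5 : (Nat.card π.ker : ResF hM) ≠ 0 := by
    rw [h4, Ne, CharP.cast_eq_zero_iff _ p]; exact not_dvd_card_pPrimeCore p _
  have h6 : ∀ u ∈ (P : Subgroup G), IsPGroup p (zpowers u) := fun u hu =>
    P.isPGroup'.to_le (zpowers_le.2 hu)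
  have h7 : ∀ u ∈ (P : Subgroup G), u ≠ 1 →
      HasNormalPComplement p (centralizer (zpowers u : Set G)) := fun u hu h =>
    h1 _ (zpowers_le.2 hu) (by simpa using h)
  refine ⟨le_normalizer, hπ, idem_mul_self hM isPBlock_principalBlock, isCentral_idem hM _, ?_, h5,
    fun c hc => by rwa [orderOf_inv], fun n hn => ⟨((hker n).1 hn).2, fun u hu =>
      ((hker n).1 hn).1 u hu⟩, fun x ⟨u, hu, hu1, hx⟩ => ?_, fun u hu hu1 g c hg hc hr => ?_,
    fun u hu hu1 n hn h => ?_, ?_⟩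
  · rw [Ne, CharP.cast_eq_zero_iff _ p]; exact P.not_dvd_index
  · set Q : Subgroup G := (P : Subgroup G) ⊓ MulAut.conj x • (P : Subgroup G) with hQ
    have hC := h1 Q inf_le_left fun e => hu1 (mem_bot.1 (e ▸ ⟨hu, mem_conj_smul.2 hx⟩))
    have s1 : IsSylowIn p (P : Subgroup G) (centralizer (Q : Set G)) :=
      (isSylowIn_sylow P).of_le (fun y hy v hv => (hab v hv.1 y hy).eq) le_top
    have s2 : IsSylowIn p (MulAut.conj x • (P : Subgroup G)) (centralizer (Q : Set G)) :=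
      ((isSylowIn_sylow P).conj_of_mem (mem_top x)).of_le (fun y hy v hv => by
        have := (hab _ (mem_conj_smul.1 hv.2) _ (mem_conj_smul.1 hy)).eq
        have h : v * (y * x) = y * (v * x) := by simpa [mul_assoc] using this
        exact mul_right_cancel (b := x) (by simpa [mul_assoc] using h)) le_top
    obtain ⟨y, hy, e⟩ := s1.exists_conj_eq s2
    obtain ⟨φ, R⟩ := s1.exists_retr hC
    have h8 : y⁻¹ * x ∈ normalizer ((P : Subgroup G) : Set G) :=
      conj_smul_eq_iff_mem_normalizer.1 (by rw [map_mul, mul_smul, ← e, map_inv, inv_smul_smul])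
    have h9 := R.le (R.mem ⟨y, hy⟩)
    refine ⟨y * (φ ⟨y, hy⟩)⁻¹, (R.eq_one_iff (⟨y, hy⟩ * ⟨_, h9⟩⁻¹)).1 ?_, ?_, fun v hv hv' =>
      (mul_mem hy (inv_mem h9)) v ⟨hv, mem_conj_smul.2 hv'⟩⟩
    · rw [map_mul, map_inv, R.id ⟨_, h9⟩ (R.mem _), mul_inv_cancel]
    · rw [mul_inv_rev, inv_inv, mul_assoc]
      exact mul_mem (le_normalizer (R.mem _)) h8
  · have e1 := coeff_idem_of_nilp hM (h6 u hu) (h7 u hu hu1) ⟨g, h3 u g hg⟩
    have e2 := coeff_idem_of_nilp hM (h6 u hu) (h7 u hu hu1) (⟨g, h3 u g hg⟩ * ⟨c, h3 u c hc⟩)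
    simp only [mul_mem_cancel_right ((h2 _ (h7 u hu hu1) ⟨c, h3 u c hc⟩).2 hr)] at e2
    exact e2.trans e1.symm
  · refine (coeff_idem_of_nilp hM (h6 u hu) (h7 u hu hu1) ⟨n, h3 u n hn⟩).trans
      (if_neg fun h8 => h ((hker n).2 ⟨fun y hy => ?_, (h2 _ (h7 u hu hu1) _).1 h8⟩))
    have h9 := (h2 _ (h7 u hu hu1) _).1 (mul_mem ((inferInstance : (pPrimeCore p _).Normal).conj_mem
      _ h8 ⟨y, h3 u y (hab u hu y hy)⟩) (inv_mem h8))
    have h10 : y * n * y⁻¹ * (n : G)⁻¹ ∈ (P : Subgroup G) := by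
      rw [mul_assoc, mul_assoc, ← mul_assoc (n : G)]
      exact mul_mem hy ((mem_normalizer_iff.1 n.2 _).1 (inv_mem hy))
    have h11 := (isPElt_of_mem_sylow P h10).eq_one_of_isPRegular h9
    rwa [mul_inv_eq_one, mul_inv_eq_iff_eq_mul] at h11
  · have := coeff_idem_of_nilp hM P.isPGroup' (h1 _ le_rfl hP1) 1
    rw [if_pos (one_mem _), ← h4] at this
    exact (congrArg (· * _) this).trans (inv_mul_cancel₀ h5)

/-- **The stable equivalence** between the principal block and `k[N_G(P)/O_{p'}(C_G(P))]`. -/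
theorem exists_bd (P : Sylow p G) (hP1 : (P : Subgroup G) ≠ ⊥)
    (hab : ∀ x ∈ (P : Subgroup G), ∀ y ∈ (P : Subgroup G), Commute x y)
    (hnil : ∀ u ∈ (P : Subgroup G), u ≠ 1 → HasNormalPComplement p (centralizer ({u} : Set G)))
    (π : normalizer ((P : Subgroup G) : Set G) →* H) (hπ : Function.Surjective π)
    (hker : ∀ n, π n = 1 ↔ (n : G) ∈ centralizer ((P : Subgroup G) : Set G) ∧ ¬ p ∣ orderOf (n : G)) :
    ∃ D : BD (ResF hM) (ResF hM)[G] (ResF hM)[H], D.e = idem hM (principalBlock M G) ∧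
      D.ψ 1 = avg _ π ∧ (∀ n, D.ψ (gel _ (π n)) = gel _ (n : G) * avg _ π) ∧
      ∀ CL CA, D.SE CL CA :=
  have S := gh_principal hM P hP1 hab hnil π hπ hker
  ⟨S.bd, rfl, S.ψ_one, S.ψ_sg, S.se⟩

end Principal

end GB
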