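import Cfsg.Agent.Lib.Block.GBLink
import Cfsg.Agent.Lib.Block.GBA5

/-!
# The local group `P : E` of a group with abelian Sylow subgroup and the class bound
-/

set_option autoImplicit false
set_option linter.unusedSectionVars false

namespace GB

open Cfsg CT BT Subgroup
open scoped IsMulCommutative MonoidAlgebra

universe u

/-- The semidirect product as an instance of `SDP`. -/
def SDP.std {Q E : Type u} [CommGroup Q] [Group E] (φ : E →* MulAut Q) : SDP (Q ⋊[φ] E) Q E where
  j := SemidirectProduct.inl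
  s := SemidirectProduct.inr
  φ := φ
  conj e u := by ext <;> simp
  bij := ⟨fun x y h => Prod.ext (by simpa using congrArg SemidirectProduct.left h)
    (by simpa using congrArg SemidirectProduct.right h),
    fun h => ⟨(h.left, h.right), SemidirectProduct.inl_left_mul_inr_right h⟩⟩

instance {Q E : Type u} [CommGroup Q] [Group E] [Finite Q] [Finite E] (φ : E →* MulAut Q) :
    Finite (Q ⋊[φ] E) := Finite.of_surjective _ (SDP.std φ).bij.2

variable {p : ℕ} [hp : Fact p.Prime] {G : Type u} [Group G] [Finite G]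

/-- The automizer `N(P) / C(P)` as a group of automorphisms. -/
abbrev Atm (P : Subgroup G) : Subgroup (MulAut P) := P.normalizerMonoidHom.range

theorem card_atm (P : Subgroup G) :
    Nat.card (Atm P) = (centralizer (P : Set G)).relIndex (normalizer (P : Set G)) := by
  rw [← index_ker, normalizerMonoidHom_ker, relIndex]

theorem atm_coe (P : Subgroup G) (n : normalizer (P : Set G)) (u : P) :
    ((P.normalizerMonoidHom n u : P) : G) = n * u * (n : G)⁻¹ := rfl

theorem atm_eq_one {P : Subgroup G} {n : normalizer (P : Set G)} :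
    P.normalizerMonoidHom n = 1 ↔ (n : G) ∈ centralizer (P : Set G) := by
  rw [← MonoidHom.mem_ker, normalizerMonoidHom_ker, mem_subgroupOf]

variable (P : Sylow p G) [IsMulCommutative (P : Subgroup G)]

theorem not_dvd_card_atm : ¬ p ∣ Nat.card (Atm (P : Subgroup G)) := by
  rw [card_atm]
  exact fun h => P.not_dvd_index ((h.trans (relIndex_dvd_of_le_left _ (le_centralizer _))).trans
    (relIndex_dvd_index_of_le le_normalizer))

theorem exists_pi : ∃ π : normalizer ((P : Subgroup G) : Set G) →*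
      (P : Subgroup G) ⋊[(Atm (P : Subgroup G)).subtype] Atm (P : Subgroup G),
    Function.Surjective π ∧ ∀ n, π n = 1 ↔
      (n : G) ∈ centralizer ((P : Subgroup G) : Set G) ∧ ¬ p ∣ orderOf (n : G) := by
  set N := normalizer ((P : Subgroup G) : Set G)
  have := Fintype.ofFinite N
  have := Fintype.ofFinite (P : Subgroup G)
  have h1 : ¬ p ∣ ((P : Subgroup G).subgroupOf N).index := fun h =>
    P.not_dvd_index (h.trans (relIndex_dvd_index_of_le le_normalizer))
  obtain ⟨m, hm⟩ := IsPGroup.iff_card.1 (P.isPGroup'.comap_subtype (K := N))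
  obtain ⟨K, hK⟩ := exists_right_complement'_of_coprime (N := (P : Subgroup G).subgroupOf N)
    (hm ▸ (hp.out.coprime_iff_not_dvd.2 h1).pow_left m)
  have := Fintype.ofFinite K
  let ρ := (P : Subgroup G).normalizerMonoidHom
  let D : SDP N (P : Subgroup G) K :=
    { j := inclusion le_normalizer
      s := K.subtype
      φ := ρ.comp K.subtype
      conj := fun e u => Subtype.ext (eq_mul_of_mul_inv_eq rfl)
      bij := ⟨fun x y h => by
        have h2 := hK.1 (a₁ := (⟨inclusion le_normalizer x.1, x.1.2⟩, x.2))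
          (a₂ := (⟨inclusion le_normalizer y.1, y.1.2⟩, y.2)) h
        exact Prod.ext (Subtype.ext (congrArg (fun z => ((z.1.1 : N) : G)) h2))
          (congrArg Prod.snd h2 :), fun n => by
        obtain ⟨⟨x, y⟩, h⟩ := hK.2 n
        exact ⟨(⟨x.1, x.2⟩, y), h⟩⟩ }
  have h2 : ∀ u e, ρ (D.j u * D.s e) = ρ e := fun u e => by
    rw [map_mul, atm_eq_one.2 (le_centralizer _ u.2), one_mul]; rfl
  refine ⟨MonoidHom.mk' (fun n => ⟨(D.co n).1, ρ.rangeRestrict n⟩) fun a b => ?_, ?_, fun n => ?_⟩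
  · obtain ⟨u, e, rfl⟩ := D.exists_eq a
    obtain ⟨u', e', rfl⟩ := D.exists_eq b
    refine SemidirectProduct.ext ?_ (map_mul _ _ _)
    rw [D.mul_eq, SemidirectProduct.mul_left]
    simp only [D.co_eq, coe_subtype, MonoidHom.coe_rangeRestrict, h2]
    rfl
  · rintro ⟨u, _, n, rfl⟩
    obtain ⟨u', e, rfl⟩ := D.exists_eq n
    exact ⟨D.j u * D.s e, SemidirectProduct.ext (congrArg Prod.fst (D.co_eq u e))
      (Subtype.ext ((h2 u e).trans (h2 u' e).symm))⟩
  · obtain ⟨u, e, rfl⟩ := D.exists_eq n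
    have h3 : ¬ p ∣ orderOf e := fun h => h1 (hK.symm.index_eq_card ▸ h.trans (orderOf_dvd_natCard e))
    rw [SemidirectProduct.ext_iff, Subtype.ext_iff (a1 := SemidirectProduct.right _)]
    change (D.co _).1 = 1 ∧ ρ _ = 1 ↔ _
    rw [D.co_eq, atm_eq_one, and_comm]
    refine and_congr_right fun hc => ⟨fun h => ?_, fun h => ?_⟩
    · rw [show u = 1 from h, map_one, one_mul, orderOf_coe]
      exact fun h => h3 (orderOf_coe e ▸ h)
    · have h4 : Commute (D.j u) (D.s e) := by
        have h5 : D.j u * (D.j u * D.s e) = D.j u * D.s e * D.j u := Subtype.ext (hc u u.2)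
        exact mul_left_cancel (h5.trans (mul_assoc _ _ _))
      have h5 := pow_orderOf_eq_one (D.j u * D.s e)
      rw [h4.mul_pow, ← map_pow, ← map_pow, ← one_mul 1] at h5
      have h6 := (D.eq_iff.1 (h5.trans (by rw [map_one, map_one] : _ = D.j 1 * D.s 1))).1
      obtain ⟨a, ha⟩ := P.isPGroup' u
      rw [orderOf_coe] at h
      exact orderOf_eq_one_iff.1 (Nat.eq_one_of_dvd_coprimes
        ((hp.out.coprime_iff_not_dvd.2 h).pow_left a) (orderOf_dvd_of_pow_eq_one ha)
        (orderOf_dvd_of_pow_eq_one h6))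

variable {M : Ideal AlgInt} (hM : IsPModular p M)

/-- Every set of classes on which a twisted graded character is non-positive has at most `l`
elements. -/
def Bnd {Q E : Type u} [CommGroup Q] [Group E] [Fintype Q] [Fintype E] (φ : E →* MulAut Q)
    [Fintype (Q ⋊[φ] E)] (l : ℕ) : Prop :=
  ∀ (W : Wed hM E) (U U' : Submodule (ResF hM) (ResF hM)[Q]) (S : (SDP.std φ).ISp p U U') (θ : ℝ)
    (T : Finset (ConjClasses E)), (∀ g, ConjClasses.mk g ∈ T → (S.F W θ g).re ≤ 0) → T.card ≤ l

variable (hP1 : (P : Subgroup G) ≠ ⊥)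
  (hnil : ∀ u ∈ (P : Subgroup G), u ≠ 1 → HasNormalPComplement p (centralizer ({u} : Set G)))
include hP1 hnil

theorem bound_of_pd {Γ : GA (ResF hM)
      (ResF hM)[(P : Subgroup G) ⋊[(Atm (P : Subgroup G)).subtype] Atm (P : Subgroup G)]}
    {ι : Type*} [Fintype ι] [DecidableEq ι] (Pd : PD Γ ι) (h0 : GBS.PosOn (Pd.HA 0) ⊤) {θ : ℝ}
    {U : Submodule ℂ (ι → ℂ)} (hU : ∀ x ∈ U, GBS.qf (Pd.HA θ) x ≤ 0) :
    Module.finrank ℂ U ≤ blockRank p (principalBlock M G) := by
  obtain ⟨π, h1, h2⟩ := exists_pi P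
  exact gb_bound hM P hP1 (fun x hx y hy => congrArg Subtype.val (mul_comm (⟨x, hx⟩ : P) ⟨y, hy⟩))
    hnil π h1 h2 Pd h0 hU

theorem four_dvd_of_pd {Γ : GA (ResF hM)
      (ResF hM)[(P : Subgroup G) ⋊[(Atm (P : Subgroup G)).subtype] Atm (P : Subgroup G)]}
    {ι : Type*} [Fintype ι] [DecidableEq ι] (Pd : PD Γ ι) (hs : Γ.s = 2) {u : G}
    (hu : p ∣ orderOf u) (ho : ∀ χ ∈ principalBlock M G, ∃ n : ℤ, Odd n ∧ χ.1 u = n) {d₁ d₂ : ℤ}
    (h1 : (Pd.HA 0).det = d₁) (h2 : (Pd.HA (Real.pi / 4)).det = d₂) (hd : Odd d₁) :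
    4 ∣ d₁ - d₂ := by
  obtain ⟨π, h3, h4⟩ := exists_pi P
  exact gb_four_dvd hM P hP1
    (fun x hx y hy => congrArg Subtype.val (mul_comm (⟨x, hx⟩ : P) ⟨y, hy⟩)) hnil π h3 h4 Pd hs hu
    ho h1 h2 hd

theorem bnd_principal [Fintype (P : Subgroup G)] [Fintype (Atm (P : Subgroup G))]
    [Fintype ((P : Subgroup G) ⋊[(Atm (P : Subgroup G)).subtype] Atm (P : Subgroup G))] :
    Bnd hM (Atm (P : Subgroup G)).subtype (blockRank p (principalBlock M G)) :=
  fun W U U' S θ T hT => by
  have hE := not_dvd_card_atm P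
  obtain ⟨V, h1, h2⟩ := exists_nonpos W hE T hT
  exact h1.trans (bound_of_pd P hM hP1 hnil (S.gr.pd (wid W hE)) (S.posOn_HA W hE)
    (θ := θ) (S.HA_eq W hE θ ▸ h2))

end GB
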