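import Cfsg.Agent.Lib.Block.GBCore
import Mathlib.LinearAlgebra.Determinant

/-!
# The images of the simple modules are fixed by the torus
-/

set_option autoImplicit false
set_option linter.unusedSectionVars false

namespace GB

open Module AM Cas Polynomial

universe u

variable {k : Type} [Field k]

/-- The rank of a polynomial family of linear maps is lower semicontinuous. -/
theorem finite_rank_lt {V V' : Type*} [AddCommGroup V] [Module k V] [AddCommGroup V'] [Module k V']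
    [FiniteDimensional k V] (n : ℕ) (Φ : ℕ → V →ₗ[k] V') :
    {t : k | finrank k (LinearMap.range (∑ d ∈ Finset.range n, t ^ d • Φ d)) <
      finrank k (LinearMap.range (∑ d ∈ Finset.range n, (1 : k) ^ d • Φ d))}.Finite := by
  classical
  set Φ1 := ∑ d ∈ Finset.range n, (1 : k) ^ d • Φ d with hΦ1
  let v := Module.finBasis k (LinearMap.range Φ1)
  obtain ⟨a, ha⟩ := Φ1.rangeRestrict.exists_rightInverse_of_surjective Φ1.range_rangeRestrict
  obtain ⟨b, hb⟩ := (LinearMap.range Φ1).subtype.exists_leftInverse_of_injective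
    (Submodule.ker_subtype _)
  let P : Matrix _ _ k[X] := ∑ d ∈ Finset.range n,
    (X : k[X]) ^ d • (LinearMap.toMatrix v v (b ∘ₗ Φ d ∘ₗ a)).map C
  have hP : ∀ t : k, P.det.eval t =
      LinearMap.det (b ∘ₗ (∑ d ∈ Finset.range n, t ^ d • Φ d) ∘ₗ a) := fun t => by
    rw [← LinearMap.det_toMatrix v, ← coe_evalRingHom, RingHom.map_det]
    congr 1
    ext i j
    have e : b ∘ₗ (∑ d ∈ Finset.range n, t ^ d • Φ d) ∘ₗ a =
        ∑ d ∈ Finset.range n, t ^ d • (b ∘ₗ Φ d ∘ₗ a) := by ext x; simp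
    rw [e, map_sum, map_sum, Matrix.sum_apply, Matrix.sum_apply]
    refine Finset.sum_congr rfl fun d _ => ?_
    rw [RingHom.mapMatrix_apply, Matrix.map_apply, map_smul, Matrix.smul_apply, Matrix.smul_apply, Matrix.map_apply, smul_eq_mul, smul_eq_mul,
      coe_evalRingHom, eval_mul, eval_pow, eval_X, eval_C]
  have h1 : P.det ≠ 0 := fun e => by
    have := hP 1
    rw [e, eval_zero, ← hΦ1] at this
    have h2 : b ∘ₗ Φ1 ∘ₗ a = LinearMap.id := LinearMap.ext fun x => by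
      have h3 : Φ1 (a x) = x := congrArg Subtype.val (LinearMap.congr_fun ha x)
      rw [LinearMap.comp_apply, LinearMap.comp_apply, h3]
      exact LinearMap.congr_fun hb x
    rw [h2, LinearMap.det_id] at this
    exact zero_ne_one this
  refine (P.det.rootSet_finite k).subset fun t ht => ?_
  rw [mem_rootSet_of_ne h1, aeval_def, Algebra.algebraMap_self, eval₂_id, hP]
  by_contra h0
  have hi : Function.Injective (b ∘ₗ (∑ d ∈ Finset.range n, t ^ d • Φ d) ∘ₗ a) :=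
    LinearMap.ker_eq_bot.1 (by_contra fun h => h0 (LinearMap.det_eq_zero_iff_ker_ne_bot.2 h))
  have h3 : Function.Injective ((∑ d ∈ Finset.range n, t ^ d • Φ d).rangeRestrict ∘ₗ a) :=
    fun x y e => hi (congrArg (fun z => b z.1) e)
  exact (LinearMap.finrank_le_finrank_of_injective h3).not_gt ht

variable {L A : Type u} [Ring L] [Algebra k L] [Ring A] [Algebra k A]
  [FiniteDimensional k L] [FiniteDimensional k A]

namespace GA

variable (Γ : GA k A)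

/-- The twist of a module by `α t`. -/
abbrev tw (X : AM k A) (t : kˣ) : AM k A := X.res (Γ.α t : A →ₐ[k] A)

theorem tw_ρ (X : AM k A) (t : kˣ) (a : A) : (Γ.tw X t).ρ a = X.ρ (Γ.α t a) := rfl

theorem α_inv (t : kˣ) (a : A) : Γ.α t⁻¹ (Γ.α t a) = a := by
  rw [← AlgEquiv.mul_apply, ← map_mul, inv_mul_cancel, map_one, AlgEquiv.one_apply]

theorem α_inv' (t : kˣ) (a : A) : Γ.α t (Γ.α t⁻¹ a) = a := by
  rw [← AlgEquiv.mul_apply, ← map_mul, mul_inv_cancel, map_one, AlgEquiv.one_apply]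

theorem PHom_tw (X Y : AM k A) (t : kˣ) : Γ.C.PHom (Γ.tw X t) (Γ.tw Y t) = Γ.C.PHom X Y := by
  have h : ∀ f, Γ.C.Tr (Γ.tw X t) (Γ.tw Y t) f = (t : k) ^ Γ.s • Γ.C.Tr X Y f := fun f =>
    Γ.C.sum_aut (lr X Y f) (Γ.α t) (Γ.hτ t)
  refine le_antisymm ?_ ?_
  · rintro _ ⟨f, rfl⟩
    rw [h]
    exact Submodule.smul_mem _ _ ⟨f, rfl⟩
  · rintro _ ⟨f, rfl⟩
    refine ⟨((t : k) ^ Γ.s)⁻¹ • f, ?_⟩
    rw [h, map_smul, smul_inv_smul₀ (pow_ne_zero _ t.ne_zero)]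

variable {Γ}

theorem proj_tw {X : AM k A} (t : kˣ) : Γ.C.Proj (Γ.tw X t) ↔ Γ.C.Proj X := by
  rw [Proj, PHom_tw]; rfl

theorem pfree_tw {X : AM k A} (h : Γ.C.PFree X) (t : kˣ) : Γ.C.PFree (Γ.tw X t) :=
  fun I hI g hg hi => h (Γ.tw I t⁻¹) ((proj_tw _).2 hI) g (fun a x => by
    rw [tw_ρ, hg, tw_ρ, α_inv']) hi

variable (Γ)

theorem finite_PHom (Y X : AM k A) :
    {t : kˣ | finrank k (Γ.C.PHom Y (Γ.tw X t)) < finrank k (Γ.C.PHom Y X)}.Finite := by
  let Φ : ℕ → (Y.V →ₗ[k] X.V) →ₗ[k] (Y.V →ₗ[k] X.V) := fun d =>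
    { toFun := fun f => ∑ i, X.ρ (Γ.c d (Γ.C.a i)) ∘ₗ f ∘ₗ Y.ρ (Γ.C.b i)
      map_add' := fun f g => by ext; simp [Finset.sum_add_distrib]
      map_smul' := fun c f => by ext; simp [Finset.smul_sum] }
  have h : ∀ t : kˣ, ∑ d ∈ Finset.range (Γ.s + 1), (t : k) ^ d • Φ d = Γ.C.Tr Y (Γ.tw X t) := by
    intro t
    ext f y
    rw [Tr_apply]
    have h0 : ∀ i, (Γ.tw X t).ρ (Γ.C.a i) (f (Y.ρ (Γ.C.b i) y)) =
        ∑ d ∈ Finset.range (Γ.s + 1), (t : k) ^ d • X.ρ (Γ.c d (Γ.C.a i)) (f (Y.ρ (Γ.C.b i) y)) :=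
      fun i => by rw [tw_ρ, Γ.hc]; simp
    rw [Finset.sum_congr rfl fun i _ => h0 i, Finset.sum_comm]
    simp [Φ, Finset.smul_sum]
  have h1 : Γ.C.Tr Y (Γ.tw X 1) = Γ.C.Tr Y X := by
    ext f y
    simp [Tr_apply]
  refine ((finite_rank_lt (Γ.s + 1) Φ).preimage Units.val_injective.injOn).subset fun t ht => ?_
  have h2 := h 1
  rw [Units.val_one, h1] at h2
  change finrank k (LinearMap.range _) < finrank k (LinearMap.range _)
  rw [h, h2]
  exact ht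

theorem finite_Hom (Y X : AM k A) :
    {t : kˣ | finrank k (Hom Y X) < finrank k (Hom Y (Γ.tw X t))}.Finite := by
  let Ψ : k → (A →ₗ[k] A) → (Y.V →ₗ[k] X.V) →ₗ[k] (A →ₗ[k] Y.V →ₗ[k] X.V) := fun c m =>
    LinearMap.mk₂ k (fun f a => X.ρ (m a) ∘ₗ f - c • f ∘ₗ Y.ρ a)
      (fun _ _ _ => by ext; simp; abel) (fun _ _ _ => by ext; simp [smul_sub, smul_comm c])
      (fun _ _ _ => by ext; simp; abel) (fun _ _ _ => by ext; simp [smul_sub, smul_comm c])
  let Φ : ℕ → _ := fun d => Ψ (if d = 0 then 1 else 0) (Γ.c d)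
  have h : ∀ t : kˣ, LinearMap.ker (∑ d ∈ Finset.range (Γ.s + 1), (t : k) ^ d • Φ d) =
      Hom Y (Γ.tw X t) := by
    intro t
    have h0 : ∀ f a y, (∑ d ∈ Finset.range (Γ.s + 1), (t : k) ^ d • Φ d) f a y =
        X.ρ (Γ.α t a) (f y) - f (Y.ρ a y) := fun f a y => by
      have h1 : ∀ d, Φ d f a y =
          X.ρ (Γ.c d a) (f y) - (if d = 0 then (1 : k) else 0) • f (Y.ρ a y) := fun d => rfl
      simp [Γ.hc, h1, LinearMap.sum_apply, smul_sub, Finset.sum_sub_distrib]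
    ext f
    rw [LinearMap.mem_ker, mem_Hom]
    refine ⟨fun e a y => ?_, fun e => LinearMap.ext fun a => LinearMap.ext fun y => ?_⟩
    · have := h0 f a y
      rw [e] at this
      exact (sub_eq_zero.1 this.symm).symm
    · rw [h0, e, tw_ρ, sub_self]; rfl
  have h1 : Hom Y (Γ.tw X 1) = Hom Y X := by
    ext f
    simp [mem_Hom]
  refine ((finite_rank_lt (Γ.s + 1) Φ).preimage Units.val_injective.injOn).subset fun t ht => ?_
  have h2 := (∑ d ∈ Finset.range (Γ.s + 1), ((1 : kˣ) : k) ^ d • Φ d).finrank_range_add_finrank_ker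
  have h3 := (∑ d ∈ Finset.range (Γ.s + 1), (t : k) ^ d • Φ d).finrank_range_add_finrank_ker
  have h4 : finrank k (Hom Y X) < finrank k (Hom Y (Γ.tw X t)) := ht
  rw [← h1, ← h, ← h] at h4
  rw [Units.val_one] at h2 h4
  change finrank k (LinearMap.range _) < finrank k (LinearMap.range _)
  exact Nat.lt_of_add_lt_add_right ((Nat.add_lt_add_left h4 _).trans_eq (h3.trans h2.symm))

end GA

namespace SD

variable {D : BD k L A} {ι : Type*} (Sg : SD D ι) {Γ : GA k A} {CL : Cas k L} (h : D.SE CL Γ.C)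
include h

theorem exists_bij_of_le (j : ι) (hj : ¬ CL.Proj (Sg.S j)) {Z : AM k A} (hZ : Γ.C.PFree Z)
    (hZ' : ¬ Γ.C.Proj Z) (h0 : finrank k Z.V = finrank k (Sg.X Γ.C j).V)
    (h1 : finrank k (Hom D.W Z) ≤ finrank k (Hom D.W (Sg.X Γ.C j)))
    (h2 : ∀ i, finrank k (Γ.C.PHom (D.F (Sg.S i)) (Sg.X Γ.C j)) ≤
      finrank k (Γ.C.PHom (D.F (Sg.S i)) Z))
    (h3 : ∀ i, finrank k (Hom (D.F (Sg.S i)) Z) ≤ finrank k (Hom (D.F (Sg.S i)) (Sg.X Γ.C j))) :
    ∃ f ∈ Hom Z (Sg.X Γ.C j), Function.Bijective f := by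
  obtain ⟨Q0, R0, hQ0, hR0, ⟨S0⟩⟩ := exists_core (C := CL) (D.G (Sg.X Γ.C j))
  obtain ⟨Q, R, hQ, hR, ⟨S⟩⟩ := exists_core (C := CL) (D.G Z)
  obtain ⟨r, hr, hri⟩ := h.exists_emb (Sg.inn j) (Sg.sp Γ.C j).hi2 (Sg.sp Γ.C j).hp2
    (Sg.sp Γ.C j).c22 S0 hR0
  have a1 : finrank k Q0.V ≤ finrank k Q.V := hQ0.finrank_le hQ fun T hT ⟨t, ht, hti⟩ => by
    obtain ⟨i, g, hg, hg0⟩ := Sg.all T hT
      (((D.in_G _).of_injective S0.hi1 S0.i1_inj).of_injective ht hti)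
    obtain ⟨g', hg', e1, e2⟩ := exists_inv hg
      ⟨(Sg.simple i).injective hg hg0, hT.surjective hg hg0⟩
    have b : ∀ Y : AM k L, finrank k (Hom T Y) = finrank k (Hom (Sg.S i) Y) := fun Y =>
      LinearEquiv.finrank_eq
        { toFun := fun f => ⟨f.1 ∘ₗ g, comp_mem f.2 hg⟩
          invFun := fun f => ⟨f.1 ∘ₗ g', comp_mem f.2 hg'⟩
          map_add' := fun _ _ => rfl
          map_smul' := fun _ _ => rfl
          left_inv := fun f => Subtype.ext (by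
            change (f.1 ∘ₗ g) ∘ₗ g' = f.1
            rw [LinearMap.comp_assoc, e2, LinearMap.comp_id])
          right_inv := fun f => Subtype.ext (by
            change (f.1 ∘ₗ g') ∘ₗ g = f.1
            rw [LinearMap.comp_assoc, e1, LinearMap.comp_id]) }
    rw [b, b, ← finrank_PHom_core S0 hQ0 hR0 (Sg.simple i),
      ← finrank_PHom_core S hQ hR (Sg.simple i), ← h.finrank_PHom (Sg.inn i),
      ← h.finrank_PHom (Sg.inn i)]
    exact h2 i
  have a2 : finrank k (Hom D.W (Sg.X Γ.C j)) = _ := S0.finrank_eq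
  have a3 : finrank k (Hom D.W Z) = _ := S.finrank_eq
  have a4 := LinearMap.finrank_le_finrank_of_injective hri
  have a5 : 0 < finrank k R.V := Nat.pos_of_ne_zero fun e => hZ' <|
    h.proj_of_G (mem_of_i2 S hQ (id_mem _) ((proj_of_finrank_eq_zero e).mem_left S.hi2))
  obtain ⟨i, -, g, hg, hgi, hn⟩ := Sg.exists_not_mem h S hR a5
  have hε := comp_mem (D.ε_mem Z) (D.Fm_mem (comp_mem S.hi2 hg))
  obtain rfl : i = j := by
    by_contra hij
    have b1 : Γ.C.PHom (D.F (Sg.S i)) (Sg.X Γ.C j) = Hom _ _ := le_antisymm PHom_le fun f hf =>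
      mem_of_i2 (Sg.sp Γ.C i) (Sg.proj_Q Γ.C i) hf
        (Sg.mem_of_ne h hij (comp_mem hf (Sg.sp Γ.C i).hi2))
    have b2 : Γ.C.PHom (D.F (Sg.S i)) Z = Hom _ _ :=
      Submodule.eq_of_le_of_finrank_le PHom_le ((h3 i).trans (b1 ▸ h2 i))
    exact hn (comp_right (b2 ▸ hε) (Sg.sp Γ.C i).hi2)
  have a6 := LinearMap.finrank_le_finrank_of_injective hgi
  obtain ⟨g', hg', -, e2⟩ := exists_inv hg
    ⟨hgi, (LinearMap.injective_iff_surjective_of_finrank_eq_finrank (by omega)).1 hgi⟩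
  obtain ⟨η, hη, b1⟩ := h.unit Z
  have hb := comp_mem (D.Fm_mem (comp_mem hg' S.hp2)) hη
  have b2 := comp_left (D.ε_mem Z) (comp_right (h.Fp _ _ _ (id_sub_mem S hQ)) hη)
  have b3 := comp_left hε (comp_right (id_sub_mem (Sg.sp Γ.C i) (Sg.proj_Q Γ.C i)) hb)
  have b4 : S.i2 ∘ₗ S.p2 = (S.i2 ∘ₗ g) ∘ₗ g' ∘ₗ S.p2 := by
    rw [LinearMap.comp_assoc, ← LinearMap.comp_assoc _ g' g, e2, LinearMap.id_comp]
  rw [D.Fm_sub, D.Fm_id, b4, D.Fm_comp _ (comp_mem hg' S.hp2)] at b2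
  have b5 := hZ.injective (comp_mem (comp_mem hε (Sg.sp Γ.C i).hi2)
    (comp_mem (Sg.sp Γ.C i).hp2 hb)) (by
      convert add_mem (add_mem b1 b2) b3 using 1
      ext x
      simp)
  have b6 : Function.Injective ((Sg.sp Γ.C i).p2 ∘ₗ D.Fm (g' ∘ₗ S.p2) ∘ₗ η) :=
    fun x y e => b5 (congrArg (fun z => D.ε Z (D.Fm (S.i2 ∘ₗ g) ((Sg.sp Γ.C i).i2 z))) e)
  exact ⟨_, comp_mem (Sg.sp Γ.C i).hp2 hb, b6,
    (LinearMap.injective_iff_surjective_of_finrank_eq_finrank h0).1 b6⟩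

/-- The image of a simple module is isomorphic to almost all of its twists. -/
theorem finite_not_bij [Finite ι] (j : ι) (hj : ¬ CL.Proj (Sg.S j)) :
    {t : kˣ | ¬ ∃ f ∈ Hom (Sg.X Γ.C j) (Γ.tw (Sg.X Γ.C j) t), Function.Bijective f}.Finite := by
  refine ((Γ.finite_Hom D.W (Sg.X Γ.C j)).union ((Set.finite_iUnion fun i =>
    Γ.finite_PHom (D.F (Sg.S i)) (Sg.X Γ.C j)).union (Set.finite_iUnion fun i =>
    Γ.finite_Hom (D.F (Sg.S i)) (Sg.X Γ.C j)))).subset fun t ht => ?_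
  by_contra hn
  simp only [Set.mem_union, Set.mem_iUnion, Set.mem_ofPred_eq, not_or, not_exists, not_lt] at hn
  obtain ⟨f, hf, hb⟩ := Sg.exists_bij_of_le h j hj (GA.pfree_tw (Sg.pfree_X Γ.C j) t)
    (fun e => Sg.nproj_X h hj ((GA.proj_tw t).1 e)) rfl hn.1 hn.2.1 hn.2.2
  obtain ⟨g, hg, e1, e2⟩ := exists_inv hf hb
  exact ht ⟨g, hg, Function.bijective_iff_has_inverse.2
    ⟨f, LinearMap.congr_fun e2, LinearMap.congr_fun e1⟩⟩

end SD

end GB
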