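import Cfsg.Agent.Lib.Block.GBCore
import Mathlib.LinearAlgebra.Matrix.Rank

/-!
# The simple modules and projective indecomposables from a Wedderburn decomposition
-/

set_option autoImplicit false
set_option linter.unusedSectionVars false

namespace GB

open Module AM Cas Matrix

universe u

variable {k : Type} [Field k] {L A : Type u} [Ring L] [Algebra k L] [Ring A] [Algebra k A]

/-- The left ideal `L ε`. -/
@[reducible] def AM.lid [FiniteDimensional k L] (ε : L) : AM k L where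
  V := LinearMap.ker (LinearMap.mulRight k ε - LinearMap.id)
  ρ := AlgHom.ofLinearMap
    { toFun := fun a => (LinearMap.mulLeft k a).restrict fun x hx => by
        have h : x * ε - x = 0 := hx
        change a * x * ε - a * x = 0
        rw [mul_assoc, ← mul_sub, h, mul_zero]
      map_add' := fun a b => by ext x; simp [add_mul]
      map_smul' := fun c a => by ext x; simp }
    (by ext x; simp) (fun a b => by ext x; simp)

section Lid

variable [FiniteDimensional k L] {ε : L}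

theorem lid_ρ (a : L) (x : (lid ε : AM k L).V) : (((lid ε : AM k L).ρ a x).1 : L) = a * x.1 := rfl

theorem lid_mul (x : (lid ε : AM k L).V) : x.1 * ε = x.1 := sub_eq_zero.1 x.2

theorem proj_lid (C : Cas k L) (hε : ε * ε = ε) : C.Proj (lid ε) := by
  refine ⟨(C.τ ∘ₗ Submodule.subtype _).smulRight ⟨ε, sub_eq_zero.2 hε⟩,
    LinearMap.ext fun x => Subtype.ext ?_⟩
  rw [Tr_apply, Submodule.coe_sum]
  change ∑ i, C.a i * (C.τ (C.b i * x.1) • ε) = x.1
  simp only [mul_smul_comm, ← smul_mul_assoc]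
  rw [← Finset.sum_mul, C.d1, lid_mul]

/-- `Hom (L ε, V) = ε V`. -/
noncomputable def lidEquiv (hε : ε * ε = ε) (V : AM k L) :
    Hom (lid ε) V ≃ₗ[k] LinearMap.range (V.ρ ε) where
  toFun f := ⟨f.1 ⟨ε, sub_eq_zero.2 hε⟩, f.1 ⟨ε, sub_eq_zero.2 hε⟩, by
    rw [← f.2]; exact congrArg f.1 (Subtype.ext hε)⟩
  invFun v := ⟨(LinearMap.applyₗ v.1 ∘ₗ V.ρ.toLinearMap) ∘ₗ Submodule.subtype _,
    fun a x => V.ρ_mul a x.1 v.1⟩
  map_add' _ _ := rfl
  map_smul' _ _ := rfl
  left_inv f := Subtype.ext (LinearMap.ext fun x => by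
    change V.ρ x.1 (f.1 _) = f.1 x
    rw [← f.2]; exact congrArg f.1 (Subtype.ext (lid_mul x)))
  right_inv := by
    rintro ⟨_, v, rfl⟩
    refine Subtype.ext ?_
    change V.ρ ε (V.ρ ε v) = V.ρ ε v
    rw [← ρ_mul, hε]

theorem finrank_Hom_lid (hε : ε * ε = ε) (V : AM k L) :
    finrank k (Hom (lid ε) V) = finrank k (LinearMap.range (V.ρ ε)) := (lidEquiv hε V).finrank_eq

end Lid

variable (k L) in
/-- A Wedderburn decomposition of the quotient by the radical. -/
structure WD where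
  N : ℕ
  n : Fin N → ℕ
  [nz : ∀ i, NeZero (n i)]
  ρ : L →ₐ[k] Π i : Fin N, Matrix (Fin (n i)) (Fin (n i)) k
  surj : Function.Surjective ρ
  nil : ∀ a, ρ a = 0 → IsNilpotent a

attribute [instance] WD.nz

namespace WD

variable (W : WD k L)

/-- The `i`-th simple module. -/
@[reducible] noncomputable def S (i : Fin W.N) : AM k L where
  V := ULift.{u} (Fin (W.n i) → k)
  fd := Module.Finite.equiv ULift.moduleEquiv.symm
  ρ := AlgHom.ofLinearMap
    { toFun := fun a => ULift.moduleEquiv.symm.toLinearMap ∘ₗ (W.ρ a i).mulVecLin ∘ₗ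
        ULift.moduleEquiv.toLinearMap
      map_add' := fun a b => LinearMap.ext fun x => ULift.ext _ _ (by simp)
      map_smul' := fun c a => LinearMap.ext fun x => ULift.ext _ _ (by simp) }
    (LinearMap.ext fun x => ULift.ext _ _ (by simp))
    (fun a b => LinearMap.ext fun x => ULift.ext _ _ (by simp))

theorem S_ρ (i : Fin W.N) (a : L) (x : (W.S i).V) : ((W.S i).ρ a x).down = W.ρ a i *ᵥ x.down := rfl

theorem exists_ρ (i : Fin W.N) (m : Matrix (Fin (W.n i)) (Fin (W.n i)) k) :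
    ∃ a, W.ρ a = Pi.single i m := W.surj _

theorem exists_ρ_eq (i : Fin W.N) {x : (W.S i).V} (hx : x ≠ 0) (y : (W.S i).V) :
    ∃ a, (W.S i).ρ a x = y ∧ ∀ j, j ≠ i → W.ρ a j = 0 := by
  obtain ⟨c, hc⟩ : ∃ c, x.down c ≠ 0 := by
    by_contra h
    push Not at h
    exact hx (ULift.ext _ _ (funext h))
  obtain ⟨a, ha⟩ := W.exists_ρ i (vecMulVec y.down (Pi.single c (x.down c)⁻¹))
  refine ⟨a, ULift.ext _ _ ?_, fun j hj => by rw [ha, Pi.single_eq_of_ne hj]⟩
  rw [S_ρ, ha, Pi.single_eq_same, vecMulVec_mulVec]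
  simp [hc]

theorem simple (i : Fin W.N) : (W.S i).Simple := by
  refine ⟨inferInstanceAs (Nontrivial (ULift (Fin (W.n i) → k))), fun U hU => ?_⟩
  refine or_iff_not_imp_left.2 fun h => eq_top_iff.2 fun y _ => ?_
  obtain ⟨x, hx, h0⟩ := Submodule.exists_mem_ne_zero_of_ne_bot h
  obtain ⟨a, ha, -⟩ := W.exists_ρ_eq i h0 y
  exact ha ▸ hU a x hx

theorem ne {i j : Fin W.N} (hij : i ≠ j) {g : (W.S i).V →ₗ[k] (W.S j).V}
    (hg : g ∈ Hom (W.S i) (W.S j)) : g = 0 := LinearMap.ext fun x => by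
  obtain ⟨a, ha⟩ := W.exists_ρ i 1
  have h1 : (W.S i).ρ a x = x := ULift.ext _ _ (by rw [S_ρ, ha, Pi.single_eq_same, one_mulVec])
  rw [← h1, hg]
  exact ULift.ext _ _ (by rw [S_ρ, ha, Pi.single_eq_of_ne hij.symm, zero_mulVec]; rfl)

theorem schur (i : Fin W.N) {g : (W.S i).V →ₗ[k] (W.S i).V} (hg : g ∈ Hom (W.S i) (W.S i)) :
    ∃ c : k, g = c • LinearMap.id := by
  let x : (W.S i).V := ULift.up (Pi.single 0 1)
  refine ⟨(g x).down 0, LinearMap.ext fun y => ?_⟩
  obtain ⟨a, ha⟩ := W.exists_ρ i (vecMulVec y.down (Pi.single 0 1))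
  have h1 : ∀ z : (W.S i).V, (W.S i).ρ a z = z.down 0 • y := fun z => ULift.ext _ _ (by
    rw [S_ρ, ha, Pi.single_eq_same, vecMulVec_mulVec]
    simp)
  have h2 := hg a x
  rw [h1, h1] at h2
  simpa [x] using h2

theorem ρ_eq_zero {T : AM k L} (hT : T.Simple) {a : L} (ha : W.ρ a = 0) (x : T.V) :
    T.ρ a x = 0 := by
  by_contra h0
  let φ : L →ₗ[k] T.V := LinearMap.applyₗ (T.ρ a x) ∘ₗ T.ρ.toLinearMap
  have h1 : LinearMap.range φ = ⊤ :=
    (hT.2 _ (by rintro b _ ⟨c, rfl⟩; exact ⟨b * c, T.ρ_mul b c _⟩)).resolve_left fun e =>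
      h0 ((Submodule.eq_bot_iff _).1 e _ ⟨1, by simp [φ]⟩)
  obtain ⟨b, hb⟩ := LinearMap.range_eq_top.1 h1 x
  obtain ⟨m, hm⟩ := W.nil (b * a) (by rw [map_mul, ha, mul_zero])
  have h2 : ∀ m : ℕ, T.ρ ((b * a) ^ m) x = x := fun m => by
    induction m with
    | zero => simp
    | succ m ih => rw [pow_succ, ρ_mul, ρ_mul, show T.ρ b (T.ρ a x) = x from hb, ih]
  have h3 := h2 m
  rw [hm, map_zero, LinearMap.zero_apply] at h3
  exact h0 (by rw [← h3, map_zero])

theorem all {T : AM k L} (hT : T.Simple) : ∃ i, ∃ g ∈ Hom (W.S i) T, g ≠ 0 := by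
  obtain ⟨σ, hσ⟩ := W.ρ.toLinearMap.exists_rightInverse_of_surjective
    (LinearMap.range_eq_top.2 W.surj)
  have hσ' : ∀ m, W.ρ (σ m) = m := LinearMap.congr_fun hσ
  have hc : ∀ a b x, W.ρ a = W.ρ b → T.ρ a x = T.ρ b x := fun a b x e => by
    have := W.ρ_eq_zero hT (a := a - b) (by rw [map_sub, e, sub_self]) x
    rwa [map_sub, LinearMap.sub_apply, sub_eq_zero] at this
  have := hT.1
  obtain ⟨x, hx⟩ := exists_ne (0 : T.V)
  let g : ∀ i, Fin (W.n i) → (W.S i).V →ₗ[k] T.V := fun i c =>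
    (LinearMap.applyₗ x ∘ₗ T.ρ.toLinearMap) ∘ₗ σ ∘ₗ LinearMap.single k _ i ∘ₗ
      (vecMulVecBilin k k).flip (Pi.single c 1) ∘ₗ ULift.moduleEquiv.toLinearMap
  have hg : ∀ i c v, g i c v = T.ρ (σ (Pi.single i (vecMulVec v.down (Pi.single c 1)))) x :=
    fun _ _ _ => rfl
  by_contra h
  push Not at h
  have h0 : ∀ i c, g i c = 0 := fun i c => h i _ fun a v => by
    rw [hg, hg, ← ρ_mul]
    refine hc _ _ _ ?_
    rw [map_mul, hσ', hσ', S_ρ, ← mul_vecMulVec]
    ext1 j
    rcases eq_or_ne j i with rfl | hj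
    · simp
    · simp [Pi.single_eq_of_ne hj]
  have h1 : x = ∑ i, ∑ c, g i c (ULift.up (Pi.single c 1)) := by
    simp only [hg]
    have h2 := hc 1 (∑ i, ∑ c, σ (Pi.single i (vecMulVec (Pi.single c 1) (Pi.single c 1)))) x (by
      simp only [map_sum, hσ', map_one]
      ext j a b
      rw [Finset.sum_apply, Finset.sum_eq_single j (fun i _ hi => by
        simp [Finset.sum_apply, Pi.single_eq_of_ne hi.symm]) (by simp)]
      simp [Finset.sum_apply, Matrix.sum_apply, vecMulVec_apply, Pi.single_apply, one_apply])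
    simpa using h2
  simp [h0] at h1
  exact hx h1

theorem finrank_range (i : Fin W.N) (a : L) :
    finrank k (LinearMap.range ((W.S i).ρ a)) = (W.ρ a i).rank := by
  change finrank k (LinearMap.range (ULift.moduleEquiv.symm.toLinearMap ∘ₗ (W.ρ a i).mulVecLin ∘ₗ
    ULift.moduleEquiv.toLinearMap)) = _
  rw [LinearMap.range_comp, LinearEquiv.finrank_map_eq, LinearMap.range_comp, LinearEquiv.range,
    Submodule.map_top]
  rfl

theorem in_iff {D : BD k L A} (i : Fin W.N) : D.In (W.S i) ↔ W.ρ D.e i = 1 := by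
  refine ⟨fun h => ?_, fun h x => ULift.ext _ _ (by rw [S_ρ, h, one_mulVec])⟩
  refine Matrix.toLin'.injective (LinearMap.ext fun v => ?_)
  simpa using congrArg ULift.down (h (ULift.up v))

variable [FiniteDimensional k L] [FiniteDimensional k A]

/-- The simple modules of the block. -/
noncomputable def sd (D : BD k L A) : SD D {i // W.ρ D.e i = 1} where
  S i := W.S i
  inn i := (W.in_iff i.1).2 i.2
  simple i := W.simple i
  schur i _ hg := W.schur i hg
  ne _ _ hij _ hg := W.ne (fun e => hij (Subtype.ext e)) hg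
  all T hT hi := by
    obtain ⟨i, g, hg, h0⟩ := W.all hT
    exact ⟨⟨i, (W.in_iff i).1 (hi.of_injective hg ((W.simple i).injective hg h0))⟩, g, hg, h0⟩

theorem finrank_Hom_lid_S {ε : L} (hε : ε * ε = ε) {i : Fin W.N}
    (h : W.ρ ε = Pi.single i (Matrix.single 0 0 1)) (j : Fin W.N) :
    finrank k (Hom (lid ε) (W.S j)) = if j = i then 1 else 0 := by
  rw [finrank_Hom_lid hε, finrank_range, h]
  split_ifs with e
  · subst e
    rw [Pi.single_eq_same]
    refine le_antisymm ?_ (Nat.pos_of_ne_zero fun e => ?_)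
    · rw [Matrix.single_eq_single_vecMulVec_single]
      exact rank_vecMulVec_le _ _
    · have h1 : (Matrix.single 0 0 1 : Matrix (Fin (W.n j)) (Fin (W.n j)) k).mulVecLin = 0 :=
        LinearMap.range_eq_bot.1 (Submodule.finrank_eq_zero.1 e)
      simpa using congrFun (LinearMap.congr_fun h1 (Pi.single 0 1)) 0
  · rw [Pi.single_eq_of_ne e, rank_zero]

end WD

end GB
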