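import Cfsg.Agent.Lib.Block.GBCart
import Cfsg.Agent.Lib.Block.GBWed
import Cfsg.Agent.Lib.Block.GBTw
import Cfsg.Agent.Lib.Block.GBGap
import Cfsg.Agent.Lib.Block.GBGrSig
import Cfsg.Agent.Lib.Block.GBGrp
import Cfsg.Agent.Lib.Block.IBr

/-!
# The graded family attached to a block with a stable equivalence
-/

set_option autoImplicit false
set_option linter.unusedSectionVars false

namespace GB

open Module AM Cas

universe u

/-- The cores of the images of the non-projective simple modules are gradable. -/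
theorem SD.exists_gm {k : Type} [Field k] [IsAlgClosed k] {L A : Type u} [Ring L] [Algebra k L]
    [Ring A] [Algebra k A] [FiniteDimensional k L] [FiniteDimensional k A] {D : BD k L A}
    {ι : Type*} [Finite ι] (Sg : SD D ι) {Γ : GA k A} {CL : Cas k L} (h : D.SE CL Γ.C) :
    ∃ X : {j // ¬ CL.Proj (Sg.S j)} → GM Γ, (∀ j, (X j).toAM = Sg.X Γ.C j.1) ∧
      XD Γ.C (fun j => (X j).toAM) fun Z => CL.cd (D.G Z) := by
  choose X hX using fun j : {j // ¬ CL.Proj (Sg.S j)} =>
    exists_gm_of_twist Γ (Sg.X Γ.C j.1) (Sg.finite_not_bij h j.1 j.2) fun t ht => not_not.1 ht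
  exact ⟨X, hX, by rw [funext hX]; exact Sg.xd h⟩

theorem XD.comp {k : Type} [Field k] {A : Type u} [Ring A] [Algebra k A] {C : Cas k A}
    {ι κ : Type*} {X : ι → AM k A} {cd : AM k A → ℕ} (h : XD C X cd) (e : κ ≃ ι) :
    XD C (fun j => X (e j)) cd :=
  ⟨fun _ => h.pfree _, fun _ => h.nproj _, fun _ _ hij => h.ne _ _ (e.injective.ne hij),
    fun _ => h.schur _, h.zero, fun Z hZ => by
      obtain ⟨j, hj⟩ := h.pos Z hZ
      obtain ⟨j, rfl⟩ := e.surjective j
      exact ⟨j, hj⟩, fun _ => h.lt _⟩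

end GB

namespace BT

open Cfsg CT GB Module GB.AM
open scoped MonoidAlgebra

attribute [local irreducible] instFieldResF

universe u

variable {p : ℕ} [Fact p.Prime] {M : Ideal AlgInt} {hM : IsPModular p M} {G : Type u} [Group G]
  [Finite G]

/-- The matrix of `x ↦ e x f`. -/
noncomputable def corMat {R : Type*} [CommRing R] (e f : R[G]) : Matrix G G R :=
  fun x y => (e * MonoidAlgebra.single y 1 * f).coeff x

theorem corMat_eq {R : Type*} [CommRing R] [Fintype G] [DecidableEq G] (e f : R[G]) :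
    corMat e f = LinearMap.toMatrix (MonoidAlgebra.basis G R) (MonoidAlgebra.basis G R)
      (LinearMap.mulRight R f ∘ₗ LinearMap.mulLeft R e) := by
  ext x y
  rw [LinearMap.toMatrix_apply]
  rfl

theorem finrank_Hom_lid_redA {e f : ℂ[G]} (he : IsInt hM e) (hf : IsInt hM f) (hee : e * e = e)
    (hff : f * f = f) :
    (finrank (ResF hM) (Hom (lid (redA hM e) : AM (ResF hM) _) (lid (redA hM f))) : ℂ) =
      ip (idemChar f) (idemChar e) := by
  classical
  have := Fintype.ofFinite G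
  have hi : ∀ y : G, IsInt hM (MonoidAlgebra.single y (1 : ℂ)) := fun y x => by
    rw [MonoidAlgebra.coeff_single, Finsupp.single_apply]
    split_ifs
    · exact one_mem _
    · exact zero_mem _
  have h1 : corMat e f * corMat e f = corMat e f := by
    rw [corMat_eq, ← LinearMap.toMatrix_mul]
    congr 1
    refine LinearMap.ext fun x => ?_
    change e * (e * x * f) * f = e * x * f
    rw [← mul_assoc, ← mul_assoc, hee, mul_assoc, hff]
  have h2 : (corMat e f).map (red hM) = corMat (redA hM e) (redA hM f) := by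
    ext x y
    rw [corMat, ← red_one hM, ← redA_single, ← redA_mul hM he (hi y),
      ← redA_mul hM (he.mul hM (hi y)) hf]
    rfl
  have h3 := rank_map_red_of_idem hM (E := corMat e f) (fun x y => (he.mul hM (hi y)).mul hM hf x) h1
  have h4 : (corMat e f).trace = ip (idemChar f) (idemChar e) := by
    rw [ip_idemChar_right (isClassFunction_idemChar f) hee, ev_eq_sum]
    simp only [idemChar_apply, Finset.mul_sum]
    rw [Finset.sum_comm]
    refine Finset.sum_congr rfl fun x _ => ?_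
    rw [Matrix.diag_apply, corMat, mul_assoc, coeff_mul_eq_sum]
    refine Finset.sum_congr rfl fun a _ => ?_
    rw [MonoidAlgebra.coeff_single_mul_apply, one_mul, mul_assoc]
  rw [← h4, trace_eq_rank_of_idem h1, ← h3, h2, corMat_eq,
    Matrix.rank_eq_finrank_range_toLin _ (MonoidAlgebra.basis G _) (MonoidAlgebra.basis G _),
    Matrix.toLin_toMatrix, finrank_Hom_lid (by rw [← redA_mul hM he he, hee]),
    ← Submodule.finrank_map_subtype_eq]
  refine congrArg (fun S : Submodule (ResF hM) (ResF hM)[G] => (finrank (ResF hM) S : ℂ)) ?_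
  have h5 : redA hM f * redA hM f = redA hM f := by rw [← redA_mul hM hf hf, hff]
  refine le_antisymm ?_ ?_
  · rintro _ ⟨_, ⟨x, rfl⟩, rfl⟩
    exact ⟨x.1, (mul_assoc _ _ _).trans (congrArg _ (lid_mul x))⟩
  · rintro _ ⟨x, rfl⟩
    exact ⟨_, ⟨⟨x * redA hM f, sub_eq_zero.2 ((mul_assoc _ _ _).trans (congrArg _ h5))⟩, rfl⟩,
      (mul_assoc _ _ _).symm⟩

namespace Wed

variable (W : Wed hM G)

/-- The underlying Wedderburn data. -/
@[reducible] noncomputable def wd : WD (ResF hM) (ResF hM)[G] := ⟨W.N, W.n, W.ρ, W.surj, W.nil⟩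

/-- The projective indecomposable modules. -/
@[reducible] noncomputable def pim (i : Fin W.N) : AM (ResF hM) (ResF hM)[G] :=
  lid (redA hM (setIdem (W.blk i) * W.e i))

theorem be_int (i : Fin W.N) : IsInt hM (setIdem (W.blk i) * W.e i) :=
  (isInt_setIdem hM (W.isPBlock_blk i)).mul hM (W.e_int i)

theorem be_idem (i : Fin W.N) :
    setIdem (W.blk i) * W.e i * (setIdem (W.blk i) * W.e i) = setIdem (W.blk i) * W.e i := by
  rw [mul_assoc, ← mul_assoc (W.e i), ← (isCentral_iff_commute.1 (isCentral_setIdem _) _).eq, mul_assoc, W.e_idem,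
    ← mul_assoc, setIdem_mul, Set.inter_self]

theorem finrank_Hom_pim (i j : Fin W.N) :
    finrank (ResF hM) (Hom (W.pim i) (W.pim j)) = ∑ χ, W.d χ i * W.d χ j := by
  have h := finrank_Hom_lid_redA (W.be_int i) (W.be_int j) (W.be_idem i) (W.be_idem j)
  rw [idemChar_setIdem_mul, idemChar_setIdem_mul] at h
  change _ = ip (blockPart _ (W.Φ j)) (blockPart _ (W.Φ i)) at h
  rw [W.blockPart_Φ, W.blockPart_Φ, W.Φ_eq_sum j, ip_sum_left] at h
  simp only [ip_smul_left, W.ip_irr_Φ] at h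
  exact_mod_cast h.trans (Finset.sum_congr rfl fun _ _ => mul_comm _ _)

variable {A : Type u} [Ring A] [Algebra (ResF hM) A] [FiniteDimensional (ResF hM) A]
  {B : Set (IrrCharacter G)} (hB : IsPBlock M B) {D : BD (ResF hM) (ResF hM)[G] A}
  (hD : D.e = idem hM B)

/-- The simple modules of the block. -/
noncomputable def sd : SD D {i // W.blk i = B} where
  S i := W.wd.S i.1
  inn i := (W.wd.in_iff i.1).2 (hD ▸ (W.blk_eq_iff' hB).1 i.2)
  simple i := W.wd.simple i.1
  schur i _ hg := W.wd.schur i.1 hg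
  ne _ _ hij _ hg := W.wd.ne (fun e => hij (Subtype.ext e)) hg
  all T hT hi := by
    obtain ⟨i, h⟩ := (W.wd.sd D).all T hT hi
    exact ⟨⟨i.1, (W.blk_eq_iff' hB).2 (hD ▸ i.2)⟩, h⟩

theorem sp (CL : Cas (ResF hM) (ResF hM)[G]) :
    CL.SP D.In (W.sd hB hD).S fun i => W.pim i.1 := by
  have h1 : ∀ i, redA hM (setIdem (W.blk i) * W.e i) * redA hM (setIdem (W.blk i) * W.e i) =
      redA hM (setIdem (W.blk i) * W.e i) := fun i => by
    rw [← redA_mul hM (W.be_int i) (W.be_int i), W.be_idem]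
  have h2 : ∀ i, redA hM (setIdem (W.blk i) * W.e i) = idem hM (W.blk i) * redA hM (W.e i) :=
    fun i => redA_mul hM (isInt_setIdem hM (W.isPBlock_blk i)) (W.e_int i)
  refine (W.sd hB hD).spOf (fun i => proj_lid CL (h1 i)) (fun i x => Subtype.ext ?_) fun i j => ?_
  · have h3 := (lid_mul x).symm.trans (congrArg (x.1 * ·) ((h2 i).trans
      (congrArg (fun B => idem hM B * redA hM (W.e i.1)) i.2)))
    rw [lid_ρ, hD, h3, ← mul_assoc, (isCentral_iff_commute.1 (isCentral_idem hM B) _).eq,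
      mul_assoc, ← mul_assoc (idem hM B), idem_mul_self hM hB]
  · refine (W.wd.finrank_Hom_lid_S (h1 i) (i := i.1) ?_ j.1).trans (by
      by_cases e : j = i
      · rw [if_pos e, if_pos (congrArg Subtype.val e)]
      · rw [if_neg e, if_neg fun e' => e (Subtype.ext e')])
    change W.ρ _ = _
    rw [h2, map_mul, W.ρ_e, ← Pi.single_mul_right, W.ρ_idem_blk, one_mul]

end Wed

variable {A : Type u} [Ring A] [Algebra (ResF hM) A] [FiniteDimensional (ResF hM) A]
  {B : Set (IrrCharacter G)} (hB : IsPBlock M B) {D : BD (ResF hM) (ResF hM)[G] A}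
  (hD : D.e = idem hM B) {Γ : GA (ResF hM) A} {CL : Cas (ResF hM) (ResF hM)[G]}
  (h : D.SE CL Γ.C) {ι : Type*} [Fintype ι] [DecidableEq ι] (Pd : PD Γ ι)
include hB hD h

/-- The signature bound for the number of simple modules. -/
theorem finrank_le_blockRank (h0 : GBS.PosOn (Pd.HA 0) ⊤) {θ : ℝ} {U : Submodule ℂ (ι → ℂ)}
    (hU : ∀ x ∈ U, GBS.qf (Pd.HA θ) x ≤ 0) : finrank ℂ U ≤ blockRank p B := by
  classical
  obtain ⟨W⟩ := exists_wed hM G
  obtain ⟨X, -, hX⟩ := (W.sd hB hD).exists_gm h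
  refine (Pd.finrank_le_card hX h0 hU).trans ?_
  rw [← W.card_blk hB, Nat.card_eq_fintype_card]
  exact Fintype.card_subtype_le _

/-- The determinant condition for an even Cartan matrix. -/
theorem four_dvd_det_sub (hs : Γ.s = 2) {u : G} (hu : p ∣ orderOf u)
    (ho : ∀ χ ∈ B, ∃ n : ℤ, Odd n ∧ χ.1 u = n) {d₁ d₂ : ℤ} (h1 : (Pd.HA 0).det = d₁)
    (h2 : (Pd.HA (Real.pi / 4)).det = d₂) (hd : Odd d₁) : 4 ∣ d₁ - d₂ := by
  classical
  obtain ⟨W⟩ := exists_wed hM G
  have he : ∀ i : {i // W.blk i = B}, Even (finrank (ResF hM) (Hom (W.pim i) (W.pim i))) :=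
    fun i => by
    choose! n hn hn' using ho
    have h3 := W.Φ_apply_of_dvd i.1 hu
    rw [W.Φ_eq_sum, Finset.sum_apply, Finset.sum_congr rfl (g := fun χ => ((W.d χ i * n χ : ℤ) : ℂ))
      fun χ _ => by
        by_cases hχ : χ ∈ B
        · simp [hn' χ hχ]
        · simp [W.d_eq_zero_of_not_mem (i.2.symm ▸ hχ)], ← Int.cast_sum, Int.cast_eq_zero] at h3
    rw [W.finrank_Hom_pim, ← Int.even_coe_nat, ← sub_zero (Nat.cast _), ← h3, Nat.cast_sum,
      ← Finset.sum_sub_distrib]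
    refine Finset.even_sum _ fun χ _ => ?_
    by_cases hχ : χ ∈ B
    · obtain ⟨m, hm⟩ := hn χ hχ
      obtain ⟨r, hr⟩ := Int.even_mul_pred_self (W.d χ i : ℤ)
      exact ⟨r - W.d χ i * m, by rw [hm, Nat.cast_mul]; linear_combination hr⟩
    · simp [W.d_eq_zero_of_not_mem (i.2.symm ▸ hχ)]
  have hn : ∀ j, ¬ CL.Proj ((W.sd hB hD).S j) := fun j hj => by
    have h3 := he j
    rw [(W.sp hB hD CL).finrank_End_of_proj hj] at h3
    exact Nat.not_even_one h3
  obtain ⟨X, hX1, hX⟩ := (W.sd hB hD).exists_gm h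
  obtain ⟨y, e1, e2⟩ := (W.sd hB hD).cartan h Pd.sp (W.sp hB hD CL) hn
  rw [show (W.sd hB hD).X Γ.C = fun j => (X ⟨j, hn j⟩).toAM from
    funext fun j => (hX1 ⟨j, hn j⟩).symm] at e1 e2
  refine Pd.det_mod_four' (X := fun j => X ⟨j, hn j⟩) (hX.comp (Equiv.subtypeUnivEquiv hn).symm)
    hs (N := Matrix.of fun i j => finrank (ResF hM) (Hom (W.pim i.1) (W.pim j.1)))
    (Y := Matrix.of y) (Matrix.ext fun a i => ?_) (Matrix.ext fun j i => ?_)
    (fun j => (Int.even_coe_nat _).2 (he j)) h1 h2 hd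
  · exact e1 a i
  · exact (e2 j i).trans ((add_comm _ _).trans (by rw [Matrix.add_apply, Matrix.one_apply]; rfl))

end BT

namespace BT

open Cfsg CT GB Module Subgroup
open scoped MonoidAlgebra

attribute [local irreducible] instFieldResF

universe u

variable {p : ℕ} [Fact p.Prime] {M : Ideal AlgInt} (hM : IsPModular p M) {G H : Type u} [Group G]
  [Finite G] [Group H] [Finite H] (P : Sylow p G) (hP1 : (P : Subgroup G) ≠ ⊥)
  (hab : ∀ x ∈ (P : Subgroup G), ∀ y ∈ (P : Subgroup G), Commute x y)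
  (hnil : ∀ u ∈ (P : Subgroup G), u ≠ 1 → HasNormalPComplement p (centralizer ({u} : Set G)))
  (π : normalizer ((P : Subgroup G) : Set G) →* H) (hπ : Function.Surjective π)
  (hker : ∀ n, π n = 1 ↔ (n : G) ∈ centralizer ((P : Subgroup G) : Set G) ∧ ¬ p ∣ orderOf (n : G))
  {Γ : GA (ResF hM) (ResF hM)[H]} {ι : Type*} [Fintype ι] [DecidableEq ι] (Pd : PD Γ ι)
include hP1 hab hnil hπ hker

theorem gb_bound (h0 : GBS.PosOn (Pd.HA 0) ⊤) {θ : ℝ} {U : Submodule ℂ (ι → ℂ)}
    (hU : ∀ x ∈ U, GBS.qf (Pd.HA θ) x ≤ 0) : finrank ℂ U ≤ blockRank p (principalBlock M G) := by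
  obtain ⟨D, hD, -, -, h⟩ := exists_bd hM P hP1 hab hnil π hπ hker
  exact finrank_le_blockRank isPBlock_principalBlock hD (h (gCas _ G) Γ.C) Pd h0 hU

theorem gb_four_dvd (hs : Γ.s = 2) {u : G} (hu : p ∣ orderOf u)
    (ho : ∀ χ ∈ principalBlock M G, ∃ n : ℤ, Odd n ∧ χ.1 u = n) {d₁ d₂ : ℤ}
    (h1 : (Pd.HA 0).det = d₁) (h2 : (Pd.HA (Real.pi / 4)).det = d₂) (hd : Odd d₁) :
    4 ∣ d₁ - d₂ := by
  obtain ⟨D, hD, -, -, h⟩ := exists_bd hM P hP1 hab hnil π hπ hker
  exact four_dvd_det_sub isPBlock_principalBlock hD (h (gCas _ G) Γ.C) Pd hs hu ho h1 h2 hd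

end BT
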