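import Mathlib.LinearAlgebra.Trace
import Mathlib.LinearAlgebra.Dual.Lemmas
import Mathlib.LinearAlgebra.Projection
import Mathlib.LinearAlgebra.FiniteDimensional.Lemmas
import Mathlib.LinearAlgebra.BilinearForm.Properties
import Mathlib.RingTheory.Artinian.Module
import Mathlib.RingTheory.TensorProduct.Finite

/-!
# Modules over a symmetric algebra: trace maps, projective homomorphisms, cores
-/

set_option autoImplicit false
set_option linter.unusedSectionVars false

namespace GB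

open Module TensorProduct

universe u

/-- A finite-dimensional module over the `k`-algebra `L`. -/
structure AM (k : Type) [Field k] (L : Type u) [Ring L] [Algebra k L] where
  V : Type u
  [g : AddCommGroup V]
  [m : Module k V]
  [fd : FiniteDimensional k V]
  ρ : L →ₐ[k] Module.End k V

attribute [instance] AM.g AM.m AM.fd

variable {k : Type} [Field k] {L : Type u} [Ring L] [Algebra k L]

namespace AM

/-- Module homomorphisms. -/
def Hom (X Y : AM k L) : Submodule k (X.V →ₗ[k] Y.V) where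
  carrier := {f | ∀ a x, f (X.ρ a x) = Y.ρ a (f x)}
  add_mem' hf hg a x := by simp [hf a x, hg a x]
  zero_mem' a x := by simp
  smul_mem' c f hf a x := by simp [hf a x]

variable {X Y Z : AM k L}

theorem mem_Hom {f : X.V →ₗ[k] Y.V} : f ∈ Hom X Y ↔ ∀ a x, f (X.ρ a x) = Y.ρ a (f x) := Iff.rfl

theorem id_mem (X : AM k L) : (LinearMap.id : X.V →ₗ[k] X.V) ∈ Hom X X := fun _ _ => rfl

theorem comp_mem {g : Y.V →ₗ[k] Z.V} {f : X.V →ₗ[k] Y.V} (hg : g ∈ Hom Y Z) (hf : f ∈ Hom X Y) :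
    g ∘ₗ f ∈ Hom X Z := fun a x => by
  rw [LinearMap.comp_apply, hf, hg]; rfl

theorem ρ_mul (X : AM k L) (a b : L) (x : X.V) : X.ρ (a * b) x = X.ρ a (X.ρ b x) := by
  rw [map_mul]; rfl

/-- Submodules. -/
def Inv (X : AM k L) (W : Submodule k X.V) : Prop := ∀ a, ∀ x ∈ W, X.ρ a x ∈ W

theorem inv_ker {f : X.V →ₗ[k] Y.V} (hf : f ∈ Hom X Y) : X.Inv (LinearMap.ker f) := fun a x hx => by
  rw [LinearMap.mem_ker] at hx ⊢; rw [hf, hx, map_zero]

theorem inv_range {f : X.V →ₗ[k] Y.V} (hf : f ∈ Hom X Y) : Y.Inv (LinearMap.range f) := by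
  rintro a _ ⟨x, rfl⟩; exact ⟨X.ρ a x, hf a x⟩

theorem inv_bot (X : AM k L) : X.Inv ⊥ := fun a x hx => by
  rw [Submodule.mem_bot] at hx ⊢; rw [hx, map_zero]

/-- The submodule as a module. -/
@[reducible] def sub (X : AM k L) (W : Submodule k X.V) (h : X.Inv W) : AM k L where
  V := W
  ρ := AlgHom.ofLinearMap
    { toFun := fun a => (X.ρ a).restrict (h a)
      map_add' := fun a b => by ext x; simp
      map_smul' := fun c a => by ext x; simp }
    (by ext x; simp) (fun a b => by ext x; simp)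

@[simp] theorem sub_ρ (W : Submodule k X.V) (h : X.Inv W) (a : L) (x : W) :
    (((X.sub W h).ρ a x : W) : X.V) = X.ρ a x := rfl

theorem subtype_mem (W : Submodule k X.V) (h : X.Inv W) : W.subtype ∈ Hom (X.sub W h) X :=
  fun _ _ => rfl

theorem codRestrict_mem {W : Submodule k Y.V} (h : Y.Inv W) {f : X.V →ₗ[k] Y.V}
    (hf : f ∈ Hom X Y) (hW : ∀ x, f x ∈ W) : f.codRestrict W hW ∈ Hom X (Y.sub W h) :=
  fun a x => Subtype.ext (hf a x)

/-- The quotient module. -/
@[reducible] def quot (X : AM k L) (W : Submodule k X.V) (h : X.Inv W) : AM k L where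
  V := X.V ⧸ W
  ρ := AlgHom.ofLinearMap
    { toFun := fun a => W.mapQ W (X.ρ a) (h a)
      map_add' := fun a b => by ext x; simp
      map_smul' := fun c a => by ext x; simp }
    (by ext x; simp) (fun a b => by ext x; simp)

@[simp] theorem quot_ρ (W : Submodule k X.V) (h : X.Inv W) (a : L) (x : X.V) :
    (X.quot W h).ρ a (W.mkQ x) = W.mkQ (X.ρ a x) := rfl

theorem mkQ_mem (W : Submodule k X.V) (h : X.Inv W) : W.mkQ ∈ Hom X (X.quot W h) :=
  fun _ _ => rfl

/-- The direct sum of two modules. -/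
@[reducible] def prod (X Y : AM k L) : AM k L where
  V := X.V × Y.V
  ρ := AlgHom.ofLinearMap
    { toFun := fun a => (X.ρ a).prodMap (Y.ρ a)
      map_add' := fun a b => LinearMap.ext fun x => by simp
      map_smul' := fun c a => LinearMap.ext fun x => by simp }
    (LinearMap.ext fun x => by simp) (fun a b => LinearMap.ext fun x => by simp)

@[simp] theorem prod_ρ (a : L) (x : X.V × Y.V) :
    (X.prod Y).ρ a x = (X.ρ a x.1, Y.ρ a x.2) := rfl

theorem inl_mem (X Y : AM k L) : LinearMap.inl k X.V Y.V ∈ Hom X (X.prod Y) :=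
  fun a x => Prod.ext rfl (by simp)

theorem inr_mem (X Y : AM k L) : LinearMap.inr k X.V Y.V ∈ Hom Y (X.prod Y) :=
  fun a x => Prod.ext (by simp) rfl

theorem fst_mem (X Y : AM k L) : LinearMap.fst k X.V Y.V ∈ Hom (X.prod Y) X := fun _ _ => rfl

theorem snd_mem (X Y : AM k L) : LinearMap.snd k X.V Y.V ∈ Hom (X.prod Y) Y := fun _ _ => rfl

theorem prod_mem {f : X.V →ₗ[k] Y.V} {g : X.V →ₗ[k] Z.V} (hf : f ∈ Hom X Y) (hg : g ∈ Hom X Z) :
    f.prod g ∈ Hom X (Y.prod Z) := fun a x => Prod.ext (hf a x) (hg a x)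

theorem coprod_mem {f : X.V →ₗ[k] Z.V} {g : Y.V →ₗ[k] Z.V} (hf : f ∈ Hom X Z) (hg : g ∈ Hom Y Z) :
    f.coprod g ∈ Hom (X.prod Y) Z := fun a x => by
  change f (X.ρ a x.1) + g (Y.ρ a x.2) = Z.ρ a (f x.1 + g x.2)
  rw [hf, hg, map_add]

/-- Restriction along an algebra homomorphism (twist by an automorphism). -/
@[reducible] def res {L' : Type u} [Ring L'] [Algebra k L'] (X : AM k L) (φ : L' →ₐ[k] L) : AM k L' where
  V := X.V
  ρ := X.ρ.comp φ

/-- The free module `L ⊗ V`. -/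
@[reducible] noncomputable def free [FiniteDimensional k L] (V : Type u) [AddCommGroup V] [Module k V]
    [FiniteDimensional k V] : AM k L where
  V := L ⊗[k] V
  ρ := AlgHom.ofLinearMap
    { toFun := fun a => (LinearMap.mulLeft k a).rTensor V
      map_add' := fun a b => by ext x y; simp [add_mul, add_tmul]
      map_smul' := fun c a => by ext x y; simp [smul_tmul'] }
    (by ext x y; simp) (fun a b => by ext x y; simp)

@[simp] theorem free_ρ [FiniteDimensional k L] (V : Type u) [AddCommGroup V] [Module k V]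
    [FiniteDimensional k V] (a x : L) (v : V) :
    (free V : AM k L).ρ a (x ⊗ₜ[k] v) = (a * x) ⊗ₜ[k] v := rfl

/-- The action map `L ⊗ X → X`. -/
noncomputable def act (X : AM k L) : L ⊗[k] X.V →ₗ[k] X.V := TensorProduct.lift X.ρ.toLinearMap

@[simp] theorem act_tmul (a : L) (x : X.V) : X.act (a ⊗ₜ[k] x) = X.ρ a x := rfl

theorem act_mem [FiniteDimensional k L] (X : AM k L) : X.act ∈ Hom (free X.V) X := fun a x => by
  induction x using TensorProduct.induction_on with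
  | zero => simp
  | tmul b y => exact X.ρ_mul a b y
  | add y z hy hz => rw [map_add, map_add, hy, hz, map_add, map_add]

theorem act_surjective (X : AM k L) : Function.Surjective X.act := fun x =>
  ⟨(1 : L) ⊗ₜ[k] x, by simp⟩

/-- Simple modules. -/
def Simple (X : AM k L) : Prop := Nontrivial X.V ∧ ∀ W, X.Inv W → W = ⊥ ∨ W = ⊤

theorem Simple.injective (hX : X.Simple) {f : X.V →ₗ[k] Y.V} (hf : f ∈ Hom X Y) (h : f ≠ 0) :
    Function.Injective f :=
  LinearMap.ker_eq_bot.1 ((hX.2 _ (inv_ker hf)).resolve_right fun e => h (LinearMap.ker_eq_top.1 e))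

theorem Simple.surjective (hY : Y.Simple) {f : X.V →ₗ[k] Y.V} (hf : f ∈ Hom X Y) (h : f ≠ 0) :
    Function.Surjective f :=
  LinearMap.range_eq_top.1
    ((hY.2 _ (inv_range hf)).resolve_left fun e => h (LinearMap.range_eq_bot.1 e))

theorem Simple.ne_zero (hX : X.Simple) {W : Type*} [AddCommGroup W] [Module k W]
    {f : X.V →ₗ[k] W} (h : Function.Injective f) : f ≠ 0 := by
  rintro rfl
  obtain ⟨x, y, hxy⟩ := hX.1
  exact hxy (h rfl)

theorem Simple.pos (hX : X.Simple) : 0 < finrank k X.V := Module.finrank_pos_iff.2 hX.1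

theorem exists_simple (X : AM k L) (h : 0 < finrank k X.V) :
    ∃ T : AM k L, T.Simple ∧ ∃ j ∈ Hom T X, Function.Injective j := by
  induction hn : finrank k X.V using Nat.strong_induction_on generalizing X with
  | _ n ih =>
  by_cases hs : ∀ W, X.Inv W → W = ⊥ ∨ W = ⊤
  · exact ⟨X, ⟨Module.finrank_pos_iff.1 h, hs⟩, _, id_mem X, fun _ _ e => e⟩
  · push Not at hs
    obtain ⟨W, hW, h0, h1⟩ := hs
    obtain ⟨T, hT, j, hj, hi⟩ := ih _ (hn ▸ Submodule.finrank_lt h1) (X.sub W hW)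
      (Nat.pos_of_ne_zero fun e => h0 (Submodule.finrank_eq_zero.1 e)) rfl
    exact ⟨T, hT, _, comp_mem (subtype_mem W hW) hj, W.subtype_injective.comp hi⟩

/-- The inverse of a bijective homomorphism. -/
theorem exists_inv {f : X.V →ₗ[k] Y.V} (hf : f ∈ Hom X Y) (h : Function.Bijective f) :
    ∃ g ∈ Hom Y X, g ∘ₗ f = LinearMap.id ∧ f ∘ₗ g = LinearMap.id := by
  let e := LinearEquiv.ofBijective f h
  refine ⟨e.symm.toLinearMap, fun a y => h.1 ?_, LinearMap.ext fun x => e.symm_apply_apply x,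
    LinearMap.ext fun y => e.apply_symm_apply y⟩
  have h1 : ∀ y, f (e.symm y) = y := fun y => e.apply_symm_apply y
  change f (e.symm _) = f (X.ρ a (e.symm y))
  rw [hf, h1, h1]

end AM

open AM

/-- Dual bases for a symmetrising form. -/
structure Cas (k : Type) [Field k] (L : Type u) [Ring L] [Algebra k L] where
  ι : Type u
  [fin : Fintype ι]
  a : ι → L
  b : ι → L
  τ : L →ₗ[k] k
  symm : ∀ x y, τ (x * y) = τ (y * x)
  d1 : ∀ x, ∑ i, τ (b i * x) • a i = x
  d2 : ∀ x, ∑ i, τ (x * a i) • b i = x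

attribute [instance] Cas.fin

theorem exists_cas [FiniteDimensional k L] (τ : L →ₗ[k] k) (hs : ∀ x y, τ (x * y) = τ (y * x))
    (hn : ∀ x, (∀ y, τ (x * y) = 0) → x = 0) : ∃ C : Cas k L, C.τ = τ := by
  classical
  let B : LinearMap.BilinForm k L := (LinearMap.mul k L).compr₂ τ
  have hB : B.Nondegenerate := ⟨fun x h => hn x h, fun x h => hn x fun y => (hs x y).trans (h y)⟩
  let v := Module.Free.chooseBasis k L
  let w := B.dualBasis hB v
  have h1 : ∀ i j, τ (w i * v j) = if j = i then 1 else 0 := fun i j =>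
    B.apply_dualBasis_left hB v i j
  refine ⟨⟨_, v, w, τ, hs, fun x => ?_, fun x => ?_⟩, rfl⟩
  · conv_rhs => rw [← v.sum_repr x]
    refine Finset.sum_congr rfl fun i _ => ?_
    congr 1
    conv_lhs => rw [← v.sum_repr x, Finset.mul_sum, map_sum]
    simp [h1]
  · conv_rhs => rw [← w.sum_repr x]
    refine Finset.sum_congr rfl fun i _ => ?_
    congr 1
    conv_lhs => rw [← w.sum_repr x, Finset.sum_mul, map_sum]
    simp [h1]

namespace Cas

variable (C : Cas k L) {M : Type*} [AddCommGroup M] [Module k M]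

theorem sum_mul (β : L →ₗ[k] L →ₗ[k] M) (x : L) :
    ∑ i, β (x * C.a i) (C.b i) = ∑ i, β (C.a i) (C.b i * x) := by
  have h1 : ∀ i, β (x * C.a i) (C.b i) = ∑ j, C.τ (C.b j * x * C.a i) • β (C.a j) (C.b i) := by
    intro i
    conv_lhs => rw [← C.d1 (x * C.a i)]
    simp [mul_assoc]
  have h2 : ∀ j, β (C.a j) (C.b j * x) = ∑ i, C.τ (C.b j * x * C.a i) • β (C.a j) (C.b i) := by
    intro j
    conv_lhs => rw [← C.d2 (C.b j * x)]
    simp
  simp only [h1, h2]
  exact Finset.sum_comm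

theorem sum_swap (β : L →ₗ[k] L →ₗ[k] M) :
    ∑ i, β (C.b i) (C.a i) = ∑ i, β (C.a i) (C.b i) := by
  have h1 : ∀ j, β (C.b j) (C.a j) = ∑ i, C.τ (C.b i * C.b j) • β (C.a i) (C.a j) := by
    intro j
    conv_lhs => rw [← C.d1 (C.b j)]
    simp
  have h2 : ∀ i, β (C.a i) (C.b i) = ∑ j, C.τ (C.b i * C.b j) • β (C.a i) (C.a j) := by
    intro i
    conv_lhs => rw [← C.d1 (C.b i)]
    simp [C.symm (C.b i)]
  simp only [h1, h2]
  exact Finset.sum_comm

/-- An automorphism that scales the form scales the Casimir element. -/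
theorem sum_aut (β : L →ₗ[k] L →ₗ[k] M) (α : L ≃ₐ[k] L) {c : k}
    (h : ∀ x, C.τ (α x) = c * C.τ x) :
    ∑ i, β (α (C.a i)) (α (C.b i)) = c • ∑ i, β (C.a i) (C.b i) := by
  have h1 : ∀ i, β (α (C.a i)) (α (C.b i)) =
      ∑ j, (c * C.τ (α.symm (C.b j) * C.a i)) • β (C.a j) (α (C.b i)) := by
    intro i
    conv_lhs => rw [← C.d1 (α (C.a i))]
    simp [← h]
  have h2 : ∀ j, β (C.a j) (C.b j) =
      ∑ i, C.τ (α.symm (C.b j) * C.a i) • β (C.a j) (α (C.b i)) := by
    intro j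
    conv_lhs => rw [← α.apply_symm_apply (C.b j), ← C.d2 (α.symm (C.b j))]
    simp
  simp only [h1, h2, Finset.smul_sum, mul_smul]
  exact Finset.sum_comm

/-- The bilinear map `(a, b) ↦ a f b`. -/
def lr (X Y : AM k L) (f : X.V →ₗ[k] Y.V) : L →ₗ[k] L →ₗ[k] (X.V →ₗ[k] Y.V) :=
  LinearMap.mk₂ k (fun a b => Y.ρ a ∘ₗ f ∘ₗ X.ρ b) (fun _ _ _ => by ext; simp)
    (fun _ _ _ => by ext; simp) (fun _ _ _ => by ext; simp) (fun _ _ _ => by ext; simp)

@[simp] theorem lr_apply (X Y : AM k L) (f : X.V →ₗ[k] Y.V) (a b : L) :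
    lr X Y f a b = Y.ρ a ∘ₗ f ∘ₗ X.ρ b := rfl

/-- The trace map. -/
def Tr (X Y : AM k L) : (X.V →ₗ[k] Y.V) →ₗ[k] (X.V →ₗ[k] Y.V) where
  toFun f := ∑ i, Y.ρ (C.a i) ∘ₗ f ∘ₗ X.ρ (C.b i)
  map_add' f g := by ext; simp [Finset.sum_add_distrib]
  map_smul' c f := by ext; simp [Finset.smul_sum]

variable {X Y Z : AM k L}

theorem Tr_def (f : X.V →ₗ[k] Y.V) : C.Tr X Y f = ∑ i, Y.ρ (C.a i) ∘ₗ f ∘ₗ X.ρ (C.b i) := rfl

theorem Tr_apply (f : X.V →ₗ[k] Y.V) (x : X.V) :
    C.Tr X Y f x = ∑ i, Y.ρ (C.a i) (f (X.ρ (C.b i) x)) := by simp [Tr_def]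

theorem Tr_mem (f : X.V →ₗ[k] Y.V) : C.Tr X Y f ∈ Hom X Y := fun a x => by
  have := LinearMap.congr_fun (C.sum_mul (lr X Y f) a) x
  simp only [lr_apply, LinearMap.sum_apply, LinearMap.comp_apply, ρ_mul] at this
  rw [Tr_apply, Tr_apply, map_sum, this]

theorem comp_Tr {g : Y.V →ₗ[k] Z.V} (hg : g ∈ Hom Y Z) (f : X.V →ₗ[k] Y.V) :
    g ∘ₗ C.Tr X Y f = C.Tr X Z (g ∘ₗ f) := by
  ext x; simp [Tr_apply, hg _ _]

theorem Tr_comp (g : Y.V →ₗ[k] Z.V) {f : X.V →ₗ[k] Y.V} (hf : f ∈ Hom X Y) :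
    C.Tr Y Z g ∘ₗ f = C.Tr X Z (g ∘ₗ f) := by
  ext x; simp [Tr_apply, hf _ _]

/-- Projective homomorphisms. -/
def PHom (X Y : AM k L) : Submodule k (X.V →ₗ[k] Y.V) := LinearMap.range (C.Tr X Y)

variable {C}

theorem PHom_le : C.PHom X Y ≤ Hom X Y := by rintro _ ⟨f, rfl⟩; exact C.Tr_mem f

theorem comp_left {g : Y.V →ₗ[k] Z.V} {f : X.V →ₗ[k] Y.V} (hg : g ∈ Hom Y Z)
    (hf : f ∈ C.PHom X Y) : g ∘ₗ f ∈ C.PHom X Z := by
  obtain ⟨f, rfl⟩ := hf; exact ⟨_, (C.comp_Tr hg f).symm⟩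

theorem comp_right {g : Y.V →ₗ[k] Z.V} {f : X.V →ₗ[k] Y.V} (hg : g ∈ C.PHom Y Z)
    (hf : f ∈ Hom X Y) : g ∘ₗ f ∈ C.PHom X Z := by
  obtain ⟨g, rfl⟩ := hg; exact ⟨_, (C.Tr_comp g hf).symm⟩

/-- Projective homomorphisms extend along injections. -/
theorem exists_extend {f : X.V →ₗ[k] Z.V} (hf : f ∈ C.PHom X Z) {j : X.V →ₗ[k] Y.V}
    (hj : j ∈ Hom X Y) (hi : Function.Injective j) : ∃ g ∈ C.PHom Y Z, g ∘ₗ j = f := by
  obtain ⟨f, rfl⟩ := hf
  obtain ⟨r, hr⟩ := j.exists_leftInverse_of_injective (LinearMap.ker_eq_bot.2 hi)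
  refine ⟨_, ⟨f ∘ₗ r, rfl⟩, ?_⟩
  rw [C.Tr_comp _ hj, LinearMap.comp_assoc, hr, LinearMap.comp_id]

/-- Projective homomorphisms lift along surjections. -/
theorem exists_lift {f : X.V →ₗ[k] Z.V} (hf : f ∈ C.PHom X Z) {q : Y.V →ₗ[k] Z.V}
    (hq : q ∈ Hom Y Z) (hs : Function.Surjective q) : ∃ g ∈ C.PHom X Y, q ∘ₗ g = f := by
  obtain ⟨f, rfl⟩ := hf
  obtain ⟨r, hr⟩ := q.exists_rightInverse_of_surjective (LinearMap.range_eq_top.2 hs)
  refine ⟨_, ⟨r ∘ₗ f, rfl⟩, ?_⟩
  rw [C.comp_Tr hq, ← LinearMap.comp_assoc, hr, LinearMap.id_comp]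

variable (C) in
/-- Projective modules. -/
def Proj (X : AM k L) : Prop := (LinearMap.id : X.V →ₗ[k] X.V) ∈ C.PHom X X

theorem Proj.mem_left (h : C.Proj X) {f : X.V →ₗ[k] Y.V} (hf : f ∈ Hom X Y) : f ∈ C.PHom X Y :=
  comp_left hf h

theorem Proj.mem_right (h : C.Proj Y) {f : X.V →ₗ[k] Y.V} (hf : f ∈ Hom X Y) : f ∈ C.PHom X Y :=
  comp_right h hf

theorem Proj.eq_left (h : C.Proj X) : C.PHom X Y = Hom X Y :=
  le_antisymm PHom_le fun _ hf => h.mem_left hf

theorem Proj.eq_right (h : C.Proj Y) : C.PHom X Y = Hom X Y :=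
  le_antisymm PHom_le fun _ hf => h.mem_right hf

theorem Proj.of_retract (h : C.Proj Y) {i : X.V →ₗ[k] Y.V} {r : Y.V →ₗ[k] X.V}
    (hi : i ∈ Hom X Y) (hr : r ∈ Hom Y X) (e : r ∘ₗ i = LinearMap.id) : C.Proj X := by
  rw [Proj, ← e]; exact comp_left hr (h.mem_right hi)

theorem Proj.prod (hX : C.Proj X) (hY : C.Proj Y) : C.Proj (X.prod Y) := by
  have : (LinearMap.id : (X.prod Y).V →ₗ[k] (X.prod Y).V) =
      LinearMap.inl k X.V Y.V ∘ₗ LinearMap.fst k X.V Y.V +
        LinearMap.inr k X.V Y.V ∘ₗ LinearMap.snd k X.V Y.V :=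
    LinearMap.ext fun x => Prod.ext (by simp) (by simp)
  rw [Proj, this]
  exact add_mem (comp_left (inl_mem X Y) (hX.mem_right (fst_mem X Y)))
    (comp_left (inr_mem X Y) (hY.mem_right (snd_mem X Y)))

theorem proj_of_finrank_eq_zero (h : finrank k X.V = 0) : C.Proj X := by
  have := Module.finrank_zero_iff.1 h
  rw [Proj, Subsingleton.elim (LinearMap.id : X.V →ₗ[k] X.V) 0]; exact zero_mem _

theorem Proj.exists_retract (h : C.Proj X) {j : X.V →ₗ[k] Y.V} (hj : j ∈ Hom X Y)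
    (hi : Function.Injective j) : ∃ r ∈ Hom Y X, r ∘ₗ j = LinearMap.id := by
  obtain ⟨r, hr, e⟩ := exists_extend h hj hi
  exact ⟨r, PHom_le hr, e⟩

section Free

variable [FiniteDimensional k L]

variable (C) in
theorem proj_free (V : Type u) [AddCommGroup V] [Module k V] [FiniteDimensional k V] :
    C.Proj (free V) := by
  refine ⟨(C.τ.smulRight (1 : L)).rTensor V, LinearMap.ext fun x => ?_⟩
  induction x using TensorProduct.induction_on with
  | zero => simp
  | tmul b y =>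
    rw [Tr_apply]
    change ∑ i, (C.a i * C.τ (C.b i * b) • (1 : L)) ⊗ₜ[k] y = b ⊗ₜ[k] y
    simp [← sum_tmul, C.d1]
  | add y z hy hz => rw [map_add, hy, hz, map_add]

variable (C) in
/-- The embedding `x ↦ ∑ aᵢ ⊗ bᵢ x` of a module into a free module. -/
noncomputable def emb (X : AM k L) : X.V →ₗ[k] (free X.V : AM k L).V :=
  C.Tr X (free X.V) (TensorProduct.mk k L X.V 1)

theorem emb_apply (x : X.V) : C.emb X x = ∑ i, C.a i ⊗ₜ[k] X.ρ (C.b i) x := by
  rw [emb, Tr_apply]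
  exact Finset.sum_congr rfl fun i _ => by
    change (C.a i * 1) ⊗ₜ[k] X.ρ (C.b i) x = _
    rw [mul_one]

variable (C) in
theorem emb_mem (X : AM k L) : C.emb X ∈ Hom X (free X.V) := C.Tr_mem _

variable (C) in
theorem emb_injective (X : AM k L) : Function.Injective (C.emb X) := by
  have h : ∀ x, TensorProduct.lift (C.τ.smulRight (LinearMap.id : X.V →ₗ[k] X.V))
      (C.emb X x) = x := fun x => by
    have h1 := congrArg (fun a => X.ρ a x) (C.d2 1)
    rw [emb_apply, map_sum]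
    simpa using h1
  exact fun x y e => by rw [← h x, e, h y]

theorem mem_PHom_iff {f : X.V →ₗ[k] Y.V} :
    f ∈ C.PHom X Y ↔ ∃ g ∈ Hom X (free Y.V), Y.act ∘ₗ g = f :=
  ⟨fun hf => (exists_lift hf (act_mem Y) Y.act_surjective).imp fun _ h => ⟨PHom_le h.1, h.2⟩,
    fun ⟨_, hg, e⟩ => e ▸ comp_left (act_mem Y) ((C.proj_free _).mem_right hg)⟩

/-- Projective homomorphisms do not depend on the form. -/
theorem PHom_eq (C C' : Cas k L) (X Y : AM k L) : C.PHom X Y = C'.PHom X Y :=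
  Submodule.ext fun _ => mem_PHom_iff.trans mem_PHom_iff.symm

end Free

/-! ### Duality -/

variable (C) in
theorem trace_Tr (f : X.V →ₗ[k] Y.V) (g : Y.V →ₗ[k] X.V) :
    LinearMap.trace k Y.V (C.Tr X Y f ∘ₗ g) = LinearMap.trace k Y.V (f ∘ₗ C.Tr Y X g) := by
  have h := C.sum_swap (lr Y X g)
  simp only [lr_apply] at h
  rw [Tr_def, Tr_def, ← h]
  have h1 : ∀ s : C.ι → (X.V →ₗ[k] Y.V), (∑ i, s i) ∘ₗ g = ∑ i, s i ∘ₗ g := fun s => by ext; simp
  have h2 : ∀ s : C.ι → (Y.V →ₗ[k] X.V), f ∘ₗ (∑ i, s i) = ∑ i, f ∘ₗ s i := fun s => by ext; simp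
  rw [h1, h2, map_sum, map_sum]
  refine Finset.sum_congr rfl fun i _ => ?_
  rw [LinearMap.comp_assoc, LinearMap.trace_comp_comm']
  rfl

theorem eq_zero_of_trace {V W : Type*} [AddCommGroup V] [Module k V] [AddCommGroup W] [Module k W]
    [FiniteDimensional k V] [FiniteDimensional k W] {f : V →ₗ[k] W}
    (h : ∀ g : W →ₗ[k] V, LinearMap.trace k W (f ∘ₗ g) = 0) : f = 0 := by
  ext x
  refine (Module.forall_dual_apply_eq_zero_iff k (f x)).1 fun φ => ?_
  have h1 := h (φ.smulRight x)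
  have h2 : f ∘ₗ φ.smulRight x = φ.smulRight (f x) := by ext; simp
  rwa [h2, LinearMap.trace_smulRight] at h1

/-- The trace pairing embeds a space of projective homomorphisms into the dual of another one. -/
theorem finrank_le_of_pairing (W : Submodule k (X.V →ₗ[k] Y.V)) (hW : W ≤ C.PHom X Y)
    (U : Submodule k (Y.V →ₗ[k] X.V))
    (h : ∀ f ∈ W, (∀ g ∈ U, LinearMap.trace k Y.V (f ∘ₗ g) = 0) → f = 0) :
    finrank k W ≤ finrank k (U.map (C.Tr Y X)) := by
  let T : U →ₗ[k] (Y.V →ₗ[k] X.V) := (C.Tr Y X).domRestrict U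
  let D : W →ₗ[k] Module.Dual k U :=
    LinearMap.mk₂ k (fun f g => LinearMap.trace k Y.V (f.1 ∘ₗ g.1))
      (fun _ _ _ => by simp [LinearMap.add_comp]) (fun _ _ _ => by simp [LinearMap.smul_comp])
      (fun _ _ _ => by simp [LinearMap.comp_add]) (fun _ _ _ => by simp [LinearMap.comp_smul])
  have hD : Function.Injective D := (injective_iff_map_eq_zero D).2 fun f hf =>
    Subtype.ext (h f f.2 fun g hg => LinearMap.congr_fun hf ⟨g, hg⟩)
  have hr : LinearMap.range D ≤ (LinearMap.ker T).dualAnnihilator := by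
    rintro _ ⟨f, rfl⟩
    rw [Submodule.mem_dualAnnihilator]
    intro g hg
    obtain ⟨f0, hf0⟩ := hW f.2
    have hg' : C.Tr Y X g = 0 := hg
    change LinearMap.trace k Y.V (f.1 ∘ₗ g.1) = 0
    rw [← hf0, trace_Tr, hg', LinearMap.comp_zero, map_zero]
  have h1 := Submodule.finrank_mono hr
  rw [LinearMap.finrank_range_of_inj hD] at h1
  have h2 := Subspace.finrank_add_finrank_dualAnnihilator_eq (LinearMap.ker T)
  have h3 := T.finrank_range_add_finrank_ker
  rw [LinearMap.range_domRestrict] at h3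
  omega

variable (C) in
theorem finrank_PHom_comm (X Y : AM k L) : finrank k (C.PHom X Y) = finrank k (C.PHom Y X) := by
  have : ∀ X Y : AM k L, finrank k (C.PHom X Y) ≤ finrank k (C.PHom Y X) := fun X Y => by
    have := finrank_le_of_pairing (C := C) (C.PHom X Y) le_rfl ⊤
      fun f _ h => eq_zero_of_trace fun g => h g trivial
    rwa [Submodule.map_top] at this
  exact le_antisymm (this X Y) (this Y X)

/-! ### Hulls, projective-free modules, cores -/

variable (k) in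
/-- A decomposition `Y = Q ⊕ R`. -/
structure _root_.GB.Split (Y Q R : AM k L) where
  i1 : Q.V →ₗ[k] Y.V
  p1 : Y.V →ₗ[k] Q.V
  i2 : R.V →ₗ[k] Y.V
  p2 : Y.V →ₗ[k] R.V
  hi1 : i1 ∈ Hom Q Y
  hp1 : p1 ∈ Hom Y Q
  hi2 : i2 ∈ Hom R Y
  hp2 : p2 ∈ Hom Y R
  e11 : ∀ x, p1 (i1 x) = x
  e22 : ∀ x, p2 (i2 x) = x
  e12 : ∀ x, p1 (i2 x) = 0
  e21 : ∀ x, p2 (i1 x) = 0
  tot : ∀ y, i1 (p1 y) + i2 (p2 y) = y

end Cas

namespace Split

variable {Y Q R : AM k L} (S : Split k Y Q R)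

theorem i1_inj : Function.Injective S.i1 := fun x y e => by rw [← S.e11 x, e, S.e11]

theorem i2_inj : Function.Injective S.i2 := fun x y e => by rw [← S.e22 x, e, S.e22]

theorem c11 : S.p1 ∘ₗ S.i1 = LinearMap.id := LinearMap.ext S.e11

theorem c22 : S.p2 ∘ₗ S.i2 = LinearMap.id := LinearMap.ext S.e22

theorem ctot {V : Type*} [AddCommGroup V] [Module k V] (f : V →ₗ[k] Y.V) :
    S.i1 ∘ₗ S.p1 ∘ₗ f + S.i2 ∘ₗ S.p2 ∘ₗ f = f := LinearMap.ext fun x => S.tot (f x)

theorem ctot' {V : Type*} [AddCommGroup V] [Module k V] (f : Y.V →ₗ[k] V) :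
    (f ∘ₗ S.i1) ∘ₗ S.p1 + (f ∘ₗ S.i2) ∘ₗ S.p2 = f := LinearMap.ext fun x => by
  conv_rhs => rw [← S.tot x, map_add]
  rfl

include S in
theorem finrank_eq : finrank k Y.V = finrank k Q.V + finrank k R.V := by
  rw [← Module.finrank_prod]
  refine LinearEquiv.finrank_eq (LinearEquiv.ofLinearMap (S.p1.prod S.p2) (S.i1.coprod S.i2) ?_ ?_)
  · exact LinearMap.ext fun x => Prod.ext (by simp [S.e11, S.e12]) (by simp [S.e21, S.e22])
  · exact LinearMap.ext fun x => S.tot x

include S in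
theorem finrank_Hom (T : AM k L) :
    finrank k (Hom T Y) = finrank k (Hom T Q) + finrank k (Hom T R) := by
  rw [← Module.finrank_prod]
  refine LinearEquiv.finrank_eq
    { toFun := fun f => (⟨S.p1 ∘ₗ f.1, comp_mem S.hp1 f.2⟩, ⟨S.p2 ∘ₗ f.1, comp_mem S.hp2 f.2⟩)
      invFun := fun g => ⟨S.i1 ∘ₗ g.1.1 + S.i2 ∘ₗ g.2.1,
        add_mem (comp_mem S.hi1 g.1.2) (comp_mem S.hi2 g.2.2)⟩
      map_add' := fun f g => by ext <;> simp
      map_smul' := fun c f => by ext <;> simp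
      left_inv := fun f => Subtype.ext (S.ctot f.1)
      right_inv := fun g => by ext <;> simp [S.e11, S.e12, S.e21, S.e22] }

/-- Associativity. -/
def trans {Q' R' : AM k L} (S' : Split k R Q' R') : Split k Y (Q.prod Q') R' where
  i1 := S.i1.coprod (S.i2 ∘ₗ S'.i1)
  p1 := S.p1.prod (S'.p1 ∘ₗ S.p2)
  i2 := S.i2 ∘ₗ S'.i2
  p2 := S'.p2 ∘ₗ S.p2
  hi1 := coprod_mem S.hi1 (comp_mem S.hi2 S'.hi1)
  hp1 := prod_mem S.hp1 (comp_mem S'.hp1 S.hp2)
  hi2 := comp_mem S.hi2 S'.hi2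
  hp2 := comp_mem S'.hp2 S.hp2
  e11 x := Prod.ext (by simp [S.e11, S.e12]) (by simp [S.e21, S.e22, S'.e11])
  e22 x := by simp [S.e22, S'.e22]
  e12 x := Prod.ext (by simp [S.e12]) (by simp [S.e22, S'.e12])
  e21 x := by simp [S.e21, S.e22, S'.e21]
  tot y := by
    have := S.tot y
    rw [← S'.tot (S.p2 y), map_add, ← add_assoc] at this
    simpa using this

/-- A retraction gives a decomposition. -/
noncomputable def ofRetract {j : Q.V →ₗ[k] Y.V} {r : Y.V →ₗ[k] Q.V} (hj : j ∈ Hom Q Y)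
    (hr : r ∈ Hom Y Q) (e : r ∘ₗ j = LinearMap.id) :
    Split k Y Q (Y.sub (LinearMap.ker r) (inv_ker hr)) where
  i1 := j
  p1 := r
  i2 := (LinearMap.ker r).subtype
  p2 := (LinearMap.id - j ∘ₗ r).codRestrict _ fun y => by
    have := LinearMap.congr_fun e (r y)
    simp only [LinearMap.comp_apply, LinearMap.id_apply] at this
    simp [this]
  hi1 := hj
  hp1 := hr
  hi2 := subtype_mem _ _
  hp2 := codRestrict_mem _ (sub_mem (id_mem Y) (comp_mem hj hr)) _
  e11 := LinearMap.congr_fun e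
  e22 x := Subtype.ext (by simp [LinearMap.mem_ker.1 x.2])
  e12 x := x.2
  e21 x := Subtype.ext (by
    have := LinearMap.congr_fun e x
    simp only [LinearMap.comp_apply, LinearMap.id_apply] at this
    simp [this])
  tot y := by simp

end Split

namespace Cas

variable {C : Cas k L} {X Y Z T Q : AM k L}

theorem Proj.exists_split (h : C.Proj Q) {j : Q.V →ₗ[k] Y.V} (hj : j ∈ Hom Q Y)
    (hi : Function.Injective j) : ∃ R, ∃ S : Split k Y Q R, S.i1 = j := by
  obtain ⟨r, hr, e⟩ := h.exists_retract hj hi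
  exact ⟨_, Split.ofRetract hj hr e, rfl⟩

theorem Proj.split_right (h : C.Proj Y) {R : AM k L} (S : Split k Y Q R) : C.Proj R :=
  h.of_retract S.hi2 S.hp2 S.c22

theorem pow_mem {φ : X.V →ₗ[k] X.V} (h : φ ∈ Hom X X) (n : ℕ) :
    (φ ^ n : Module.End k X.V) ∈ Hom X X := by
  induction n with
  | zero => exact id_mem X
  | succ n ih => rw [pow_succ]; exact comp_mem ih h

/-- The injective hull of a simple module. -/
theorem exists_hull_of (hT : T.Simple) (hQ : C.Proj Q) {j : T.V →ₗ[k] Q.V} (hj : j ∈ Hom T Q)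
    (hi : Function.Injective j) : ∃ I : AM k L, C.Proj I ∧ ∃ j ∈ Hom T I, Function.Injective j ∧
      ∀ Y : AM k L, ∀ g ∈ Hom I Y, g ∘ₗ j ≠ 0 → Function.Injective g := by
  induction hn : finrank k Q.V using Nat.strong_induction_on generalizing Q with
  | _ n ih =>
  by_cases hs : ∀ Y : AM k L, ∀ g ∈ Hom Q Y, g ∘ₗ j ≠ 0 → Function.Injective g
  · exact ⟨Q, hQ, j, hj, hi, hs⟩
  push Not at hs
  obtain ⟨Y, g, hg, h0, h1⟩ := hs
  have hgj := comp_mem hg hj
  obtain ⟨r, hr, e⟩ := exists_extend (hQ.mem_right hj) hgj (hT.injective hgj h0)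
  have hφ := comp_mem (PHom_le hr) hg
  set φ : Module.End k Q.V := r ∘ₗ g
  have hφj : ∀ m x, (φ ^ m) (j x) = j x := fun m x => by
    induction m with
    | zero => rfl
    | succ m ih => rw [pow_succ, Module.End.mul_apply, show φ (j x) = j x from
        LinearMap.congr_fun e x, ih]
  obtain ⟨m, hm, hm1⟩ := ((LinearMap.eventually_isCompl_ker_pow_range_pow φ).and
    (Filter.eventually_ge_atTop 1)).exists
  have hW := inv_range (pow_mem hφ m)
  have hlt : LinearMap.range (φ ^ m) ≠ ⊤ := fun e' => h1 (by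
    have h2 : Function.Injective (φ ^ m) :=
      LinearMap.injective_iff_surjective.2 (LinearMap.range_eq_top.1 e')
    obtain ⟨m, rfl⟩ := Nat.exists_eq_add_of_le' hm1
    intro x y hxy
    apply h2
    rw [pow_succ, Module.End.mul_apply, Module.End.mul_apply]
    change (φ ^ m) (r (g x)) = (φ ^ m) (r (g y))
    rw [hxy])
  have hb : Function.Bijective ((φ ^ m).codRestrict _ (LinearMap.mem_range_self _) ∘ₗ
      (LinearMap.range (φ ^ m)).subtype) := by
    have h2 : Function.Injective ((φ ^ m).codRestrict _ (LinearMap.mem_range_self _) ∘ₗ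
        (LinearMap.range (φ ^ m)).subtype) := (injective_iff_map_eq_zero _).2 fun x hx =>
      Subtype.ext ((Submodule.disjoint_def.1 hm.disjoint) x.1 (congrArg Subtype.val hx) x.2)
    exact ⟨h2, LinearMap.injective_iff_surjective.1 h2⟩
  have hc := codRestrict_mem hW (pow_mem hφ m) (LinearMap.mem_range_self _)
  obtain ⟨s, hs, e1, -⟩ := exists_inv (X := Q.sub _ hW) (Y := Q.sub _ hW)
    (comp_mem hc (subtype_mem _ hW)) hb
  refine ih _ (hn ▸ Submodule.finrank_lt hlt) (Q := Q.sub _ hW)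
    (hQ.of_retract (subtype_mem _ hW) (comp_mem hs hc) e1)
    (codRestrict_mem hW hj fun x => ⟨j x, hφj m x⟩) (fun x y h => hi (congrArg Subtype.val h)) rfl

variable (C) in
/-- No non-zero projective submodule. -/
def PFree (Y : AM k L) : Prop :=
  ∀ I : AM k L, C.Proj I → ∀ g ∈ Hom I Y, Function.Injective g → finrank k I.V = 0

theorem exists_core (Y : AM k L) : ∃ Q R, C.Proj Q ∧ C.PFree R ∧ Nonempty (Split k Y Q R) := by
  induction hn : finrank k Y.V using Nat.strong_induction_on generalizing Y with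
  | _ n ih =>
  by_cases h : C.PFree Y
  · refine ⟨Y.sub ⊥ Y.inv_bot, Y, proj_of_finrank_eq_zero (finrank_bot k _), h,
      ⟨⟨0, 0, .id, .id, zero_mem _, zero_mem _, id_mem Y, id_mem Y, fun x => Subsingleton.elim _ _,
        fun _ => rfl, fun _ => rfl, fun _ => rfl, fun y => by simp⟩⟩⟩
  · unfold PFree at h
    push Not at h
    obtain ⟨I, hI, g, hg, hi, h0⟩ := h
    obtain ⟨R, S, -⟩ := hI.exists_split hg hi
    have := S.finrank_eq
    obtain ⟨Q, R', hQ, hR, ⟨S'⟩⟩ := ih _ (by omega) R rfl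
    exact ⟨_, _, hI.prod hQ, hR, ⟨S.trans S'⟩⟩

variable [FiniteDimensional k L]

variable (C) in
theorem exists_hull (hT : T.Simple) : ∃ I : AM k L, C.Proj I ∧ ∃ j ∈ Hom T I,
    Function.Injective j ∧ ∀ Y : AM k L, ∀ g ∈ Hom I Y, g ∘ₗ j ≠ 0 → Function.Injective g :=
  exists_hull_of hT (C.proj_free _) (C.emb_mem T) (C.emb_injective T)

theorem PFree.eq_zero (hY : C.PFree Y) (hT : T.Simple) {f : T.V →ₗ[k] Y.V}
    (hf : f ∈ C.PHom T Y) : f = 0 := by
  by_contra h0
  obtain ⟨I, hI, j, hj, hi, h⟩ := C.exists_hull hT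
  obtain ⟨g, hg, rfl⟩ := exists_extend hf hj hi
  have h1 := hY I hI g (PHom_le hg) (h Y g (PHom_le hg) h0)
  have h2 := LinearMap.finrank_le_finrank_of_injective hi
  have h3 := hT.pos
  omega

/-- An endomorphism of a projective-free module that is stably the identity is injective. -/
theorem PFree.injective (hY : C.PFree Y) {f : Y.V →ₗ[k] Y.V} (hf : f ∈ Hom Y Y)
    (h : LinearMap.id - f ∈ C.PHom Y Y) : Function.Injective f := by
  by_contra h0
  have h1 : 0 < finrank k (Y.sub _ (inv_ker hf)).V := Nat.pos_of_ne_zero fun e =>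
    h0 (LinearMap.ker_eq_bot.1 (Submodule.finrank_eq_zero.1 e))
  obtain ⟨T, hT, j, hj, hi⟩ := exists_simple _ h1
  have h2 := hY.eq_zero hT (comp_right h (comp_mem (subtype_mem _ (inv_ker hf)) hj))
  refine hT.ne_zero hi (LinearMap.ext fun x => Subtype.ext ?_)
  have h3 := LinearMap.congr_fun h2 x
  have h4 : f (j x).1 = 0 := (j x).2
  simpa [h4] using h3

/-- A projective module is no larger than one with a larger socle. -/
theorem Proj.finrank_le {Q' : AM k L} (hQ : C.Proj Q) (hQ' : C.Proj Q')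
    (h : ∀ T : AM k L, T.Simple → (∃ j ∈ Hom T Q, Function.Injective j) →
      finrank k (Hom T Q) ≤ finrank k (Hom T Q')) : finrank k Q.V ≤ finrank k Q'.V := by
  induction hn : finrank k Q.V using Nat.strong_induction_on generalizing Q Q' with
  | _ n ih =>
  rcases Nat.eq_zero_or_pos n with rfl | h0
  · exact Nat.zero_le _
  obtain ⟨T, hT, t, ht, hti⟩ := exists_simple Q (hn ▸ h0)
  have h1 : 0 < finrank k (Hom T Q') := lt_of_lt_of_le (Nat.pos_of_ne_zero fun e =>
    hT.ne_zero hti ((Submodule.eq_bot_iff _).1 (Submodule.finrank_eq_zero.1 e) t ht))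
    (h T hT ⟨t, ht, hti⟩)
  obtain ⟨t', ht', h2⟩ := Submodule.exists_mem_ne_zero_of_ne_bot
    (p := Hom T Q') fun e => by rw [e, finrank_bot] at h1; omega
  obtain ⟨I, hI, j, hj, hi, hI'⟩ := C.exists_hull hT
  obtain ⟨g, hg, e⟩ := exists_extend (hQ.mem_right ht) hj hi
  obtain ⟨g', hg', e'⟩ := exists_extend (hQ'.mem_right ht') hj hi
  obtain ⟨R, S, -⟩ := hI.exists_split (PHom_le hg)
    (hI' Q g (PHom_le hg) (e ▸ hT.ne_zero hti))
  obtain ⟨R', S', -⟩ := hI.exists_split (PHom_le hg') (hI' Q' g' (PHom_le hg') (e' ▸ h2))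
  have h3 := S.finrank_eq
  have h4 := S'.finrank_eq
  have h5 := LinearMap.finrank_le_finrank_of_injective hi
  have h6 := hT.pos
  have h7 := ih _ (by omega) (hQ.split_right S) (hQ'.split_right S') (fun T' hT' ⟨s, hs, hsi⟩ => by
    have := h T' hT' ⟨_, comp_mem S.hi2 hs, S.i2_inj.comp hsi⟩
    rw [S.finrank_Hom, S'.finrank_Hom] at this
    omega) rfl
  omega

theorem finrank_PHom_core {R : AM k L} (S : Split k Y Q R) (hQ : C.Proj Q) (hR : C.PFree R)
    (hT : T.Simple) : finrank k (C.PHom T Y) = finrank k (Hom T Q) := by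
  refine LinearEquiv.finrank_eq
    { toFun := fun f => ⟨S.p1 ∘ₗ f.1, comp_mem S.hp1 (PHom_le f.2)⟩
      invFun := fun g => ⟨S.i1 ∘ₗ g.1, comp_left S.hi1 (hQ.mem_right g.2)⟩
      map_add' := fun f g => by ext; simp
      map_smul' := fun c f => by ext; simp
      left_inv := fun f => Subtype.ext ?_
      right_inv := fun g => by ext; simp [S.e11] }
  have h := S.ctot f.1
  rwa [hR.eq_zero hT (comp_left S.hp2 f.2), LinearMap.comp_zero, add_zero] at h

/-- The projective part of a core decomposition is a largest projective submodule. -/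
theorem finrank_le_core {R Q' : AM k L} (S : Split k Y Q R) (hQ : C.Proj Q) (hR : C.PFree R)
    (hQ' : C.Proj Q') {g : Q'.V →ₗ[k] Y.V} (hg : g ∈ Hom Q' Y) (hi : Function.Injective g) :
    finrank k Q'.V ≤ finrank k Q.V := by
  refine hQ'.finrank_le hQ fun T hT _ => ?_
  rw [← finrank_PHom_core S hQ hR hT]
  refine LinearMap.finrank_le_finrank_of_injective (f :=
    { toFun := fun f => ⟨g ∘ₗ f.1, comp_left hg (hQ'.mem_right f.2)⟩
      map_add' := fun f g => by ext; simp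
      map_smul' := fun c f => by ext; simp }) fun f f' e => ?_
  exact Subtype.ext (LinearMap.ext fun x => hi (LinearMap.congr_fun (congrArg Subtype.val e) x))

end Cas

end GB
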