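import Cfsg.Agent.Lib.Block.GBFun
import Cfsg.Agent.Lib.Char.GroupAlg
import Mathlib.GroupTheory.Index
import Mathlib.GroupTheory.GroupAction.Quotient

/-!
# Traces from the trivial subgroup, the Casimir data of a group algebra
-/

set_option autoImplicit false
set_option linter.unusedSectionVars false

namespace GB

open Module AM CT
open scoped MonoidAlgebra

universe u

section Tr

variable {k : Type} [Field k] {Γ Γ' : Type*} [Group Γ] [Finite Γ] [Group Γ'] [Finite Γ']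
  {M M' : Type*} [AddCommGroup M] [Module k M] [AddCommGroup M'] [Module k M']

/-- The elements of a subgroup as a finite set. -/
noncomputable def sfin (Q : Subgroup Γ) : Finset Γ := (Set.toFinite (Q : Set Γ)).toFinset

@[simp] theorem mem_sfin {Q : Subgroup Γ} {g : Γ} : g ∈ sfin Q ↔ g ∈ Q := by simp [sfin]

/-- The image of the trace map from the trivial subgroup to `Q`. -/
noncomputable def TQ (σ : Γ →* Module.End k M) (Q : Subgroup Γ) : Submodule k M :=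
  LinearMap.range (∑ q ∈ sfin Q, σ q)

variable {σ : Γ →* Module.End k M} {σ' : Γ →* Module.End k M'} {Q : Subgroup Γ}

theorem mem_TQ {m : M} : m ∈ TQ σ Q ↔ ∃ m0, ∑ q ∈ sfin Q, σ q m0 = m := by
  simp [TQ, LinearMap.sum_apply]

theorem mem_TQ_of_triv (h : ∀ q ∈ Q, q = 1) (m : M) : m ∈ TQ σ Q := by
  have : sfin Q = {1} := Finset.ext fun g => by
    rw [mem_sfin, Finset.mem_singleton]; exact ⟨h g, fun e => e ▸ Q.one_mem⟩
  exact mem_TQ.2 ⟨m, by simp [this]⟩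

theorem sum_mem_TQ {Ω : Type*} [Fintype Ω] (a : Γ →* Equiv.Perm Ω) (φ : Ω → M)
    (hφ : ∀ q ∈ Q, ∀ c, φ (a q c) = σ q (φ c))
    (h : ∀ c, ∃ q ∈ Q, ∃ S : Subgroup Γ, (∀ g, g ∈ S ↔ g ∈ Q ∧ a g (a q c) = a q c) ∧
      φ (a q c) ∈ TQ σ S) : ∑ c, φ c ∈ TQ σ Q := by
  classical
  let r : Setoid Ω := ⟨fun c d => ∃ q ∈ Q, a q c = d, fun c => ⟨1, Q.one_mem, by simp⟩,
    fun ⟨q, hq, e⟩ => ⟨q⁻¹, Q.inv_mem hq, by simp [← e]⟩,
    fun ⟨q, hq, e⟩ ⟨q', hq', e'⟩ => ⟨q' * q, Q.mul_mem hq' hq, by simp [e, e']⟩⟩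
  rw [← Finset.sum_fiberwise Finset.univ (Quotient.mk r) φ]
  refine Submodule.sum_mem _ fun o _ => ?_
  obtain ⟨c0, rfl⟩ := Quotient.exists_rep o
  obtain ⟨q1, hq1, S, hS, h1⟩ := h c0
  obtain ⟨m0, hm0⟩ := mem_TQ.1 h1
  have h2 : ∀ c, Quotient.mk r c = Quotient.mk r c0 ↔ ∃ q ∈ Q, a q (a q1 c0) = c := fun c => by
    rw [← Quotient.sound (s := r) (a := c0) (b := a q1 c0) ⟨q1, hq1, rfl⟩ |>.symm, eq_comm]
    exact Quotient.eq (r := r)
  refine mem_TQ.2 ⟨m0, ?_⟩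
  rw [← Finset.sum_fiberwise_of_maps_to (g := fun q => a q (a q1 c0))
    (t := Finset.univ.filter fun c => Quotient.mk r c = Quotient.mk r c0)
    fun q hq => by simpa using (h2 _).2 ⟨q, mem_sfin.1 hq, rfl⟩]
  refine Finset.sum_congr rfl fun c hc => ?_
  obtain ⟨q0, hq0, rfl⟩ := (h2 c).1 (by simpa using hc)
  rw [hφ q0 hq0, ← hm0, map_sum]
  refine Finset.sum_nbij' (fun q => q0⁻¹ * q) (fun s => q0 * s) (fun q hq => ?_) (fun s hs => ?_)
    (fun q _ => by simp) (fun s _ => by simp) fun q _ => by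
      rw [← Module.End.mul_apply, ← map_mul, mul_inv_cancel_left]
  · rw [Finset.mem_filter, mem_sfin] at hq
    rw [mem_sfin, hS]
    exact ⟨Q.mul_mem (Q.inv_mem hq0) hq.1, by simp [hq.2]⟩
  · rw [mem_sfin, hS] at hs
    rw [Finset.mem_filter, mem_sfin]
    exact ⟨Q.mul_mem hq0 hs.1, by simp [hs.2]⟩

theorem TQ_anti {Q' : Subgroup Γ} (h : Q ≤ Q') : TQ σ Q' ≤ TQ σ Q := fun m hm => by
  classical
  have := Fintype.ofFinite Γ
  obtain ⟨m0, rfl⟩ := mem_TQ.1 hm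
  have h1 := sum_mem_TQ (σ := σ) (Q := Q) (MulAction.toPermHom Γ Γ)
    (fun g => if g ∈ Q' then σ g m0 else 0) (fun q hq c => by
      have : q * c ∈ Q' ↔ c ∈ Q' := Q'.mul_mem_cancel_left (h hq)
      by_cases hc : c ∈ Q' <;> simp [this, hc])
    fun c => ⟨1, Q.one_mem, ⊥, fun g => by
      simp only [Subgroup.mem_bot, map_one, Equiv.Perm.one_apply, MulAction.toPermHom_apply,
        MulAction.toPerm_apply, smul_eq_mul, mul_eq_right]
      exact ⟨fun e => ⟨e ▸ Q.one_mem, e⟩, fun e => e.2⟩, mem_TQ_of_triv (by simp) _⟩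
  rw [← Finset.sum_filter] at h1
  convert h1 using 2
  ext g; simp

theorem mem_TQ_top (hQ : (Q.index : k) ≠ 0) {m : M} (hm : ∀ g, σ g m = m) (h : m ∈ TQ σ Q) :
    m ∈ TQ σ ⊤ := by
  have := Fintype.ofFinite (Γ ⧸ Q)
  have h1 := sum_mem_TQ (σ := σ) (Q := ⊤) (MulAction.toPermHom Γ (Γ ⧸ Q)) (fun _ => m)
    (fun q _ _ => (hm q).symm) fun c => by
      obtain ⟨g, rfl⟩ := QuotientGroup.mk_surjective c
      refine ⟨g⁻¹, trivial, Q, fun x => ?_, h⟩
      simp only [MulAction.toPermHom_apply, MulAction.toPerm_apply, MulAction.Quotient.smul_mk,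
        smul_eq_mul, inv_mul_cancel, mul_one, Subgroup.mem_top, true_and, QuotientGroup.eq,
        inv_mem_iff]
  rw [Finset.sum_const, Finset.card_univ, ← Nat.card_eq_fintype_card, ← Subgroup.index,
    ← Nat.cast_smul_eq_nsmul k] at h1
  have h2 := (TQ σ ⊤).smul_mem (Q.index : k)⁻¹ h1
  rwa [smul_smul, inv_mul_cancel₀ hQ, one_smul] at h2

theorem map_mem_TQ (Φ : M →ₗ[k] M') (hΦ : ∀ q ∈ Q, ∀ m, Φ (σ q m) = σ' q (Φ m)) {m : M}
    (h : m ∈ TQ σ Q) : Φ m ∈ TQ σ' Q := by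
  obtain ⟨m0, rfl⟩ := mem_TQ.1 h
  exact mem_TQ.2 ⟨Φ m0, by
    rw [map_sum]; exact Finset.sum_congr rfl fun q hq => (hΦ q (mem_sfin.1 hq) m0).symm⟩

theorem TQ_subgroupOf {N : Subgroup Γ} (h : Q ≤ N) :
    TQ (σ.comp N.subtype) (Q.subgroupOf N) = TQ σ Q := by
  unfold TQ
  congr 1
  refine Finset.sum_bij (fun q _ => (q : Γ)) (fun q hq => ?_) (fun _ _ _ _ e => Subtype.ext e)
    (fun q hq => ⟨⟨q, h (mem_sfin.1 hq)⟩, ?_, rfl⟩) fun _ _ => rfl
  · exact mem_sfin.2 (Subgroup.mem_subgroupOf.1 (mem_sfin.1 hq))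
  · exact mem_sfin.2 (Subgroup.mem_subgroupOf.2 (mem_sfin.1 hq))

theorem sum_comp_surj {A : Type*} [AddCommMonoid A] (π : Γ' →* Γ) (hπ : Function.Surjective π)
    (F : Γ → A) : ∑ n ∈ sfin ⊤, F (π n) = Nat.card π.ker • ∑ h ∈ sfin ⊤, F h := by
  classical
  have := Fintype.ofFinite Γ'
  rw [← Finset.sum_fiberwise_of_maps_to (g := π) (t := sfin ⊤) (by simp), Finset.smul_sum]
  refine Finset.sum_congr rfl fun h _ => ?_
  rw [Finset.sum_congr rfl (g := fun _ => F h) fun n hn => by rw [(Finset.mem_filter.1 hn).2],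
    Finset.sum_const]
  congr 1
  have h1 : (sfin ⊤ : Finset Γ') = Finset.univ := by ext; simp
  rw [h1, MonoidHom.card_fiber_eq_of_mem_range π (hπ h) ⟨1, map_one π⟩, Nat.card_eq_fintype_card,
    Fintype.card_subtype]
  simp [MonoidHom.mem_ker]

theorem TQ_comp_surj (π : Γ' →* Γ) (hπ : Function.Surjective π) (h : (Nat.card π.ker : k) ≠ 0) :
    TQ (σ.comp π) ⊤ = TQ σ ⊤ := by
  unfold TQ
  rw [show ∑ q ∈ sfin ⊤, (σ.comp π) q = _ from sum_comp_surj π hπ σ, ← Nat.cast_smul_eq_nsmul k,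
    LinearMap.range_smul _ _ h]

end Tr

section Grp

variable {k : Type} [Field k] {G : Type u} [Group G] [Finite G]

variable (k) in
/-- The group element in the group algebra. -/
noncomputable abbrev gel (g : G) : k[G] := MonoidAlgebra.single g 1

theorem sg_mul (g h : G) : gel k g * gel k h = gel k (g * h) := by
  rw [MonoidAlgebra.single_mul_single, one_mul]

theorem sg_one : gel k (1 : G) = 1 := rfl

theorem single_eq_smul (g : G) (r : k) : (MonoidAlgebra.single g r : k[G]) = r • gel k g := by simp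

variable (k G) in
/-- The Casimir data of a group algebra. -/
noncomputable def gCas : Cas k k[G] where
  ι := G
  fin := Fintype.ofFinite G
  a g := gel k g
  b g := gel k g⁻¹
  τ := ⟨⟨fun x => x.coeff 1, fun _ _ => rfl⟩, fun _ _ => rfl⟩
  symm x y := by
    have := Fintype.ofFinite G
    change (x * y).coeff 1 = (y * x).coeff 1
    rw [coeff_mul_eq_sum, coeff_mul_eq_sum']
    exact Finset.sum_congr rfl fun g _ => by simp [mul_comm]
  d1 x := by
    let _ := Fintype.ofFinite G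
    conv_rhs => rw [eq_sum_smul_single x]
    refine Finset.sum_congr rfl fun g _ => ?_
    change (gel k g⁻¹ * x).coeff 1 • _ = _
    rw [MonoidAlgebra.coeff_single_mul_apply]; simp
  d2 x := by
    let _ := Fintype.ofFinite G
    conv_rhs => rw [eq_sum_smul_single x]
    refine Fintype.sum_equiv (Equiv.inv G) _ _ fun g => ?_
    change (x * gel k g).coeff 1 • _ = _
    rw [MonoidAlgebra.coeff_mul_single_apply]; simp

variable {U Y : AM k k[G]}

theorem ρ_sg_mul (U : AM k k[G]) (g h : G) (u : U.V) :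
    U.ρ (gel k g) (U.ρ (gel k h) u) = U.ρ (gel k (g * h)) u := by rw [← ρ_mul, sg_mul]

theorem ρ_sg_one (U : AM k k[G]) (u : U.V) : U.ρ (gel k 1) u = u := by rw [sg_one, map_one]; rfl

/-- The conjugation action on linear maps. -/
noncomputable def cjr (U Y : AM k k[G]) : G →* Module.End k (U.V →ₗ[k] Y.V) where
  toFun g :=
    { toFun := fun h => Y.ρ (gel k g) ∘ₗ h ∘ₗ U.ρ (gel k g⁻¹)
      map_add' := fun _ _ => by ext; simp
      map_smul' := fun _ _ => by ext; simp }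
  map_one' := by ext; simp [ρ_sg_one]
  map_mul' g h := by ext; simp [ρ_sg_mul]

theorem cjr_apply (g : G) (h : U.V →ₗ[k] Y.V) (u : U.V) :
    cjr U Y g h u = Y.ρ (gel k g) (h (U.ρ (gel k g⁻¹) u)) := rfl

theorem PHom_eq_TQ (C : Cas k k[G]) (U Y : AM k k[G]) : C.PHom U Y = TQ (cjr U Y) ⊤ := by
  rw [Cas.PHom_eq C (gCas k G), Cas.PHom, TQ]
  congr 1
  refine LinearMap.ext fun h => ?_
  rw [Cas.Tr_def, LinearMap.sum_apply]
  exact Finset.sum_congr (Finset.ext fun g : G =>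
    iff_of_true (Finset.mem_univ _) ((mem_sfin (Γ := G)).2 trivial)) fun _ _ => rfl

theorem mem_Hom_iff {h : U.V →ₗ[k] Y.V} : h ∈ Hom U Y ↔ ∀ g, cjr U Y g h = h := by
  refine ⟨fun hh g => LinearMap.ext fun u => by
    rw [cjr_apply, hh, ρ_sg_mul, mul_inv_cancel, ρ_sg_one], fun hh a x => ?_⟩
  induction a using MonoidAlgebra.induction_linear with
  | zero => simp
  | add x y hx hy => simp [hx, hy]
  | single g r =>
    have := LinearMap.congr_fun (hh g) (U.ρ (gel k g) x)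
    rw [cjr_apply, ρ_sg_mul, inv_mul_cancel, ρ_sg_one] at this
    rw [single_eq_smul]
    simp only [map_smul, LinearMap.smul_apply, this]

variable (k G) in
/-- The conjugation action on the group algebra. -/
noncomputable def cjL : G →* Module.End k k[G] where
  toFun g := (cj g).toLinearMap
  map_one' := LinearMap.ext cj_one
  map_mul' g h := LinearMap.ext (cj_mul g h)

theorem cjL_apply (g : G) (a : k[G]) : cjL k G g a = gel k g * a * gel k g⁻¹ := cj_eq_mul g a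

variable {Q : Subgroup G}

theorem mem_TQ_cjL {i : k[G]} (hi : IsFixed Q i)
    (h0 : ∀ u ∈ Q, u ≠ 1 → ∀ g, Commute u g → i.coeff g = 0) : i ∈ TQ (cjL k G) Q := by
  have := Fintype.ofFinite G
  rw [eq_sum_smul_single i]
  refine sum_mem_TQ ((MulAction.toPermHom (MulAut G) G).comp MulAut.conj) _ (fun q hq c => ?_)
    fun c => ⟨1, Q.one_mem, Q ⊓ Subgroup.centralizer {c}, fun g => ?_, ?_⟩
  · change i.coeff (q * c * q⁻¹) • gel k (q * c * q⁻¹) = cjL k G q (i.coeff c • gel k c)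
    rw [hi q hq, map_smul, cjL_apply, sg_mul, sg_mul]
  · change _ ↔ _ ∧ g * (1 * c * 1⁻¹) * g⁻¹ = 1 * c * 1⁻¹
    simp [Subgroup.mem_centralizer_singleton_iff, mul_inv_eq_iff_eq_mul]
  · by_cases h : ∀ q ∈ Q ⊓ Subgroup.centralizer {c}, q = 1
    · exact mem_TQ_of_triv h _
    · push Not at h
      obtain ⟨q, hq, h1⟩ := h
      have h2 := h0 q hq.1 h1 c (Subgroup.mem_centralizer_singleton_iff.1 hq.2)
      change i.coeff (1 * c * 1⁻¹) • _ ∈ _
      simp [h2]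

theorem left_mem_TQ {i : k[G]} (hi : i ∈ TQ (cjL k G) Q) {h : U.V →ₗ[k] Y.V}
    (hh : ∀ q ∈ Q, cjr U Y q h = h) : Y.ρ i ∘ₗ h ∈ TQ (cjr U Y) Q :=
  map_mem_TQ (σ := cjL k G) (LinearMap.lcomp k Y.V h ∘ₗ Y.ρ.toLinearMap) (fun q hq a => by
    ext u
    change Y.ρ (cjL k G q a) (h u) = Y.ρ (gel k q) (Y.ρ a (h (U.ρ (gel k q⁻¹) u)))
    conv_lhs => rw [← hh q hq]
    rw [cjL_apply, cjr_apply, ρ_mul, ρ_mul, ρ_sg_mul, inv_mul_cancel, ρ_sg_one]) hi

theorem right_mem_TQ {i : k[G]} (hi : i ∈ TQ (cjL k G) Q) {h : U.V →ₗ[k] Y.V}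
    (hh : ∀ q ∈ Q, cjr U Y q h = h) : h ∘ₗ U.ρ i ∈ TQ (cjr U Y) Q :=
  map_mem_TQ (σ := cjL k G) (LinearMap.llcomp k U.V U.V Y.V h ∘ₗ U.ρ.toLinearMap) (fun q hq a => by
    ext u
    change h (U.ρ (cjL k G q a) u) = Y.ρ (gel k q) (h (U.ρ a (U.ρ (gel k q⁻¹) u)))
    conv_lhs => rw [← hh q hq]
    rw [cjL_apply, cjr_apply, ρ_mul, ρ_mul, ρ_sg_mul, inv_mul_cancel, ρ_sg_one]) hi

end Grp

end GB
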