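import Cfsg.Agent.Lib.Block.GBW1
import Cfsg.Agent.Lib.Block.FE0
import Cfsg.Agent.Lib.Char.Gallagher

/-!
# The lifted character of a free action and its windows
-/

set_option autoImplicit false
set_option linter.unusedSectionVars false

namespace GB

open Module Cfsg CT BT Complex LG
open scoped MonoidAlgebra Matrix

universe u

theorem ev_blockPart {E : Type*} [Group E] [Finite E] {θ : E → ℂ} (hθ : IsClassFunction E θ)
    (A : Set (IrrCharacter E)) (a : ℂ[E]) : ev (blockPart A θ) a = ev θ (setIdem A * a) := by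
  induction a using MonoidAlgebra.induction_linear with
  | zero => simp
  | add x y hx hy => rw [mul_add, map_add, map_add, hx, hy]
  | single g c =>
    rw [ev_single, ← ev_setIdem_mul_single hθ, ← smul_eq_mul, ← map_smul, ← mul_smul_comm,
      MonoidAlgebra.smul_single, smul_eq_mul, mul_one]

theorem exists_lab {E : Type*} [Group E] [Finite E] {κ : Type} [Fintype κ] (χ : κ → E → ℂ)
    (h : ∀ c, IsCharacter E (χ c)) (ho : ∀ c c', c ≠ c' → ip (χ c) (χ c') = 0) :
    ∃ A : Option κ → Set (IrrCharacter E), ∑ o, setIdem (A o) = 1 ∧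
      blockPart (A none) (∑ c, χ c) = 0 ∧ ∀ c, blockPart (A (some c)) (∑ c, χ c) = χ c := by
  classical
  have h1 : ∀ ψ : IrrCharacter E, ∃ o : Option κ, ∀ c, some c ≠ o → ip (χ c) ψ.1 = 0 := fun ψ => by
    by_cases h2 : ∃ c, ip (χ c) ψ.1 ≠ 0
    · obtain ⟨c, hc⟩ := h2
      exact ⟨some c, fun c' e => by_contra fun h3 => ip_ne_zero_of_common (h c') (h c) h3 hc
        (ho _ _ fun e' => e (e' ▸ rfl))⟩
    · exact ⟨none, fun c _ => by_contra fun h3 => h2 ⟨c, h3⟩⟩
  choose l hl using h1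
  refine ⟨fun o => {ψ | l ψ = o}, (isCentral_sum _ _ fun _ _ => isCentral_setIdem _).ext_omega
    isCentral_one fun ψ => by rw [omega_sum]; simp [omega_setIdem, omega_one],
    (isClassFunction_blockPart _ _).eq_zero_of_ip_eq_zero fun ψ => ?_,
    fun c => (isClassFunction_blockPart _ _).ext_ip (h c).isClassFunction fun ψ => ?_⟩
  · rw [ip_blockPart, ip_sum_left, ite_eq_right_iff]
    exact fun e => Finset.sum_eq_zero fun c _ => hl ψ c (by rw [show l ψ = none from e]; simp)
  · rw [ip_blockPart, ip_sum_left]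
    split_ifs with e
    · exact Finset.sum_eq_single c (fun c' _ e' => hl ψ c' (by
        rw [show l ψ = some c from e]; simpa using e')) (by simp)
    · exact (hl ψ c fun e' => e e'.symm).symm

theorem prod_geom (p f : ℕ) (x : ℂ) : ∏ i ∈ Finset.range f, ∑ j ∈ Finset.range p, (x ^ p ^ i) ^ j =
    ∑ j ∈ Finset.range (p ^ f), x ^ j := by
  induction f with
  | zero => simp
  | succ f ih =>
    rw [Finset.prod_range_succ, ih]
    by_cases h : x = 1
    · simp [h, pow_succ]
    refine mul_right_cancel₀ (sub_ne_zero.2 h) ?_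
    rw [mul_right_comm, geom_sum_mul, geom_sum_mul, mul_comm, geom_sum_mul, pow_succ, pow_mul]

section Frob

variable {k : Type} [Field k] [IsAlgClosed k] {p : ℕ} [hp : Fact p.Prime] [CharP k p]
  {Q : Type u} [CommGroup Q] [Fintype Q]

theorem exists_frob {V : Submodule k k[Q]} (h1 : ∀ v ∈ V, v ∈ aI k Q)
    (h2 : ∀ y ∈ aI k Q, y ∈ V ⊔ aI2 k Q) (h3 : Disjoint V (aI2 k Q)) (f : MulAut Q)
    (hf : ∀ v ∈ V, act k (MonoidHom.id _) f v ∈ V) (b : Basis (Fin (finrank k V)) k V)
    {c : Fin (finrank k V) → k} (hb : ∀ i, act k (MonoidHom.id _) f (b i) = c i • (b i : k[Q])) :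
    ∃ b' : Basis (Fin (finrank k V)) k V,
      ∀ i, act k (MonoidHom.id _) f (b' i) = c i ^ p • (b' i : k[Q]) := by
  let Φ := MonoidAlgebra.mapRingEquiv Q (frobeniusEquiv k p)
  have e0 : ∀ u a, Φ (MonoidAlgebra.single u a) = MonoidAlgebra.single u (a ^ p) := fun u a =>
    MonoidAlgebra.mapRingEquiv_single _ _ _
  have e1 : ∀ (a : k) y, Φ (a • y) = a ^ p • Φ y := fun a y => by
    rw [Algebra.smul_def, Algebra.smul_def, map_mul]
    exact congrArg (· * _) (e0 1 a)
  have e2 : ∀ y, Φ (act k (MonoidHom.id _) f y) = act k (MonoidHom.id _) f (Φ y) := fun y => by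
    induction y using MonoidAlgebra.induction_linear with
    | zero => simp
    | add x y hx hy => simp only [map_add, hx, hy]
    | single u a => rw [act_single, e0, e0, act_single]
  have e3 : ∀ y, aug k Q (Φ y) = aug k Q y ^ p := fun y => by
    induction y using MonoidAlgebra.induction_linear with
    | zero => simp [hp.out.ne_zero]
    | add x y hx hy => simp only [map_add, hx, hy, add_pow_char]
    | single u a => rw [e0, aug_single, aug_single]
  have e4 : ∀ y, Φ y ∈ aI k Q ↔ y ∈ aI k Q := fun y => by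
    rw [mem_aI, mem_aI, e3, pow_eq_zero_iff hp.out.ne_zero]
  have e5 : ∀ y ∈ aI2 k Q, Φ y ∈ aI2 k Q := fun y hy => by
    have := Ideal.mem_map_of_mem Φ.toRingHom (show y ∈ aI k Q ^ 2 from hy)
    rw [Ideal.map_pow] at this
    have h : (aI k Q).map Φ.toRingHom ≤ aI k Q :=
      Ideal.map_le_iff_le_comap.2 fun x hx => (e4 x).2 hx
    exact Ideal.pow_right_mono h 2 this
  choose y hy z hz hyz using fun i => Submodule.mem_sup.1 (h2 _ ((e4 _).2 (h1 _ (b i).2)))
  have h4 : ⊤ ≤ Submodule.span k (Set.range fun i => (⟨y i, hy i⟩ : V)) := fun v _ => by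
    obtain ⟨u, hu⟩ := Φ.surjective v
    obtain ⟨v', hv', z', hz', rfl⟩ := Submodule.mem_sup.1 (h2 u ((e4 u).1 (hu ▸ h1 _ v.2)))
    have h5 := congrArg Subtype.val (b.sum_repr ⟨v', hv'⟩)
    simp only [Submodule.coe_sum, Submodule.coe_smul] at h5
    have h6 : v = ∑ i, b.repr ⟨v', hv'⟩ i ^ p • (⟨y i, hy i⟩ : V) := by
      refine Subtype.ext (sub_eq_zero.1 (Submodule.disjoint_def.1 h3 _ (sub_mem v.2 (Subtype.prop _)) ?_))
      rw [← hu, map_add]
      nth_rw 1 [← h5]
      simp only [map_sum, e1, ← hyz, smul_add, Finset.sum_add_distrib, Submodule.coe_sum,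
        Submodule.coe_smul, add_assoc, add_sub_cancel_left]
      exact add_mem (sum_mem fun i _ => Submodule.smul_mem _ _ (hz i)) (e5 _ hz')
    rw [h6]
    exact sum_mem fun i _ => Submodule.smul_mem _ _ (Submodule.subset_span ⟨i, rfl⟩)
  refine ⟨basisOfTopLeSpanOfCardEqFinrank _ h4 (by simp), fun i => ?_⟩
  rw [coe_basisOfTopLeSpanOfCardEqFinrank]
  refine sub_eq_zero.1 (Submodule.disjoint_def.1 h3 _
    (sub_mem (hf _ (hy i)) (V.smul_mem _ (hy i))) ?_)
  have h5 := congrArg Φ (hb i)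
  rw [e2, e1, ← hyz, map_add, smul_add] at h5
  rw [show _ - _ = c i ^ p • z i - act k (MonoidHom.id _) f (z i) by linear_combination (norm := module) h5]
  exact sub_mem (Submodule.smul_mem _ _ (hz i)) (act_mem2 _ _ (hz i))

end Frob

namespace SDP

attribute [local irreducible] instFieldResF

variable {H Q E : Type u} [Group H] [CommGroup Q] [Group E] [Fintype H] [Fintype Q] [Fintype E]
  {D : SDP H Q E} {p : ℕ} [hp : Fact p.Prime] {M : Ideal AlgInt} {hM : IsPModular p M}
  (W : Wed hM E) (hE : ¬ p ∣ Nat.card E) {U : Submodule (ResF hM) (ResF hM)[Q]}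
  (hU : ∀ e, ∀ w ∈ U, act (ResF hM) D.φ e w ∈ U)

/-- The lifted character of an invariant subspace. -/
noncomputable def chr : E → ℂ :=
  bch W ((actR (ResF hM) D.φ).subrepresentation U hU).asAlgebraHom.toLinearMap

theorem coe_sub (a : (ResF hM)[E]) (v : U) :
    (((actR (ResF hM) D.φ).subrepresentation U hU).asAlgebraHom a v : (ResF hM)[Q]) =
      (actR (ResF hM) D.φ).asAlgebraHom a v := by
  induction a using MonoidAlgebra.induction_linear with
  | zero => simp
  | add x y hx hy => simp only [map_add, LinearMap.add_apply, Submodule.coe_add, hx, hy]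
  | single g c => simp only [Representation.asAlgebraHom_single]; rfl

include hU in
theorem map_le (a : (ResF hM)[E]) : U.map ((actR (ResF hM) D.φ).asAlgebraHom a) ≤ U := by
  rintro _ ⟨v, hv, rfl⟩
  exact coe_sub hU a ⟨v, hv⟩ ▸ Subtype.prop _

include hU in
theorem map_inv (A : Set (IrrCharacter E)) (e : E) :
    ∀ w ∈ U.map ((actR (ResF hM) D.φ).asAlgebraHom (idem hM A)),
      act (ResF hM) D.φ e w ∈ U.map ((actR (ResF hM) D.φ).asAlgebraHom (idem hM A)) := by
  rintro _ ⟨v, hv, rfl⟩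
  refine ⟨_, hU e v hv, ?_⟩
  have h := congrArg (fun a => (actR (ResF hM) D.φ).asAlgebraHom a v)
    (isCentral_iff_commute.1 (isCentral_idem hM A) (MonoidAlgebra.single e 1)).eq
  simp only [map_mul, Representation.asAlgebraHom_single_one] at h
  exact h

theorem subrep_mul (x y : (ResF hM)[E]) :
    ((actR (ResF hM) D.φ).subrepresentation U hU).asAlgebraHom.toLinearMap (x * y) =
      ((actR (ResF hM) D.φ).subrepresentation U hU).asAlgebraHom.toLinearMap x *
        ((actR (ResF hM) D.φ).subrepresentation U hU).asAlgebraHom.toLinearMap y :=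
  map_mul ((actR (ResF hM) D.φ).subrepresentation U hU).asAlgebraHom x y

theorem isClassFunction_chr : IsClassFunction E (chr W hU) := isClassFunction_bch _ _

include hE

theorem isCharacter_chr : IsCharacter E (chr W hU) := by
  unfold chr bch
  refine isCharacter_sum _ _ fun i _ => IsCharacter.nsmul _ ?_
  obtain ⟨χ, -, h⟩ := Φ_eq_φ W hE i
  exact h ▸ irr_isCharacter χ

theorem ev_chr {e : ℂ[E]} (he : IsInt hM e) (hee : e * e = e) : ev (chr W hU) e =
    finrank (ResF hM) (U.map ((actR (ResF hM) D.φ).asAlgebraHom (redA hM e))) := by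
  rw [chr, ev_bch W hE (subrep_mul hU) he hee, ← Submodule.finrank_map_subtype_eq]
  refine congrArg (fun X : Submodule (ResF hM) (ResF hM)[Q] => (finrank (ResF hM) X : ℂ))
    (Submodule.ext fun x => ⟨?_, ?_⟩)
  · rintro ⟨_, ⟨v, rfl⟩, rfl⟩
    exact ⟨v, v.2, (coe_sub hU _ v).symm⟩
  · rintro ⟨v, hv, rfl⟩
    exact ⟨_, ⟨⟨v, hv⟩, rfl⟩, coe_sub hU _ _⟩

theorem charDegree_chr : charDegree (chr W hU) = finrank (ResF hM) U := by
  refine charDegree_eq_of_apply_one ?_
  rw [← ev_one (chr W hU), ev_chr W hE hU (isInt_one hM) (mul_one _), redA_one, map_one,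
    Module.End.one_eq_id, Submodule.map_id]

theorem chr_map (A : Set (IrrCharacter E)) :
    chr W (map_inv hU A) = blockPart A (chr W hU) := by
  rw [← sum_ip_φ W hE (isClassFunction_chr W _), ← sum_ip_φ W hE (isClassFunction_blockPart A _)]
  refine Finset.sum_congr rfl fun i _ => congrArg (· • W.φ i) ?_
  have h1 := isInt_setIdem_of_not_dvd hM hE A
  have h2 := (isCentral_iff_commute.1 (isCentral_setIdem A) (W.e i)).eq
  rw [← Φ_eq W hE, W.ip_Φ_right (isClassFunction_chr W _),
    W.ip_Φ_right (isClassFunction_blockPart A _), ev_blockPart (isClassFunction_chr W _),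
    ev_chr W hE _ (W.e_int i) (W.e_idem i), ev_chr W hE _ (h1.mul hM (W.e_int i)) (by
      rw [mul_assoc, ← mul_assoc (W.e i), ← h2, mul_assoc, W.e_idem, ← mul_assoc, setIdem_mul,
        Set.inter_self]), h2, redA_mul hM (W.e_int i) h1, map_mul, Module.End.mul_eq_comp,
    Submodule.map_comp]
  rfl

theorem chr_pow {ι : Type} [Fintype ι] {g : E} {ζ : ι → ℂ} (b : Basis ι (ResF hM) U)
    (h : ∀ i, ζ i ^ Nat.card E = 1 ∧
      act (ResF hM) D.φ g (b i) = red hM (ζ i) • (b i : (ResF hM)[Q])) (n : ℕ) :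
    chr W hU (g ^ n) = ∑ i, ζ i ^ n := by
  classical
  refine bch_apply W hE (subrep_mul hU) b Finset.univ _
    (fun j _ => by rw [pow_right_comm, (h j).1, one_pow]) _ fun i j => Subtype.ext ?_
  rw [AlgHom.toLinearMap_apply, coe_sub, Representation.asAlgebraHom_single_one,
    if_pos (Finset.mem_univ _), red_pow hM (root_mem hM hE (h j).1), ← pow_mul, ← pow_mul]
  change act (ResF hM) D.φ _ _ = _ • (b j : (ResF hM)[Q])
  induction n * i with
  | zero => simp
  | succ m ih => rw [pow_succ, map_mul, AlgHom.mul_apply, (h j).2, map_smul, ih, smul_smul, pow_succ']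

theorem isEig_chr {ι : Type} [Fintype ι] {g : E} {ζ : ι → ℂ} (b : Basis ι (ResF hM) U)
    (h : ∀ i, ζ i ^ Nat.card E = 1 ∧
      act (ResF hM) D.φ g (b i) = red hM (ζ i) • (b i : (ResF hM)[Q])) :
    IsEig (chr W hU) g (Finset.univ.val.map ζ) :=
  isEig_of_fun (fun i e => by simpa [e, Nat.card_pos.ne'] using (h i).1) (chr_pow W hE hU b h)

omit W hE hU in
variable (D hM) in
/-- The lifted character of a free action, and the signature data given by a window. -/
theorem exists_freeCh (hQ : ∀ u : Q, u ^ p = 1) (hE : ¬ p ∣ Nat.card E)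
    (hfree : ∀ g, g ≠ 1 → ∀ u, D.φ g u = u → u = 1) :
    ∃ β : E → ℂ, FE.FreeCh p β ∧ p ^ charDegree β = Nat.card Q ∧ ∀ c, FE.Win p β c →
      ∃ (Γ : GA (ResF hM) (ResF hM)[H]) (n : ℕ) (Pd : PD Γ (Fin n)) (θ : ℝ)
        (U : Submodule ℂ (Fin n → ℂ)), GBS.PosOn (Pd.HA 0) ⊤ ∧ c ≤ finrank ℂ U ∧
        ∀ x ∈ U, GBS.qf (Pd.HA θ) x ≤ 0 := by
  classical
  obtain ⟨W⟩ := exists_wed hM E
  obtain ⟨V, S, hV⟩ := D.exists_isp (k := ResF hM) hQ hE
  have hg : ∀ y ∈ aI (ResF hM) Q, y ∈ V ⊔ aI2 (ResF hM) Q := fun y hy => by simpa using S.gen y hy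
  have hc : p ^ finrank (ResF hM) V = Fintype.card Q := by simpa using S.card
  refine ⟨chr W S.inv, ⟨isCharacter_chr W hE _, hE, fun g => ?_, fun g h1 s hs h2 => ?_⟩,
    by rw [charDegree_chr W hE, hc, Nat.card_eq_fintype_card], ?_⟩
  · obtain ⟨ζ, b, h⟩ := ISp.exists_eig_aux hE S.inv g
    obtain ⟨b', h'⟩ := exists_frob (p := p) S.le hg hV (D.φ g) (S.inv g) b fun i => (h i).2
    have h1 := chr_pow W hE S.inv (g := g) (ζ := fun i => ζ i ^ p) b' (fun i =>
      ⟨by rw [pow_right_comm, (h i).1, one_pow],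
        by rw [red_pow hM (root_mem hM hE (h i).1)]; exact h' i⟩) 1
    simp only [pow_one] at h1
    rw [chr_pow W hE S.inv b h, h1]
  · obtain ⟨ζ, b, h⟩ := ISp.exists_eig_aux hE S.inv g
    rw [hs.unique (isEig_chr W hE S.inv b h)] at h2
    obtain ⟨i, -, hi⟩ := Multiset.mem_map.1 h2
    have h3 := congrArg (red hM) (prod_fr hE (y := fun i => (b i : (ResF hM)[Q]))
      ⟨⟨hQ, fun i => S.le _ (b i).2, by rwa [Sp.span_basis]⟩, by simpa using hc⟩ h)
    have h4 : Nat.card {u // D.φ g u = u} = 1 := Nat.card_eq_one_iff_exists.2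
      ⟨⟨1, map_one _⟩, fun u => Subtype.ext (hfree g h1 _ u.2)⟩
    rw [h4, red_natCast, red_prod hM _ _ fun i _ => sum_mem fun j _ =>
      pow_mem (root_mem hM hE (h i).1) _, Finset.prod_eq_zero (Finset.mem_univ i)
      (by simp [hi])] at h3
    simp at h3
  rintro c ⟨f, χ, θ, T, h1, h2, h3, h4, h5⟩
  have h6 : ∀ i, IsCharacter E (powFun (p ^ i) χ) := fun i =>
    h1.powFun ((hp.out.coprime_iff_not_dvd.2 hE).pow_left i)
  obtain ⟨A, a1, a2, a3⟩ := exists_lab (fun i : Fin f => powFun (p ^ (i : ℕ)) χ) (fun i => h6 i)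
    fun i j e => h3 i i.2 j j.2 fun e' => e (Fin.ext e')
  rw [← Finset.sum_range fun i => powFun (p ^ i) χ, ← h2, ← chr_map W hE] at a2
  simp only [← Finset.sum_range fun i => powFun (p ^ i) χ, ← h2, ← chr_map W hE] at a3
  let U := fun o => V.map ((actR (ResF hM) D.φ).asAlgebraHom (idem hM (A o)))
  have u0 : U none = ⊥ := Submodule.finrank_eq_zero.1 (by
    rw [← charDegree_chr W hE (map_inv S.inv _), a2]
    exact charDegree_eq_of_apply_one (by simp))
  have u1 : ∀ i, finrank (ResF hM) (U (some i)) = charDegree χ := fun i => by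
    rw [← charDegree_chr W hE (map_inv S.inv _), a3, charDegree_powFun]
  have S' : D.WSp p fun i => U (some i) := by
    refine ⟨hQ, fun i v hv => S.le _ (map_le S.inv _ hv), fun y hy => ?_, ?_,
      fun i => map_inv S.inv _⟩
    · refine (sup_le_sup_right (fun v hv => ?_) _ : _ ≤ _ ⊔ aI2 _ Q) (hg y hy)
      have e := congrArg (fun a => (actR (ResF hM) D.φ).asAlgebraHom (redA hM a) v) a1
      simp only [redA_sum hM _ _ fun o _ => isInt_setIdem_of_not_dvd hM hE (A o), redA_one, map_one,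
        map_sum, LinearMap.sum_apply, Module.End.one_apply] at e
      rw [← e]
      refine sum_mem fun o _ => ?_
      have e' : _ ∈ U o := Submodule.mem_map_of_mem hv
      cases o with
      | none => exact (u0.le.trans bot_le) e'
      | some i => exact Submodule.mem_iSup_of_mem i e'
    · rw [← hc, ← charDegree_chr W hE S.inv, h2]
      congr 1
      refine (charDegree_eq_of_apply_one ?_).symm
      simp [u1, h1.apply_one]
  let w : Fin f → ℕ := fun i => p ^ (i : ℕ)
  have key : ∀ g, ∃ ζ : (Σ i, Fin (finrank (ResF hM) (U (some i)))) → ℂ,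
      GEig (S'.gr w) g (fun x => w x.1) ζ ∧ ∀ i s, IsEig χ g s →
        Finset.univ.val.map (fun j => ζ ⟨i, j⟩) = s.map (· ^ p ^ (i : ℕ)) := fun g => by
    choose ζ b h using fun i => ISp.exists_eig_aux hE (S'.inv i) g
    refine ⟨fun x => ζ x.1 x.2, ⟨WSp.fam b, S'.fr b, ?_, fun t x => S'.gr_α w t (b x.1 x.2).2,
      fun x => h x.1 x.2⟩, fun i s hs => ?_⟩
    · simp [WSp.gr_s, Fintype.sum_sigma]
    · have e := isEig_chr W hE (S'.inv i) (b i) (h i)
      rw [a3] at e
      exact e.unique ((hs.pow _).congr fun n => by rw [powFun_apply, pow_right_comm])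
  have hg' := fun g => (key g).elim fun ζ h => (⟨_, ζ, h.1⟩ : ∃ w' ζ, GEig (S'.gr w) g w' ζ)
  obtain ⟨U', e1, e2⟩ := exists_nonpos W hE (F := gF (S'.gr w) W θ) T fun g hT => by
    obtain ⟨ζ, e1, e2⟩ := key g
    obtain ⟨s, hs⟩ := exists_isEig h1 g
    convert h5 g hT s hs using 2
    rw [gF_apply _ W hE e1, FE.wf, Multiset.prod_map_mul, Multiset.map_const', Multiset.prod_replicate,
      hs.card, ← exp_nat_mul, WSp.gr_s, Fintype.prod_sigma]
    congr 1
    · simp only [u1, ← Finset.mul_sum, w]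
      rw [← Finset.sum_range fun i => p ^ i, mul_assoc (charDegree χ),
        geom_sum_mul_of_one_le hp.out.one_le, Nat.cast_mul]
      ring_nf
    · simp only [← prod_geom, Finset.prod_range (n := f), Multiset.prod_map_prod]
      refine Finset.prod_congr rfl fun i _ => ?_
      have e := congrArg (fun t : Multiset ℂ => (t.map fun a =>
        ∑ j ∈ Finset.range p, (exp (2 * θ * I) ^ w i * a) ^ j).prod) (e2 i s hs)
      simp only [Multiset.map_map, Function.comp] at e
      simp only [mul_pow (exp _) _ (p ^ _)]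
      exact e
  exact ⟨_, _, (S'.gr w).pd (wid W hE), θ, U', gposOn _ W hE hg', h4.trans e1,
    by rwa [gHA_eq _ W hE hg']⟩

end SDP

end GB
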