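import Cfsg.Agent.Lib.Block.GBA5

/-!
# Gradings of `k[P : E]` with arbitrary weights
-/

set_option autoImplicit false
set_option linter.unusedSectionVars false

namespace GB

open Module Cfsg CT BT Complex
open scoped MonoidAlgebra Matrix

universe u

open Classical in
/-- The grading attached to a family of endomorphisms that is diagonal on a basis. -/
noncomputable def SA.ofBasis {k : Type} [Field k] {A B : Type u} [Ring A] [Algebra k A] [Ring B]
    [Algebra k B] (S : SA k A B) (β : k → A →ₐ[k] A) (h1 : β 1 = AlgHom.id k A)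
    (hm : ∀ t t', β (t * t') = (β t).comp (β t')) {κ : Type*} [Fintype κ] (b : Basis κ k A)
    (dg : κ → ℕ) (s : ℕ) (hs : ∀ x, dg x < s + 1) (hb : ∀ t x, β t (b x) = t ^ dg x • b x)
    (hι : ∀ t y, β t (S.ι y) = S.ι y) (hσ : ∀ t, β t S.σ = t ^ s • S.σ) : S.Gr where
  α :=
    { toFun := fun t => AlgEquiv.ofAlgHom (β t) (β (t⁻¹ : kˣ)) (by rw [← hm, Units.mul_inv, h1])
        (by rw [← hm, Units.inv_mul, h1])
      map_one' := AlgEquiv.ext fun a => AlgHom.congr_fun h1 a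
      map_mul' := fun t t' => AlgEquiv.ext fun a => AlgHom.congr_fun (hm t t') a }
  s := s
  c d := b.constr k fun x => if dg x = d then b x else 0
  hc t a := by
    have h : (β t).toLinearMap = ∑ d ∈ Finset.range (s + 1), (t : k) ^ d •
        b.constr k fun x => if dg x = d then b x else 0 := b.ext fun x => by
      simp only [AlgHom.toLinearMap_apply, hb, LinearMap.sum_apply, LinearMap.smul_apply,
        Basis.constr_basis, smul_ite, smul_zero, Finset.sum_ite_eq, Finset.mem_range.2 (hs x),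
        if_true]
    have h2 := LinearMap.congr_fun h a
    simp only [LinearMap.sum_apply, LinearMap.smul_apply] at h2
    exact h2
  hι t y := hι t y
  hσ t := hσ t

/-- The weighted degree of a monomial. -/
def wdg {p : ℕ} {ι : Type} [Fintype ι] (w : ι → ℕ) (m : ι → Fin p) : ℕ := ∑ i, w i * m i

theorem wdg_lt {p : ℕ} {ι : Type} [Fintype ι] (w : ι → ℕ) (m : ι → Fin p) :
    wdg w m < (∑ i, w i) * (p - 1) + 1 := Nat.lt_succ_of_le (by
  rw [Finset.sum_mul]
  exact Finset.sum_le_sum fun i _ => Nat.mul_le_mul_left _ (Nat.le_sub_one_of_lt (m i).2))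

namespace SDP

variable {H Q E : Type u} [Group H] [CommGroup Q] [Group E] [Fintype H] [Fintype Q] [Fintype E]
  (D : SDP H Q E)

section

variable {k : Type} [Field k] {p : ℕ} [hp : Fact p.Prime] [CharP k p] {κ : Type} [Fintype κ]
  [DecidableEq κ]

variable (p) in
/-- An invariant splitting with several summands. -/
structure WSp (V : κ → Submodule k k[Q]) : Prop where
  exp : ∀ u : Q, u ^ p = 1
  le : ∀ c, ∀ v ∈ V c, v ∈ aI k Q
  gen : ∀ y ∈ aI k Q, y ∈ (⨆ c, V c) ⊔ aI2 k Q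
  card : p ^ (∑ c, finrank k (V c)) = Fintype.card Q
  inv : ∀ c e, ∀ v ∈ V c, act k D.φ e v ∈ V c

namespace WSp

variable {D} {V : κ → Submodule k k[Q]} (S : D.WSp p V) {ι : κ → Type} [∀ c, Fintype (ι c)]
  [∀ c, DecidableEq (ι c)]

/-- The frame attached to bases of the summands. -/
noncomputable def fam (b : ∀ c, Basis (ι c) k (V c)) (x : Σ c, ι c) : k[Q] := b x.1 x.2

include S in
theorem fr (b : ∀ c, Basis (ι c) k (V c)) : Fr p (fam b) where
  exp := S.exp
  mem x := S.le _ _ (b x.1 x.2).2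
  gen y hy := by
    refine (sup_le_sup_right (iSup_le fun c => ?_) _ : _ ≤ _ ⊔ aI2 k Q) (S.gen y hy)
    rw [← Sp.span_basis (b c)]
    exact Submodule.span_mono (by rintro _ ⟨i, rfl⟩; exact ⟨⟨c, i⟩, rfl⟩)
  card := by
    rw [← S.card, Fintype.card_sigma]
    simp only [fun c => finrank_eq_card_basis (b c)]

include S in
theorem algHom_ext {A : Type*} [Semiring A] [Algebra k A] {f g : k[Q] →ₐ[k] A}
    (h : ∀ c, ∀ v ∈ V c, f v = g v) : f = g :=
  (S.fr fun c => finBasis k (V c)).algHom_ext fun x => h _ _ (finBasis k (V x.1) x.2).2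

variable (w : κ → ℕ)

/-- The endomorphism scaling `V c` by `t ^ w c`. -/
noncomputable def α (t : k) : k[Q] →ₐ[k] k[Q] :=
  (S.fr fun c => finBasis k (V c)).sc fun x => t ^ w x.1

theorem α_V (t : k) {c : κ} {v : k[Q]} (hv : v ∈ V c) : S.α w t v = t ^ w c • v := by
  have h : (S.α w t).toLinearMap ∘ₗ (V c).subtype = t ^ w c • (V c).subtype :=
    (finBasis k (V c)).ext fun i => (S.fr fun c => finBasis k (V c)).sc_apply _ ⟨c, i⟩
  exact LinearMap.congr_fun h ⟨v, hv⟩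

theorem α_act (t : k) (e : E) (y : k[Q]) :
    S.α w t (act k D.φ e y) = act k D.φ e (S.α w t y) :=
  AlgHom.congr_fun (S.algHom_ext (f := (S.α w t).comp (act k D.φ e))
    (g := (act k D.φ e).comp (S.α w t))
    fun c v hv => by simp [S.α_V w _ hv, S.α_V w _ (S.inv c e v hv)]) y

theorem α_mono (t : k) (b : ∀ c, Basis (ι c) k (V c)) (m : (Σ c, ι c) → ℕ) :
    S.α w t (mono (fam b) m) = t ^ (∑ x, w x.1 * m x) • mono (fam b) m := by
  rw [map_mono (S.α w t) (c := fun x => t ^ w x.1) fun x => S.α_V w t (b x.1 x.2).2]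
  simp only [← pow_mul, Finset.prod_pow_eq_pow_sum]

/-- The weighted grading. -/
noncomputable def gr : (D.sa k S.exp).Gr :=
  SA.ofBasis _ (fun t => D.ext (S.α w t) (S.α_act w t))
    (D.algHom_ext (fun y => by
      rw [ext_ιQ, S.algHom_ext (f := S.α w 1) (g := AlgHom.id k _)
        fun c v hv => by simp [S.α_V w _ hv]]; rfl) fun y => D.ext_ιE _ y)
    (fun t t' => D.algHom_ext (fun y => by
      rw [AlgHom.comp_apply, ext_ιQ, ext_ιQ, ext_ιQ, S.algHom_ext (f := S.α w (t * t'))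
        (g := (S.α w t).comp (S.α w t'))
        fun c v hv => by simp [S.α_V w _ hv, smul_smul, mul_pow, mul_comm]]; rfl)
      fun y => by rw [AlgHom.comp_apply, ext_ιE, ext_ιE, ext_ιE])
    (D.basis (S.fr fun c => finBasis k (V c)).basis (MonoidAlgebra.basis E k))
    (fun x => wdg (fun x => w x.1) x.1) ((∑ x : Σ c, Fin (finrank k (V c)), w x.1) * (p - 1))
    (fun x => wdg_lt _ x.1)
    (fun t x => by
      rw [basis_apply, Fr.basis_apply, map_mul, ext_ιQ, ext_ιE, α_mono, map_smul, smul_mul_assoc]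
      rfl)
    (fun t y => D.ext_ιE _ y)
    fun t => by
      obtain ⟨c, hc⟩ := (S.fr fun c => finBasis k (V c)).exists_top
      change D.ext _ _ (D.ιQ k (sgQ k Q)) = _ • D.ιQ k (sgQ k Q)
      rw [ext_ιQ, hc, map_smul, α_mono, smul_comm, map_smul, Finset.sum_mul]

theorem gr_s : (S.gr w).s = (∑ c, finrank k (V c) * w c) * (p - 1) := by
  change (∑ x : Σ c, Fin (finrank k (V c)), w x.1) * (p - 1) = _
  simp [Fintype.sum_sigma]

theorem gr_α (t : kˣ) {c : κ} {v : k[Q]} (hv : v ∈ V c) :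
    (S.gr w).α t (D.ιQ k v) = (t : k) ^ w c • D.ιQ k v := by
  change D.ext (S.α w t) (S.α_act w t) _ = _
  rw [ext_ιQ, S.α_V w _ hv, map_smul]

end WSp

end

attribute [local irreducible] instFieldResF

variable {p : ℕ} [hp : Fact p.Prime] {M : Ideal AlgInt} {hM : IsPModular p M}
  {hQ : ∀ u : Q, u ^ p = 1} {D} (Γ : (D.sa (ResF hM) hQ).Gr) {ι : Type} [Fintype ι] [DecidableEq ι]
  (W : Wed hM E) (hE : ¬ p ∣ Nat.card E)

theorem act_pow_mono (hE : ¬ p ∣ Nat.card E) {g : E} {y : ι → (ResF hM)[Q]} {ζ : ι → ℂ}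
    (h : ∀ i, ζ i ^ Nat.card E = 1 ∧ act (ResF hM) D.φ g (y i) = red hM (ζ i) • y i) (m : ι → ℕ)
    (n : ℕ) : act (ResF hM) D.φ (g ^ n) (mono y m) = red hM (∏ i, ζ i ^ m i) ^ n • mono y m := by
  have e : act (ResF hM) D.φ g (mono y m) = red hM (∏ i, ζ i ^ m i) • mono y m := by
    rw [map_mono _ fun i => (h i).2, red_prod hM _ _ fun i _ => pow_mem (root_mem hM hE (h i).1) _]
    simp only [red_pow hM (root_mem hM hE (h _).1)]
  induction n with
  | zero => simp
  | succ n ih => rw [pow_succ, map_mul, AlgHom.mul_apply, e, map_smul, ih, smul_smul, pow_succ']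

theorem prod_pow_card {ζ : ι → ℂ} (h : ∀ i, ζ i ^ Nat.card E = 1) (m : ι → ℕ) :
    (∏ i, ζ i ^ m i) ^ Nat.card E = 1 := by
  rw [← Finset.prod_pow]
  exact Finset.prod_eq_one fun i _ => by rw [pow_right_comm, h, one_pow]

theorem prod_fr (hE : ¬ p ∣ Nat.card E) {g : E} {y : ι → (ResF hM)[Q]} (F : Fr p y) {ζ : ι → ℂ}
    (h : ∀ i, ζ i ^ Nat.card E = 1 ∧ act (ResF hM) D.φ g (y i) = red hM (ζ i) • y i) :
    ∏ i, ∑ j ∈ Finset.range p, ζ i ^ j = Nat.card {u // D.φ g u = u} := by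
  classical
  obtain ⟨W⟩ := exists_wed hM E
  rw [← bch_actR W hE, bch_apply W hE (map_mul (actR (ResF hM) D.φ).asAlgebraHom) F.basis
    Finset.univ (fun m => ∏ i, ζ i ^ (m i : ℕ)) (fun m _ => prod_pow_card (fun i => (h i).1) _) g
    fun i m => ?_, ← Fintype.piFinset_univ,
    ← Finset.prod_univ_sum _ fun i (j : Fin p) => ζ i ^ (j : ℕ)]
  · simp only [Finset.sum_range]
  · rw [AlgHom.toLinearMap_apply, Representation.asAlgebraHom_single_one,
      if_pos (Finset.mem_univ _), Fr.basis_apply]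
    exact act_pow_mono hE h _ i

/-- A homogeneous frame of eigenvectors of `g`. -/
def GEig (g : E) (w : ι → ℕ) (ζ : ι → ℂ) : Prop :=
  ∃ y : ι → (ResF hM)[Q], Fr p y ∧ (∑ i, w i) * (p - 1) = Γ.s ∧
    (∀ (t : (ResF hM)ˣ) i, Γ.α t (D.ιQ _ (y i)) = (t : ResF hM) ^ w i • D.ιQ _ (y i)) ∧
    ∀ i, ζ i ^ Nat.card E = 1 ∧ act (ResF hM) D.φ g (y i) = red hM (ζ i) • y i

open Classical in
include hE in
theorem gbch_sa {g : E} {w : ι → ℕ} {ζ : ι → ℂ} (h : GEig Γ g w ζ) {d : ℕ} (hd : d < Γ.s + 1)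
    (b : Fin W.N) : bch W (Γ.sa d (wε W b)) g =
      (∑ m : ι → Fin p with wdg w m = d, ∏ i, ζ i ^ (m i : ℕ)) * W.φ b g := by
  obtain ⟨y, F, hs, h1, h2⟩ := h
  obtain ⟨n, v, L, μ, h3, h4, h5⟩ := exists_eig_se W hE b g
  have h7 := fun m => prod_pow_card (fun i => (h2 i).1) m
  rw [bch_apply W hE (Γ.sa_mul hd (wε_idem W b)) (D.basis F.basis v)
    ((Finset.univ.filter fun m => wdg w m = d) ×ˢ L)
    (fun x => (∏ i, ζ i ^ (x.1 i : ℕ)) * μ x.2) (fun x hx => by
      rw [mul_pow, h7, h3 _ (Finset.mem_product.1 hx).2, one_mul]) g fun i x => ?_,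
    Finset.sum_product, h5, Finset.sum_mul_sum]
  have h8 : ∀ t : (ResF hM)ˣ, Γ.α t (D.basis F.basis v x) =
      (t : ResF hM) ^ wdg w x.1 • D.basis F.basis v x := fun t => by
    rw [basis_apply, map_mul, ← smul_mul_assoc, Fr.basis_apply]
    refine congrArg₂ (· * ·) ?_ (Γ.hι t _)
    let f : (ResF hM)[Q] →ₐ[ResF hM] (ResF hM)[H] := (Γ.α t).toAlgHom.comp (D.ιQ _)
    have e : ∀ (s : Finset ι), f (∏ i ∈ s, y i ^ (x.1 i : ℕ)) =
        (t : ResF hM) ^ (∑ i ∈ s, w i * x.1 i) • D.ιQ _ (∏ i ∈ s, y i ^ (x.1 i : ℕ)) := fun s => by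
      induction s using Finset.induction_on with
      | empty => simp
      | insert a s ha ih =>
        rw [Finset.prod_insert ha, Finset.sum_insert ha, map_mul, map_mul, ih, map_pow, map_pow,
          show f (y a) = _ from h1 t a, smul_pow, smul_mul_smul_comm, pow_add, pow_mul]
    exact e Finset.univ
  rw [SA.Gr.sa_apply, Γ.c_mul_ι hd, Γ.c_of_homog (hs ▸ wdg_lt w x.1) hd h8]
  simp only [Finset.mem_product, Finset.mem_filter, Finset.mem_univ, true_and]
  by_cases h9 : wdg w x.1 = d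
  · rw [if_pos h9.symm, basis_apply, Fr.basis_apply]
    change D.ιE _ _ * (_ * D.ιE _ _) = _
    rw [mul_assoc, ← mul_assoc (D.ιE _ _), ιE_mul_ιQ, act_pow_mono hE h2, mul_assoc, ← map_mul,
      ← map_mul, h4]
    by_cases h10 : x.2 ∈ L
    · rw [if_pos h10, if_pos ⟨h9, h10⟩, map_smul, map_smul, smul_mul_smul_comm, ← mul_pow,
        red_mul hM (root_mem hM hE (h7 _)) (root_mem hM hE (h3 _ h10))]
    · simp [h10]
  · simp [h9, Ne.symm h9]

/-- The normalised graded character. -/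
noncomputable def gF (θ : ℝ) : E → ℂ := exp (-(Γ.s * θ * I)) • ∑ d ∈ Finset.range (Γ.s + 1),
  exp (2 * θ * I) ^ d • ∑ b, ip 1 (W.φ b) • bch W (Γ.sa d (wε W b))

open Classical in
include hE in
theorem gψ_apply {g : E} {w : ι → ℕ} {ζ : ι → ℂ} (h : GEig Γ g w ζ) {d : ℕ} (hd : d < Γ.s + 1) :
    (∑ b, ip 1 (W.φ b) • bch W (Γ.sa d (wε W b))) g =
      ∑ m : ι → Fin p with wdg w m = d, ∏ i, ζ i ^ (m i : ℕ) := by
  have h1 := congrFun (sum_ip_φ W hE (θ := 1) fun _ _ => rfl) g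
  simp only [Finset.sum_apply, Pi.smul_apply, smul_eq_mul, gbch_sa Γ W hE h hd] at h1 ⊢
  simp only [mul_left_comm (ip 1 _), ← Finset.mul_sum, h1, Pi.one_apply, mul_one]

include hE in
theorem gF_apply {g : E} {w : ι → ℕ} {ζ : ι → ℂ} (h : GEig Γ g w ζ) (θ : ℝ) :
    gF Γ W θ g = exp (-(Γ.s * θ * I)) *
      ∏ i, ∑ j ∈ Finset.range p, (exp (2 * θ * I) ^ w i * ζ i) ^ j := by
  classical
  have hs : (∑ i, w i) * (p - 1) = Γ.s := h.choose_spec.2.1
  simp only [Finset.sum_range (n := p)]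
  rw [Finset.prod_univ_sum, Fintype.piFinset_univ, gF, Pi.smul_apply, smul_eq_mul, Finset.sum_apply,
    ← Finset.sum_fiberwise_of_maps_to (t := Finset.range (Γ.s + 1)) (g := wdg w)
      fun m _ => Finset.mem_range.2 (hs ▸ wdg_lt w m)]
  refine congrArg _ (Finset.sum_congr rfl fun d hd => ?_)
  rw [Pi.smul_apply, gψ_apply Γ W hE h (Finset.mem_range.1 hd), smul_eq_mul, Finset.mul_sum]
  refine Finset.sum_congr (by convert rfl) fun m hm => ?_
  rw [← (Finset.mem_filter.1 hm).2]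
  simp [wdg, mul_pow, Finset.prod_mul_distrib, ← pow_mul, Finset.prod_pow_eq_pow_sum]

variable (hg : ∀ g, ∃ (w : ι → ℕ) (ζ : ι → ℂ), GEig Γ g w ζ)
include hg

theorem gHA_eq (θ : ℝ) : (Γ.pd (wid W hE)).HA θ = mulM W (gF Γ W θ) := by
  ext a b
  rw [PD.HA, Matrix.of_apply, GM.hz, Γ.eval_G_pd, mulM, Matrix.of_apply, gF, smul_mul_assoc,
    ip_smul_left, Finset.sum_mul, ip_sum_left]
  refine congrArg _ (Finset.sum_congr rfl fun d hd => ?_)
  have h1 := Finset.mem_range.1 hd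
  rw [smul_mul_assoc, ip_smul_left, wid_ε, wid_ε, ← Γ.range_sa h1 (wε_idem W a) (wε_idem W b),
    ← ip_bch, Φ_eq W hE, mul_comm]
  congr 2
  funext g
  obtain ⟨w, ζ, h⟩ := hg g
  rw [Pi.mul_apply, gψ_apply Γ W hE h h1, gbch_sa Γ W hE h h1]

theorem gposOn : GBS.PosOn ((Γ.pd (wid W hE)).HA 0) ⊤ := by
  rw [gHA_eq Γ W hE hg]
  refine posOn_mulM W fun g => ?_
  obtain ⟨w, ζ, h⟩ := hg g
  have : Nonempty {u // D.φ g u = u} := ⟨⟨1, map_one _⟩⟩
  have h1 := gF_apply Γ W hE h 0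
  obtain ⟨y, F, -, -, h2⟩ := h
  simp only [ofReal_zero, mul_zero, zero_mul, neg_zero, exp_zero, one_pow, one_mul,
    prod_fr hE F h2] at h1
  rw [h1, natCast_re]
  exact Nat.cast_pos.2 Nat.card_pos

end SDP

end GB
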