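import Cfsg.Agent.Lib.Block.CentralDef
import Cfsg.Agent.Lib.Block.Major
import Cfsg.Agent.Lib.Block.Robinson

/-!
# Heights against the centre of a defect group: general tools

A positive height is smaller than the defect relative to a central `p`-subgroup; the sum of two
characters of the same degree does not vanish on a major section for odd `p`; defect groups are
radical.
-/

set_option autoImplicit false
set_option linter.unusedSectionVars false

namespace BT

open Cfsg CT
open scoped MonoidAlgebra ComplexConjugate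

variable {p : ℕ} [Fact p.Prime] {M : Ideal AlgInt} (hM : IsPModular p M)
variable {G : Type*} [Group G] [Finite G]

/-- `|Z| [χ°, χ] ≤ 1` for a central `p`-subgroup `Z`. -/
theorem card_mul_ip_pRegularPart_self_le {Z : Subgroup G} (hZ : IsPGroup p Z)
    (hZc : Z ≤ Subgroup.center G) (χ : IrrCharacter G) :
    ((Nat.card Z : ℂ) * ip (pRegularPart p χ.1) χ.1).re ≤ 1 := by
  classical
  have := Fintype.ofFinite G
  have := Fintype.ofFinite Z
  have key : (Nat.card Z : ℂ) * ip (pRegularPart p χ.1) χ.1 = (Nat.card G : ℂ)⁻¹ *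
      ∑ g, if GT.pPart p g ∈ Z then χ.1 g * conj (χ.1 g) else 0 := by
    rw [ip_def, sum_eq_sum_sum_of_vanish hZ
      (F := fun g => if GT.pPart p g ∈ Z then χ.1 g * conj (χ.1 g) else 0)
      (fun y hy x _ => (Subgroup.mem_center_iff.1 (hZc hy) x).symm) (fun g hg => if_neg hg),
      mul_left_comm]
    congr 1
    rw [Nat.card_eq_fintype_card (α := Z), ← Finset.card_univ, ← nsmul_eq_mul, ← Finset.sum_const]
    refine Finset.sum_congr rfl fun y _ => Finset.sum_congr rfl fun x _ => ?_
    rw [pRegularPart_apply]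
    by_cases hx : p ∣ orderOf x
    · simp [hx]
    · have h1 : χ.1 y / χ.1 1 * conj (χ.1 y / χ.1 1) = 1 := by
        rw [Complex.mul_conj, Complex.normSq_eq_norm_sq, norm_eq_one_of_pow_eq_one'
          (orderOf_pos (y : G)).ne' (irr_central_pow_eq_one χ (hZc y.2) (pow_orderOf_eq_one _))]
        simp
      have h2 : GT.pPart p ((y : G) * x) = y :=
        GT.pPart_mul_eq (Subgroup.mem_center_iff.1 (hZc y.2) x).symm (GT.isPElt_of_mem hZ y.2) hx
      rw [if_neg hx, if_neg hx, h2, if_pos y.2, irr_apply_central_mul χ (hZc y.2), map_mul]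
      linear_combination -(χ.1 x * conj (χ.1 x)) * h1
  have h1 := ip_irr_self χ
  rw [ip_def] at h1
  have h2 : ((Nat.card G : ℂ)⁻¹ * ∑ g, χ.1 g * conj (χ.1 g)).re = 1 := by rw [h1]; simp
  rw [key, ← h2]
  have h3 : (Nat.card G : ℂ)⁻¹ = (((Nat.card G : ℝ)⁻¹ : ℝ) : ℂ) := by push_cast; rfl
  rw [h3, Complex.re_ofReal_mul, Complex.re_ofReal_mul, Complex.re_sum, Complex.re_sum]
  refine mul_le_mul_of_nonneg_left (Finset.sum_le_sum fun g _ => ?_) (by positivity)
  split_ifs
  · exact le_rfl
  · rw [Complex.mul_conj]; simp [Complex.normSq_nonneg]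

include hM in
/-- A positive height is smaller than the defect relative to a central `p`-subgroup. -/
theorem height_add_lt_of_central {B : Set (IrrCharacter G)} (hB : IsPBlock M B)
    {Z : Subgroup G} (hZ : IsPGroup p Z) (hZc : Z ≤ Subgroup.center G) {χ : IrrCharacter G}
    (hχ : χ ∈ B) (h : blockHeight p B χ.1 ≠ 0) :
    blockHeight p B χ.1 + (Nat.card Z).factorization p < blockDefect p B := by
  have hp : p.Prime := Fact.out
  obtain ⟨k, hk⟩ := IsPGroup.iff_card.1 hZ
  have h1 := (pow_succ_dvd_cm_iff hM hB hχ hχ).2 h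
  have h2 := cm_self_pos hM hB hχ
  have h3 := Int.le_of_dvd h2 h1
  have h4 := card_mul_ip_pRegularPart_self_le hZ hZc χ
  have h5 := cm_cast_irr (p := p) hχ χ
  have h6 : ((Nat.card Z : ℂ) * (cm p B χ.1 χ.1 : ℂ)).re ≤ (p : ℝ) ^ blockDefect p B := by
    rw [h5, mul_left_comm]
    have : (p : ℂ) ^ blockDefect p B = (((p : ℝ) ^ blockDefect p B : ℝ) : ℂ) := by push_cast; rfl
    rw [this, Complex.re_ofReal_mul]
    exact mul_le_of_le_one_right (by positivity) h4
  have h7 : ((Nat.card Z : ℂ) * (cm p B χ.1 χ.1 : ℂ)).re =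
      (((Nat.card Z : ℤ) * cm p B χ.1 χ.1 : ℤ) : ℝ) := by
    have : (Nat.card Z : ℂ) * (cm p B χ.1 χ.1 : ℂ) =
        ((((Nat.card Z : ℤ) * cm p B χ.1 χ.1 : ℤ) : ℝ) : ℂ) := by push_cast; rfl
    rw [this, Complex.ofReal_re]
  rw [h7] at h6
  have h8 : (Nat.card Z : ℤ) * cm p B χ.1 χ.1 ≤ (p : ℤ) ^ blockDefect p B := by exact_mod_cast h6
  rw [hk, Nat.Prime.factorization_pow hp, Finsupp.single_eq_same]
  rw [hk] at h8
  have h9 : (p : ℤ) ^ (blockHeight p B χ.1 + k + 1) ≤ (p : ℤ) ^ blockDefect p B := by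
    refine le_trans ?_ h8
    push_cast
    rw [show blockHeight p B χ.1 + k + 1 = k + (blockHeight p B χ.1 + 1) by ring, pow_add]
    exact mul_le_mul_of_nonneg_left h3 (by positivity)
  exact (pow_le_pow_iff_right₀ (by exact_mod_cast hp.one_lt)).1 h9

include hM in
/-- For odd `p`, the sum of a member of `B` and a character of the same degree does not vanish on
the `p`-section of a central element of a defect group. -/
theorem exists_add_apply_mul_ne_zero (hp2 : p ≠ 2) {B : Set (IrrCharacter G)} (hB : IsPBlock M B)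
    {D : Subgroup G} (hD : IsDefectGroup p M B D) {u : G} (hu : u ∈ D)
    (hc : ∀ x ∈ D, u * x = x * u) {χ χ' : IrrCharacter G} (hχ : χ ∈ B) (h1 : χ'.1 1 = χ.1 1) :
    ∃ y : G, ¬ p ∣ orderOf y ∧ Commute u y ∧ χ.1 (u * y) + χ'.1 (u * y) ≠ 0 := by
  have hu' : GT.IsPElt p u := GT.isPElt_of_mem (isPGroup_of_isDefectGroup hD) hu
  obtain ⟨b, hb, -, hd⟩ := exists_major_subsection hM hB hD hu rfl fun x hx =>
    Subgroup.mem_centralizer_singleton_iff.2 (hc x hx).symm
  by_contra h
  push Not at h
  have h0 : subsec p _ u b (χ.1 + χ'.1) = 0 := by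
    have h1 : pRegularPart p (shift (Subgroup.centralizer ({u} : Set G)) u (χ.1 + χ'.1)) = 0 := by
      funext c
      by_cases hc : p ∣ orderOf c
      · exact pRegularPart_of_dvd _ hc
      · rw [pRegularPart_of_not_dvd _ hc]
        exact h c (by rwa [Subgroup.orderOf_coe]) (commute_of_eq_centralizer rfl c)
    rw [subsec_def, ← blockPart_pRegularPart hM hb.1
      (isClassFunction_shift rfl ((irr_isClassFunction χ).add (irr_isClassFunction χ'))), h1,
      blockPart_zero]
  rw [subsec_add] at h0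
  by_cases hχ' : χ' ∈ B
  · obtain ⟨ξ, hξ, hξ0⟩ := exists_height_zero hM hB
    have h2 := card_mul_contr_div_sub_mem hM rfl hu' hb.1 (irr_isCharacter ξ).isGen hB hχ hχ'
    have h3 : contr p _ u b χ'.1 ξ.1 = - contr p _ u b χ.1 ξ.1 := by
      rw [contr_def, contr_def, eq_neg_of_add_eq_zero_right h0, ip_neg_left]
    rw [h3, h1] at h2
    have h4 := (pow_div_mul_contr_mem_locIdeal_iff hM rfl hu' hb hd hξ hχ).not.2 (not_not.2 hξ0)
    obtain ⟨v, hv, hv', hv2⟩ := card_div_apply_one_eq hM hχ
    apply h4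
    have h5 : (Nat.card G : ℂ) * contr p _ u b χ.1 ξ.1 / χ.1 1 -
        Nat.card G * -contr p _ u b χ.1 ξ.1 / χ.1 1 = (((2 : ℕ) : ℂ) * v) *
        ((p : ℂ) ^ blockDefect p B / (p : ℂ) ^ blockHeight p B χ.1 * contr p _ u b χ.1 ξ.1) := by
      rw [mul_div_right_comm, mul_div_right_comm, hv2]; push_cast; ring
    rw [h5] at h2
    have h6 := pow_div_mul_contr_mem_locRing hM rfl hu' hb.1 (irr_isCharacter ξ).isGen hχ
    have h7 : ((2 : ℕ) : ℂ) ∉ locIdeal hM := by
      rw [natCast_mem_locIdeal_iff]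
      exact fun h => hp2 ((Nat.prime_dvd_prime_iff_eq Fact.out Nat.prime_two).1 h)
    rcases mem_or_mem_of_mul_mem_locIdeal hM (mul_mem (natCast_mem _ _) hv) h6 h2 with h8 | h8
    · rcases mem_or_mem_of_mul_mem_locIdeal hM (natCast_mem _ _) hv h8 with h9 | h9
      · exact absurd h9 h7
      · exact absurd h9 hv'
    · exact h8
  · rw [subsec_eq_zero_of_not_mem hM rfl hu' hb hχ', add_zero] at h0
    exact subsec_ne_zero_of_major hM rfl hu' hb hd hχ h0

include hM in
/-- Defect groups are radical. -/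
theorem le_of_normalizer_le_of_isDefectGroup {B : Set (IrrCharacter G)} (hB : IsPBlock M B)
    {D : Subgroup G} (hD : IsDefectGroup p M B D) {R : Subgroup G} (hR : IsPGroup p R)
    (h1 : R ≤ Subgroup.normalizer (D : Set G))
    (h2 : Subgroup.normalizer (D : Set G) ≤ Subgroup.normalizer (R : Set G)) : R ≤ D := by
  obtain ⟨h3, h4⟩ := first_main_br hM (bIdem_top_idem hM hB) (defGrp_of_isDefectGroup hM hB hD)
  rw [top_inf_eq] at h3 h4
  exact h3.le_defGrp hM h1 h2 hR h4

include hM in
/-- A defect group is a Sylow subgroup of the centralizer of a `p`-regular element. -/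
theorem exists_regular_isSylowIn {B : Set (IrrCharacter G)} (hB : IsPBlock M B)
    {D : Subgroup G} (hD : IsDefectGroup p M B D) :
    ∃ s : G, ¬ p ∣ orderOf s ∧ GT.IsSylowIn p D (Subgroup.centralizer ({s} : Set G)) := by
  obtain ⟨s, hs, h⟩ := isDefectGroup_iff_isSylowIn.1 hD
  obtain ⟨χ, hχ⟩ := block_nonempty hM hB
  refine ⟨s, fun hd => ((isDefectClass_iff hM hB hχ s).1 hs).1 ?_, h⟩
  rw [coeff_idem, blockCoeff_eq_zero_of_dvd_orderOf hM hB hd, red_zero]

include hM in
/-- The form of Robinson's bound in the statements. -/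
theorem height_le_index_center {B : Set (IrrCharacter G)} (hB : IsPBlock M B)
    {D : Subgroup G} (hD : IsDefectGroup p M B D) {χ : IrrCharacter G}
    (h : blockHeight p B χ.1 ≠ 0 → blockHeight p B χ.1 +
      (Nat.card (Subgroup.center D)).factorization p < blockDefect p B) :
    blockHeight p B χ.1 ≤ ((Subgroup.center D).index).factorization p ∧
      (blockHeight p B χ.1 = ((Subgroup.center D).index).factorization p ↔
        IsMulCommutative D) := by
  have hp : p.Prime := Fact.out
  have h1 : (Nat.card (Subgroup.center D)).factorization p +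
      ((Subgroup.center D).index).factorization p = blockDefect p B := by
    rw [← factorization_card_defectGroup hM hB hD, ← (Subgroup.center D).card_mul_index,
      Nat.factorization_mul Nat.card_pos.ne' Subgroup.index_ne_zero_of_finite]
    rfl
  have h2 : ((Subgroup.center D).index).factorization p = 0 ↔ IsMulCommutative D := by
    obtain ⟨k, hk⟩ := IsPGroup.index (isPGroup_of_isDefectGroup hD) (Subgroup.center D)
    rw [hk, Nat.Prime.factorization_pow hp, Finsupp.single_eq_same]
    constructor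
    · rintro rfl
      rw [pow_zero, Subgroup.index_eq_one] at hk
      exact ⟨⟨fun a b => (Subgroup.mem_center_iff.1 (hk ▸ Subgroup.mem_top b) a)⟩⟩
    · intro hc
      have : Subgroup.center D = ⊤ := eq_top_iff.2 fun a _ =>
        Subgroup.mem_center_iff.2 fun b => hc.is_comm.comm b a
      rw [this, Subgroup.index_top] at hk
      exact (Nat.pow_eq_one.1 hk.symm).resolve_left hp.ne_one
  by_cases h0 : blockHeight p B χ.1 = 0
  · rw [h0]
    exact ⟨Nat.zero_le _, eq_comm.trans h2⟩
  · have h3 := h h0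
    refine ⟨by omega, ⟨fun h => by omega, fun h => ?_⟩⟩
    have := h2.2 h
    omega

end BT
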