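import Cfsg.Agent.Lib.Block.Alp
import Cfsg.Agent.Lib.Block.TameChar
import Cfsg.Agent.Lib.Block.RobAux

/-!
# Heights in `2`-blocks with a non-abelian defect group of order sixteen
-/

set_option autoImplicit false
set_option linter.unusedSectionVars false

namespace BT

open Cfsg GT Subgroup
open CT hiding center
open scoped ComplexConjugate

section grp

variable {D : Type*} [Group D] [Finite D]

theorem h16_sq_mem_center (h4 : (center D).index = 4) (hna : ¬ IsMulCommutative D) (x : D) :
    x * x ∈ center D := by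
  have h1 : ¬ IsCyclic (D ⧸ center D) := fun h =>
    hna (isMulCommutative_of_isCyclic_quotient (le_refl (center D)))
  have h2 : orderOf (x : D ⧸ center D) ∣ 2 ^ 2 := by
    rw [show 2 ^ 2 = (center D).index from h4.symm]
    exact orderOf_dvd_natCard _
  obtain ⟨k, hk, h3⟩ := (Nat.dvd_prime_pow Nat.prime_two).1 h2
  have h5 : k ≠ 2 := by
    rintro rfl
    exact h1 (isCyclic_of_orderOf_eq_card _ (h3.trans h4.symm))
  rw [← QuotientGroup.eq_one_iff, QuotientGroup.mk_mul, ← sq, ← orderOf_dvd_iff_pow_eq_one, h3]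
  exact pow_dvd_pow 2 (show k ≤ 1 by omega)

theorem h16_cosets (h4 : (center D).index = 4) {a b : D} (hab : a * b ≠ b * a) (x : D) :
    x ∈ center D ∨ a⁻¹ * x ∈ center D ∨ b⁻¹ * x ∈ center D ∨ (a * b)⁻¹ * x ∈ center D := by
  classical
  haveI := Fintype.ofFinite (D ⧸ center D)
  have ha : a ∉ center D := fun h => hab (mem_center_iff.1 h b).symm
  have hb : b ∉ center D := fun h => hab (mem_center_iff.1 h a)
  have h1 : a⁻¹ * b ∉ center D := fun h => hab (by
    have := mem_center_iff.1 h a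
    calc a * b = a * (a * (a⁻¹ * b)) := by group
      _ = b * a := by rw [this]; group)
  have h2 : a * b ∉ center D := fun h => hab (by
    have := mem_center_iff.1 h a⁻¹
    calc a * b = a * b * a⁻¹ * a := by group
      _ = b * a := by rw [← this]; group)
  have h3 : b⁻¹ * (a * b) ∉ center D := fun h => hab (by
    have := mem_center_iff.1 h b
    calc a * b = b * (b⁻¹ * (a * b)) := by group
      _ = b * (b⁻¹ * (a * b) * b) * b⁻¹ := by group
      _ = b * a := by rw [← this]; group)
  have h5 : ({1, a, b, a * b} : Finset D).image (fun y : D => (y : D ⧸ center D)) =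
      Finset.univ := by
    refine Finset.eq_univ_of_card _ ?_
    rw [← Nat.card_eq_fintype_card, show Nat.card (D ⧸ center D) = 4 from h4]
    simp only [Finset.image_insert, Finset.image_singleton]
    rw [Finset.card_insert_of_notMem, Finset.card_insert_of_notMem, Finset.card_pair]
    · exact fun h => h3 (QuotientGroup.eq.1 h)
    · simp only [Finset.mem_insert, Finset.mem_singleton, QuotientGroup.eq, not_or]
      exact ⟨h1, by simpa using hb⟩
    · simp only [Finset.mem_insert, Finset.mem_singleton, QuotientGroup.eq, not_or]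
      exact ⟨by simpa using ha, by simpa using hb, by simpa using h2⟩
  have h6 := h5 ▸ Finset.mem_univ (x : D ⧸ center D)
  simp only [Finset.image_insert, Finset.image_singleton, Finset.mem_insert, Finset.mem_singleton,
    eq_comm (a := (x : D ⧸ center D)), QuotientGroup.eq] at h6
  simpa using h6

/-- In a non-abelian group with centre of order and index four, some non-trivial central square
has an automorphism class missing a non-trivial central element. -/
theorem h16_exists (h4 : (center D).index = 4) (hZ : Nat.card (center D) = 4)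
    (hna : ¬ IsMulCommutative D) : ∃ s ∈ center D, ∃ w ∈ center D, s ≠ 1 ∧ w ≠ 1 ∧
      (∃ x, s = x * x) ∧ ((orderOf s ≠ orderOf w) ∨ ∀ x, w ≠ x * x) := by
  classical
  obtain ⟨a, b, hab⟩ : ∃ a b : D, a * b ≠ b * a := by
    by_contra! h
    exact hna ⟨⟨h⟩⟩
  by_cases he : ∀ z ∈ center D, z * z = 1
  swap
  · push Not at he
    obtain ⟨z, hz, hzz⟩ := he
    refine ⟨z * z, mul_mem hz hz, z, hz, hzz, fun h => hzz (by rw [h, mul_one]), ⟨z, rfl⟩,
      Or.inl fun h => ?_⟩
    have h1 : orderOf z ∣ 2 ^ 2 := by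
      rw [show 2 ^ 2 = Nat.card (center D) from hZ.symm, ← orderOf_coe (⟨z, hz⟩ : center D) |>.symm]
      exact orderOf_dvd_natCard _
    have h2 : (z * z) ^ 2 = 1 := by
      rw [← sq, ← pow_mul]
      exact orderOf_dvd_iff_pow_eq_one.1 h1
    rw [← orderOf_dvd_iff_pow_eq_one, h, orderOf_dvd_iff_pow_eq_one, sq] at h2
    exact hzz h2
  have hsq : ∀ x : D, x * x = 1 ∨ x * x = a * a ∨ x * x = b * b ∨ x * x = a * b * (a * b) := by
    have key : ∀ c x : D, c⁻¹ * x ∈ center D → x * x = c * c := fun c x h => by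
      have h1 := he _ h
      have h2 := mem_center_iff.1 h c
      calc x * x = c * (c⁻¹ * x * c) * (c⁻¹ * x) := by group
        _ = c * c * (c⁻¹ * x * (c⁻¹ * x)) := by rw [← h2]; group
        _ = c * c := by rw [h1, mul_one]
    intro x
    rcases h16_cosets h4 hab x with h | h | h | h
    exacts [Or.inl (he x h), Or.inr (Or.inl (key _ _ h)), Or.inr (Or.inr (Or.inl (key _ _ h))),
      Or.inr (Or.inr (Or.inr (key _ _ h)))]
  obtain ⟨x, hx⟩ : ∃ x : D, x * x ≠ 1 := by
    by_contra! h
    refine hab ?_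
    have h1 := h (a * b)
    calc a * b = a * (a * a) * b * (b * b) := by rw [h a, h b]; group
      _ = a * a * (a * b) * (b * b) := by group
      _ = b * a := by
        rw [h a, h b, one_mul, mul_one, ← inv_eq_of_mul_eq_one_left h1, mul_inv_rev,
          inv_eq_of_mul_eq_one_left (h a), inv_eq_of_mul_eq_one_left (h b)]
  by_contra! hc
  have h1 : ∀ w ∈ center D, w ≠ 1 → ∃ y, w = y * y := fun w hw hw1 =>
    (hc _ (h16_sq_mem_center h4 hna x) w hw hx hw1 ⟨x, rfl⟩).2
  haveI := Fintype.ofFinite D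
  have h2 : (Finset.univ.filter (· ∈ center D)) ⊆ {1, a * a, b * b, a * b * (a * b)} := by
    intro w hw
    simp only [Finset.mem_insert, Finset.mem_singleton]
    by_cases hw1 : w = 1
    · exact Or.inl hw1
    · obtain ⟨y, rfl⟩ := h1 w (Finset.mem_filter.1 hw).2 hw1
      exact hsq y
  have h3 : (Finset.univ.filter (· ∈ center D)).card = 4 := by
    rw [← hZ, ← Nat.card_eq_finsetCard]
    exact Nat.card_congr (Equiv.subtypeEquivRight fun x => by simp)
  have h5 := Finset.card_le_card h2
  have h6 := h2 (show a * a * (b * b) ∈ _ from Finset.mem_filter.2 ⟨Finset.mem_univ _,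
    mul_mem (h16_sq_mem_center h4 hna a) (h16_sq_mem_center h4 hna b)⟩)
  rw [h3] at h5
  simp only [Finset.mem_insert, Finset.mem_singleton] at h6
  rcases h6 with h | h | h | h
  · have : a * a = b * b := by
      rw [← inv_eq_of_mul_eq_one_left h,
        inv_eq_of_mul_eq_one_left (he _ (h16_sq_mem_center h4 hna b))]
    rw [this, Finset.insert_eq_of_mem (a := b * b) (Finset.mem_insert_self _ _)] at h5
    have := Finset.card_le_three (a := (1 : D)) (b := b * b) (c := a * b * (a * b))
    omega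
  · rw [mul_eq_left.1 h, Finset.insert_comm (a * a), Finset.insert_eq_of_mem (a := (1 : D))
      (Finset.mem_insert_self _ _)] at h5
    have := Finset.card_le_three (a := (1 : D)) (b := a * a) (c := a * b * (a * b))
    omega
  · rw [mul_eq_right.1 h, Finset.insert_eq_of_mem (a := (1 : D)) (Finset.mem_insert_self _ _)] at h5
    have := Finset.card_le_three (a := (1 : D)) (b := b * b) (c := a * b * (a * b))
    omega
  · refine hab ?_
    calc a * b = a⁻¹ * (a * a * (b * b)) * b⁻¹ := by group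
      _ = b * a := by rw [h]; group

end grp

variable {p : ℕ} [Fact p.Prime] {M : Ideal AlgInt} {hM : IsPModular p M}
variable {G : Type*} [Group G] [Finite G]

namespace MaxP

variable {B : Set (IrrCharacter G)} {m : SPair hM G} (hm : MaxP B m)
include hm

/-- Diagonal contributions at elements whose generators are `z`, `z⁻¹` are rational. -/
theorem exists_int_ctr_self {z : G} (hz : z ∈ m.Q)
    (h4 : ∀ j : ℕ, j.Coprime (Nat.card m.Q) → z ^ j = z ∨ z ^ j = z⁻¹) (χ : IrrCharacter G) :
    ∃ c : ℤ, (p : ℂ) ^ blockDefect p (m.at z).blk * (m.at z).ctr z χ.1 χ.1 = c := by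
  have hg := (irr_isCharacter χ).isGen
  have hn : 0 < Nat.card m.Q := Nat.card_pos
  refine exists_int_of_forall_ringEquiv (SPair.isIntegral_pow_mul_ctr (SPair.at_mem hz) hg hg)
    fun σ => ?_
  obtain ⟨j, hj, hσ⟩ := exists_pow_of_ringEquiv σ hn.ne'
  rw [map_mul, map_pow, map_natCast]
  congr 1
  have h1 := SPair.map_ctr_at hz hg hg (σ : ℂ →+* ℂ) hj hσ
  rcases h4 j hj with h | h
  · rw [h] at h1; exact h1
  · have h2 := SPair.map_ctr_at hz hg hg (starRingEnd ℂ) (j := Nat.card m.Q - 1)
      ((Nat.coprime_self_sub_left hn).2 (Nat.coprime_one_left _)) fun ζ hζ => by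
        have h3 : ‖ζ‖ = 1 := Complex.norm_eq_one_of_pow_eq_one hζ hn.ne'
        have h5 : ζ ≠ 0 := by rintro rfl; simp at h3
        rw [← Complex.inv_eq_conj h3]
        refine inv_eq_of_mul_eq_one_right ?_
        rw [← pow_succ', Nat.sub_add_cancel hn, hζ]
    have h3 : z ^ (Nat.card m.Q - 1) = z⁻¹ := by
      refine eq_inv_of_mul_eq_one_left ?_
      rw [← pow_succ, Nat.sub_add_cancel hn]
      exact congrArg Subtype.val (pow_card_eq_one' (x := (⟨z, hz⟩ : m.Q)))
    rw [h3] at h2
    rw [h, ← h2, SPair.ctr_self_eq_norm, Complex.conj_ofReal] at h1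
    rw [SPair.ctr_self_eq_norm]
    exact h1

theorem pow_le_pow_mul_norm_ctr {z : G} (hz : z ∈ m.Q) (hc : ∀ g ∈ m.Q, Commute z g)
    (h4 : ∀ j : ℕ, j.Coprime (Nat.card m.Q) → z ^ j = z ∨ z ^ j = z⁻¹) {χ : IrrCharacter G}
    (hχ : χ ∈ B) (h : blockHeight p B χ.1 ≠ 0) :
    (p : ℝ) ^ (blockHeight p B χ.1 + 1) ≤
      (p : ℝ) ^ blockDefect p B * ‖(m.at z).ctr z χ.1 χ.1‖ := by
  obtain ⟨c, hc'⟩ := hm.exists_int_ctr_self hz h4 χ
  rw [hm.blockDefect_at_of_central hz hc] at hc'
  have h1 := (hm.height_of_ctr hz hc hχ hχ hc').2.2 h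
  have h2 : c ≠ 0 := by
    rintro rfl
    exact hm.ssec_ne_zero_of_central hz hc hχ (contr_self_eq_zero_iff.1
      ((mul_eq_zero.1 (hc'.trans Int.cast_zero)).resolve_left (pow_ne_zero _ prime_cast_ne_zero)))
  have h3 := congrArg norm hc'
  rw [norm_mul, norm_pow, Complex.norm_natCast, Complex.norm_intCast] at h3
  rw [h3]
  exact_mod_cast Int.le_of_dvd (abs_pos.2 h2) ((dvd_abs _ _).2 h1)

/-- Pairwise non-fused central elements bound the positive heights. -/
theorem card_mul_pow_succ_le (T : Finset G) (hT : ∀ z ∈ T, z ∈ m.Q ∧ (∀ g ∈ m.Q, Commute z g) ∧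
      ∀ j : ℕ, j.Coprime (Nat.card m.Q) → z ^ j = z ∨ z ^ j = z⁻¹)
    (hf : ∀ u ∈ T, ∀ v ∈ T, m.Fus u v → u = v) {χ : IrrCharacter G}
    (hχ : χ ∈ B) (h : blockHeight p B χ.1 ≠ 0) :
    T.card * p ^ (blockHeight p B χ.1 + 1) ≤ p ^ blockDefect p B := by
  classical
  obtain ⟨X, hX, -⟩ := m.exists_reps (fun _ => True) fun u hu => ⟨u, SPair.Fus.refl hu, trivial⟩
  have h2 : ∑ v ∈ X, ‖(m.at v).ctr v χ.1 χ.1‖ = 1 := by
    have := hm.ip_eq_sum_reps hX (blockPart_irr_of_mem hχ) (irr_isClassFunction χ)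
    rw [ip_irr_self] at this
    have h3 : ((∑ v ∈ X, ‖(m.at v).ctr v χ.1 χ.1‖ : ℝ) : ℂ) = 1 := by
      rw [this]
      push_cast
      exact Finset.sum_congr rfl fun v _ => (SPair.ctr_self_eq_norm _ _ _).symm
    exact_mod_cast h3
  choose! r hr using fun u hu => (hX.2 u hu).exists
  have h3 : ∑ u ∈ T, ‖(m.at u).ctr u χ.1 χ.1‖ ≤ 1 := by
    rw [← h2, Finset.sum_congr rfl fun u hu => by
      rw [(hr u (hT u hu).1).2.ctr_eq (irr_isClassFunction χ) (irr_isClassFunction χ)],
      ← Finset.sum_image (g := r) (f := fun v => ‖(m.at v).ctr v χ.1 χ.1‖) fun u hu v hv huv =>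
        hf u hu v hv ((hr u (hT u hu).1).2.trans (huv ▸ (hr v (hT v hv).1).2.symm))]
    refine Finset.sum_le_sum_of_subset_of_nonneg (fun v hv => ?_) fun _ _ _ => norm_nonneg _
    obtain ⟨u, hu, rfl⟩ := Finset.mem_image.1 hv
    exact (hr u (hT u hu).1).1
  have h4 := Finset.sum_le_sum fun u hu =>
    hm.pow_le_pow_mul_norm_ctr (hT u hu).1 (hT u hu).2.1 (hT u hu).2.2 hχ h
  rw [Finset.sum_const, nsmul_eq_mul, ← Finset.mul_sum] at h4
  have h5 := h4.trans (mul_le_of_le_one_right (by positivity) h3)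
  exact_mod_cast h5

end MaxP

theorem pow_eq_or_of_pow_four {z : G} (h4 : z ^ 4 = 1) {j n : ℕ} (hn : 2 ∣ n) (hj : j.Coprime n) :
    z ^ j = z ∨ z ^ j = z⁻¹ := by
  have h1 : ¬ 2 ∣ j := fun h => by
    have := Nat.dvd_gcd h hn
    rw [hj] at this
    omega
  rw [pow_eq_pow_mod j h4]
  have : j % 4 = 1 ∨ j % 4 = 3 := by omega
  rcases this with h | h
  · rw [h, pow_one]; exact Or.inl rfl
  · rw [h]; exact Or.inr (eq_inv_of_mul_eq_one_left (by rw [← pow_succ, h4]))

/-- Heights for non-abelian defect groups of order sixteen. -/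
theorem height_add_center_lt_sixteen {M : Ideal AlgInt} (hM : IsPModular 2 M)
    {B : Set (IrrCharacter G)} (hB : IsPBlock M B) {D : Subgroup G}
    (hD : IsDefectGroup 2 M B D) (h16 : Nat.card D = 16) (hna : ¬ IsMulCommutative D)
    {χ : IrrCharacter G} (hχ : χ ∈ B) (h : blockHeight 2 B χ.1 ≠ 0) :
    blockHeight 2 B χ.1 + (Nat.card (center D)).factorization 2 < blockDefect 2 B := by
  classical
  obtain ⟨m, hm, rfl⟩ := exists_maxP hM hB hD
  have hd : blockDefect 2 B = 4 := by
    have := hm.card_eq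
    rw [h16] at this
    exact Nat.pow_right_injective le_rfl (this.symm.trans (show 16 = 2 ^ 4 by norm_num))
  have h2 := height_add_two_le hM hB hχ h
  obtain ⟨k, hk, h3⟩ := (Nat.dvd_prime_pow Nat.prime_two).1
    (show Nat.card (center m.Q) ∣ 2 ^ 4 from
      (card_subgroup_dvd_card (center m.Q)).trans (by rw [h16]; norm_num))
  have h4 := (center m.Q).card_mul_index
  rw [h3, h16] at h4
  rw [h3, Nat.prime_two.factorization_pow, Finsupp.single_eq_same, hd]
  have hk4 : k ≠ 4 := by
    rintro rfl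
    refine hna ⟨⟨fun a b => ?_⟩⟩
    exact mem_center_iff.1 ((eq_top_of_card_eq (center m.Q) (h3.trans h16.symm)).ge (mem_top b)) a
  have hk3 : k ≠ 3 := by
    rintro rfl
    exact not_prime_index_center (G := m.Q) (by
      rw [show (center m.Q).index = 2 by omega]; exact Nat.prime_two)
  by_contra hlt
  obtain rfl : k = 2 := by omega
  have hh : blockHeight 2 B χ.1 = 2 := by omega
  obtain ⟨s, hs, w, hw, hs1, hw1, ⟨x, hx⟩, hsw⟩ := h16_exists (D := m.Q) (by omega) h3 hna
  have hcen : ∀ z ∈ center m.Q, (z : G) ∈ m.Q ∧ (∀ g ∈ m.Q, Commute (z : G) g) ∧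
      ∀ j : ℕ, j.Coprime (Nat.card m.Q) → (z : G) ^ j = z ∨ (z : G) ^ j = (z : G)⁻¹ :=
    fun z hz => ⟨z.2, fun g hg => congrArg Subtype.val (mem_center_iff.1 hz ⟨g, hg⟩).symm,
      fun j hj => pow_eq_or_of_pow_four (by
        have := pow_card_eq_one' (x := (⟨z, hz⟩ : center m.Q))
        rw [h3] at this
        exact congrArg (fun y : center m.Q => ((y : m.Q) : G)) this) (by rw [h16]; norm_num) hj⟩
  have hnf : ¬ m.Fus s w := fun hf => by
    rcases hsw with h' | h'
    · exact h' (by
        obtain ⟨c, hc⟩ := isConj_iff.1 hf.isConj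
        rw [← orderOf_coe s, ← orderOf_coe w, ← hc]
        exact (orderOf_conj' _ c).symm)
    · obtain ⟨t, ht, htu⟩ := hm.exists_smul_of_fus_central hf (hcen s hs).2.1 (hcen w hw).2.1
      have h5 : t * x * t⁻¹ ∈ m.Q := by
        have := (SPair.conj_mem_smul_Q (x := t)).2 x.2
        rwa [ht] at this
      refine h' ⟨_, h5⟩ (Subtype.ext ?_)
      rw [← htu, hx]
      push_cast
      group
  have hs1' : (s : G) ≠ 1 := fun h => hs1 (Subtype.ext h)
  have hw1' : (w : G) ≠ 1 := fun h => hw1 (Subtype.ext h)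
  have hsw' : (s : G) ≠ w := fun h => hnf (h ▸ SPair.Fus.refl s.2)
  have hone : ∀ {u : G}, m.Fus 1 u → u = 1 := fun hu => isConj_one_right.1 hu.isConj
  have := hm.card_mul_pow_succ_le {1, (s : G), (w : G)} (fun z hz => by
      simp only [Finset.mem_insert, Finset.mem_singleton] at hz
      rcases hz with rfl | rfl | rfl
      exacts [hcen 1 (one_mem _), hcen s hs, hcen w hw]) (fun u hu v hv huv => by
      simp only [Finset.mem_insert, Finset.mem_singleton] at hu hv
      rcases hu with rfl | rfl | rfl <;> rcases hv with rfl | rfl | rfl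
      exacts [rfl, (hone huv).symm, (hone huv).symm, hone huv.symm, rfl, (hnf huv).elim,
        hone huv.symm, (hnf huv.symm).elim, rfl]) hχ h
  rw [Finset.card_insert_of_notMem (by simp [hs1'.symm, hw1'.symm]), Finset.card_pair hsw', hh,
    hd] at this
  omega

end BT
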