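import Cfsg.Agent.Lib.Block.K6Sm
import Cfsg.Agent.Lib.Block.K5Fs

/-!
# Integral generalized decomposition numbers for a rational element of rank two
-/

set_option autoImplicit false
set_option linter.unusedSectionVars false

namespace BT.K5

open Cfsg CT GT Subgroup
open scoped ComplexConjugate

variable {p : ℕ} [hp : Fact p.Prime] {M : Ideal AlgInt} (hM : IsPModular p M)
variable {G : Type*} [Group G] [Finite G] {B : Set (IrrCharacter G)}
variable {n w x : IrrCharacter G → ℤ}

theorem cm_self_le_degree (h1 : irrOne G ∈ B) {χ : IrrCharacter G} (hχ : χ ∈ B) :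
    cm p B χ.1 χ.1 ≤ cm p B (irrOne G).1 (irrOne G).1 * (charDegree χ.1 * charDegree χ.1) := by
  have h2 := pow_mul_card_regSet (p := p) h1
  have h3 := card_mul_ip_pRegularPart (p := p) χ.1 χ.1
  have h4 := cm_cast_irr (p := p) hχ χ
  have h5 : (Nat.card G : ℝ) * cm p B χ.1 χ.1 =
      p ^ blockDefect p B * ∑ g ∈ regSet p G, ‖χ.1 g‖ ^ 2 := by
    rw [← Complex.ofReal_inj]
    push_cast
    rw [h4, mul_left_comm, h3]
    simp only [Complex.mul_conj, Complex.normSq_eq_norm_sq, Complex.ofReal_pow]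
  have h6 : ∑ g ∈ regSet p G, ‖χ.1 g‖ ^ 2 ≤
      (regSet p G).card * ((charDegree χ.1 : ℝ) * charDegree χ.1) := by
    rw [← nsmul_eq_mul]
    refine Finset.sum_le_card_nsmul _ _ _ fun g _ => ?_
    rw [← sq]
    exact pow_le_pow_left₀ (norm_nonneg _) ((irr_isCharacter χ).norm_le g) 2
  have h7 : (0 : ℝ) < Nat.card G := by exact_mod_cast Nat.card_pos
  have h8 : (0 : ℝ) ≤ p ^ blockDefect p B := by positivity
  have h9 := mul_le_mul_of_nonneg_left h6 h8
  rw [← h5, ← mul_assoc, h2, mul_assoc] at h9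
  exact_mod_cast le_of_mul_le_mul_left h9 h7

include hM

/-- The contribution matrix in rank two. -/
theorem L2.cm_eq (hB : IsPBlock M B) (h : L2 p B w x) {c a b : ℤ}
    (e1 : c * dot B w w + a * dot B w x = p ^ blockDefect p B)
    (e2 : c * dot B w x + a * dot B x x = 0) (e3 : a * dot B w w + b * dot B w x = 0)
    (e4 : a * dot B w x + b * dot B x x = p ^ blockDefect p B) {χ ψ : IrrCharacter G}
    (hχ : χ ∈ B) (hψ : ψ ∈ B) : cm p B χ.1 ψ.1 =
      c * (w χ * w ψ) + a * (w χ * x ψ + x χ * w ψ) + b * (x χ * x ψ) := by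
  obtain ⟨r, s, e⟩ := h.span _ (regV_cv hM hB hχ)
  have f : ∀ m, dot B (cv p B χ) m = r * dot B w m + s * dot B x m := fun m => by
    rw [dot_comm, dot_congr m (w := lc r w s x) e, dot_comm, lc_dot]
  have f1 := h.rw χ hχ
  have f2 := h.rx χ hχ
  rw [f] at f1 f2
  rw [dot_comm x w] at f1
  have q0 := (pow_defect_pos (p := p) (B := B)).ne'
  have f3 : r = c * w χ + a * x χ :=
    mul_left_cancel₀ q0 (by linear_combination c * f1 + a * f2 - r * e1 - s * e2)
  have f4 : s = a * w χ + b * x χ :=
    mul_left_cancel₀ q0 (by linear_combination a * f1 + b * f2 - r * e3 - s * e4)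
  have f5 := e ψ hψ
  rw [f3, f4, cv] at f5
  linear_combination f5

/-- In rank two the regular vectors are spanned rationally by the degree vector and the
contribution vector of the trivial character. -/
theorem exists_span_degree (hl : blockRank p (principalBlock M G) = 2)
    (hn : RegV p (principalBlock M G) n) : ∃ e r s : ℤ, e ≠ 0 ∧ ∀ χ ∈ principalBlock M G,
      e * n χ = r * charDegree χ.1 + s * cm p (principalBlock M G) (irrOne G).1 χ.1 := by
  have hB : IsPBlock M (principalBlock M G) := isPBlock_principalBlock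
  have h1 := irrOne_mem_principalBlock (G := G) hM
  obtain ⟨w, x, L, -⟩ := exists_L2 hM hB h1 hl
  obtain ⟨a, b, e1, e2, e3, e4, e5, e6⟩ := L.eqs_lt hM hB h1
  obtain ⟨r, s, e⟩ := L.span n hn
  obtain ⟨d, f, e'⟩ := L.span _ (regV_degree hM)
  have e7 := e' _ h1
  rw [L.w1, L.x1, charDegree_irrOne] at e7
  obtain rfl : d = 1 := by simpa using e7.symm
  set c := cm p (principalBlock M G) (irrOne G).1 (irrOne G).1 with hc
  refine ⟨a - c * f, r * (a - c * f) - (s - r * f) * c, s - r * f, fun h0 => ?_, fun χ hχ => by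
    rw [e χ hχ, e' χ hχ, e6 χ hχ]; ring⟩
  obtain ⟨m, -, m2⟩ := L.dual
  have h2 := dot_self_pos (m2.trans_ne one_ne_zero)
  have c0 : 0 < c := cc_pos hM
  have q0 := pow_defect_pos (p := p) (B := principalBlock M G)
  have h3 : (c * b - a * a) * dot (principalBlock M G) x x = 
      c * p ^ blockDefect p (principalBlock M G) := by
    linear_combination c * e4 - a * e2
  have h4 : 0 < c * b - a * a := by nlinarith [mul_pos c0 q0]
  refine h2.ne' (Finset.sum_eq_zero fun χ hχ => ?_)
  have h5 := mul_le_mul_of_nonneg_left (cm_self_le_degree (p := p) h1 (mem_bset.1 hχ)) c0.le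
  rw [L.cm_eq hM hB e1 e2 e3 e4 (mem_bset.1 hχ) (mem_bset.1 hχ), ← hc, e' χ (mem_bset.1 hχ),
    show a = c * f by linarith] at h5
  rw [show a = c * f by linarith] at h4
  nlinarith [mul_self_nonneg (x χ)]

omit hM in
theorem ip_comb_right (θ : G → ℂ) (n : IrrCharacter G → ℤ) :
    ip θ (comb B n) = ∑ χ ∈ bset B, n χ * ip θ χ.1 := by
  rw [comb_eq, ip_sum_right]
  simp [ip_smul_right]

section
variable {C : Subgroup G} {u : G} (hC : C = centralizer ({u} : Set G)) (hu : IsPElt p u)
  {χ : IrrCharacter G} (hχ : χ ∈ principalBlock M G) {m : IrrCharacter C → ℤ}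
include hC hu hχ

theorem mul_ip_shift_comb {e r s : ℤ} (h : ∀ ξ ∈ principalBlock M C,
    e * m ξ = r * charDegree ξ.1 + s * cm p (principalBlock M C) (irrOne C).1 ξ.1) :
    e * ip (shift C u χ.1) (comb (principalBlock M C) m) = r * χ.1 u +
      s * ((p : ℂ) ^ blockDefect p (principalBlock M C) * ip (sectionPart p u χ.1) fun _ => 1) := by
  have h1 := principal_apply_mul hM hC hu hχ (s := 1) not_dvd_orderOf_one
  rw [OneMemClass.coe_one, mul_one, blockPart_apply_eq_sum_bset] at h1
  have h2 := congrArg (ip (shift C u χ.1)) (pow_smul_pRegularPart_eq_sum hM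
    isPBlock_principalBlock (irrOne_mem_principalBlock (G := C) hM))
  rw [ip_smul_right, ip_sum_right, ← ip_pRegularPart_left_eq_right, map_pow, map_natCast] at h2
  rw [ip_sectionPart_eq hC hu (irr_isClassFunction χ) (η := fun _ => 1) fun _ _ => rfl]
  change _ = _ + s * (_ * ip _ (irrOne C).1)
  rw [h2, h1, ip_comb_right, Finset.mul_sum, Finset.mul_sum, Finset.mul_sum,
    ← Finset.sum_add_distrib]
  refine Finset.sum_congr rfl fun ξ hξ => ?_
  have h3 := congrArg (Int.cast : ℤ → ℂ) (h ξ (mem_bset.1 hξ))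
  push_cast at h3
  rw [ip_smul_right, map_intCast, irr_apply_one ξ]
  linear_combination ip (shift C u χ.1) ξ.1 * h3

theorem exists_int_ip_shift (hr : ∀ k : ℕ, k.Coprime (orderOf u) → IsConj u (u ^ k))
    (hl : blockRank p (principalBlock M C) = 2) (hm : RegV p (principalBlock M C) m) :
    ∃ v : ℤ, ip (shift C u χ.1) (comb (principalBlock M C) m) = v := by
  have hg := (irr_isCharacter χ).isGen
  refine exists_int_of_forall_ringEquiv ?_ fun σ => ?_
  · rw [ip_comb_right]
    exact IsIntegral.sum _ fun ξ _ => (isIntegral_intCast _).mul (isIntegral_ip_shift_irr hC hg ξ)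
  obtain ⟨k, hk, hσ⟩ := exists_pow_of_ringEquiv σ (orderOf_pos u).ne'
  obtain ⟨e, r, s, e0, h⟩ := exists_span_degree hM hl hm
  have h1 := mul_ip_shift_comb hM hC hu hχ h
  have h2 := mul_ip_shift_comb hM (eq_centralizer_pow hC hk) (hu.pow k) hχ h
  have h3 : sectionPart p (u ^ k) χ.1 = sectionPart p u χ.1 := by
    classical
    funext g
    rw [sectionPart_apply, sectionPart_apply]
    exact if_congr ⟨(hr k hk).trans, (hr k hk).symm.trans⟩ rfl rfl
  rw [h3, ← (irr_isClassFunction χ).of_isConj (hr k hk), ← h1] at h2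
  refine Eq.trans ?_ (mul_left_cancel₀ (Int.cast_ne_zero.2 e0) h2)
  rw [ip_comb_right, ip_comb_right, map_sum]
  exact Finset.sum_congr rfl fun ξ _ => by
    rw [map_mul, map_intCast]
    exact congrArg _ (map_ip_shift_irr hC hg ξ (pow_orderOf_eq_one u) hk σ.toRingHom hσ)

end

variable (p M) in
/-- `v` is the column of generalized decomposition numbers of `z` attached to `m`. -/
def IsLift (z : G) (m : IrrCharacter (centralizer ({z} : Set G)) → ℤ)
    (v : IrrCharacter G → ℤ) : Prop :=
  RegV p (principalBlock M _) m ∧ ∀ χ ∈ principalBlock M G,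
    ip (shift _ z χ.1) (comb (principalBlock M _) m) = v χ

variable {z : G} (hz : IsPElt p z) {m m' : IrrCharacter (centralizer ({z} : Set G)) → ℤ}
  {v v' : IrrCharacter G → ℤ}
include hz

theorem exists_isLift (hr : ∀ k : ℕ, k.Coprime (orderOf z) → IsConj z (z ^ k))
    (hl : rk p M z = 2) (hm : RegV p (principalBlock M _) m) : ∃ v, IsLift p M z m v := by
  classical
  choose v hv using fun χ : principalBlock M G => exists_int_ip_shift hM rfl hz χ.2 hr hl hm
  exact ⟨fun χ => if h : χ ∈ principalBlock M G then v ⟨χ, h⟩ else 0, hm, fun χ hχ => by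
    simp only [dif_pos hχ]; exact hv ⟨χ, hχ⟩⟩

omit hM hz in
theorem IsLift.ip_lft (h : IsLift p M z m v) (χ : IrrCharacter G) (hχ : χ ∈ principalBlock M G) :
    ip (lft _ z (comb (principalBlock M _) m)) χ.1 = v χ := by
  rw [ip_lft_left rfl (irr_isClassFunction χ), ← conj_ip, h.2 χ hχ, map_intCast]

theorem IsLift.sing (h : IsLift p M z m v) (hz1 : z ≠ 1) : SingV p (principalBlock M G) v :=
  singV_of_ip hM isPBlock_principalBlock (fun g hg => lft_apply_eq_zero rfl hz
    (h.1.comb_apply hM isPBlock_principalBlock) (by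
      rwa [pPart_eq_one_iff.2 hg, isConj_one_left])) h.ip_lft

omit hz in
theorem IsLift.one (h : IsLift p M z m v) : v (irrOne G) = m (irrOne _) := by
  rw [← Int.cast_inj (α := ℂ), ← h.2 _ (irrOne_mem_principalBlock hM), 
    ← map_intCast (starRingEnd ℂ), ← ip_comb_irr m (irrOne_mem_principalBlock hM), conj_ip]
  rfl

theorem IsLift.dot_eq (h : IsLift p M z m v) (h' : IsLift p M z m' v') :
    dot (principalBlock M G) v v' = dot (principalBlock M _) m m' := by
  have h0 := h.1.comb_apply hM isPBlock_principalBlock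
  rw [← Int.cast_inj (α := ℂ), ← ip_eq_dot (blockPart_lft hM rfl hz
    (isInducedBlock_principal_of_eq hM rfl hz) (blockPart_comb m) h0) h.ip_lft h'.ip_lft,
    ip_lft_lft rfl hz (isGen_comb _ m).isClassFunction h0
      (h'.1.comb_apply hM isPBlock_principalBlock)]
  exact ip_eq_dot (blockPart_comb m) (fun χ => ip_comb_irr m) fun χ => ip_comb_irr m'

end BT.K5
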