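import Cfsg.Agent.Lib.Block.K5Num
import Cfsg.Agent.Lib.Block.K5Num2

/-!
# Ternary Cartan matrices with many regular elements (odd primes, six characters)
-/

set_option autoImplicit false

namespace BT.K5

/-- The coefficient of `m` in the determinant. -/
def k6a (H X K : ℤ) : ℤ := (H + 1) * K - X * X

/-- The constant term of the determinant. -/
def k6b (H X K G Y : ℤ) : ℤ := (H + 1) * (G * G) - 2 * G * X * Y + K * Y * Y

/-- Membership in the list of exceptions. -/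
def InR (R : List (ℤ × ℤ × ℤ × ℤ × ℤ × ℤ)) (H X K G Y m : ℤ) : Prop := (H, X, K, G, Y, m) ∈ R

set_option synthInstance.maxSize 2000 in
instance (R : List (ℤ × ℤ × ℤ × ℤ × ℤ × ℤ)) (H X K G Y m : ℤ) : Decidable (InR R H X K G Y m) := by
  unfold InR; infer_instance

/-- The check for a given determinant `t` and defect `d`. -/
def Chk3d (p : ℕ) (R : List (ℤ × ℤ × ℤ × ℤ × ℤ × ℤ)) (H X K G Y t m : ℤ) (d : ℕ) : Prop :=
  25 ≤ p ^ d → (p : ℤ) ^ d * k6a H X K % t = 0 → (p : ℤ) ^ d * (K * m - G * G) % t = 0 →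
    (p : ℤ) ^ d * (K * m - G * G) / t % p ≠ 0 → InR R H X K G Y m

set_option synthInstance.maxSize 1000 in
instance (p : ℕ) (R : List (ℤ × ℤ × ℤ × ℤ × ℤ × ℤ)) (H X K G Y t m : ℤ) (d : ℕ) :
    Decidable (Chk3d p R H X K G Y t m d) := by
  unfold Chk3d; infer_instance

/-- The check for a given determinant `t`. -/
def Chk3t (a b : ℤ) (p n : ℕ) (R : List (ℤ × ℤ × ℤ × ℤ × ℤ × ℤ)) (H X K G Y t m : ℤ) : Prop :=
  k6a H X K * m = t + k6b H X K G Y → K ≤ m → a * de H X K G Y m ≤ b * (K * m - G * G) →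
    |X * m - G * Y| ≤ (H + 1) * m - Y * Y → 2 * |K * Y - G * X| ≤ K * m - G * G →
    ∀ d < n, Chk3d p R H X K G Y t m d

set_option synthInstance.maxSize 1000 in
instance (a b : ℤ) (p n : ℕ) (R : List (ℤ × ℤ × ℤ × ℤ × ℤ × ℤ)) (H X K G Y t m : ℤ) :
    Decidable (Chk3t a b p n R H X K G Y t m) := by
  unfold Chk3t; infer_instance

/-- The finite check for a ternary form with given small entries. -/
def Chk3 (a b : ℤ) (T p n : ℕ) (R : List (ℤ × ℤ × ℤ × ℤ × ℤ × ℤ)) (H X K G Y : ℤ) : Prop :=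
  Mono a b H X K G Y K ∨ (k6a H X K % 2 = 0 ∧ k6b H X K G Y % 2 = 0) ∨ Mono a b H X K G Y T ∧
    k6a H X K * T - k6b H X K G Y < p ^ n ∧
    ∀ s < n, Chk3t a b p n R H X K G Y (p ^ s) ((p ^ s + k6b H X K G Y) / k6a H X K)

instance (a b : ℤ) (T p n : ℕ) (R : List (ℤ × ℤ × ℤ × ℤ × ℤ × ℤ)) (H X K G Y : ℤ) :
    Decidable (Chk3 a b T p n R H X K G Y) := by
  unfold Chk3; infer_instance

/-- The finite check for given `H`, `X`, `K`. -/
def Chk3K (a b : ℤ) (T p n : ℕ) (R : List (ℤ × ℤ × ℤ × ℤ × ℤ × ℤ)) (H X K : ℕ) : Prop :=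
  ∀ G < K / 2 + 1, ∀ j < 25,
    |(K : ℕ) * ((j : ℕ) - 12 : ℤ) - (G : ℕ) * (X : ℕ)| ≤ (H : ℕ) * K - X * X + K →
      Chk3 a b T p n R H X K G (j - 12)

instance (a b : ℤ) (T p n : ℕ) (R : List (ℤ × ℤ × ℤ × ℤ × ℤ × ℤ)) (H X K : ℕ) :
    Decidable (Chk3K a b T p n R H X K) := by unfold Chk3K; infer_instance

/-- The finite check for given `H`, `X`. -/
def Chk3X (a b : ℤ) (T p n : ℕ) (R : List (ℤ × ℤ × ℤ × ℤ × ℤ × ℤ)) (H X N : ℕ) : Prop :=
  ∀ K < N, 2 * X ≤ K → X * X < H * K → (K = 5 ∧ X = 2 ∧ H = 1) ∨ Chk3K a b T p n R H X K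

instance (a b : ℤ) (T p n : ℕ) (R : List (ℤ × ℤ × ℤ × ℤ × ℤ × ℤ)) (H X N : ℕ) :
    Decidable (Chk3X a b T p n R H X N) := by unfold Chk3X; infer_instance

/-- The whole check. -/
def Chk3A (a b : ℤ) (T p n : ℕ) (R : List (ℤ × ℤ × ℤ × ℤ × ℤ × ℤ)) : Prop :=
  ∀ H < 12, ∀ X < 18, 57 * X ≤ 76 * (H + 1) + 108 →
    Chk3X a b T p n R H X ((3888 + 361 * X * X) / (361 * H - 152) + 1)

instance (a b : ℤ) (T p n : ℕ) (R : List (ℤ × ℤ × ℤ × ℤ × ℤ × ℤ)) :
    Decidable (Chk3A a b T p n R) := by unfold Chk3A; infer_instance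

theorem chk3_three : Chk3A 19 8 1000 3 11 [(1, 1, 2, 1, -1, 29), (1, 1, 2, 1, 2, 29),
    (1, 1, 4, 1, -1, 5), (2, 3, 6, 3, 0, 30), (2, 3, 6, 3, 3, 30)] := by decide +kernel

theorem chk3_five : Chk3A 21 4 100 5 8 [(1, 1, 5, 2, 2, 5)] := by decide +kernel

theorem tern_bound' {H X Y K G U D e u v m : ℤ} (hG : 0 ≤ G) (hGK : 2 * G ≤ K) (hK : 0 < K)
    (hX : 0 ≤ X) (hXK : 2 * X ≤ K) (hU : 0 ≤ U) (hu : 2 * U ≤ D) (he : 0 < e)
    (h7 : 19 * e ≤ 8 * D) (hKD : 3 * (K * K) ≤ 4 * D) (hGD : 3 * (G * G) ≤ D)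
    (h2 : U ≤ (H + 1) * K - X * X)
    (e1 : (H * K - X * X) * D = K * e + U * U) (e2 : X * D = K * v + G * u) (e3 : u ≤ U)
    (e4 : v ≤ (H + 1) * m - Y * Y) (e5 : K * |Y| ≤ U + G * X) (e6 : K * m = D + G * G) :
    361 * (H * K - X * X) ≤ 152 * K + 3888 ∧ X * X < H * K ∧ 0 < H ∧
      57 * X ≤ 76 * (H + 1) + 108 ∧ H < 12 ∧ |Y| ≤ 12 := by
  have hD : 0 < D := by omega
  have t0 := mul_le_mul_of_nonneg_left h7 hK.le
  have s1 : 19 * U ≤ 54 * K := le_of_mul_le_mul_right (by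
    linarith [mul_le_mul_of_nonneg_right h2 hD.le, mul_le_mul_of_nonneg_left hu hU]) hD
  have s2 : 361 * (H * K - X * X) ≤ 152 * K + 3888 := le_of_mul_le_mul_right (by
    linarith [mul_self_le_mul_self (by omega) s1]) hD
  have hW : 0 < H * K - X * X := pos_of_mul_pos_right (by
    linarith [mul_self_nonneg U, mul_pos hK he]) hD.le
  have hH : 0 < H := pos_of_mul_pos_right (by linarith [mul_self_nonneg X]) hK.le
  have s3 : 57 * X ≤ 76 * (H + 1) + 108 := le_of_mul_le_mul_right (by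
    have t1 := mul_le_mul_of_nonneg_left e4 hK.le
    have t2 := mul_le_mul_of_nonneg_left e3 hG
    have t3 := mul_le_mul_of_nonneg_left s1 hG
    have t4 := mul_le_mul_of_nonneg_left hGK hK.le
    have t5 := mul_le_mul_of_nonneg_left hGD hH.le
    have t6 := congrArg (H * ·) e6
    have t7 := mul_nonneg hK.le (mul_self_nonneg Y)
    linarith) hD
  have s4 : H < 12 := by
    by_contra h
    have t1 := mul_le_mul_of_nonneg_left hXK hX
    have t2 := mul_le_mul_of_nonneg_left s3 hK.le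
    have t3 := mul_le_mul_of_nonneg_left (not_lt.1 h) hK.le
    rcases le_or_gt K 7 with h3 | h3
    · have : X ≤ 3 := by omega
      interval_cases K <;> interval_cases X <;> omega
    · linarith
  refine ⟨s2, by omega, hH, s3, s4, le_of_mul_le_mul_left ?_ hK⟩
  nlinarith [mul_le_mul_of_nonneg_right hGK hX,
    mul_le_mul_of_nonneg_left (show X ≤ 17 by omega) hK.le]

theorem tern' {a b : ℤ} {T p n : ℕ} {R : List (ℤ × ℤ × ℤ × ℤ × ℤ × ℤ)} (hR : Chk3A a b T p n R)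
    (hp : p.Prime) (hp2 : p ≠ 2) {d : ℕ} (h25 : 25 ≤ p ^ d) {H X Y K G m c : ℤ}
    (hG : 0 ≤ G) (hGK : 2 * G ≤ K) (hKm : K ≤ m) (hK : 0 < K) (hX : 0 ≤ X) (hXK : 2 * X ≤ K)
    (hu : 2 * |K * Y - G * X| ≤ K * m - G * G) (h1 : |X * m - G * Y| ≤ (H + 1) * m - Y * Y)
    (h2 : |K * Y - G * X| ≤ (H + 1) * K - X * X)
    (hc : c * (K * m - G * G + de H X K G Y m) = p ^ d * (K * m - G * G)) (hcp : ¬ (p : ℤ) ∣ c)
    (hcq : c < p ^ d) (h9 : 19 * p ^ d ≤ 27 * c) (hab : a * p ^ d ≤ (a + b) * c)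
    (h3 : K * m - G * G + de H X K G Y m ∣ p ^ (3 * d))
    (h4 : K * m - G * G + de H X K G Y m ∣ p ^ d * ((H + 1) * K - X * X)) :
    (K = 5 ∧ X = 2 ∧ H = 1) ∨ (H, X, K, G, Y, m) ∈ R := by
  have hq : (25 : ℤ) ≤ p ^ d := by exact_mod_cast h25
  have t1 := mul_self_le_mul_self (by omega) hGK
  have t2 := mul_le_mul_of_nonneg_left hKm hK.le
  have hD : 0 < K * m - G * G := by linarith [mul_pos hK hK]
  have hc0 : 0 < c := by omega
  have he : 0 < de H X K G Y m := pos_of_mul_pos_left (by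
    linarith [mul_lt_mul_of_pos_right hcq hD]) hc0.le
  have hr : ∀ a b : ℤ, a * p ^ d ≤ (a + b) * c → a * de H X K G Y m ≤ b * (K * m - G * G) :=
    fun a b h => le_of_mul_le_mul_left (by
      linarith [mul_le_mul_of_nonneg_right h hD.le, congrArg (a * ·) hc]) hc0
  obtain ⟨s1, s2, s3, s4, s5, s6⟩ := tern_bound' (m := m) (Y := Y) hG hGK hK hX hXK (abs_nonneg _)
    hu he (hr 19 8 h9) (by linarith) (by linarith) h2 (by rw [abs_mul_abs_self, de]; ring)
    (v := X * m - G * Y) (by ring) (le_abs_self _) ((le_abs_self _).trans h1) (by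
      rw [← abs_of_pos hK, ← abs_mul, abs_of_pos hK, abs_le]
      constructor <;> linarith [neg_abs_le (K * Y - G * X), le_abs_self (K * Y - G * X),
        mul_nonneg hG hX]) (by ring)
  have hdet : K * m - G * G + de H X K G Y m = k6a H X K * m - k6b H X K G Y := by
    unfold de k6a k6b; ring
  have ha : 0 < k6a H X K := by unfold k6a; linarith
  have key : Chk3 a b T p n R H X K G Y → (H, X, K, G, Y, m) ∈ R := fun h => by
    obtain ⟨s, -, hs⟩ := (dvd_prime_pow (Nat.prime_iff_prime_int.1 hp) _).1 h3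
    have hs' : K * m - G * G + de H X K G Y m = p ^ s :=
      (Int.associated_iff.1 hs).resolve_right fun h => by
        have : (0 : ℤ) < p ^ s := pow_pos (Int.natCast_pos.2 hp.pos) s
        omega
    rcases h with h | h | ⟨h, h5, h6⟩
    · exact (h.false hKm (hr a b hab) h1).elim
    · exfalso
      have h7 : Odd ((p : ℤ) ^ s) := ((Int.odd_coe_nat p).2 (hp.odd_of_ne_two hp2)).pow
      rw [← hs', hdet] at h7
      obtain ⟨r, hr⟩ := h7
      obtain ⟨u, hu⟩ := Int.dvd_of_emod_eq_zero h.1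
      rw [hu, mul_assoc] at hr
      omega
    have hT : m < T := by by_contra h4; exact h.false (by omega) (hr a b hab) h1
    have h1p : (1 : ℤ) < p := by exact_mod_cast hp.one_lt
    have h7 : (p : ℤ) ^ s < p ^ n := by
      rw [← hs', hdet]
      linarith [mul_le_mul_of_nonneg_left hT.le ha.le]
    have h8 : s < n := (pow_lt_pow_iff_right₀ h1p).1 h7
    have h9 : k6a H X K * m = p ^ s + k6b H X K G Y := by rw [← hs', hdet]; ring
    have h10 := h6 s h8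
    rw [← h9, Int.mul_ediv_cancel_left _ ha.ne'] at h10
    have h11 : IsCoprime c ((p : ℤ) ^ d) :=
      ((Nat.prime_iff_prime_int.1 hp).coprime_iff_not_dvd.2 hcp).symm.pow_right
    have h12 : (p : ℤ) ^ d ≤ p ^ s := hs' ▸
      Int.le_of_dvd (by omega) (h11.symm.dvd_of_dvd_mul_left ⟨_, hc⟩)
    have h13 : (0 : ℤ) < p ^ s := by positivity
    rw [hs'] at hc h4
    refine h10 h9 hKm (hr a b hab) h1 hu d
      (((pow_le_pow_iff_right₀ h1p).1 h12).trans_lt h8) h25 (Int.emod_eq_zero_of_dvd h4)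
      (by rw [← hc, Int.mul_emod_left]) ?_
    rw [← hc, Int.mul_ediv_cancel _ h13.ne']
    exact fun h => hcp (Int.dvd_of_emod_eq_zero h)
  lift H to ℕ using s3.le
  lift X to ℕ using hX
  lift K to ℕ using hK.le
  lift G to ℕ using hG
  obtain ⟨j, rfl⟩ : ∃ j : ℕ, Y = j - 12 := ⟨(Y + 12).toNat, by rw [abs_le] at s6; omega⟩
  have hj : j < 25 := by rw [abs_le] at s6; omega
  rcases hR H (by omega) X (by omega) (by omega) K (Nat.lt_succ_of_le
    ((Nat.le_div_iff_mul_le (by omega)).2 (by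
      zify [show 152 ≤ 361 * H by omega]; linarith))) (by omega) (by exact_mod_cast s2) with h | h
  · obtain ⟨rfl, rfl, rfl⟩ := h
    exact .inl ⟨rfl, rfl, rfl⟩
  · exact .inr (key (h G (by omega) j hj (by linarith)))

theorem chk_fam6 : ∀ j < 7, ∀ e < 109, 5 * (j * j) < 2 * e → e ≤ 3 * (j * j) → ∀ q ∈ ppL,
    q * (5 * e + j * j) % (6 * e + j * j) = 0 →
      Nat.gcd (q * (5 * e + j * j) / (6 * e + j * j)) q ≠ 1 := by decide +kernel

/-- The family `H = 1`, `X = 2`, `K = 5`. -/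
theorem fam_num {p d : ℕ} (hp : p.Prime) (hd : 2 ≤ d) (h16 : 16 ≤ p ^ d) {Y G m c : ℤ}
    (hD : 0 < 5 * m - G * G) (h2 : |5 * Y - G * 2| ≤ 6)
    (hc : c * (5 * m - G * G + de 1 2 5 G Y m) = p ^ d * (5 * m - G * G)) (hcp : ¬ (p : ℤ) ∣ c)
    (h3 : 32 * c < 27 * p ^ d) (h4 : 19 * (p ^ d - c) ≤ 3 * p ^ d) : False := by
  have hq : (16 : ℤ) ≤ p ^ d := by exact_mod_cast h16
  have hc0 : 0 < c := by omega
  have h5 : 5 * m - G * G = 5 * de 1 2 5 G Y m + |5 * Y - G * 2| * |5 * Y - G * 2| := by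
    rw [abs_mul_abs_self, de]; ring
  obtain ⟨j, hj⟩ := Int.eq_ofNat_of_zero_le (abs_nonneg (5 * Y - G * 2))
  rw [hj] at h5 h2
  generalize de 1 2 5 G Y m = e at *
  rw [h5] at hc hD
  have h6 : 5 * (j * j) < 2 * e := by
    by_contra h
    nlinarith
  have h7 : e ≤ 3 * (j * j) := by
    by_contra h
    nlinarith
  lift e to ℕ using by nlinarith
  lift c to ℕ using hc0.le
  have h8 : c * (6 * e + j * j) = p ^ d * (5 * e + j * j) := by
    zify; linear_combination hc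
  have h9 : c.Coprime (p ^ d) :=
    Nat.Coprime.pow_right _ ((Nat.coprime_comm.1 (hp.coprime_iff_not_dvd.2 fun h =>
      hcp (Int.natCast_dvd_natCast.2 h))))
  have h10 : j < 7 := by omega
  have h11 : j * j ≤ 36 := Nat.mul_le_mul (show j ≤ 6 by omega) (show j ≤ 6 by omega)
  have h12 : 5 * (j * j) < 2 * e := by exact_mod_cast h6
  have h13 : e ≤ 3 * (j * j) := by exact_mod_cast h7
  have h14 : p ^ d ≤ 6 * e + j * j :=
    Nat.le_of_dvd (by omega) (h9.symm.dvd_of_dvd_mul_left ⟨_, h8⟩)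
  refine chk_fam6 j h10 e (by omega) h12 h13 _ (mem_ppL hp hd h16 (by omega))
    (by rw [← h8, Nat.mul_mod_left]) ?_
  rw [← h8, Nat.mul_div_cancel _ (by omega)]
  exact h9

/-- Binary Cartan matrices for `p = 3`. -/
theorem two_three6 {q c h g k a b : ℤ} (e1 : c * h + a * g = q) (e2 : c * g + a * k = 0)
    (e3 : a * h + b * g = 0) (e4 : a * g + b * k = q) (hab : |a| ≤ b) (hg : 2 * |g| ≤ k)
    (hk : 0 < k) (hc : 0 < c) (hq : c < q) {e : ℕ} (he : q = 3 ^ (e + 1)) (h9 : 9 ≤ q)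
    (h3 : ¬ 3 ∣ c) : 2 * c ≤ q + 1 := by
  obtain ⟨h1, h2, h4, h5, h6⟩ := two_basic e1 e2 e3 e4 hab hg hk hc hq
  have ho : Odd q := he ▸ (by decide : Odd (3 : ℤ)).pow
  have h7 : (3 : ℤ) ∣ q := he ▸ dvd_pow_self _ (by omega)
  by_contra h8
  have h10 : h * k - g * g < 2 * k := by
    by_contra h10
    nlinarith
  obtain ⟨r, hr⟩ := ho
  obtain ⟨u, hu⟩ := h7
  have hco : IsCoprime c q := he ▸
    ((Int.prime_three.coprime_iff_not_dvd.2 h3).symm.pow_right)
  have h11 : q ≤ h * k - g * g := Int.le_of_dvd h2 (hco.symm.dvd_of_dvd_mul_left ⟨_, h1⟩)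
  have h12 : h < 4 := by
    by_contra h12
    nlinarith
  rw [abs_le] at h4
  obtain ⟨h4, h4'⟩ := h4
  interval_cases h
  · have hg1 : g * g = 1 := by interval_cases g <;> omega
    rw [hg1] at h1 h11
    nlinarith
  · have : k ≤ 8 := by interval_cases g <;> omega
    interval_cases g <;> simp at hg <;> interval_cases k <;> omega

end BT.K5
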