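import Cfsg.Agent.Lib.Block.K6QuatSc

/-!
# Lattices of rank four with a strictly relevant vector: the finite search
-/

set_option autoImplicit false

namespace BT.K6Q.B

noncomputable section

/-- Application after evaluation. -/
def fN (n : ℕ) (k : ℕ → Bool) : Bool := Nat.rec (k 0) (fun m _ => k m.succ) n

/-- Application after evaluation. -/
def fI (x : ℤ) (k : ℤ → Bool) : Bool :=
  Int.rec (fun n => fN n fun m => k (Int.ofNat m)) (fun n => fN n fun m => k (Int.negSucc m)) x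

theorem fI_eq (x : ℤ) (k : ℤ → Bool) : fI x k = k x := by
  rcases x with (_ | _) | (_ | _) <;> rfl

/-- Bounded quantifier. -/
def allN (n : ℕ) (f : ℕ → Bool) : Bool := Nat.rec true (fun k ih => f k && ih) n

/-- Bounded quantifier. -/
def allI (lo hi : ℤ) (f : ℤ → Bool) : Bool :=
  fI lo fun lo => allN (hi + 1 - lo).toNat fun k => fI (lo + Int.ofNat k) f

/-- Quantifier over the solutions of `2 |w + D x| ≤ N`. -/
def allR (w D N : ℤ) (f : ℤ → Bool) : Bool :=
  allI (-((N + 2 * w) / (2 * D))) ((N - 2 * w) / (2 * D)) f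

/-- Quantifier over a geometric progression. -/
def allP (p B : ℤ) (f : ℤ → Bool) (x : ℤ) : Bool :=
  fI B fun B => Nat.rec (motive := fun _ => ℤ → Bool) (fun _ => false)
    (fun _ ih x => decide (B < x) || (f x && fI (x * p) ih)) 40 x

theorem allN_spec {n : ℕ} {f : ℕ → Bool} (h : allN n f = true) {k : ℕ} (hk : k < n) :
    f k = true := by
  induction n with
  | zero => omega
  | succ n ih =>
    have h1 : (f n && allN n f) = true := h
    rw [Bool.and_eq_true] at h1
    rcases Nat.lt_succ_iff_lt_or_eq.1 hk with h2 | rfl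
    exacts [ih h1.2 h2, h1.1]

theorem allI_spec {lo hi : ℤ} {f : ℤ → Bool} (h : allI lo hi f = true) (x : ℤ) (h1 : lo ≤ x)
    (h2 : x ≤ hi) : f x = true := by
  rw [allI, fI_eq] at h
  have h3 := allN_spec h (k := (x - lo).toNat) (by omega)
  rwa [fI_eq, show lo + Int.ofNat (x - lo).toNat = x by simp only [Int.ofNat_eq_natCast]; omega]
    at h3

theorem allR_spec {w D N : ℤ} {f : ℤ → Bool} (h : allR w D N f = true) (x : ℤ) (h1 : 0 < D)
    (h2 : 2 * |w + D * x| ≤ N) : f x = true := by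
  have h3 := le_abs_self (w + D * x)
  have h4 := neg_abs_le (w + D * x)
  exact allI_spec h x (neg_le.1 (Int.le_ediv_of_mul_le (by omega) (by linarith)))
    (Int.le_ediv_of_mul_le (by omega) (by linarith))

theorem allP_spec {p B x : ℤ} {f : ℤ → Bool} (h : allP p B f x = true) (hp : 1 ≤ p) (hx : 0 ≤ x)
    (k : ℕ) (hk : x * p ^ k ≤ B) : f (x * p ^ k) = true := by
  rw [allP, fI_eq] at h
  generalize 40 = n at h
  induction n generalizing x k with
  | zero => exact absurd h Bool.false_ne_true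
  | succ n ih =>
    have h1 : x ≤ B := (le_mul_of_one_le_right hx (one_le_pow₀ hp)).trans hk
    simp only [fI_eq, Bool.or_eq_true, decide_eq_true_eq, Bool.and_eq_true, h1.not_gt,
      false_or] at h
    rcases k with _ | k
    · simpa using h.1
    · rw [pow_succ', ← mul_assoc] at hk ⊢
      exact ih (by positivity) k hk (by simpa only [fI_eq] using h.2)

/-- The moment inequalities. -/
def cD (q a1 b f1 f2 f3 D2 D3 A11 A12 A13 A22 A23 v1 v2 v3 : ℤ) : Bool :=
  allI (-1) 1 fun n1 => allI (-1) 1 fun n2 => allI (-1) 1 fun n3 =>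
    fI (v1 * n1 + v2 * n2 + v3 * n3) fun W => fI ((2 * W + a1 * b + D3) / (2 * D3)) fun n4 =>
      decide (0 < a1 * q * ad3 A11 A12 A13 A22 A23 D2 n1 n2 n3 (n1 - f1) (n2 - f2) (n3 - f3) +
        (D3 * n4 - W) * (D3 * n4 - W - a1 * b)) ||
      decide (n1 = f1 ∧ n2 = f2 ∧ n3 = f3) || decide (n1 = 0 ∧ n2 = 0 ∧ n3 = 0 ∧ n4 = 0)

/-- The fourth row. -/
def cC (g11 g12 f1 f2 f3 D2 D3 A11 A12 A13 A22 A23 q a1 b : ℤ) : Bool :=
  allR 0 1 g11 fun g14 => allR (-(g12 * g14)) g11 D2 fun g24 =>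
    allR (A13 * g14 + A23 * g24) D2 D3 fun g34 => fI (A11 * g14 + A12 * g24 + A13 * g34) fun v1 =>
      fI (A12 * g14 + A22 * g24 + A23 * g34) fun v2 =>
        fI (A13 * g14 + A23 * g24 + D2 * g34) fun v3 =>
          !decide ((a1 * b + (v1 * f1 + v2 * f2 + v3 * f3)) % D3 = 0) ||
          !decide ((a1 * q + (v1 * g14 + v2 * g24 + v3 * g34)) % D3 = 0) ||
          !cD q a1 b f1 f2 f3 D2 D3 A11 A12 A13 A22 A23 v1 v2 v3

/-- The local data. -/
def cB (D2 D3 r d : ℤ) (k : ℤ → ℤ → ℤ → Bool) (p x y : ℤ) : Bool :=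
  allP (p * p) D3 (fun a1 => !decide (D3 % a1 = 0) || fI (D3 / a1) fun s =>
    allP (p * p) (D3 * (2 + s) / (3 * r)) (fun a => !decide (a * r % a1 = 0) ||
      fI (a * r / a1) fun r0 => allP p (20 * s * s * s) (fun m => fI (a * m) fun q =>
        decide (4 * D2 * (a1 * q) < 3 * D3 * D3) || decide (D3 * D3 < a1 * q * d) ||
        decide ((m + 1) * s < 2 * (m * r0 - s * s)) || fI (m * r0) fun t => allI 0 s fun b =>
          !decide ((t - b * b) % s = 0) || fI ((t - b * b) / s) fun c =>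
            decide (c ≤ 0) || decide (m + 1 < 2 * c) || decide (3 * q < 25 * c) ||
            decide (a1 = 1 ∧ a = 25 ∧ m = 5 ∧ c = 2 ∧ p = 5) ||
            (allI 0 (min (c / 2) (2 * m / c)) fun g =>
              !decide ((m + g * g) % c = 0) || decide (m + g * g ≤ g * c)) || k q a1 b) p) y) x

/-- The third row. -/
def cA (g11 g12 g22 f1 f2 : ℤ) : Bool :=
  fI (g11 * g22 - g12 * g12) fun D2 => fI (f1 % 2) fun e1 => fI (f2 % 2) fun e2 =>
    decide (g11 ≤ f1 * f1) || decide (g22 ≤ f2 * f2) ||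
    decide (25 * (9 * D2 * e1 + 37 * g11 * g11) < 9 * 22 * g11 * D2) ||
    decide (D2 ≤ ad2 g11 g12 g22 f1 f2) ||
    fI (min (ad2 g11 g12 g22 e1 e2) (ad2 g11 g12 g22 e1 (-e2))) fun e =>
      decide (25 * (9 * e + 28 * g11) < 9 * 22 * D2) || (decide (75 * e < 66 * D2) &&
      allI 0 (g11 / 2) fun g13 => allR (-(g12 * g13)) g11 D2 fun g23 =>
        fI (ad2 g11 g12 g22 g13 g23) fun K => fI (g12 * g13 - g11 * g23) fun A23 =>
        fI (g12 * g23 - g13 * g22) fun A13 =>
        allI 0 ((175 * D2 * D2 / (66 * D2 - 75 * e) + K) / D2) fun g33 =>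
          fI (g11 * g33 - g13 * g13) fun A22 => decide (A22 < D2) || (decide (g33 ≤ 64) &&
          fI (D2 * g33 - K) fun D3 => fI (g22 * g33 - g23 * g23) fun A11 =>
          fI (g13 * g23 - g12 * g33) fun A12 => allI (-7) 7 fun f3 => decide (g33 ≤ f3 * f3) ||
            fI (ad3 A11 A12 A13 A22 A23 D2 f1 f2 f3 f1 f2 f3) fun E => decide (D3 ≤ E) ||
            fI (f3 % 2) fun e3 =>
            fI (min (min (ad3 A11 A12 A13 A22 A23 D2 e1 e2 e3 e1 e2 e3)
                (ad3 A11 A12 A13 A22 A23 D2 e1 (-e2) e3 e1 (-e2) e3))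
              (min (ad3 A11 A12 A13 A22 A23 D2 e1 e2 (-e3) e1 e2 (-e3))
                (ad3 A11 A12 A13 A22 A23 D2 e1 (-e2) (-e3) e1 (-e2) (-e3)))) fun F =>
              decide (25 * (3 * F + 4 * D2) < 3 * 22 * D3) || fI (D3 - E) fun r =>
              fI (E - F) fun d => allI 1 (D3 / 2) fun t => fI (2 * t + 1) fun p =>
                cB D2 D3 r d (cC g11 g12 f1 f2 f3 D2 D3 A11 A12 A13 A22 A23) p 1 (p * p) &&
                cB D2 D3 r d (cC g11 g12 f1 f2 f3 D2 D3 A11 A12 A13 A22 A23) p p p))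

/-- The first two rows. -/
def c0 (g11 g22 : ℤ) : Bool :=
  allI 0 (g11 / 2) fun g12 => allI 0 2 fun f1 => allI (-3) 3 fun f2 => cA g11 g12 g22 f1 f2

end

end BT.K6Q.B
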