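import Cfsg.Agent.Lib.Block.K6QB

/-!
# The finite search, first part
-/

set_option autoImplicit false

namespace BT.K6Q.B

theorem run0 : (allI 0 2 fun f1 => allI (-3) 3 fun f2 => cA 2 0 3 f1 f2) = true := by
  decide +kernel

theorem run2 : c0 2 2 = true := by decide +kernel

end BT.K6Q.B
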