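import Cfsg.Agent.Lib.Block.K6QB

/-!
# The finite search, third part
-/

set_option autoImplicit false

namespace BT.K6Q.B

theorem run3 : c0 2 4 = true := by decide +kernel

theorem run4 : c0 2 5 = true := by decide +kernel

theorem run5 : allI 6 13 (c0 2) = true := by decide +kernel

theorem run6 : allI 3 13 (c0 3) = true := by decide +kernel

end BT.K6Q.B
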