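import Cfsg.Agent.Lib.Block.K6QuatSc

/-!
# Lattices of rank four with a strictly relevant vector: the bounds
-/

set_option autoImplicit false

namespace BT.K6Q

theorem exists_par {D : ℤ} (hD : 0 < D) (x f : ℤ) :
    ∃ u : ℤ, 2 ∣ u - f ∧ (x + D * u) * (x + D * u) ≤ D * D := by
  have h1 := Int.emod_nonneg (x + D * f + D) (by omega : 2 * D ≠ 0)
  have h2 := Int.emod_lt_of_pos (x + D * f + D) (by omega : 0 < 2 * D)
  have h3 := Int.emod_add_mul_ediv (x + D * f + D) (2 * D)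
  refine ⟨f - 2 * ((x + D * f + D) / (2 * D)), ⟨-((x + D * f + D) / (2 * D)), by ring⟩, ?_⟩
  rw [show x + D * (f - 2 * ((x + D * f + D) / (2 * D))) = (x + D * f + D) % (2 * D) - D by
    linear_combination -h3]
  nlinarith

variable {q c m a1 s b r0 g11 g12 g13 g14 g22 g23 g24 g33 g34 f1 f2 f3
  D2 D3 A11 A12 A13 A22 A23 v1 v2 v3 : ℤ}

theorem Raw.id3 (R : Raw q c m a1 s b r0 g11 g12 g13 g14 g22 g23 g24 g33 g34 f1 f2 f3
    D2 D3 A11 A12 A13 A22 A23 v1 v2 v3) (u1 u2 u3 : ℤ) :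
    D2 * ad3 A11 A12 A13 A22 A23 D2 u1 u2 u3 u1 u2 u3 = D3 * ad2 g11 g12 g22 u1 u2 +
      (A13 * u1 + A23 * u2 + D2 * u3) * (A13 * u1 + A23 * u2 + D2 * u3) := by
  rw [R.eD3, R.eA11, R.eA12, R.eA13, R.eA22, R.eA23, R.eD2]
  unfold ad2 ad3
  ring

theorem Raw.der (R : Raw q c m a1 s b r0 g11 g12 g13 g14 g22 g23 g24 g33 g34 f1 f2 f3
    D2 D3 A11 A12 A13 A22 A23 v1 v2 v3) {ln ld hn hd : ℤ} (hq : 0 < q) (_hln : 0 < ln)
    (hld : 0 < ld) (hhd : 0 < hd) (h22 : 22 * ld ≤ 27 * ln) (hl : ln * q ≤ ld * (q - c))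
    (hh : hd * (q - c) < hn * q) :
    Der q a1 ln ld hn hd g11 g12 g22 f1 f2 f3 D2 D3 A11 A12 A13 A22 A23 := by
  have p1 := R.p1
  have p2 := R.p2
  have p3 := R.p3
  have pa := R.pa
  have haq : 0 < a1 * q := mul_pos pa hq
  have k3 : ∀ u1 u2 u3 : ℤ, 2 ∣ u1 - f1 → 2 ∣ u2 - f2 → 2 ∣ u3 - f3 →
      3 * ln * D3 ≤ ld * (3 * ad3 A11 A12 A13 A22 A23 D2 u1 u2 u3 u1 u2 u3 + 4 * D2) ∧
      a1 * q * (ln * D3 - ld * ad3 A11 A12 A13 A22 A23 D2 u1 u2 u3 u1 u2 u3) ≤ ld * D3 * D3 := by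
    intro u1 u2 u3 e1 e2 e3
    have h1 := mul_le_mul_of_nonneg_left (R.bab u1 u2 u3 e1 e2 e3) hld.le
    have h2 := mul_le_mul_of_nonneg_left hl (mul_pos pa p3).le
    have h3 := mul_le_mul_of_nonneg_left R.lov hld.le
    exact ⟨le_of_mul_le_mul_left (by linarith) haq, by linarith⟩
  have e3 : 3 * (D2 * D2) ≤ 4 * (g11 * D3) := by
    have h1 : g11 * D3 = D2 * A22 - A23 * A23 := by
      rw [R.eD3, R.eA22, R.eA23, R.eD2]; unfold ad2; ring
    have h2 := mul_le_mul_of_nonneg_left R.l2 p2.le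
    have h3 := mul_self_le_mul_self (by positivity) R.b23
    have h4 := abs_mul_abs_self A23
    linarith
  have k2 : ∀ u1 u2 : ℤ, 2 ∣ u1 - f1 → 2 ∣ u2 - f2 →
      9 * ln * D2 ≤ ld * (9 * ad2 g11 g12 g22 u1 u2 + 28 * g11) ∧
      3 * ln * D2 * D3 ≤ ld * (3 * D3 * ad2 g11 g12 g22 u1 u2 + 7 * D2 * D2) := by
    intro u1 u2 e1 e2
    obtain ⟨u3, e, h1⟩ := exists_par p2 (A13 * u1 + A23 * u2) f3
    have h2 := mul_le_mul_of_nonneg_left (k3 u1 u2 u3 e1 e2 e).1 p2.le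
    have h3 := congrArg (ld * ·) (R.id3 u1 u2 u3)
    have h4 := mul_le_mul_of_nonneg_left h1 hld.le
    have h5 := mul_le_mul_of_nonneg_left e3 hld.le
    exact ⟨le_of_mul_le_mul_left (by linarith) p3, by linarith⟩
  have k1 : 9 * ln * g11 * D2 ≤ ld * (9 * D2 * (f1 % 2) + 37 * g11 * g11) := by
    obtain ⟨u2, e, h1⟩ := exists_par (by omega : 0 < g11) (-(g12 * (f1 % 2))) f2
    have h2 := mul_le_mul_of_nonneg_left (k2 (f1 % 2) u2 (by omega) e).1 (by omega : 0 ≤ g11)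
    have h3 : ld * (g11 * ad2 g11 g12 g22 (f1 % 2) u2) = ld * (D2 * (f1 % 2) +
        (-(g12 * (f1 % 2)) + g11 * u2) * (-(g12 * (f1 % 2)) + g11 * u2)) := by
      rw [R.eD2]; unfold ad2
      rcases Int.emod_two_eq_zero_or_one f1 with h | h <;> rw [h] <;> ring
    have h4 := mul_le_mul_of_nonneg_left h1 hld.le
    linarith
  have e4 : 22 * g11 * D2 ≤ 27 * D2 + 111 * (g11 * g11) := by
    have h1 := mul_le_mul_of_nonneg_left h22 (mul_pos (by omega : 0 < g11) p2).le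
    have h2 := mul_le_mul_of_nonneg_left (by omega : f1 % 2 ≤ 1) (mul_pos hld p2).le
    exact le_of_mul_le_mul_left (by linarith) hld
  have a12 := R.a12
  have b12 := R.b12
  have l1 := R.l1
  have eD2 := R.eD2
  have u1 : g11 ≤ 7 := by
    have h1 : 3 * (g11 * g11) ≤ 4 * D2 := by nlinarith
    by_contra h
    nlinarith
  have h3 : hd * ad3 A11 A12 A13 A22 A23 D2 f1 f2 f3 f1 f2 f3 < hn * D3 := by
    have h1 := congrArg (hd * ·) R.cc
    have h2 := mul_lt_mul_of_pos_left hh (mul_pos pa p3)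
    have h3 := mul_nonneg hhd.le (mul_self_nonneg (a1 * b))
    exact lt_of_mul_lt_mul_left (by linarith) haq.le
  refine ⟨u1, ?_, k1, k2, k3, ?_, h3⟩
  · have h1 : g12 ≤ 3 := by omega
    interval_cases g11 <;> interval_cases g12 <;> omega
  · have h1 := congrArg (hd * ·) (R.id3 f1 f2 f3)
    have h2 := mul_lt_mul_of_pos_left h3 p2
    have h4 := mul_nonneg hhd.le (mul_self_nonneg (A13 * f1 + A23 * f2 + D2 * f3))
    exact lt_of_mul_lt_mul_left (by linarith) p3.le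

theorem Raw.loc {a h g : ℤ} (R : Raw (a * m) c m a1 s b r0 g11 g12 g13 g14 g22 g23 g24 g33 g34
    f1 f2 f3 D2 D3 A11 A12 A13 A22 A23 v1 v2 v3) (ha : 0 < a) (hm : 3 ≤ m)
    (loc : c * h - g * g = m) (hg : |g| < h) (hg2 : 2 * |g| ≤ c) (c0 : 0 < c) (_ : c ≠ m)
    (hone : g = 0 → c = 1) :
    Loc a m c g a1 s r0 D3 (D3 - ad3 A11 A12 A13 A22 A23 D2 f1 f2 f3 f1 f2 f3) := by
  have pa := R.pa
  have es := R.es
  have dv := R.dv
  have b0 := R.b0
  have bs := R.bs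
  have hs : 0 < s := (mul_pos_iff_of_pos_left pa).1 (es ▸ R.p3)
  have e1 := abs_mul_abs_self g
  have e2 := abs_nonneg g
  have hone' : |g| = 0 → c = 1 := fun e => hone (abs_eq_zero.1 e)
  have c2 : 2 * c ≤ m + 1 := by
    rcases e2.eq_or_lt with e | e
    · have := hone' e.symm
      omega
    · nlinarith [mul_nonneg c0.le (by omega : 0 ≤ h - |g| - 1), sq_nonneg (|g| - 1),
        mul_nonneg (by omega : 0 ≤ c - 2 * |g|) (by omega : 0 ≤ |g| - 1)]
  have ch : c * h ≤ 2 * m := by nlinarith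
  have hr : 0 < r0 := by
    by_contra hr
    nlinarith [mul_pos c0 hs, mul_self_nonneg b]
  have bb : b * b ≤ s * s := mul_self_le_mul_self b0 bs
  have er : a * (D3 - ad3 A11 A12 A13 A22 A23 D2 f1 f2 f3 f1 f2 f3) = a1 * r0 := by
    refine mul_left_cancel₀ (mul_pos pa (by omega : 0 < m)).ne' ?_
    linear_combination R.cc + a1 * c * es + a1 * a1 * dv
  refine ⟨c0, c2, hg2, by nlinarith, ⟨h, by linarith⟩, by nlinarith, ?_,
    (mul_pos_iff_of_pos_left ha).1 (er ▸ mul_pos pa hr), er, ?_⟩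
  · have s2 : s ≤ s * s := by nlinarith
    have s3 : s * s ≤ s * s * s := by nlinarith
    by_cases h1 : m < 2 * (s * s)
    · nlinarith
    have h2 : m ≤ 2 * (c * s) := by nlinarith
    have h3 : h ≤ 4 * s := le_of_mul_le_mul_left (by linarith) c0
    have h4 : m * (h * r0 - s) = h * (b * b) + s * (|g| * |g|) := by
      linear_combination -h * dv + s * loc - s * e1
    have h5 : h * (b * b) ≤ 4 * s * (s * s) := mul_le_mul h3 bb (mul_self_nonneg b) (by omega)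
    have h6 := mul_le_mul_of_nonneg_left (mul_self_le_mul_self e2 (by omega : |g| ≤ 4 * s)) hs.le
    by_cases h7 : 1 ≤ h * r0 - s
    · nlinarith
    have h8 : 0 ≤ h * (b * b) := mul_nonneg (by omega) (mul_self_nonneg b)
    have h9 : 0 ≤ s * (|g| * |g|) := mul_nonneg hs.le (mul_self_nonneg _)
    have h10 : m * (h * r0 - s) ≤ 0 := mul_nonpos_of_nonneg_of_nonpos (by omega) (by omega)
    have h11 : b * b = 0 := (mul_eq_zero.1 (by linarith : h * (b * b) = 0)).resolve_left (by omega)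
    have h12 := hone' (mul_self_eq_zero.1
      ((mul_eq_zero.1 (by linarith : s * (|g| * |g|) = 0)).resolve_left hs.ne'))
    subst h12
    nlinarith
  · have h1 : 3 * r0 ≤ s * (2 + s) := le_of_mul_le_mul_left (by
      nlinarith [mul_nonneg hs.le (by omega : 0 ≤ 2 * m - 3 * c),
        mul_nonneg (mul_self_nonneg s) (by omega : 0 ≤ m - 3)]) (by omega : 0 < m)
    have h2 := mul_le_mul_of_nonneg_left h1 pa.le
    rw [es] at er ⊢
    linarith

end BT.K6Q
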