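import Mathlib

/-!
# The mass of a binary local form
-/

set_option autoImplicit false

namespace BT.K6Q

variable {p i j : ℕ} (hp : p.Prime) {c h g : ℤ} (loc : c * h - g * g = p ^ j)
  (hc : ¬ (p : ℤ) ∣ c)
include hp loc hc

theorem loc_one (c0 : 0 < c) (h0 : g = 0) : c = 1 := by
  have h1 : IsCoprime (p : ℤ) c :=
    (Nat.prime_iff_prime_int.1 hp).irreducible.coprime_iff_not_dvd.2 hc
  have h2 : IsUnit c := (h1.pow_left (m := j)).isUnit_of_dvd' ⟨h, by rw [← loc, h0]; ring⟩ dvd_rfl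
  rcases Int.isUnit_iff.1 h2 with h3 | h3 <;> omega

omit hp loc in
theorem loc_ne (hj : 1 ≤ j) : c ≠ p ^ j := fun e => hc (e ▸ dvd_pow_self _ (by omega))

omit hp loc in
theorem loc_pos (hg2 : 2 * |g| ≤ c) : 0 < c :=
  (le_trans (by positivity) hg2).lt_of_ne fun e => hc (e ▸ dvd_zero _)

theorem loc_mass (hp2 : p ≠ 2) (hi : 1 ≤ i) (hj : 1 ≤ j) (h25 : 25 ≤ p ^ (i + j)) (hg : |g| < h)
    (hg2 : 2 * |g| ≤ c) (hn : ¬ (p = 3 ∧ i = 1 ∧ h = 2)) : 25 * c ≤ 3 * p ^ (i + j) := by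
  have c0 := loc_pos hc hg2
  have g0 := abs_nonneg g
  have hd : (p : ℤ) ∣ c * h - g * g := loc ▸ dvd_pow_self _ (by omega)
  have ho : Odd (c * h - g * g) := loc ▸ ((Int.odd_coe_nat p).2 (hp.odd_of_ne_two hp2)).pow
  have hm : (p : ℤ) ≤ c * h - g * g :=
    loc ▸ le_self_pow₀ (by exact_mod_cast hp.one_le) (by omega)
  have h2 : 2 ≤ h := by
    by_contra h2
    obtain rfl : h = 1 := by omega
    obtain rfl : g = 0 := abs_eq_zero.1 (by omega)
    exact hc (by simpa using hd)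
  have h3 : c * (h + 1) ≤ 2 * (c * h - g * g) := by
    rw [← abs_mul_abs_self g]; nlinarith
  have h4 : 25 ≤ (p : ℤ) ^ (i + j) := by exact_mod_cast h25
  rw [pow_add, ← loc] at h4 ⊢
  by_cases h5 : 17 ≤ (p : ℤ) ^ i * (h + 1)
  · have : (0 : ℤ) ≤ p ^ i := by positivity
    nlinarith
  have h6 : (p : ℤ) ≤ p ^ i := le_self_pow₀ (by exact_mod_cast hp.one_le) (by omega)
  have h7 : (p : ℤ) ^ i ≤ 5 := by nlinarith
  have h8 := hp.two_le
  have h9 : i = 1 := by
    by_contra h9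
    have : (p : ℤ) ^ 2 ≤ p ^ i := pow_le_pow_right₀ (by exact_mod_cast hp.one_le) (by omega)
    have : (3 : ℤ) ≤ p := by omega
    nlinarith
  subst h9
  rw [pow_one] at *
  obtain ⟨g1, g2⟩ := abs_lt.1 hg
  obtain ⟨r, hr⟩ := ho
  obtain rfl | rfl : p = 3 ∨ p = 5 := by
    have : p ≠ 4 := by rintro rfl; norm_num at hp
    omega
  · push_cast at *
    have h10 : h ≠ 2 := by simpa using hn
    obtain rfl | rfl : h = 3 ∨ h = 4 := by omega
    · obtain rfl : g = 0 := by interval_cases g <;> omega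
      have := loc_one hp (by exact_mod_cast loc) hc c0 rfl
      omega
    · interval_cases g <;> omega
  · push_cast at *
    obtain rfl : h = 2 := by omega
    interval_cases g <;> omega

end BT.K6Q
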