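import Cfsg.Agent.Lib.Block.K6QuatRaw
import Cfsg.Agent.Lib.Block.K6QuatDer
import Cfsg.Agent.Lib.Block.K6QuatMass

/-!
# From the scalar search to the lattice statement
-/

set_option autoImplicit false

namespace BT.K6Q

theorem quat_of_chk {p i j : ℕ} (hp : p.Prime) {c h g : ℤ}
    (hchk : ∀ {e : ℕ} {s b r0 g11 g12 g13 g14 g22 g23 g24 g33 g34 f1 f2 f3
      D2 D3 A11 A12 A13 A22 A23 v1 v2 v3 : ℤ}, Even (i + e) →
      Raw (p ^ (i + j)) c (p ^ j) (p ^ e) s b r0 g11 g12 g13 g14 g22 g23 g24 g33 g34 f1 f2 f3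
        D2 D3 A11 A12 A13 A22 A23 v1 v2 v3 →
      Der (p ^ (i + j)) (p ^ e) 22 25 1 1 g11 g12 g22 f1 f2 f3 D2 D3 A11 A12 A13 A22 A23 →
      Loc (p ^ i) (p ^ j) c g (p ^ e) s r0 D3
        (D3 - ad3 A11 A12 A13 A22 A23 D2 f1 f2 f3 f1 f2 f3) →
      p = 5 ∧ i = 2 ∧ j = 1 ∧ c = 2 ∧ e = 0)
    (hp2 : p ≠ 2) (hi : 1 ≤ i) (hj : 1 ≤ j) (loc : c * h - g * g = p ^ j) (hg : |g| < h)
    (hg2 : 2 * |g| ≤ c) (hc : ¬ (p : ℤ) ∣ c) (h3 : 25 * c ≤ 3 * p ^ (i + j))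
    {G Gam : Matrix (Fin 4) (Fin 4) ℤ} {f : Fin 4 → ℤ} (D : Dat (p ^ (i + j)) c (p ^ j) G Gam f)
    (sq : IsSquare (G.det * (p ^ i * p ^ (i + j)))) :
    p = 5 ∧ i = 2 ∧ j = 1 ∧ c = 2 ∧ G.det = 125 := by
  obtain ⟨G', Gam', f', D', e1, R⟩ := D.exists_red
  have c0 := loc_pos hc hg2
  have p0 : (0 : ℤ) < p := Int.natCast_pos.2 hp.pos
  obtain ⟨e, r0, D2, D3, A11, A12, A13, A22, A23, v1, v2, v3, he, e2, W⟩ :=
    D'.raw hp hi hj c0 hc R (e1 ▸ sq)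
  have p3 : (3 : ℤ) ≤ p := by exact_mod_cast hp.two_le.lt_of_ne hp2.symm
  obtain ⟨rfl, rfl, rfl, rfl, rfl⟩ := hchk he W
    (W.der (by positivity) (by norm_num) (by norm_num) one_pos (by norm_num) (by linarith)
      (by linarith))
    ((pow_add (p : ℤ) i j ▸ W).loc (by positivity)
      (p3.trans (le_self_pow₀ (by linarith) (by omega))) loc hg hg2 c0 (loc_ne hc hj)
      (loc_one hp loc hc c0))
  exact ⟨rfl, rfl, rfl, rfl, by rw [← e1, e2]; norm_num⟩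

end BT.K6Q
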