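import Cfsg.Agent.Lib.Block.K6QBS
import Cfsg.Agent.Lib.Block.K6QB1
import Cfsg.Agent.Lib.Block.K6QB2
import Cfsg.Agent.Lib.Block.K6QB3
import Cfsg.Agent.Lib.Block.K6QuatWrap

/-!
# Lattices of rank four with a strictly relevant vector: the result
-/

set_option autoImplicit false

namespace BT.K6Q.B

theorem c0_all {g11 g22 : ℤ} (h1 : 2 ≤ g11) (h2 : g11 ≤ 7) (h3 : g11 ≤ g22) (h4 : g22 ≤ 13)
    {g12 : ℤ} (h5 : 0 ≤ g12) (h6 : 2 * g12 ≤ g11) :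
    (allI 0 2 fun f1 => allI (-3) 3 fun f2 => cA g11 g12 g22 f1 f2) = true := by
  by_cases h : g11 = 2 ∧ g22 = 3
  · obtain ⟨rfl, rfl⟩ := h
    obtain rfl | rfl : g12 = 0 ∨ g12 = 1 := by omega
    exacts [run0, run1]
  refine allI_spec (show c0 g11 g22 = true from ?_) g12 h5 (by omega)
  obtain rfl | rfl | h7 : g11 = 2 ∨ g11 = 3 ∨ 4 ≤ g11 := by omega
  · obtain rfl | rfl | rfl | h7 : g22 = 2 ∨ g22 = 4 ∨ g22 = 5 ∨ 6 ≤ g22 := by omega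
    exacts [run2, run3, run4, allI_spec run5 _ h7 h4]
  · exact allI_spec run6 _ h3 h4
  · exact allI_spec (allI_spec run7 _ h7 h2) _ h3 h4

theorem quat {p i j : ℕ} (hp : p.Prime) {c h g : ℤ} {G Gam : Matrix (Fin 4) (Fin 4) ℤ}
    {f : Fin 4 → ℤ} (hp2 : p ≠ 2) (hi : 1 ≤ i) (hj : 1 ≤ j) (h25 : 25 ≤ p ^ (i + j))
    (loc : c * h - g * g = p ^ j) (hg : |g| < h) (hg2 : 2 * |g| ≤ c) (hc : ¬ (p : ℤ) ∣ c)
    (hn : ¬ (p = 3 ∧ i = 1 ∧ h = 2)) (D : Dat (p ^ (i + j)) c (p ^ j) G Gam f)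
    (sq : IsSquare (G.det * (p ^ i * p ^ (i + j)))) :
    p = 5 ∧ i = 2 ∧ j = 1 ∧ c = 2 ∧ G.det = 125 := by
  have h3 := loc_mass hp loc hc hp2 hi hj h25 hg hg2 hn
  refine quat_of_chk hp (fun {e s b r0 g11 g12 g13 g14 g22 g23 g24 g33 g34 f1 f2 f3
    D2 D3 A11 A12 A13 A22 A23 v1 v2 v3} he R E L => ?_) hp2 hi hj loc hg hg2 hc h3 D sq
  obtain ⟨i, rfl⟩ := Nat.exists_eq_add_of_le' hi
  obtain ⟨j, rfl⟩ := Nat.exists_eq_add_of_le' hj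
  obtain ⟨t, ht⟩ := hp.odd_of_ne_two hp2
  have p2 := hp.two_le
  have e1 : (p : ℤ) = 2 * t + 1 := by exact_mod_cast ht
  rw [pow_add] at R E h3
  have q1 := R.q1
  have q2 := R.q2
  have u1 := E.u1
  have u2 := E.u2
  obtain ⟨b1, b2, b3, b4, b5⟩ := cA_spec R (allI_spec (allI_spec
    (c0_all R.p1 u1 R.l1 u2 R.a12 R.b12) f1 R.f0 (by nlinarith)) f2 (by nlinarith) (by nlinarith))
    E L h3 (t := t) (by omega) (by rw [e1]) (by rw [e1]) (by rw [e1]) he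
  obtain rfl : p = 5 := by omega
  have k : ∀ {a b : ℕ}, ((5 : ℕ) : ℤ) ^ a = 5 ^ b → a = b := fun h =>
    Nat.pow_right_injective (show 2 ≤ 5 by omega) (by exact_mod_cast h)
  exact ⟨rfl, k b2, k b3, b4, k b1⟩

end BT.K6Q.B
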