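import Cfsg.Agent.Lib.Block.K6QB

/-!
# Soundness of the finite search
-/

set_option autoImplicit false

namespace BT.K6Q.B

theorem allI_of {lo hi : ℤ} {f : ℤ → Bool} (h : ∀ x, f x = true) : allI lo hi f = true := by
  rw [allI, fI_eq]
  generalize (hi + 1 - lo).toNat = n
  induction n with
  | zero => rfl
  | succ n ih => exact Bool.and_eq_true_iff.2 ⟨(fI_eq _ _).trans (h _), ih⟩

theorem min_ind {P : ℤ → Prop} {a b : ℤ} (ha : P a) (hb : P b) : P (min a b) := by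
  rcases min_choice a b with h | h <;> rwa [h]

variable {a c m a1 s b r0 g g11 g12 g13 g14 g22 g23 g24 g33 g34 f1 f2 f3
  D2 D3 A11 A12 A13 A22 A23 v1 v2 v3 : ℤ}
  (R : Raw (a * m) c m a1 s b r0 g11 g12 g13 g14 g22 g23 g24 g33 g34 f1 f2 f3
    D2 D3 A11 A12 A13 A22 A23 v1 v2 v3)
include R

theorem cD_of : cD (a * m) a1 b f1 f2 f3 D2 D3 A11 A12 A13 A22 A23 v1 v2 v3 = true :=
  allI_of fun n1 => allI_of fun n2 => allI_of fun n3 => by
    simp only [fI_eq, Bool.or_eq_true, decide_eq_true_eq]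
    refine or_iff_not_imp_right.2 fun h1 => or_iff_not_imp_right.2 fun h2 => R.mom _ _ _ _ ?_ ?_
    · simpa only [not_and_or] using h2
    · simpa only [not_and_or] using h1

theorem not_cC (h : cC g11 g12 f1 f2 f3 D2 D3 A11 A12 A13 A22 A23 (a * m) a1 b = true) : False := by
  have h1 := allR_spec h g14 one_pos (by simpa using R.b14)
  have h2 := allR_spec h1 g24 (by linarith [R.p1]) (by rw [neg_add_eq_sub]; exact R.b24)
  have h3 := allR_spec h2 g34 R.p2 (R.ev3 ▸ R.b34)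
  simp only [fI_eq, ← R.ev1, ← R.ev2, ← R.ev3, cD_of R, Int.emod_eq_zero_of_dvd R.d44,
    Int.emod_eq_zero_of_dvd R.df4] at h3
  exact absurd h3 (by decide)

theorem cB_spec {r d p x y : ℤ} {k : ℤ → ℤ → ℤ → Bool} (h : cB D2 D3 r d k p x y = true)
    (hp : 1 ≤ p) (hx : 0 ≤ x) (hy : 0 ≤ y) {i j e : ℕ} (he : a1 = x * (p * p) ^ e)
    (hi : a = y * (p * p) ^ i) (hj : m = p * p ^ j) (L : Loc a m c g a1 s r0 D3 r)
    (hd : a1 * (a * m) * d ≤ D3 * D3) (h25 : 25 * c ≤ 3 * (a * m)) :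
    (a1 = 1 ∧ a = 25 ∧ m = 5 ∧ c = 2 ∧ p = 5) ∨ k (a * m) a1 b = true := by
  have pp : 1 ≤ p * p := one_le_mul_of_one_le_of_one_le hp hp
  have pa := R.pa
  have s0 : 0 < s := pos_of_mul_pos_right (R.es ▸ R.p3) pa.le
  have e1 : D3 / a1 = s := by rw [R.es, Int.mul_ediv_cancel_left _ pa.ne']
  have e2 : D3 % a1 = 0 := by rw [R.es, Int.mul_emod_right]
  have e3 : a * r / a1 = r0 := by rw [L.er, Int.mul_ediv_cancel_left _ pa.ne']
  have e4 : a * r % a1 = 0 := by rw [L.er, Int.mul_emod_right]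
  have e5 : m * r0 - b * b = c * s := by linarith [R.dv]
  have h1 := allP_spec h pp hx e (by rw [← he, R.es]; nlinarith)
  simp only [← he, e1, e2, fI_eq, decide_true, Bool.not_true, Bool.false_or] at h1
  have h2 := allP_spec h1 pp hy i (by
    rw [← hi]; exact Int.le_ediv_of_mul_le (by linarith [L.rp]) (by linarith [L.ar]))
  simp only [← hi, e3, e4, decide_true, Bool.not_true, Bool.false_or] at h2
  have h3 := allP_spec h2 hp (by linarith) j (hj ▸ L.m20)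
  have e6 : ¬ (m + 1) * s < 2 * (m * r0 - s * s) := by
    have := mul_self_le_mul_self R.b0 R.bs
    nlinarith [L.c2]
  simp only [← hj, R.lov.not_gt, hd.not_gt, e6, decide_false, Bool.false_or] at h3
  have h4 := allI_spec h3 b R.b0 R.bs
  simp only [e5, Int.mul_emod_left, Int.mul_ediv_cancel _ s0.ne', decide_true, Bool.not_true,
    Bool.false_or, L.c0.not_ge, L.c2.not_gt, h25.not_gt, decide_false, Bool.or_eq_true,
    decide_eq_true_eq, false_or] at h4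
  rcases h4 with (h4 | h4) | h4
  · exact .inl h4
  · have h5 := allI_spec h4 |g| (abs_nonneg g) (le_min (by have := L.gc; omega)
      (Int.le_ediv_of_mul_le L.c0 L.gm))
    simp only [Int.emod_eq_zero_of_dvd L.gd, L.gh.not_ge] at h5
    exact absurd h5 (by decide)
  · exact .inr h4

theorem cA_spec (h : cA g11 g12 g22 f1 f2 = true)
    (D : Der (a * m) a1 22 25 1 1 g11 g12 g22 f1 f2 f3 D2 D3 A11 A12 A13 A22 A23)
    (L : Loc a m c g a1 s r0 D3 (D3 - ad3 A11 A12 A13 A22 A23 D2 f1 f2 f3 f1 f2 f3))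
    (h25 : 25 * c ≤ 3 * (a * m)) {t : ℤ} (ht : 1 ≤ t) {i j e : ℕ} (hj : m = (2 * t + 1) ^ (j + 1))
    (hi : a = (2 * t + 1) ^ (i + 1)) (he : a1 = (2 * t + 1) ^ e) (hie : Even (i + 1 + e)) :
    a1 = 1 ∧ a = 25 ∧ m = 5 ∧ c = 2 ∧ 2 * t + 1 = 5 := by
  have p2 := R.p2
  have p3 := R.p3
  have pa := R.pa
  have k1 : ¬ 25 * (9 * D2 * (f1 % 2) + 37 * g11 * g11) < 9 * 22 * g11 * D2 := D.k1.not_gt
  have k2 : ¬ D2 ≤ ad2 g11 g12 g22 f1 f2 := by have := D.h2; omega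
  have k3 := min_ind (P := fun e => 9 * 22 * D2 ≤ 25 * (9 * e + 28 * g11) ∧
    3 * 22 * D2 * D3 ≤ 25 * (3 * D3 * e + 7 * D2 * D2))
    (D.k2 (f1 % 2) (f2 % 2) (by omega) (by omega)) (D.k2 (f1 % 2) (-(f2 % 2)) (by omega) (by omega))
  simp only [cA, fI_eq, ← R.eD2, R.q1.not_ge, R.q2.not_ge, k1, k2, k3.1.not_gt, decide_false,
    Bool.false_or, Bool.and_eq_true, decide_eq_true_eq] at h
  obtain ⟨k4, h⟩ := h
  have h1 := allR_spec (allI_spec h g13 R.a13 (by have := R.b13; omega)) g23 (by linarith [R.p1])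
    (by rw [neg_add_eq_sub, abs_sub_comm, ← R.eA23]; exact R.b23)
  have q3 := R.q3
  have h2 := allI_spec h1 g33 (by nlinarith [mul_self_nonneg f3]) (Int.le_ediv_of_mul_le p2 (by
    have := Int.le_ediv_of_mul_le (a := D3) (sub_pos.2 k4) (b := 175 * D2 * D2) (by linarith [k3.2])
    linarith [R.eD3]))
  simp only [← R.eA22, ← R.eA23, ← R.eA13, ← R.eA11, ← R.eA12, ← R.eD3, R.l2.not_gt, decide_false,
    Bool.false_or, Bool.and_eq_true, decide_eq_true_eq] at h2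
  have h3 := allI_spec h2.2 f3 (by nlinarith [h2.1]) (by nlinarith [h2.1])
  have k5 : ¬ D3 ≤ ad3 A11 A12 A13 A22 A23 D2 f1 f2 f3 f1 f2 f3 := by have := D.h3; omega
  obtain ⟨P, hP⟩ : ∃ P : ℤ → Prop, P = fun F => 3 * 22 * D3 ≤ 25 * (3 * F + 4 * D2) ∧
    a1 * (a * m) * (ad3 A11 A12 A13 A22 A23 D2 f1 f2 f3 f1 f2 f3 - F) ≤ D3 * D3 := ⟨_, rfl⟩
  have k6 : ∀ u1 u2 u3 : ℤ, 2 ∣ u1 - f1 → 2 ∣ u2 - f2 → 2 ∣ u3 - f3 →
      P (ad3 A11 A12 A13 A22 A23 D2 u1 u2 u3 u1 u2 u3) := fun u1 u2 u3 b1 b2 b3 => hP ▸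
    ⟨(D.k3 u1 u2 u3 b1 b2 b3).1, by
      linarith [R.bab u1 u2 u3 b1 b2 b3, R.cc, mul_self_nonneg (a1 * b)]⟩
  have k7 := min_ind (P := P) (min_ind (P := P)
    (k6 (f1 % 2) (f2 % 2) (f3 % 2) (by omega) (by omega) (by omega))
    (k6 (f1 % 2) (-(f2 % 2)) (f3 % 2) (by omega) (by omega) (by omega)))
    (min_ind (P := P) (k6 (f1 % 2) (f2 % 2) (-(f3 % 2)) (by omega) (by omega) (by omega))
    (k6 (f1 % 2) (-(f2 % 2)) (-(f3 % 2)) (by omega) (by omega) (by omega)))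
  subst hP
  simp only [q3.not_ge, k5, k7.1.not_gt, decide_false, Bool.false_or] at h3
  have p1 : 1 ≤ 2 * t + 1 := by omega
  have s0 : 0 < s := pos_of_mul_pos_right (R.es ▸ R.p3) pa.le
  have hm : m = (2 * t + 1) * (2 * t + 1) ^ j := hj.trans (pow_succ' _ _)
  have key : ∀ {x y : ℤ} {i e : ℕ}, 0 ≤ x → 0 ≤ y → a1 = x * ((2 * t + 1) * (2 * t + 1)) ^ e →
      a = y * ((2 * t + 1) * (2 * t + 1)) ^ i → cB D2 D3 _ _
        (cC g11 g12 f1 f2 f3 D2 D3 A11 A12 A13 A22 A23) (2 * t + 1) x y = true → _ :=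
    fun hx hy e1 e2 h => (cB_spec R h p1 hx hy e1 e2 hm L k7.2 h25).resolve_right (not_cC R)
  have h4 : 2 * t + 1 ≤ D3 → _ := fun h => Bool.and_eq_true_iff.1 (allI_spec h3 t ht (by omega))
  obtain ⟨e, rfl | rfl⟩ := e.even_or_odd'
  · obtain ⟨i, rfl⟩ : Odd i := by grind
    have e2 : a = (2 * t + 1) * (2 * t + 1) * ((2 * t + 1) * (2 * t + 1)) ^ i := by
      rw [hi, ← pow_succ', ← sq, ← pow_mul]; rfl
    refine key zero_le_one (by positivity) (by rw [he, one_mul, ← sq, pow_mul]) e2 (h4 ?_).1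
    have b1 : (2 * t + 1) * (2 * t + 1) ≤ a := e2 ▸ le_mul_of_one_le_right (by positivity)
      (one_le_pow₀ (one_le_mul_of_one_le_of_one_le p1 p1))
    have b2 : s ≤ D3 := by rw [R.es]; nlinarith
    have b3 : 3 * a ≤ D3 * (2 + s) := by nlinarith [L.ar, L.rp]
    nlinarith
  · obtain ⟨i, rfl⟩ : Even i := by grind
    have e1 : a1 = (2 * t + 1) * ((2 * t + 1) * (2 * t + 1)) ^ e := by
      rw [he, pow_succ', ← sq, pow_mul]
    refine key (by omega) (by omega) e1 (by rw [mul_pow, ← pow_add, ← pow_succ', hi])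
      (h4 ?_).2
    have b1 : 2 * t + 1 ≤ a1 := e1 ▸ le_mul_of_one_le_right (by positivity)
      (one_le_pow₀ (one_le_mul_of_one_le_of_one_le p1 p1))
    rw [R.es]
    nlinarith

end BT.K6Q.B
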