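import Mathlib

/-!
# Lattices of rank four with a strictly relevant vector: the data
-/

set_option autoImplicit false

namespace BT.K6Q

open Matrix

/-- Gram matrix `G`, `Gam = q G⁻¹`, first coordinates `f`. -/
structure Dat (q c m : ℤ) (G Gam : Matrix (Fin 4) (Fin 4) ℤ) (f : Fin 4 → ℤ) : Prop where
  sym : G.transpose = G
  mul : Gam * G = q • (1 : Matrix (Fin 4) (Fin 4) ℤ)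
  two : ∀ v : Fin 4 → ℤ, v ≠ 0 → 2 ≤ v ⬝ᵥ G *ᵥ v
  cc : f ⬝ᵥ Gam *ᵥ f = q - c
  mom : ∀ n : Fin 4 → ℤ, n ≠ 0 → n ≠ f → f ⬝ᵥ Gam *ᵥ n < n ⬝ᵥ Gam *ᵥ n
  dvd : ∀ n : Fin 4 → ℤ, m ∣ c * (n ⬝ᵥ Gam *ᵥ n) + (f ⬝ᵥ Gam *ᵥ n) ^ 2

/-- The reduction conditions. -/
structure Red (G Gam : Matrix (Fin 4) (Fin 4) ℤ) (f : Fin 4 → ℤ) : Prop where
  f1 : 0 ≤ f 0
  a12 : 0 ≤ G 0 1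
  b12 : 2 * G 0 1 ≤ G 0 0
  a13 : 0 ≤ G 0 2
  b13 : 2 * G 0 2 ≤ G 0 0
  b14 : 2 * |G 0 3| ≤ G 0 0
  b23 : 2 * |G 0 0 * G 1 2 - G 0 1 * G 0 2| ≤ G 0 0 * G 1 1 - G 0 1 * G 0 1
  b24 : 2 * |G 0 0 * G 1 3 - G 0 1 * G 0 3| ≤ G 0 0 * G 1 1 - G 0 1 * G 0 1
  b34 : 2 * |(G 0 1 * G 1 2 - G 0 2 * G 1 1) * G 0 3 - (G 0 0 * G 1 2 - G 0 1 * G 0 2) * G 1 3 +
      (G 0 0 * G 1 1 - G 0 1 * G 0 1) * G 2 3| ≤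
    (G 0 0 * G 1 1 - G 0 1 * G 0 1) * G 2 2 -
      (G 1 1 * G 0 2 * G 0 2 - 2 * G 0 1 * G 0 2 * G 1 2 + G 0 0 * G 1 2 * G 1 2)
  l1 : G 0 0 ≤ G 1 1
  l2 : G 0 0 * G 1 1 - G 0 1 * G 0 1 ≤ G 0 0 * G 2 2 - G 0 2 * G 0 2
  l3 : (G 0 0 * G 1 1 - G 0 1 * G 0 1) * G 2 2 -
      (G 1 1 * G 0 2 * G 0 2 - 2 * G 0 1 * G 0 2 * G 1 2 + G 0 0 * G 1 2 * G 1 2) ≤
    (G 0 0 * G 1 1 - G 0 1 * G 0 1) * G 3 3 -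
      (G 1 1 * G 0 3 * G 0 3 - 2 * G 0 1 * G 0 3 * G 1 3 + G 0 0 * G 1 3 * G 1 3)
  b4 : 0 ≤ (Gam *ᵥ f) 3

end BT.K6Q
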