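import Cfsg.Agent.Lib.Block.K6QuatRed
import Cfsg.Agent.Lib.Block.K6QuatSc

/-!
# Lattices of rank four with a strictly relevant vector: from matrices to scalars
-/

set_option autoImplicit false

namespace BT.K6Q

open Matrix

variable {q c m : ℤ} {G Gam : Matrix (Fin 4) (Fin 4) ℤ} {f : Fin 4 → ℤ}

theorem even_of_isSquare_pow {p n : ℕ} (hp : p.Prime) (h : IsSquare ((p : ℤ) ^ n)) : Even n := by
  obtain ⟨r, hr⟩ := h
  have h1 : p ^ n = r.natAbs * r.natAbs := by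
    rw [← Int.natAbs_mul, ← hr, Int.natAbs_pow, Int.natAbs_natCast]
  have h2 : r.natAbs ≠ 0 := fun h => pow_ne_zero n hp.ne_zero (by rw [h1, h, mul_zero])
  have h3 := congrArg (fun x => x.factorization p) h1
  simp only [Nat.factorization_mul h2 h2, hp.factorization_pow, Finsupp.single_eq_same,
    Finsupp.add_apply] at h3
  exact ⟨_, h3⟩

theorem exists_eq_pow_of_dvd {p n : ℕ} (hp : p.Prime) {a : ℤ} (h0 : 0 < a) (h : a ∣ (p : ℤ) ^ n) :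
    ∃ e, a = p ^ e := by
  obtain ⟨a, rfl⟩ := Int.eq_ofNat_of_zero_le h0.le
  obtain ⟨e, -, rfl⟩ := (Nat.dvd_prime_pow hp).1 (show a ∣ p ^ n by exact_mod_cast h)
  exact ⟨e, by push_cast; rfl⟩

theorem Dat.gam_symm (D : Dat q c m G Gam f) (hq : q ≠ 0) : Gamᵀ = Gam := by
  have h1 : G * Gamᵀ = q • 1 := by
    rw [← D.sym, ← transpose_mul, D.mul, transpose_smul, transpose_one]
  have h2 : q • Gamᵀ = q • Gam := by
    rw [← Matrix.one_mul Gamᵀ, ← Matrix.smul_mul, ← D.mul, Matrix.mul_assoc, h1, Matrix.mul_smul,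
      Matrix.mul_one]
  ext i j
  exact mul_left_cancel₀ hq (congrFun (congrFun h2 i) j)

theorem Dat.mulVec_gam (D : Dat q c m G Gam f) (hq : q ≠ 0) (w : Fin 4 → ℤ) :
    G *ᵥ Gam *ᵥ w = q • w := by
  rw [mulVec_mulVec, ← D.gam_symm hq, ← D.sym, ← transpose_mul, D.mul, transpose_smul,
    transpose_one, smul_mulVec, one_mulVec]

theorem Dat.gam_comm (D : Dat q c m G Gam f) (hq : q ≠ 0) (n w : Fin 4 → ℤ) :
    n ⬝ᵥ Gam *ᵥ w = w ⬝ᵥ Gam *ᵥ n := by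
  rw [dotProduct_mulVec, dotProduct_comm, ← mulVec_transpose, D.gam_symm hq]

theorem Dat.sq_lt (D : Dat q c m G Gam f) (hq : 0 < q) (c0 : 0 < c) (hc : q ≠ c) (i : Fin 4) :
    f i * f i < G i i := by
  have f0 : f ≠ 0 := fun h => hc (by have := D.cc; rw [h, zero_dotProduct] at this; omega)
  have h1 := D.mom (-f) (neg_ne_zero.2 f0) fun h => f0 (funext fun i => by
    have := congrFun h i
    simp only [Pi.neg_apply, Pi.zero_apply] at this ⊢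
    omega)
  rw [mulVec_neg, neg_dotProduct_neg, dotProduct_neg, D.cc] at h1
  have h2 : ∀ v : Fin 4 → ℤ, 0 ≤ v ⬝ᵥ G *ᵥ v := fun v => by
    by_cases h : v = 0
    · simp [h]
    · linarith [D.two v h]
  have h3 := h2 ((q - c) • Pi.single i 1 - f i • Gam *ᵥ f)
  have h4 := D.two (Pi.single i 1) (by simp)
  have h5 : (Gam *ᵥ f) ⬝ᵥ G *ᵥ Pi.single i 1 = q * f i := by
    rw [dotProduct_mulVec, ← mulVec_transpose, D.sym, D.mulVec_gam hq.ne']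
    simp
  have h6 : Pi.single i 1 ⬝ᵥ G *ᵥ Pi.single i 1 = G i i := by simp
  simp only [mulVec_sub, mulVec_smul, sub_dotProduct, dotProduct_sub, smul_dotProduct,
    dotProduct_smul, D.mulVec_gam hq.ne', h5, h6, dotProduct_comm (Gam *ᵥ f) f, D.cc,
    single_dotProduct, smul_eq_mul] at h3
  rw [h6] at h4
  have h7 : 0 ≤ (q - c) * G i i - q * (f i * f i) :=
    nonneg_of_mul_nonneg_right (a := q - c) (by linarith) (by linarith)
  nlinarith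

theorem Dat.raw {p i j : ℕ} (hp : p.Prime) (hi : 1 ≤ i) (hj : 1 ≤ j) (c0 : 0 < c)
    (hc : ¬ (p : ℤ) ∣ c) (D : Dat (p ^ (i + j)) c (p ^ j) G Gam f) (R : Red G Gam f)
    (sq : IsSquare (G.det * (p ^ i * p ^ (i + j)))) :
    ∃ (e : ℕ) (r0 D2 D3 A11 A12 A13 A22 A23 v1 v2 v3 : ℤ), Even (i + e) ∧
      G.det = p ^ e * p ^ (i + j) ∧
      Raw (p ^ (i + j)) c (p ^ j) (p ^ e) (Gam 3 3) ((Gam *ᵥ f) 3) r0 (G 0 0) (G 0 1) (G 0 2)
        (G 0 3) (G 1 1) (G 1 2) (G 1 3) (G 2 2) (G 2 3) (f 0) (f 1) (f 2)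
        D2 D3 A11 A12 A13 A22 A23 v1 v2 v3 := by
  have p0 : (0 : ℤ) < p := Int.natCast_pos.2 hp.pos
  have hq : (0 : ℤ) < p ^ (i + j) := by positivity
  have hpq : (p : ℤ) ∣ p ^ (i + j) := dvd_pow_self _ (by omega)
  obtain ⟨s1, s2, s3, s4, s5, s6⟩ := D.symm
  obtain ⟨p1, p2, p3⟩ := D.pos
  obtain ⟨D2, eD2⟩ : ∃ x, x = G 0 0 * G 1 1 - G 0 1 * G 0 1 := ⟨_, rfl⟩
  obtain ⟨A23, eA23⟩ : ∃ x, x = G 0 1 * G 0 2 - G 0 0 * G 1 2 := ⟨_, rfl⟩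
  obtain ⟨A13, eA13⟩ : ∃ x, x = G 0 1 * G 1 2 - G 0 2 * G 1 1 := ⟨_, rfl⟩
  obtain ⟨A22, eA22⟩ : ∃ x, x = G 0 0 * G 2 2 - G 0 2 * G 0 2 := ⟨_, rfl⟩
  obtain ⟨D3, eD3⟩ : ∃ x, x = D2 * G 2 2 - ad2 (G 0 0) (G 0 1) (G 1 1) (G 0 2) (G 1 2) := ⟨_, rfl⟩
  obtain ⟨A11, eA11⟩ : ∃ x, x = G 1 1 * G 2 2 - G 1 2 * G 1 2 := ⟨_, rfl⟩
  obtain ⟨A12, eA12⟩ : ∃ x, x = G 0 2 * G 1 2 - G 0 1 * G 2 2 := ⟨_, rfl⟩
  obtain ⟨v1, ev1⟩ : ∃ x, x = A11 * G 0 3 + A12 * G 1 3 + A13 * G 2 3 := ⟨_, rfl⟩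
  obtain ⟨v2, ev2⟩ : ∃ x, x = A12 * G 0 3 + A22 * G 1 3 + A23 * G 2 3 := ⟨_, rfl⟩
  obtain ⟨v3, ev3⟩ : ∃ x, x = A13 * G 0 3 + A23 * G 1 3 + D2 * G 2 3 := ⟨_, rfl⟩
  have hd : G.det = D3 * G 3 3 - (v1 * G 0 3 + v2 * G 1 3 + v3 * G 2 3) := by
    subst_vars
    simp [det_succ_row_zero, Fin.sum_univ_succ, Fin.succAbove, ad2, s1, s2, s3, s4, s5, s6]
    ring
  have q2 : 0 < D2 := eD2 ▸ p2
  have q3 : 0 < D3 := by rw [eD3, eD2]; exact p3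
  have b34 : 2 * |v3| ≤ D3 := by
    convert R.b34 using 3
    · rw [ev3, eA13, eA23, eD2]; ring
    · rw [eD3, eD2, ad2]
  have lov : 3 * D3 * D3 ≤ 4 * D2 * G.det := by
    have h1 := mul_le_mul_of_nonneg_left R.l3 q3.le
    have h2 : D2 * G.det = D3 * ((G 0 0 * G 1 1 - G 0 1 * G 0 1) * G 3 3 -
        (G 1 1 * G 0 3 * G 0 3 - 2 * G 0 1 * G 0 3 * G 1 3 + G 0 0 * G 1 3 * G 1 3)) - v3 * v3 := by
      rw [hd]
      subst_vars
      unfold ad2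
      ring
    have h3 : D3 = (G 0 0 * G 1 1 - G 0 1 * G 0 1) * G 2 2 -
      (G 1 1 * G 0 2 * G 0 2 - 2 * G 0 1 * G 0 2 * G 1 2 + G 0 0 * G 1 2 * G 1 2) := by
      rw [eD3, eD2, ad2]
    rw [← h3] at h1
    nlinarith [abs_mul_abs_self v3, abs_nonneg v3]
  have d0 : 0 < G.det := by nlinarith
  obtain ⟨a1, ha⟩ : (p : ℤ) ^ (i + j) ∣ G.det := by
    have h1 : G.det • Gam = (p : ℤ) ^ (i + j) • G.adjugate := by
      rw [← Matrix.mul_one (G.det • Gam), Matrix.smul_mul, ← Matrix.mul_smul, ← mul_adjugate,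
        ← Matrix.mul_assoc, D.mul, Matrix.smul_mul, Matrix.one_mul]
    have h2 := congrArg (fun A => f ⬝ᵥ A *ᵥ f) h1
    simp only [smul_mulVec, dotProduct_smul, smul_eq_mul, D.cc] at h2
    exact (((Nat.prime_iff_prime_int.1 hp).coprime_iff_not_dvd.2 fun h =>
      hc ((dvd_sub_left hpq).1 (by simpa using h.neg_right))).pow_left (m := i + j)
      ).dvd_of_dvd_mul_right ⟨_, h2⟩
  have a0 : 0 < a1 := pos_of_mul_pos_right (ha ▸ d0) hq.le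
  obtain ⟨e, rfl⟩ := exists_eq_pow_of_dvd hp a0 (n := (i + j) * 4) (by
    have h1 := congrArg det D.mul
    rw [det_mul, det_smul, det_one, mul_one, Fintype.card_fin, ← pow_mul, ha] at h1
    exact h1 ▸ (dvd_mul_left _ _).mul_left _)
  rw [mul_comm] at ha
  have key : ∀ n w : Fin 4 → ℤ, p ^ e * (Gam *ᵥ w) 3 = D3 * w 3 - (v1 * w 0 + v2 * w 1 + v3 * w 2) ∧
      p ^ e * D3 * (n ⬝ᵥ Gam *ᵥ w) = p ^ e * p ^ (i + j) *
        ad3 A11 A12 A13 A22 A23 D2 (n 0) (n 1) (n 2) (w 0) (w 1) (w 2) +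
        (D3 * n 3 - (v1 * n 0 + v2 * n 1 + v3 * n 2)) *
          (D3 * w 3 - (v1 * w 0 + v2 * w 1 + v3 * w 2)) := fun n w => by
    have h := congrFun (D.mulVec_gam hq.ne' w)
    generalize Gam *ᵥ w = x at *
    have h0 := h 0
    have h1 := h 1
    have h2 := h 2
    have h3 := h 3
    simp only [mulVec, dotProduct, Fin.sum_univ_four, Pi.smul_apply, smul_eq_mul, s1, s2, s3, s4,
      s5, s6] at h0 h1 h2 h3 ⊢
    have k0 : D3 * x 0 + v1 * x 3 = p ^ (i + j) * (A11 * w 0 + A12 * w 1 + A13 * w 2) := by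
      subst_vars; unfold ad2
      linear_combination (G 1 1 * G 2 2 - G 1 2 * G 1 2) * h0 +
        (G 0 2 * G 1 2 - G 0 1 * G 2 2) * h1 + (G 0 1 * G 1 2 - G 0 2 * G 1 1) * h2
    have k1 : D3 * x 1 + v2 * x 3 = p ^ (i + j) * (A12 * w 0 + A22 * w 1 + A23 * w 2) := by
      subst_vars; unfold ad2
      linear_combination (G 0 2 * G 1 2 - G 0 1 * G 2 2) * h0 +
        (G 0 0 * G 2 2 - G 0 2 * G 0 2) * h1 + (G 0 1 * G 0 2 - G 0 0 * G 1 2) * h2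
    have k2 : D3 * x 2 + v3 * x 3 = p ^ (i + j) * (A13 * w 0 + A23 * w 1 + D2 * w 2) := by
      subst_vars; unfold ad2
      linear_combination (G 0 1 * G 1 2 - G 0 2 * G 1 1) * h0 +
        (G 0 1 * G 0 2 - G 0 0 * G 1 2) * h1 + (G 0 0 * G 1 1 - G 0 1 * G 0 1) * h2
    have k3 : p ^ e * x 3 = D3 * w 3 - (v1 * w 0 + v2 * w 1 + v3 * w 2) := by
      refine mul_left_cancel₀ hq.ne' ?_
      rw [hd] at ha
      linear_combination D3 * h3 - G 0 3 * k0 - G 1 3 * k1 - G 2 3 * k2 - x 3 * ha +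
        p ^ (i + j) * (w 0 * ev1 + w 1 * ev2 + w 2 * ev3)
    refine ⟨k3, ?_⟩
    unfold ad3
    linear_combination p ^ e * (n 0 * k0 + n 1 * k1 + n 2 * k2) +
      (D3 * n 3 - (v1 * n 0 + v2 * n 1 + v3 * n 2)) * k3
  have kb := (key f f).1
  have e4 : f ⬝ᵥ Gam *ᵥ Pi.single 3 1 = (Gam *ᵥ f) 3 := by
    rw [D.gam_comm hq.ne', single_dotProduct, one_mul]
  have e5 : Pi.single 3 1 ⬝ᵥ Gam *ᵥ Pi.single 3 1 = Gam 3 3 := by simp
  have hqc : (p : ℤ) ^ (i + j) ≠ c := fun h => hc (h ▸ hpq)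
  have mle : ∀ n, f ⬝ᵥ Gam *ᵥ n ≤ n ⬝ᵥ Gam *ᵥ n := fun n => by
    by_cases h0 : n = 0
    · simp [h0]
    by_cases h1 : n = f
    · rw [h1]
    exact (D.mom n h0 h1).le
  obtain ⟨r0, hr⟩ := D.dvd (Pi.single 3 1)
  rw [e4, e5, pow_two] at hr
  refine ⟨e, r0, D2, D3, A11, A12, A13, A22, A23, v1, v2, v3, ?_, ha, eD2, eA23, eA13, eA22, eD3,
    eA11, eA12, ev1, ev2, ev3, ?_, q2, q3, a0, R.f1, R.a12, R.b12, R.a13, R.b13, R.b14, ?_,
    eD2 ▸ R.b24, b34, R.l1, eD2 ▸ eA22 ▸ R.l2, ha ▸ lov, D.sq_lt hq c0 hqc 0, D.sq_lt hq c0 hqc 1,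
    D.sq_lt hq c0 hqc 2, ?_, R.b4, e4 ▸ e5 ▸ mle _, ?_, hr, ⟨G 3 3, by rw [← ha, hd]; ring⟩,
    ⟨f 3, by rw [kb]; ring⟩, fun u1 u2 u3 ⟨n1, h1⟩ ⟨n2, h2⟩ ⟨n3, h3⟩ => ?_,
    fun n1 n2 n3 n4 h1 h2 => ?_⟩
  · rw [ha, ← pow_add, ← pow_add, ← pow_add] at sq
    obtain ⟨k, hk⟩ := even_of_isSquare_pow hp sq
    exact ⟨k - (i + j), by omega⟩
  · simpa using D.two (Pi.single 0 1) (by simp)
  · rw [eA23, eD2, abs_sub_comm]
    exact R.b23
  · simpa using (key f (Pi.single 3 1)).1.symm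
  · rw [← D.cc, (key f f).2, kb]
  · obtain ⟨k, hk⟩ := exists_near (v1 * u1 + v2 * u2 + v3 * u3 - D3 * f 3) (show 0 < 2 * D3 by omega)
    have h4 := (key ![u1, u2, u3, f 3 + 2 * k] ![u1, u2, u3, f 3 + 2 * k]).2
    obtain ⟨n, h5⟩ : ∃ n, ![u1, u2, u3, f 3 + 2 * k] = n + n - f :=
      ⟨fun i => f i + ![n1, n2, n3, k] i, by
        ext i
        fin_cases i <;> simp <;> linarith⟩
    have h6 := mle n
    have h7 : ![u1, u2, u3, f 3 + 2 * k] ⬝ᵥ Gam *ᵥ ![u1, u2, u3, f 3 + 2 * k] ≥ p ^ (i + j) - c := by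
      rw [h5]
      simp only [mulVec_sub, mulVec_add, sub_dotProduct, dotProduct_sub, add_dotProduct,
        dotProduct_add, D.gam_comm hq.ne' n f, D.cc]
      linarith
    simp only [cons_val_zero, cons_val_one, cons_val] at h4
    have h8 := mul_le_mul_of_nonneg_left h7 (mul_pos a0 q3).le
    have h9 := abs_le.1 (show |v1 * u1 + v2 * u2 + v3 * u3 - D3 * f 3 - k * (2 * D3)| ≤ D3 by omega)
    nlinarith
  · have h3 := D.mom ![n1, n2, n3, n4] (fun h => by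
      have := congrFun h
      simp only [Fin.forall_fin_succ] at this
      simp at this
      tauto) fun h => by simp [← h] at h1
    have h4 := (key ![n1, n2, n3, n4] (![n1, n2, n3, n4] - f)).2
    rw [mulVec_sub, dotProduct_sub, D.gam_comm hq.ne' _ f] at h4
    simp only [Pi.sub_apply, cons_val_zero, cons_val_one, cons_val] at h4
    have h5 := mul_pos (mul_pos a0 q3) (sub_pos.2 h3)
    rw [h4] at h5
    exact h5.trans_eq (by rw [kb]; ring)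

end BT.K6Q
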