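import Cfsg.Agent.Lib.Block.K6QuatDef

/-!
# Lattices of rank four with a strictly relevant vector: reduction of the basis
-/

set_option autoImplicit false

namespace BT.K6Q

open Matrix

variable {q c m : ℤ} {G Gam : Matrix (Fin 4) (Fin 4) ℤ} {f : Fin 4 → ℤ}

theorem Dat.move (D : Dat q c m G Gam f) {U V : Matrix (Fin 4) (Fin 4) ℤ} (h : U * V = 1) :
    Dat q c m (U * G * Uᵀ) (Vᵀ * Gam * V) (U *ᵥ f) ∧ (U * G * Uᵀ).det = G.det := by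
  have h' : V * U = 1 := mul_eq_one_comm.1 h
  have e : ∀ (A W : Matrix (Fin 4) (Fin 4) ℤ) (x y : Fin 4 → ℤ),
      x ⬝ᵥ (Wᵀ * A * W) *ᵥ y = (W *ᵥ x) ⬝ᵥ A *ᵥ (W *ᵥ y) := fun A W x y => by
    rw [← mulVec_mulVec, ← mulVec_mulVec, dotProduct_mulVec, vecMul_transpose]
  have e1 : V *ᵥ U *ᵥ f = f := by rw [mulVec_mulVec, h', one_mulVec]
  have e2 : ∀ n, U *ᵥ V *ᵥ n = n := fun n => by rw [mulVec_mulVec, h, one_mulVec]
  refine ⟨⟨by rw [transpose_mul, transpose_mul, transpose_transpose, D.sym, Matrix.mul_assoc], ?_,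
    fun v hv => ?_, by rw [e, e1, D.cc], fun n h0 h1 => ?_, fun n => ?_⟩, ?_⟩
  · rw [show Vᵀ * Gam * V * (U * G * Uᵀ) = Vᵀ * (Gam * (V * U) * G) * Uᵀ by
      simp only [Matrix.mul_assoc], h', Matrix.mul_one, D.mul, Matrix.mul_smul, Matrix.smul_mul,
      Matrix.mul_one, ← transpose_mul, h, transpose_one]
  · have := e G Uᵀ v v
    rw [transpose_transpose] at this
    rw [this]
    refine D.two _ fun h0 => hv ?_
    rw [← one_mulVec v, ← transpose_one, ← h, transpose_mul, ← mulVec_mulVec, h0, mulVec_zero]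
  · rw [e, e, e1]
    exact D.mom _ (fun h2 => h0 (by rw [← e2 n, h2, mulVec_zero]))
      fun h2 => h1 (by rw [← e2 n, h2])
  · rw [e, e, e1]
    exact D.dvd _
  · have h2 := congrArg det h
    rw [det_mul, det_one] at h2
    rw [det_mul, det_mul, det_transpose]
    rcases Int.eq_one_or_neg_one_of_mul_eq_one h2 with h3 | h3 <;> rw [h3] <;> ring

/-- The second and third principal minors and the Gram-Schmidt numerators. -/
def d2 (G : Matrix (Fin 4) (Fin 4) ℤ) : ℤ := G 0 0 * G 1 1 - G 0 1 * G 0 1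

def d3 (G : Matrix (Fin 4) (Fin 4) ℤ) : ℤ := (G 0 0 * G 1 1 - G 0 1 * G 0 1) * G 2 2 -
  (G 1 1 * G 0 2 * G 0 2 - 2 * G 0 1 * G 0 2 * G 1 2 + G 0 0 * G 1 2 * G 1 2)

def l23 (G : Matrix (Fin 4) (Fin 4) ℤ) : ℤ := G 0 0 * G 1 2 - G 0 1 * G 0 2

def l24 (G : Matrix (Fin 4) (Fin 4) ℤ) : ℤ := G 0 0 * G 1 3 - G 0 1 * G 0 3

def l34 (G : Matrix (Fin 4) (Fin 4) ℤ) : ℤ := (G 0 1 * G 1 2 - G 0 2 * G 1 1) * G 0 3 -
  (G 0 0 * G 1 2 - G 0 1 * G 0 2) * G 1 3 + (G 0 0 * G 1 1 - G 0 1 * G 0 1) * G 2 3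

theorem Dat.symm (D : Dat q c m G Gam f) : G 1 0 = G 0 1 ∧ G 2 0 = G 0 2 ∧ G 3 0 = G 0 3 ∧
    G 2 1 = G 1 2 ∧ G 3 1 = G 1 3 ∧ G 3 2 = G 2 3 := by
  have h : ∀ i j, G j i = G i j := fun i j => congrFun (congrFun D.sym i) j
  exact ⟨h _ _, h _ _, h _ _, h _ _, h _ _, h _ _⟩

theorem Dat.pos (D : Dat q c m G Gam f) : 0 < G 0 0 ∧ 0 < d2 G ∧ 0 < d3 G := by
  obtain ⟨s1, s2, s3, s4, s5, s6⟩ := D.symm
  have h1 : 0 < G 0 0 := by
    have := D.two ![1, 0, 0, 0] (by decide)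
    simp [dotProduct, mulVec, Fin.sum_univ_four] at this
    omega
  have h2 : 0 < d2 G := by
    have := D.two ![-G 0 1, G 0 0, 0, 0] fun h => h1.ne' (congrFun h 1)
    simp [dotProduct, mulVec, Fin.sum_univ_four, s1] at this
    exact pos_of_mul_pos_right (a := G 0 0) (by unfold d2; linarith) h1.le
  have := D.two ![G 0 1 * G 1 2 - G 0 2 * G 1 1, -l23 G, d2 G, 0] fun h => h2.ne' (congrFun h 2)
  simp [dotProduct, mulVec, Fin.sum_univ_four, s1, s2, s4] at this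
  exact ⟨h1, h2, pos_of_mul_pos_right (a := d2 G) (by unfold d3 d2 l23 at *; linarith) h2.le⟩

theorem Dat.shear (D : Dat q c m G Gam f) (a b c' d e g : ℤ) : ∃ G' Gam' f',
    Dat q c m G' Gam' f' ∧ G'.det = G.det ∧ G' 0 0 = G 0 0 ∧ d2 G' = d2 G ∧ d3 G' = d3 G ∧
    G' 0 1 = G 0 1 - a * G 0 0 ∧ G' 0 2 = G 0 2 - c' * G 0 1 - b * G 0 0 ∧
    G' 0 3 = G 0 3 - g * G 0 2 - e * G 0 1 - d * G 0 0 ∧ l23 G' = l23 G - c' * d2 G ∧
    l24 G' = l24 G - g * l23 G - e * d2 G ∧ l34 G' = l34 G - g * d3 G := by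
  obtain ⟨s1, s2, s3, s4, s5, s6⟩ := D.symm
  obtain ⟨h1, h2⟩ := D.move (U := !![1, 0, 0, 0; -a, 1, 0, 0; -b, -c', 1, 0; -d, -e, -g, 1])
    (V := !![1, 0, 0, 0; a, 1, 0, 0; a * c' + b, c', 1, 0;
      d + a * e + b * g + a * c' * g, c' * g + e, g, 1]) (by
      ext i j
      fin_cases i <;> fin_cases j <;> simp [Matrix.mul_apply, Fin.sum_univ_four] <;> ring)
  refine ⟨_, _, _, h1, h2, ?_⟩
  simp only [d2, d3, l23, l24, l34, Matrix.mul_apply, Fin.sum_univ_four, transpose_apply, of_apply,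
    cons_val', cons_val_zero, cons_val_one, cons_val, cons_val_fin_one, s1, s2, s3, s4, s5, s6]
  refine ⟨?_, ?_, ?_, ?_, ?_, ?_, ?_, ?_, ?_⟩ <;> ring

theorem Dat.sign (D : Dat q c m G Gam f) {ε : Fin 4 → ℤ} (h : ∀ i, ε i = 1 ∨ ε i = -1) :
    ∃ G' Gam' f', Dat q c m G' Gam' f' ∧ G'.det = G.det ∧ (∀ i j, G' i j = ε i * G i j * ε j) ∧
      f' 0 = ε 0 * f 0 ∧ (Gam' *ᵥ f') 3 = ε 3 * (Gam *ᵥ f) 3 := by
  have h0 : diagonal ε * diagonal ε = 1 := by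
    rw [diagonal_mul_diagonal, ← diagonal_one]
    congr 1
    ext i
    rcases h i with e | e <;> simp [e]
  obtain ⟨h1, h2⟩ := D.move h0
  refine ⟨_, _, _, h1, h2, fun i j => by simp, by simp [mulVec_diagonal], ?_⟩
  rw [mulVec_mulVec, Matrix.mul_assoc, h0, Matrix.mul_one, ← mulVec_mulVec, diagonal_transpose,
    mulVec_diagonal]

theorem Dat.perm (D : Dat q c m G Gam f) (σ : Equiv.Perm (Fin 4)) :
    ∃ G' Gam' f', Dat q c m G' Gam' f' ∧ G'.det = G.det ∧ ∀ i j, G' i j = G (σ i) (σ j) := by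
  obtain ⟨h1, h2⟩ := D.move (U := σ.permMatrix ℤ) (V := σ⁻¹.permMatrix ℤ) (by
    rw [← permMatrix_mul, inv_mul_cancel, permMatrix_one])
  refine ⟨_, _, _, h1, h2, fun i j => ?_⟩
  simp [Equiv.Perm.permMatrix, PEquiv.toMatrix_toPEquiv_mul, PEquiv.mul_toMatrix_toPEquiv,
    ← PEquiv.toMatrix_symm, ← Equiv.toPEquiv_symm]

theorem exists_near (b : ℤ) {A : ℤ} (hA : 0 < A) : ∃ r, 2 * |b - r * A| ≤ A := by
  refine ⟨(2 * b + A) / (2 * A), ?_⟩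
  have h1 := Int.emod_nonneg (2 * b + A) (show 2 * A ≠ 0 by omega)
  have h2 := Int.emod_lt_of_pos (2 * b + A) (show 0 < 2 * A by omega)
  have h3 := Int.emod_add_mul_ediv (2 * b + A) (2 * A)
  rcases abs_cases (b - (2 * b + A) / (2 * A) * A) with h | h <;> rw [h.1] <;> linarith

theorem exists_sign (x : ℤ) : ∃ ε : ℤ, (ε = 1 ∨ ε = -1) ∧ ε * x = |x| := by
  rcases abs_cases x with h | h
  exacts [⟨1, by simp [h.1]⟩, ⟨-1, by simp [h.1]⟩]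

theorem Dat.exists_red (D : Dat q c m G Gam f) :
    ∃ G' Gam' f', Dat q c m G' Gam' f' ∧ G'.det = G.det ∧ Red G' Gam' f' := by
  obtain ⟨N, ⟨G1, Gam1, f1, D1, e1, rfl⟩, hN⟩ := Int.exists_least_of_bdd
    (P := fun N => ∃ G' Gam' f', Dat q c m G' Gam' f' ∧ G'.det = G.det ∧
      G' 0 0 + d2 G' + d3 G' = N) ⟨0, by
        rintro _ ⟨G', Gam', f', D', -, rfl⟩
        have := D'.pos
        omega⟩ ⟨_, G, Gam, f, D, rfl, rfl⟩
  obtain ⟨p1, p2, p3⟩ := D1.pos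
  obtain ⟨a, ha⟩ := exists_near (G1 0 1) p1
  obtain ⟨c', hc⟩ := exists_near (l23 G1) p2
  obtain ⟨b, hb⟩ := exists_near (G1 0 2 - c' * G1 0 1) p1
  obtain ⟨g, hg⟩ := exists_near (l34 G1) p3
  obtain ⟨e, he⟩ := exists_near (l24 G1 - g * l23 G1) p2
  obtain ⟨d, hd⟩ := exists_near (G1 0 3 - g * G1 0 2 - e * G1 0 1) p1
  obtain ⟨G2, Gam2, f2, D2, e2, k1, k2, k3, k4, k5, k6, k7, k8, k9⟩ := D1.shear a b c' d e g
  rw [← k4, ← k1] at ha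
  rw [← k5, ← k1] at hb
  rw [← k6, ← k1] at hd
  rw [← k7, ← k2] at hc
  rw [← k8, ← k2] at he
  rw [← k9, ← k3] at hg
  rw [← k1, ← k2, ← k3] at hN
  obtain ⟨ε0, s0, t0⟩ := exists_sign (f2 0)
  obtain ⟨ε1, s1, t1⟩ := exists_sign (ε0 * G2 0 1)
  obtain ⟨ε2, s2, t2⟩ := exists_sign (ε0 * G2 0 2)
  obtain ⟨ε3, s3, t3⟩ := exists_sign ((Gam2 *ᵥ f2) 3)
  obtain ⟨G3, Gam3, f3, D3, e3, m1, m2, m3⟩ := D2.sign (ε := ![ε0, ε1, ε2, ε3]) fun i => by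
    fin_cases i <;> assumption
  have e4 : G3.det = G.det := e3.trans (e2.trans e1)
  have n0 : G3 0 0 = G2 0 0 ∧ d2 G3 = d2 G2 ∧ d3 G3 = d3 G2 ∧ G3 0 1 = |G2 0 1| ∧
      G3 0 2 = |G2 0 2| ∧ |G3 0 3| = |G2 0 3| ∧ |l23 G3| = |l23 G2| ∧ |l24 G3| = |l24 G2| ∧
      |l34 G3| = |l34 G2| := by
    simp only [d2, d3, l23, l24, l34, m1, cons_val_zero, cons_val_one, cons_val, abs_eq_abs]
    rcases s0 with rfl | rfl <;> simp only [one_mul, neg_mul, abs_neg] at t1 t2 <;>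
      rw [← t1, ← t2] <;> rcases s1 with rfl | rfl <;> rcases s2 with rfl | rfl <;>
      rcases s3 with rfl | rfl <;> refine ⟨?_, ?_, ?_, ?_, ?_, ?_, ?_, ?_, ?_⟩ <;>
      first | ring1 | (left; ring1) | (right; ring1)
  obtain ⟨n1, n2, n3, n4, n5, n6, n7, n8, n9⟩ := n0
  rw [← n1, ← n2, ← n3] at hN
  obtain ⟨u1, u2, u3, u4, u5, u6⟩ := D3.symm
  have key : ∀ σ : Equiv.Perm (Fin 4), ∃ G' : Matrix (Fin 4) (Fin 4) ℤ,
      (∀ i j, G' i j = G3 (σ i) (σ j)) ∧ G3 0 0 + d2 G3 + d3 G3 ≤ G' 0 0 + d2 G' + d3 G' :=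
    fun σ => let ⟨G', Gam', f', D', h1, h2⟩ := D3.perm σ
      ⟨G', h2, hN _ ⟨G', Gam', f', D', h1.trans e4, rfl⟩⟩
  refine ⟨G3, Gam3, f3, D3, e4, m2 ▸ t0 ▸ abs_nonneg _, n4 ▸ abs_nonneg _, by omega,
    n5 ▸ abs_nonneg _, by omega, by omega, show 2 * |l23 G3| ≤ d2 G3 by omega,
    show 2 * |l24 G3| ≤ d2 G3 by omega, show 2 * |l34 G3| ≤ d3 G3 by omega, ?_, ?_, ?_,
    m3 ▸ t3 ▸ abs_nonneg _⟩
  · obtain ⟨G', h1, h2⟩ := key (Equiv.swap 0 1)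
    simp [d2, d3, h1, Equiv.swap_apply_def, u1, u2, u4] at h2
    linarith
  · obtain ⟨G', h1, h2⟩ := key (Equiv.swap 1 2)
    simp [d2, d3, h1, Equiv.swap_apply_def, u1, u2, u4] at h2
    linarith
  · obtain ⟨G', h1, h2⟩ := key (Equiv.swap 2 3)
    simp [d2, d3, h1, Equiv.swap_apply_def] at h2
    linarith

end BT.K6Q
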