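import Cfsg.Agent.Lib.Block.K6Lift
import Cfsg.Agent.Lib.Block.K6QuatDef

/-!
# A single class of nontrivial `p`-elements, of rank two
-/

set_option autoImplicit false
set_option linter.unusedSectionVars false

namespace BT.K5

open Cfsg CT GT Subgroup
open scoped ComplexConjugate

theorem loc_form {p : ℕ} (hp : p.Prime) {d : ℕ} {c a b H X K : ℤ} (e1 : c * H + a * X = p ^ d)
    (e2 : c * X + a * K = 0) (e3 : a * H + b * X = 0) (e4 : a * X + b * K = p ^ d) (hc : 0 < c)
    (hK : 0 < K) (hcp : ¬ (p : ℤ) ∣ c) (hm : (p : ℤ) ∣ c * b - a * a) (hK' : (p : ℤ) ∣ K) :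
    ∃ i j : ℕ, 1 ≤ i ∧ 1 ≤ j ∧ i + j = d ∧ c * b - a * a = p ^ j ∧ H = p ^ i * b ∧
      X = -(p ^ i * a) ∧ K = p ^ i * c := by
  have hp' : Prime (p : ℤ) := Nat.prime_iff_prime_int.1 hp
  have p0 : (0 : ℤ) < p := Int.natCast_pos.2 hp.pos
  have h1 : (c * b - a * a) * K = c * p ^ d := by linear_combination c * e4 - a * e2
  have h2 : (c * b - a * a) * H = b * p ^ d := by linear_combination b * e1 - a * e3
  have h3 : (c * b - a * a) * X = -(a * p ^ d) := by linear_combination c * e3 - a * e1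
  have h4 : 0 < c * b - a * a := by nlinarith [mul_pos hc (pow_pos p0 d)]
  have h5 : c * b - a * a ∣ (p : ℤ) ^ (d + d) := ⟨H * K - X * X, by
    rw [pow_add]
    linear_combination -(a * X + b * K) * e1 - p ^ d * e4 + (a * H + b * X) * e2⟩
  obtain ⟨j, -, hj⟩ := (dvd_prime_pow hp' _).1 h5
  have h6 : c * b - a * a = p ^ j := by
    rcases Int.associated_iff.1 hj with h | h
    · exact h
    · nlinarith [pow_pos p0 j]
  have h7 : IsCoprime (p : ℤ) c := hp'.irreducible.coprime_iff_not_dvd.2 hcp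
  rw [h6] at h1 h2 h3 hm
  obtain ⟨i, rfl⟩ := Nat.exists_eq_add_of_le' ((pow_dvd_pow_iff hp'.ne_zero hp'.not_isUnit).1
    (h7.pow_left.dvd_of_dvd_mul_left ⟨K, h1.symm⟩))
  have h8 := (pow_pos p0 j).ne'
  have h9 : K = p ^ i * c := mul_left_cancel₀ h8 (by rw [h1]; ring)
  refine ⟨i, j, Nat.pos_of_ne_zero ?_, Nat.pos_of_ne_zero ?_, rfl, h6,
    mul_left_cancel₀ h8 (by rw [h2]; ring), mul_left_cancel₀ h8 (by rw [h3]; ring), h9⟩
  · rintro rfl
    exact hcp (by simpa [h9] using hK')
  · rintro rfl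
    exact hp'.not_dvd_one (by simpa using hm)

variable {p : ℕ} [hp : Fact p.Prime] {M : Ideal AlgInt} (hM : IsPModular p M)
variable {G : Type*} [Group G] [Finite G]
include hM

theorem L2.dvd_det {B : Set (IrrCharacter G)} {w x : IrrCharacter G → ℤ} (hB : IsPBlock M B)
    (h1 : irrOne G ∈ B) (L : L2 p B w x) {c a b : ℤ}
    (e1 : c * dot B w w + a * dot B w x = p ^ blockDefect p B)
    (e2 : c * dot B w x + a * dot B x x = 0) (e3 : a * dot B w w + b * dot B w x = 0)
    (e4 : a * dot B w x + b * dot B x x = p ^ blockDefect p B) : (p : ℤ) ∣ c * b - a * a := by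
  obtain ⟨n, -, n2⟩ := L.dual
  have hp' : Prime (p : ℤ) := Nat.prime_iff_prime_int.1 hp.out
  by_contra h
  refine hp'.not_dvd_one (n2 ▸ Finset.dvd_sum fun χ hχ => Dvd.dvd.mul_left ?_ _)
  have hχ := mem_bset.1 hχ
  have h2 := (cm_mul_cm_modEq hM hB (irr_isCharacter χ).isGen (irr_isCharacter (irrOne G)).isGen
    h1 hχ).dvd
  simp only [L.cm_eq hM hB e1 e2 e3 e4, hχ, h1, L.w1, L.x1] at h2
  have h3 : (p : ℤ) ∣ (c * b - a * a) * (x χ * x χ) := by convert h2 using 1; ring
  exact hp'.dvd_of_dvd_pow (n := 2) (sq (x χ) ▸ (hp'.dvd_or_dvd h3).resolve_left h)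

section
variable {z : G} {w x : IrrCharacter (centralizer ({z} : Set G)) → ℤ} {W X : IrrCharacter G → ℤ}
  (L : L2 p (principalBlock M _) w x) (hW : IsLift p M z w W) (hX : IsLift p M z x X) {c a b : ℤ}
  (e1 : c * dot (principalBlock M _) w w + a * dot (principalBlock M _) w x =
    p ^ blockDefect p (principalBlock M (centralizer ({z} : Set G))))
  (e2 : c * dot (principalBlock M _) w x + a * dot (principalBlock M _) x x = 0)
  (e3 : a * dot (principalBlock M _) w w + b * dot (principalBlock M _) w x = 0)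
  (e4 : a * dot (principalBlock M _) w x + b * dot (principalBlock M _) x x =
    p ^ blockDefect p (principalBlock M (centralizer ({z} : Set G))))
include L hW hX e1 e2 e3 e4

theorem IsLift.contr_eq {χ ψ : IrrCharacter G} (hχ : χ ∈ principalBlock M G)
    (hψ : ψ ∈ principalBlock M G) :
    (p : ℂ) ^ blockDefect p (principalBlock M (centralizer ({z} : Set G))) *
      contr p _ z (principalBlock M (centralizer ({z} : Set G))) χ.1 ψ.1 =
      ((c * (W χ * W ψ) + a * (W χ * X ψ + X χ * W ψ) + b * (X χ * X ψ) : ℤ) : ℂ) := by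
  have f : ∀ {m v}, IsLift p M z m v → ∀ η ∈ principalBlock M G,
      (v η : ℂ) = ∑ ξ ∈ bset (principalBlock M _), m ξ * ip (shift _ z η.1) ξ.1 ∧
      (v η : ℂ) = ∑ ξ ∈ bset (principalBlock M _), m ξ * conj (ip (shift _ z η.1) ξ.1) :=
    fun h η hη => by
      have h2 := (h.2 η hη).symm.trans (ip_comb_right _ _)
      exact ⟨h2, by simpa using congrArg conj h2⟩
  rw [pow_mul_contr_eq_sum]
  push_cast
  rw [(f hW χ hχ).1, (f hX χ hχ).1, (f hW ψ hψ).2, (f hX ψ hψ).2]
  simp only [Finset.sum_mul_sum]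
  simp only [Finset.mul_sum, ← Finset.sum_add_distrib]
  refine Finset.sum_congr rfl fun ξ hξ => Finset.sum_congr rfl fun η hη => ?_
  rw [L.cm_eq hM isPBlock_principalBlock e1 e2 e3 e4 (mem_bset.1 hξ) (mem_bset.1 hη)]
  push_cast
  ring

/-- The rows are nonzero for a major subsection. -/
theorem IsLift.row_ne (hz : IsPElt p z) (hd : fq p z = (Nat.card G).factorization p)
    {χ : IrrCharacter G} (hχ : χ ∈ principalBlock M G) : c * W χ + a * X χ ≠ 0 := fun h => by
  have h1 := irrOne_mem_principalBlock (G := G) hM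
  have h2 := hW.contr_eq hM L hX e1 e2 e3 e4 hχ h1
  rw [hW.one hM, hX.one hM, L.w1, L.x1, show c * (W χ * 1) + a * (W χ * 0 + X χ * 1) +
    b * (X χ * 0) = 0 by linear_combination h, Int.cast_zero, mul_eq_zero] at h2
  exact contr_ne_zero_of_major hM rfl hz (isInducedBlock_principal_of_eq hM rfl hz)
    (by rw [blockDefect_principal hM, blockDefect_principal hM]; exact hd) h1 hχ
    (blockHeight_irrOne_principal hM) (h2.resolve_left (pow_ne_zero _ prime_cast_ne_zero))

end

variable (p M) in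
/-- The singular vectors when there is one class of nontrivial `p`-elements, of rank two. -/
structure Sing2 (x y : IrrCharacter G → ℤ) (h g c : ℤ) (i j : ℕ) : Prop where
  hi : 1 ≤ i
  hj : 1 ≤ j
  hd : i + j = blockDefect p (principalBlock M G)
  loc : c * h - g * g = p ^ j
  hg : |g| < h
  hg2 : 2 * |g| ≤ c
  hc : ¬ (p : ℤ) ∣ c
  x1 : x (irrOne G) = 1
  y1 : y (irrOne G) = 0
  sx : SingV p (principalBlock M G) x
  sy : SingV p (principalBlock M G) y
  xx : dot (principalBlock M G) x x = p ^ i * h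
  xy : dot (principalBlock M G) x y = -(p ^ i * g)
  yy : dot (principalBlock M G) y y = p ^ i * c
  nv : ∀ χ ∈ principalBlock M G, ∀ ψ ∈ principalBlock M G, nv p (principalBlock M G) χ ψ =
    c * (x χ * x ψ) + g * (x χ * y ψ + y χ * x ψ) + h * (y χ * y ψ)
  ne : ∀ χ ∈ principalBlock M G, c * x χ + g * y χ ≠ 0

theorem nv_cast_single {z : G} (R : Reps p {z}) {χ ψ : IrrCharacter G}
    (hχ : χ ∈ principalBlock M G) : (nv p (principalBlock M G) χ ψ : ℂ) =
      (p : ℂ) ^ blockDefect p (principalBlock M G) *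
        contr p _ z (principalBlock M (centralizer ({z} : Set G))) χ.1 ψ.1 := by
  classical
  have hz := R.pelt z (Finset.mem_singleton_self z)
  have h1 := congrArg (ip · ψ.1) (sum_sectionPart R.full χ.1)
  simp only [ip_sum_left] at h1
  rw [Finset.sum_insert fun h => R.ne 1 h rfl, sectionPart_one, Finset.sum_singleton, ip_irr,
    ip_sectionPart_eq rfl hz (irr_isClassFunction χ) (irr_isClassFunction ψ),
    show pRegularPart p (shift _ z χ.1) = subsec p _ z (principalBlock M _) χ.1 from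
      pRegularPart_eq_iff.2 fun s hs => principal_apply_mul hM rfl hz hχ hs,
    ip_subsec_shift hM isPBlock_principalBlock] at h1
  rw [nv]
  push_cast
  rw [cm_cast_irr hχ, ← eq_sub_iff_add_eq'.2 h1 |>.symm]
  split_ifs <;> ring

theorem exists_sing2 {z : G} (R : Reps p {z}) (hr : rk p M z = 2) :
    ∃ x y h g c i j, Sing2 p M (G := G) x y h g c i j := by
  have hz := R.pelt z (Finset.mem_singleton_self z)
  have hz1 := R.ne z (Finset.mem_singleton_self z)
  have hrat : ∀ k : ℕ, k.Coprime (orderOf z) → IsConj z (z ^ k) := fun k hk => by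
    obtain ⟨x, hx, h2⟩ := R.exists_conj (hz.pow k) fun e =>
      hz1 (orderOf_eq_one_iff.1 (hk.symm.eq_one_of_dvd (orderOf_dvd_of_pow_eq_one e)))
    exact (Finset.mem_singleton.1 hx ▸ h2).symm
  have hB : IsPBlock M (principalBlock M (centralizer ({z} : Set G))) := isPBlock_principalBlock
  have h1 := irrOne_mem_principalBlock (G := centralizer ({z} : Set G)) hM
  obtain ⟨w, x, L, h2⟩ := exists_L2 hM hB h1 hr
  obtain ⟨a, b, e1, e2, e3, e4, e5, -⟩ := L.eqs_lt hM hB h1
  obtain ⟨W, hW⟩ := exists_isLift hM hz hrat hr L.rw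
  obtain ⟨X, hX⟩ := exists_isLift hM hz hrat hr L.rx
  obtain ⟨n, -, n2⟩ := L.dual
  have h3 := dot_self_pos (n2.trans_ne one_ne_zero)
  have hd : fq p z = (Nat.card G).factorization p := by
    obtain ⟨y, hy, -, h⟩ := R.exists_major (by
      rw [Ne, Nat.factorization_eq_zero_iff]
      have := (hz.dvd_orderOf hz1).trans (orderOf_dvd_natCard z)
      simp [hp.out, this, Nat.card_pos.ne'])
    exact Finset.mem_singleton.1 hy ▸ h
  have hd' : blockDefect p (principalBlock M (centralizer ({z} : Set G))) =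
      blockDefect p (principalBlock M G) := by
    rw [blockDefect_principal hM, blockDefect_principal hM]; exact hd
  obtain ⟨i, j, f1, f2, f3, f4, f5, f6, f7⟩ := loc_form hp.out e1 e2 e3 e4 (cc_pos hM) h3
    (not_dvd_cc hM) (L.dvd_det hM hB h1 e1 e2 e3 e4)
    (dvd_dot hM (sf_pelt hz) (sf_ne hz1) (sf_comm z) hB L.rx L.rx)
  refine ⟨W, X, b, a, _, i, j, f1, f2, f3.trans hd', f4, e5, ?_, not_dvd_cc hM,
    (hW.one hM).trans L.w1, (hX.one hM).trans L.x1, hW.sing hM hz hz1, hX.sing hM hz hz1,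
    (hW.dot_eq hM hz hW).trans f5, (hW.dot_eq hM hz hX).trans f6, (hX.dot_eq hM hz hX).trans f7,
    fun χ hχ ψ hψ => ?_, fun χ hχ => hW.row_ne hM L hX e1 e2 e3 e4 hz hd hχ⟩
  · have p0 : (0 : ℤ) < p ^ i := pow_pos (Int.natCast_pos.2 hp.out.pos) i
    rw [f6, f7, abs_neg, abs_mul, abs_of_pos p0, mul_left_comm] at h2
    exact le_of_mul_le_mul_left h2 p0
  · rw [← Int.cast_inj (α := ℂ), nv_cast_single hM R hχ, ← hd']
    exact hW.contr_eq hM L hX e1 e2 e3 e4 hχ hψ

omit hM in
theorem dot_sum_right {B : Set (IrrCharacter G)} {ι : Type*} [Fintype ι] (n : IrrCharacter G → ℤ)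
    (t : ι → ℤ) (v : ι → IrrCharacter G → ℤ) :
    dot B n (fun χ => ∑ i, t i * v i χ) = ∑ i, t i * dot B n (v i) := by
  simp only [dot, Finset.mul_sum]
  rw [Finset.sum_comm]
  exact Finset.sum_congr rfl fun _ _ => Finset.sum_congr rfl fun _ _ => by ring

namespace Sing2

variable {x y : IrrCharacter G → ℤ} {h g c : ℤ} {i j : ℕ} (D : Sing2 p M x y h g c i j)
include D

omit hM in
theorem cmv_eq (n : IrrCharacter G → ℤ) {χ : IrrCharacter G} (hχ : χ ∈ principalBlock M G) :
    cmv p (principalBlock M G) n χ = p ^ (i + j) * n χ -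
      ((c * dot (principalBlock M G) x n + g * dot (principalBlock M G) y n) * x χ +
        (g * dot (principalBlock M G) x n + h * dot (principalBlock M G) y n) * y χ) := by
  have h1 := nv_dot (p := p) hχ n
  rw [dot_comm, dot_congr n (w := lc (c * x χ + g * y χ) x (g * x χ + h * y χ) y) fun ψ hψ => by
    rw [D.nv χ hχ ψ hψ, lc]; ring, dot_comm, lc_dot, ← D.hd] at h1
  rw [cmv]
  linear_combination h1

omit hM in
theorem cmv_dot (n m : IrrCharacter G → ℤ) :
    dot (principalBlock M G) (cmv p (principalBlock M G) n) m =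
      p ^ (i + j) * dot (principalBlock M G) n m -
      ((c * dot (principalBlock M G) x n + g * dot (principalBlock M G) y n) *
        dot (principalBlock M G) x m +
        (g * dot (principalBlock M G) x n + h * dot (principalBlock M G) y n) *
          dot (principalBlock M G) y m) := by
  rw [dot_comm, dot_congr m (w := lc (p ^ (i + j)) n (-1) (lc _ x _ y)) fun χ hχ => by
    rw [D.cmv_eq n hχ, lc, lc, neg_one_mul, ← sub_eq_add_neg], dot_comm, lc_dot, lc_dot]
  ring

theorem cc_eq : cc p M G = p ^ (i + j) - c := by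
  have h1 := irrOne_mem_principalBlock (G := G) hM
  have h2 := D.nv _ h1 _ h1
  rw [nv_self, D.x1, D.y1, ← D.hd] at h2
  unfold cc
  linear_combination -h2

theorem dvd (n : IrrCharacter G → ℤ) : (p : ℤ) ^ j ∣
    c * dot (principalBlock M G) (cmv p (principalBlock M G) n) n +
      cmv p (principalBlock M G) n (irrOne G) ^ 2 := by
  rw [D.cmv_dot, D.cmv_eq n (irrOne_mem_principalBlock hM), D.x1, D.y1]
  refine ⟨p ^ i * (c * dot (principalBlock M G) n n + p ^ (i + j) * n (irrOne G) ^ 2 -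
    2 * n (irrOne G) * (c * dot (principalBlock M G) x n + g * dot (principalBlock M G) y n)) -
    dot (principalBlock M G) y n ^ 2, ?_⟩
  linear_combination (-dot (principalBlock M G) y n ^ 2) * D.loc

omit hM in
theorem c_pos : 0 < c := (le_trans (by positivity) D.hg2).lt_of_ne fun e => D.hc (e ▸ dvd_zero _)

omit hM in
theorem two_le {v : IrrCharacter G → ℤ} (hv : RegV p (principalBlock M G) v)
    (h0 : 0 < dot (principalBlock M G) v v) : 2 ≤ dot (principalBlock M G) v v := by
  by_contra h2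
  obtain ⟨χ, hχ, h3, h4⟩ := exists_single (show dot (principalBlock M G) v v = 1 by omega)
  have h5 := hv χ (mem_bset.1 hχ)
  rw [dot, Finset.sum_eq_single_of_mem χ hχ fun ψ hψ e => by rw [h4 ψ hψ e, mul_zero]] at h5
  have h6 := D.nv χ (mem_bset.1 hχ) χ (mem_bset.1 hχ)
  rw [nv_self, ← mul_right_cancel₀ (fun e => by simp [e] at h3) h5, cv, sub_self] at h6
  have h7 := mul_self_pos.2 (D.ne χ (mem_bset.1 hχ))
  have h8 : (0 : ℤ) < p ^ j := pow_pos (Int.natCast_pos.2 hp.out.pos) j
  have h9 : (c * x χ + g * y χ) * (c * x χ + g * y χ) + p ^ j * (y χ * y χ) = 0 := by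
    linear_combination (-c) * h6 - (y χ * y χ) * D.loc
  nlinarith [mul_self_nonneg (y χ)]

open Matrix in
/-- The data of the numerical theorem. -/
theorem dat (S : BasicSet p (principalBlock M G) (Fin 4)) :
    K6Q.Dat (p ^ (i + j)) c (p ^ j) S.C S.gam (S.d (irrOne G)) := by
  have hB : IsPBlock M (principalBlock M G) := isPBlock_principalBlock
  have h1 := irrOne_mem_principalBlock (G := G) hM
  have hd : ∀ (n : Fin 4 → ℤ) k, dot (principalBlock M G) (fun χ => S.d χ k)
      (fun χ => ∑ l, n l * S.a l χ) = n k := fun n k => by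
    rw [dot_sum_right]
    simp only [dot_comm (fun χ => S.d χ k)]
    simp [dot, S.sum_a_mul_d]
  have hv : ∀ (n : Fin 4 → ℤ) χ, χ ∈ principalBlock M G → cmv p (principalBlock M G)
      (fun χ => ∑ l, n l * S.a l χ) χ = ∑ k, (S.gam *ᵥ n) k * S.d χ k := fun n χ hχ => by
    rw [cmv, dot_comm, dot_congr _ (w := fun ψ => ∑ l, (∑ k, S.d χ k * S.gam k l) * S.d ψ l)
      fun ψ hψ => by
        rw [cv, S.cm_eq_sum_gam hχ hψ, Finset.sum_comm]
        simp only [Finset.sum_mul], dot_sum_right]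
    simp only [dot_comm (fun χ => ∑ l, n l * S.a l χ), hd, mulVec, dotProduct, Finset.sum_mul]
    rw [Finset.sum_comm]
    exact Finset.sum_congr rfl fun _ _ => Finset.sum_congr rfl fun _ _ => by ring
  have e1 : ∀ n : Fin 4 → ℤ, S.d (irrOne G) ⬝ᵥ S.gam *ᵥ n =
      cmv p (principalBlock M G) (fun χ => ∑ l, n l * S.a l χ) (irrOne G) := fun n => by
    rw [hv n _ h1, dotProduct_comm]; rfl
  have e2 : ∀ n : Fin 4 → ℤ, n ⬝ᵥ S.gam *ᵥ n = dot (principalBlock M G) (cmv p (principalBlock M G)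
      fun χ => ∑ l, n l * S.a l χ) fun χ => ∑ l, n l * S.a l χ := fun n => by
    rw [dot_comm, dot_congr _ (hv n), dot_sum_right, dotProduct_comm]
    simp only [dot_comm (fun χ => ∑ l, n l * S.a l χ), hd, dotProduct]
  have e3 : S.d (irrOne G) ⬝ᵥ S.gam *ᵥ S.d (irrOne G) = cc p M G := by
    rw [cc, S.cm_eq_sum_gam h1 h1]
    simp only [mulVec, dotProduct, Finset.mul_sum, mul_assoc]
  have hr : ∀ t : Fin 4 → ℤ, RegV p (principalBlock M G) fun χ => ∑ k, t k * S.d χ k :=
    fun t χ hχ => by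
      rw [dot_sum_right, Finset.mul_sum]
      exact Finset.sum_congr rfl fun k _ => by rw [regV_d hM hB S k χ hχ]; ring
  refine ⟨by ext k l; exact S.C_comm l k, D.hd ▸ S.gam_mul_C hM hB, fun v hv0 => ?_,
    e3.trans (D.cc_eq hM), fun n h0 hf => ?_, fun n => by rw [e1, e2]; exact D.dvd hM _⟩
  · have h2 : v ⬝ᵥ S.C *ᵥ v = ∑ k, ∑ l, v k * S.C k l * v l := by
      simp only [mulVec, dotProduct, Finset.mul_sum, mul_assoc]
    have h3 : v ⬝ᵥ S.C *ᵥ v = dot (principalBlock M G) (fun χ => ∑ k, v k * S.d χ k)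
        fun χ => ∑ k, v k * S.d χ k := by
      rw [h2, S.sum_mul_C_mul]
      simp only [dot, sq, mul_comm]
    exact h3 ▸ D.two_le (hr v) (h3 ▸ h2 ▸ S.sum_mul_C_mul_pos hv0)
  by_cases h2 : ∀ k l, n k * S.d (irrOne G) l = n l * S.d (irrOne G) k
  · have h3 := (regV_degree hM).eq_sum S h1
    rw [charDegree_irrOne, Nat.cast_one] at h3
    obtain ⟨t, ht⟩ : ∃ t : ℤ, n = t • S.d (irrOne G) :=
      ⟨∑ l, dot (principalBlock M G) (S.a l) (fun χ => charDegree χ.1) * n l, funext fun k => by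
        rw [← one_mul (n k), h3, Pi.smul_apply, smul_eq_mul, Finset.sum_mul, Finset.sum_mul]
        exact Finset.sum_congr rfl fun l _ => by
          linear_combination dot (principalBlock M G) (S.a l) (fun χ => charDegree χ.1) * h2 k l⟩
    have h4 : t ≠ 0 := by rintro rfl; exact h0 (by simpa using ht)
    have h5 : t ≠ 1 := by rintro rfl; exact hf (by simpa using ht)
    have h6 := cc_pos (G := G) hM
    rw [ht, mulVec_smul, smul_dotProduct, dotProduct_smul, e3, smul_eq_mul, smul_eq_mul]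
    have h7 : 0 < t * (t - 1) := by
      rcases lt_or_gt_of_ne h4 with h | h
      · nlinarith
      · exact mul_pos h (by omega)
    nlinarith
  push Not at h2
  obtain ⟨k, l, h2⟩ := h2
  rw [e1, e2]
  refine cmv_one_lt h1 ((regV_d hM hB S k).lc (regV_d hM hB S l) (S.d (irrOne G) l)
    (-S.d (irrOne G) k)) (by rw [lc]; ring) ?_
  rw [dot_comm, lc_dot, hd, hd]
  exact fun e => h2 (by linear_combination e)

end Sing2

end BT.K5
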