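import Cfsg.Agent.Lib.Block.K6Sq
import Cfsg.Agent.Lib.Block.K6Half
import Cfsg.Agent.Lib.Block.K6Kill
import Cfsg.Agent.Lib.Block.K6QuatMass

/-!
# A single class of rank two and six characters: reduction to one numerical statement
-/

set_option autoImplicit false
set_option linter.unusedSectionVars false

namespace BT.K5

open Cfsg CT GT Subgroup

variable {p : ℕ} [hp : Fact p.Prime] {M : Ideal AlgInt} (hM : IsPModular p M)
variable {G : Type*} [Group G] [Finite G]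
include hM

theorem six_single_of_quat
    (hquat : ∀ {i j : ℕ} {c h g : ℤ} {A Gam : Matrix (Fin 4) (Fin 4) ℤ} {f : Fin 4 → ℤ}, p ≠ 2 →
      1 ≤ i → 1 ≤ j → 25 ≤ p ^ (i + j) → c * h - g * g = p ^ j → |g| < h → 2 * |g| ≤ c →
      ¬ (p : ℤ) ∣ c → 25 * c ≤ 3 * p ^ (i + j) → K6Q.Dat (p ^ (i + j)) c (p ^ j) A Gam f →
      IsSquare (A.det * (p ^ i * p ^ (i + j))) → p = 5 ∧ i = 2 ∧ j = 1 ∧ c = 2 ∧ A.det = 125)
    (hp2 : p ≠ 2) (hk : Nat.card (principalBlock M G) = 6)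
    (h25 : 25 ≤ p ^ blockDefect p (principalBlock M G))
    (hl : blockRank p (principalBlock M G) = 4) (z : G) (R : Reps p {z}) (hr : rk p M z = 2) :
    False := by
  obtain ⟨x, y, h, g, c, i, j, D⟩ := exists_sing2 hM R hr
  obtain ⟨S⟩ := hl ▸ exists_basicSet p (principalBlock M G)
  rw [← D.hd] at h25
  by_cases h3 : p = 3 ∧ i = 1 ∧ h = 2
  · obtain ⟨rfl, rfl, rfl⟩ := h3
    refine D.not_half_form hM hk (by_contra fun h => ?_)
    obtain rfl : j = 1 := by have := D.hj; omega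
    omega
  obtain ⟨rfl, rfl, rfl, rfl, hd⟩ := hquat hp2 D.hi D.hj h25 D.loc D.hg D.hg2 D.hc
    (K6Q.loc_mass hp.out D.loc D.hc hp2 D.hi D.hj h25 D.hg D.hg2 h3) (D.dat hM S)
    (D.isSquare hM hk S)
  exact D.kill hM hk rfl rfl rfl rfl (D.five_dvd hM hk S hd)

end BT.K5
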