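import Cfsg.Agent.Lib.Block.K5Loc
import Cfsg.Agent.Lib.Block.K5Num2

/-!
# The strict moment inequality; Cartan matrices of size two for `p = 2`
-/

set_option autoImplicit false
set_option linter.unusedSectionVars false

namespace BT.K5

open Cfsg CT GT Subgroup
open scoped ComplexConjugate

section
variable {G : Type*} [Group G] [Finite G] {θ : G → ℂ} (hθ : IsGeneralizedCharacter G θ)
include hθ

/-- The case of equality in the moment inequality. -/
theorem eq_zero_or_one_of_moment (S : Finset G)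
    (hS : ∀ g ∈ S, ∀ k : ℕ, k.Coprime (Nat.card G) → g ^ k ∈ S)
    (h : ∑ g ∈ S, ‖θ g‖ ^ 2 ≤ (∑ g ∈ S, θ g).re) : ∀ g ∈ S, θ g = 0 ∨ θ g = 1 := by
  classical
  have h1 := sum_log_norm_nonneg hθ (S.filter fun g => θ g ≠ 0) (fun g hg k hk => by
    rw [Finset.mem_filter] at hg ⊢
    exact ⟨hS g hg.1 k hk, fun h => hg.2 ((hθ.apply_pow_eq_zero_iff g
      (hk.coprime_dvd_right (orderOf_dvd_natCard g))).1 h)⟩) fun g hg => (Finset.mem_filter.1 hg).2
  rw [Finset.sum_filter] at h1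
  rw [Complex.re_sum] at h
  have h2 : ∀ g ∈ S, 0 ≤ ‖θ g‖ ^ 2 - (θ g).re - if θ g ≠ 0 then Real.log ‖θ g‖ else 0 := by
    intro g _
    split_ifs with h0
    · nlinarith [Real.log_le_sub_one_of_pos (norm_pos_iff.2 h0), sq_nonneg (‖θ g‖ - 1),
        Complex.re_le_norm (θ g)]
    · rw [not_not.1 h0]; simp
  intro g hg
  have h3 := (Finset.sum_eq_zero_iff_of_nonneg h2).1 (le_antisymm (by
    rw [Finset.sum_sub_distrib, Finset.sum_sub_distrib]; linarith) (Finset.sum_nonneg h2)) g hg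
  refine or_iff_not_imp_left.2 fun h0 => ?_
  rw [if_pos h0] at h3
  have h4 : ‖θ g‖ = 1 := by
    have := Real.log_le_sub_one_of_pos (norm_pos_iff.2 h0)
    have := Complex.re_le_norm (θ g)
    exact sub_eq_zero.1 (pow_eq_zero_iff two_ne_zero |>.1 (le_antisymm (by nlinarith)
      (sq_nonneg _)))
  rw [h4, Real.log_one] at h3
  have h5 : (θ g).re = 1 := by linarith
  have h6 := Complex.sq_norm (θ g)
  rw [h4, Complex.normSq_apply, h5] at h6
  exact Complex.ext h5 (mul_self_eq_zero.1 (by linarith))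

theorem eq_zero_of_idem (h1 : θ 1 = 0) {g : G} (h : ∀ x ∈ zpowers g, θ x = 0 ∨ θ x = 1) :
    θ g = 0 := by
  classical
  have := Fintype.ofFinite (zpowers g)
  obtain ⟨k, hk⟩ := (hθ.res (zpowers g)).exists_int_ip isCharacter_one.isGen
  have h2 : ∑ x : zpowers g, θ x = (Finset.univ.filter fun x : zpowers g => θ x = 1).card := by
    rw [Finset.card_filter]
    push_cast
    exact Finset.sum_congr rfl fun x _ => by rcases h x x.2 with e | e <;> simp [e]
  have h3 : (Finset.univ.filter fun x : zpowers g => θ x = 1).card < Nat.card (zpowers g) := by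
    rw [Nat.card_eq_fintype_card]
    exact Finset.card_lt_card (Finset.filter_ssubset.2 ⟨1, Finset.mem_univ _, by simp [h1]⟩)
  rw [ip_def, inv_mul_eq_iff_eq_mul₀ card_cast_ne_zero] at hk
  simp only [res_apply, Pi.one_apply, map_one, mul_one, h2] at hk
  have h4 : (Nat.card (zpowers g) : ℤ) ∣ (Finset.univ.filter fun x : zpowers g => θ x = 1).card :=
    ⟨k, by exact_mod_cast hk⟩
  have h5 := Finset.card_eq_zero.1 (Nat.eq_zero_of_dvd_of_lt (Int.natCast_dvd_natCast.1 h4) h3)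
  exact (h g (mem_zpowers g)).resolve_right fun e =>
    Finset.filter_eq_empty_iff.1 h5 (Finset.mem_univ ⟨g, mem_zpowers g⟩) e

theorem const_of_moment {p : ℕ} [Fact p.Prime]
    (h : ∑ g ∈ regSet p G, ‖θ g‖ ^ 2 ≤ (∑ g ∈ regSet p G, θ g).re) :
    ∀ g ∈ regSet p G, θ g = θ 1 := fun g hg => by
  have h1 := eq_zero_or_one_of_moment hθ _ regSet_closed h
  have h2 : ∀ x ∈ zpowers g, x ∈ regSet p G := fun x hx =>
    mem_regSet.2 fun e => mem_regSet.1 hg (e.trans (orderOf_dvd_of_mem_zpowers hx))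
  rcases h1 1 (h2 1 (one_mem _)) with e | e
  · rw [e]
    exact eq_zero_of_idem hθ e fun x hx => h1 x (h2 x hx)
  · exact (sub_eq_zero.1 (eq_zero_of_idem (isCharacter_one.isGen.sub hθ) (g := g) (by simp [e])
      fun x hx => by rcases h1 x (h2 x hx) with e | e <;> simp [e])).symm.trans e.symm

end

section
variable {p : ℕ} [hp : Fact p.Prime] {M : Ideal AlgInt} (hM : IsPModular p M)
variable {G : Type*} [Group G] [Finite G] {B : Set (IrrCharacter G)}
variable {n w x : IrrCharacter G → ℤ}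

theorem cmv_one_lt (h1 : irrOne G ∈ B) (hx : RegV p B x) (x1 : x (irrOne G) = 0)
    (hn : dot B n x ≠ 0) : cmv p B n (irrOne G) < dot B (cmv p B n) n := by
  by_contra h
  have e : ∀ m, dot B (cmv p B n) m =
      ∑ χ ∈ bset B, ∑ ψ ∈ bset B, n χ * m ψ * cm p B χ.1 ψ.1 := fun m => by
    rw [dot_cmv]
    simp only [dot, cmv, cv, Finset.mul_sum]
    exact Finset.sum_congr rfl fun χ _ => Finset.sum_congr rfl fun ψ _ => by ring
  have e1 : ∀ m, cmv p B m (irrOne G) = ∑ χ ∈ bset B, m χ * cm p B (irrOne G).1 χ.1 := fun m => by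
    rw [cmv, dot_comm]; rfl
  have h2 := congrArg Complex.re (pow_mul_sum_comb_one (p := p) h1 n)
  have h3 := pow_mul_sum_norm_sq_comb (p := p) (B := B) n
  have h4 := pow_mul_sum_comb (p := p) (B := B) n x
  have h5 := congrArg conj (pow_mul_sum_comb_one (p := p) h1 x)
  rw [← e1, ← Complex.ofReal_natCast, ← Complex.ofReal_pow, Complex.re_ofReal_mul,
    ← Complex.ofReal_natCast, Complex.re_ofReal_mul, Complex.intCast_re] at h2
  rw [← e] at h3 h4
  have h6 := const_of_moment (isGen_comb B n) (p := p) (le_of_mul_le_mul_left (by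
    rw [h2, h3]
    exact mul_le_mul_of_nonneg_left (by exact_mod_cast not_lt.1 h) (Nat.cast_nonneg _))
    (show (0 : ℝ) < p ^ blockDefect p B by have := hp.out.pos; positivity))
  rw [← e1, cmv, hx _ h1, x1, mul_zero, Int.cast_zero, mul_zero, map_zero, map_mul, map_pow,
    map_natCast, map_sum] at h5
  rw [Finset.sum_congr rfl fun g hg => by rw [h6 g hg], ← Finset.mul_sum, mul_left_comm, h5,
    mul_zero, hx.cmv_dot, eq_comm, mul_eq_zero, Int.cast_eq_zero] at h4
  exact (mul_ne_zero pow_defect_pos.ne' hn) (h4.resolve_left card_cast_ne_zero)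

theorem abs_cmv_lt (h1 : irrOne G ∈ B) (hx : RegV p B x) (x1 : x (irrOne G) = 0)
    (hn : dot B n x ≠ 0) : |cmv p B n (irrOne G)| < dot B (cmv p B n) n := by
  have h := cmv_one_lt (n := lc (-1) n 0 n) h1 hx x1 (by simpa [lc_dot] using hn)
  rw [dot_lc, dot_cmv, lc_dot, ← dot_cmv, cmv, dot_lc] at h
  exact abs_lt.2 ⟨by unfold cmv at h ⊢; linarith, cmv_one_lt h1 hx x1 hn⟩

include hM

theorem L2.eqs_lt (hB : IsPBlock M B) (h1 : irrOne G ∈ B) (h : L2 p B w x) : ∃ a b,
    cm p B (irrOne G).1 (irrOne G).1 * dot B w w + a * dot B w x = p ^ blockDefect p B ∧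
    cm p B (irrOne G).1 (irrOne G).1 * dot B w x + a * dot B x x = 0 ∧
    a * dot B w w + b * dot B w x = 0 ∧ a * dot B w x + b * dot B x x = p ^ blockDefect p B ∧
    |a| < b ∧ ∀ χ ∈ B, cm p B (irrOne G).1 χ.1 =
      cm p B (irrOne G).1 (irrOne G).1 * w χ + a * x χ := by
  obtain ⟨c, a, e⟩ := h.span _ (regV_cv hM hB h1)
  obtain ⟨n, n1, n2⟩ := h.dual
  obtain ⟨a', b, e'⟩ := h.span _ (regV_cmv hM hB n)
  have e1 : ∀ m, dot B (cv p B (irrOne G)) m = c * dot B w m + a * dot B x m := fun m => by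
    rw [dot_comm, dot_congr m (w := lc c w a x) e, dot_comm, lc_dot]
  have e2 : ∀ m, dot B (cmv p B n) m = a' * dot B w m + b * dot B x m := fun m => by
    rw [dot_comm, dot_congr m (w := lc a' w b x) e', dot_comm, lc_dot]
  have e3 := e _ h1
  have e4 := e' _ h1
  have e5 := abs_cmv_lt (p := p) h1 h.rx h.x1 (n2.trans_ne one_ne_zero)
  rw [h.w1, h.x1, mul_one, mul_zero, add_zero] at e3 e4
  rw [e4, e2, dot_comm w, dot_comm x, n1, n2] at e5
  rw [cmv, e1, dot_comm w, dot_comm x, n1, n2, mul_zero, mul_one, zero_add] at e4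
  subst e4
  have f1 := h.rw _ h1
  have f2 := h.rx _ h1
  have f3 := h.rw.cmv_dot n
  have f4 := h.rx.cmv_dot n
  rw [e1, h.w1] at f1
  rw [e1, h.x1] at f2
  rw [e2, n1] at f3
  rw [e2, n2] at f4
  rw [dot_comm x w] at f1 f3
  change cm p B _ _ = c at e3
  rw [e3]
  exact ⟨a, b, by simpa using f1, by simpa using f2, by simpa using f3, by simpa using f4,
    by simpa using e5, e⟩

theorem rank_two_central_lt {u : G} (hu : IsPElt p u) (hu1 : u ≠ 1) (hc : ∀ g, Commute u g)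
    (hl : blockRank p (principalBlock M G) = 2) {e : ℕ}
    (he : (Nat.card G).factorization p = e + 1) : ∃ (w : IrrCharacter G → ℤ) (h g k a b : ℤ),
    RegV p (principalBlock M G) w ∧ w (irrOne G) = 1 ∧ dot (principalBlock M G) w w = p * h ∧
    cc p M G * h + a * g = p ^ e ∧ cc p M G * g + a * k = 0 ∧ a * h + b * g = 0 ∧
    a * g + b * k = p ^ e ∧ |a| < b ∧ 2 * |g| ≤ k ∧ 0 < k := by
  have hB : IsPBlock M (principalBlock M G) := isPBlock_principalBlock
  have h1 := irrOne_mem_principalBlock (G := G) hM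
  obtain ⟨w, x, L, h2⟩ := exists_L2 hM hB h1 hl
  obtain ⟨a, b, e1, e2, e3, e4, e5, -⟩ := L.eqs_lt hM hB h1
  obtain ⟨n, -, hn⟩ := L.dual
  have h3 := dot_self_pos (hn.trans_ne one_ne_zero)
  obtain ⟨h, hh⟩ := dvd_dot hM hu hu1 hc hB L.rw L.rw
  obtain ⟨g, hg⟩ := dvd_dot hM hu hu1 hc hB L.rw L.rx
  obtain ⟨k, hk⟩ := dvd_dot hM hu hu1 hc hB L.rx L.rx
  have p0 : (0 : ℤ) < p := Int.natCast_pos.2 hp.out.pos
  simp only [hh, hg, hk, blockDefect_principal hM, he] at e1 e2 e3 e4 h2 h3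
  rw [abs_mul, abs_of_pos p0, mul_left_comm] at h2
  refine ⟨w, h, g, k, a, b, L.rw, L.w1, hh, mul_left_cancel₀ p0.ne' ?_, mul_left_cancel₀ p0.ne' ?_,
    mul_left_cancel₀ p0.ne' ?_, mul_left_cancel₀ p0.ne' ?_, e5, le_of_mul_le_mul_left h2 p0,
    pos_of_mul_pos_right h3 p0.le⟩
  · unfold cc; linear_combination e1
  · unfold cc; linear_combination e2
  · linear_combination e3
  · linear_combination e4

end

section
variable {q c h g k a b : ℤ} (e1 : c * h + a * g = q) (e2 : c * g + a * k = 0)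
  (e3 : a * h + b * g = 0) (e4 : a * g + b * k = q) (hab : |a| < b) (hg : 2 * |g| ≤ k) (hk : 0 < k)
  (hc : 0 < c) {e : ℕ} (he : q = 2 ^ e) (ho : ¬ 2 ∣ c)
include e1 e2 e3 e4 hab hg hk hc he ho

theorem two_strict : ∃ G t r : ℤ, 0 ≤ G ∧ G < h ∧ 0 < t ∧ 2 * G ≤ c * t ∧ t * r = G * G ∧
    h * c = q + r ∧ 2 * r ≤ c * G ∧ (r = 0 ∨ t ≤ G * G) := by
  have hq : 0 < q := he ▸ by positivity
  have h1 : c * (h * k - g * g) = q * k := by linear_combination k * e1 - g * e2
  have h2 : a * (h * k - g * g) = -(q * g) := by linear_combination h * e2 - g * e1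
  have h3 : b * (h * k - g * g) = q * h := by linear_combination h * e4 - g * e3
  have h4 : 0 < h * k - g * g := pos_of_mul_pos_right (h1 ▸ mul_pos hq hk) hc.le
  have h5 := mul_lt_mul_of_pos_right hab h4
  rw [h3, ← abs_of_pos h4, ← abs_mul, h2, abs_neg, abs_mul, abs_of_pos hq] at h5
  obtain ⟨t, rfl⟩ : c ∣ k := (he ▸ (Int.isCoprime_two_right.2 (Int.not_even_iff_odd.1
    fun h => ho h.two_dvd)).pow_right : IsCoprime c q).dvd_of_dvd_mul_left ⟨_, h1.symm⟩
  have t0 := pos_of_mul_pos_right hk hc.le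
  have h6 : t * (h * c - q) = |g| * |g| :=
    mul_left_cancel₀ hc.ne' (by rw [abs_mul_abs_self]; linear_combination h1)
  have h7 := nonneg_of_mul_nonneg_right (h6 ▸ mul_self_nonneg |g|) t0
  refine ⟨|g|, t, h * c - q, abs_nonneg g, lt_of_mul_lt_mul_left h5 hq.le, t0, hg, h6, by ring,
    le_of_mul_le_mul_left ?_ t0, h7.eq_or_lt.imp Eq.symm fun h => by nlinarith⟩
  nlinarith [abs_nonneg g]

theorem two_third (h2 : 2 ≤ e) : 3 * c ≤ q + 1 := by
  obtain ⟨G, t, r, G0, h1, t0, h3, h4, h5, h6, h7⟩ := two_strict e1 e2 e3 e4 hab hg hk hc he ho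
  obtain ⟨s, hs⟩ : (4 : ℤ) ∣ q := he ▸ pow_dvd_pow (2 : ℤ) h2
  clear e1 e2 e3 e4 hab hg hk he
  by_cases h8 : 5 ≤ h
  · nlinarith
  have h9 : 0 < h := by omega
  rw [not_le] at h8
  rcases h7 with rfl | h7
  · interval_cases h <;> omega
  · interval_cases h <;> interval_cases G <;> (try omega) <;> interval_cases t <;> omega

theorem two_big (h2 : 5 ≤ e) (h9 : 9 * q < 32 * c) : h = 3 := by
  obtain ⟨G, t, r, G0, h1, t0, h3, h4, h5, h6, h7⟩ := two_strict e1 e2 e3 e4 hab hg hk hc he ho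
  obtain ⟨s, hs⟩ : (32 : ℤ) ∣ q := he ▸ pow_dvd_pow (2 : ℤ) h2
  have hq : 0 < q := he ▸ by positivity
  have h10 := two_third e1 e2 e3 e4 hab hg hk hc he ho (by omega)
  have h12 := nonneg_of_mul_nonneg_right (h4 ▸ mul_self_nonneg G) t0
  have h11 : r ≤ G * G := by nlinarith
  clear e1 e2 e3 e4 hab hg hk he h3 h4 h7
  have h8 : h < 7 := by
    by_contra h8
    nlinarith
  have h9 : 0 < h := by omega
  interval_cases h <;> interval_cases G <;> omega

end

end BT.K5
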