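import Cfsg.Agent.Lib.Block.K6Sing

/-!
# The determinant of the regular lattice
-/

set_option autoImplicit false
set_option linter.unusedSectionVars false

namespace BT.K5

open Cfsg CT GT Subgroup

variable {p : ℕ} [hp : Fact p.Prime] {M : Ideal AlgInt} (hM : IsPModular p M)
variable {G : Type*} [Group G] [Finite G]

theorem det_mul_det_eq_det_dot {B : Set (IrrCharacter G)} {ι : Type*} [Fintype ι] [DecidableEq ι]
    (e : ι ≃ bset B) (u v : ι → IrrCharacter G → ℤ) :
    (Matrix.of fun r k => u k (e r)).det * (Matrix.of fun r k => v k (e r)).det =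
      (Matrix.of fun k l => dot B (u k) (v l)).det := by
  rw [← Matrix.det_transpose (Matrix.of fun r k => u k (e r)), ← Matrix.det_mul]
  congr 1
  ext k l
  simp only [Matrix.mul_apply, Matrix.transpose_apply, Matrix.of_apply, dot]
  rw [← Finset.sum_coe_sort (bset B), ← e.sum_comp]

include hM

theorem Sing2.exists_det {x y : IrrCharacter G → ℤ} {h g c : ℤ} {i j : ℕ}
    (D : Sing2 p M x y h g c i j) (hk : Nat.card (principalBlock M G) = 6)
    (S : BasicSet p (principalBlock M G) (Fin 4)) :
    ∃ k : ℤ, k * k = S.C.det * (p ^ i * p ^ (i + j)) ∧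
      ∀ χ ∈ principalBlock M G, k ∣ S.C.det * y χ := by
  classical
  have hB : IsPBlock M (principalBlock M G) := isPBlock_principalBlock
  have h1 := irrOne_mem_principalBlock (G := G) hM
  obtain ⟨e⟩ : Nonempty (Fin 4 ⊕ Fin 2 ≃ bset (principalBlock M G)) :=
    ⟨Fintype.equivOfCardEq (by rw [Fintype.card_coe, card_bset, hk]; rfl)⟩
  have key : ∀ v t : IrrCharacter G → ℤ,
      (Matrix.of fun r k => Sum.elim (fun l χ => S.d χ l) ![x, y] k (e r)).det *
      (Matrix.of fun r k => Sum.elim (fun l χ => S.d χ l) ![v, t] k (e r)).det =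
      S.C.det * (dot (principalBlock M G) x v * dot (principalBlock M G) y t -
        dot (principalBlock M G) x t * dot (principalBlock M G) y v) := fun v t => by
    rw [det_mul_det_eq_det_dot, show (Matrix.of fun k l => dot (principalBlock M G)
      (Sum.elim (fun l χ => S.d χ l) ![x, y] k) (Sum.elim (fun l χ => S.d χ l) ![v, t] l)) =
      Matrix.fromBlocks S.C (Matrix.of fun k l => dot (principalBlock M G) (fun χ => S.d χ k)
        (![v, t] l)) 0 (Matrix.of fun k l => dot (principalBlock M G) (![x, y] k) (![v, t] l)) from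
        ?_, Matrix.det_fromBlocks_zero₂₁, Matrix.det_fin_two]
    · rfl
    ext (k | k) (l | l)
    · rfl
    · rfl
    · fin_cases k
      exacts [D.sx.dot_reg (regV_d hM hB S l), D.sy.dot_reg (regV_d hM hB S l)]
    · rfl
  refine ⟨_, (key x y).trans ?_, fun χ hχ => ⟨_, ((key (fun ψ => if ψ = irrOne G then 1 else 0)
    fun ψ => if ψ = χ then 1 else 0).trans ?_).symm⟩⟩
  · rw [dot_comm y x, D.xx, D.xy, D.yy]
    linear_combination S.C.det * (p ^ i * p ^ i) * D.loc
  · simp [dot, h1, hχ, D.x1, D.y1]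

theorem Sing2.isSquare {x y : IrrCharacter G → ℤ} {h g c : ℤ} {i j : ℕ}
    (D : Sing2 p M x y h g c i j) (hk : Nat.card (principalBlock M G) = 6)
    (S : BasicSet p (principalBlock M G) (Fin 4)) :
    IsSquare (S.C.det * (p ^ i * p ^ (i + j))) :=
  (D.exists_det hM hk S).imp fun _ h => h.1.symm

omit hM in
theorem Sing2.five_dvd {M : Ideal AlgInt} (hM : IsPModular 5 M) [Fact (Nat.Prime 5)]
    {x y : IrrCharacter G → ℤ} {h g c : ℤ}
    (D : Sing2 5 M x y h g c 2 1) (hk : Nat.card (principalBlock M G) = 6)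
    (S : BasicSet 5 (principalBlock M G) (Fin 4)) (hd : S.C.det = 125) :
    ∀ χ ∈ principalBlock M G, 5 ∣ y χ := fun χ hχ => by
  obtain ⟨k, h1, h2⟩ := D.exists_det hM hk S
  have h3 := h2 χ hχ
  rw [hd] at h1 h3
  rcases mul_self_eq_mul_self_iff.1 (show k * k = 625 * 625 by rw [h1]; norm_num) with h | h <;>
    rw [h] at h3
  · omega
  · rw [neg_dvd] at h3
    omega

end BT.K5
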