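import Mathlib.Data.ZMod.Basic
import Mathlib.Tactic

/-!
# Numerical lemmas for principal `2`-blocks with six characters and three sections of rank one
-/

set_option autoImplicit false

namespace BT.K6T

theorem zmod_core : ∀ s y k : ZMod 32,
    1 + (3 + 4 * s + 4 * y) ^ 2 + (2 * k + 1) ^ 2 + (4 * s + 1 - 4 * y - 2 * k) ^ 2 +
      (4 * s + 2) ^ 2 + (4 * y) ^ 2 ≠ 0 := by decide +kernel

theorem core88 {A B C E F : ℤ} (hE : E % 4 = 2) (hF : F % 4 = 0) (hB : B % 2 = 1)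
    (h1 : 1 + A + E + F = 0) (h2 : B + C = E - F ∨ B + C = F - E)
    (h : (32 : ℤ) ∣ 1 + A * A + B * B + C * C + E * E + F * F) : False := by
  wlog h3 : B + C = E - F generalizing B C
  · exact this (B := -B) (C := -C) (by omega) (by omega) (by simpa using h) (by omega)
  obtain ⟨s, rfl⟩ : ∃ s, E = 4 * s + 2 := ⟨E / 4, by omega⟩
  obtain ⟨y, rfl⟩ : ∃ y, F = 4 * y := ⟨F / 4, by omega⟩
  obtain ⟨k, rfl⟩ : ∃ k, B = 2 * k + 1 := ⟨B / 2, by omega⟩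
  obtain rfl : A = -(3 + 4 * s + 4 * y) := by omega
  obtain rfl : C = 4 * s + 1 - 4 * y - 2 * k := by omega
  refine zmod_core s y k ?_
  have := (ZMod.intCast_zmod_eq_zero_iff_dvd _ 32).2 h
  push_cast at this
  linear_combination this

theorem odd_one {x : ℤ} (h : x % 2 = 1) (h2 : x * x ≤ 8) : x = 1 ∨ x = -1 := by
  have : x < 3 := by nlinarith
  have : -3 < x := by nlinarith
  omega

theorem even_two {x : ℤ} (h : x % 2 = 0) (h2 : x * x ≤ 15) : x = 0 ∨ x = 2 ∨ x = -2 := by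
  have : x < 4 := by nlinarith
  have : -4 < x := by nlinarith
  omega

theorem odd_three {x : ℤ} (h : x % 2 = 1) (h2 : x * x ≤ 24) :
    x = 1 ∨ x = -1 ∨ x = 3 ∨ x = -3 := by
  have : x < 5 := by nlinarith
  have : -5 < x := by nlinarith
  omega

set_option synthInstance.maxSize 4000 in
theorem fin88 : ∀ ue ∈ [(0 : ℤ), 2, -2], ∀ uf ∈ [(0 : ℤ), 2, -2], ∀ ve ∈ [(0 : ℤ), 2, -2],
    ∀ vf ∈ [(0 : ℤ), 2, -2], ∀ ε ∈ [(1 : ℤ), -1], ∀ η ∈ [(1 : ℤ), -1], ∀ θ ∈ [(1 : ℤ), -1],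
    1 + ue * ue + uf * uf + 1 + 1 + 1 = 8 → 1 + ve * ve + vf * vf + 1 + 1 + 1 = 8 →
    1 + ue * ve + uf * vf + ε + η + θ = 0 →
    (ε = 1 ∧ η = 1 ∧ θ = 1 ∧ ((ue ≠ ve ∧ uf = 0 ∧ vf = 0) ∨ (uf ≠ vf ∧ ue = 0 ∧ ve = 0))) ∨
    (ε + η + θ = -1 ∧ ((ve = 0 ∧ uf = 0 ∧ ue ≠ 0 ∧ vf ≠ 0) ∨
      (ue = 0 ∧ vf = 0 ∧ ve ≠ 0 ∧ uf ≠ 0))) := by decide +kernel

theorem core88' {A B C e f x y ε η θ X Y : ℤ} (he : e % 4 = 2) (hf : f % 4 = 0) (hA : A % 2 = 1)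
    (hB : B % 2 = 1) (hε : ε = 1 ∨ ε = -1) (hη : η = 1 ∨ η = -1) (hθ : θ = 1 ∨ θ = -1)
    (hs : ε + η + θ = -1) (hx : x = 2 ∨ x = -2) (hy : y = 2 ∨ y = -2)
    (hXY : (X = e * x ∧ Y = f * y) ∨ (Y = e * x ∧ X = f * y)) (h1 : 1 + X + A + B + C = 0)
    (h2 : 1 + Y + ε * A + η * B + θ * C = 0)
    (hn : (32 : ℤ) ∣ 1 + e * e + f * f + A * A + B * B + C * C) : False := by
  obtain ⟨E, hE, eE, eE'⟩ : ∃ E, E % 4 = 2 ∧ e * e = E * E ∧ e * x = 2 * E := by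
    rcases hx with rfl | rfl
    exacts [⟨e, he, rfl, by ring⟩, ⟨-e, by omega, by ring, by ring⟩]
  obtain ⟨F, hF, eF, eF'⟩ : ∃ F, F % 4 = 0 ∧ f * f = F * F ∧ f * y = 2 * F := by
    rcases hy with rfl | rfl
    exacts [⟨f, hf, rfl, by ring⟩, ⟨-f, by omega, by ring, by ring⟩]
  rw [eE, eF] at hn
  rw [eE', eF'] at hXY
  clear eE eF eE' eF' hx hy he hf
  rcases hε with rfl | rfl <;> rcases hη with rfl | rfl <;> rcases hθ with rfl | rfl <;>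
    (try omega)
  · exact core88 (A := A) (B := B) (C := C) hE hF hB (by omega) (by omega)
      (by convert hn using 1; ring)
  · exact core88 (A := B) (B := A) (C := C) hE hF hA (by omega) (by omega)
      (by convert hn using 1; ring)
  · exact core88 (A := C) (B := A) (C := B) hE hF hA (by omega) (by omega)
      (by convert hn using 1; ring)

theorem shape8 {e f a b c : ℤ} (p1 : e % 2 = 0) (p2 : f % 2 = 0) (p3 : a % 2 = 1) (p4 : b % 2 = 1)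
    (p5 : c % 2 = 1) (h : 1 + e * e + f * f + a * a + b * b + c * c = 8) :
    (e = 0 ∨ e = 2 ∨ e = -2) ∧ (f = 0 ∨ f = 2 ∨ f = -2) ∧ (a = 1 ∨ a = -1) ∧ (b = 1 ∨ b = -1) ∧
      (c = 1 ∨ c = -1) := by
  have := mul_self_nonneg e
  have := mul_self_nonneg f
  have := mul_self_nonneg a
  have := mul_self_nonneg b
  have := mul_self_nonneg c
  exact ⟨even_two p1 (by omega), even_two p2 (by omega), odd_one p3 (by omega),
    odd_one p4 (by omega), odd_one p5 (by omega)⟩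

theorem shape16 {e f a b c : ℤ} (p1 : e % 2 = 0) (p2 : f % 2 = 0) (p3 : a % 2 = 1) (p4 : b % 2 = 1)
    (p5 : c % 2 = 1) (h : 1 + e * e + f * f + a * a + b * b + c * c = 16) :
    (e = 0 ∨ e = 2 ∨ e = -2) ∧ (f = 0 ∨ f = 2 ∨ f = -2) ∧ (a = 1 ∨ a = -1 ∨ a = 3 ∨ a = -3) ∧
      (b = 1 ∨ b = -1 ∨ b = 3 ∨ b = -3) ∧ (c = 1 ∨ c = -1 ∨ c = 3 ∨ c = -3) := by
  have := mul_self_nonneg e
  have := mul_self_nonneg f
  have := mul_self_nonneg a
  have := mul_self_nonneg b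
  have := mul_self_nonneg c
  exact ⟨even_two p1 (by omega), even_two p2 (by omega), odd_three p3 (by omega),
    odd_three p4 (by omega), odd_three p5 (by omega)⟩

theorem sq_ge {e f : ℤ} (he : e % 4 = 2) (hf : f % 4 = 0) (hf0 : f ≠ 0) :
    4 ≤ e * e ∧ 16 ≤ f * f := by
  constructor
  · rcases (by omega : e ≤ -2 ∨ 2 ≤ e) with h | h <;> nlinarith
  · rcases (by omega : f ≤ -4 ∨ 4 ≤ f) with h | h <;> nlinarith

theorem odd_sq_ge {a : ℤ} (ha : a % 2 = 1) : 1 ≤ a * a := by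
  rcases (by omega : a ≤ -1 ∨ 1 ≤ a) with h | h <;> nlinarith

theorem shape32 {e f a b c : ℤ} (he : e % 4 = 2) (hf : f % 4 = 0) (hf0 : f ≠ 0) (p3 : a % 2 = 1)
    (p4 : b % 2 = 1) (p5 : c % 2 = 1) (h : 1 + e * e + f * f + a * a + b * b + c * c = 32) :
    (e = 2 ∨ e = -2) ∧ (f = 4 ∨ f = -4) ∧ (a = 1 ∨ a = -1 ∨ a = 3 ∨ a = -3) ∧
      (b = 1 ∨ b = -1 ∨ b = 3 ∨ b = -3) ∧ (c = 1 ∨ c = -1 ∨ c = 3 ∨ c = -3) := by
  obtain ⟨h1, h2⟩ := sq_ge he hf hf0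
  have := odd_sq_ge p3
  have := odd_sq_ge p4
  have := odd_sq_ge p5
  have h3 := even_two (x := e) (by omega) (by omega)
  have h4 : f * f ≤ 24 := by omega
  have : f < 5 := by nlinarith
  have : -5 < f := by nlinarith
  exact ⟨by omega, by omega, odd_three p3 (by omega), odd_three p4 (by omega),
    odd_three p5 (by omega)⟩

theorem absorb {a u v : ℤ} (ha : a % 2 = 1) (hu : u = 1 ∨ u = -1) (hv : v = 1 ∨ v = -1) :
    ∃ A, A % 2 = 1 ∧ (a * a = A * A ∧ a * u = A) ∧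
      ∃ ε, (ε = 1 ∨ ε = -1) ∧ a * v = ε * A ∧ u * v = ε ∧ u * u = 1 ∧ v * v = 1 :=
  ⟨a * u, by rcases hu with rfl | rfl <;> omega, by rcases hu with rfl | rfl <;> simp,
    u * v, by rcases hu with rfl | rfl <;> omega,
    by rcases hu with rfl | rfl <;> rcases hv with rfl | rfl <;> simp⟩

/-- Two columns of norm eight. -/
theorem no88 {e f a b c ue uf ua ub uc ve vf va vb vc : ℤ} (he : e % 4 = 2) (hf : f % 4 = 0)
    (hf0 : f ≠ 0) (ha : a % 2 = 1) (hb : b % 2 = 1) (hc : c % 2 = 1)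
    (p1 : ue % 2 = 0) (p2 : uf % 2 = 0) (p3 : ua % 2 = 1) (p4 : ub % 2 = 1) (p5 : uc % 2 = 1)
    (q1 : ve % 2 = 0) (q2 : vf % 2 = 0) (q3 : va % 2 = 1) (q4 : vb % 2 = 1) (q5 : vc % 2 = 1)
    (hn : (32 : ℤ) ∣ 1 + e * e + f * f + a * a + b * b + c * c)
    (hu : 1 + ue * ue + uf * uf + ua * ua + ub * ub + uc * uc = 8)
    (hv : 1 + ve * ve + vf * vf + va * va + vb * vb + vc * vc = 8)
    (huv : 1 + ue * ve + uf * vf + ua * va + ub * vb + uc * vc = 0)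
    (h1 : 1 + e * ue + f * uf + a * ua + b * ub + c * uc = 0)
    (h2 : 1 + e * ve + f * vf + a * va + b * vb + c * vc = 0) : False := by
  obtain ⟨k1, k2, k3, k4, k5⟩ := shape8 p1 p2 p3 p4 p5 hu
  obtain ⟨l1, l2, l3, l4, l5⟩ := shape8 q1 q2 q3 q4 q5 hv
  obtain ⟨A, hA, eA, ε, hε, eε, eε'⟩ := absorb ha k3 l3
  obtain ⟨B, hB, eB, η, hη, eη, eη'⟩ := absorb hb k4 l4
  obtain ⟨C, hC, eC, θ, hθ, eθ, eθ'⟩ := absorb hc k5 l5
  rw [eA.1, eB.1, eC.1] at hn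
  rw [eA.2, eB.2, eC.2] at h1
  rw [eε, eη, eθ] at h2
  rw [eε'.1, eη'.1, eθ'.1] at huv
  rw [eε'.2.1, eη'.2.1, eθ'.2.1] at hu
  rw [eε'.2.2, eη'.2.2, eθ'.2.2] at hv
  clear eA eB eC eε eη eθ eε' eη' eθ' k3 k4 k5 l3 l4 l5 p3 p4 p5 q3 q4 q5 ha hb hc
  rcases fin88 ue (by simpa using k1) uf (by simpa using k2) ve (by simpa using l1) vf
    (by simpa using l2) ε (by simpa using hε) η (by simpa using hη) θ (by simpa using hθ) hu hv huv
    with ⟨rfl, rfl, rfl, ⟨h, rfl, rfl⟩ | ⟨h, rfl, rfl⟩⟩ | ⟨hs, ⟨rfl, rfl, h, h'⟩ | ⟨rfl, rfl, h, h'⟩⟩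
  · exact h (mul_left_cancel₀ (show e ≠ 0 by omega) (by linarith))
  · exact h (mul_left_cancel₀ hf0 (by linarith))
  · exact core88' he hf hA hB hε hη hθ hs (k1.resolve_left h) (l2.resolve_left h')
      (.inl ⟨rfl, rfl⟩) (by linarith) (by linarith) hn
  · exact core88' he hf hA hB hε hη hθ hs (l1.resolve_left h) (k2.resolve_left h')
      (.inr ⟨rfl, rfl⟩) (by linarith) (by linarith) hn

/-- The Gram determinant of three vectors in `ℤ³` is a square. -/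
theorem gram {x y z x' y' z' x'' y'' z'' p q r : ℤ}
    (h1 : x * x + y * y + z * z = p - 6) (h2 : x' * x' + y' * y' + z' * z' = q - 6)
    (h3 : x'' * x'' + y'' * y'' + z'' * z'' = r - 6) (h4 : x * x' + y * y' + z * z' = -6)
    (h5 : x * x'' + y * y'' + z * z'' = -6) (h6 : x' * x'' + y' * y'' + z' * z'' = -6) :
    ∃ D : ℤ, D * D = p * q * r - 6 * (p * q + p * r + q * r) := by
  refine ⟨x * (y' * z'' - z' * y'') - y * (x' * z'' - z' * x'') + z * (x' * y'' - y' * x''), ?_⟩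
  have e : (x * (y' * z'' - z' * y'') - y * (x' * z'' - z' * x'') + z * (x' * y'' - y' * x'')) *
      (x * (y' * z'' - z' * y'') - y * (x' * z'' - z' * x'') + z * (x' * y'' - y' * x'')) =
      (x * x + y * y + z * z) * ((x' * x' + y' * y' + z' * z') * (x'' * x'' + y'' * y'' + z'' * z'')
        - (x' * x'' + y' * y'' + z' * z'') ^ 2) - (x * x' + y * y' + z * z') *
        ((x * x' + y * y' + z * z') * (x'' * x'' + y'' * y'' + z'' * z'') -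
          (x' * x'' + y' * y'' + z' * z'') * (x * x'' + y * y'' + z * z'')) +
        (x * x'' + y * y'' + z * z'') * ((x * x' + y * y' + z * z') *
          (x' * x'' + y' * y'' + z' * z'') - (x' * x' + y' * y' + z' * z') *
          (x * x'' + y * y'' + z * z'')) := by ring
  rw [e, h1, h2, h3, h4, h5, h6]
  ring

theorem not_sq {D m : ℤ} (hm : m % 2 = 1) : ∀ k : ℕ, D * D ≠ 2 * 4 ^ k * m := by
  intro k
  induction k generalizing D with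
  | zero =>
    intro h
    rcases Int.emod_two_eq_zero_or_one D with h1 | h1
    · obtain ⟨t, rfl⟩ : ∃ t, D = 2 * t := ⟨D / 2, by omega⟩
      have : 2 * (t * t) = m := by linarith
      omega
    · obtain ⟨t, rfl⟩ : ∃ t, D = 2 * t + 1 := ⟨D / 2, by omega⟩
      have : 2 * (2 * (t * t) + 2 * t) + 1 = 2 * m := by linarith
      omega
  | succ k ih =>
    intro h
    rcases Int.emod_two_eq_zero_or_one D with h1 | h1
    · obtain ⟨t, rfl⟩ : ∃ t, D = 2 * t := ⟨D / 2, by omega⟩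
      exact ih (D := t) (by rw [pow_succ] at h; linarith)
    · obtain ⟨t, rfl⟩ : ∃ t, D = 2 * t + 1 := ⟨D / 2, by omega⟩
      have : 2 * (2 * (t * t) + 2 * t) + 1 = 2 * (4 ^ (k + 1) * m) := by linarith
      omega

set_option synthInstance.maxSize 4000 in
set_option synthInstance.maxHeartbeats 400000 in
theorem exc_chk : ∀ e ∈ [(2 : ℤ), -2], ∀ f ∈ [(4 : ℤ), -4], ∀ a ∈ [(1 : ℤ), -1, 3, -3],
    ∀ b ∈ [(1 : ℤ), -1, 3, -3], ∀ c ∈ [(1 : ℤ), -1, 3, -3],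
    1 + e * e + f * f + a * a + b * b + c * c = 32 →
    ∀ ve ∈ [(0 : ℤ), 2, -2], ∀ vf ∈ [(0 : ℤ), 2, -2], ∀ va ∈ [(1 : ℤ), -1], ∀ vb ∈ [(1 : ℤ), -1],
    ∀ vc ∈ [(1 : ℤ), -1], 1 + ve * ve + vf * vf + va * va + vb * vb + vc * vc = 8 →
    1 + e * ve + f * vf + a * va + b * vb + c * vc = 0 →
    ∀ ne ∈ [(1 : ℤ), -1], ∀ nf ∈ [(1 : ℤ), -1], ∀ na ∈ [(1 : ℤ), 0], ∀ nb ∈ [(1 : ℤ), 0],
    ∀ nc ∈ [(1 : ℤ), 0], 1 + ne * ve + nf * vf + na * va + nb * vb + nc * vc = 0 →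
    ∀ t ∈ [(0 : ℤ), 2], 1 + ne * e + nf * f + na * a + nb * b + nc * c = 6 - 2 * t →
    ∀ ue ∈ [(0 : ℤ), 2, -2], ∀ uf ∈ [(0 : ℤ), 2, -2], ∀ ua ∈ [(1 : ℤ), -1, 3, -3],
    ∀ ub ∈ [(1 : ℤ), -1, 3, -3], ∀ uc ∈ [(1 : ℤ), -1, 3, -3],
    1 + ue * ue + uf * uf + ua * ua + ub * ub + uc * uc = 16 →
    1 + e * ue + f * uf + a * ua + b * ub + c * uc = 0 →
    1 + ue * ve + uf * vf + ua * va + ub * vb + uc * vc = 0 →
    1 + ne * ue + nf * uf + na * ua + nb * ub + nc * uc = t →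
    (na = 0 → (nb = 0 ∧ a = b ∧ ua = ub ∧ va = vb) ∨ (nc = 0 ∧ a = c ∧ ua = uc ∧ va = vc)) →
    (nb = 0 → (na = 0 ∧ a = b ∧ ua = ub ∧ va = vb) ∨ (nc = 0 ∧ b = c ∧ ub = uc ∧ vb = vc)) →
    (nc = 0 → (na = 0 ∧ a = c ∧ ua = uc ∧ va = vc) ∨ (nb = 0 ∧ b = c ∧ ub = uc ∧ vb = vc)) →
    False := by decide +kernel

end BT.K6T
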