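import Cfsg.Agent.Lib.Block.K5Num3

/-!
# A finite check for principal `2`-blocks with six characters and defect six
-/

set_option autoImplicit false

namespace BT.K5

set_option synthInstance.maxSize 4000 in
set_option synthInstance.maxHeartbeats 400000 in
theorem k6_chk64 : ∀ ν ∈ [(1 : ℤ), 0], ∀ ya ∈ [(1 : ℤ), -1, 3, -3], ∀ yb ∈ [(1 : ℤ), -1, 3, -3],
    ∀ yc ∈ [(1 : ℤ), -1, 3, -3], ∀ ye ∈ [(2 : ℤ), -2], ya * ya + yb * yb + yc * yc = 11 →
    1 + ya + ν * (yb + yc) + ye = 0 → (ν = 1 ∨ yb = yc) →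
    ∀ wa ∈ [(0 : ℤ), 1, -1, 2, -2], ∀ wb ∈ [(0 : ℤ), 1, -1, 2, -2], ∀ wc ∈ [(0 : ℤ), 1, -1, 2, -2],
    ∀ we ∈ [(0 : ℤ), 1, -1, 2, -2], 1 + ya * wa + yb * wb + yc * wc + ye * we = 0 →
    ∀ wf ∈ [(0 : ℤ), 1, -1, 2, -2], wa * wa + wb * wb + wc * wc + we * we + wf * wf = 5 →
    ∀ xa ∈ [(0 : ℤ), 1, -1, 2, -2, 3, -3, 4, -4], (xa + wa) % 2 = 1 →
    ∀ xb ∈ [(0 : ℤ), 1, -1, 2, -2, 3, -3, 4, -4], (xb + wb) % 2 = 1 →
    ∀ xc ∈ [(0 : ℤ), 1, -1, 2, -2, 3, -3, 4, -4], (xc + wc) % 2 = 1 →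
    ∀ xe ∈ [(0 : ℤ), 1, -1, 2, -2, 3, -3, 4, -4], (11 * we - xe) % 4 = 2 →
      ya * xa + yb * xb + yc * xc + ye * xe = 0 →
    ∀ xf ∈ [(0 : ℤ), 1, -1, 2, -2, 3, -3, 4, -4], (11 * wf - xf) % 4 = 0 →
      xa * xa + xb * xb + xc * xc + xe * xe + xf * xf = 22 →
      xa * wa + xb * wb + xc * wc + xe * we + xf * wf = 2 →
      11 * (1 + wa + ν * (wb + wc) + we + wf) = 4 + xa + ν * (xb + xc) + xe + xf →
      (ν = 1 ∨ 11 * wb - xb = 11 * wc - xc) → 11 * wf ≠ xf →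
      192 < 3 * |11 * wf - xf| + (5 * wf + xf) * (5 * wf + xf) := by
  decide +kernel

theorem k6_mem2 {x : ℤ} (h : x * x ≤ 5) : x ∈ [(0 : ℤ), 1, -1, 2, -2] := by
  obtain ⟨h1, h2⟩ := abs_le_of_sq (a := x) (n := 2) (by norm_num) (by omega)
  interval_cases x <;> simp

theorem k6_mem4 {x : ℤ} (h : x * x ≤ 22) : x ∈ [(0 : ℤ), 1, -1, 2, -2, 3, -3, 4, -4] := by
  obtain ⟨h1, h2⟩ := abs_le_of_sq (a := x) (n := 4) (by norm_num) (by omega)
  interval_cases x <;> simp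

theorem k6_mem3 {x : ℤ} (h : x * x ≤ 15) (h0 : ¬ 2 ∣ x) : x ∈ [(1 : ℤ), -1, 3, -3] := by
  obtain ⟨h1, h2⟩ := abs_le_of_sq (a := x) (n := 3) (by norm_num) (by omega)
  interval_cases x <;> simp at h0 ⊢

theorem k6_q64_aux {ν ya yb yc ye yf wa wb wc we wf na nb nc ne nf : ℤ}
    (hν : ν = 1 ∨ (ν = 0 ∧ yb = yc ∧ nb = nc))
    (oa : ¬ 2 ∣ ya) (ob : ¬ 2 ∣ yb) (oc : ¬ 2 ∣ yc) (oe : ye % 4 = 2)
    (pa : ¬ 2 ∣ na) (pb : ¬ 2 ∣ nb) (pc : ¬ 2 ∣ nc) (pe : ne % 4 = 2) (pf : nf % 4 = 0)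
    (p0 : nf ≠ 0) (h1 : ya * ya + yb * yb + yc * yc + ye * ye + yf * yf = 15)
    (h2 : wa * wa + wb * wb + wc * wc + we * we + wf * wf = 5)
    (h3 : na * na + nb * nb + nc * nc + ne * ne + nf * nf = 735)
    (h4 : 1 + wa * ya + wb * yb + wc * yc + we * ye + wf * yf = 0)
    (h5 : na * ya + nb * yb + nc * yc + ne * ye + nf * yf = 49)
    (h6 : na * wa + nb * wb + nc * wc + ne * we + nf * wf = 49)
    (h7 : 1 + ya + ν * (yb + yc) + ye + yf = 0) (h8 : 11 + na + ν * (nb + nc) + ne + nf = 0) :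
    192 < 3 * |nf| + (16 * wf + 4 * yf - nf) * (16 * wf + 4 * yf - nf) := by
  have s := fun x : ℤ => mul_self_nonneg x
  have ma := k6_mem3 (x := ya) (by linarith [s yb, s yc, s ye, s yf]) oa
  have mb := k6_mem3 (x := yb) (by linarith [s ya, s yc, s ye, s yf]) ob
  have mc := k6_mem3 (x := yc) (by linarith [s yb, s ya, s ye, s yf]) oc
  obtain ⟨e1, e2⟩ := abs_le_of_sq (a := ye) (n := 3) (by norm_num)
    (by linarith [s yb, s ya, s yc, s yf])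
  obtain ⟨f1, f2⟩ := abs_le_of_sq (a := yf) (n := 3) (by norm_num)
    (by linarith [s yb, s ya, s yc, s ye])
  have me : ye = 2 ∨ ye = -2 := by omega
  have e3 : ye * ye = 4 := by rcases me with rfl | rfl <;> rfl
  obtain rfl : yf = 0 := by
    have := sq8 ya
    have := sq8 yb
    have := sq8 yc
    interval_cases yf <;> omega
  obtain ⟨xa, rfl⟩ : ∃ x, na = 11 * wa + 4 * ya - x := ⟨11 * wa + 4 * ya - na, by ring⟩
  obtain ⟨xb, rfl⟩ : ∃ x, nb = 11 * wb + 4 * yb - x := ⟨11 * wb + 4 * yb - nb, by ring⟩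
  obtain ⟨xc, rfl⟩ : ∃ x, nc = 11 * wc + 4 * yc - x := ⟨11 * wc + 4 * yc - nc, by ring⟩
  obtain ⟨xe, rfl⟩ : ∃ x, ne = 11 * we + 4 * ye - x := ⟨11 * we + 4 * ye - ne, by ring⟩
  obtain ⟨xf, rfl⟩ : ∃ x, nf = 11 * wf - x := ⟨11 * wf - nf, by ring⟩
  have g1 : ya * xa + yb * xb + yc * xc + ye * xe = 0 := by
    linear_combination 11 * h4 + 4 * h1 - h5
  have g2 : xa * wa + xb * wb + xc * wc + xe * we + xf * wf = 2 := by
    linear_combination 11 * h2 + 4 * h4 - h6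
  have g3 : xa * xa + xb * xb + xc * xc + xe * xe + xf * xf = 22 := by
    linear_combination h3 - 121 * h2 - 16 * h1 - 88 * h4 + 22 * g2 + 8 * g1
  have := k6_chk64 ν (by rcases hν with rfl | ⟨rfl, -⟩ <;> simp) ya ma yb mb yc mc ye
    (by simpa using me) (by linarith) (by linarith) (hν.imp_right fun h => h.2.1)
    wa (k6_mem2 (by linarith [s wb, s wc, s we, s wf])) wb
    (k6_mem2 (by linarith [s wa, s wc, s we, s wf])) wc
    (k6_mem2 (by linarith [s wb, s wa, s we, s wf])) we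
    (k6_mem2 (by linarith [s wb, s wc, s wa, s wf])) (by linarith) wf
    (k6_mem2 (by linarith [s wb, s wc, s wa, s we])) h2 xa
    (k6_mem4 (by linarith [s xb, s xc, s xe, s xf])) (by omega) xb
    (k6_mem4 (by linarith [s xa, s xc, s xe, s xf])) (by omega) xc
    (k6_mem4 (by linarith [s xb, s xa, s xe, s xf])) (by omega) xe
    (k6_mem4 (by linarith [s xb, s xc, s xa, s xf])) (by omega) g1 xf
    (k6_mem4 (by linarith [s xb, s xc, s xa, s xe])) pf g3 g2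
    (by linear_combination h8 - 4 * h7) (hν.imp_right fun h => by omega) (by omega)
  convert this using 3 <;> ring

theorem k6_q64 {νb νc ε δ ya yb yc ye yf wa wb wc we wf na nb nc ne nf : ℤ}
    (hν : (νb = 1 ∧ νc = 1) ∨ (νb = 0 ∧ νc = 0 ∧ yb = yc ∧ nb = nc)) (hε : ε = 1 ∨ ε = -1)
    (hδ : δ = 1 ∨ δ = -1) (oa : ¬ 2 ∣ ya) (ob : ¬ 2 ∣ yb) (oc : ¬ 2 ∣ yc) (oe : ye % 4 = 2)
    (pa : ¬ 2 ∣ na) (pb : ¬ 2 ∣ nb) (pc : ¬ 2 ∣ nc) (pe : ne % 4 = 2) (pf : nf % 4 = 0)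
    (p0 : nf ≠ 0) (h1 : ya * ya + yb * yb + yc * yc + ye * ye + yf * yf = 15)
    (h2 : wa * wa + wb * wb + wc * wc + we * we + wf * wf = 5)
    (h3 : na * na + nb * nb + nc * nc + ne * ne + nf * nf = 735)
    (h4 : 1 + wa * ya + wb * yb + wc * yc + we * ye + wf * yf = 0)
    (h5 : na * ya + nb * yb + nc * yc + ne * ye + nf * yf = 49)
    (h6 : na * wa + nb * wb + nc * wc + ne * we + nf * wf = 49)
    (h7 : 1 + ya + νb * yb + νc * yc + ε * ye + δ * yf = 0)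
    (h8 : 11 + na + νb * nb + νc * nc + ε * ne + δ * nf = 0) :
    192 < 3 * |nf| + (16 * wf + 4 * yf - nf) * (16 * wf + 4 * yf - nf) := by
  have hb : νc = νb := by omega
  subst hb
  have h := k6_q64_aux (ν := νc) (ye := ε * ye) (yf := δ * yf) (we := ε * we) (wf := δ * wf)
    (ne := ε * ne) (nf := δ * nf) (wa := wa) (wb := wb) (wc := wc) (by tauto) oa ob oc
    (by rcases hε with rfl | rfl <;> omega) pa pb pc (by rcases hε with rfl | rfl <;> omega)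
    (by rcases hδ with rfl | rfl <;> omega) (by rcases hδ with rfl | rfl <;> omega)
  rcases hε with rfl | rfl <;> rcases hδ with rfl | rfl <;>
    have := h (by linarith) (by linarith) (by linarith) (by linarith) (by linarith) (by linarith)
      (by linarith) (by linarith) <;>
    simp only [one_mul, neg_mul, abs_neg] at this <;> linarith

end BT.K5
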