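import Cfsg.Agent.Lib.Block.QStarL
import Cfsg.Agent.Lib.Grp.OddThree

/-!
# Brauer's `k(B)` bound for defect groups with a central cyclic subgroup of small index
-/

set_option autoImplicit false
set_option linter.unusedSectionVars false

namespace BT

open Cfsg CT GT Subgroup

universe u

variable {G : Type u} [Group G] [Finite G] {B : Set (IrrCharacter G)}

section Gen

variable {p : ℕ} [Fact p.Prime] {M : Ideal AlgInt} {hM : IsPModular p M}

variable (hM) in include hM in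
theorem kb_of_isCyclic (hB : IsPBlock M B) {D : Subgroup G} (hD : IsDefectGroup p M B D)
    (hc : IsCyclic D) : KB p B := by
  obtain ⟨m, hm, rfl⟩ := exists_maxP hM hB hD
  obtain ⟨A, _, _, ι, E, h⟩ := hm.exists_abPar fun x hx y hy =>
    congrArg Subtype.val (IsCyclic.isMulCommutative.is_comm.comm (⟨x, hx⟩ : m.Q) ⟨y, hy⟩)
  have : IsCyclic A := (MonoidHom.ofInjective h.inj).isCyclic.2 (h.range ▸ hc)
  exact h.kb_of_free fun u hu => eq_bot_iff.2 fun σ hσ => mulAut_eq_one_of_apply_eq h.pgroup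
    (fun h1 => h.not_dvd (h1.trans (E.orderOf_dvd_natCard hσ.1))) hu hσ.2

end Gen

variable {M : Ideal AlgInt} {hM : IsPModular 3 M} {m : SPair hM G} (hm : MaxP B m)
include hm

theorem MaxP.card_le_of_abelian_three (hab : ∀ x ∈ m.Q, ∀ y ∈ m.Q, x * y = y * x) {u : G}
    (hu : u ∈ m.Q) (h9 : (zpowers u).relIndex m.Q ≤ 9) : Nat.card B ≤ Nat.card m.Q := by
  obtain ⟨A, _, _, ι, E, h⟩ := hm.exists_abPar hab
  have hi : ∀ K : Subgroup A, (K.map ι).relIndex m.Q = K.index := fun K => by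
    rw [← h.range, MonoidHom.range_eq_map, relIndex_map_map_of_injective _ _ h.inj,
      relIndex_top_right]
  by_cases h2 : ∀ a b : A, zpowers a ⊔ zpowers b ≠ ⊤
  swap
  · push Not at h2
    obtain ⟨a, b, h2⟩ := h2
    exact card_le_of_two_generators hM hm.block hm.isDefectGroup (hab _ (h.mem_Q a) _ (h.mem_Q b))
      (by rw [← MonoidHom.map_zpowers, ← MonoidHom.map_zpowers, ← Subgroup.map_sup, h2,
        ← MonoidHom.range_eq_map, h.range])
  obtain ⟨u, rfl⟩ := h.exists_eq hu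
  obtain ⟨z, v, h3, h4⟩ := exists_fixed_pair h.pgroup h2 (u := u)
    (by rwa [← hi, MonoidHom.map_zpowers]) h.not_dvd
  have hz := h.mem_Q z
  have hQ : (m.at (ι z)).Q = zpowers (ι z) := mem_pairsAt.1 (SPair.at_mem hz)
  have h5 := hm.blockRank_eq_below_sup h.ab (m.at_le (ι z)) (h.mem_Q v) fun t ht h5 => by
    obtain ⟨σ, hσ, h6⟩ := h.exists_mem h5
    rw [← h6, h4 σ ⟨hσ, h.inj ((h6 z).trans (by
      rw [← ht _ (hQ.ge (mem_zpowers _)), mul_inv_cancel_right]))⟩]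
  have hle : zpowers (ι v) ⊔ (m.at (ι z)).Q ≤ m.Q :=
    sup_le (zpowers_le.2 (h.mem_Q v)) (m.at_le _).le
  set a := m.below (zpowers (ι v) ⊔ (m.at (ι z)).Q)
  obtain ⟨H, _, _, f, b, h6, h7, h8, h10, -⟩ := a.exists_quot' (R := m.Q) le_rfl
    (hm.max.defGrp_of_le_NP hM (m.below_le _) (by simpa using a.bp.inf_centralizer_le_NP) a.bidem
      (h.ab.trans (centralizer_le (m.below_le _).le)))
  have h11 := card_range_of_ker h6
  rw [m.below_Q hle, hQ, ← MonoidHom.map_zpowers, ← MonoidHom.map_zpowers, ← Subgroup.map_sup,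
    hi] at h11
  obtain ⟨n, hn⟩ := (isPGroup_of_isDefectGroup h8).exists_card_eq
  have h12 : n < 2 := (Nat.pow_lt_pow_iff_right (a := 3) (by omega)).1 (by omega)
  obtain ⟨e, k, S, h13, -, h14, -⟩ := exists_basicSet_of_cyclic hM h7 h8
    (isCyclic_of_card_dvd_prime (p := 3) (hn ▸ pow_dvd_pow 3 (show n ≤ 1 by omega)))
  refine hm.card_le_of_kb hz (hab _ hz) (KB.of_le_two hM (SPair.isPBlock_blk _) ?_)
  rw [h5, ← h10, ← S.card_eq, Fintype.card_fin]
  rcases k with _ | k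
  · omega
  · nlinarith

theorem MaxP.card_le_of_nonabelian_three (hab : ¬ ∀ x ∈ m.Q, ∀ y ∈ m.Q, x * y = y * x) {z : G}
    (hz : z ∈ m.Q) (hc : ∀ x ∈ m.Q, Commute z x) (h9 : (zpowers z).relIndex m.Q = 9) :
    Nat.card B ≤ Nat.card m.Q := by
  refine hm.card_le_of_quot' hz hc fun H _ _ f b h1 h2 h3 h4 => ?_
  have h5 := (card_range_of_ker h1).trans h9
  obtain ⟨m', hm', hQ⟩ := exists_maxP hM h2 h3
  have hf := (IsPGroup.isMulCommutative_of_card_eq_prime_sq (p := 3) h5).is_comm.comm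
  obtain ⟨A, _, _, ι, E, h⟩ := hm'.exists_abPar fun x hx y hy =>
    congrArg Subtype.val (hf ⟨x, hQ.le hx⟩ ⟨y, hQ.le hy⟩)
  have hA : Nat.card A = 9 := by rw [← h.card_eq, hQ, h5]
  have hZ : ∀ g : m.Q, f g = 1 → ∀ x ∈ m.Q, Commute (g : G) x := fun g hg x hx => by
    obtain ⟨i, hi⟩ := (h1 g).1 hg
    exact hi ▸ (hc x hx).zpow_left i
  have hsur : ∀ a, ∃ g, f g = ι a := fun a => hQ.le (h.mem_Q a)
  refine h.kb_of_free fun u hu => eq_bot_iff.2 fun σ hσ => MulEquiv.ext fun a => ?_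
  obtain ⟨k, hk, h6⟩ := (h.mem σ).1 hσ.1
  obtain ⟨t, ht, h7⟩ := h4 k (hQ ▸ (SPair.smul_eq_self_iff.1 hk).1)
  obtain ⟨x, hx⟩ := hsur u
  have key : ∀ x, ((centralizer {x}).map f).comap ι = ⊤ → ∀ y, Commute y x := fun x hU y => by
    obtain ⟨a, ha⟩ := h.exists_eq (hQ.ge ⟨y, rfl⟩)
    obtain ⟨w, hw, h8⟩ := hU.ge (mem_top a)
    rw [← mul_inv_cancel_left w y]
    exact Commute.mul_left (mem_centralizer_singleton_iff.1 hw) (Subtype.ext
      (hZ (w⁻¹ * y) (by rw [map_mul, map_inv, h8, ha, inv_mul_cancel]) x x.2))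
  have hU : ((centralizer {x}).map f).comap ι ≠ ⊤ := fun hU => hab fun g hg y hy => by
    have h8 : Commute (x : G) y := congrArg Subtype.val (key x hU ⟨y, hy⟩).symm
    by_cases h9 : ((centralizer {⟨g, hg⟩}).map f).comap ι = ⊤
    · exact congrArg Subtype.val (key _ h9 ⟨y, hy⟩).symm
    obtain ⟨a, ha⟩ := h.exists_eq (hQ.ge ⟨⟨g, hg⟩, rfl⟩)
    rcases eq_or_of_ne_top hA h9 ⟨x, mem_centralizer_singleton_iff.2 (key x hU _).symm, hx⟩ hu
      ⟨_, mem_centralizer_singleton_iff.2 rfl, ha.symm⟩ with rfl | rfl | rfl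
    · exact hZ ⟨g, hg⟩ (by rw [← ha, map_one]) y hy
    · simpa using (h8.mul_left (hZ (x⁻¹ * ⟨g, hg⟩) (by simp [← ha, hx]) y hy)).eq
    · simpa using (h8.inv_left.mul_left (hZ (x * ⟨g, hg⟩) (by simp [← ha, hx]) y hy)).eq
  obtain ⟨y, hy⟩ := hsur a
  obtain ⟨x', h8, h10⟩ := h7 x
  obtain ⟨y', h11, h12⟩ := h7 y
  rw [hx, ← h6, show σ u = u from hσ.2, ← hx] at h10
  rw [hy, ← h6] at h12
  have h13 : ∀ g : m.Q, f g = 1 → t * g * t⁻¹ = g := fun g hg => by
    obtain ⟨i, hi⟩ := (h1 g).1 hg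
    rw [← hi, ← (ht.zpow_left i).eq, mul_inv_cancel_right]
  have h14 := h13 (x * y * x⁻¹ * y⁻¹) (by
    rw [map_mul, map_mul, map_mul, hx, hy, ← map_mul, mul_comm, map_mul, ← hx, ← hy]; simp)
  have h15 := hZ (x⁻¹ * x') (by rw [map_mul, ← h10, map_inv, inv_mul_cancel])
  have h16 := eq_or_of_ne_top hA hU ⟨x, mem_centralizer_singleton_iff.2 rfl, hx⟩ hu
    (y := a⁻¹ * σ a) ⟨y⁻¹ * y', mem_centralizer_singleton_iff.2 (Subtype.ext ?_), by
      rw [map_mul, map_mul, map_inv, map_inv, hy, h12]⟩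
  · refine apply_eq_of_fix h.pgroup h.not_dvd hσ.1 ?_
    rcases h16 with h16 | h16 | h16 <;> rw [h16]
    exacts [map_one _, hσ.2, (map_inv σ u).trans (congrArg _ hσ.2)]
  · have h17 : (x' : G) * y' * (x' : G)⁻¹ * (y' : G)⁻¹ = x * y * (x : G)⁻¹ * (y : G)⁻¹ := by
      rw [← h8, ← h11]
      exact Eq.trans (by simp [mul_assoc]) h14
    have h18 : (x : G)⁻¹ * x' * y' = y' * ((x : G)⁻¹ * x') := h15 y' y'.2
    change (y : G)⁻¹ * y' * x = x * ((y : G)⁻¹ * y')
    rw [← mul_inv_cancel_left (x : G) x', mul_assoc (x : G) _ y', h18] at h17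
    calc (y : G)⁻¹ * y' * x = (y : G)⁻¹ * (x * (y' * ((x : G)⁻¹ * x')) *
          (x * ((x : G)⁻¹ * x'))⁻¹ * (y' : G)⁻¹)⁻¹ * x * y' := by group
      _ = _ := by rw [h17]; group

omit hm in
/-- Brauer's bound for defect groups with a central cyclic subgroup of index at most sixteen. -/
theorem card_le_of_relIndex_le_sixteen {p : ℕ} [Fact p.Prime] {M : Ideal AlgInt}
    (hM : IsPModular p M) (hB : IsPBlock M B) {D : Subgroup G} (hD : IsDefectGroup p M B D) {z : G}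
    (hz : z ∈ D) (hc : ∀ x ∈ D, Commute z x) (h16 : (zpowers z).relIndex D ≤ 16) :
    Nat.card B ≤ Nat.card D := by
  obtain ⟨m, hm, rfl⟩ := exists_maxP hM hB hD
  obtain ⟨n, -, hn⟩ := (Nat.dvd_prime_pow (Fact.out : p.Prime)).1
    (hm.card_eq ▸ relIndex_dvd_card (zpowers z) m.Q)
  by_cases h1 : n ≤ 1
  · exact hm.card_le_of_quot' hz hc fun H _ _ f b h2 h3 h4 _ => kb_of_isCyclic hM h3 h4
      (isCyclic_of_card_dvd_prime (p := p) (by
        rw [card_range_of_ker h2, hn]; simpa using pow_dvd_pow p h1))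
  have h2 := Nat.pow_le_pow_right (Fact.out : p.Prime).pos (show 2 ≤ n by omega)
  have h3 : p < 5 := lt_of_pow_lt_pow_left₀ 2 (by omega) (by omega)
  have h4 := (Fact.out : p.Prime)
  obtain rfl | rfl : p = 2 ∨ p = 3 := by interval_cases p <;> simp_all (config := { decide := true })
  · exact hm.card_le_of_quot' hz hc fun H _ _ f b h2 h3 h4 _ =>
      kb_of_card_le_sixteen hM h3 h4 (card_range_of_ker h2 ▸ h16)
  have h5 : n < 3 := (Nat.pow_lt_pow_iff_right (a := 3) (by omega)).1 (by omega)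
  obtain rfl : n = 2 := by omega
  by_cases hab : ∀ x ∈ m.Q, ∀ y ∈ m.Q, x * y = y * x
  exacts [hm.card_le_of_abelian_three hab hz hn.le, hm.card_le_of_nonabelian_three hab hz hc hn]

end BT
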