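import Cfsg.Agent.Lib.Block.Even
import Cfsg.Agent.Lib.Block.PrincipalB
import Cfsg.Agent.Lib.Block.QuotCartan
import Cfsg.Agent.Lib.Char.BrauerInd
import Cfsg.Agent.Lib.Char.Linear
import Mathlib.GroupTheory.Transfer

/-!
# Groups with abelian Sylow `2`-subgroups: the principal `2`-block has only odd degrees
-/

set_option autoImplicit false
set_option linter.unusedSectionVars false

namespace BT

open Cfsg CT GT
open scoped MonoidAlgebra ComplexConjugate Pointwise

variable {M : Ideal AlgInt} (hM : IsPModular 2 M)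

section Core

variable {A : Type*} [CommGroup A] [Fintype A] {G : Type*} [Group G] (ι : A →* G)
  (μ : A →* ℂˣ) (c : G → ℂ)

theorem km_comm (a b : A) : ι a * ι b = ι b * ι a := by rw [← map_mul, ← map_mul, mul_comm]

/-- The two-sided action. -/
@[reducible] def kmAct : MulAction (A × A) G where
  smul γ g := ι γ.1 * g * ι γ.2
  one_smul g := by change ι 1 * g * ι 1 = g; simp
  mul_smul γ δ g := by
    change ι (γ.1 * δ.1) * g * ι (γ.2 * δ.2) = ι γ.1 * (ι δ.1 * g * ι δ.2) * ι γ.2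
    rw [mul_comm γ.2, map_mul, map_mul]; group

/-- The stabiliser of `g`. -/
def kmStab (g : G) : Subgroup (A × A) := letI := kmAct ι; MulAction.stabilizer (A × A) g

theorem mem_kmStab {g : G} {γ : A × A} : γ ∈ kmStab ι g ↔ ι γ.1 * g * ι γ.2 = g := Iff.rfl

/-- The double sum. -/
noncomputable def kmT (g : G) : ℂ :=
  ∑ γ : A × A, (μ γ.1 : ℂ) * μ γ.2 * c (g⁻¹ * ι γ.1 * g * ι γ.2)

/-- The number of square roots of one that commute with `g`. -/
noncomputable def kmN (g : G) : ℕ := Nat.card {t : A // t * t = 1 ∧ Commute (ι t) g}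

variable {c}

theorem kmT_smul (hc : IsClassFunction G c) (x y : A) (g : G) :
    kmT ι μ c (ι x * g * ι y) = kmT ι μ c g := by
  refine Finset.sum_congr rfl fun γ _ => ?_
  congr 1
  rw [← hc (g⁻¹ * ι γ.1 * g * ι γ.2) (ι y)⁻¹]
  congr 1
  have h1 : (ι x)⁻¹ * ι γ.1 * ι x = ι γ.1 := by rw [mul_assoc, km_comm, inv_mul_cancel_left]
  calc _ = (ι y)⁻¹ * g⁻¹ * ((ι x)⁻¹ * ι γ.1 * ι x) * g * (ι y * ι γ.2) := by group
    _ = _ := by rw [h1, km_comm]; group

theorem kmT_inv (hc : IsClassFunction G c) (g : G) : kmT ι μ c g⁻¹ = kmT ι μ c g := by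
  refine Fintype.sum_equiv (Equiv.prodComm A A) _ _ fun γ => ?_
  rw [mul_comm (μ γ.1 : ℂ), ← hc (g⁻¹⁻¹ * ι γ.1 * g⁻¹ * ι γ.2) (g * ι γ.1)⁻¹]
  congr 2
  simp [mul_assoc]

theorem kmStab_smul (x y : A) (g : G) : kmStab ι (ι x * g * ι y) = kmStab ι g := by
  ext γ
  rw [mem_kmStab, mem_kmStab, show ι γ.1 * (ι x * g * ι y) * ι γ.2 =
    (ι γ.1 * ι x) * g * (ι y * ι γ.2) by group, km_comm ι γ.1, km_comm ι y,
    show ι x * ι γ.1 * g * (ι γ.2 * ι y) = ι x * (ι γ.1 * g * ι γ.2) * ι y by group]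
  simp

theorem card_kmStab_inv (g : G) : Nat.card (kmStab ι g⁻¹) = Nat.card (kmStab ι g) := by
  refine Nat.card_congr (((Equiv.prodComm A A).trans (Equiv.inv _)).subtypeEquiv fun γ => ?_)
  rw [mem_kmStab, mem_kmStab, ← inv_inj]
  simp [mul_assoc]

theorem kmN_smul (x y : A) (g : G) : kmN ι (ι x * g * ι y) = kmN ι g := by
  refine Nat.card_congr (Equiv.subtypeEquivRight fun t =>
    and_congr_right fun _ => ⟨fun h => ?_, fun h => ?_⟩)
  · have := ((Commute.inv_right (km_comm ι t x)).mul_right h).mul_right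
      (Commute.inv_right (km_comm ι t y))
    simpa [mul_assoc] using this
  · exact (Commute.mul_right (km_comm ι t x) h).mul_right (km_comm ι t y)

theorem kmN_inv (g : G) : kmN ι g⁻¹ = kmN ι g :=
  Nat.card_congr (Equiv.subtypeEquivRight fun _ => and_congr_right fun _ => Commute.inv_right_iff)

theorem km_units_mem (a : A) : (μ a : ℂ) ∈ locRing hM :=
  mem_locRing_of_isIntegral hM (isIntegral_of_pow_eq_one (m := Nat.card A) Nat.card_pos.ne' (by
    rw [← Units.val_pow_eq_pow_val, ← map_pow, pow_card_eq_one', map_one, Units.val_one]))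

theorem kmT_div_mem (hi : ∀ g, c g ∈ locRing hM) (g : G) :
    kmT ι μ c g / Nat.card (kmStab ι g) ∈ locRing hM := by
  classical
  have := Fintype.ofFinite ((A × A) ⧸ kmStab ι g)
  let ν : kmStab ι g →* ℂˣ := (μ.comp (MonoidHom.fst A A) * μ.comp (MonoidHom.snd A A)).comp
    (kmStab ι g).subtype
  have h0 : (Nat.card (kmStab ι g) : ℂ) ≠ 0 := card_cast_ne_zero
  rw [kmT, sum_eq_sum_quotient_sum (kmStab ι g), Finset.sum_div]
  refine sum_mem fun q _ => ?_
  have h1 : ∀ s : kmStab ι g, (μ (q.out * s).1 : ℂ) * μ (q.out * s).2 *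
      c (g⁻¹ * ι (q.out * s).1 * g * ι (q.out * s).2) =
      ((μ q.out.1 : ℂ) * μ q.out.2 * c (g⁻¹ * ι q.out.1 * g * ι q.out.2)) * ν s := fun s => by
    have h2 : g⁻¹ * ι (q.out * s).1 * g * ι (q.out * s).2 = g⁻¹ * ι q.out.1 * g * ι q.out.2 := by
      rw [Prod.fst_mul, Prod.snd_mul, mul_comm q.out.2, map_mul, map_mul]
      have h3 : ι s.1.1 * g * ι s.1.2 = g := s.2
      calc _ = g⁻¹ * ι q.out.1 * (ι s.1.1 * g * ι s.1.2) * ι q.out.2 := by group
        _ = _ := by rw [h3]
    rw [h2]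
    simp only [ν, Prod.fst_mul, Prod.snd_mul, map_mul, Units.val_mul, MonoidHom.comp_apply,
      MonoidHom.mul_apply, MonoidHom.coe_fst, MonoidHom.coe_snd, Subgroup.coe_subtype]
    ring
  rw [Finset.sum_congr rfl fun s _ => h1 s, ← Finset.mul_sum, sum_apply_units_hom, mul_div_assoc]
  refine mul_mem (mul_mem (mul_mem (km_units_mem hM μ _) (km_units_mem hM μ _)) (hi _)) ?_
  split_ifs
  · rw [div_self h0]; exact one_mem _
  · rw [zero_div]; exact zero_mem _

theorem kmT_mem_of_sq (hc : IsClassFunction G c) (hi : ∀ g, c g ∈ locRing hM)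
    (h0 : ∀ g, c (g * g) = 0) {g : G} (hg : g * g = 1) : kmT ι μ c g ∈ locIdeal hM := by
  have hm : ∀ γ : A × A, (μ γ.1 : ℂ) * μ γ.2 * c (g⁻¹ * ι γ.1 * g * ι γ.2) ∈ locRing hM :=
    fun γ => mul_mem (mul_mem (km_units_mem hM μ _) (km_units_mem hM μ _)) (hi _)
  have hg' : g⁻¹ = g := inv_eq_of_mul_eq_one_right hg
  rw [kmT, ← red_eq_zero_iff hM (sum_mem fun γ _ => hm γ), red_sum hM _ _ fun γ _ => hm γ]
  refine Finset.sum_involution (fun γ _ => γ.swap) (fun γ _ => ?_) (fun γ _ h h1 => h ?_)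
    (fun _ _ => Finset.mem_univ _) (fun γ _ => γ.swap_swap)
  · have : c (g⁻¹ * ι γ.2 * g * ι γ.1) = c (g⁻¹ * ι γ.1 * g * ι γ.2) := by
      rw [← hc (g⁻¹ * ι γ.1 * g * ι γ.2) (g * ι γ.1)⁻¹, hg']
      congr 1
      group
    rw [Prod.fst_swap, Prod.snd_swap, this, mul_comm (μ γ.2 : ℂ)]
    exact CharTwo.add_self_eq_zero _
  · have h2 : γ.2 = γ.1 := congrArg Prod.fst h1
    rw [h2, hg', mul_assoc (g * ι γ.1), h0, mul_zero, red_zero]

theorem km_card_modEq {X : Type*} [Fintype X] (S : Finset X) (τ : X → X) (h1 : ∀ x ∈ S, τ x ∈ S)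
    (h2 : ∀ x, τ (τ x) = x) [DecidablePred fun x => τ x = x] :
    (S.card : ZMod 2) = (S.filter fun x => τ x = x).card := by
  rw [← Finset.card_filter_add_card_filter_not (s := S) fun x => τ x = x, Nat.cast_add,
    add_eq_left, Finset.card_eq_sum_ones, Nat.cast_sum]
  refine Finset.sum_involution (fun x _ => τ x) (fun _ _ => by decide)
    (fun x hx _ => (Finset.mem_filter.1 hx).2) (fun x hx => ?_) fun x _ => h2 x
  rw [Finset.mem_filter] at hx ⊢
  exact ⟨h1 x hx.1, fun e => hx.2 (by rw [← e, h2])⟩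

theorem kmN_cast (g : G) :
    (kmN ι g : ZMod 2) = Nat.card ((Subgroup.centralizer ({g} : Set G)).comap ι) := by
  classical
  have h := km_card_modEq (Finset.univ.filter fun t : A => Commute (ι t) g) (fun t => t⁻¹)
    (fun t ht => by simpa using ht) inv_inv
  rw [Finset.filter_filter] at h
  rw [kmN, Nat.card_eq_fintype_card, Nat.card_eq_fintype_card, Fintype.card_subtype,
    Fintype.card_subtype]
  convert h.symm using 3
  · ext t
    simp [and_comm, inv_eq_iff_mul_eq_one]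
  · ext t
    simp [Subgroup.mem_centralizer_singleton_iff, commute_iff_eq]

theorem kmStab_cast {g : G} (hg : g * g = 1) :
    (Nat.card (kmStab ι g) : ZMod 2) =
      Nat.card ((Subgroup.centralizer ({g} : Set G)).comap ι) := by
  classical
  have hg' : g⁻¹ = g := inv_eq_of_mul_eq_one_right hg
  have h := km_card_modEq (Finset.univ.filter fun γ : A × A => γ ∈ kmStab ι g)
    (fun γ => (γ.2⁻¹, γ.1⁻¹)) (fun γ hγ => by
      simp only [Finset.mem_filter, Finset.mem_univ, true_and, mem_kmStab] at hγ ⊢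
      rw [map_inv, map_inv, ← inv_inj, hg']
      simpa [mul_assoc, hg'] using hγ) (fun γ => by simp)
  rw [Nat.card_eq_fintype_card, Nat.card_eq_fintype_card, Fintype.card_subtype,
    Fintype.card_subtype, h]
  congr 1
  refine Finset.card_bij (fun γ _ => γ.1) (fun γ hγ => ?_) (fun γ hγ δ hδ e => ?_) fun t ht => ?_
  · simp only [Finset.mem_filter, Finset.mem_univ, true_and, mem_kmStab, Prod.ext_iff] at hγ
    rw [← hγ.2.2, map_inv, mul_inv_eq_iff_eq_mul] at hγ
    simpa [Subgroup.mem_centralizer_singleton_iff] using hγ.1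
  · simp only [Finset.mem_filter, Prod.ext_iff] at hγ hδ
    exact Prod.ext e (by rw [← hγ.2.2, ← hδ.2.2, e])
  · refine ⟨(t, t⁻¹), ?_, rfl⟩
    simpa [Subgroup.mem_centralizer_singleton_iff, mem_kmStab, mul_inv_eq_iff_eq_mul] using ht

/-- The normalised term of a double coset. -/
noncomputable def kmF (c : G → ℂ) (g : G) : ℂ := kmN ι g * (kmT ι μ c g / Nat.card (kmStab ι g))

theorem kmF_smul (hc : IsClassFunction G c) (x y : A) (g : G) :
    kmF ι μ c (ι x * g * ι y) = kmF ι μ c g := by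
  rw [kmF, kmF, kmN_smul, kmT_smul ι μ hc, kmStab_smul]

theorem kmF_mem_of_self (hc : IsClassFunction G c) (hi : ∀ g, c g ∈ locRing hM)
    (h0 : ∀ g, c (g * g) = 0) {g : G} {x y : A} (h : ι x * g * ι y = g⁻¹) :
    kmF ι μ c g ∈ locIdeal hM := by
  have key : ∀ g : G, 2 ∣ Nat.card ((Subgroup.centralizer ({g} : Set G)).comap ι) →
      kmF ι μ c g ∈ locIdeal hM := fun g h2 => by
    refine mul_mem_locIdeal_right hM ((natCast_mem_locIdeal_iff hM _).2 ?_) (kmT_div_mem hM ι μ hi g)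
    rwa [← ZMod.natCast_eq_zero_iff, kmN_cast, ZMod.natCast_eq_zero_iff]
  have h1 : (g * ι y) * (g * ι y) = ι (x⁻¹ * y) := by
    rw [map_mul, map_inv, eq_inv_mul_iff_mul_eq, ← mul_assoc, ← mul_assoc, ← mul_assoc, h]
    group
  rw [← kmF_smul ι μ hc 1 y, map_one, one_mul]
  generalize g * ι y = g at h1
  generalize x⁻¹ * y = a at h1
  by_cases h2 : 2 ∣ Nat.card ((Subgroup.centralizer ({g} : Set G)).comap ι)
  · exact key g h2
  have ha : a ∈ (Subgroup.centralizer ({g} : Set G)).comap ι := by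
    rw [Subgroup.mem_comap, Subgroup.mem_centralizer_singleton_iff, ← h1, mul_assoc]
  obtain ⟨j, hj⟩ : Odd (Nat.card ((Subgroup.centralizer ({g} : Set G)).comap ι)) :=
    Nat.not_even_iff_odd.1 fun e => h2 e.two_dvd
  have h3 : a ^ (2 * j + 1) = 1 := by
    rw [← hj]; exact congrArg Subtype.val (pow_card_eq_one' (x := (⟨a, ha⟩ : _)))
  have h4 : (g * ι (a ^ j)) * (g * ι (a ^ j)) = 1 := by
    rw [← map_one ι, ← h3, map_pow, map_pow, ← h1, ← sq, ← sq]
    group
  rw [← kmF_smul ι μ hc 1 (a ^ j), map_one, one_mul]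
  generalize g * ι (a ^ j) = g at h4
  by_cases h5 : 2 ∣ Nat.card ((Subgroup.centralizer ({g} : Set G)).comap ι)
  · exact key g h5
  refine mul_mem_locIdeal_left hM (natCast_mem _ _) (mul_mem_locIdeal_right hM
    (kmT_mem_of_sq hM ι μ hc hi h0 h4) (inv_natCast_mem_locRing hM ?_))
  rwa [← ZMod.natCast_eq_zero_iff, kmStab_cast ι h4, ZMod.natCast_eq_zero_iff]

theorem km_core [Fintype G] (hc : IsClassFunction G c) (hi : ∀ g, c g ∈ locRing hM)
    (h0 : ∀ g, c (g * g) = 0) :
    ∑ g : G, kmN ι g * (kmT ι μ c g / Nat.card A ^ 2) ∈ locIdeal hM := by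
  classical
  let _ := kmAct ι
  have := Fintype.ofFinite (MulAction.orbitRel.Quotient (A × A) G)
  have hF : ∀ g, kmF ι μ c g ∈ locRing hM := fun g =>
    mul_mem (natCast_mem _ _) (kmT_div_mem hM ι μ hi g)
  have hrel : ∀ g g' : G, (Quotient.mk _ g : MulAction.orbitRel.Quotient (A × A) G) =
      Quotient.mk _ g' ↔ ∃ x y, ι x * g' * ι y = g := fun g g' =>
    Quotient.eq.trans ⟨fun ⟨γ, h⟩ => ⟨γ.1, γ.2, h⟩, fun ⟨x, y, h⟩ => ⟨(x, y), h⟩⟩
  have h1 : ∑ g : G, kmN ι g * (kmT ι μ c g / Nat.card A ^ 2) =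
      ∑ ω : MulAction.orbitRel.Quotient (A × A) G, kmF ι μ c ω.out := by
    rw [← Finset.sum_fiberwise Finset.univ
      (fun g => (Quotient.mk _ g : MulAction.orbitRel.Quotient (A × A) G))]
    refine Finset.sum_congr rfl fun ω _ => ?_
    have h2 := MulAction.card_orbit_mul_card_stabilizer_eq_card_group (A × A) ω.out
    rw [Finset.sum_congr rfl (g := fun _ => kmN ι ω.out * (kmT ι μ c ω.out / Nat.card A ^ 2))
      fun g hg => by
        obtain ⟨x, y, rfl⟩ := (hrel g ω.out).1 ((Finset.mem_filter.1 hg).2.trans ω.out_eq.symm)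
        rw [kmN_smul, kmT_smul ι μ hc], Finset.sum_const, nsmul_eq_mul, kmF]
    have h3 : (Finset.univ.filter fun g : G =>
        (Quotient.mk _ g : MulAction.orbitRel.Quotient (A × A) G) = ω).card *
        Nat.card (kmStab ι ω.out) = Nat.card A ^ 2 := by
      rw [sq, ← Nat.card_prod, Nat.card_eq_fintype_card (α := A × A), ← h2,
        ← Nat.card_eq_fintype_card, ← Nat.card_eq_fintype_card, ← Fintype.card_subtype,
        ← Nat.card_eq_fintype_card]
      congr 1
      exact Nat.card_congr (Equiv.subtypeEquivRight fun g =>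
        ⟨fun h => Quotient.eq.1 (h.trans ω.out_eq.symm), fun h => (Quotient.eq.2 h).trans ω.out_eq⟩)
    have h4 : (Nat.card (kmStab ι ω.out) : ℂ) ≠ 0 := card_cast_ne_zero
    have h5 : (Nat.card A : ℂ) ≠ 0 := card_cast_ne_zero
    have h6 := congrArg (Nat.cast : ℕ → ℂ) h3
    push_cast at h6
    field_simp
    rw [← h6]
    ring
  rw [h1, ← red_eq_zero_iff hM (sum_mem fun ω _ => hF _), red_sum hM _ _ fun ω _ => hF _]
  refine Finset.sum_involution (fun ω _ => Quotient.mk _ ω.out⁻¹) (fun ω _ => ?_)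
    (fun ω _ h h1 => h ?_) (fun _ _ => Finset.mem_univ _) (fun ω _ => ?_)
  · obtain ⟨x, y, h⟩ := (hrel _ ω.out⁻¹).1 (Quotient.out_eq _)
    rw [← h, kmF_smul ι μ hc, kmF, kmF, kmN_inv, kmT_inv ι μ hc, card_kmStab_inv]
    exact CharTwo.add_self_eq_zero _
  · obtain ⟨x, y, h⟩ := (hrel ω.out⁻¹ ω.out).1 (h1.trans ω.out_eq.symm)
    exact (red_eq_zero_iff hM (hF _)).2 (kmF_mem_of_self hM ι μ hc hi h0 h)
  · obtain ⟨x, y, h⟩ := (hrel _ ω.out⁻¹).1 (Quotient.out_eq _)
    refine ((hrel _ ω.out).2 ⟨y⁻¹, x⁻¹, ?_⟩).trans ω.out_eq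
    rw [← h, map_inv, map_inv]
    group

end Core

section Char

variable {A : Type*} [CommGroup A] [Fintype A] {G : Type*} [Group G] [Fintype G] (ι : A →* G)
  (μ : A →* ℂˣ)

/-- The multiplicity of `χ` in the induced character. -/
noncomputable def kmM (χ : IrrCharacter G) : ℕ := mult (linChar μ).1 fun a => χ.1 (ι a)

theorem kmM_cast (χ : IrrCharacter G) :
    (kmM ι μ χ : ℂ) = (Nat.card A : ℂ)⁻¹ * ∑ a : A, (μ a : ℂ) * conj (χ.1 (ι a)) := by
  rw [kmM, ← (irr_isCharacter _).ip_eq_mult ((irr_isCharacter χ).comp ι), ip_def]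
  rfl

theorem km_sum_coeff {z : ℂ[G]} (hz : IsCentral z) (h k : G) :
    ∑ g : G, z.coeff (g⁻¹ * h * g * k) =
      ∑ χ : IrrCharacter G, omega χ.1 z * (conj (χ.1 h) * conj (χ.1 k)) := by
  simp only [hz.coeff_eq_sum_omega]
  rw [← Finset.mul_sum, Finset.sum_comm, Finset.mul_sum]
  refine Finset.sum_congr rfl fun χ _ => ?_
  have h1 := congrArg conj (ev_sum_irr_conj_mul χ h k)
  rw [map_mul, map_mul, map_mul, map_sum, map_natCast, irr_apply_one, map_natCast,
    ← irr_apply_one] at h1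
  rw [← Finset.mul_sum, ← Finset.mul_sum, h1]
  have hG : (Nat.card G : ℂ) ≠ 0 := card_cast_ne_zero
  field_simp

theorem km_sum_kmT {z : ℂ[G]} (hz : IsCentral z) :
    ∑ g : G, kmT ι μ (fun g => z.coeff g) g / Nat.card A ^ 2 =
      ∑ χ : IrrCharacter G, omega χ.1 z * kmM ι μ χ ^ 2 := by
  rw [← Finset.sum_div]
  simp only [kmT]
  rw [Finset.sum_comm]
  simp only [← Finset.mul_sum, km_sum_coeff hz]
  simp only [Finset.mul_sum]
  rw [Finset.sum_comm, Finset.sum_div]
  refine Finset.sum_congr rfl fun χ _ => ?_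
  rw [kmM_cast, mul_pow, sq (∑ a : A, _), Finset.sum_mul_sum, ← Fintype.sum_prod_type',
    Finset.mul_sum, Finset.mul_sum, Finset.sum_div]
  exact Finset.sum_congr rfl fun γ _ => by ring

theorem km_sum_deg {z : ℂ[G]} (hz : IsCentral z) :
    ∑ χ : IrrCharacter G, omega χ.1 z * (kmM ι μ χ * charDegree χ.1) =
      Nat.card G * ((Nat.card A : ℂ)⁻¹ * ∑ a : A, (μ a : ℂ) * z.coeff (ι a)) := by
  have hG : (Nat.card G : ℂ) ≠ 0 := card_cast_ne_zero
  simp only [hz.coeff_eq_sum_omega, kmM_cast, Finset.mul_sum, Finset.sum_mul]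
  rw [Finset.sum_comm]
  refine Finset.sum_congr rfl fun a _ => Finset.sum_congr rfl fun χ _ => ?_
  rw [irr_apply_one]
  field_simp

open Classical in
/-- The sum of the elements whose `2`-part has the property `σ`. -/
noncomputable def kmZ (σ : G → Prop) : ℂ[G] := ofFun fun g => if σ (pPart 2 g) then 1 else 0

open Classical in
theorem coeff_kmZ (σ : G → Prop) (g : G) :
    (kmZ σ).coeff g = if σ (pPart 2 g) then 1 else 0 := rfl

variable {σ : G → Prop} (hσ : ∀ g h, σ (h * g * h⁻¹) ↔ σ g)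

theorem isInt_kmZ : IsInt hM (kmZ σ) := fun g => by
  rw [coeff_kmZ]
  split_ifs
  exacts [one_mem _, zero_mem _]

include hσ

theorem isCentral_kmZ : IsCentral (kmZ σ) := fun h g => by
  rw [coeff_kmZ, coeff_kmZ, pPart_conj, propext (hσ _ _)]

include hM in
theorem omega_kmZ_of_not_mem {χ : IrrCharacter G} (hχ : χ ∉ principalBlock M G) :
    omega χ.1 (kmZ σ) = 0 := by
  classical
  obtain ⟨X, -, -, hX⟩ := exists_pElt_reps 2 G
  have h1 : ip (fun g => (kmZ σ).coeff g) χ.1 = 0 := by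
    rw [← sum_sectionPart hX fun g => (kmZ σ).coeff g, ip_sum_left]
    refine Finset.sum_eq_zero fun x _ => ?_
    have h2 : sectionPart 2 x (fun g => (kmZ σ).coeff g) =
        (if σ x then (1 : ℂ) else 0) • sectionPart 2 x (irrOne G).1 := by
      funext g
      rw [Pi.smul_apply, sectionPart_apply, sectionPart_apply, coeff_kmZ]
      by_cases h : IsConj x (pPart 2 g)
      · obtain ⟨y, hy⟩ := isConj_iff.1 h
        simp [← hy, hσ]
      · rw [if_neg h, if_neg h, smul_zero]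
    rw [h2, ip_smul_left, ip_sectionPart_eq_zero hM isPBlock_principalBlock x
      (irrOne_mem_principalBlock hM) hχ, mul_zero]
  have h3 : zOf (fun g => (kmZ σ).coeff g) = kmZ σ := ga_ext fun g => by
    rw [coeff_zOf, coeff_kmZ]; split_ifs <;> simp
  rw [← h3, omega_zOf, ← conj_ip, h1]
  simp

theorem red_omega_kmZ {χ : IrrCharacter G} (hχ : χ ∈ principalBlock M G) :
    red hM (omega χ.1 (kmZ σ)) = ∑ g : G, red hM ((kmZ σ).coeff g) := by
  rw [← lam_redA hM χ (isCentral_kmZ hσ) (isInt_kmZ hM), lam_eq_of_mem hM isPBlock_principalBlock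
    hχ (irrOne_mem_principalBlock hM), lam_irrOne hM (isCentral_redA hM (isCentral_kmZ hσ)),
    aug_eq_sum]
  rfl

end Char

section Main

variable {G : Type*} [Group G] [Finite G]

variable (G) in
/-- The `2`-subgroups are abelian. -/
def KmAb : Prop := ∀ Q : Subgroup G, IsPGroup 2 Q → ∀ a ∈ Q, ∀ b ∈ Q, a * b = b * a

omit [Finite G] in
theorem KmAb.subgroup (h : KmAb G) (C : Subgroup G) : KmAb C := fun _ hQ a ha b hb =>
  Subtype.ext (h _ (hQ.map C.subtype) a ⟨a, ha, rfl⟩ b ⟨b, hb, rfl⟩)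

omit [Finite G] in
theorem KmAb.of_surjective (h : KmAb G) {H : Type*} [Group H] {f : G →* H}
    (hf : Function.Surjective f) (hk : IsPGroup 2 f.ker) : KmAb H := fun Q hQ a ha b hb => by
  obtain ⟨a, rfl⟩ := hf a
  obtain ⟨b, rfl⟩ := hf b
  rw [← map_mul, ← map_mul, h _ (hQ.comap_of_ker_isPGroup f hk) a ha b hb]

theorem KmAb.of_sylow (P : Sylow 2 G) (hP : ∀ a ∈ P, ∀ b ∈ P, a * b = b * a) : KmAb G := by
  intro Q hQ a ha b hb
  obtain ⟨S, hS⟩ := hQ.exists_le_sylow
  obtain ⟨g, rfl⟩ := MulAction.exists_smul_eq G P S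
  obtain ⟨a, ha', rfl⟩ := hS ha
  obtain ⟨b, hb', rfl⟩ := hS hb
  exact (Commute.map (hP a ha' b hb') (MulAut.conj g).toMonoidHom).eq

theorem KmAb.odd_index (h : KmAb G) {u : G} (hu : IsPElt 2 u) :
    ¬ 2 ∣ (Subgroup.centralizer ({u} : Set G)).index := by
  obtain ⟨P, hP⟩ := hu.exists_mem_sylow
  exact fun h2 => P.not_dvd_index (h2.trans (Subgroup.index_dvd_of_le fun x hx =>
    Subgroup.mem_centralizer_singleton_iff.2 (h _ P.isPGroup' x hx u hP)))

theorem KmAb.comm_of_elementary (h : KmAb G) (hE : IsElementary 2 G) (a b : G) :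
    a * b = b * a := by
  have := hE.isNilpotent Nat.prime_two
  obtain ⟨x, hx, -, k, hk⟩ := hE
  have hz : Subgroup.zpowers x ≤ Subgroup.center G := (Subgroup.zpowers_le).2 hx
  have : (Subgroup.zpowers x).Normal := ⟨fun n hn g => by
    rwa [Subgroup.mem_center_iff.1 (hz hn) g, mul_inv_cancel_right]⟩
  have h1 : ∀ g y : G, Commute (pRegPart 2 g) y := fun g y => (Subgroup.mem_center_iff.1
    (hz ((isPRegular_pRegPart 2 g).mem_of_index_eq_pow _ hk)) y).symm
  obtain ⟨P⟩ : Nonempty (Sylow 2 G) := inferInstance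
  have hN : (P : Subgroup G).Normal := inferInstance
  have h2 : ∀ g : G, pPart 2 g ∈ (P : Subgroup G) := fun g => by
    obtain ⟨y, hy⟩ := (isPElt_pPart 2 g).exists_conj_mem_sylow P
    simpa [mul_assoc] using hN.conj_mem _ hy y⁻¹
  refine (commute_iff_pPart_pRegPart 2).2 ⟨((commute_iff_pPart_pRegPart 2).2
    ⟨h _ P.isPGroup' _ (h2 b) _ (h2 a), h1 _ _⟩).symm, h1 _ _⟩

theorem KmAb.exists_lin (h : KmAb G) {t : G} (h1 : t ≠ 1) (h2 : t * t = 1)
    (ht : t ∈ Subgroup.center G) :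
    ∃ l : G →* ℂˣ, (l t : ℂ) = -1 ∧ ∀ g, ¬ 2 ∣ orderOf g → l g = 1 := by
  obtain ⟨P, hP⟩ := (isPElt_of_pow_eq_one (p := 2) (k := 1) (by simpa [sq] using h2) :
    IsPElt 2 t).exists_mem_sylow
  have : IsMulCommutative (P : Subgroup G) :=
    ⟨⟨fun a b => Subtype.ext (h _ P.isPGroup' a a.2 b b.2)⟩⟩
  obtain ⟨μ, hμ⟩ := exists_units_hom_ne_one_of_comm (g := (⟨t, hP⟩ : (P : Subgroup G)))
    fun e => h1 (congrArg Subtype.val e)
  have h3 : (μ ⟨t, hP⟩ : ℂ) = -1 := by
    refine (mul_self_eq_one_iff.1 ?_).resolve_left fun e => hμ (Units.ext e)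
    rw [← Units.val_mul, ← map_mul, show (⟨t, hP⟩ * ⟨t, hP⟩ : (P : Subgroup G)) = 1 from
      Subtype.ext h2, map_one, Units.val_one]
  have h4 : Odd (P : Subgroup G).index := Nat.not_even_iff_odd.1 fun e => P.not_dvd_index e.two_dvd
  refine ⟨MonoidHom.transfer μ ^ (P : Subgroup G).index, ?_, fun g hg => ?_⟩
  · rw [MonoidHom.pow_apply, MonoidHom.transfer_eq_pow μ t fun k g _ => by
      rw [mul_assoc, ← Subgroup.mem_center_iff.1 (pow_mem ht k) g, inv_mul_cancel_left]]
    change ((μ (⟨t, hP⟩ ^ (P : Subgroup G).index) ^ _ : ℂˣ) : ℂ) = _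
    rw [map_pow, Units.val_pow_eq_pow_val, Units.val_pow_eq_pow_val, h3, h4.neg_one_pow,
      h4.neg_one_pow]
  · obtain ⟨n, hn⟩ := P.isPGroup'.exists_card_eq
    have h5 : orderOf g ∣ (P : Subgroup G).index := by
      refine Nat.Coprime.dvd_of_dvd_mul_right (Nat.Coprime.pow_right n
        ((Nat.Prime.coprime_iff_not_dvd Nat.prime_two).2 hg).symm) ?_
      rw [← hn, Subgroup.index_mul_card]
      exact orderOf_dvd_natCard g
    rw [MonoidHom.pow_apply, ← map_pow, orderOf_dvd_iff_pow_eq_one.1 h5, map_one]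

theorem km_exists_not_sq (h : 2 ∣ Nat.card G) :
    ∃ u : G, IsPElt 2 u ∧ ∀ x, IsPElt 2 x → ¬ IsConj u (x * x) := by
  classical
  have := Fintype.ofFinite G
  obtain ⟨u, hu, hm⟩ := Finset.exists_max_image (Finset.univ.filter fun g : G => IsPElt 2 g)
    orderOf ⟨1, by simp [isPElt_one]⟩
  obtain ⟨t, ht⟩ := exists_prime_orderOf_dvd_card' 2 h
  have h1 := hm t (by simpa using ⟨1, by simpa using ht⟩)
  refine ⟨u, by simpa using hu, fun x hx hc => ?_⟩
  have h2 := hm x (by simpa using hx)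
  rw [orderOf_eq_of_isConj hc, ← sq] at h1 h2
  by_cases h3 : x = 1
  · simp [h3, ht] at h1
  · rw [orderOf_pow' _ two_ne_zero, Nat.gcd_eq_right (hx.dvd_orderOf h3)] at h2
    have := orderOf_pos x
    omega

theorem km_sum_section [Fintype G] (h : KmAb G) {u : G} (hu : IsPElt 2 u) :
    ∑ g : G, red hM ((kmZ (IsConj u)).coeff g) ≠ 0 := by
  classical
  have h1 : ∑ g : G, (red hM ((kmZ (IsConj u)).coeff g) - if IsConj u g then 1 else 0) = 0 := by
    have h2 : ∀ g : G, pPart 2 (pPart 2 g * (pRegPart 2 g)⁻¹) = pPart 2 g ∧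
        pRegPart 2 (pPart 2 g * (pRegPart 2 g)⁻¹) = (pRegPart 2 g)⁻¹ := fun g =>
      pPart_eq_and_pRegPart_eq rfl (commute_pPart_pRegPart 2 g).inv_right (isPElt_pPart 2 g)
        (isPRegular_pRegPart 2 g).inv
    have h3 : ∀ g : G, IsPElt 2 g →
        (red hM ((kmZ (IsConj u)).coeff g) - if IsConj u g then 1 else 0) = 0 := fun g hg => by
      rw [coeff_kmZ, hg.pPart_eq]
      split_ifs <;> simp
    refine Finset.sum_involution (fun g _ => pPart 2 g * (pRegPart 2 g)⁻¹) (fun g _ => ?_)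
      (fun g _ hg e => hg (h3 g ?_)) (fun _ _ => Finset.mem_univ _) fun g _ => ?_
    · by_cases hg : IsPElt 2 g
      · rw [hg.pPart_eq, hg.pRegPart_eq, inv_one, mul_one, h3 g hg, add_zero]
      · rw [if_neg fun e => hg (hu.of_isConj e), if_neg fun e => hg ?_, coeff_kmZ, coeff_kmZ,
          (h2 g).1]
        · exact CharTwo.add_self_eq_zero _
        · rw [← pRegPart_eq_one_iff, ← inv_eq_one, ← (h2 g).2, pRegPart_eq_one_iff]
          exact hu.of_isConj e
    · have h4 := (h2 g).2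
      rw [e, eq_inv_iff_mul_eq_one] at h4
      rw [← pRegPart_eq_one_iff]
      exact IsPElt.eq_one_of_isPRegular (isPElt_of_pow_eq_one (k := 1) (by simpa [sq] using h4))
        (isPRegular_pRegPart 2 g)
    · rw [(h2 g).1, (h2 g).2, inv_inv, pPart_mul_pRegPart]
  intro e
  have h2 := (sub_eq_zero.1 ((Finset.sum_sub_distrib _ _).symm.trans h1)).symm.trans e
  have h3 := (Finset.sum_boole _ _).symm.trans h2
  rw [← Fintype.card_subtype, ← Nat.card_eq_fintype_card, card_conj_eq_index,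
    CharP.cast_eq_zero_iff _ 2] at h3
  exact h.odd_index hu h3

theorem km_step (h : KmAb G) (h2 : 2 ∣ Nat.card G) {A : Type*} [CommGroup A] [Fintype A]
    {ι : A →* G} (hι : Function.Injective ι) (μ : A →* ℂˣ)
    (ih : ∀ t : A, t * t = 1 → t ≠ 1 →
      ∀ ψ ∈ principalBlock M (Subgroup.centralizer ({ι t} : Set G)), ¬ 2 ∣ charDegree ψ.1) :
    letI := Fintype.ofFinite G
    ∑ χ ∈ bset (principalBlock M G), (kmM ι μ χ : ℂ) * (1 - charDegree χ.1) ∈ locIdeal hM := by
  classical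
  let _ := Fintype.ofFinite G
  obtain ⟨u, hu, hsq⟩ := km_exists_not_sq h2
  have hσ : ∀ g x : G, IsConj u (x * g * x⁻¹) ↔ IsConj u g := fun g x =>
    ⟨fun e => e.trans (isConj_iff.2 ⟨x, rfl⟩).symm, fun e => e.trans (isConj_iff.2 ⟨x, rfl⟩)⟩
  have hz := isCentral_kmZ hσ
  have h1 := km_core hM ι μ hz.isClassFunction_coeff (isInt_kmZ hM) fun g => by
    rw [coeff_kmZ, pPart_mul (Commute.refl g), if_neg (hsq _ (isPElt_pPart 2 g))]
  set T : G → ℂ := fun g => kmT ι μ (fun g => (kmZ (IsConj u)).coeff g) g / Nat.card A ^ 2 with hT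
  set S : ℂ := ∑ a : A, (μ a : ℂ) * (kmZ (IsConj u)).coeff (ι a) with hS
  have hS' : S ∈ locRing hM := sum_mem fun a _ => mul_mem (km_units_mem hM μ a) (isInt_kmZ hM _)
  let C : A → Subgroup G := fun t => Subgroup.centralizer ({ι t} : Set G)
  have hC : ∀ t a, ι a ∈ C t := fun t a =>
    Subgroup.mem_centralizer_singleton_iff.2 (km_comm ι a t)
  set I : Finset A := Finset.univ.filter fun t => t * t = 1 with hI
  have h3 : ∑ g : G, kmN ι g * T g = ∑ t ∈ I, ∑ g : C t, T g := by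
    have : ∀ t, ∑ g : C t, T g = ∑ g : G, if Commute (ι t) g then T g else 0 := fun t => by
      rw [← Finset.sum_filter]
      exact (Finset.sum_subtype _ (fun g => by
        simp [C, Subgroup.mem_centralizer_singleton_iff, commute_iff_eq, eq_comm]) T).symm
    simp only [this]
    rw [Finset.sum_comm]
    refine Finset.sum_congr rfl fun g _ => ?_
    rw [← Finset.sum_filter, Finset.sum_const, nsmul_eq_mul, hI, Finset.filter_filter, kmN,
      Nat.card_eq_fintype_card, Fintype.card_subtype]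
  have hA : (Nat.card A : ℂ) ≠ 0 := card_cast_ne_zero
  have h4 : ∑ t ∈ I, (Nat.card (C t) : ℂ) * ((Nat.card A : ℂ)⁻¹ * S) ∈ locIdeal hM := by
    have h5 : ∀ t, ι.range.relIndex (C t) * Nat.card A = Nat.card (C t) := fun t => by
      have h6 : ι.range ≤ C t := by rintro _ ⟨a, rfl⟩; exact hC t a
      rw [Subgroup.relIndex, ← (ι.range.subgroupOf (C t)).index_mul_card,
        Nat.card_congr (Subgroup.subgroupOfEquivOfLe h6).toEquiv,
        Nat.card_congr (MonoidHom.ofInjective hι).toEquiv]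
    have h7 : ∑ t ∈ I, (Nat.card (C t) : ℂ) * ((Nat.card A : ℂ)⁻¹ * S) =
        ((∑ t ∈ I, ι.range.relIndex (C t) : ℕ) : ℂ) * S := by
      rw [Nat.cast_sum, Finset.sum_mul]
      refine Finset.sum_congr rfl fun t _ => ?_
      rw [← h5 t]
      push_cast
      field_simp
    rw [h7]
    refine mul_mem_locIdeal_right hM ((natCast_mem_locIdeal_iff hM _).2 ?_) hS'
    have h8 : ∀ t ∈ I, (ι.range.relIndex (C t) : ZMod 2) = ι.range.index := fun t ht => by
      have h6 : ι.range ≤ C t := by rintro _ ⟨a, rfl⟩; exact hC t a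
      rw [← Subgroup.relIndex_mul_index h6, Nat.cast_mul,
        (ZMod.natCast_eq_one_iff_odd (n := (C t).index)).2, mul_one]
      refine Nat.not_even_iff_odd.1 fun e => h.odd_index ?_ e.two_dvd
      exact isPElt_of_pow_eq_one (k := 1) (by
        rw [pow_one, sq, ← map_mul, (Finset.mem_filter.1 ht).2, map_one])
    have h9 := km_card_modEq (Finset.univ : Finset A) (fun t => t⁻¹)
      (fun _ _ => Finset.mem_univ _) inv_inv
    simp only [inv_eq_iff_mul_eq_one] at h9
    rw [← ZMod.natCast_eq_zero_iff, Nat.cast_sum, Finset.sum_congr rfl h8, Finset.sum_const,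
      nsmul_eq_mul, hI, ← h9, ← Nat.cast_mul, ZMod.natCast_eq_zero_iff, Finset.card_univ,
      ← Nat.card_eq_fintype_card, Nat.card_congr (MonoidHom.ofInjective hι).toEquiv,
      Subgroup.card_mul_index]
    exact h2
  have h5 : ∀ t ∈ I.erase 1,
      ∑ g : C t, T g - (Nat.card (C t) : ℂ) * ((Nat.card A : ℂ)⁻¹ * S) ∈ locIdeal hM := by
    intro t ht
    have hσ' : ∀ g x : C t, IsConj u ((x * g * x⁻¹ : C t) : G) ↔ IsConj u (g : G) :=
      fun g x => hσ g x
    have hz' := isCentral_kmZ (σ := fun g : C t => IsConj u (g : G)) hσ'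
    have hc : ∀ g : C t, (kmZ fun g : C t => IsConj u (g : G)).coeff g =
        (kmZ (IsConj u)).coeff (g : G) := fun g => by rw [coeff_kmZ, coeff_kmZ, coe_pPart]
    have h6 := km_sum_kmT (ι.codRestrict (C t) (hC t)) μ hz'
    have h7 := km_sum_deg (ι.codRestrict (C t) (hC t)) μ hz'
    simp only [kmT, hc] at h6 h7
    change ∑ g : C t, T g = _ at h6
    change _ = _ * (_ * S) at h7
    rw [h6, ← h7, ← Finset.sum_sub_distrib]
    refine sum_mem fun ψ _ => ?_
    by_cases hψ : ψ ∈ principalBlock M (C t)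
    · rw [← mul_sub]
      refine mul_mem_locIdeal_left hM (omega_mem_locRing hM ψ hz' (isInt_kmZ hM)) ?_
      obtain ⟨j, hj⟩ := Nat.not_even_iff_odd.1 fun e => ih t (Finset.mem_filter.1
        (Finset.mem_of_mem_erase ht)).2 (Finset.ne_of_mem_erase ht) ψ hψ e.two_dvd
      generalize kmM (ι.codRestrict (C t) (hC t)) μ ψ = m
      have h8 := (intCast_mem_locIdeal_iff hM ((m : ℤ) * (m - 1) - 2 * (m * j))).2
        (dvd_sub (Int.even_mul_pred_self m).two_dvd (dvd_mul_right _ _))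
      convert h8 using 1
      rw [hj]
      push_cast
      ring
    · rw [omega_kmZ_of_not_mem hM hσ' hψ]
      simp
  have h6 : (1 : A) ∈ I := by simp [hI]
  have hC1 : C 1 = ⊤ := by
    rw [eq_top_iff]; intro g _; simp [C, Subgroup.mem_centralizer_singleton_iff]
  have h7 := sub_mem (h3 ▸ h1) h4
  rw [← Finset.sum_sub_distrib, ← Finset.add_sum_erase _ _ h6] at h7
  have h8 := sub_mem h7 (sum_mem h5)
  rw [add_sub_cancel_right, ← Finset.sum_subtype Finset.univ (by simp [hC1]) T, hC1,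
    Subgroup.card_top, hT, km_sum_kmT ι μ hz, hS, ← km_sum_deg ι μ hz, ← Finset.sum_sub_distrib,
    ← Finset.sum_subset (Finset.subset_univ (bset (principalBlock M G))) fun χ _ hχ => by
      rw [omega_kmZ_of_not_mem hM hσ (by simpa using hχ)]; simp] at h8
  have h9 : ∀ χ : IrrCharacter G, (kmM ι μ χ : ℂ) * (1 - charDegree χ.1) ∈ locRing hM :=
    fun χ => mul_mem (natCast_mem _ _) (sub_mem (one_mem _) (natCast_mem _ _))
  have h10 : ∀ χ : IrrCharacter G, (kmM ι μ χ : ℂ) ^ 2 - kmM ι μ χ * charDegree χ.1 ∈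
      locRing hM := fun χ => sub_mem (pow_mem (natCast_mem _ _) _)
        (mul_mem (natCast_mem _ _) (natCast_mem _ _))
  simp only [← mul_sub] at h8
  rw [← red_eq_zero_iff hM (mem_locRing_of_mem_locIdeal hM h8), red_sum hM _ _ fun χ _ =>
    mul_mem (omega_mem_locRing hM χ hz (isInt_kmZ hM)) (h10 χ), Finset.sum_congr rfl
    (g := fun χ => (∑ g : G, red hM ((kmZ (IsConj u)).coeff g)) *
      red hM ((kmM ι μ χ : ℂ) * (1 - charDegree χ.1))) fun χ hχ => ?_] at h8
  · rw [← red_eq_zero_iff hM (sum_mem fun χ _ => h9 χ), red_sum hM _ _ fun χ _ => h9 χ]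
    exact (mul_eq_zero.1 ((Finset.mul_sum _ _ _).trans h8)).resolve_left (km_sum_section hM h hu)
  · rw [red_mul hM (omega_mem_locRing hM χ hz (isInt_kmZ hM)) (h10 χ),
      red_omega_kmZ hM hσ (mem_bset.1 hχ), (red_eq_iff hM (h10 χ) (h9 χ)).2]
    generalize kmM ι μ χ = m
    have h11 := (intCast_mem_locIdeal_iff hM ((m : ℤ) * (m - 1))).2
      (Int.even_mul_pred_self m).two_dvd
    convert h11 using 1
    push_cast
    ring

include hM in
theorem KmAb.not_two_dvd_degree (h : KmAb G) {χ : IrrCharacter G}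
    (hχ : χ ∈ principalBlock M G) : ¬ 2 ∣ charDegree χ.1 := by
  induction hn : Nat.card G using Nat.strong_induction_on generalizing G with
  | _ n ih =>
  classical
  by_cases h2 : 2 ∣ Nat.card G
  swap
  · exact fun e => h2 (e.trans (irr_degree_dvd_card χ))
  by_cases hc : ∃ t : G, t ≠ 1 ∧ t * t = 1 ∧ t ∈ Subgroup.center G
  · obtain ⟨t, h1, ht, hz⟩ := hc
    have hZ : Subgroup.zpowers t ≤ Subgroup.center G := Subgroup.zpowers_le.2 hz
    have : (Subgroup.zpowers t).Normal := ⟨fun n hn g => by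
      rwa [Subgroup.mem_center_iff.1 (hZ hn) g, mul_inv_cancel_right]⟩
    have hp : IsPGroup 2 (QuotientGroup.mk' (Subgroup.zpowers t)).ker := by
      rw [QuotientGroup.ker_mk']
      exact (isPElt_of_pow_eq_one (k := 1) (by simpa [sq] using ht)).isPGroup_zpowers
    have hf := QuotientGroup.mk'_surjective (Subgroup.zpowers t)
    have key : ∀ ψ ∈ principalBlock M G, ψ.1 t / ψ.1 1 = 1 → ¬ 2 ∣ charDegree ψ.1 := by
      intro ψ hψ e
      obtain ⟨ξ, rfl⟩ := (exists_irrComp_eq_iff _ hf ψ).2 (by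
        rw [QuotientGroup.ker_mk', Subgroup.zpowers_le]
        intro x
        rw [irr_apply_central_mul ψ hz, e, one_mul])
      rw [charDegree_irrComp]
      refine ih _ ?_ (h.of_surjective hf hp) ?_ rfl
      · rw [← hn, Subgroup.card_eq_card_quotient_mul_card_subgroup (Subgroup.zpowers t)]
        exact lt_mul_of_one_lt_right Nat.card_pos ((Subgroup.one_lt_card_iff_ne_bot _).2
          (by simpa using h1))
      · rw [← quotSet_principal hM _ hf (by rwa [QuotientGroup.ker_mk']) hp]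
        exact hψ
    rcases mul_self_eq_one_iff.1 ((sq _).symm.trans
      (irr_central_pow_eq_one χ hz (n := 2) ((sq t).trans ht))) with e | e
    · exact key χ hχ e
    · obtain ⟨l, hl, hl'⟩ := h.exists_lin h1 ht hz
      rw [← charDegree_lin_smul l]
      refine key _ (mem_block_of_forall_regular hM isPBlock_principalBlock hχ fun g hg => ?_) ?_
      · simp [centralChar, hl' g hg]
      · rw [lin_smul_apply, lin_smul_apply, map_one, Units.val_one, one_mul, mul_div_assoc, e, hl]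
        ring
  push Not at hc
  let _ := Fintype.ofFinite G
  obtain ⟨m, hm, h3⟩ := exists_mul_ip_mem_of_forall_pElementary (G := G) Nat.prime_two
  set η : G → ℂ := ∑ ψ ∈ bset (principalBlock M G), (1 - charDegree ψ.1 : ℂ) • ψ.1 with hη
  have h4 := h3 (locIdeal hM) η (isClassFunction_sum _ _ fun ψ _ =>
    (irr_isClassFunction ψ).smul _) (fun E hE ψ => ?_) χ.1 (irr_isCharacter χ).isGen
  · rw [hη, ip_sum_left, Finset.sum_eq_single χ (fun ψ _ e => by
      rw [ip_smul_left, ip_irr_ne e, mul_zero]) (fun e => absurd (mem_bset.2 hχ) e),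
      ip_smul_left, ip_irr_self, mul_one] at h4
    have h5 := (intCast_mem_locIdeal_iff hM ((m : ℤ) * (1 - charDegree χ.1))).1
      (by exact_mod_cast h4)
    rintro ⟨j, hj⟩
    rcases Int.prime_two.dvd_or_dvd h5 with h6 | h6
    · exact hm (by exact_mod_cast h6)
    · rw [hj] at h6
      omega
  · have hE' := (h.subgroup E).comm_of_elementary hE
    let _ : CommGroup E := { (inferInstance : Group E) with mul_comm := hE' }
    have := Fintype.ofFinite E
    obtain ⟨μ, rfl⟩ := (exists_linChar_eq_iff ψ).2 (irr_degree_eq_one_of_comm hE' ψ)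
    have h5 := km_step hM h h2 E.subtype_injective μ fun t ht h1 ξ hξ =>
      ih _ (hn ▸ card_lt_of_ne_top fun e => hc t (fun e => h1 (Subtype.ext e))
        (congrArg Subtype.val ht) (Subgroup.mem_center_iff.2 fun g =>
          Subgroup.mem_centralizer_singleton_iff.1 (e.symm.le (Subgroup.mem_top g))))
        (h.subgroup _) hξ rfl
    rw [hη, res_sum, ip_sum_left]
    convert h5 using 2 with ξ
    rw [res_smul, ip_smul_left, mul_comm, kmM, ← (irr_isCharacter _).ip_eq_mult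
      ((irr_isCharacter ξ).comp _), (irr_isCharacter _).ip_comm ((irr_isCharacter ξ).comp _)]
    rfl

include hM in
/-- **All characters of the principal `2`-block have height zero if the Sylow `2`-subgroups are
abelian.** -/
theorem odd_degree_of_abelian_sylow (P : Sylow 2 G) (hP : ∀ a ∈ P, ∀ b ∈ P, a * b = b * a)
    {χ : IrrCharacter G} (hχ : χ ∈ principalBlock M G) : ¬ 2 ∣ charDegree χ.1 :=
  (KmAb.of_sylow P hP).not_two_dvd_degree hM hχ

include hM in
theorem height_zero_of_abelian_sylow (P : Sylow 2 G) (hP : ∀ a ∈ P, ∀ b ∈ P, a * b = b * a)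
    {χ : IrrCharacter G} (hχ : χ ∈ principalBlock M G) :
    blockHeight 2 (principalBlock M G) χ.1 = 0 := by
  rw [blockHeight, Nat.factorization_eq_zero_of_not_dvd (odd_degree_of_abelian_sylow hM P hP hχ),
    Nat.zero_sub]

include hM in
theorem eight_dvd_card_principal_of_abelian (P : Sylow 2 G)
    (hP : ∀ a ∈ P, ∀ b ∈ P, a * b = b * a) (h8 : 3 ≤ (Nat.card G).factorization 2) :
    8 ∣ Nat.card (principalBlock M G) := by
  classical
  have h1 := blockCoeff_mem_locRing hM (isPBlock_principalBlock (M := M) (G := G)) 1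
  have h2 : blockCoeff (principalBlock M G) 1 =
      ((∑ χ ∈ bset (principalBlock M G), charDegree χ.1 ^ 2 : ℕ) : ℂ) / (Nat.card G : ℕ) := by
    rw [blockCoeff_eq_sum, ← bker_one_one, bker_def, bset_eq, div_eq_inv_mul]
  have h3 : ∑ χ ∈ bset (principalBlock M G), charDegree χ.1 ^ 2 ≠ 0 := fun e => by
    simpa [charDegree_irrOne] using Finset.sum_eq_zero_iff.1 e _
      (mem_bset.2 (irrOne_mem_principalBlock hM))
  rw [h2, natCast_div_mem_locRing_iff hM h3 Nat.card_pos.ne'] at h1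
  have h4 := (Nat.prime_two.pow_dvd_iff_le_factorization h3).2 (h8.trans h1)
  have h5 : ∑ χ ∈ bset (principalBlock M G), charDegree χ.1 ^ 2 ≡
      ∑ χ ∈ bset (principalBlock M G), 1 [MOD 8] := Nat.ModEq.sum fun χ hχ => by
    have := odd_degree_of_abelian_sylow hM P hP (mem_bset.1 hχ)
    have h6 : charDegree χ.1 % 8 = 1 ∨ charDegree χ.1 % 8 = 3 ∨ charDegree χ.1 % 8 = 5 ∨
      charDegree χ.1 % 8 = 7 := by omega
    rcases h6 with e | e | e | e <;> simp [Nat.ModEq, Nat.pow_mod, e]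
  rw [← Finset.card_eq_sum_ones, card_bset] at h5
  exact (h5.dvd_iff dvd_rfl).1 h4

include hM in
theorem card_principal_ne_six_of_abelian (P : Sylow 2 G)
    (hP : ∀ a ∈ P, ∀ b ∈ P, a * b = b * a) : Nat.card (principalBlock M G) ≠ 6 := fun e => by
  rcases Nat.lt_or_ge 2 ((Nat.card G).factorization 2) with h | h
  · have := eight_dvd_card_principal_of_abelian hM P hP h
    omega
  · have h1 := card_le_pow_of_defect_le_two hM (isPBlock_principalBlock (M := M) (G := G))
      (by rwa [blockDefect_principal hM])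
    have h2 := Nat.pow_le_pow_right two_pos h
    rw [blockDefect_principal hM] at h1
    omega

end Main

end BT
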