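import Cfsg.Agent.Lib.Block.TwoOver
import Cfsg.Agent.Lib.Block.HarrisKnorr
import Cfsg.Agent.Lib.Block.FongReynolds
import Cfsg.Agent.Lib.Block.QuotRank
import Cfsg.Agent.Lib.Block.Fong
import Cfsg.Agent.Lib.Block.PairsFus
import Cfsg.Agent.Lib.Block.CentralDef
import Cfsg.Agent.Lib.Grp.FpfCyc
import Cfsg.Agent.Lib.Grp.Zsig

/-!
# Blocks with normal abelian defect group and at most three characters
-/

set_option autoImplicit false
set_option linter.unusedSectionVars false
set_option linter.unusedVariables false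

namespace BT

open Cfsg CT GT Subgroup MulAction
open scoped ComplexConjugate Pointwise

universe u

variable {p : ℕ} [hp : Fact p.Prime]

theorem card_le_three_of_two_over {H : Type u} [Group H] [Finite H] {V C : Subgroup H} [V.Normal]
    [C.Normal] [IsMulCommutative V] (hV : IsPGroup p V) (hC : C = centralizer (V : Set H))
    (hi : ¬ p ∣ C.index) {θ : IrrCharacter C} (hθ : ∀ g : H, g • θ = θ)
    (h2 : Nat.card {χ : IrrCharacter H // LiesOver C χ.1 θ.1} = 2)
    (hd : Nat.card V - 1 ∣ C.index)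
    (hs : ∀ l : V →* ℂˣ, l ≠ 1 → ∃ (T : Subgroup H) (h : C ≤ T) (η : IrrCharacter C),
      (∀ g, g ∈ T ↔ ∀ v, l (MulAut.conjNormal g v) = l v) ∧ InvBy T η.1 ∧
        Nat.card {χ : IrrCharacter T // LiesOverLe h χ.1 η.1} = 1) : Nat.card V ≤ 3 := by
  rcases subsingleton_or_nontrivial V with h0 | h0
  · rw [Nat.card_of_subsingleton (1 : V)]; norm_num
  have hker : C = (MulAut.conjNormal (H := V)).ker := by
    ext g
    rw [hC, MonoidHom.mem_ker, mem_centralizer_iff]
    refine ⟨fun h => MulEquiv.ext fun v => Subtype.ext ?_, fun h v hv => ?_⟩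
    · rw [MulAut.conjNormal_apply, ← h v v.2, mul_inv_cancel_right]; rfl
    · have := congrArg Subtype.val (DFunLike.congr_fun h (⟨v, hv⟩ : V))
      rw [MulAut.conjNormal_apply, mul_inv_eq_iff_eq_mul] at this
      exact this.symm
  let φ : H ⧸ C →* MulAut V := QuotientGroup.lift C MulAut.conjNormal hker.le
  have hφ : Function.Injective φ := by
    rw [injective_iff_map_eq_one]
    intro x hx
    obtain ⟨g, rfl⟩ := QuotientGroup.mk_surjective x
    exact (QuotientGroup.eq_one_iff g).2 (hker.ge hx)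
  set π := QuotientGroup.mk' C
  have hπ := QuotientGroup.mk'_surjective C
  obtain ⟨n, hn⟩ := IsPGroup.iff_card.1 hV
  have hcop : ∀ X : Subgroup (H ⧸ C), ¬ p ∣ Nat.card X := fun X h =>
    hi (h.trans (card_subgroup_dvd_card X))
  have hcop' : ∀ X : Subgroup (H ⧸ C), (Nat.card V).Coprime (Nat.card X) := fun X =>
    hn ▸ ((Nat.Prime.coprime_iff_not_dvd hp.out).2 (hcop X)).pow_left n
  have h2' : Nat.card {χ : IrrCharacter (⊤ : Subgroup H) // LiesOverLe le_top χ.1 θ.1} = 2 :=
    (Nat.card_congr (cliffordEquiv le_top le_top)).trans h2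
  have hinv : InvBy ⊤ θ.1 := fun g _ => conjSmul_eq_iff'.1 (hθ g)
  have hk : ∀ T : Subgroup H, C ≤ T → C = T ⊓ π.ker := fun T hT => by
    rw [QuotientGroup.ker_mk', inf_of_le_right hT]
  have htop : (⊤ : Subgroup H).map π = ⊤ := map_top_of_surjective π hπ
  by_cases hp2 : p = 2
  · subst hp2
    have := odd_card_over π le_top (hk ⊤ le_top) htop hinv
      (Nat.not_even_iff_odd.1 fun h => hcop ⊤ h.two_dvd)
    rw [h2'] at this
    exact absurd this (by decide)
  have hp3 : 3 ≤ p := lt_of_le_of_ne hp.out.two_le (Ne.symm hp2)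
  by_cases hn3 : 3 ≤ n
  · obtain ⟨r, hr, hr1, hr2⟩ := exists_zsigmondy hp3 hn3
    haveI := Fact.mk hr
    have hr3 : r ≠ 2 := by
      rintro rfl
      refine hr2 1 one_pos (by omega) ?_
      obtain ⟨k, hk⟩ := hp.out.odd_of_ne_two hp2
      exact ⟨k, by rw [hk]; push_cast; ring⟩
    have hr4 : r ∣ C.index := by
      refine dvd_trans ?_ hd
      rw [hn, ← Int.natCast_dvd_natCast, Nat.cast_sub (Nat.one_le_pow _ _ hp.out.pos)]
      exact_mod_cast hr1
    obtain ⟨R⟩ : Nonempty (Sylow r (H ⧸ C)) := inferInstance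
    have hR : IsCyclic (R : Subgroup (H ⧸ C)) := by
      refine isCyclic_of_forall_isMulCommutative hr3 R.isPGroup' fun A _ => ?_
      let ι : A →* H ⧸ C := (R : Subgroup (H ⧸ C)).subtype.comp A.subtype
      have hι : Function.Injective ι := Subtype.val_injective.comp Subtype.val_injective
      refine isCyclic_of_fpf (φ.comp ι) ((hcop' R).coprime_dvd_right (card_subgroup_dvd_card A))
        fun s hs v hv => eq_one_of_zsigmondy hp.out hn hr1 hr2 ?_
          (fun h => hs ((hφ.comp hι) (h.trans (map_one (φ.comp ι)).symm))) hv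
      show IsPGroup r (zpowers ((φ.comp ι) s))
      rw [← MonoidHom.map_zpowers]
      exact ((R.isPGroup'.to_subgroup A).to_subgroup _).map _
    have h3 := three_le_card_over hθ hr3 (A := (R : Subgroup (H ⧸ C)).comap π)
      (fun c hc => by rw [mem_comap, show π c = 1 from (QuotientGroup.eq_one_iff c).2 hc]
                      exact one_mem _)
      (by rwa [map_comap_eq_self_of_surjective hπ])
      (by rw [index_comap_of_surjective _ hπ]; exact R.not_dvd_index) hr4
    omega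
  have hfree : ∀ x : H ⧸ C, x ≠ 1 → ∀ v, φ x v = v → v = 1 := by
    intro x hx v hv
    by_contra hv1
    obtain ⟨g, rfl⟩ := QuotientGroup.mk_surjective x
    letI : CommGroup V := { (inferInstance : Group V) with mul_comm := mul_comm' }
    let δ : V →* V := (φ g).toMonoidHom / MonoidHom.id V
    have hδ : δ.range ≠ ⊤ := fun h => hv1 <|
      (injective_iff_map_eq_one δ).1 (Finite.injective_iff_surjective.2
        (MonoidHom.range_eq_top.1 h)) v (by simp [δ, hv])
    obtain ⟨w, hw⟩ : ∃ w, w ∉ δ.range := by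
      by_contra h
      push Not at h
      exact hδ ((eq_top_iff' _).2 h)
    obtain ⟨l, hl1, hl2⟩ := exists_units_hom_apply_ne_one (N := δ.range)
      (by rw [commutator_eq_bot]; exact bot_le) hw
    have hl : l ≠ 1 := fun h => hl2 (by rw [h]; rfl)
    obtain ⟨T, hT, η, h3, h4, h5⟩ := hs l hl
    have h6 : IsCyclic (T.map π) := by
      refine isCyclic_of_fix_hom (φ.comp (T.map π).subtype) (hφ.comp Subtype.val_injective)
        (hn ▸ pow_dvd_pow p (by omega)) (hcop _) hl ?_
      rintro ⟨_, t, ht, rfl⟩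
      exact (h3 t).1 ht
    rw [card_over_eq_card_conjClasses π hT (hk T hT) rfl h4 fun a ha c hc _ =>
      GT.isCyclic_of_le ((closure_le (T.map π)).2 (by
        rintro x (rfl | rfl)
        exacts [ha, hc]))] at h5
    have h7 := card_le_of_card_conjClasses_le_two (h5.le.trans one_le_two)
    rw [h5, card_le_one_iff_eq_bot] at h7
    refine hx (mem_bot.1 (h7 ▸ mem_map_of_mem π ((h3 g).2 fun v => ?_)))
    have h8 : l (δ v) = 1 := hl1 ⟨v, rfl⟩
    exact (show l (φ g v) = l v by simpa [δ, div_eq_one] using h8)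
  rw [card_over_eq_card_conjClasses π le_top (hk ⊤ le_top) htop hinv fun a _ c _ hac => by
    haveI := isMulCommutative_closure_pair hac
    exact isCyclic_of_fpf (φ.comp (Subgroup.subtype _)) (hcop' _)
      fun s hs => hfree s fun h => hs (Subtype.ext h)] at h2'
  have h7 := card_le_of_card_conjClasses_le_two h2'.le
  rw [h2', card_top] at h7
  have := Nat.le_of_dvd (Nat.pos_of_ne_zero FiniteIndex.index_ne_zero) hd
  change C.index ≤ 2 at h7
  omega

variable {M : Ideal AlgInt} (hM : IsPModular p M)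

include hM in
theorem fong_card_le {G : Type*} [Group G] [Finite G] {N T : Subgroup G} [N.Normal]
    {b : Set (IrrCharacter N)} {hNT : N ≤ T} (hb : IsPBlock M b) (hT : ∀ g : G, g ∈ T ↔ g • b = b)
    {B' : Set (IrrCharacter T)} (hc : CoversLe hNT B' b) {B : Set (IrrCharacter G)}
    (hind : IsInducedBlock M T B' B) : Nat.card B' ≤ Nat.card B := by
  refine Nat.card_le_card_of_injective (fun ψ => (⟨⟨_, fong_isIrr_ind hM hb hT hind.1 hc ψ.2⟩,
    mem_of_isInducedBlock_of_ind hM hind ψ.2 rfl⟩ : B)) fun ψ ψ' h => ?_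
  have h : ind T ψ.1.1 = ind T ψ'.1.1 := congrArg (fun x : B => x.1.1) h
  obtain ⟨θ, hθ, hl⟩ := hc.exists_liesUnderLe hM hind.1 hb ψ.2
  obtain ⟨θ', hθ', hl'⟩ := hc.exists_liesUnderLe hM hind.1 hb ψ'.2
  have h1 := fong_inertia_le hM hb hT hθ'
  obtain ⟨g, rfl⟩ := LiesOver.mem_orbit (χ := ⟨_, cliffordCorr_isIrr h1 hl'⟩)
    (h ▸ cliffordCorr_liesOver (fong_inertia_le hM hb hT hθ) hl :) (cliffordCorr_liesOver h1 hl')
  exact Subtype.ext (cliffordCorr_injective h1 (hl.smul_of_mem (irr_isClassFunction _)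
    ((hT g).2 (smul_block_eq_of_mem hM hb hb hθ hθ'))) hl' h)

include hM in
/-- In a block whose defect group `V` is central, a character is determined by its central
character on `V`. -/
theorem eq_of_liesOverLe_of_central {H : Type*} [Group H] [Finite H] {V C : Subgroup H} [V.Normal]
    (hVC : V ≤ C) (hC : C ≤ centralizer (V : Set H)) {b : Set (IrrCharacter C)}
    (hb : IsPBlock M b) (hD : IsDefectGroup p M b (V.subgroupOf C)) {η η' : IrrCharacter C}
    (hη : η ∈ b) (hη' : η' ∈ b) {l : IrrCharacter V} (h : LiesOverLe hVC η.1 l.1)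
    (h' : LiesOverLe hVC η'.1 l.1) : η = η' := by
  have hZ : V.subgroupOf C ≤ center C := fun v hv => mem_center_iff.2 fun c =>
    Subtype.ext (hC c.2 v hv).symm
  have h0 : ∀ χ ∈ b, ∀ g, GT.pPart p g ∉ V.subgroupOf C → χ.1 g = 0 := fun χ hχ g hg =>
    apply_eq_zero_of_normal_defect hM hb hD hχ hg
  have h1 := pRegularPart_eq_of_central hM hb (defGrp_of_isDefectGroup hM hb hD).pgroup hZ h0 hη hη'
  have h2 : ∀ {η : IrrCharacter C}, LiesOverLe hVC η.1 l.1 → ∀ v : C, ∀ hv : (v : H) ∈ V,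
      η.1 v / η.1 1 = l.1 ⟨v, hv⟩ / l.1 1 := fun {η} h v hv => by
    have h3 := clifford_invariant_le' (fun t ht => conjSmul_of_mem_centralizer (hC ht) l) h
    have h4 : η.1 v = _ * l.1 ⟨v, hv⟩ := congrFun h3 ⟨v, hv⟩
    have h5 : η.1 1 = _ * l.1 1 := congrFun h3 1
    rw [h4, h5, mul_div_mul_left _ _ (left_ne_zero_of_mul (h5 ▸ irr_apply_one_ne_zero η))]
  refine Subtype.ext (funext fun g => ?_)
  by_cases hg : GT.pPart p g ∈ V.subgroupOf C
  · have h3 := congrFun h1 (pRegPart p g)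
    rw [pRegularPart_apply, pRegularPart_apply, if_neg (isPRegular_pRegPart p g),
      if_neg (isPRegular_pRegPart p g)] at h3
    rw [← pPart_mul_pRegPart p g, irr_apply_central_mul η (hZ hg), irr_apply_central_mul η' (hZ hg),
      h2 h _ hg, h2 h' _ hg, h3]
  · rw [h0 η hη g hg, h0 η' hη' g hg]

include hM in
theorem card_le_three_of_invariant {H : Type u} [Group H] [Finite H] {V C : Subgroup H} [V.Normal]
    [C.Normal] [IsMulCommutative V] (hC : C = centralizer (V : Set H)) {c : Set (IrrCharacter H)}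
    (hc : IsPBlock M c) (hD : IsDefectGroup p M c V) (hk : Nat.card c ≤ 3)
    {b : Set (IrrCharacter C)} (hb : IsPBlock M b) (hcb : Covers C c b)
    (hD' : DefGrp p C (sidem hM C b) V) (hinv : ∀ g : H, g • b = b) : Nat.card V ≤ 3 := by
  classical
  rcases subsingleton_or_nontrivial V with h0 | h0
  · rw [Nat.card_of_subsingleton (1 : V)]; norm_num
  have hVC := hD'.le
  have hV := hD'.pgroup
  have hfix : IsFixed ⊤ (sidem hM C b) :=
    isFixed_iff_cj.2 fun g _ => (cj_sidem_eq_iff hM hb g).2 (hinv g)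
  have he : idem hM c = sidem hM C b := by
    rw [(bIdem_top_idem hM hc).eq_orbSum_of_centralizer_le hM le_top le_normalizer_of_normal
      (bIdem_sidem hM hb) ((covers_iff_mul hM hc hb).1 hcb) hV hVC hD'.br_ne
      (inf_le_right.trans hC.ge), orbSum_of_isFixed hfix]
  have hi : ¬ p ∣ C.index := by
    have := DefGrp.not_dvd_relIndex_sup hM (bIdem_sidem hM hb) le_top le_normalizer_of_normal hfix
      (he ▸ defGrp_of_isDefectGroup hM hc hD)
    rwa [sup_of_le_right hVC, relIndex_top_right] at this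
  have hmem := mem_iff_of_idem_eq_sidem hM hc hb he
  have hU := fun {η η' : IrrCharacter C} => eq_of_liesOverLe_of_central hM hVC hC.le hb
    ((isDefectGroup_subgroupOf_iff_defGrp hM hb hVC).2 hD') (η := η) (η' := η')
  have hex : ∀ {χ : IrrCharacter H} {l : IrrCharacter V}, χ ∈ c → LiesOver V χ.1 l.1 →
      ∃ η ∈ b, LiesOver C χ.1 η.1 ∧ LiesOverLe hVC η.1 l.1 := fun {χ l} h1 h2 => by
    obtain ⟨η, h3, h4⟩ := h2.exists_between hVC (irr_isClassFunction χ)
    exact ⟨η, hcb.mem_of_liesOver hM hc hb hinv h1 h3, h3, h4⟩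
  have hex' : ∀ l : IrrCharacter V, ∃ η ∈ b, LiesOverLe hVC η.1 l.1 := fun l => by
    obtain ⟨χ, h1, h2⟩ := exists_mem_liesOver_of_isPGroup hM hc hV l
    obtain ⟨η, h3, -, h4⟩ := hex h1 h2
    exact ⟨η, h3, h4⟩
  have key : ∀ {η : IrrCharacter C} {l : IrrCharacter V}, η ∈ b → LiesOverLe hVC η.1 l.1 →
      ∀ χ : IrrCharacter H, LiesOver C χ.1 η.1 ↔ χ ∈ c ∧ LiesOver V χ.1 l.1 := by
    refine fun {η l} h1 h2 χ => ⟨fun h => ⟨(hmem χ).2 ⟨η, h1, h⟩,
      h.trans_le hVC (irr_isCharacter χ) (irr_isCharacter l) h2⟩, fun h => ?_⟩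
    obtain ⟨η', h3, h4, h5⟩ := hex h.1 h.2
    rwa [hU h1 h3 h2 h5]
  have hst : ∀ {η : IrrCharacter C} {l : IrrCharacter V}, η ∈ b → LiesOverLe hVC η.1 l.1 →
      ∀ g : H, g • η = η ↔ g • l = l := by
    refine fun {η l} h1 h2 g => ⟨fun h => ?_, fun h => hU (hinv g ▸ Set.smul_mem_smul_set h1) h1
      (h ▸ (liesOverLe_smul_iff hVC g η l).2 h2 :) h2⟩
    obtain ⟨t, ht, h3⟩ := h2.exists_smul (h ▸ (liesOverLe_smul_iff hVC g η l).2 h2 :)
    rw [← h3, conjSmul_of_mem_centralizer (hC.le ht)]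
  let A : Set (IrrCharacter H) := {χ | χ ∈ c ∧ V ≤ ker χ.1}
  have hAc : A ⊆ c := fun _ h => h.1
  have hnA : ∀ {χ : IrrCharacter H} {l : IrrCharacter V}, l ≠ irrOne V → LiesOver V χ.1 l.1 →
      χ ∉ A := fun {χ l} h1 h2 h3 => by
    obtain ⟨g, hg⟩ := LiesOver.mem_orbit (θ := irrOne V) ((liesOver_one_iff V χ).2 h3.2) h2
    exact h1 (hg.symm.trans (conjSmul_irrOne g))
  by_cases hl : blockRank p c = 1
  · rcases rank_one_card_le_five hM hc hl (by omega) with h | h
    · rw [card_defectGroup hM hc hD, h.1]; exact hk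
    · omega
  have hA2 : 2 ≤ A.ncard := by
    have h1 := blockRank_preimage_irrComp hM (QuotientGroup.mk'_surjective V)
      (by rwa [QuotientGroup.ker_mk']) hc
    have h2 := blockRank_le_card (p := p) (irrComp _ (QuotientGroup.mk'_surjective V) ⁻¹' c)
    have h3 := blockRank_pos (p := p) (block_nonempty hM hc)
    have h4 := Set.ncard_le_ncard_of_injOn (irrComp _ (QuotientGroup.mk'_surjective V))
      (s := irrComp _ (QuotientGroup.mk'_surjective V) ⁻¹' c) (t := A)
      (fun ψ hψ => ⟨hψ, (QuotientGroup.ker_mk' V).ge.trans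
        ((exists_irrComp_eq_iff _ _ _).1 ⟨ψ, rfl⟩)⟩) (irrComp_injective _ _).injOn
    rw [Nat.card_coe_set_eq] at h2
    omega
  have hd := Set.ncard_diff_add_ncard_of_subset hAc
  rw [Nat.card_coe_set_eq] at hk
  have huniq : ∀ {χ χ' : IrrCharacter H}, χ ∈ c \ A → χ' ∈ c \ A → χ = χ' := fun h h' =>
    (Set.ncard_le_one (s := c \ A)).1 (by omega) _ h _ h'
  have hcard : Nat.card (IrrCharacter V) = Nat.card V := card_irr_of_isMulCommutative
  haveI : Nontrivial (IrrCharacter V) := Finite.one_lt_card_iff_nontrivial.1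
    (hcard ▸ Finite.one_lt_card)
  obtain ⟨l0, hl0⟩ := exists_ne (irrOne V)
  obtain ⟨χ0, h1, h2⟩ := exists_mem_liesOver_of_isPGroup hM hc hV l0
  have h3 : χ0 ∈ c \ A := ⟨h1, hnA hl0 h2⟩
  have h4 := (Set.ncard_pos (s := c \ A)).2 ⟨χ0, h3⟩
  obtain ⟨θ, hθ, hθ1⟩ := hex' (irrOne V)
  refine card_le_three_of_two_over hV hC hi (θ := θ)
    (fun g => (hst hθ hθ1 g).2 (conjSmul_irrOne g)) ?_ ?_ fun l hl => ?_
  · rw [← show A.ncard = 2 by omega, ← Nat.card_coe_set_eq]
    exact Nat.card_congr (Equiv.subtypeEquivRight fun χ =>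
      (key hθ hθ1 χ).trans (and_congr_right' (liesOver_one_iff V χ)))
  · have h5 : orbit H l0 = {irrOne V}ᶜ := by
      ext l
      refine ⟨?_, fun h => ?_⟩
      · rintro ⟨g, rfl⟩ h
        exact hl0 ((eq_inv_smul_iff.2 h).trans (conjSmul_irrOne _))
      · obtain ⟨χ, h5, h6⟩ := exists_mem_liesOver_of_isPGroup hM hc hV l
        exact h2.mem_orbit (huniq ⟨h5, hnA h h6⟩ h3 ▸ h6)
    have h6 := index_dvd_of_le (hC.le.trans (centralizer_le_inertia l0))
    rwa [index_stabilizer, h5, Set.ncard_compl, Set.ncard_singleton, hcard] at h6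
  · obtain ⟨η, h5, h6⟩ := hex' (linChar l)
    have h7 : linChar l ≠ irrOne V := mt linChar_eq_irrOne_iff.1 hl
    refine ⟨stabilizer H η, le_inertia η, η, fun g => ?_, fun g hg => conjSmul_eq_iff'.1 hg, ?_⟩
    · rw [mem_stabilizer_iff, hst h5 h6, conjSmul_eq_iff]
      simp only [linChar_apply, Units.val_inj]
    · rw [Nat.card_congr (cliffordEquiv le_rfl (le_inertia η)), Nat.card_eq_one_iff_unique]
      obtain ⟨χ, hχ⟩ := exists_irr_liesOver η
      refine ⟨⟨fun χ χ' => Subtype.ext (huniq ?_ ?_)⟩, ⟨⟨χ, hχ⟩⟩⟩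
      exacts [⟨((key h5 h6 _).1 χ.2).1, hnA h7 ((key h5 h6 _).1 χ.2).2⟩,
        ⟨((key h5 h6 _).1 χ'.2).1, hnA h7 ((key h5 h6 _).1 χ'.2).2⟩]

include hM in
/-- A block with a normal abelian defect group and at most three characters has a defect group of
order at most three. -/
theorem card_le_three_of_normal_abelian {H : Type u} [Group H] [Finite H] {V : Subgroup H}
    [V.Normal] [IsMulCommutative V] {c : Set (IrrCharacter H)} (hc : IsPBlock M c)
    (hD : IsDefectGroup p M c V) (hk : Nat.card c ≤ 3) : Nat.card V ≤ 3 := by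
  induction hn : Nat.card H using Nat.strong_induction_on generalizing H with
  | _ n ih =>
  set C := centralizer (V : Set H) with hC
  have hVC : V ≤ C := le_centralizer V
  obtain ⟨f, hf, -, -, h1, h2⟩ := (defGrp_of_isDefectGroup hM hc hD).exists_isFixed_cover hM
    (N := C) le_top le_normalizer_of_normal (bIdem_top_idem hM hc).toCIdem
  obtain ⟨b, hb, rfl⟩ := hf.exists_block hM
  rw [inf_of_le_left hVC] at h2
  have hcb := (covers_iff_mul hM hc hb).2 h1
  set T := stabilizer H b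
  by_cases hT : T = ⊤
  · exact card_le_three_of_invariant hM hC hc hD hk hb hcb h2 fun g =>
      mem_stabilizer_iff.1 (hT.ge (mem_top g))
  have hT' : ∀ g : H, g ∈ T ↔ g • b = b := fun g => mem_stabilizer_iff
  have hCT : C ≤ T := fun g hg => by
    obtain ⟨θ, hθ⟩ := block_nonempty hM hb
    exact smul_block_eq_of_mem hM hb hb hθ (by rwa [conjSmul_of_mem hg])
  obtain ⟨c', hc', h3, h4⟩ := fong_surjective hM hb hT' hCT hc hcb
  obtain ⟨D, hD'⟩ := exists_isDefectGroup hM hc'
  obtain ⟨g, hg⟩ := exists_conj_of_isDefectGroup hM hc hD (fong_isDefectGroup hM hb hT' h3 h4 hD')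
  rw [show V.map (MulAut.conj g).toMonoidHom = V from Normal.conj_smul_eq_self g V] at hg
  obtain rfl : D = V.subgroupOf T := by
    rw [hg]; exact (comap_map_eq_self_of_injective T.subtype_injective D).symm
  have e := subgroupOfEquivOfLe (hVC.trans hCT)
  haveI : IsMulCommutative (V.subgroupOf T) := ⟨⟨fun a b => e.injective (by
    rw [map_mul, map_mul, mul_comm'])⟩⟩
  rw [← Nat.card_congr e.toEquiv]
  exact ih _ (hn ▸ card_lt_of_ne_top hT) hc' hD' ((fong_card_le hM hb hT' h3 h4).trans hk) rfl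

end BT
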