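import Cfsg.Agent.Lib.Block.BSuz
import Cfsg.Agent.Lib.Char.Invol

/-!
# Transitive groups of prime power degree with odd centralizers of `p`-elements
-/

set_option autoImplicit false
set_option linter.unusedSectionVars false

namespace BT.OCT

open Cfsg CT GT Subgroup
open scoped ComplexConjugate

/-- A central element of a semisimple group algebra that acts with square zero acts as zero. -/
theorem apply_eq_zero_of_sq {k V Γ : Type*} [Field k] [AddCommGroup V] [Module k V] [Group Γ]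
    [Finite Γ] (ρ : Γ →* (V →ₗ[k] V)) (hΓ : (Nat.card Γ : k) ≠ 0) (s : Finset Γ)
    (hc : ∀ g, ρ g * ∑ r ∈ s, ρ r = (∑ r ∈ s, ρ r) * ρ g) (U : Submodule k V)
    (hU : ∀ g, ∀ v ∈ U, ρ g v ∈ U) (h2 : ∀ v ∈ U, (∑ r ∈ s, ρ r) ((∑ r ∈ s, ρ r) v) = 0) :
    ∀ v ∈ U, (∑ r ∈ s, ρ r) v = 0 := by
  have := Fintype.ofFinite Γ
  set T := ∑ r ∈ s, ρ r with hT
  obtain ⟨W', hW⟩ := (U.map T).exists_isCompl
  let π : V →ₗ[k] V := (U.map T).subtype ∘ₗ (U.map T).projectionOnto W' hW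
  have π1 : ∀ v, π v ∈ U.map T := fun v => Subtype.prop _
  have π2 : ∀ w ∈ U.map T, π w = w := fun w hw =>
    congrArg Subtype.val (Submodule.projectionOnto_apply_left hW ⟨w, hw⟩)
  have inv : ∀ g, ∀ w ∈ U.map T, ρ g w ∈ U.map T := by
    rintro g _ ⟨v, hv, rfl⟩
    exact ⟨ρ g v, hU g v hv, (LinearMap.congr_fun (hc g) v).symm⟩
  let σ : V →ₗ[k] V := ∑ g : Γ, ρ g * π * ρ g⁻¹
  have σ1 : ∀ v, σ v ∈ U.map T := fun v => by
    simp only [σ, LinearMap.sum_apply, Module.End.mul_apply]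
    exact Submodule.sum_mem _ fun g _ => inv g _ (π1 _)
  have σ2 : ∀ w ∈ U.map T, σ w = (Nat.card Γ : k) • w := fun w hw => by
    simp only [σ, LinearMap.sum_apply, Module.End.mul_apply]
    rw [Finset.sum_congr rfl fun g _ => by
      rw [π2 _ (inv g⁻¹ w hw), ← Module.End.mul_apply, ← map_mul, mul_inv_cancel, map_one,
        Module.End.one_apply], Finset.sum_const, Finset.card_univ, Nat.card_eq_fintype_card,
      Nat.cast_smul_eq_nsmul]
  have σ3 : ∀ h, ρ h * σ = σ * ρ h := fun h => by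
    simp only [σ, Finset.mul_sum, Finset.sum_mul]
    refine Fintype.sum_equiv (Equiv.mulLeft h) _ _ fun g => ?_
    simp only [Equiv.coe_mulLeft, mul_assoc, ← map_mul, mul_inv_rev, inv_mul_cancel, mul_one]
    rw [map_mul, mul_assoc]
  have σ4 : T * σ = σ * T := by
    simp only [hT, Finset.mul_sum, Finset.sum_mul, σ3]
  intro v hv
  have h1 := σ2 (T v) ⟨v, hv, rfl⟩
  rw [← Module.End.mul_apply, ← σ4, Module.End.mul_apply] at h1
  obtain ⟨u, hu, e⟩ := σ1 v
  rw [← e, h2 u hu] at h1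
  exact (smul_eq_zero.1 h1.symm).resolve_left hΓ

variable {G : Type*} [Group G] [Finite G] {p : ℕ} [hp : Fact p.Prime]

/-- Without characters of defect zero the square of a class sum of defect zero vanishes mod `p`. -/
theorem dvd_card_pairs (h0 : ∀ χ : IrrCharacter G,
      (charDegree χ.1).factorization p ≠ (Nat.card G).factorization p) {t : G} (ht : t * t = 1)
    (hC : ¬ p ∣ Nat.card (centralizer ({t} : Set G))) (g : G) :
    p ∣ Nat.card {ab : G × G // IsConj t ab.1 ∧ IsConj t ab.2 ∧ ab.1 * ab.2 = g} := by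
  have := Fintype.ofFinite G
  set C := centralizer ({t} : Set G) with hCdef
  have hi : p ^ (Nat.card G).factorization p ∣ C.index :=
    (Nat.Coprime.pow_left _ ((Nat.Prime.coprime_iff_not_dvd hp.out).2 hC)).dvd_of_dvd_mul_left
      (by rw [card_mul_index]; exact Nat.ordProj_dvd _ _)
  have key : ∀ χ : IrrCharacter G, ∃ n : ℤ, centralChar χ.1 t = p * n := fun χ => by
    obtain ⟨v, hv⟩ := exists_int_apply_of_sq (irr_isCharacter χ) ht
    obtain ⟨n, hn⟩ := exists_int_of_isIntegral_of_rat (isIntegral_centralChar χ t)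
      (q := (C.index : ℚ) * v / charDegree χ.1) (by
        rw [centralChar, hv, irr_apply_one]; push_cast; rfl)
    have h1 : n * charDegree χ.1 = C.index * v := by
      have h2 := hn
      rw [centralChar, hv, div_eq_iff (irr_apply_one_ne_zero χ), irr_apply_one] at h2
      exact_mod_cast h2.symm
    have hp' : Prime (p : ℤ) := Nat.prime_iff_prime_int.1 hp.out
    by_cases h2 : (p : ℤ) ∣ n
    · obtain ⟨m, rfl⟩ := h2
      exact ⟨m, by rw [hn]; push_cast; rfl⟩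
    · refine absurd (factorization_eq_of_pow_dvd hp.out χ ?_) (h0 χ)
      have h3 := ((hp'.irreducible.coprime_iff_not_dvd.2 h2).pow_left
        (m := (Nat.card G).factorization p)).dvd_of_dvd_mul_left
        (h1 ▸ Dvd.dvd.mul_right (by exact_mod_cast hi) v)
      exact_mod_cast h3
  choose n hn using key
  refine ((Nat.Prime.coprime_iff_not_dvd hp.out).2 hC).dvd_of_dvd_mul_left
    (nat_dvd_of_isIntegral (z := ∑ χ : IrrCharacter G, n χ * (χ.1 t * χ.1 g⁻¹))
      (IsIntegral.sum _ fun χ _ => (isIntegral_algebraMap (R := ℤ) (A := ℂ) (x := n χ)).mul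
        ((irr_isIntegral χ _).mul (irr_isIntegral χ _))) ?_)
  rw [Nat.cast_mul, card_mul_classes_eq, ← hCdef, ← C.card_mul_index, Finset.mul_sum, Finset.mul_sum,
    Finset.mul_sum]
  refine Finset.sum_congr rfl fun χ _ => ?_
  have h1 : (Nat.card C : ℂ) ≠ 0 := card_cast_ne_zero
  have h2 : (C.index : ℂ) ≠ 0 := Nat.cast_ne_zero.2 index_ne_zero_of_finite
  have h3 := irr_apply_one_ne_zero χ
  rw [← mul_assoc, ← hn, centralChar, (irr_isCharacter χ).apply_inv, ← hCdef]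
  push_cast
  field_simp

theorem exists_invol_conj {s s' : G} (hs : s * s = 1) (hs' : s' * s' = 1)
    (h : Odd (orderOf (s * s'))) : ∃ j : ℕ, s * (s * s') ^ j * (s * (s * s') ^ j) = 1 ∧
      (s * (s * s') ^ j)⁻¹ * s' * (s * (s * s') ^ j) = s := by
  obtain ⟨k, hk⟩ := h
  have h1 := conj_pow_mul_of_sq hs hs' (k + 1)
  have h2 : s * (s * s') ^ (k + 1) * (s * (s * s') ^ (k + 1)) = 1 := by
    nth_rewrite 1 [h1]
    rw [mul_assoc, ← mul_assoc s s, hs, one_mul, inv_mul_cancel]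
  have h3 : (s * s') ^ (k + 1) * (s * s') ^ (k + 1) = s * s' := by
    rw [← pow_add, show k + 1 + (k + 1) = 2 * k + 1 + 1 by ring, pow_succ, ← hk, pow_orderOf_eq_one,
      one_mul]
  refine ⟨k + 1, h2, ?_⟩
  set c := (s * s') ^ (k + 1)
  have h4 : s' = s * c * c := by rw [mul_assoc, h3, ← mul_assoc, hs, one_mul]
  rw [inv_eq_of_mul_eq_one_right h2]
  nth_rewrite 1 [h4]
  rw [← mul_assoc, ← mul_assoc, h2, one_mul, mul_assoc, h1, mul_inv_cancel_left]

section action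

variable {Ω : Type*} [MulAction G Ω]
  (fix : ∀ s : G, s * s = 1 → s ≠ 1 → ∃! ω : Ω, s • ω = ω)
include fix

theorem smul_eq_of_commute {c s : G} (hs : s * s = 1) (hs1 : s ≠ 1) (h : Commute c s) {α : Ω}
    (hα : s • α = α) : c • α = α :=
  (fix s hs hs1).unique (by rw [← mul_smul, ← h.eq, mul_smul, hα]) hα

theorem existsUnique_invol_conj {x s : G} (hx : x * x = 1) (hx1 : x ≠ 1) (hs : s * s = 1)
    (hs1 : s ≠ 1) {α : Ω} (hxα : x • α ≠ α) (hsα : s • α = α) :
    ∃! r : G, (r * r = 1 ∧ r ≠ 1) ∧ r⁻¹ * x * r = s := by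
  obtain ⟨β, hβ, -⟩ := fix x hx hx1
  have key : ∀ c : G, c * c = 1 → Commute c s → Commute c x → c = 1 := fun c hc h1 h2 => by
    by_contra hc1
    exact hxα (by rw [(fix c hc hc1).unique (smul_eq_of_commute fix hs hs1 h1 hsα)
      (smul_eq_of_commute fix hx hx1 h2 hβ), hβ])
  have hodd : Odd (orderOf (s * x)) := by
    by_contra h
    obtain ⟨m, hm⟩ := (Nat.not_odd_iff_even.1 h).two_dvd
    obtain ⟨h1, h2, h3, h4⟩ := exists_central_invol hs hx hm (by
      rintro rfl; exact (orderOf_pos _).ne' hm)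
    exact h2 (key _ h1 h3 h4)
  obtain ⟨j, h1, h2⟩ := exists_invol_conj hs hx hodd
  have h3 : ∀ c, Commute c s → Commute c x → Commute c (s * (s * x) ^ j) := fun c a b =>
    a.mul_right ((a.mul_right b).pow_right j)
  generalize s * (s * x) ^ j = r at h1 h2 h3
  refine ⟨r, ⟨⟨h1, fun h => hxα ?_⟩, h2⟩, fun r' ⟨⟨h4, _⟩, h5⟩ => ?_⟩
  · rw [h, inv_one, one_mul, mul_one] at h2
    rw [h2, hsα]
  have i1 := inv_eq_of_mul_eq_one_right h1
  have i2 := inv_eq_of_mul_eq_one_right h4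
  rw [i1] at h2
  rw [i2] at h5
  have c1 : Commute (r * r') s := by
    have : r' * s * r' = x := by rw [← h5, ← mul_assoc, ← mul_assoc, h4, one_mul, mul_assoc, h4, mul_one]
    calc r * r' * s = r * (r' * s * r') * r * (r * r') := by
          simp only [mul_assoc]; rw [← mul_assoc r r, h1, one_mul, h4, mul_one]
      _ = s * (r * r') := by rw [this, h2]
  have c2 : Commute (r * r') x := by
    have : r * s * r = x := by rw [← h2, ← mul_assoc, ← mul_assoc, h1, one_mul, mul_assoc, h1, mul_one]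
    calc r * r' * x = r * (r' * x * r') * r * (r * r') := by
          simp only [mul_assoc]; rw [← mul_assoc r r, h1, one_mul, h4, mul_one]
      _ = x * (r * r') := by rw [h5, this]
  have c3 := (h3 _ c1 c2).eq
  have c4 := key (r * r') (by rw [← mul_assoc, c3, ← mul_assoc, h1, one_mul, h4]) c1 c2
  rw [← i1, inv_eq_of_mul_eq_one_right c4]

open Classical in
theorem sum_stab_eq [Fintype G] {k : Type*} [AddCommMonoid k] (α : Ω) (f : G → k)
    (hf : ∀ y, f y ≠ 0 → (y * y = 1 ∧ y ≠ 1) ∧ y • α = α) (h0 : ∑ y, f y = 0) (x : G) :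
    ∑ r with (r * r = 1 ∧ r ≠ 1) ∧ r • α = α, f (r⁻¹ * x * r) =
      ∑ r with r * r = 1 ∧ r ≠ 1, f (r⁻¹ * x * r) := by
  have inv : ∀ r : G, f (r⁻¹ * x * r) ≠ 0 → (x * x = 1 ∧ x ≠ 1) ∧ x • r • α = r • α := by
    intro r h
    obtain ⟨⟨h1, h2⟩, h3⟩ := hf _ h
    refine ⟨⟨?_, ?_⟩, ?_⟩
    · calc x * x = r * (r⁻¹ * x * r * (r⁻¹ * x * r)) * r⁻¹ := by group
        _ = 1 := by rw [h1]; group
    · rintro rfl; exact h2 (by group)
    · rwa [mul_smul, mul_smul, inv_smul_eq_iff] at h3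
  by_cases hx : x • α = α
  · refine Finset.sum_subset (fun r hr => by simp_all) fun r h1 h2 => ?_
    by_contra h
    obtain ⟨⟨h3, h4⟩, h5⟩ := inv r h
    exact h2 (Finset.mem_filter.2 ⟨Finset.mem_univ _, (Finset.mem_filter.1 h1).2,
      (fix x h3 h4).unique h5 hx⟩)
  rw [Finset.sum_eq_zero fun r hr => by
    by_contra h
    have := (inv r h).2
    rw [(Finset.mem_filter.1 hr).2.2] at this
    exact hx this]
  by_cases hx2 : x * x = 1 ∧ x ≠ 1
  swap
  · exact (Finset.sum_eq_zero fun r _ => by_contra fun h => hx2 (inv r h).1).symm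
  rw [← h0]
  refine (Finset.sum_bij_ne_zero (fun r _ _ => r⁻¹ * x * r) (fun _ _ _ => Finset.mem_univ _)
    (fun r h1 h2 r' h3 h4 e => ?_) (fun y _ hy => ?_) fun _ _ _ => rfl).symm
  · obtain ⟨⟨a, b⟩, c⟩ := hf _ h2
    exact (existsUnique_invol_conj fix hx2.1 hx2.2 a b hx c).unique
      ⟨(Finset.mem_filter.1 h1).2, rfl⟩ ⟨(Finset.mem_filter.1 h3).2, e.symm⟩
  · obtain ⟨⟨a, b⟩, c⟩ := hf _ hy
    obtain ⟨r, ⟨h1, h2⟩, -⟩ := existsUnique_invol_conj fix hx2.1 hx2.2 a b hx c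
    exact ⟨r, Finset.mem_filter.2 ⟨Finset.mem_univ _, h1⟩, by rwa [h2], h2⟩

theorem unique_invol {t : G} (ht : t * t = 1) (ht1 : t ≠ 1)
    (hK : ∀ s, s * s = 1 → s ≠ 1 → IsConj t s) {α : Ω} (hα : t • α = α)
    (hH : ¬ p ∣ Nat.card (MulAction.stabilizer G α))
    (hpair : ∀ g, p ∣ Nat.card {ab : G × G // IsConj t ab.1 ∧ IsConj t ab.2 ∧ ab.1 * ab.2 = g})
    (v : G) (hv : v * v = 1) (hc : Commute t v) : v = 1 ∨ v = t := by
  classical
  have := Fintype.ofFinite G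
  set H := MulAction.stabilizer G α with hHdef
  have hKi : ∀ s, IsConj t s ↔ s * s = 1 ∧ s ≠ 1 := fun s => ⟨fun h => by
    obtain ⟨c, rfl⟩ := isConj_iff.1 h
    exact ⟨by rw [conj_mul, ht]; group, fun e => ht1 (conj_eq_one_iff.1 e)⟩, fun h => hK s h.1 h.2⟩
  let ρ : H →* ((G → ZMod p) →ₗ[ZMod p] (G → ZMod p)) :=
    { toFun := fun h => LinearMap.funLeft _ _ fun x => (h : G)⁻¹ * x * h
      map_one' := by ext f x; simp
      map_mul' := fun a b => by ext f x; simp [mul_assoc] }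
  have ρa : ∀ (h : H) f x, ρ h f x = f ((h : G)⁻¹ * x * h) := fun _ _ _ => rfl
  let U : Submodule (ZMod p) (G → ZMod p) :=
    { carrier := {f | (∀ y, f y ≠ 0 → (y * y = 1 ∧ y ≠ 1) ∧ y • α = α) ∧ ∑ y, f y = 0}
      add_mem' := fun {f g} hf hg => ⟨fun y hy => by
        by_cases h : f y = 0
        · exact hg.1 y (by simpa [h] using hy)
        · exact hf.1 y h, by simp [Finset.sum_add_distrib, hf.2, hg.2]⟩
      zero_mem' := ⟨by simp, by simp⟩
      smul_mem' := fun c f hf => ⟨fun y hy => hf.1 y (right_ne_zero_of_mul hy), by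
        simp [← Finset.mul_sum, hf.2]⟩ }
  have hU : ∀ g, ∀ f ∈ U, ρ g f ∈ U := by
    rintro ⟨g, hg⟩ f ⟨h1, h2⟩
    refine ⟨fun y hy => ?_, ?_⟩
    · obtain ⟨h3, h4⟩ := h1 _ hy
      refine ⟨(hKi _).1 (((hKi _).2 h3).trans (isConj_iff.2 ⟨g, by group⟩)), ?_⟩
      rwa [mul_smul, mul_smul, inv_smul_eq_iff, MulAction.mem_stabilizer_iff.1 hg] at h4
    · rw [← h2]
      exact Fintype.sum_equiv (MulAut.conj g⁻¹).toEquiv _ _ fun x => by simp [ρa]
  let S : Finset H := Finset.univ.filter fun r => (r : G) * r = 1 ∧ (r : G) ≠ 1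
  have hT : ∀ f x, (∑ r ∈ S, ρ r) f x =
      ∑ r with (r * r = 1 ∧ r ≠ 1) ∧ r • α = α, f (r⁻¹ * x * r) := fun f x => by
    rw [LinearMap.sum_apply, Finset.sum_apply]
    refine Finset.sum_bij (fun r _ => (r : G)) (fun r hr => ?_) (fun _ _ _ _ => Subtype.ext)
      (fun r hr => ?_) fun _ _ => rfl
    · exact Finset.mem_filter.2 ⟨Finset.mem_univ _, (Finset.mem_filter.1 hr).2, r.2⟩
    · obtain ⟨-, h1, h2⟩ := Finset.mem_filter.1 hr
      exact ⟨⟨r, h2⟩, Finset.mem_filter.2 ⟨Finset.mem_univ _, h1⟩, rfl⟩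
  have key := apply_eq_zero_of_sq ρ (by rwa [Ne, ZMod.natCast_eq_zero_iff]) S (fun g => by
      rw [Finset.mul_sum, Finset.sum_mul]
      refine Finset.sum_equiv (MulAut.conj g).toEquiv (fun r => ?_) fun r _ => ?_
      · simp only [S, Finset.mem_filter, Finset.mem_univ, true_and, ← hKi]
        exact ⟨fun h => h.trans (isConj_iff.2 ⟨g, rfl⟩),
          fun h => h.trans (isConj_iff.2 ⟨(g : G)⁻¹, by simp [mul_assoc]⟩)⟩
      · rw [← map_mul, ← map_mul]; simp) U hU (fun f hf => by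
      have h1 : (∑ r ∈ S, ρ r) f ∈ U := by
        rw [LinearMap.sum_apply]; exact U.sum_mem fun r _ => hU r f hf
      funext x
      rw [hT, sum_stab_eq fix α _ h1.1 h1.2]
      simp only [hT, sum_stab_eq fix α _ hf.1 hf.2]
      rw [← Finset.sum_product', ← Finset.sum_fiberwise _ fun ab : G × G => ab.1 * ab.2]
      refine Finset.sum_eq_zero fun g _ => ?_
      rw [Finset.sum_congr rfl (g := fun _ => f (g⁻¹ * x * g)) fun ab h => by
        rw [← (Finset.mem_filter.1 h).2]; simp only [mul_inv_rev, mul_assoc],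
        Finset.sum_const, nsmul_eq_mul, (ZMod.natCast_eq_zero_iff _ _).2, zero_mul]
      convert hpair g
      rw [Nat.card_eq_fintype_card, Fintype.card_subtype]
      congr 1; ext ab; simp only [hKi]; simp [and_assoc])
  set KH : Finset G := Finset.univ.filter fun r => (r * r = 1 ∧ r ≠ 1) ∧ r • α = α with hKH
  have mem : ∀ r, r ∈ KH ↔ (r * r = 1 ∧ r ≠ 1) ∧ r • α = α := fun r => by simp [hKH]
  have htK : t ∈ KH := (mem t).2 ⟨⟨ht, ht1⟩, hα⟩
  have hN : ∀ s ∈ KH, (({r ∈ KH | r⁻¹ * t * r = s}.card : ℕ) : ZMod p) =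
      ({r ∈ KH | r⁻¹ * t * r = t}.card : ℕ) := fun s hs => by
    have h1 := congrFun (key (Pi.single s 1 - Pi.single t 1) ⟨fun y hy => ?_, by simp⟩) t
    · rw [hT] at h1
      simpa [Pi.single_apply, sub_eq_zero] using h1
    · by_cases h : y = s
      · exact h ▸ (mem s).1 hs
      · by_cases h' : y = t
        · exact h' ▸ (mem t).1 htK
        · simp [h, h'] at hy
  have maps : ∀ r ∈ KH, r⁻¹ * t * r ∈ KH := fun r hr => (mem _).2
    ⟨(hKi _).1 (isConj_iff.2 ⟨r⁻¹, by rw [inv_inv]⟩), by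
      rw [mul_smul, mul_smul, inv_smul_eq_iff, ((mem r).1 hr).2, hα]⟩
  have hm : (KH.card : ZMod p) ≠ 0 := by
    rw [Ne, ZMod.natCast_eq_zero_iff, ← Set.ncard_coe_finset, show (KH : Set G) =
      {v : G | ∃ h ∈ H, h * t * h⁻¹ = v} from Set.ext fun y => ⟨fun hy => ?_, ?_⟩,
      ncard_conj_eq_relIndex]
    · exact fun h => hH (h.trans (relIndex_dvd_card _ _))
    · obtain ⟨⟨h1, h2⟩, h3⟩ := (mem y).1 hy
      obtain ⟨c, rfl⟩ := isConj_iff.1 (hK y h1 h2)
      exact ⟨c, (fix _ h1 h2).unique (by rw [mul_smul, inv_smul_smul, mul_smul, hα]) h3, rfl⟩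
    · rintro ⟨c, hc, rfl⟩
      exact (mem _).2 ⟨(hKi _).1 (isConj_iff.2 ⟨c, rfl⟩), mul_mem (mul_mem hc hα) (inv_mem hc)⟩
  have h1 : (({r ∈ KH | r⁻¹ * t * r = t}.card : ℕ) : ZMod p) = 1 := by
    have h2 := congrArg (Nat.cast : ℕ → ZMod p) (Finset.card_eq_sum_card_fiberwise maps)
    rw [Nat.cast_sum, Finset.sum_congr rfl hN, Finset.sum_const, nsmul_eq_mul] at h2
    exact (mul_right_eq_self₀.1 h2.symm).resolve_right hm
  refine or_iff_not_imp_left.2 fun hv1 => ?_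
  refine Finset.inj_on_of_surj_on_of_card_le (s := KH) (t := KH) (fun r _ => r⁻¹ * t * r) maps
    (fun s hs => ?_) le_rfl ((mem v).2 ⟨⟨hv, hv1⟩, smul_eq_of_commute fix ht ht1 hc.symm hα⟩) htK
    (by rw [mul_assoc, hc.eq, inv_mul_cancel_left, inv_mul_cancel, one_mul])
  have h2 := hN s hs
  rw [h1] at h2
  obtain ⟨r, hr⟩ := Finset.card_ne_zero.1 fun h => by rw [h] at h2; simp at h2
  exact ⟨r, (Finset.mem_filter.1 hr).1, (Finset.mem_filter.1 hr).2⟩

end action

universe u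

theorem main {G : Type u} {Ω : Type*} [Group G] [Finite G] [MulAction G Ω] [FaithfulSMul G Ω]
    [Fintype Ω] (hFT : ∀ (H : Type u) [Group H] [Finite H], Odd (Nat.card H) → Group.IsSolvable H)
    (htr : MulAction.IsPretransitive G Ω) (p : ℕ) [hp : Fact p.Prime] (hp2 : p ≠ 2)
    (hpG : p ∣ Nat.card G) (h2G : 2 ∣ Nat.card G)
    (hC : ∀ g : G, g ≠ 1 → (∃ k : ℕ, orderOf g = p ^ k) →
      Odd (Nat.card (centralizer ({g} : Set G)))) (r : ℕ) (hΩ : Fintype.card Ω = p ^ r) :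
    (∃ χ : IrrCharacter G, (charDegree (χ : G → ℂ)).factorization p = (Nat.card G).factorization p) ∨
      (IsPSolvable p G ∧ ∃ χ : IrrCharacter G,
        (charDegree (χ : G → ℂ)).factorization 2 = (Nat.card G).factorization 2) := by
  refine or_iff_not_imp_left.2 fun h0 => ?_
  push Not at h0
  have hpo : Odd p := hp.out.odd_of_ne_two hp2
  have hsyl : ∀ s : G, s * s = 1 → s ≠ 1 → ∃ P : Sylow p G, ∀ x ∈ (P : Subgroup G),
      s * x * s⁻¹ = x⁻¹ := fun s hs hs1 =>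
    exists_sylow_inverted_of_no_defect_zero hC h0 (orderOf_eq_prime (by rw [sq, hs]) hs1)
  have hidx : ∀ α : Ω, (MulAction.stabilizer G α).index = p ^ r := fun α => by
    rw [MulAction.index_stabilizer_of_transitive, Nat.card_eq_fintype_card, hΩ]
  have hdec : ∀ (P : Sylow p G) (α : Ω) (g : G), ∃ x ∈ (P : Subgroup G),
      ∃ h ∈ MulAction.stabilizer G α, x * h = g := fun P α g =>
    exists_mul_eq_of_coprime_index (by
      rw [hidx]; exact (((Nat.Prime.coprime_iff_not_dvd hp.out).2 P.not_dvd_index).symm.pow_right r)) g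
  have htrP : ∀ (P : Sylow p G) (α β : Ω), ∃ x ∈ (P : Subgroup G), x • α = β := fun P α β => by
    obtain ⟨g, rfl⟩ := htr.exists_smul_eq α β
    obtain ⟨x, hx, h, hh, rfl⟩ := hdec P α g
    exact ⟨x, hx, by rw [mul_smul, MulAction.mem_stabilizer_iff.1 hh]⟩
  have hreg : ∀ (P : Sylow p G) (s : G), (∀ x ∈ (P : Subgroup G), s * x * s⁻¹ = x⁻¹) →
      ∀ x ∈ (P : Subgroup G), ∀ α : Ω, x • α = α → x = 1 := fun P s hs x hx α h =>
    FaithfulSMul.eq_of_smul_eq_smul (α := Ω) fun β => by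
      obtain ⟨y, hy, rfl⟩ := htrP P α β
      rw [← mul_smul, mul_comm_of_inverted hs hx hy, mul_smul, h, one_smul]
  have hsq : ∀ (P : Sylow p G), ∀ x ∈ (P : Subgroup G), Odd (orderOf x) := fun P x hx => by
    obtain ⟨k, hk⟩ := isPElt_of_mem_sylow P hx
    rw [hk]; exact hpo.pow
  have fix : ∀ s : G, s * s = 1 → s ≠ 1 → ∃! ω : Ω, s • ω = ω := fun s hs hs1 => by
    have h2 : IsPGroup 2 (zpowers s) := IsPGroup.of_card (n := 1) (by
      rw [Nat.card_zpowers, orderOf_eq_prime (by rw [sq, hs]) hs1, pow_one])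
    obtain ⟨α, hα⟩ := h2.nonempty_fixed_point_of_prime_not_dvd_card Ω (by
      rw [Nat.card_eq_fintype_card, hΩ]; exact hpo.pow.not_two_dvd_nat)
    have hα' : s • α = α := hα ⟨s, mem_zpowers s⟩
    refine ⟨α, hα', fun β hβ => ?_⟩
    obtain ⟨P, hP⟩ := hsyl s hs hs1
    obtain ⟨x, hx, rfl⟩ := htrP P α β
    have h3 : x * x = 1 := hreg P s hP _ (mul_mem hx hx) α (by
      have h4 : s * x = x⁻¹ * s := by rw [← hP x hx, inv_mul_cancel_right]
      rw [← mul_smul, h4, mul_smul, hα', inv_smul_eq_iff] at hβ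
      rw [mul_smul, ← hβ])
    have h5 : x = 1 := orderOf_eq_one_iff.1 (Nat.Coprime.eq_one_of_dvd
      (hsq P x hx).coprime_two_right (orderOf_dvd_of_pow_eq_one (by rw [sq, h3])))
    rw [h5, one_smul]
  obtain ⟨t, ht2⟩ := exists_prime_orderOf_dvd_card' 2 h2G
  have ht : t * t = 1 := by rw [← sq, ← ht2, pow_orderOf_eq_one]
  have ht1 : t ≠ 1 := by rintro rfl; simp at ht2
  obtain ⟨Q, hQ⟩ := hsyl t ht ht1
  obtain ⟨α, hα, -⟩ := fix t ht ht1
  obtain ⟨z, hz, hz1⟩ := (bot_or_exists_ne_one (Q : Subgroup G)).resolve_left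
    (Q.ne_bot_of_dvd_card hpG)
  have hK : ∀ s, s * s = 1 → s ≠ 1 → IsConj t s := fun s hs hs1 => by
    obtain ⟨P, hP⟩ := hsyl s hs hs1
    obtain ⟨c, rfl⟩ := MulAction.exists_smul_eq G P Q
    have hu : c * s * c⁻¹ * z * (c * s * c⁻¹)⁻¹ = z⁻¹ := by
      rw [Sylow.coe_subgroup_smul, mem_conj_smul] at hz
      calc c * s * c⁻¹ * z * (c * s * c⁻¹)⁻¹ = c * (s * (c⁻¹ * z * c) * s⁻¹) * c⁻¹ := by group
        _ = z⁻¹ := by rw [hP _ hz]; group
    refine (isConj_of_odd_orderOf_mul (by rw [conj_mul, hs]; group) ht ?_).trans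
      (isConj_iff.2 ⟨c, rfl⟩).symm
    refine (hC z hz1 (isPElt_of_mem_sylow _ hz)).of_dvd_nat
      (orderOf_dvd_natCard _ (mem_centralizer_singleton_iff.2 ?_))
    generalize c * s * c⁻¹ = u at hu
    calc u * t * z = u * (t * z * t⁻¹) * u⁻¹ * (u * t) := by group
      _ = z * (u * t) := by rw [hQ z hz, ← conj_inv, hu, inv_inv]
  have hH : ¬ p ∣ Nat.card (MulAction.stabilizer G α) := fun h => by
    obtain ⟨y, hy⟩ := exists_prime_orderOf_dvd_card' p h
    obtain ⟨P, hP⟩ := (IsPGroup.of_card (n := 1) (G := zpowers (y : G)) (by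
      rw [Nat.card_zpowers, orderOf_coe, hy, pow_one])).exists_le_sylow
    obtain ⟨c, rfl⟩ := MulAction.exists_smul_eq G Q P
    have h1 := hP (mem_zpowers _)
    rw [Sylow.coe_subgroup_smul, mem_conj_smul] at h1
    have h2 := hreg Q t hQ _ h1 (c⁻¹ • α) (by
      rw [mul_smul, smul_inv_smul, mul_smul, MulAction.mem_stabilizer_iff.1 y.2])
    have h3 : y = 1 := Subtype.ext (by
      calc (y : G) = c * (c⁻¹ * y * c) * c⁻¹ := by group
        _ = 1 := by rw [h2]; group)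
    rw [h3, orderOf_one] at hy
    exact hp.out.one_lt.ne hy
  have hCt : ¬ p ∣ Nat.card (centralizer ({t} : Set G)) := fun h => hH (h.trans
    (card_dvd_of_le fun c hc => smul_eq_of_commute fix ht ht1
      (mem_centralizer_singleton_iff.1 hc) hα))
  have hu := unique_invol fix ht ht1 hK hα hH (dvd_card_pairs h0 ht hCt)
  have hQO : (Q : Subgroup G) ≤ pPrimeCore 2 G := fun x hx => by
    have h1 := brauer_suzuki G ht ht1 hu x⁻¹
    rw [inv_inv, show t * (x⁻¹ * t * x) = t * x⁻¹ * t⁻¹ * x by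
      rw [inv_eq_of_mul_eq_one_right ht]; simp only [mul_assoc], hQ _ (inv_mem hx), inv_inv] at h1
    obtain ⟨k, hk⟩ := hsq Q x hx
    have h2 : x = (x * x) ^ (k + 1) := by
      rw [← sq, ← pow_mul, show 2 * (k + 1) = 2 * k + 1 + 1 by ring, pow_succ, ← hk,
        pow_orderOf_eq_one, one_mul]
    rw [h2]; exact pow_mem h1 _
  have hO : ¬ 2 ∣ Nat.card (pPrimeCore 2 G) := not_dvd_card_pPrimeCore 2 G
  refine ⟨isPSolvable_of_normal (pPrimeCore 2 G) ?_ (isPSolvable_of_not_dvd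
    (not_dvd_index_of_sylow_le Q hQO)), ?_⟩
  · have := hFT (pPrimeCore 2 G) (Nat.odd_iff.2 (by omega))
    exact isPSolvable_of_isSolvable
  · obtain ⟨χ, -, h⟩ := exists_irr_defect_zero_of_mem_normal (p := 2) hO (hQO hz)
      (hC z hz1 (isPElt_of_mem_sylow _ hz)).not_two_dvd_nat
    exact ⟨χ, h⟩

end BT.OCT
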