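import Cfsg.Agent.Lib.Grp.Ord32B
import Cfsg.Agent.Lib.Block.LThree
import Cfsg.Agent.Lib.Block.Alp
import Cfsg.Agent.Lib.Block.DStarL

/-!
# Olsson's bound for `2`-blocks with nonabelian defect groups of order at most `32`
-/

set_option autoImplicit false
set_option linter.unusedSectionVars false

namespace BT

open Cfsg CT GT Subgroup
open scoped MonoidAlgebra Pointwise ComplexConjugate

variable {M : Ideal AlgInt} {hM : IsPModular 2 M}
variable {G : Type*} [Group G] [Finite G]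

theorem map_subtype_centralizer_singleton {D : Subgroup G} (u : D) :
    (centralizer ({u} : Set D)).map D.subtype = D ⊓ centralizer ({(u : G)} : Set G) := by
  ext g
  simp only [mem_map, mem_inf, mem_centralizer_singleton_iff, coe_subtype]
  constructor
  · rintro ⟨x, hx, rfl⟩
    exact ⟨x.2, congrArg Subtype.val hx⟩
  · rintro ⟨h1, h2⟩
    exact ⟨⟨g, h1⟩, Subtype.ext h2, rfl⟩

theorem card_centralizer_singleton_coe {D : Subgroup G} (u : D) :
    Nat.card (centralizer ({u} : Set D)) = Nat.card ↥(D ⊓ centralizer ({(u : G)} : Set G)) := by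
  rw [← map_subtype_centralizer_singleton, card_map_of_injective D.subtype_injective]

theorem exists_autHom_of_le_normalizer {D : Subgroup G} (Q : Subgroup D) {N : Subgroup G}
    (hN : N ≤ normalizer ((Q.map D.subtype : Subgroup G) : Set G)) :
    ∃ Θ : N →* MulAut Q, ∀ x q, ((Θ x q : D) : G) = x * q * (x : G)⁻¹ := by
  let e := equivMapOfInjective Q D.subtype D.subtype_injective
  refine ⟨(MulAut.congr e.symm).toMonoidHom.comp
    ((Q.map D.subtype).normalizerMonoidHom.comp (inclusion hN)), fun x q => ?_⟩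
  have h1 : ∀ y, ((e.symm y : D) : G) = y := fun y => by
    conv_rhs => rw [← e.apply_symm_apply y]
    rfl
  exact h1 _

theorem SPair.Le.le_NP {p : ℕ} [Fact p.Prime] {hM : IsPModular p M} {a m : SPair hM G}
    (h : a.Le m) (hn : m.Q ≤ normalizer (a.Q : Set G)) : m.Q ≤ NP ⊤ a.Q a.e := fun g hg => by
  have h1 := h.smul g
  rw [SPair.smul_of_mem hg] at h1
  exact SPair.smul_eq_iff_mem_NP.1 (h1.unique h (conj_smul_eq_of_mem_normalizer (hn hg)))

namespace MaxP

variable {B : Set (IrrCharacter G)} {m : SPair hM G} (hm : MaxP B m)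
include hm

theorem defGrp_NP_of_le_normalizer {a : SPair hM G} (h : a.Le m)
    (hn : m.Q ≤ normalizer (a.Q : Set G)) : DefGrp 2 (NP ⊤ a.Q a.e) a.e m.Q :=
  hm.max.defGrp_of_le_NP hM h le_rfl (a.bp.bIdem_NP hM le_top) (h.le_NP hn)

theorem fusRel : FusRel (fun u v : m.Q => m.Fus u v) where
  refl u := .refl u.2
  symm h := h.symm
  trans h h' := h.trans h'
  ord h := by simpa using h.orderOf_eq
  sq h := h.sq
  cent {u v} h hu hv := by
    obtain ⟨t, ht, h1⟩ := hm.exists_smul_of_fus_central h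
      (fun x hx => congrArg Subtype.val (mem_center_iff.1 hu ⟨x, hx⟩).symm)
      (fun x hx => congrArg Subtype.val (mem_center_iff.1 hv ⟨x, hx⟩).symm)
    exact ⟨m.Q.normalizerMonoidHom ⟨t, (SPair.smul_eq_self_iff.1 ht).1⟩, Subtype.ext h1⟩
  ext {u v Q} hu hQ h hmax := by
    have hQ' : Q.map m.Q.subtype = m.Q ⊓ centralizer ({(u : G)} : Set G) := by
      rw [hQ, map_subtype_centralizer_singleton]
    obtain ⟨g, hg1, hg2⟩ := hm.exists_ext h (hm.defGrp_at_of_card_le v.2 fun w hw => by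
      have := hmax ⟨w, hw.2.1⟩ hw
      rwa [card_centralizer_singleton_coe, card_centralizer_singleton_coe] at this)
    rw [← hQ'] at hg2
    set a := m.below (Q.map m.Q.subtype) with ha
    have haQ : a.Q = Q.map m.Q.subtype := SPair.below_Q (map_subtype_le Q)
    have ham : a.Le m := m.below_le _
    have hgm : ∀ q : Q, ((MulAut.conj g).toMonoidHom.comp (m.Q.subtype.comp Q.subtype)) q ∈ m.Q :=
      fun q => hg2.le (SPair.conj_mem_smul_Q.2 (haQ ▸ mem_map_of_mem _ q.2))
    refine ⟨MonoidHom.codRestrict _ m.Q hgm, fun q r hqr => ?_, Subtype.ext hg1, fun hn => ?_⟩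
    · exact Subtype.ext (Subtype.ext ((MulAut.conj g).injective (congrArg Subtype.val hqr)))
    have hn1 : m.Q ≤ normalizer (a.Q : Set G) := by
      rw [haQ]
      intro x hx
      refine mem_normalizer_of_conj_mem ?_
      rintro _ ⟨q, hq, rfl⟩
      exact ⟨_, (inferInstance : Q.Normal).conj_mem q hq ⟨x, hx⟩, rfl⟩
    have hn2 : m.Q ≤ normalizer ((g • a).Q : Set G) := by
      intro x hx
      refine mem_normalizer_of_conj_mem ?_
      rw [SPair.smul_Q, haQ]
      rintro _ ⟨_, ⟨q, hq, rfl⟩, rfl⟩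
      obtain ⟨r, hr⟩ := hn.conj_mem _ ⟨⟨q, hq⟩, rfl⟩ ⟨x, hx⟩
      exact ⟨_, ⟨r, r.2, rfl⟩, congrArg Subtype.val hr⟩
    obtain ⟨t, ht, hs⟩ := hm.max.exists_fus_normalizer hM ham (mem_top g) hg2 (by
      rw [inf_eq_left.2 (by exact hn2)]
      exact hm.defGrp_NP_of_le_normalizer hg2 hn2)
    rw [inf_eq_left.2 hn1] at hs
    have hs' : t * g ∈ normalizer (m.Q : Set G) := conj_smul_eq_iff_mem_normalizer.1
      (eq_of_le_of_card_ge (hs.conj_le hM) (card_conj_smul _ _).ge)
    have ht' : (t * g)⁻¹ * g ∈ NP ⊤ a.Q a.e := by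
      rw [← SPair.smul_eq_iff_mem_NP, mul_inv_rev, mul_smul, mul_smul,
        (SPair.smul_eq_iff_mem_NP (m := g • a)).2 (inv_mem ht), inv_smul_smul]
    obtain ⟨Θ, hΘ⟩ := exists_autHom_of_le_normalizer Q (N := NP ⊤ a.Q a.e)
      (haQ ▸ NP_le_normalizer)
    have hle := ham.le_NP hn1
    have hΘ' : ∀ x : m.Q, Θ ⟨x, hle x.2⟩ = MulAut.conjNormal x := fun x => by
      ext q
      rw [hΘ]; rfl
    refine ⟨m.Q.normalizerMonoidHom ⟨_, inv_mem hs'⟩, Θ.range, ⟨_, ⟨⟨_, ht'⟩, rfl⟩, fun q => ?_⟩,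
      ?_, fun h2 => ?_⟩
    · ext
      rw [hΘ]
      change _ = (t * g)⁻¹ * (g * q * g⁻¹) * (t * g)⁻¹⁻¹
      group
    · rintro _ ⟨x, rfl⟩
      exact ⟨_, hΘ' x⟩
    · rw [← index_comap] at h2
      refine DefGrp.not_dvd_relIndex_sup hM a.bp.bidem a.bp.inf_centralizer_le_NP
        NP_le_normalizer_inf_centralizer isFixed_NP (hm.defGrp_NP_of_le_normalizer ham hn1)
        (h2.trans (index_dvd_of_le ?_))
      rw [subgroupOf, ← map_le_map_iff_of_injective (NP ⊤ a.Q a.e).subtype_injective,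
        map_comap_eq]
      refine inf_le_right.trans (sup_le (fun x hx => ⟨⟨x, hle hx⟩, ⟨⟨x, hx⟩, (hΘ' _).symm⟩, rfl⟩)
        fun c hc => ⟨⟨c, a.bp.inf_centralizer_le_NP hc⟩, ⟨1, ?_⟩, rfl⟩)
      ext q
      rw [hΘ, map_one, ← hc.2 q (haQ ▸ mem_map_of_mem _ q.2), mul_inv_cancel_right]
      rfl

open Classical in
theorem card_height_zero_le_of_goodA {u : m.Q} (h : GoodA (fun u v : m.Q => m.Fus u v) u) :
    ((bset B).filter fun χ => blockHeight 2 B χ.1 = 0).card ≤ (commutator m.Q).index := by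
  obtain ⟨h1, h2, h3⟩ := h
  have hR := hm.defGrp_at_of_card_le u.2 fun w hw => by
    have := h1 ⟨w, hw.2.1⟩ hw
    rwa [card_centralizer_singleton_coe, card_centralizer_singleton_coe] at this
  rw [card_centralizer_singleton_coe] at h2 h3
  set R := m.Q ⊓ centralizer ({(u : G)} : Set G)
  have huR : (u : G) ∈ R := ⟨u.2, mem_centralizer_singleton_iff.2 rfl⟩
  obtain ⟨x, hx, hx'⟩ : ∃ x ∈ R, Nat.card R ≤ 2 * Nat.card ↥(zpowers x ⊔ zpowers (u : G)) := by
    by_cases hc : R ≤ zpowers (u : G)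
    · have := card_le_of_le (hc.trans (le_sup_right (a := zpowers (1 : G))))
      exact ⟨1, one_mem _, by omega⟩
    · obtain ⟨x, hx, hx'⟩ := SetLike.not_le_iff_exists.1 hc
      have := two_mul_card_le_of_lt (right_lt_sup.2 (mt zpowers_le.1 hx'))
      rw [Nat.card_zpowers, orderOf_coe] at this
      exact ⟨x, hx, by omega⟩
  obtain ⟨y, hy, hI⟩ := exists_idx_of_card_le (sup_le (zpowers_le.2 hx) (zpowers_le.2 huR)) hx'
  have := hm.card_height_zero_le u.2 (SPair.blockRank_at_le_three u.2 hR huR hx hy hI)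
  rw [← SPair.card_defGrp hR] at this
  exact this.trans h2

theorem exists_int_height_zero_of_idx {n : ℕ} {x y : G} (hn : 2 ≤ n) (hxm : x ∈ m.Q)
    (hym : y ∈ m.Q) (hord : orderOf x = 2 ^ (n + 1))
    (hconj : y * x * y⁻¹ = x⁻¹ ∨ y * x * y⁻¹ = x⁻¹ * x ^ 2 ^ n)
    (hI : Idx m.Q (centralizer {x}) y) (hy : y ∉ centralizer ({x} : Set G))
    {φ : centralizer ((m.at x).Q : Set G) → ℂ} (hφ : UniB 2 (m.at x).blk φ)
    (hd : Nat.card (m.at x).blk = 2 ^ blockDefect 2 (m.at x).blk) : ∃ a : IrrCharacter G → ℤ,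
    2 ^ n * ∑ χ ∈ bset B, a χ ^ 2 = 2 * Nat.card (m.at x).blk ∧
      ∀ χ ∈ B, (Odd (a χ) ↔ blockHeight 2 B χ.1 = 0) := by
  classical
  obtain ⟨N, hN⟩ : ∃ N, N = 2 ^ (n + 1) := ⟨_, rfl⟩
  have : NeZero N := ⟨hN ▸ pow_ne_zero _ two_ne_zero⟩
  have hx : orderOf x = N := hN ▸ hord
  have h4 : 2 ^ 2 ≤ N := hN ▸ Nat.pow_le_pow_right two_pos (by omega)
  have hζ := isPrimitiveRoot_zeta (NeZero.ne N)
  have h0 : zeta N ≠ 0 := hζ.ne_zero (NeZero.ne N)
  obtain ⟨j, η, hj, hη, hjη⟩ : ∃ (j : ℕ) (η : ℤ), y * x * y⁻¹ = x ^ j ∧ (η = 1 ∨ η = -1 ∧ 2 ≤ n) ∧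
      zeta N ^ j = η * (zeta N)⁻¹ := by
    rcases hconj with h1 | h2
    · refine ⟨N - 1, 1, ?_, Or.inl rfl, ?_⟩
      · rw [h1, inv_eq_iff_mul_eq_one, ← pow_succ', Nat.sub_add_cancel NeZero.one_le, ← hx,
          pow_orderOf_eq_one]
      · rw [pow_sub₀ _ h0 NeZero.one_le, hζ.pow_eq_one]; simp
    · refine ⟨2 ^ n - 1, -1, ?_, Or.inr ⟨rfl, hn⟩, ?_⟩
      · rw [h2, inv_mul_eq_iff_eq_mul, ← pow_succ', Nat.sub_add_cancel Nat.one_le_two_pow]
      · rw [pow_sub₀ _ h0 Nat.one_le_two_pow, zeta_pow_half hN]; simp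
  have hcases : ∀ {u g : G}, u ∈ zpowers x → g ∈ m.Q →
      g * u * g⁻¹ = u ∨ g * u * g⁻¹ = y * u * y⁻¹ := fun {u g} hu hg => by
    have h1 : ∀ {c v : G}, c ∈ centralizer ({x} : Set G) → v ∈ zpowers x → c * v * c⁻¹ = v :=
      fun {c v} hc hv => by
        rw [← centralizer_zpowers_eq'] at hc
        rw [← hc v hv, mul_inv_cancel_right]
    refine (hI g hg).imp (fun h => h1 h hu) fun h => ?_
    obtain ⟨i, rfl⟩ := mem_zpowers_iff.1 hu
    calc g * x ^ i * g⁻¹ = g * y⁻¹ * (y * x * y⁻¹) ^ i * (g * y⁻¹)⁻¹ := by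
          rw [conj_zpow]; group
      _ = _ := by
          rw [h1 h (zpow_mem (hj ▸ pow_mem (mem_zpowers x) j) i), conj_zpow]
  have hjc : j.Coprime N := by
    have h1 : orderOf (x ^ j) = orderOf x := by rw [← hj, orderOf_conj']
    rw [orderOf_pow, Nat.div_eq_self] at h1
    rw [← hx]
    exact Nat.Coprime.symm (h1.resolve_left (orderOf_pos x).ne')
  set s := ZMod.unitOfCoprime j hjc
  have hs : (s : ZMod N) = j := rfl
  let P : (ZMod N)ˣ → G := fun k => x ^ (k : ZMod N).val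
  have hPX : ∀ k, P k ∈ zpowers x := fun k => pow_mem (mem_zpowers x) _
  have hPm : ∀ k, P k ∈ m.Q := fun k => pow_mem hxm _
  have hPc : ∀ k : (ZMod N)ˣ, (k : ZMod N).val.Coprime (orderOf x) := fun k => by
    rw [hx]; exact ZMod.val_coe_unit_coprime k
  have hPz : ∀ k, zpowers (P k) = zpowers x := fun k =>
    eq_of_le_of_card_ge (zpowers_le.2 (hPX k)) (by
      rw [Nat.card_zpowers, Nat.card_zpowers, (hPc k).symm.orderOf_pow])
  have hPi : Function.Injective P := fun k k' e => Units.ext (ZMod.val_injective _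
    (pow_injOn_Iio_orderOf (by rw [hx]; exact ZMod.val_lt _) (by rw [hx]; exact ZMod.val_lt _) e))
  have hPs : ∀ k, P (k * s) = y * P k * y⁻¹ := fun k => by
    simp only [P]
    rw [← conj_pow, hj, ← pow_mul, pow_eq_pow_iff_modEq, hx, ← ZMod.natCast_eq_natCast_iff]
    simp [hs, mul_comm]
  have hP1 : P 1 = x := by
    have : Fact (1 < N) := ⟨by omega⟩
    simp [P, ZMod.val_one]
  have hs1 : ∀ k, k * s ≠ k := fun k e => by
    have h1 := hPs 1
    rw [mul_eq_left.1 e, mul_one, hP1, eq_mul_inv_iff_mul_eq] at h1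
    exact hy (mem_centralizer_singleton_iff.2 h1.symm)
  have hfi : ∀ k k', m.Fus (P k) (P k') ↔ k' = k ∨ k' = k * s := fun k k' => by
    refine ⟨fun h1 => ?_, ?_⟩
    · obtain ⟨g, hg, h2⟩ := hm.exists_conj_of_fus h1 ((hPz k).trans (hPz k').symm) (fun g hg => by
        rw [hPz]
        refine mem_normalizer_of_conj_mem fun u hu => ?_
        rcases hcases hu hg with h3 | h3 <;> rw [h3]
        · exact hu
        · obtain ⟨i, rfl⟩ := mem_zpowers_iff.1 hu
          rw [← conj_zpow, hj]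
          exact zpow_mem (pow_mem (mem_zpowers x) j) i)
        fun t ht => conj_eq_of_conj_mem_zpowers (SPair.isPElt_of_mem h1.1) ht
      rw [← hPi.eq_iff, ← hPi.eq_iff, hPs, ← h2]
      exact hcases (hPX k) hg
    · rintro (rfl | rfl)
      · exact .refl (hPm _)
      · exact hPs k ▸ SPair.fus_conj_of_mem hym (hPm k)
  have hat : ∀ k, m.at (P k) = m.at x := fun k => SPair.at_pow hxm (hPc k)
  have hC := SPair.centralizer_at hxm
  have hgal : ∀ (k : (ZMod N)ˣ) (χ : IrrCharacter G), galk k (udec (m.at x).blk x χ.1) =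
      udec (m.at x).blk (P k) χ.1 := fun k χ =>
    map_udec hC (irr_isCharacter χ).isGen (hx ▸ pow_orderOf_eq_one x) (hPc k) _
      fun ζ hζ => galk_of_pow_eq_one k hζ
  have hfus : ∀ k (χ : IrrCharacter G), udec (m.at x).blk (P (k * s)) χ.1 =
      udec (m.at x).blk (P k) χ.1 := fun k χ =>
    (((hfi k _).2 (Or.inr rfl)).udec_eq (hat _) (hat _) hφ (irr_isClassFunction χ)).symm
  have hci : ∀ χ : IrrCharacter G, CInt N (udec (m.at x).blk x χ.1) := fun χ =>
    cInt_of_isIntegral (hx ▸ udec_mem_cycField hC _ (irr_isCharacter χ).isGen)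
      (isIntegral_udec hC (irr_isCharacter χ).isGen)
  have hfix : ∀ χ : IrrCharacter G, galk s (udec (m.at x).blk x χ.1) = udec (m.at x).blk x χ.1 :=
    fun χ => by rw [hgal, ← one_mul s, hfus, hP1]
  have hsζ : galk s (zeta N) = η * (zeta N)⁻¹ := by
    rw [galk_of_pow_eq_one _ hζ.pow_eq_one, hs, pow_val_natCast hζ.pow_eq_one, hjη]
  choose a ha ha' using fun χ => (hci χ).exists_int_gav_sub_mem' hN hM s (hfix χ) hη hsζ
  refine ⟨a, ?_, fun χ hχ => ?_⟩
  · have h1 : ∀ k k' : (ZMod N)ˣ, ∑ χ ∈ bset B, udec (m.at x).blk (P k) χ.1 *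
        conj (udec (m.at x).blk (P k') χ.1) = if k' ∈ ({k, k * s} : Finset (ZMod N)ˣ) then
          (Nat.card (m.at x).blk : ℂ) else 0 := fun k k' => by
      have h2 := hm.sum_udec_mul_conj_self (hPm k) (hat k) hφ
      simp only [Finset.mem_insert, Finset.mem_singleton]
      split_ifs with h3
      · rcases h3 with rfl | rfl
        · exact h2
        · simpa only [hfus] using h2
      · exact hm.sum_udec_mul_conj_of_not_fus (hPm k) (hPm k') (fun h5 => h3 ((hfi k k').1 h5))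
          (hat k) (hat k') hφ hφ
    have h2 : ∀ χ : IrrCharacter G, ((a χ ^ 2 : ℤ) : ℂ) = ((N.totient : ℂ)⁻¹) ^ 2 * ∑ k, ∑ k',
        udec (m.at x).blk (P k) χ.1 * conj (udec (m.at x).blk (P k') χ.1) := fun χ => by
      have h3 := congrArg conj (ha χ)
      rw [map_intCast] at h3
      rw [Int.cast_pow, pow_two]
      nth_rw 2 [← h3]
      rw [← ha, gav_def, ← Finset.sum_mul_sum, ← map_sum]
      simp only [hgal, map_mul, map_inv₀, map_natCast]
      ring
    have h3 : (N.totient : ℂ) = 2 ^ n := by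
      rw [hN, Nat.totient_prime_pow_succ Nat.prime_two]; simp
    have h5 : ((2 ^ n * ∑ χ ∈ bset B, a χ ^ 2 : ℤ) : ℂ) =
        (2 * Nat.card (m.at x).blk : ℤ) := by
      rw [Int.cast_mul, Int.cast_sum]
      simp only [h2]
      rw [← Finset.mul_sum, Finset.sum_comm, Finset.sum_congr rfl fun k _ => Finset.sum_comm]
      simp only [h1, Finset.sum_ite_mem, Finset.univ_inter, Finset.sum_const,
        Finset.card_pair (hs1 _).symm, Finset.card_univ, ZMod.card_units_eq_totient, nsmul_eq_mul,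
        h3]
      push_cast
      field_simp
    exact_mod_cast h5
  · have h1 := (hci χ).conj.exists_int_gav_sub_mem' hN hM s (by
      rw [ringHom_conj_of_mem_cycField _ (NeZero.ne N) (hci χ).mem_cycField, hfix]) hη hsζ
    obtain ⟨b, hb, hb'⟩ := h1
    rw [gav_conj (hci χ).mem_cycField, ha, map_intCast, Int.cast_inj] at hb
    have h2 : udec (m.at x).blk x χ.1 * conj (udec (m.at x).blk x χ.1) - (a χ * a χ : ℤ) ∈
        locIdeal hM := by
      have := add_mem (mul_mem_locIdeal_right hM (ha' χ)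
        (mem_locRing_of_isIntegral hM (hci χ).conj.isIntegral))
        (mul_mem_locIdeal_left hM (intCast_mem _ (a χ)) hb')
      convert this using 1
      rw [← hb]; push_cast; ring
    have h3 := hm.udec_mul_conj_mem_iff hxm hφ hd hχ
    rw [← (locIdeal hM).add_mem_cancel_right (neg_mem h2), ← sub_eq_add_neg, sub_sub_cancel,
      intCast_mem_locIdeal_iff] at h3
    rw [← not_iff_not, ← ne_eq, ← h3, Int.not_odd_iff_even, Nat.cast_ofNat, ← even_iff_two_dvd,
      Int.even_mul, or_self]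

open Classical in
theorem card_height_zero_le_of_goodB {a t : m.Q} {n : ℕ} (h : GoodB a t n) :
    ((bset B).filter fun χ => blockHeight 2 B χ.1 = 0).card ≤ (commutator m.Q).index := by
  have hord : orderOf (a : G) = 2 ^ (n + 1) := by rw [orderOf_coe, h.ord]
  have hle := h.le
  have hcard := h.ab.card
  rw [card_centralizer_singleton_coe] at hle hcard
  set R := m.Q ⊓ centralizer ({(a : G)} : Set G) with hRdef
  have haR : (a : G) ∈ R := ⟨a.2, mem_centralizer_singleton_iff.2 rfl⟩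
  have hab : ∀ x ∈ R, ∀ y ∈ R, Commute x y := fun x hx y hy =>
    congrArg Subtype.val (h.ab.comm ⟨x, hx.1⟩
      (mem_centralizer_singleton_iff.2 (Subtype.ext (mem_centralizer_singleton_iff.1 hx.2)))
      ⟨y, hy.1⟩
      (mem_centralizer_singleton_iff.2 (Subtype.ext (mem_centralizer_singleton_iff.1 hy.2))))
  obtain ⟨y, -, hy⟩ := exists_idx_of_card_le (zpowers_le.2 haR) (by
    rwa [Nat.card_zpowers, orderOf_coe])
  obtain ⟨⟨φ, hφ⟩, h1, h2⟩ := hm.exists_uniB_at_of_defGrp a.2 hRdef.symm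
    (fun x hx y hy => hab y hy x hx) (hm.defGrp_at_of_card_le a.2 fun w hw => by
      have := h.full ⟨w, hw.2.1⟩ (by rw [← orderOf_coe, ← orderOf_coe, hw.orderOf_eq])
      rwa [card_centralizer_singleton_coe, card_centralizer_singleton_coe] at this)
    fun s hs _ hN => mem_centralizer_of_abelian_idx (m.pgrp.to_le inf_le_left) hab
      (fun u hu v hv => hy.inv_mul_mem hu hv) haR (fun e => by
        have h3 := Nat.le_of_dvd two_pos (orderOf_dvd_of_pow_eq_one ((pow_two _).trans e))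
        have h4 : 2 ^ 2 ≤ 2 ^ (n + 1) := Nat.pow_le_pow_right two_pos (by have := h.two_le; omega)
        omega) hs hN
  obtain ⟨c, hc, hc'⟩ := hm.exists_int_height_zero_of_idx h.two_le a.2 t.2 hord
    (h.conj.imp (congrArg Subtype.val) (congrArg Subtype.val))
    (fun g hg => ((h.ab.idx h.notMem) ⟨g, hg⟩ (mem_top _)).imp
      (fun e => mem_centralizer_singleton_iff.2
        (congrArg Subtype.val (mem_centralizer_singleton_iff.1 e)))
      fun e => mem_centralizer_singleton_iff.2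
        (congrArg Subtype.val (mem_centralizer_singleton_iff.1 e)))
    (fun e => h.notMem (mem_centralizer_singleton_iff.2
      (Subtype.ext (mem_centralizer_singleton_iff.1 e)))) hφ (h1.trans h2)
  have h3 : (((bset B).filter fun χ => blockHeight 2 B χ.1 = 0).card : ℤ) ≤
      ∑ χ ∈ bset B, c χ ^ 2 := by
    rw [Finset.card_filter]
    push_cast
    refine Finset.sum_le_sum fun χ hχ => ?_
    split_ifs with h4
    · have h5 := (hc' χ (mem_bset.1 hχ)).2 h4
      have h6 : c χ ≠ 0 := fun e => by simp [e] at h5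
      exact Int.add_one_le_of_lt (sq_pos_of_ne_zero h6)
    · exact sq_nonneg _
  have h4 := mul_le_mul_of_nonneg_left h3 (pow_nonneg (two_pos.le : (0 : ℤ) ≤ 2) n)
  rw [hc, h1] at h4
  have h5 : 2 ^ n * ((bset B).filter fun χ => blockHeight 2 B χ.1 = 0).card ≤ Nat.card m.Q := by
    rw [hcard]; exact_mod_cast h4
  rw [← (commutator m.Q).card_mul_index] at h5
  exact Nat.le_of_mul_le_mul_left ((Nat.mul_le_mul_right _ h.bound).trans h5) Nat.card_pos

end MaxP

variable (hM) in
include hM in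
/-- Olsson's bound for nonabelian defect groups of order at most `32`. -/
theorem card_height_zero_le_index {B : Set (IrrCharacter G)} (hB : IsPBlock M B) {D : Subgroup G}
    (hD : IsDefectGroup 2 M B D) (h32 : Nat.card D ≤ 32) (hna : commutator D ≠ ⊥) :
    Nat.card {χ : IrrCharacter G // χ ∈ B ∧ blockHeight 2 B χ.1 = 0} ≤ (commutator D).index := by
  classical
  obtain ⟨m, hm, rfl⟩ := exists_maxP hM hB hD
  have h1 : Nat.card {χ : IrrCharacter G // χ ∈ B ∧ blockHeight 2 B χ.1 = 0} =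
      ((bset B).filter fun χ => blockHeight 2 B χ.1 = 0).card := by
    rw [← Nat.card_eq_finsetCard]
    exact Nat.card_congr (Equiv.subtypeEquivRight fun χ => by simp [mem_bset])
  rw [h1]
  rcases hm.fusRel.exists_good m.pgrp h32 hna with ⟨u, hu⟩ | ⟨a, t, n, h⟩
  exacts [hm.card_height_zero_le_of_goodA hu, hm.card_height_zero_le_of_goodB h]

end BT
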