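import Cfsg.Agent.Lib.Block.CoverPrin
import Cfsg.Agent.Lib.Block.Principal
import Cfsg.Agent.Lib.Char.Degrees

/-! Principal block versions of Thompson's theorem on character degrees. -/

set_option autoImplicit false
set_option linter.unusedSectionVars false
open Cfsg CT MulAction
open scoped MonoidAlgebra Pointwise

namespace BT

variable {p : ℕ} [hp : Fact p.Prime] {M : Ideal AlgInt} (hM : IsPModular p M)
variable {G : Type*} [Group G] [Finite G]

include hM in
/-- The principal block version of Isaacs 12.1. -/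
theorem sum_principal_pResidual_modEq
    [DecidablePred fun χ : IrrCharacter G =>
      χ ∈ principalBlock M G ∧ ¬ p ∣ charDegree χ.1 ∧ ¬ p ∣ detOrder χ.1] :
    ∑ θ ∈ bset (principalBlock M (pResidual p G)), charDegree θ.1 ^ 2 ≡
      ∑ χ : IrrCharacter G with χ ∈ principalBlock M G ∧ ¬ p ∣ charDegree χ.1 ∧
        ¬ p ∣ detOrder χ.1, charDegree χ.1 ^ 2 [MOD p] := by
  classical
  set N := pResidual p G with hN
  obtain ⟨k, hk⟩ := GT.exists_index_pResidual p G
  have hcop : ∀ n, ¬ p ∣ n → N.index.Coprime n := fun n hn => by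
    rw [hk]; exact ((Nat.Prime.coprime_iff_not_dvd hp.out).2 hn).pow_left k
  have hmem : ∀ (a : G) (θ : IrrCharacter N), a • θ ∈ principalBlock M N ↔
      θ ∈ principalBlock M N := fun a θ => by
    conv_lhs => rw [← smul_principalBlock (M := M) (N := N) a]
    exact Set.smul_mem_smul_set_iff
  rw [bset_eq, Finset.sum_filter]
  refine (sum_modEq_sum_fixed (A := G) (p := p) (fun θ => ?_) _
    (fun a θ => by rw [charDegree_conjSmul]; simp only [hmem])).trans ?_
  · have h1 : (stabilizer G θ).index ∣ p ^ k := hk ▸ Subgroup.index_dvd_of_le (le_inertia θ)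
    obtain ⟨a, -, ha⟩ := (Nat.dvd_prime_pow hp.out).1 h1
    rcases a with _ | a
    · left
      rw [pow_zero, Subgroup.index_eq_one] at ha
      exact forall_smul_iff_inertia_eq_top.2 ha
    · right; rw [ha]; exact dvd_pow_self p a.succ_ne_zero
  rw [← Finset.sum_filter,
    ← Finset.sum_filter_add_sum_filter_not _ (fun θ : IrrCharacter N => ¬ p ∣ charDegree θ.1)]
  have h0 : p ∣ ∑ θ ∈ ((Finset.univ.filter fun θ : IrrCharacter N => ∀ a : G, a • θ = θ).filter
      (fun θ => θ ∈ principalBlock M N)).filter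
      (fun θ => ¬ ¬ p ∣ charDegree θ.1), charDegree θ.1 ^ 2 :=
    Finset.dvd_sum fun θ hθ => (not_not.1 (Finset.mem_filter.1 hθ).2).pow two_ne_zero
  refine ((Nat.ModEq.refl _).add ((Nat.modEq_zero_iff_dvd).2 h0)).trans ?_
  rw [add_zero]
  refine Eq.subst (motive := fun x => x ≡ _ [MOD p]) ?_ (Nat.ModEq.refl _)
  have hirr : ∀ χ : IrrCharacter G, ¬ p ∣ charDegree χ.1 → IsIrrCharacter N (res N χ.1) :=
    fun χ h => isIrr_res_of_coprime (hcop _ h)
  have hdet : ∀ θ : IrrCharacter N, N.index.Coprime (detOrder θ.1) := fun θ =>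
    hcop _ (not_dvd_detOrder_of_pResidual_eq_top GT.pResidual_pResidual θ.1)
  have hlo : ∀ (χ : IrrCharacter G) (θ : IrrCharacter N), res N χ.1 = θ.1 →
      LiesOver N χ.1 θ.1 := fun χ θ h => liesOver_of_res_eq h
  refine Finset.sum_bij (fun χ hχ => ⟨res N χ.1, hirr χ (Finset.mem_filter.1 hχ).2.2.1⟩)
    ?_ ?_ ?_ ?_
  · intro χ hχ
    simp only [Finset.mem_filter, Finset.mem_univ, true_and] at hχ ⊢
    exact ⟨⟨smul_eq_of_res_eq (irr_isClassFunction χ) rfl,
      mem_principal_of_liesOver hM hχ.1 (hlo χ _ rfl)⟩, by rw [charDegree_res]; exact hχ.2.1⟩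
  · intro χ hχ ψ hψ e
    have e' : res N χ.1 = res N ψ.1 := congrArg Subtype.val e
    have hχ' := (Finset.mem_filter.1 hχ).2.2
    have hψ' := (Finset.mem_filter.1 hψ).2.2
    let θ : IrrCharacter N := ⟨res N χ.1, hirr χ hχ'.1⟩
    exact (existsUnique_canonical_extension N θ
      (forall_smul_iff.1 (smul_eq_of_res_eq (irr_isClassFunction χ) rfl))
      (hcop _ (by rw [charDegree_res]; exact hχ'.1)) (hdet θ)).unique ⟨rfl, hcop _ hχ'.2⟩
      ⟨e'.symm, hcop _ hψ'.2⟩
  · intro θ hθ
    simp only [Finset.mem_filter, Finset.mem_univ, true_and] at hθ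
    obtain ⟨χ, ⟨h1, h2⟩, -⟩ := existsUnique_canonical_extension N θ (forall_smul_iff.1 hθ.1.1)
      (hcop _ hθ.2) (hdet θ)
    have hχB := mem_principal_of_liesOver_of_index_eq_pow hM hk hθ.1.2 (hlo χ θ h1)
    refine ⟨χ, ?_, Subtype.ext h1⟩
    simp only [Finset.mem_filter, Finset.mem_univ, true_and]
    refine ⟨hχB, by rw [← charDegree_res N, h1]; exact hθ.2, ?_⟩
    by_cases hk0 : k = 0
    · rw [hk0, pow_zero, Subgroup.index_eq_one] at hk
      exact not_dvd_detOrder_of_pResidual_eq_top hk _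
    · rw [hk] at h2
      exact (Nat.Prime.coprime_iff_not_dvd hp.out).1
        (Nat.Coprime.coprime_dvd_left (dvd_pow_self p hk0) h2)
  · intro χ _
    rw [charDegree_res]

include hM in
/-- A linear character lies in the principal block iff it is `≡ 1` on the classes of
`p'`-size. -/
theorem linear_mem_principal_iff {χ : IrrCharacter G} (h1 : charDegree χ.1 = 1) :
    χ ∈ principalBlock M G ↔ ∀ g : G, ¬ p ∣ (Subgroup.centralizer ({g} : Set G)).index →
      χ.1 g - 1 ∈ locIdeal hM := by
  have h2 : χ.1 1 = 1 := by rw [irr_apply_one, h1, Nat.cast_one]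
  have h3 : ∀ g, centralChar (fun _ : G => (1 : ℂ)) g - centralChar χ.1 g =
      -((χ.1 g - 1) * ((Subgroup.centralizer ({g} : Set G)).index : ℂ)) := fun g => by
    simp only [centralChar, h2]; ring
  have hi : ∀ g, χ.1 g - 1 ∈ locRing hM := fun g =>
    sub_mem (mem_locRing_of_isIntegral hM ((irr_isCharacter χ).isIntegral g)) (one_mem _)
  change (∀ g, _ ∈ locIdeal hM) ↔ _
  refine forall_congr' fun g => ?_
  rw [h3, neg_mem_iff]
  by_cases hd : p ∣ (Subgroup.centralizer ({g} : Set G)).index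
  · exact ⟨fun _ h => absurd hd h, fun _ =>
      mul_mem_locIdeal_left hM (hi g) ((natCast_mem_locIdeal_iff hM _).2 hd)⟩
  · rw [mul_mem_locIdeal_iff_of_unit hM (natCast_mem _ _)
      (fun h => hd ((natCast_mem_locIdeal_iff hM _).1 h))]
    exact ⟨fun h _ => h, fun h => h hd⟩

include hM in
/-- If the `p'`-degree members of the principal block are linear, there is a normal
`p`-complement. -/
theorem hasNormalPComplement_of_principal_degrees
    (h : ∀ χ ∈ principalBlock M G, ¬ p ∣ charDegree χ.1 → charDegree χ.1 = 1) :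
    HasNormalPComplement p G := by
  classical
  refine GT.hasNormalPComplement_iff_not_dvd_card_pResidual.2 fun hd => ?_
  have h1 := sum_principal_pResidual_modEq (G := G) hM
  set K : Subgroup G := (GT.pPrimeResidual p G ⊔ commutator G) ⊔ Subgroup.normalClosure
    {g : G | ¬ p ∣ (Subgroup.centralizer ({g} : Set G)).index} with hK
  have h2 : (Finset.univ.filter fun χ : IrrCharacter G => χ ∈ principalBlock M G ∧
      ¬ p ∣ charDegree χ.1 ∧ ¬ p ∣ detOrder χ.1) = Finset.univ.filter fun χ : IrrCharacter G =>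
      K ≤ ker χ.1 := by
    ext χ
    have hn : (ker χ.1).Normal := (irr_isCharacter χ).ker_normal
    simp only [Finset.mem_filter, Finset.mem_univ, true_and, hK, sup_le_iff]
    constructor
    · rintro ⟨h0, h3, h4⟩
      have h5 := h χ h0 h3
      refine ⟨⟨(not_dvd_detOrder_iff_le_ker h5).1 h4,
        (irr_degree_eq_one_iff_commutator_le_ker χ).1 h5⟩, ?_⟩
      refine Subgroup.normalClosure_le_normal fun g hg => ?_
      have h6 := (linear_mem_principal_iff hM h5).1 h0 g hg
      obtain ⟨f, hf⟩ := (irr_isCharacter χ).exists_monoidHom_of_degree_one h5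
      have h7 : ¬ p ∣ (ker χ.1).index :=
        GT.pPrimeResidual_le_iff.1 ((not_dvd_detOrder_iff_le_ker h5).1 h4)
      have h8 : g ^ (ker χ.1).index ∈ ker χ.1 := Subgroup.pow_index_mem _ g
      change g ∈ ker χ.1
      rw [hf] at h6
      rw [hf, mem_ker_monoidHom]
      refine eq_one_of_sub_one_mem_locIdeal hM h7 ?_ h6
      rw [← map_pow, ← mem_ker_monoidHom, ← hf]
      exact h8
    · rintro ⟨⟨h3, h4⟩, h6⟩
      have h5 := (irr_degree_eq_one_iff_commutator_le_ker χ).2 h4
      refine ⟨(linear_mem_principal_iff hM h5).2 fun g hg => ?_,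
        by rw [h5]; exact hp.out.not_dvd_one, (not_dvd_detOrder_iff_le_ker h5).2 h3⟩
      have h7 : g ∈ ker χ.1 := h6 (Subgroup.subset_normalClosure hg)
      rw [(irr_isCharacter χ).mem_ker_iff.1 h7, irr_apply_one, h5, Nat.cast_one, sub_self]
      exact zero_mem _
  rw [h2, sum_le_ker_degree_sq] at h1
  have h3 := factorization_sum_degree_sq hM (isPBlock_principalBlock (M := M) (G := pResidual p G))
  rw [blockDefect_principal hM] at h3
  have h4 := hp.out.factorization_pos_of_dvd Nat.card_pos.ne' hd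
  have h5 : p ∣ ∑ θ ∈ bset (principalBlock M (pResidual p G)), charDegree θ.1 ^ 2 :=
    Nat.dvd_of_factorization_pos (by omega)
  exact GT.not_dvd_index_pPrimeResidual p G
    (((h1.dvd_iff dvd_rfl).1 h5).trans (Subgroup.index_dvd_of_le (le_sup_left.trans le_sup_left)))

include hM in
theorem degree_eq_one_of_principal_of_hasNormalPComplement (h : HasNormalPComplement p G)
    {χ : IrrCharacter G} (hχ : χ ∈ principalBlock M G) (hd : ¬ p ∣ charDegree χ.1) :
    charDegree χ.1 = 1 := by
  have h1 := irr_degree_dvd_index_of_le_ker χ (pPrimeCore_le_ker_of_mem_principal hM hχ)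
  rw [index_pPrimeCore_of_hasNormalPComplement h] at h1
  obtain ⟨a, -, ha⟩ := (Nat.dvd_prime_pow hp.out).1 h1
  rcases a with _ | a
  · rw [ha, pow_zero]
  · exact absurd (ha ▸ dvd_pow_self p a.succ_ne_zero) hd

end BT
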