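import Cfsg.Agent.Lib.Block.KBAb
import Cfsg.Agent.Lib.Block.DStarL
import Cfsg.Agent.Lib.Grp.QStar

/-!
# Blocks with defect group `Q₈ × C₂` or `Q₈ ∘ C₄` have at most three Brauer characters
-/

set_option autoImplicit false
set_option linter.unusedSectionVars false

namespace BT

open Cfsg CT GT Subgroup

universe u

/-- Averaging a linear character of a `p`-group over a `p'`-group of outer automorphisms. -/
theorem exists_invariant_units_hom' {p : ℕ} [Fact p.Prime] {G : Type*} [Group G] [Finite G]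
    {P T : Subgroup G} (hP : IsPGroup p P) (hT : T ≤ normalizer (P : Set G))
    (hp : ¬ p ∣ (P ⊔ centralizer (P : Set G)).relIndex T) {μ : P →* ℂˣ} {v : P} (hv : μ v ≠ 1)
    (hvT : ∀ t ∈ T, ∀ y : P, t⁻¹ * v * t = y → μ y = μ v) : ∃ f : P →* ℂˣ, f v ≠ 1 ∧
      ∀ t ∈ T, ∀ x y : P, t * x * t⁻¹ = y → f x = f y := by
  let ψ := P.normalizerMonoidHom.comp (inclusion hT)
  let φ : T →* Equiv.Perm (P →* ℂˣ) :=
    MonoidHom.mk' (fun t => MulEquiv.monoidHomCongrLeftEquiv (ψ t)) fun s t => by rw [map_mul]; rfl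
  have hφ : ∀ t ν (x : P), φ t ν x = ν (ψ t⁻¹ x) := fun t ν x => by rw [map_inv]; rfl
  have hψ : ∀ t (x : P), (ψ t x : G) = t * x * (t : G)⁻¹ := fun _ _ => rfl
  have hcard : ¬ p ∣ Nat.card φ.range := fun h => hp (h.trans (by
    rw [← index_ker]
    refine index_dvd_of_le fun t ht => Equiv.ext fun ν => MonoidHom.ext fun x => ?_
    obtain ⟨a, ha, c, hc, h1⟩ := (mem_sup_of_le_normalizer_right (le_normalizer.trans
      (normalizer_le_normalizer_centralizer P))).1 (inv_mem (mem_subgroupOf.1 ht))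
    rw [hφ, show ψ t⁻¹ x = ⟨a, ha⟩ * x * ⟨a, ha⟩⁻¹ from Subtype.ext (by
      rw [hψ, coe_inv, ← h1, mul_assoc a, ← hc x x.2]; simp [mul_assoc])]
    simp))
  have := Fintype.ofFinite φ.range
  refine ⟨∏ σ : φ.range, σ.1 μ, fun h => hv ?_, fun t ht x y h => ?_⟩
  · have h1 : ∀ σ : φ.range, σ.1 μ v = μ v := by
      rintro ⟨_, t, rfl⟩
      exact (hφ t μ v).trans (hvT t t.2 _ (by rw [hψ, coe_inv, inv_inv]))
    rw [MonoidHom.finsetProd_apply, Finset.prod_congr rfl fun σ _ => h1 σ, Finset.prod_const,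
      Finset.card_univ, ← Nat.card_eq_fintype_card] at h
    exact ((isPElt_of_isPGroup hP v).map μ).eq_one_of_isPRegular (isPRegular_of_pow_eq_one hcard h)
  · rw [MonoidHom.finsetProd_apply, MonoidHom.finsetProd_apply]
    exact Fintype.prod_equiv (Equiv.mulLeft (⟨_, ⟨t, ht⟩, rfl⟩ : φ.range)) _ _ fun σ =>
      ((hφ ⟨t, ht⟩ (σ.1 μ) y).trans (congrArg _ (Subtype.ext (by
        rw [hψ, coe_inv, ← h]; simp [mul_assoc])))).symm

variable {M : Ideal AlgInt} {hM : IsPModular 2 M}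
variable {G : Type u} [Group G] [Finite G]

namespace MaxP

variable {B : Set (IrrCharacter G)} {m : SPair hM G} (hm : MaxP B m) {z c : G} (h : QStar m.Q z c)
include hm h

theorem qs_centric {a : SPair hM G} (ha : a.Le m) (hc : m.Q ⊓ centralizer (a.Q : Set G) ≤ a.Q)
    {t : G} (ht : IsPRegular 2 t) (hta : t • a = a) :
    t ∈ centralizer (a.Q : Set G) ∨ t • m = m := by
  rcases h.centric ha.le hc with h1 | ⟨g, hg, hg', h1⟩
  · exact .inr (ha.unique (.refl m) h1 ▸ hta)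
  · exact .inl (h1 ▸ h.mem_centralizer hg hg' ht (h1 ▸ (SPair.smul_eq_self_iff.1 hta).1))

theorem qs_fus_mul {w : G} (hw : w ∈ m.Q) (hw' : ∀ x ∈ m.Q, Commute w x) {u v : G}
    (huv : m.Fus u v) : m.Fus (u * w) (v * w) := by
  have key : ∀ {x y}, m.Fus x y → {k | m.Fus y k} = {k | m.Fus x k} := fun h1 =>
    Set.ext fun _ => ⟨h1.trans, h1.symm.trans⟩
  refine (hm.eq_of_fus (fun u => {k | m.Fus (u * w) k}) (fun g hg u hu => key ?_)
    (fun a ha hc t ht hta u hu => key ?_) huv).ge (.refl (mul_mem huv.2.1 hw))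
  · have := SPair.fus_conj_of_mem hg (mul_mem hu hw)
    rwa [← conj_mul, mul_assoc g w, (hw' _ (inv_mem hg)).eq, mul_inv_cancel_left] at this
  · have := ha.fus hta (mul_mem hu (hc ⟨hw, fun x hx => (hw' x (ha.le hx)).symm⟩))
    rcases hm.qs_centric h ha hc ht hta with h1 | h1
    · rw [← h1 u hu, mul_inv_cancel_right]
      exact .refl (mul_mem (ha.le hu) hw)
    · rwa [← conj_mul, h.conj_cen ht (SPair.smul_eq_self_iff.1 h1).1 hw hw'] at this

theorem qs_eq_of_fus {w v : G} (hw' : ∀ x ∈ m.Q, Commute w x) (hf : m.Fus w v) : w = v := by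
  have := hm.qs_fus_mul h (inv_mem hf.1) (fun x hx => (hw' x hx).inv_left) hf
  rw [mul_inv_cancel] at this
  exact (mul_inv_eq_one.1 (this.eq_one_iff.1 rfl)).symm

theorem qs_not_cen {u v : G} (hu : ¬ ∀ x ∈ m.Q, Commute u x) (hf : m.Fus u v) :
    ¬ ∀ x ∈ m.Q, Commute v x := fun hv => hu (hm.qs_eq_of_fus h hv hf.symm ▸ hv)

theorem qs_defGrp {u : G} (hu : u ∈ m.Q) (hu' : ¬ ∀ x ∈ m.Q, Commute u x) :
    DefGrp 2 (centralizer ((m.at u).Q : Set G)) (m.at u).e (m.Q ⊓ centralizer ({u} : Set G)) :=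
  hm.defGrp_at_of_card_le hu fun w hw => by
    rw [h.card_inf hu hu', h.card_inf hw.2.1 (hm.qs_not_cen h hu' hw)]

theorem qs_rank {u : G} (hu : u ∈ m.Q) (hu' : ¬ ∀ x ∈ m.Q, Commute u x) :
    blockRank 2 (m.at u).blk = 1 := by
  obtain ⟨⟨φ, hφ⟩, -⟩ := hm.exists_uniB_at_of_defGrp hu rfl
    (fun g hg k hk => h.comm_inf hu hu' k hk g hg) (hm.qs_defGrp h hu hu')
    fun t ht _ hN => h.mem_centralizer hu hu' ht hN
  exact hφ.blockRank_eq hM (m.at u).isPBlock_blk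

omit hm in
theorem qs_apply_z (f : m.Q →* ℂˣ) : f ⟨z, h.zm⟩ = 1 := by
  obtain ⟨g, hg, hg'⟩ := h.exists_not_cen
  push Not at hg'
  obtain ⟨k, hk, h1⟩ := hg'
  have := congrArg f (show (⟨g, hg⟩ * ⟨k, hk⟩ : m.Q) = ⟨k, hk⟩ * ⟨g, hg⟩ * ⟨z, h.zm⟩ from
    Subtype.ext ((h.comm g hg k hk).resolve_left h1))
  rwa [map_mul, map_mul, map_mul, mul_comm (f ⟨g, hg⟩), left_eq_mul] at this

theorem qs_exists_lin : ∃ f : stabLin m, f.1 ⟨c, h.cm⟩ ≠ 1 := by
  obtain ⟨μ, -, hμ⟩ := exists_units_hom_apply_ne_one (N := commutator m.Q) le_rfl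
    (g := ⟨c, h.cm⟩) fun h1 => by
      have : commutator m.Q ≤ (zpowers z).subgroupOf m.Q := commutator_le.2 fun g _ k _ => by
        rw [mem_subgroupOf, mem_zpowers_of_mul_self h.zz]
        change (g : G) * k * (g : G)⁻¹ * (k : G)⁻¹ = 1 ∨ (g : G) * k * (g : G)⁻¹ * (k : G)⁻¹ = z
        refine (h.comm g g.2 k k.2).imp (fun h2 => by simp [h2]) fun h2 => ?_
        rw [h2, ← (h.zc _ (mul_mem k.2 g.2)).eq]
        group
      exact ((mem_zpowers_of_mul_self h.zz).1 (this h1)).elim h.c_ne h.cz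
  obtain ⟨f, h1, h2⟩ := exists_invariant_units_hom' m.pgrp NP_le_normalizer
    (by simpa using hm.max.not_dvd_relIndex hM) hμ fun t ht y hy => by
      have := h.conj_c (inv_mem (NP_le_normalizer ht))
      rw [inv_inv, hy] at this
      rcases this with h1 | h1
      · exact congrArg μ (Subtype.ext h1)
      · rw [show y = ⟨c, h.cm⟩ * ⟨z, h.zm⟩ from Subtype.ext h1, map_mul, qs_apply_z h, mul_one]
  refine ⟨⟨f, fun u v huv => Units.ext ?_⟩, h1⟩
  rw [← linFun_of_mem f u.2, ← linFun_of_mem f v.2]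
  refine hm.eq_of_fus (linFun m f) (fun g hg u hu => ?_) (fun a ha hc t ht hta u hu => ?_) huv
  · rw [linFun_of_mem f hu, linFun_of_mem f (mul_mem (mul_mem hg hu) (inv_mem hg))]
    exact congrArg _ ((congrArg f (rfl : _ = (⟨g, hg⟩ * ⟨u, hu⟩ * ⟨g, hg⟩⁻¹ : m.Q))).trans (by
      rw [map_mul, map_mul, map_inv, mul_inv_cancel_comm]))
  · rcases hm.qs_centric h ha hc ht hta with h1 | h1
    · rw [← h1 u hu, mul_inv_cancel_right]
    · rw [linFun_of_mem f (ha.le hu), linFun_of_mem f (ha.fus hta hu).2.1,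
        h2 t (SPair.smul_eq_iff_mem_NP.1 h1) ⟨u, ha.le hu⟩ ⟨_, (ha.fus hta hu).2.1⟩ rfl]

theorem qs_rank_c : blockRank 2 (m.at c).blk ≤ 3 := by
  obtain ⟨a, ha, b, hb, h1⟩ := h.exists_idx
  exact SPair.blockRank_at_le_three h.cm (hm.defGrp_at_of_central h.cm h.cc) h.cm ha hb h1

theorem qs_rank_z : blockRank 2 (m.at z).blk = 1 ∨ blockRank 2 (m.at z).blk = 3 := by
  obtain ⟨H, _, _, f, b, h1, h2, h3, h4, -, h5⟩ := (m.at z).exists_quot' (Z := zpowers z)
    (mem_pairsAt.1 (SPair.at_mem h.zm)).ge (hm.defGrp_at_of_central h.zm h.zc)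
  have hz : f ⟨z, h.zm⟩ = 1 := (h1 _).2 (mem_zpowers z)
  obtain ⟨m', hm', hQ⟩ := exists_maxP hM h2 h3
  obtain ⟨A, _, _, ι, E, hA⟩ := hm'.exists_abPar (by
    rw [hQ]
    rintro _ ⟨g, rfl⟩ _ ⟨k, rfl⟩
    rw [← map_mul, ← map_mul]
    rcases h.comm g g.2 k k.2 with h6 | h6
    · exact congrArg f (Subtype.ext h6)
    · rw [show g * k = k * g * ⟨z, h.zm⟩ from Subtype.ext h6, map_mul, hz, mul_one])
  obtain ⟨d, hd⟩ := hA.exists_eq (hQ.ge ⟨⟨c, h.cm⟩, rfl⟩)
  refine h4 ▸ hA.blockRank_of_fix (c := d) ?_ (fun h6 => ?_) fun σ hσ => hA.inj ?_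
  · have := ((zpowers z).subgroupOf m.Q).card_mul_index
    rw [card_subgroupOf_of_le (zpowers_le.2 h.zm), Nat.card_zpowers, h.card,
      orderOf_eq_two_of_mul_self h.zz h.z_ne] at this
    rw [← hA.card_eq, hQ, card_range_of_ker h1, relIndex]
    omega
  · rw [h6, map_one] at hd
    exact ((mem_zpowers_of_mul_self h.zz).1 ((h1 _).1 hd.symm)).elim h.c_ne h.cz
  · obtain ⟨k, hk, h6⟩ := (hA.mem σ).1 hσ
    obtain ⟨t, -, h7⟩ := h5 k (hQ ▸ (SPair.smul_eq_self_iff.1 hk).1)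
    obtain ⟨y, h8, h9⟩ := h7 ⟨c, h.cm⟩
    rw [h6, hd, h9]
    rcases h.conj_c (t := t) (mem_normalizer_fintype fun g hg => by
      obtain ⟨g', h10, -⟩ := h7 ⟨g, hg⟩
      exact h10 ▸ g'.2) with h10 | h10
    · exact congrArg f (Subtype.ext (h8.symm.trans h10))
    · rw [show y = ⟨c, h.cm⟩ * ⟨z, h.zm⟩ from Subtype.ext (h8.symm.trans h10), map_mul, hz, mul_one]

theorem blockRank_le_three_of_qStar : blockRank 2 B ≤ 3 := by
  classical
  obtain ⟨f, hf⟩ := hm.qs_exists_lin h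
  have hsq : ∀ g : m.Q, (g : G) * g = 1 ∨ (g : G) * g = z → f.1 g = 1 ∨ f.1 g = -1 := fun g hg => by
    have h1 : f.1 g * f.1 g = 1 := by
      rw [← map_mul]
      rcases hg with h1 | h1
      · rw [show g * g = 1 from Subtype.ext h1, map_one]
      · rw [show g * g = ⟨z, h.zm⟩ from Subtype.ext h1, qs_apply_z h]
    exact (mul_self_eq_one_iff.1 (congrArg Units.val h1)).imp Units.ext Units.ext
  have hc : f.1 ⟨c, h.cm⟩ = -1 := (hsq _ (by
    have := (h.cen _ (mul_mem h.cm h.cm)).1 fun x hx => h.sq_comm h.cm hx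
    simpa [h.c_ne, h.cz] using this)).resolve_left hf
  have hmul : ∀ g ∈ m.Q, linFun m f.1 (g * c) = -linFun m f.1 g := fun g hg => by
    rw [linFun_of_mem _ hg, linFun_of_mem _ (mul_mem hg h.cm), show (⟨g * c, mul_mem hg h.cm⟩ : m.Q) =
      ⟨g, hg⟩ * ⟨c, h.cm⟩ from rfl, map_mul, hc]
    simp
  have h1 : linFun m f.1 1 = 1 := by
    rw [linFun_of_mem _ (one_mem _), show (⟨1, one_mem _⟩ : m.Q) = 1 from rfl, map_one, Units.val_one]
  have hz : linFun m f.1 z = 1 := by rw [linFun_of_mem _ h.zm, qs_apply_z h, Units.val_one]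
  have hc1 : linFun m f.1 c = -1 := by rw [← one_mul c, hmul 1 (one_mem _), h1]
  have hcz : linFun m f.1 (c * z) = -1 := by rw [(h.cc z h.zm).eq, hmul z h.zm, hz]
  have hval : ∀ g ∈ m.Q, linFun m f.1 g = 1 ∨ linFun m f.1 g = -1 := fun g hg => by
    by_cases hg' : ∀ x ∈ m.Q, Commute g x
    · rcases (h.cen g hg).1 hg' with rfl | rfl | rfl | rfl <;> simp [*]
    rcases h.sq g hg hg' with h2 | h2
    · rw [linFun_of_mem _ hg]
      exact (hsq ⟨g, hg⟩ (.inr h2)).imp (fun h3 => by simp [h3]) fun h3 => by simp [h3]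
    · rw [← neg_neg (linFun m f.1 g), ← hmul g hg, linFun_of_mem _ (mul_mem hg h.cm)]
      exact (hsq ⟨_, mul_mem hg h.cm⟩ (.inr h2)).symm.imp (fun h3 => by simp [h3])
        fun h3 => by simp [h3]
  obtain ⟨X, hX, -⟩ := m.exists_reps (fun _ => True) fun u hu => ⟨u, .refl hu, trivial⟩
  have hcen : ∀ w ∈ m.Q, (∀ x ∈ m.Q, Commute w x) → w ∈ X := fun w hw hw' => by
    obtain ⟨v, ⟨hv, h2⟩, -⟩ := hX.2 w hw
    rwa [hm.qs_eq_of_fus h hw' h2]
  let Y : ℂ → Finset G := fun ε => X.filter fun v => linFun m f.1 v = ε ∧ ¬ ∀ x ∈ m.Q, Commute v x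
  have hne : (1 : ℂ) ≠ -1 := by norm_num
  have hsum : ∀ {a b : G} {ε : ℂ}, a ≠ b → (∀ w ∈ m.Q, (∀ x ∈ m.Q, Commute w x) →
      (linFun m f.1 w = ε ↔ w = a ∨ w = b)) → a ∈ m.Q → b ∈ m.Q → (∀ x ∈ m.Q, Commute a x) →
      (∀ x ∈ m.Q, Commute b x) → ∑ v ∈ X with linFun m f.1 v = ε, blockRank 2 (m.at v).blk =
        blockRank 2 (m.at a).blk + blockRank 2 (m.at b).blk + (Y ε).card :=
      fun {a b ε} hab h2 ha hb ha' hb' => by
    rw [← Finset.sum_filter_add_sum_filter_not _ fun v => ∀ x ∈ m.Q, Commute v x,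
      Finset.filter_filter, Finset.filter_filter, ← Finset.sum_pair (f := fun v => blockRank 2 (m.at v).blk) hab,
      Finset.card_eq_sum_ones]
    refine congrArg₂ _ (Finset.sum_congr (Finset.ext fun v => ?_) fun _ _ => rfl)
      (Finset.sum_congr rfl fun v hv => hm.qs_rank h (hX.1 v (Finset.mem_filter.1 hv).1)
        (Finset.mem_filter.1 hv).2.2)
    rw [Finset.mem_filter, Finset.mem_insert, Finset.mem_singleton]
    refine ⟨fun h3 => (h2 v (hX.1 v h3.1) h3.2.2).1 h3.2.1, ?_⟩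
    rintro (rfl | rfl)
    exacts [⟨hcen v ha ha', (h2 v ha ha').2 (.inl rfl), ha'⟩,
      ⟨hcen v hb hb', (h2 v hb hb').2 (.inr rfl), hb'⟩]
  have h2 := hsum (ε := 1) h.z_ne.symm (fun w hw hw' => by
    rcases (h.cen w hw).1 hw' with rfl | rfl | rfl | rfl <;>
      simp [*, hne.symm, h.c_ne, h.cz, h.cz_ne]) (one_mem _) h.zm (fun x _ => .one_left x) h.zc
  have h3 := hsum (ε := -1) (a := c) (b := c * z) (by simpa using h.z_ne) (fun w hw hw' => by
    rcases (h.cen w hw).1 hw' with rfl | rfl | rfl | rfl <;>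
      simp [*, h.c_ne, h.cz.symm, h.c_ne.symm, h.cz_ne.symm]) h.cm h.change.cm h.cc h.change.cc
  have hX2 : X.filter (fun v => ¬ linFun m f.1 v = 1) = X.filter fun v => linFun m f.1 v = -1 :=
    Finset.filter_congr fun v hv => ⟨(hval v (hX.1 v hv)).resolve_left, fun h4 h5 =>
      hne (h5.symm.trans h4)⟩
  have h4 := hm.card_eq_sum_reps hX
  rw [← Finset.sum_filter_add_sum_filter_not _ fun v => linFun m f.1 v = 1, hX2] at h4
  have h5 := hm.sum_linFun_mul_blockRank hX f (z := ⟨c, h.cm⟩) h.cc hf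
  rw [← Finset.sum_filter_add_sum_filter_not _ fun v => linFun m f.1 v = 1, hX2,
    Finset.sum_congr rfl fun v hv => by rw [(Finset.mem_filter.1 hv).2, one_mul],
    Finset.sum_congr (s₁ := X.filter fun v => linFun m f.1 v = -1) rfl fun v hv => by
      rw [(Finset.mem_filter.1 hv).2, neg_one_mul], Finset.sum_neg_distrib, add_neg_eq_zero,
    ← Nat.cast_sum, ← Nat.cast_sum, Nat.cast_inj] at h5
  choose! r hr using fun u hu => (hX.2 u hu).exists
  have hcen' : ∀ g ∈ m.Q, (¬ ∀ x ∈ m.Q, Commute g x) → ¬ ∀ x ∈ m.Q, Commute (g * c) x :=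
    fun g hg hg' h6 => hg' fun x hx => by simpa using (h6 x hx).mul_left (h.cc x hx).inv_left
  have hrY : ∀ g ∈ m.Q, (¬ ∀ x ∈ m.Q, Commute g x) → r g ∈ Y (linFun m f.1 g) := fun g hg hg' =>
    Finset.mem_filter.2 ⟨(hr g hg).1, (stable_linFun f _ _ (hr g hg).2).symm,
      hm.qs_not_cen h hg' (hr g hg).2⟩
  have h6 : (Y (-1)).card ≤ (Y 1).card := Finset.card_le_card_of_injOn (fun v => r (v * c))
    (fun v hv => by
      obtain ⟨h6, h7, h8⟩ := Finset.mem_filter.1 hv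
      have := hrY _ (mul_mem (hX.1 v h6) h.cm) (hcen' v (hX.1 v h6) h8)
      rwa [hmul v (hX.1 v h6), h7, neg_neg] at this) fun u hu v hv huv => by
      have hu := (Finset.mem_filter.1 hu).1
      have hv := (Finset.mem_filter.1 hv).1
      have := hm.qs_fus_mul h (inv_mem h.cm) (fun x hx => (h.cc x hx).inv_left)
        ((hr _ (mul_mem (hX.1 u hu) h.cm)).2.trans
          ((show r (u * c) = r (v * c) from huv) ▸ (hr _ (mul_mem (hX.1 v hv) h.cm)).2.symm))
      rw [mul_inv_cancel_right, mul_inv_cancel_right] at this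
      exact (hX.2 u (hX.1 u hu)).unique ⟨hu, .refl (hX.1 u hu)⟩ ⟨hv, this⟩
  obtain ⟨g, hg, hg'⟩ := h.exists_not_cen
  have h7 : 0 < (Y 1).card := Finset.card_pos.2 (by
    rcases hval g hg with h7 | h7
    · exact ⟨_, h7 ▸ hrY g hg hg'⟩
    · have := hrY _ (mul_mem hg h.cm) (hcen' g hg hg')
      rw [hmul g hg, h7, neg_neg] at this
      exact ⟨_, this⟩)
  have h8 := hm.qs_rank_c h
  have h9 := hm.qs_rank_c h.change
  rw [hm.blockRank_at_one] at h2
  rcases hm.qs_rank_z h with h10 | h10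
  · have h11 := hm.card_height_zero_le hg (by rw [hm.qs_rank h hg hg']; omega)
    rw [← SPair.card_defGrp (hm.qs_defGrp h hg hg'), h.card_inf hg hg'] at h11
    have h12 := hm.four_mul_card_le h.zm h.zc
    rw [h10, h.card] at h12
    omega
  · omega

end MaxP

variable (hM) in include hM in
/-- Blocks with defect group of order at most sixteen. -/
theorem kb_of_card_le_sixteen {B : Set (IrrCharacter G)} (hB : IsPBlock M B) {D : Subgroup G}
    (hD : IsDefectGroup 2 M B D) (h16 : Nat.card D ≤ 16) : KB 2 B := by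
  by_cases hab : ∀ x ∈ D, ∀ y ∈ D, x * y = y * x
  · exact kb_of_abelian_two hM hB hD hab h16
  push Not at hab
  obtain ⟨x, hx, y, hy, hxy⟩ := hab
  rcases smallThree_or_qStar (isPGroup_of_isDefectGroup hD) h16 hx hy hxy with h | ⟨z, c, h⟩
  · exact .inl ⟨rfl, blockRank_le_three_of_smallThree hM hB hD h⟩
  · obtain ⟨m, hm, rfl⟩ := exists_maxP hM hB hD
    exact .inl ⟨rfl, hm.blockRank_le_three_of_qStar h⟩

end BT
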