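import Cfsg.Agent.Lib.Block.RobAux
import Cfsg.Agent.Lib.Sym.Hook
import Cfsg.Agent.Lib.Grp.AltCent

/-!
# Heights against the centre of a defect group for covers of alternating groups
-/

set_option autoImplicit false
set_option linter.unusedSectionVars false

namespace BT

open Cfsg CT GT Equiv Subgroup SFock

variable {p : ℕ} [hp : Fact p.Prime] {M : Ideal AlgInt} (hM : IsPModular p M)
variable {H : Type*} [Group H] [Finite H] {B : Set (IrrCharacter H)} (hB : IsPBlock M B)
  {D : Subgroup H} (hD : IsDefectGroup p M B D) {χ : IrrCharacter H} (hχ : χ ∈ B)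
include hM hB hD

theorem radical_of_isDefectGroup : Radical p ⊤ D := fun _ hR _ h1 h2 =>
  le_of_normalizer_le_of_isDefectGroup hM hB hD hR h1 fun _ hx => h2 ⟨trivial, hx⟩

theorem center_add_one_ne : (Nat.card (center D)).factorization p + 1 ≠ blockDefect p B := by
  intro h
  obtain ⟨k, hk⟩ := (isPGroup_of_isDefectGroup hD).index (center D)
  rw [← factorization_card_defectGroup hM hB hD, ← (center D).card_mul_index,
    Nat.factorization_mul Nat.card_pos.ne' index_ne_zero_of_finite, Finsupp.add_apply, hk,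
    hp.out.factorization_pow, Finsupp.single_eq_same, add_right_inj] at h
  exact not_prime_index_center (G := D) (by rw [hk, ← h, pow_one]; exact hp.out)

theorem center_le_defect : (Nat.card (center D)).factorization p ≤ blockDefect p B := by
  rw [← factorization_card_defectGroup hM hB hD]
  exact (Nat.factorization_le_iff_dvd Nat.card_pos.ne' Nat.card_pos.ne').2
    (card_subgroup_dvd_card _) p

include hχ

/-- Perfect groups whose Sylow subgroups are of order at most `p ^ 2` modulo the centre. -/
theorem height_add_center_lt_of_index (hH : commutator H = ⊤) {Z : Subgroup H} (hZ : Z ≤ center H)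
    (hi : Z.index.factorization p ≤ 2) (h : blockHeight p B χ.1 ≠ 0) :
    blockHeight p B χ.1 + (Nat.card (center D)).factorization p < blockDefect p B := by
  obtain ⟨P, hP⟩ := exists_isSylowIn p Z
  have h1 := height_add_lt_of_central hM hB hP.isPGroup (hP.le.trans hZ) hχ h
  have h2 := height_add_two_le hM hB hχ h
  have h3 := center_add_one_ne hM hB hD
  have h4 := center_le_defect hM hB hD
  have h5 := factorization_card_defectGroup hM hB hD
  have h6 : (Nat.card H).factorization p = (Nat.card P).factorization p + Z.index.factorization p := by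
    rw [← Z.card_mul_index, Nat.factorization_mul Nat.card_pos.ne' index_ne_zero_of_finite,
      Finsupp.add_apply, hP.card_eq, hp.out.factorization_pow, Finsupp.single_eq_same]
  have h7 : (Nat.card H).factorization p = (Nat.card D).factorization p + D.index.factorization p := by
    rw [← D.card_mul_index, Nat.factorization_mul Nat.card_pos.ne' index_ne_zero_of_finite,
      Finsupp.add_apply]
  by_contra h8
  have hDp := isPGroup_of_isDefectGroup hD
  have h9 : center D = ⊤ := by
    obtain ⟨k, hk⟩ := IsPGroup.iff_card.1 hDp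
    obtain ⟨j, hj⟩ := IsPGroup.iff_card.1 (hDp.to_subgroup (center D))
    have h9 : (Nat.card (center D)).factorization p = (Nat.card D).factorization p := by omega
    rw [hk, hj, hp.out.factorization_pow, hp.out.factorization_pow, Finsupp.single_eq_same,
      Finsupp.single_eq_same] at h9
    exact eq_top_of_card_eq _ (by rw [hj, hk, h9])
  have h10 : IsSylowIn p D ⊤ := isSylowIn_top_iff'.2 ⟨hDp, fun h => by
    have := hp.out.factorization_pos_of_dvd index_ne_zero_of_finite h
    omega⟩
  have h11 : P = ⊥ := eq_bot_iff.2 fun z hz => by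
    have := h10.mem_commutator_of_mem_center (hZ (hP.le hz))
      ((radical_of_isDefectGroup hM hB hD).le_of_le_center hP.isPGroup (hP.le.trans hZ) hz)
      (hH ▸ mem_top z)
    rwa [← map_subtype_commutator, (commutator_eq_bot_iff_center_eq_top D).2 h9,
      Subgroup.map_bot] at this
  rw [h11, card_bot, Nat.factorization_one, Finsupp.zero_apply] at h6
  omega

variable {α : Type*} [Fintype α] [DecidableEq α] {π : H →* Perm α}
  (hr : π.range = alternatingGroup α) (hπ : π.ker ≤ center H)
include hr

omit hM hB hD in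
theorem wt_add_height_le [Nontrivial α] (hk : ¬ p ∣ Nat.card π.ker) {W : ℕ}
    (h : p ^ W * charDegree χ.1 ∣ (Fintype.card α).factorial) :
    W + blockHeight p B χ.1 ≤ blockDefect p B + Nat.factorization 2 p := by
  have h1 := factorization_degree_add_defect (p := p) hχ
  have h2 := (Nat.factorization_le_iff_dvd (mul_ne_zero (pow_ne_zero _ hp.out.ne_zero)
    (irr_degree_pos χ).ne') (Nat.factorial_ne_zero _)).2 h p
  rw [← π.ker.card_mul_index, index_ker, hr, Nat.factorization_mul Nat.card_pos.ne' Nat.card_pos.ne',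
    Finsupp.add_apply, Nat.factorization_eq_zero_of_not_dvd hk] at h1
  rw [← Nat.card_eq_fintype_card, ← Nat.card_perm, ← two_mul_nat_card_alternatingGroup,
    Nat.factorization_mul two_ne_zero Nat.card_pos.ne', Nat.factorization_mul
    (pow_ne_zero _ hp.out.ne_zero) (irr_degree_pos χ).ne', Finsupp.add_apply, Finsupp.add_apply,
    hp.out.factorization_pow, Finsupp.single_eq_same] at h2
  omega

include hπ

omit hχ in
theorem exists_lift_of_mem_orbC (hk : ¬ p ∣ Nat.card π.ker) {u : Perm α}
    (hu : u ∈ orbC (D.map π) ⊓ alternatingGroup α) :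
    ∃ x ∈ D, π x = u ∧ ∀ y ∈ D, x * y = y * x := by
  have hDp := isPGroup_of_isDefectGroup hD
  obtain ⟨x, hx, rfl⟩ := Radical.orbC_inf_le
    (hr ▸ (radical_of_isDefectGroup hM hB hD).map hπ hDp) (hDp.map π) hu
  exact ⟨x, hx, rfl, fun y hy => commute_of_commute_map hk hDp hx hy (hu.1.1 _ ⟨y, hy, rfl⟩)⟩

omit hM hB hD hχ hr hπ in
theorem card_support_le_divLen_map {u y : H} (hu : π u ^ p = 1) (hy : ¬ p ∣ orderOf y)
    (h : Commute u y) : (π u).support.card ≤ divLen p (π (u * y)) := by
  rw [map_mul]
  exact card_support_le_divLen hp.out (h.map π) (k := 1) (by rwa [pow_one]) hy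
    (by rw [← map_pow, pow_orderOf_eq_one, map_one])

/-- The case of an odd prime not dividing the order of the kernel. -/
theorem height_add_center_lt_of_odd [Nontrivial α] (hp2 : p ≠ 2) (hk : ¬ p ∣ Nat.card π.ker)
    {χ' : IrrCharacter H} {W : ℕ} (h1 : χ'.1 1 = χ.1 1)
    (h2 : p ^ W * charDegree χ.1 ∣ (Fintype.card α).factorial)
    (h3 : ∀ g, χ.1 g + χ'.1 g ≠ 0 → divLen p (π g) ≤ p * W) (h : blockHeight p B χ.1 ≠ 0) :
    blockHeight p B χ.1 + (Nat.card (center D)).factorization p < blockDefect p B := by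
  have hDp := isPGroup_of_isDefectGroup hD
  have h4 := wt_add_height_le hχ hr hk h2
  rw [Nat.prime_two.factorization, Finsupp.single_eq_of_ne hp2] at h4
  obtain ⟨u, hu, hu1, hu2⟩ := exists_support_eq_mov (hDp.map π)
  obtain ⟨x, hx, rfl, hxc⟩ := exists_lift_of_mem_orbC hM hB hD hr hπ hk (u := u) ⟨hu, by
    have h5 := congrArg Perm.sign hu1
    rw [map_pow, map_one, Int.units_pow_eq_pow_mod_two,
      Nat.odd_iff.1 (hp.out.odd_of_ne_two hp2), pow_one] at h5
    exact h5⟩
  obtain ⟨y, hy, hxy, h5⟩ := exists_add_apply_mul_ne_zero hM hp2 hB hD hx hxc hχ h1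
  have h6 := (card_support_le_divLen_map hu1 hy hxy).trans (h3 _ h5)
  have h7 := (Nat.factorization_le_iff_dvd Nat.card_pos.ne' Nat.card_pos.ne').2
    ((card_center_dvd hr hk hDp).trans (card_dvd_of_le inf_le_left)) p
  rw [hu2] at h6
  rcases mul_add_one_le_card_mov hp2 (hDp.map π) with h8 | h8
  · rw [card_map_of_not_dvd hk hDp, factorization_card_defectGroup hM hB hD] at h8
    have := Nat.le_of_mul_le_mul_left (h8.trans h6) hp.out.pos
    omega
  · have := Nat.lt_of_mul_lt_mul_left (h8.trans h6)
    omega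

omit hM hB hD hχ hπ in
/-- The weight of a character that is trivial on the kernel. -/
theorem exists_wt_of_ker_le [Nontrivial α] (hk : ∀ z ∈ π.ker, χ.1 z = χ.1 1) {t : Perm α}
    (ht : t ∉ alternatingGroup α) : ∃ (χ' : IrrCharacter H) (W : ℕ), χ'.1 1 = χ.1 1 ∧
      p ^ W * charDegree χ.1 ∣ (Fintype.card α).factorial ∧
      (∀ g, χ.1 g + χ'.1 g ≠ 0 → divLen p (π g) ≤ p * W) ∧
      ∀ g, Commute t (π g) → χ'.1 g = χ.1 g := by
  let f : H →* alternatingGroup α := π.codRestrict _ fun x => hr.le ⟨x, rfl⟩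
  have hf : Function.Surjective f := fun x => by
    obtain ⟨y, hy⟩ := hr.ge x.2
    exact ⟨y, Subtype.ext hy⟩
  obtain ⟨ψ, rfl⟩ := (exists_irrComp_eq_iff f hf χ).2 fun z hz =>
    (irr_mem_ker_iff χ).2 (hk z (congrArg Subtype.val hz))
  obtain ⟨W, h1, h2⟩ := exists_wt_alt hp.out.pos ψ ht
  refine ⟨irrComp f hf (t • ψ), W, ?_, ?_, fun g hg => h2 (f g) hg, fun g hg =>
    conjSmul_apply_of_eq ψ (eq_mul_inv_of_mul_eq hg.eq.symm)⟩
  · simp
  · rwa [irrComp_val, charDegree_comp]

end BT

namespace BT

open Cfsg CT GT Equiv Subgroup SFock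

variable {M : Ideal AlgInt} (hM : IsPModular 2 M)
variable {H : Type*} [Group H] [Finite H] {B : Set (IrrCharacter H)} (hB : IsPBlock M B)
  {D : Subgroup H} (hD : IsDefectGroup 2 M B D) {χ : IrrCharacter H} (hχ : χ ∈ B)
  {α : Type*} [Fintype α] [DecidableEq α] {π : H →* Perm α}
  (hr : π.range = alternatingGroup α) (hπ : π.ker ≤ center H) (hH : commutator H = ⊤)
include hM hB hD hχ hr hπ hH

/-- The prime two. -/
theorem height_add_center_lt_two (h6 : 6 ≤ Fintype.card α) (h : blockHeight 2 B χ.1 ≠ 0) :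
    blockHeight 2 B χ.1 + (Nat.card (center D)).factorization 2 < blockDefect 2 B := by
  have hDp := isPGroup_of_isDefectGroup hD
  have hR := radical_of_isDefectGroup hM hB hD
  obtain ⟨s, hs, hDs⟩ := exists_regular_isSylowIn hM hB hD
  by_cases hk : 2 ∣ Nat.card π.ker
  · rw [← card_map_of_injective (K := center D) D.subtype_injective]
    refine height_add_lt_of_central hM hB (hDp.to_le (map_subtype_le _)) ?_ hχ h
    rintro _ ⟨z, hz, rfl⟩
    exact hπ (mem_ker_of_forall_commute hr hπ hH h6 hk hR hs hDs z.2 fun d hd =>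
      congrArg Subtype.val (mem_center_iff.1 hz ⟨d, hd⟩))
  have : Nontrivial α := Fintype.one_lt_card_iff_nontrivial.1 (by omega)
  have hE := hr ▸ hDs.map_centralizer hπ hs
  have h1 := height_add_two_le hM hB hχ h
  have h2 := (Nat.factorization_le_iff_dvd Nat.card_pos.ne' Nat.card_pos.ne').2
    (card_center_dvd hr hk hDp) 2
  obtain ⟨u, hu, hu1, hu2⟩ := exists_even_invol hE.isPGroup
  by_cases h8 : 8 ≤ (mov (D.map π)).card
  · have h3 := hu2 4 (two_mul_add_four_le hE (fun a ha => apply_eq_of_mem_mov hE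
      (hr ▸ hR.map hπ hDp) hs (by rw [← map_pow, pow_orderOf_eq_one, map_one]) ha) h8)
    obtain ⟨x, hx, rfl, hxc⟩ := exists_lift_of_mem_orbC hM hB hD hr hπ hk hu
    obtain ⟨y, hy, hxy, h4⟩ := exists_apply_mul_ne_zero_of_mem_defect hM hB hD hx hxc hχ
    have h5 := card_support_le_divLen_map hu1 hy hxy
    obtain ⟨t, ht, h6⟩ := exists_odd_commute (g := π (x * y)) (by
      rw [← pPart_ne_one_iff, ← map_pPart, pPart_mul_eq hxy (isPElt_of_mem hDp hx) hy]
      intro h6
      rw [h6, Perm.support_one, Finset.card_empty] at h3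
      omega)
    have h7 : π.ker = ⊥ := by
      have h7 := card_ker_le_two hr hπ hH (h8.trans (Finset.card_le_univ _))
      have h9 : 0 < Nat.card π.ker := Nat.card_pos
      exact card_eq_one.1 (by omega)
    obtain ⟨χ', W, -, h9, h10, h11⟩ := exists_wt_of_ker_le (p := 2) (χ := χ) hr
      (fun z hz => by rw [h7, mem_bot] at hz; rw [hz]) ht
    have h12 := h10 _ (by rw [h11 _ h6, ← two_mul]; exact mul_ne_zero two_ne_zero h4)
    have h13 := wt_add_height_le hχ hr hk h9
    rw [Nat.prime_two.factorization_self] at h13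
    omega
  have h3 := hu2 0 (mul_add_le_card_mov hE.isPGroup le_rfl (Or.inl rfl))
  have h4 := (sign_eq_one_iff_of_sq hu1).1 hu.2
  have h5 := Finset.card_le_card (support_subset_mov hu.1)
  have h7 := center_add_one_ne hM hB hD
  have h9 := factorization_card_defectGroup hM hB hD
  rw [← card_map_of_not_dvd hk hDp] at h9
  have h10 : D.map π ≠ ⊥ := fun h10 => by
    rw [h10, card_bot, Nat.factorization_one, Finsupp.zero_apply] at h9
    omega
  have h11 : blockDefect 2 B ≤ 3 := by
    by_contra h11
    have h12 := (Nat.mul_dvd_mul_left 2 ((pow_dvd_pow 2 (h9 ▸ not_le.1 h11)).trans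
      (Nat.ordProj_dvd _ 2))).trans ((two_mul_card_dvd_factorial (hE.le.trans inf_le_right)
        h10).trans (Nat.factorial_dvd_factorial (Nat.le_of_lt_succ (not_le.1 h8))))
    exact absurd h12 (by decide)
  omega

end BT

namespace BT

open Cfsg CT GT Equiv Subgroup SFock

/-- Robinson's bound for perfect central extensions of alternating groups, given the weights of
the spin characters. -/
theorem height_add_center_lt_alt {p : ℕ} [hp : Fact p.Prime] {M : Ideal AlgInt}
    (hM : IsPModular p M) {H : Type*} [Group H] [Finite H] {B : Set (IrrCharacter H)}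
    (hB : IsPBlock M B) {D : Subgroup H} (hD : IsDefectGroup p M B D) {χ : IrrCharacter H}
    (hχ : χ ∈ B) {α : Type*} [Fintype α] [DecidableEq α] {π : H →* Perm α}
    (hr : π.range = alternatingGroup α) (hπ : π.ker ≤ center H) (hH : commutator H = ⊤)
    (h5 : 5 ≤ Fintype.card α)
    (hs : 8 ≤ Fintype.card α → Nat.card π.ker = 2 → p ≠ 2 → (∃ z ∈ π.ker, χ.1 z ≠ χ.1 1) →
      ∃ (χ' : IrrCharacter H) (W : ℕ), χ'.1 1 = χ.1 1 ∧
        p ^ W * charDegree χ.1 ∣ (Fintype.card α).factorial ∧
        ∀ g, χ.1 g + χ'.1 g ≠ 0 → divLen p (π g) ≤ p * W) (h : blockHeight p B χ.1 ≠ 0) :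
    blockHeight p B χ.1 + (Nat.card (center D)).factorization p < blockDefect p B := by
  by_cases hi : π.ker.index.factorization p ≤ 2
  · exact height_add_center_lt_of_index hM hB hD hχ hH hπ hi h
  have : Nontrivial α := Fintype.one_lt_card_iff_nontrivial.1 (by omega)
  have h1 : 2 * p ^ 3 ∣ (Fintype.card α).factorial := by
    rw [← Nat.card_eq_fintype_card, ← Nat.card_perm, ← two_mul_nat_card_alternatingGroup, ← hr,
      ← index_ker]
    exact Nat.mul_dvd_mul_left 2 ((pow_dvd_pow p (not_le.1 hi)).trans (Nat.ordProj_dvd _ p))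
  rcases eq_or_ne p 2 with rfl | hp2
  · refine height_add_center_lt_two hM hB hD hχ hr hπ hH (by_contra fun h6 => ?_) h
    rw [show Fintype.card α = 5 by omega] at h1
    exact absurd h1 (by decide)
  have h8 : 8 ≤ Fintype.card α := by
    by_contra h8
    have h2 := h1.trans (Nat.factorial_dvd_factorial (Nat.le_of_lt_succ (not_le.1 h8)))
    have h3 := hp.out.dvd_factorial.1 (((dvd_pow_self p three_ne_zero).mul_left 2).trans h2)
    have h4 := hp.out.two_le
    interval_cases p <;> revert h2 hp2 <;> decide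
  have h2 := card_ker_le_two hr hπ hH h8
  have h3 : 0 < Nat.card π.ker := Nat.card_pos
  have hk : ¬ p ∣ Nat.card π.ker := fun h4 => by
    have := Nat.le_of_dvd h3 h4
    have := hp.out.two_le
    omega
  by_cases h4 : ∀ z ∈ π.ker, χ.1 z = χ.1 1
  · obtain ⟨a, b, hab⟩ := exists_pair_ne α
    obtain ⟨χ', W, h6, h7, h9, -⟩ := exists_wt_of_ker_le (p := p) hr h4 (t := swap a b)
      (by simp [Perm.mem_alternatingGroup, hab])
    exact height_add_center_lt_of_odd hM hB hD hχ hr hπ hp2 hk h6 h7 h9 h
  push Not at h4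
  obtain ⟨χ', W, h6, h7, h9⟩ := hs h8 (by
    obtain ⟨z, hz, h4⟩ := h4
    by_contra h6
    rw [card_eq_one.1 (by omega : Nat.card π.ker = 1), mem_bot] at hz
    exact h4 (by rw [hz])) hp2 h4
  exact height_add_center_lt_of_odd hM hB hD hχ hr hπ hp2 hk h6 h7 h9 h

end BT
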