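import Cfsg.Agent.Lib.Lin.SLHecke
import Cfsg.Agent.Lib.Block.DefZeroHat
import Cfsg.Agent.Lib.Block.CoverP

/-!
# Blocks of `SL_n` in the defining characteristic
-/

set_option autoImplicit false
set_option linter.unusedSectionVars false

namespace BT

open Cfsg CT GT LG Matrix
open scoped MonoidAlgebra

variable {F : Type*} [Field F] {ι : Type*} [Fintype ι] [DecidableEq ι]

/-- The vectors fixed by a subgroup of `SL`. -/
def slFix (D : Subgroup (SpecialLinearGroup ι F)) : Submodule F (ι → F) where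
  carrier := {w | ∀ d ∈ D, slm d *ᵥ w = w}
  add_mem' := fun {a b} ha hb d hd => by rw [mulVec_add, ha d hd, hb d hd]
  zero_mem' := fun d _ => mulVec_zero _
  smul_mem' := fun c a ha d hd => by rw [mulVec_smul, ha d hd]

/-- The stabilizer of a subspace. -/
def slStab [Finite F] (W : Submodule F (ι → F)) : Subgroup (SpecialLinearGroup ι F) where
  carrier := {g | ∀ w ∈ W, slm g *ᵥ w ∈ W}
  one_mem' := fun w hw => by rwa [slm_one, one_mulVec]
  mul_mem' := fun {a b} ha hb w hw => by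
    rw [slm_mul, ← mulVec_mulVec]; exact ha _ (hb _ hw)
  inv_mem' := fun ha => inv_mem_of_mul_mem
    (S := {g : SpecialLinearGroup ι F | ∀ w ∈ W, slm g *ᵥ w ∈ W})
    (fun w hw => by rwa [slm_one, one_mulVec])
    (fun a ha b hb w hw => by rw [slm_mul, ← mulVec_mulVec]; exact ha _ (hb _ hw)) ha

/-- The elements acting trivially on `W` and on `V / W`. -/
def slRad (W : Submodule F (ι → F)) : Subgroup (SpecialLinearGroup ι F) where
  carrier := {g | (∀ w ∈ W, slm g *ᵥ w = w) ∧ ∀ v, slm g *ᵥ v - v ∈ W}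
  one_mem' := ⟨fun w _ => by rw [slm_one, one_mulVec], fun v => by
    rw [slm_one, one_mulVec, sub_self]; exact W.zero_mem⟩
  mul_mem' := fun {a b} ha hb => ⟨fun w hw => by
    rw [slm_mul, ← mulVec_mulVec, hb.1 w hw, ha.1 w hw], fun v => by
    rw [slm_mul, ← mulVec_mulVec]
    have := W.add_mem (ha.2 (slm b *ᵥ v)) (hb.2 v)
    rwa [sub_add_sub_cancel] at this⟩
  inv_mem' := fun {a} ha => ⟨fun w hw => by
    conv_lhs => rw [← ha.1 w hw, mulVec_mulVec, slm_inv_mul, one_mulVec], fun v => by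
    have := W.neg_mem (ha.2 (slm a⁻¹ *ᵥ v))
    rwa [mulVec_mulVec, slm_mul_inv, one_mulVec, neg_sub] at this⟩

theorem isPGroup_slRad {p : ℕ} [Fact p.Prime] [CharP F p] (W : Submodule F (ι → F)) :
    IsPGroup p (slRad W) := by
  rcases isEmpty_or_nonempty ι with hι | hι
  · intro g; exact ⟨0, Subsingleton.elim _ _⟩
  rintro ⟨g, hg⟩
  refine ⟨1, Subtype.ext (slm_ext ?_)⟩
  have h1 : (slm g - 1) * (slm g - 1) = 0 := by
    refine Matrix.ext_of_mulVec_single fun j => ?_
    rw [← mulVec_mulVec, sub_mulVec (slm g) 1 (Pi.single j 1), one_mulVec, sub_mulVec,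
      hg.1 _ (hg.2 _), one_mulVec, sub_self, zero_mulVec]
  have h2 : (slm g - 1) ^ p = 0 := by
    obtain ⟨k, hk⟩ := Nat.exists_eq_add_of_le (Fact.out : p.Prime).two_le
    rw [hk, pow_add, pow_two, h1, zero_mul]
  rw [sub_pow_char_of_commute _ (Commute.one_right _), one_pow, sub_eq_zero] at h2
  change slm g ^ (p ^ 1) = 1
  rwa [pow_one]

theorem slStab_le_normalizer_slRad [Finite F] (W : Submodule F (ι → F)) :
    slStab W ≤ Subgroup.normalizer (slRad W : Set (SpecialLinearGroup ι F)) := by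
  have key : ∀ g ∈ slStab W, ∀ x ∈ slRad W, g * x * g⁻¹ ∈ slRad W := fun g hg x hx => by
    refine ⟨fun w hw => ?_, fun v => ?_⟩
    · rw [slm_mul, slm_mul, ← mulVec_mulVec, ← mulVec_mulVec,
        hx.1 _ ((slStab W).inv_mem hg w hw), mulVec_mulVec, slm_mul_inv, one_mulVec]
    · have := hg _ (hx.2 (slm g⁻¹ *ᵥ v))
      rwa [mulVec_sub, mulVec_mulVec v (slm g), slm_mul_inv, one_mulVec, mulVec_mulVec,
        mulVec_mulVec] at this
  intro g hg
  rw [Subgroup.mem_normalizer_iff]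
  exact mem_iff_conj_mem_of_forall key hg

theorem normalizer_le_slStab [Finite F] (D : Subgroup (SpecialLinearGroup ι F)) :
    Subgroup.normalizer (D : Set (SpecialLinearGroup ι F)) ≤ slStab (slFix D) := by
  intro g hg w hw d hd
  have h1 : g⁻¹ * d * g ∈ D := (Subgroup.mem_normalizer_iff''.1 hg d).1 hd
  conv_rhs => rw [← hw _ h1]
  rw [mulVec_mulVec, mulVec_mulVec, ← slm_mul, ← slm_mul]
  congr 2
  group

theorem slFix_ne_top {D : Subgroup (SpecialLinearGroup ι F)} (hD : D ≠ ⊥) : slFix D ≠ ⊤ := by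
  intro h
  apply hD
  rw [eq_bot_iff]
  intro d hd
  refine slm_ext (Matrix.ext_of_mulVec_single fun j => ?_)
  have : Pi.single j (1 : F) ∈ slFix D := h ▸ Submodule.mem_top
  rw [this d hd, slm_one, one_mulVec]

theorem slFix_ne_bot [Finite F] [Nonempty ι] {p : ℕ} [Fact p.Prime] [CharP F p]
    {D : Subgroup (SpecialLinearGroup ι F)} (hD : IsPGroup p D) : slFix D ≠ ⊥ := by
  classical
  have := Fintype.ofFinite F
  let _ : MulAction D (ι → F) :=
    { smul := fun d v => slm d.1 *ᵥ v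
      one_smul := fun v => one_mulVec v
      mul_smul := fun a b v => (mulVec_mulVec v (slm a.1) (slm b.1)).symm }
  have hdvd : p ∣ Nat.card (ι → F) := by
    obtain ⟨m, hp, hm⟩ := FiniteField.card F p
    rw [Nat.card_eq_fintype_card, Fintype.card_fun, hm, ← pow_mul]
    exact dvd_pow_self p (mul_ne_zero m.ne_zero Fintype.card_ne_zero)
  obtain ⟨w, hw, hw0⟩ := hD.exists_fixed_point_of_prime_dvd_card_of_fixed_point (ι → F) hdvd
    (a := 0) (fun d => mulVec_zero _)
  intro h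
  have : w ∈ slFix D := fun d hd => hw ⟨d, hd⟩
  rw [h, Submodule.mem_bot] at this
  exact hw0 this.symm

theorem exists_dotProduct_of_not_mem {W : Submodule F (ι → F)} {v : ι → F} (hv : v ∉ W) :
    ∃ φ : ι → F, (∀ w ∈ W, φ ⬝ᵥ w = 0) ∧ φ ⬝ᵥ v ≠ 0 := by
  obtain ⟨f, hf, hfW⟩ := W.exists_dual_map_eq_bot_of_notMem hv inferInstance
  have key : ∀ x : ι → F, (fun i => f (Pi.single i 1)) ⬝ᵥ x = f x := fun x => by
    rw [LinearMap.pi_apply_eq_sum_univ]
    refine Finset.sum_congr rfl fun i _ => ?_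
    rw [smul_eq_mul, mul_comm]
    refine congrArg (x i * f ·) (funext fun j => ?_)
    rw [Pi.single_apply]; simp only [eq_comm]
  refine ⟨fun i => f (Pi.single i 1), fun w hw => ?_, by rwa [key]⟩
  rw [key]
  have : f w ∈ W.map f := Submodule.mem_map_of_mem hw
  rwa [hfW, Submodule.mem_bot] at this

theorem exists_sub_sq_eq_zero {W : Submodule F (ι → F)} (h0 : W ≠ ⊥) (h1 : W ≠ ⊤)
    {x : SpecialLinearGroup ι F} (hx : ∀ g ∈ slRad W, g * x = x * g) :
    ∃ c : F, (slm x - c • 1) * (slm x - c • 1) = 0 := by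
  have key : ∀ w ∈ W, ∀ φ : ι → F, (∀ w ∈ W, φ ⬝ᵥ w = 0) → ∀ v,
      (φ ⬝ᵥ (slm x *ᵥ v)) • w = (φ ⬝ᵥ v) • (slm x *ᵥ w) := fun w hw φ hφ v => by
    have ht : trv w φ (hφ w hw) ∈ slRad W := by
      refine ⟨fun u hu => ?_, fun u => ?_⟩
      · rw [slm_trv, add_mulVec, one_mulVec, vecMulVec_mulVec, hφ u hu]; simp
      · rw [slm_trv, add_mulVec, one_mulVec, vecMulVec_mulVec, add_sub_cancel_left, op_smul_eq_smul]
        exact W.smul_mem _ hw
    have h2 := congrArg (fun g => slm g *ᵥ v) (hx _ ht)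
    simp only [slm_mul, ← mulVec_mulVec, slm_trv, add_mulVec, one_mulVec, vecMulVec_mulVec,
      op_smul_eq_smul, mulVec_add, mulVec_smul, add_right_inj] at h2
    exact h2
  obtain ⟨w₀, hw₀, hw₀0⟩ := W.exists_mem_ne_zero_of_ne_bot h0
  obtain ⟨v₀, hv₀⟩ : ∃ v, v ∉ W := by
    by_contra h
    push Not at h
    exact h1 (eq_top_iff.2 fun v _ => h v)
  obtain ⟨φ₀, hφ₀, hφv⟩ := exists_dotProduct_of_not_mem hv₀
  set c := φ₀ ⬝ᵥ (slm x *ᵥ v₀) / φ₀ ⬝ᵥ v₀ with hc
  have h2 : ∀ w ∈ W, slm x *ᵥ w = c • w := fun w hw => by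
    have := key w hw φ₀ hφ₀ v₀
    rw [hc, div_eq_inv_mul, mul_smul, this, smul_smul, inv_mul_cancel₀ hφv, one_smul]
  have h3 : ∀ v, slm x *ᵥ v - c • v ∈ W := fun v => by
    by_contra h
    obtain ⟨φ, hφ, hφ'⟩ := exists_dotProduct_of_not_mem h
    apply hφ'
    have := key w₀ hw₀ φ hφ v
    rw [h2 w₀ hw₀, smul_smul, ← sub_eq_zero, ← sub_smul, smul_eq_zero] at this
    rw [dotProduct_sub, dotProduct_smul, smul_eq_mul, mul_comm]
    exact this.resolve_right hw₀0
  refine ⟨c, Matrix.ext_of_mulVec_single fun j => ?_⟩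
  simp only [← mulVec_mulVec, sub_mulVec, smul_mulVec, one_mulVec, zero_mulVec]
  rw [h2 _ (h3 _), sub_self]

theorem central_of_sub_sq_eq_zero [Finite F] {p : ℕ} [Fact p.Prime] [CharP F p] [Nonempty ι]
    {x : SpecialLinearGroup ι F} {c : F} (h : (slm x - c • 1) * (slm x - c • 1) = 0)
    (hx : ¬ p ∣ orderOf x) (g : SpecialLinearGroup ι F) : g * x = x * g := by
  have h2 : (slm x - c • 1) ^ p = 0 := by
    obtain ⟨k, hk⟩ := Nat.exists_eq_add_of_le (Fact.out : p.Prime).two_le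
    rw [hk, pow_add, pow_two, h, zero_mul]
  rw [sub_pow_char_of_commute _ ((Commute.one_right _).smul_right c), sub_eq_zero, smul_pow,
    one_pow] at h2
  have h3 : Commute g (x ^ p) := by
    refine slm_ext ?_
    rw [slm_mul, slm_mul, slm_pow, h2]; simp
  obtain ⟨m, hm⟩ := exists_pow_eq_self_of_coprime (x := x) (n := p)
    (((Fact.out : p.Prime).coprime_iff_not_dvd).2 hx)
  rw [← hm]
  exact (h3.pow_right m).eq

variable {p : ℕ} [Fact p.Prime] {M : Ideal AlgInt} (hM : IsPModular p M)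

include hM in
theorem sl_blockDefect [Finite F] [CharP F p] [Nonempty ι]
    {B : Set (IrrCharacter (SpecialLinearGroup ι F))} (hB : IsPBlock M B) :
    blockDefect p B = 0 ∨ blockDefect p B = (Nat.card (SpecialLinearGroup ι F)).factorization p := by
  obtain ⟨D, hD⟩ := exists_isDefectGroup hM hB
  have hD' := defGrp_of_isDefectGroup hM hB hD
  by_cases hD1 : D = ⊥
  · exact Or.inl ((blockDefect_eq_zero_iff_defGrp_bot hM hB).2 (hD1 ▸ hD'))
  right
  obtain ⟨h1, h2⟩ := first_main_br hM (bIdem_top_idem hM hB) hD'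
  have hN := normalizer_le_slStab D
  rw [top_inf_eq, ← inf_eq_right.2 hN] at h1 h2
  obtain ⟨e, he, heD, -⟩ := first_main_surj hM (Subgroup.le_normalizer.trans hN) h1 h2
  have hUD : slRad (slFix D) ≤ D := he.le_defGrp hM
    (fun g hg w hw => by rw [hg.1 w hw]; exact hw) (slStab_le_normalizer_slRad _)
    (isPGroup_slRad _) heD
  obtain ⟨x, hx, hxe⟩ := br_ne_zero_iff.1 hD'.br_ne
  obtain ⟨c, hc⟩ := exists_sub_sq_eq_zero (slFix_ne_bot hD'.pgroup) (slFix_ne_top hD1) (x := x)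
    fun g hg => Subgroup.mem_centralizer_iff.1 hx g (hUD hg)
  have hxp : ¬ p ∣ orderOf x := fun h =>
    hxe ((bIdem_top_idem hM hB).toCIdem.coeff_eq_zero_of_dvd_orderOf hM h)
  have h3 := hD'.isSylowIn hx hxe
  have h4 : Subgroup.centralizer ({x} : Set (SpecialLinearGroup ι F)) = ⊤ := by
    rw [eq_top_iff]
    intro g _
    rw [Subgroup.mem_centralizer_singleton_iff]
    exact central_of_sub_sq_eq_zero hc hxp g
  rw [h4, top_inf_eq] at h3
  have h5 := h3.card_eq
  rw [card_defectGroup hM hB hD, Subgroup.card_top] at h5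
  exact Nat.pow_right_injective (Fact.out : p.Prime).two_le h5

include hM in
theorem sl_card_defect_zero [Finite F] [CharP F p] {n : ℕ} (hn : 1 ≤ n) :
    Nat.card {B : Set (IrrCharacter (SpecialLinearGroup (Fin n) F)) //
      IsPBlock M B ∧ blockDefect p B = 0} = 1 := by
  obtain ⟨m, hm⟩ := exists_hecke_ne_zero (F := F) (K := ResF hM) p hn
  exact card_defect_zero_eq_one hM (isPGroup_upT n) (exists_hecke_smul p hn) hm

end BT
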