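import Cfsg.Agent.Lib.Block.SigmaInv
import Cfsg.Agent.Lib.Block.Subsection

/-!
# Characters fixed by the Galois automorphism fixing `2`-power and inverting odd roots of unity
-/

set_option autoImplicit false
set_option linter.unusedSectionVars false

namespace BT

open Cfsg CT GT SigInv
open scoped MonoidAlgebra ComplexConjugate

/-- `k`-th powers fix `2`-elements and invert elements of odd order. -/
structure Sig (k : ℕ) (G : Type*) [Group G] : Prop where
  two : ∀ g : G, (∃ j : ℕ, orderOf g = 2 ^ j) → g ^ k = g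
  odd : ∀ g : G, Odd (orderOf g) → g ^ k = g⁻¹

namespace Sig

variable {G : Type*} [Group G] [Finite G] {k : ℕ} (hS : Sig k G)
include hS

theorem reg {g : G} (h : ¬ 2 ∣ orderOf g) : g ^ k = g⁻¹ :=
  hS.odd g (Nat.odd_iff.2 (by omega))

theorem mul_pow {u y : G} (hu : IsPElt 2 u) (hy : ¬ 2 ∣ orderOf y) (hc : Commute y u) :
    (y * u) ^ k = y⁻¹ * u := by
  rw [hc.mul_pow, hS.two u hu, hS.reg hy]

theorem pow_pow (g : G) : (g ^ k) ^ k = g := by
  have : Fact (Nat.Prime 2) := ⟨Nat.prime_two⟩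
  have h1 := not_dvd_orderOf_pRegPart 2 g
  have h2 := (commute_pPart_pRegPart 2 g).symm
  conv_lhs => rw [← pRegPart_mul_pPart 2 g]
  rw [hS.mul_pow (isPElt_pPart 2 g) h1 h2,
    hS.mul_pow (isPElt_pPart 2 g) (by rwa [orderOf_inv]) h2.inv_left, inv_inv, pRegPart_mul_pPart]

theorem coprime : k.Coprime (Nat.card G) := by
  refine Nat.coprime_of_dvd fun r hr hk hG => ?_
  have : Fact r.Prime := ⟨hr⟩
  obtain ⟨g, hg⟩ := exists_prime_orderOf_dvd_card' r hG
  have h1 : g ^ k = 1 := orderOf_dvd_iff_pow_eq_one.1 (hg ▸ hk)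
  have h2 := hS.pow_pow g
  rw [h1, one_pow] at h2
  rw [← h2, orderOf_one] at hg
  exact hr.one_lt.ne hg

/-- The action on irreducible characters. -/
def sg (χ : IrrCharacter G) : IrrCharacter G := irrPow hS.coprime χ

@[simp] theorem sg_apply (χ : IrrCharacter G) (g : G) : (hS.sg χ).1 g = χ.1 (g ^ k) := rfl

theorem sg_sg (χ : IrrCharacter G) : hS.sg (hS.sg χ) = χ :=
  Subtype.ext (funext fun g => by rw [sg_apply, sg_apply, hS.pow_pow])

theorem sg_one (χ : IrrCharacter G) : (hS.sg χ).1 1 = χ.1 1 := by rw [sg_apply, one_pow]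

theorem sg_irrOne : hS.sg (irrOne G) = irrOne G := rfl

theorem charDegree_sg (χ : IrrCharacter G) : charDegree (hS.sg χ).1 = charDegree χ.1 :=
  charDegree_powFun k χ.1

/-- The action on sets of irreducible characters. -/
def sb (B : Set (IrrCharacter G)) : Set (IrrCharacter G) := {χ | hS.sg χ ∈ B}

theorem sb_sb (B : Set (IrrCharacter G)) : hS.sb (hS.sb B) = B := by
  ext χ
  simp only [sb, Set.mem_ofPred_eq, sg_sg]

theorem blockCoeff_sb (B : Set (IrrCharacter G)) (g : G) :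
    blockCoeff (hS.sb B) g = blockCoeff B (g ^ k) := by
  have : Fact (Nat.Prime 2) := ⟨Nat.prime_two⟩
  rw [blockCoeff_eq_sum_bset, blockCoeff_eq_sum_bset]
  congr 1
  refine Finset.sum_bij' (fun χ _ => hS.sg χ) (fun χ _ => hS.sg χ)
    (fun χ hχ => mem_bset.2 (show χ ∈ hS.sb B from mem_bset.1 hχ))
    (fun χ hχ => mem_bset.2 (by simpa only [sb, Set.mem_ofPred_eq, sg_sg] using mem_bset.1 hχ))
    (fun χ _ => hS.sg_sg χ) (fun χ _ => hS.sg_sg χ) fun χ _ => ?_
  rw [sg_one, sg_apply, hS.pow_pow]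

variable {M : Ideal AlgInt} (hM : IsPModular 2 M)
include hM

theorem isPBlock_sb {B : Set (IrrCharacter G)} (hB : IsPBlock M B) : IsPBlock M (hS.sb B) := by
  have : Fact (Nat.Prime 2) := ⟨Nat.prime_two⟩
  obtain ⟨χ, rfl⟩ := hB
  refine ⟨hS.sg χ, Set.ext fun ψ => ?_⟩
  rw [mem_blockOf, ← sameBlock_irrPow_iff hM hS.coprime]
  change _ ↔ SameBlock M (hS.sg (hS.sg χ)).1 (hS.sg ψ).1
  rw [sg_sg]
  rfl

theorem sb_principal : hS.sb (principalBlock M G) = principalBlock M G :=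
  have : Fact (Nat.Prime 2) := ⟨Nat.prime_two⟩
  Set.ext fun χ => irrPow_mem_principal_iff hM hS.coprime χ

theorem coeff_idem_sb {B : Set (IrrCharacter G)} (hB : IsPBlock M B) (g : G) :
    (idem hM (hS.sb B)).coeff g = (idem hM B).coeff g⁻¹ := by
  have : Fact (Nat.Prime 2) := ⟨Nat.prime_two⟩
  rw [coeff_idem, coeff_idem]
  by_cases h : 2 ∣ orderOf g
  · rw [blockCoeff_eq_zero_of_dvd_orderOf hM (hS.isPBlock_sb hM hB) h,
      blockCoeff_eq_zero_of_dvd_orderOf hM hB (by rwa [orderOf_inv])]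
  · rw [blockCoeff_sb, hS.reg h]

theorem exists_real_defect {B : Set (IrrCharacter G)} (hB : IsPBlock M B) (h : hS.sb B = B) :
    ∃ x : G, IsConj x x⁻¹ ∧ blockCoeff B x ∉ locIdeal hM ∧
      ∀ χ ∈ B, centralChar χ.1 x ∉ locIdeal hM := by
  classical
  have : Fact (Nat.Prime 2) := ⟨Nat.prime_two⟩
  have := Fintype.ofFinite (ConjClasses G)
  obtain ⟨χ, hχ⟩ := block_nonempty hM hB
  have hred : ∀ ψ ∈ B, ∀ g, red hM (centralChar ψ.1 g) = red hM (centralChar χ.1 g) :=
    fun ψ hψ g => by rw [← lam_classSum, ← lam_classSum, lam_eq_of_mem hM hB hψ hχ]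
  set f : G → ResF hM := fun g => (idem hM B).coeff g * red hM (centralChar χ.1 g) with hf
  have hfc : ∀ {x y : G}, IsConj x y → f x = f y := fun hc => by
    simp only [hf, (isCentral_idem hM B).of_isConj hc, centralChar_conj (irr_isClassFunction χ) hc]
  have hfi : ∀ x, f x⁻¹ = f x := fun x => by
    have h1 : (idem hM B).coeff x⁻¹ = (idem hM B).coeff x := by
      rw [← hS.coeff_idem_sb hM hB, h]
    simp only [hf, h1]
    by_cases hx : 2 ∣ orderOf x
    · rw [coeff_idem, blockCoeff_eq_zero_of_dvd_orderOf hM hB hx, red_zero, zero_mul, zero_mul]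
    · rw [← hred (hS.sg χ) (by rw [← h] at hχ; exact hχ) x, centralChar, centralChar, sg_one,
        sg_apply, hS.reg hx, ← eq_centralizer_inv rfl]
  have h1 := lam_idem_of_mem hM hB hχ
  rw [lam_def] at h1
  obtain ⟨c, -, hc, h0⟩ := exists_fixed_of_sum_ne_zero (add_self_resF hM) Finset.univ
    (fun c : ConjClasses G => ConjClasses.mk (Quotient.out c)⁻¹) (fun _ _ => Finset.mem_univ _)
    (fun c _ => by
      conv_rhs => rw [← mk_out_conjClass c]
      rw [ConjClasses.mk_eq_mk_iff_isConj]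
      obtain ⟨g, hg⟩ := isConj_iff.1 (isConj_out_mk (Quotient.out c : G)⁻¹).symm
      exact isConj_iff.2 ⟨g, by rw [← conj_inv, hg, inv_inv]⟩)
    (fun c => f (Quotient.out c)) (fun c _ => by rw [← hfc (isConj_out_mk _), hfi])
    (h1 ▸ one_ne_zero)
  refine ⟨Quotient.out c, ConjClasses.mk_eq_mk_iff_isConj.1 ((mk_out_conjClass c).trans hc.symm),
    (coeff_idem_ne_zero_iff hM hB _).1 (left_ne_zero_of_mul h0), fun ψ hψ h2 => ?_⟩
  rw [← red_eq_zero_iff hM (centralChar_mem_locRing hM ψ _), hred ψ hψ] at h2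
  exact right_ne_zero_of_mul h0 h2

omit hS hM in
theorem isIntegral_avg {D : Subgroup G} [Fintype D] {x : G}
    (hD : D ≤ Subgroup.centralizer ({x} : Set G)) (χ : IrrCharacter G) :
    IsIntegral ℤ ((Nat.card D : ℂ)⁻¹ * ∑ u : D, χ.1 (x * u)) := by
  have h1 : ∀ u : D, χ.1 (x * u) = ∑ ξ : IrrCharacter (Subgroup.centralizer ({x} : Set G)),
      ip (shift _ x χ.1) ξ.1 * ξ.1 (Subgroup.inclusion hD u) := fun u =>
    (isClassFunction_shift rfl (irr_isClassFunction χ)).apply_eq_sum_irr (Subgroup.inclusion hD u)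
  simp only [h1]
  rw [Finset.sum_comm, Finset.mul_sum]
  refine IsIntegral.sum _ fun ξ _ => ?_
  rw [← Finset.mul_sum, mul_left_comm]
  refine (isIntegral_ip_shift_irr rfl (irr_isCharacter χ).isGen ξ).mul ?_
  obtain ⟨n, hn⟩ := ((irr_isCharacter ξ).comp (Subgroup.inclusion hD)).exists_nat_ip
    isCharacter_one
  rw [ip_def] at hn
  simp only [map_one, mul_one] at hn
  rw [hn]
  exact isIntegral_natCast n

/-- A stable block contains a fixed character. -/
theorem exists_fixed_of_stable {B : Set (IrrCharacter G)} (hB : IsPBlock M B)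
    (h : hS.sb B = B) : ∃ χ ∈ B, hS.sg χ = χ := by
  classical
  have : Fact (Nat.Prime 2) := ⟨Nat.prime_two⟩
  obtain ⟨x, hx, hc, hω⟩ := hS.exists_real_defect hM hB h
  have hxr : ¬ 2 ∣ orderOf x := fun h2 => hc (by
    rw [blockCoeff_eq_zero_of_dvd_orderOf hM hB h2]; exact zero_mem _)
  obtain ⟨D, hD⟩ := exists_isSylowIn 2 (⊤ ⊓ Subgroup.centralizer ({x} : Set G))
  have := Fintype.ofFinite D
  obtain ⟨g, hg⟩ := isConj_iff.1 hx
  obtain ⟨n, ⟨-, hn⟩, hnx⟩ := exists_mem_normalizer_conj_eq (Subgroup.mem_top g) hD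
    (by rwa [hg, ← eq_centralizer_inv rfl])
  rw [hg] at hnx
  rw [top_inf_eq] at hD
  have hcm : ∀ u : D, Commute x u := fun u =>
    (mem_iff_commute_of_eq_centralizer rfl).1 (hD.le u.2)
  set i : ℂ := ((Subgroup.centralizer ({x} : Set G)).index : ℂ) with hi
  have hi0 : i ≠ 0 := Nat.cast_ne_zero.2 Subgroup.index_ne_zero_of_finite
  set F : IrrCharacter G → ℂ := fun χ =>
    ((Nat.card D : ℂ)⁻¹ * ∑ u : D, χ.1 (x * u)) * (χ.1 1 / i) with hF
  have hFm : ∀ χ ∈ bset B, F χ ∈ locRing hM := fun χ hχ => by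
    refine mul_mem (mem_locRing_of_isIntegral hM (isIntegral_avg hD.le χ)) ?_
    have h1 := hω χ (mem_bset.1 hχ)
    have h2 : χ.1 x ≠ 0 := fun h0 => h1 (by
      rw [centralChar, h0, mul_zero, zero_div]; exact zero_mem _)
    have h3 : χ.1 1 / i = χ.1 x * (centralChar χ.1 x)⁻¹ := by
      have := irr_apply_one_ne_zero χ
      rw [centralChar, ← hi]
      field_simp
    rw [h3]
    exact mul_mem (mem_locRing_of_isIntegral hM (irr_isIntegral χ x))
      (inv_mem_locRing hM (centralChar_mem_locRing hM χ x) h1)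
  have hFs : ∀ χ, F (hS.sg χ) = F χ := fun χ => by
    simp only [hF, sg_apply, one_pow]
    congr 2
    refine (Fintype.sum_equiv (D.normalizerMonoidHom ⟨n, hn⟩).toEquiv _ _ fun u => ?_).symm
    rw [hS.mul_pow (isPElt_of_mem hD.isPGroup (Subtype.coe_prop _)) hxr (hcm _),
      ← irr_isClassFunction χ (x * u) n, ← hnx]
    refine congrArg χ.1 ?_
    change _ = n * x * n⁻¹ * (n * u * n⁻¹)
    group
  have hsum : ∑ χ ∈ bset B, F χ =
      (D.relIndex (Subgroup.centralizer ({x} : Set G)) : ℂ) * blockCoeff B x := by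
    have h1 : ∑ χ ∈ bset B, F χ = (Nat.card D : ℂ)⁻¹ * i⁻¹ * ∑ u : D, bker B (x * u) 1 := by
      simp only [hF, bker_def, Finset.mul_sum, Finset.sum_mul]
      rw [Finset.sum_comm]
      refine Finset.sum_congr rfl fun u _ => Finset.sum_congr rfl fun χ _ => ?_
      rw [irr_apply_one, map_natCast]
      ring
    rw [h1, Finset.sum_eq_single (1 : D) (fun u _ hu => ?_) (fun h => (h (Finset.mem_univ _)).elim),
      OneMemClass.coe_one, mul_one, ← bker_inv_inv, inv_one, ← bker_of_isConj_right B 1 hx,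
      blockCoeff_eq_bker, ← Subgroup.card_mul_index D,
      ← Subgroup.relIndex_mul_index hD.le]
    · have h2 : (Nat.card D : ℂ) ≠ 0 := card_cast_ne_zero
      have h3 : (D.relIndex (Subgroup.centralizer ({x} : Set G)) : ℂ) ≠ 0 :=
        Nat.cast_ne_zero.2 fun h0 => hD.not_dvd (h0 ▸ dvd_zero _)
      push_cast
      rw [← hi]
      field_simp
    · refine bker_eq_zero_of_regular' hM hB ?_ not_dvd_orderOf_one
      rw [← pPart_ne_one_iff, pPart_mul_eq' (hcm u).symm (isPElt_of_mem hD.isPGroup u.2)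
        (isPRegular_iff.2 hxr)]
      exact fun h1 => hu (Subtype.ext h1)
  obtain ⟨χ, hχ, h1, -⟩ := exists_fixed_of_sum_ne_zero (add_self_resF hM) (bset B) hS.sg
    (fun χ hχ => mem_bset.2 (by rw [← h] at hχ; exact (show χ ∈ hS.sb B from mem_bset.1 hχ)))
    (fun χ _ => hS.sg_sg χ) (fun χ => red hM (F χ)) (fun χ _ => by rw [hFs]) (by
      intro h2
      replace h2 := (red_eq_zero_iff hM (sum_mem hFm)).1 ((red_sum hM _ _ hFm).trans h2)
      rw [hsum] at h2
      rcases mem_or_mem_of_mul_mem_locIdeal hM (natCast_mem _ _)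
        (blockCoeff_mem_locRing hM hB x) h2 with h3 | h3
      · exact hD.not_dvd ((natCast_mem_locIdeal_iff hM _).1 h3)
      · exact hc h3)
  exact ⟨χ, mem_bset.1 hχ, h1⟩

theorem y_of_fixed (h : ∀ χ, hS.sg χ = χ → χ ∈ principalBlock M G) : Y hM G := by
  classical
  intro x hx1 hx
  have h1 := congrArg (fun a => a.coeff x) (sum_idem (G := G) hM)
  simp only [coeff_sum_apply] at h1
  rw [← Finset.add_sum_erase _ _ (Finset.mem_univ
    (⟨principalBlock M G, isPBlock_principalBlock⟩ : Bl M G)), MonoidAlgebra.one_def,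
    MonoidAlgebra.coeff_single, Finsupp.single_eq_of_ne hx1] at h1
  rw [← h1, left_eq_add]
  by_contra h2
  obtain ⟨B, hB, h3, -⟩ := exists_fixed_of_sum_ne_zero (add_self_resF hM) _
    (fun B : Bl M G => ⟨hS.sb B.1, hS.isPBlock_sb hM B.2⟩) (fun B hB => by
      simp only [Finset.mem_erase, ne_eq, Finset.mem_univ, and_true, Subtype.ext_iff] at hB ⊢
      exact fun h3 => hB (by rw [← hS.sb_sb B.1, h3, hS.sb_principal hM]))
    (fun B _ => Subtype.ext (hS.sb_sb B.1)) _ (fun B _ => by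
      rw [hS.coeff_idem_sb hM B.2, ← (isCentral_idem hM B.1).of_isConj hx]) h2
  obtain ⟨χ, hχ, h4⟩ := hS.exists_fixed_of_stable hM B.2 (congrArg Subtype.val h3)
  exact (Finset.mem_erase.1 hB).1
    (Subtype.ext (block_eq_of_mem hM B.2 isPBlock_principalBlock hχ (h χ h4)))

theorem mem_principal_of_odd {χ : IrrCharacter G} (h : hS.sg χ = χ)
    (ho : Odd (charDegree χ.1)) : χ ∈ principalBlock M G := by
  classical
  have : Fact (Nat.Prime 2) := ⟨Nat.prime_two⟩
  have := Fintype.ofFinite G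
  refine sameBlock_symm hM (sameBlock_of_ip_pRegularPart_ne_zero hM (ψ := irrOne G) fun h0 => ?_)
  rw [ip_def, mul_eq_zero, or_iff_right (inv_ne_zero card_cast_ne_zero)] at h0
  simp only [irrOne_apply, map_one, mul_one] at h0
  have hm : ∀ g, pRegularPart 2 χ.1 g ∈ locRing hM := fun g => by
    rw [pRegularPart_apply]
    split_ifs
    · exact zero_mem _
    · exact mem_locRing_of_isIntegral hM (irr_isIntegral χ g)
  have h1 := congrArg (red hM) h0
  rw [red_sum hM _ _ fun g _ => hm g, red_zero] at h1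
  rw [← Finset.add_sum_erase _ _ (Finset.mem_univ 1)] at h1
  have h2 : ∑ g ∈ Finset.univ.erase 1, red hM (pRegularPart 2 χ.1 g) = 0 := by
    by_contra h2
    obtain ⟨g, hg, h3, h4⟩ := exists_fixed_of_sum_ne_zero (add_self_resF hM) _ (·⁻¹)
      (fun g hg => by simpa using hg) (fun g _ => inv_inv g) _ (fun g _ => by
        rw [pRegularPart_apply, pRegularPart_apply, orderOf_inv]
        split_ifs with h3
        · rfl
        · rw [← hS.reg h3, ← hS.sg_apply, h]) h2
    refine h4 ?_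
    rw [pRegularPart_of_dvd, red_zero]
    refine (isPElt_of_pow_eq_one (p := 2) (k := 1) ?_).dvd_orderOf (Finset.mem_erase.1 hg).1
    rw [pow_one, pow_two]
    nth_rewrite 1 [← h3]
    exact inv_mul_cancel g
  rw [h2, add_zero, pRegularPart_apply_one, irr_apply_one, red_natCast,
    CharP.cast_eq_zero_iff (ResF hM) 2] at h1
  exact (Nat.not_even_iff_odd.2 ho) (even_iff_two_dvd.2 h1)

theorem exists_fixed_principal (he : 2 ∣ Nat.card G) :
    ∃ χ ∈ principalBlock M G, χ ≠ irrOne G ∧ hS.sg χ = χ := by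
  classical
  have : Fact (Nat.Prime 2) := ⟨Nat.prime_two⟩
  have h1 : ((∑ χ ∈ bset (principalBlock M G), charDegree χ.1 ^ 2 : ℕ) : ResF hM) = 0 := by
    rw [CharP.cast_eq_zero_iff (ResF hM) 2, ← natCast_mem_locIdeal_iff hM, ← bker_one_one]
    have h2 := mul_mem_locIdeal_right hM ((natCast_mem_locIdeal_iff hM _).2 he)
      (blockCoeff_mem_locRing hM isPBlock_principalBlock (1 : G))
    rwa [blockCoeff_eq_bker, mul_inv_cancel_left₀ card_cast_ne_zero] at h2
  rw [← Finset.add_sum_erase _ _ (mem_bset.2 (irrOne_mem_principalBlock hM)),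
    charDegree_eq_of_apply_one (n := 1) (by simp), Nat.cast_add, Nat.cast_sum] at h1
  obtain ⟨χ, hχ, h2, -⟩ := exists_fixed_of_sum_ne_zero (add_self_resF hM)
    ((bset (principalBlock M G)).erase (irrOne G)) hS.sg (fun χ hχ => by
      simp only [Finset.mem_erase, mem_bset] at hχ ⊢
      exact ⟨fun h => hχ.1 (by rw [← hS.sg_sg χ, h, sg_irrOne]),
        (irrPow_mem_principal_iff hM hS.coprime χ).2 hχ.2⟩) (fun χ _ => hS.sg_sg χ)
    (fun χ => ((charDegree χ.1 ^ 2 : ℕ) : ResF hM)) (fun χ _ => by rw [charDegree_sg])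
    (fun h => by simpa using (congrArg _ h).symm.trans h1)
  exact ⟨χ, mem_bset.1 (Finset.mem_erase.1 hχ).2, (Finset.mem_erase.1 hχ).1, h2⟩

/-- If all fixed characters have odd degree and the Sylow `2`-subgroups are abelian, then any two
involutions commute. -/
theorem commute_of_forall_odd (hA : Ab G) (h : ∀ χ, hS.sg χ = χ → Odd (charDegree χ.1))
    {s t : G} (hs : s * s = 1) (ht : t * t = 1) : Commute s t :=
  commute_of_y hM _ G rfl hA
    (hS.y_of_fixed hM fun χ hχ => hS.mem_principal_of_odd hM hχ (h χ hχ)) s t hs ht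

end Sig

/-- Statement S4523 for groups of even order. -/
theorem sigma_fixed_of_even {S : Type*} [Group S] [Finite S] [IsSimpleGroup S]
    (hna : ¬ IsMulCommutative S) (he : 2 ∣ Nat.card S) (P : Sylow 2 S) (hP : IsMulCommutative P)
    (M : Ideal AlgInt) (hM : IsPModular 2 M) (k : ℕ)
    (hk₁ : ∀ g : S, (∃ j : ℕ, orderOf g = 2 ^ j) → g ^ k = g)
    (hk₂ : ∀ g : S, Odd (orderOf g) → g ^ k = g⁻¹) :
    (∃ χ₁ : IrrCharacter S, Even (charDegree (χ₁ : S → ℂ)) ∧
      ∀ g : S, (χ₁ : S → ℂ) (g ^ k) = (χ₁ : S → ℂ) g) ∧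
    ∃ χ₂ ∈ principalBlock M S, (χ₂ : S → ℂ) ≠ (fun _ => 1) ∧
      ∀ g : S, (χ₂ : S → ℂ) (g ^ k) = (χ₂ : S → ℂ) g := by
  have hS : Sig k S := ⟨hk₁, hk₂⟩
  have : Fact (Nat.Prime 2) := ⟨Nat.prime_two⟩
  constructor
  · by_contra hn
    push Not at hn
    have hc := fun s t => hS.commute_of_forall_odd hM (ab_of_sylow P hP) (fun χ hχ => by
      by_contra h1
      obtain ⟨g, hg⟩ := hn χ (Nat.not_odd_iff_even.1 h1)
      exact hg (by rw [← hS.sg_apply, hχ])) (s := s) (t := t)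
    obtain ⟨s, hs⟩ := exists_prime_orderOf_dvd_card' 2 he
    have hs1 : s ≠ 1 := by rintro rfl; simp at hs
    have hs2 : s * s = 1 := by rw [← pow_two, ← hs, pow_orderOf_eq_one]
    have h1 : Subgroup.normalClosure {s} ≤ Subgroup.centralizer ({s} : Set S) := by
      refine (Subgroup.closure_le _).2 fun a ha => ?_
      obtain ⟨b, hb, hab⟩ := Group.mem_conjugatesOfSet_iff.1 ha
      rw [Set.mem_singleton_iff] at hb
      subst hb
      obtain ⟨g, rfl⟩ := isConj_iff.1 hab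
      exact Subgroup.mem_centralizer_singleton_iff.2 (hc _ _ (conj_sq hs2 g) hs2).eq
    have h2 : Subgroup.normalClosure ({s} : Set S) = ⊤ :=
      (IsSimpleGroup.eq_bot_or_eq_top_of_normal _ Subgroup.normalClosure_normal).resolve_left
        fun h => hs1 (Subgroup.mem_bot.1 (h ▸ Subgroup.subset_normalClosure rfl))
    have h3 : s ∈ Subgroup.center S := Subgroup.mem_center_iff.2 fun g =>
      Subgroup.mem_centralizer_singleton_iff.1 (h1 (h2 ▸ Subgroup.mem_top g))
    have h4 : Subgroup.center S = ⊤ :=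
      (IsSimpleGroup.eq_bot_or_eq_top_of_normal _ inferInstance).resolve_left
        fun h => hs1 (Subgroup.mem_bot.1 (h ▸ h3))
    exact hna ⟨⟨fun a b => Subgroup.mem_center_iff.1 (h4 ▸ Subgroup.mem_top b) a⟩⟩
  · obtain ⟨χ, h1, h2, h3⟩ := hS.exists_fixed_principal hM he
    exact ⟨χ, h1, fun h => h2 (Subtype.ext h), fun g => by rw [← hS.sg_apply, h3]⟩

universe u

/-- Statement S4523, assuming the odd order theorem. -/
theorem sigma_fixed_of_ft
    (hFT : ∀ (H : Type u) [Group H] [Finite H], Odd (Nat.card H) → Group.IsSolvable H)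
    {S : Type u} [Group S] [Finite S] [IsSimpleGroup S]
    (hna : ¬ IsMulCommutative S) (P : Sylow 2 S) (hP : IsMulCommutative P)
    (M : Ideal AlgInt) (hM : IsPModular 2 M) (k : ℕ)
    (hk₁ : ∀ g : S, (∃ j : ℕ, orderOf g = 2 ^ j) → g ^ k = g)
    (hk₂ : ∀ g : S, Odd (orderOf g) → g ^ k = g⁻¹) :
    (∃ χ₁ : IrrCharacter S, Even (charDegree (χ₁ : S → ℂ)) ∧
      ∀ g : S, (χ₁ : S → ℂ) (g ^ k) = (χ₁ : S → ℂ) g) ∧
    ∃ χ₂ ∈ principalBlock M S, (χ₂ : S → ℂ) ≠ (fun _ => 1) ∧
      ∀ g : S, (χ₂ : S → ℂ) (g ^ k) = (χ₂ : S → ℂ) g := by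
  refine sigma_fixed_of_even hna ?_ P hP M hM k hk₁ hk₂
  by_contra h
  have h1 := hFT S (Nat.odd_iff.2 (by omega))
  exact hna ⟨⟨IsSimpleGroup.comm_iff_isSolvable.2 h1⟩⟩

end BT
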