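import Cfsg.Agent.Lib.Block.PrincipalB
import Cfsg.Agent.Lib.Block.GalBlock
import Cfsg.Agent.Lib.Block.CentralDef
import Cfsg.Agent.Lib.Char.OddIndex

/-!
# Groups with abelian Sylow `2`-subgroups whose only real `2`-block is the principal one

If the principal `2`-block idempotent vanishes on the real elements `≠ 1` and all `2`-subgroups
are abelian, then any two involutions commute.
-/

set_option autoImplicit false
set_option linter.unusedSectionVars false

namespace BT

open Cfsg CT GT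
open scoped MonoidAlgebra ComplexConjugate

theorem exists_fixed_of_sum_ne_zero {ι R : Type*} [AddCommGroup R] (h2 : ∀ a : R, a + a = 0)
    (s : Finset ι) (τ : ι → ι) (hs : ∀ i ∈ s, τ i ∈ s) (hτ : ∀ i ∈ s, τ (τ i) = i) (f : ι → R)
    (hf : ∀ i ∈ s, f (τ i) = f i) (h : ∑ i ∈ s, f i ≠ 0) : ∃ i ∈ s, τ i = i ∧ f i ≠ 0 := by
  by_contra hn
  push Not at hn
  refine h (Finset.sum_involution (fun i _ => τ i) (fun i hi => ?_) (fun i hi h0 h1 => ?_)
    (fun i hi => hs i hi) (fun i hi => hτ i hi))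
  · rw [hf i hi, h2]
  · exact h0 (hn i hi h1)

namespace SigInv

variable {G : Type*} [Group G]

/-- Commuting is transitive through an involution. -/
def Tr (G : Type*) [Group G] : Prop :=
  ∀ z s t : G, z ≠ 1 → z * z = 1 → s * s = 1 → t * t = 1 → Commute z s → Commute z t →
    Commute s t

theorem conj_sq {s : G} (hs : s * s = 1) (g : G) : g * s * g⁻¹ * (g * s * g⁻¹) = 1 := by
  calc g * s * g⁻¹ * (g * s * g⁻¹) = g * (s * s) * g⁻¹ := by group
    _ = 1 := by rw [hs]; group

theorem conj_ne_one {s : G} (hs : s ≠ 1) (g : G) : g * s * g⁻¹ ≠ 1 := fun h =>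
  hs (by simpa using h)

theorem commute_conj_iff (g a b : G) : Commute (g * a * g⁻¹) (g * b * g⁻¹) ↔ Commute a b := by
  unfold Commute SemiconjBy
  constructor
  · intro h
    calc a * b = g⁻¹ * (g * a * g⁻¹ * (g * b * g⁻¹)) * g := by group
      _ = b * a := by rw [h]; group
  · intro h
    calc g * a * g⁻¹ * (g * b * g⁻¹) = g * (a * b) * g⁻¹ := by group
      _ = _ := by rw [h]; group

theorem commute_conj_left_iff (g a b : G) : Commute (g * a * g⁻¹) b ↔ Commute a (g⁻¹ * b * g⁻¹⁻¹) := by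
  rw [← commute_conj_iff g a]
  simp [mul_assoc]

theorem inv_eq_of_sq {s : G} (hs : s * s = 1) : s⁻¹ = s := inv_eq_of_mul_eq_one_right hs

theorem conj_mul_pow {s r : G} (hs : s * s = 1) (hr : r * r = 1) (n : ℕ) :
    s * (s * r) ^ n * s⁻¹ = ((s * r) ^ n)⁻¹ := by
  rw [← conj_pow, ← inv_pow]
  congr 1
  rw [mul_inv_rev, inv_eq_of_sq hs, inv_eq_of_sq hr, ← mul_assoc, hs, one_mul]

theorem odd_orderOf [Finite G] (h : Tr G) {s r : G} (hs : s * s = 1) (hr : r * r = 1)
    (hc : ¬ Commute s r) : Odd (orderOf (s * r)) := by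
  rw [← Nat.not_even_iff_odd]
  rintro ⟨m, hm⟩
  have hpos := orderOf_pos (s * r)
  have hz : (s * r) ^ m * (s * r) ^ m = 1 := by rw [← pow_add, ← hm, pow_orderOf_eq_one]
  have hz1 : (s * r) ^ m ≠ 1 := pow_ne_one_of_lt_orderOf (by omega) (by omega)
  have h1 : Commute ((s * r) ^ m) s := by
    have := conj_mul_pow hs hr m
    rw [inv_eq_of_sq hz, mul_inv_eq_iff_eq_mul] at this
    exact this.symm
  have h2 : Commute ((s * r) ^ m) r := by
    have h3 : Commute ((s * r) ^ m) (s * (s * r)) := h1.mul_right (Commute.self_pow _ _).symm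
    rwa [← mul_assoc, hs, one_mul] at h3
  exact hc (h _ _ _ hz1 hz hs hr h1 h2)

theorem exists_swap [Finite G] {s r : G} (hs : s * s = 1) (hr : r * r = 1)
    (ho : Odd (orderOf (s * r))) : ∃ w : G, w * w = 1 ∧ w * s * w⁻¹ = r := by
  obtain ⟨m, hm⟩ := ho
  have h1 := conj_mul_pow hs hr m
  refine ⟨(s * r) ^ m * s, ?_, ?_⟩
  · calc (s * r) ^ m * s * ((s * r) ^ m * s) = (s * r) ^ m * (s * (s * r) ^ m * s⁻¹) := by
          rw [inv_eq_of_sq hs]; group
      _ = 1 := by rw [h1]; group
  · have h2 : (s * r) ^ (2 * m + 1) = 1 := by rw [← hm, pow_orderOf_eq_one]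
    have h3 : (s * r) ^ m * (s * r) ^ m = (s * r)⁻¹ := by
      rw [← pow_add, eq_inv_iff_mul_eq_one, ← pow_succ, ← h2]; congr 1; ring
    have h4 : s * ((s * r) ^ m)⁻¹ * s⁻¹ = (s * r) ^ m := by
      calc s * ((s * r) ^ m)⁻¹ * s⁻¹ = (s * (s * r) ^ m * s⁻¹)⁻¹ := by group
        _ = _ := by rw [h1, inv_inv]
    calc (s * r) ^ m * s * s * ((s * r) ^ m * s)⁻¹
        = (s * r) ^ m * (s * ((s * r) ^ m)⁻¹ * s⁻¹) * s := by group
      _ = r := by
        rw [h4, h3, mul_inv_rev, inv_mul_cancel_right, inv_eq_of_sq hr]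

theorem commute_of_conj (h : Tr G) {w s : G} (hw : w * w = 1) (hs : s * s = 1)
    (hc : Commute (w * s * w⁻¹) s) : Commute w s := by
  by_cases hz : s * (w * s * w⁻¹) = 1
  · have : w * s * w⁻¹ = s := by rw [← inv_eq_of_mul_eq_one_right hz, inv_eq_of_sq hs]
    exact mul_inv_eq_iff_eq_mul.1 this
  refine h _ _ _ hz ?_ hw hs ?_ ((Commute.refl s).mul_left hc)
  · calc s * (w * s * w⁻¹) * (s * (w * s * w⁻¹))
        = s * (w * s * w⁻¹ * s) * (w * s * w⁻¹) := by group
      _ = (s * s) * (w * s * w⁻¹ * (w * s * w⁻¹)) := by rw [hc.eq]; group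
      _ = 1 := by rw [hs, conj_sq hs, one_mul]
  · have h1 : w * s * w⁻¹ * s = s * (w * s * w⁻¹) := hc.eq
    calc s * (w * s * w⁻¹) * w = w * s * w⁻¹ * s * w := by rw [h1]
      _ = w * (s * (w * s * w⁻¹)) := by rw [inv_eq_of_sq hw]; group

open Classical in
theorem card_sq_conj_commute [Fintype G] (h : Tr G) {s r : G} (hs1 : s ≠ 1) (hs : s * s = 1)
    (hr : r * r = 1) :
    (Finset.univ.filter fun w : G => w * w = 1 ∧ Commute (w * s * w⁻¹) r).card % 2 =
      if Commute s r then 0 else 1 := by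
  set X := Finset.univ.filter fun g : G => Commute (g * s * g⁻¹) r ∧ Commute (g * r * g⁻¹) s
    with hX
  have h1 := card_filter_fixed_mod_two X (·⁻¹) (fun g hg => by
    simp only [hX, Finset.mem_filter, Finset.mem_univ, true_and] at hg ⊢
    exact ⟨((commute_conj_left_iff _ _ _).1 hg.2).symm,
      ((commute_conj_left_iff _ _ _).1 hg.1).symm⟩) (fun g _ => inv_inv g)
  have h2 : (X.filter fun g => g⁻¹ = g) =
      Finset.univ.filter fun w : G => w * w = 1 ∧ Commute (w * s * w⁻¹) r := by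
    ext w
    simp only [hX, Finset.mem_filter, Finset.mem_univ, true_and]
    constructor
    · rintro ⟨⟨a, -⟩, b⟩
      exact ⟨by nth_rewrite 1 [← b]; exact inv_mul_cancel w, a⟩
    · rintro ⟨a, b⟩
      refine ⟨⟨b, ?_⟩, inv_eq_of_sq a⟩
      have := ((commute_conj_left_iff _ _ _).1 b).symm
      rw [inv_inv, inv_eq_of_sq a] at this
      rwa [inv_eq_of_sq a]
  rw [← h2, ← h1]
  split_ifs with hc
  · rw [card_filter_fixed_mod_two X (· * s) (fun g hg => ?_)
      (fun g _ => by rw [mul_assoc, hs, mul_one])]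
    · rw [Finset.filter_eq_empty_iff.2 fun g _ hg => hs1 (by simpa using hg)]
      rfl
    · simp only [hX, Finset.mem_filter, Finset.mem_univ, true_and] at hg ⊢
      have e1 : g * s * s * (g * s)⁻¹ = g * s * g⁻¹ := by group
      have e2 : g * s * r * (g * s)⁻¹ = g * r * g⁻¹ := by
        rw [mul_assoc g s r, hc.eq]; group
      rw [e1, e2]
      exact hg
  · obtain ⟨w, hw, hws⟩ := exists_swap hs hr (odd_orderOf h hs hr hc)
    have hwr : w * r * w⁻¹ = s := by
      rw [← hws, inv_eq_of_sq hw]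
      calc w * (w * s * w) * w = (w * w) * s * (w * w) := by group
        _ = s := by rw [hw]; group
    set U := Finset.univ.filter fun g : G => Commute (g * s * g⁻¹) s ∧ Commute (g * r * g⁻¹) r
      with hU
    have h3 : U.card = X.card := by
      refine Finset.card_bijective (w * ·) (Group.mulLeft_bijective w) fun g => ?_
      simp only [hX, hU, Finset.mem_filter, Finset.mem_univ, true_and]
      have e1 : w * g * s * (w * g)⁻¹ = w * (g * s * g⁻¹) * w⁻¹ := by group
      have e2 : w * g * r * (w * g)⁻¹ = w * (g * r * g⁻¹) * w⁻¹ := by group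
      rw [e1, e2]
      conv_rhs => rw [← hws]
      rw [commute_conj_iff, hws]
      conv_rhs => rhs; rw [← hwr]
      rw [commute_conj_iff]
    rw [← h3, card_filter_fixed_mod_two U (·⁻¹) (fun g hg => ?_) (fun g _ => inv_inv g)]
    · have : (U.filter fun g => g⁻¹ = g) = {1} := by
        ext g
        simp only [hU, Finset.mem_filter, Finset.mem_univ, true_and, Finset.mem_singleton]
        constructor
        · rintro ⟨⟨a, b⟩, c⟩
          by_contra hg
          have hg2 : g * g = 1 := by nth_rewrite 1 [← c]; exact inv_mul_cancel g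
          exact hc (h g s r hg hg2 hs hr (commute_of_conj h hg2 hs a) (commute_of_conj h hg2 hr b))
        · rintro rfl
          simp
      rw [this]
      rfl
    · simp only [hU, Finset.mem_filter, Finset.mem_univ, true_and] at hg ⊢
      exact ⟨((commute_conj_left_iff _ _ _).1 hg.1).symm,
        ((commute_conj_left_iff _ _ _).1 hg.2).symm⟩

theorem sum_coeff_mul_mul {R : Type*} [CommRing R] [Fintype G] (a b : R[G]) (τ : G → R)
    (h : ∀ x, ∑ w, b.coeff w * τ (x * w) = τ x) :
    ∑ g, (a * b).coeff g * τ g = ∑ g, a.coeff g * τ g := by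
  simp only [coeff_mul_eq_sum, Finset.sum_mul]
  rw [Finset.sum_comm]
  refine Finset.sum_congr rfl fun x _ => ?_
  rw [← h x, Finset.mul_sum, ← Equiv.sum_comp (Equiv.mulLeft x)]
  refine Finset.sum_congr rfl fun w _ => ?_
  simp [mul_assoc]

section Blocks

variable {M : Ideal AlgInt} (hM : IsPModular 2 M) [Finite G]

theorem add_self_resF (a : ResF hM) : a + a = 0 := by
  rw [← two_mul]
  exact mul_eq_zero_of_left (CharP.cast_eq_zero (ResF hM) 2) _

theorem blockCoeff_eq_bker (B : Set (IrrCharacter G)) (g : G) :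
    blockCoeff B g = (Nat.card G : ℂ)⁻¹ * bker B 1 g := by
  rw [blockCoeff_eq_sum_bset, bker_def]

include hM in
theorem blockCoeff_principal_inv (g : G) :
    blockCoeff (principalBlock M G) g⁻¹ = blockCoeff (principalBlock M G) g := by
  have : Fact (Nat.Prime 2) := ⟨Nat.prime_two⟩
  rw [blockCoeff_eq_sum_bset, blockCoeff_eq_sum_bset]
  congr 1
  have hb : ∀ χ : IrrCharacter G, irrBar (irrBar χ) = χ := fun χ =>
    Subtype.ext (funext fun g => by simp)
  refine Finset.sum_bij' (fun χ _ => irrBar χ) (fun χ _ => irrBar χ)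
    (fun χ hχ => mem_bset.2 ((irrBar_mem_principal_iff hM χ).2 (mem_bset.1 hχ)))
    (fun χ hχ => mem_bset.2 ((irrBar_mem_principal_iff hM χ).2 (mem_bset.1 hχ)))
    (fun χ _ => hb χ) (fun χ _ => hb χ) fun χ _ => ?_
  simp only [(irr_isCharacter χ).apply_inv, irrBar_val, cbar_apply]
  rw [irr_apply_one, map_natCast]

/-- The principal block idempotent vanishes on the real elements `≠ 1`. -/
def Y (G : Type*) [Group G] [Finite G] : Prop :=
  ∀ x : G, x ≠ 1 → IsConj x x⁻¹ → (idem hM (principalBlock M G)).coeff x = 0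

variable {hM}

theorem Y.sum_eq_zero (hY : Y hM G) {r : G} (hr : r * r = 1) (S : Finset G) (h1 : (1 : G) ∉ S)
    (hS : ∀ g ∈ S, r * g⁻¹ * r⁻¹ ∈ S) :
    ∑ g ∈ S, (idem hM (principalBlock M G)).coeff g = 0 := by
  by_contra h
  obtain ⟨g, hg, h2, h3⟩ := exists_fixed_of_sum_ne_zero (add_self_resF hM) S
    (fun g => r * g⁻¹ * r⁻¹) hS (fun g _ => by
      rw [inv_eq_of_sq hr]
      calc r * (r * g⁻¹ * r)⁻¹ * r = r * r⁻¹ * g * (r⁻¹ * r) := by group
        _ = g := by group) _ (fun g _ => by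
      rw [← (isCentral_idem hM _).of_isConj (isConj_iff.2 ⟨r, rfl⟩), coeff_idem, coeff_idem,
        blockCoeff_principal_inv hM]) h
  exact h3 (hY g (fun e => h1 (e ▸ hg)) (isConj_iff.2 ⟨r, h2⟩).symm)

theorem Y.sum_eq_coeff_one (hY : Y hM G) (S : Finset G) (h1 : (1 : G) ∈ S)
    (hS : ∀ g ∈ S, g⁻¹ ∈ S) : ∑ g ∈ S, (idem hM (principalBlock M G)).coeff g =
      (idem hM (principalBlock M G)).coeff 1 := by
  classical
  rw [← Finset.add_sum_erase _ _ h1, hY.sum_eq_zero (r := 1) (mul_one 1) _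
    (Finset.notMem_erase _ _) fun g hg => ?_, add_zero]
  simp only [one_mul, inv_one, mul_one, Finset.mem_erase, ne_eq, inv_eq_one] at hg ⊢
  exact ⟨hg.1, hS g hg.2⟩

theorem Y.coeff_one (hY : Y hM G) : (idem hM (principalBlock M G)).coeff 1 = 1 := by
  have := Fintype.ofFinite G
  rw [← hY.sum_eq_coeff_one Finset.univ (Finset.mem_univ _) fun _ _ => Finset.mem_univ _,
    ← aug_eq_sum, aug_idem_principal]

theorem Y.commute_of_tr (hY : Y hM G) (h : Tr G) {s t : G} (hs : s * s = 1) (ht : t * t = 1) :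
    Commute s t := by
  classical
  have := Fintype.ofFinite G
  have : Fact (Nat.Prime 2) := ⟨Nat.prime_two⟩
  by_contra hc
  have hs1 : s ≠ 1 := by rintro rfl; exact hc (Commute.one_left _)
  have ht1 : t ≠ 1 := by rintro rfl; exact hc (Commute.one_right _)
  set e := idem hM (principalBlock M G) with he
  set Ω : (ResF hM)[G] := ofFun fun w => if w * w = 1 then 1 else 0 with hΩ
  have hΩc : IsCentral Ω := by
    rw [isCentral_iff_cj]
    intro g
    refine ga_ext fun x => ?_
    rw [coeff_cj, hΩ, coeff_ofFun, coeff_ofFun]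
    have : g⁻¹ * x * g * (g⁻¹ * x * g) = 1 ↔ x * x = 1 := by
      constructor
      · intro h1
        simpa [mul_assoc] using conj_sq h1 g
      · intro h1
        simpa using conj_sq h1 g⁻¹
    simp only [this]
  have hcard : ∀ (q : G → Prop) [DecidablePred q],
      ∑ w : G, Ω.coeff w * (if q w then 1 else 0) =
        (((Finset.univ.filter fun w : G => w * w = 1 ∧ q w).card % 2 : ℕ) : ResF hM) := by
    intro q _
    rw [← CharP.cast_eq_mod (ResF hM) 2, Finset.card_filter, Nat.cast_sum]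
    refine Finset.sum_congr rfl fun w _ => ?_
    rw [hΩ, coeff_ofFun]
    by_cases h1 : w * w = 1 <;> by_cases h2 : q w <;> simp [h1, h2]
  have haug : aug Ω = 0 := by
    have h1 := hcard (fun _ => True)
    simp only [if_true, mul_one, and_true] at h1
    rw [aug_eq_sum, h1]
    have h2 := card_filter_fixed_mod_two (Finset.univ : Finset G) (·⁻¹)
      (fun _ _ => Finset.mem_univ _) (fun g _ => inv_inv g)
    have h3 := card_filter_fixed_mod_two (Finset.univ : Finset G) (· * s)
      (fun _ _ => Finset.mem_univ _) (fun g _ => by rw [mul_assoc, hs, mul_one])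
    rw [Finset.filter_eq_empty_iff.2 fun g _ hg => hs1 (by simpa using hg)] at h3
    have h4 : (Finset.univ.filter fun w : G => w * w = 1) =
        Finset.univ.filter fun w : G => w⁻¹ = w := by
      ext w
      simp [inv_eq_iff_mul_eq_one]
    rw [h4, ← h2, h3]
    simp
  obtain ⟨n, hn⟩ : IsNilpotent (Ω * e) :=
    (isNilpotent_mul_idem_iff hM isPBlock_principalBlock (irrOne_mem_principalBlock hM) hΩc).2
      (by rw [lam_irrOne hM hΩc, haug])
  set τ : G → ResF hM := fun g => (if Commute (g * s * g⁻¹) s then 1 else 0) +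
    (if Commute (g * t * g⁻¹) s then 1 else 0) with hτ
  have hτΩ : ∀ x : G, ∑ w : G, Ω.coeff w * τ (x * w) = τ x := by
    intro x
    have e1 : ∀ w a : G, Commute (x * w * a * (x * w)⁻¹) s ↔
        Commute (w * a * w⁻¹) (x⁻¹ * s * x⁻¹⁻¹) := fun w a => by
      rw [← commute_conj_left_iff]
      congr! 1
      group
    simp only [hτ, mul_add, Finset.sum_add_distrib, e1]
    rw [hcard, hcard, card_sq_conj_commute h hs1 hs (conj_sq hs _),
      card_sq_conj_commute h ht1 ht (conj_sq hs _), commute_conj_left_iff, commute_conj_left_iff]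
    split_ifs <;> simp [add_self_resF hM]
  have hT : ∀ a : (ResF hM)[G], ∑ g : G, (a * Ω).coeff g * τ g = ∑ g : G, a.coeff g * τ g :=
    fun a => sum_coeff_mul_mul a Ω τ hτΩ
  have hT' : ∀ m : ℕ, ∑ g : G, (e * Ω ^ m).coeff g * τ g = ∑ g : G, e.coeff g * τ g := by
    intro m
    induction m with
    | zero => simp
    | succ m ih => rw [pow_succ, ← mul_assoc, hT, ih]
  have h0 : e * Ω ^ (n + 1) = 0 := by
    have hcm : Commute Ω e := isCentral_iff_commute.1 hΩc e
    have hee : IsIdempotentElem e := idem_mul_self hM isPBlock_principalBlock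
    have : (Ω * e) ^ (n + 1) = 0 := by rw [pow_succ, hn, zero_mul]
    rwa [hcm.mul_pow, hee.pow_succ_eq, (hcm.pow_left _).eq] at this
  have h1 := hT' (n + 1)
  rw [h0] at h1
  simp only [hτ, mul_add, Finset.sum_add_distrib, mul_ite, mul_one, mul_zero,
    ← Finset.sum_filter] at h1
  obtain ⟨w, hw, hwt⟩ := exists_swap ht hs (odd_orderOf h ht hs fun e => hc e.symm)
  rw [hY.sum_eq_coeff_one _ (by simp) (fun g hg => ?_), hY.sum_eq_zero hw _
    (by simpa using fun e => hc e.symm) (fun g hg => ?_), hY.coeff_one] at h1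
  · simp at h1
  · simp only [Finset.mem_filter, Finset.mem_univ, true_and] at hg ⊢
    have h2 := (commute_conj_iff w _ _).2 ((commute_conj_left_iff _ _ _).1 hg)
    rw [hwt] at h2
    have h3 : w⁻¹ * t * w = s := by rw [← hwt, inv_eq_of_sq hw]
    convert h2.symm using 1
    rw [← h3]
    group
  · simp only [Finset.mem_filter, Finset.mem_univ, true_and] at hg ⊢
    exact ((commute_conj_left_iff _ _ _).1 hg).symm

theorem Y.centralizer (hY : Y hM G) {Q : Subgroup G} (hQ : IsPGroup 2 Q) :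
    Y hM (Subgroup.centralizer (Q : Set G)) := by
  have : Fact (Nat.Prime 2) := ⟨Nat.prime_two⟩
  intro x hx1 hx
  have h1 := congrArg (fun a => a.coeff (x : G)) (br_idem_principal hM hQ)
  simp only [sidem, coeff_emb_coe, br_def, coeff_trunc_of_mem _ x.2] at h1
  rw [← h1]
  exact hY x (fun h => hx1 (Subtype.ext h)) (MonoidHom.map_isConj (Subgroup.subtype _) hx)

theorem Y.of_surjective {H : Type*} [Group H] [Finite H] (hY : Y hM G) (f : G →* H)
    (hf : Function.Surjective f) (hZ : f.ker ≤ Subgroup.center G) (hZp : IsPGroup 2 f.ker) :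
    Y hM H := by
  have : Fact (Nat.Prime 2) := ⟨Nat.prime_two⟩
  intro x hx1 hx
  by_cases h2 : 2 ∣ orderOf x
  · rw [coeff_idem, blockCoeff_eq_zero_of_dvd_orderOf hM isPBlock_principalBlock h2, red_zero]
  obtain ⟨y, rfl⟩ := hf x
  have hy : f (pRegPart 2 y) = f y := by
    rw [map_pRegPart, IsPRegular.pRegPart_eq (isPRegular_iff.2 h2)]
  have hr := isPRegular_pRegPart 2 y
  generalize pRegPart 2 y = s at hy hr
  rw [← hy] at hx1 hx ⊢
  obtain ⟨c, hc⟩ := isConj_iff.1 hx
  obtain ⟨g, rfl⟩ := hf c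
  have h3 : g * s * g⁻¹ = s⁻¹ :=
    eq_of_map_eq_of_regular f hZ hZp (hr.conj g) hr.inv (by simpa using hc)
  have h4 := hY s (fun h => hx1 (by rw [h, map_one])) (isConj_iff.2 ⟨g, h3⟩)
  rw [coeff_idem, blockCoeff_eq_bker, bker_eq_card_mul_bker_quotSet hM f hf hZ hZp
    isPBlock_principalBlock not_dvd_orderOf_one (isPRegular_iff.1 hr), map_one,
    quotSet_principal hM f hf hZ hZp] at h4
  rw [coeff_idem, blockCoeff_eq_bker, ← h4, ← mul_assoc]
  congr 2
  have h5 : Nat.card G = Nat.card f.ker * Nat.card H := by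
    rw [← Subgroup.card_mul_index f.ker, Subgroup.index_ker, MonoidHom.range_eq_top.2 hf,
      Subgroup.card_top]
  have h6 : (Nat.card f.ker : ℂ) ≠ 0 := card_cast_ne_zero
  rw [h5, Nat.cast_mul, mul_inv, mul_right_comm, inv_mul_cancel₀ h6, one_mul]

end Blocks

/-- All `2`-subgroups are abelian. -/
def Ab (G : Type*) [Group G] : Prop :=
  ∀ Q : Subgroup G, IsPGroup 2 Q → ∀ a ∈ Q, ∀ b ∈ Q, Commute a b

theorem Ab.subgroup (h : Ab G) (K : Subgroup G) : Ab K := fun Q hQ a ha b hb =>
  Subtype.ext (h (Q.map K.subtype) (hQ.map _) a ⟨a, ha, rfl⟩ b ⟨b, hb, rfl⟩).eq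

theorem Ab.of_surjective {H : Type*} [Group H] (h : Ab G) (f : G →* H)
    (hf : Function.Surjective f) (hZp : IsPGroup 2 f.ker) : Ab H := fun Q hQ a ha b hb => by
  obtain ⟨a, rfl⟩ := hf a
  obtain ⟨b, rfl⟩ := hf b
  exact (h (Q.comap f) (hQ.comap_of_ker_isPGroup f hZp) a ha b hb).map f

theorem ab_of_sylow [Finite G] (P : Sylow 2 G) (hP : IsMulCommutative P) : Ab G := by
  have : Fact (Nat.Prime 2) := ⟨Nat.prime_two⟩
  intro Q hQ a ha b hb
  obtain ⟨g, hg⟩ := exists_conj_le_sylow P hQ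
  rw [← commute_conj_iff g]
  have h1 : ∀ c ∈ Q, g * c * g⁻¹ ∈ (P : Subgroup G) := fun c hc =>
    hg (Subgroup.smul_mem_pointwise_smul c (MulAut.conj g) Q hc)
  exact congrArg Subtype.val (hP.is_comm.comm ⟨_, h1 a ha⟩ ⟨_, h1 b hb⟩)

theorem isPGroup_zpowers_of_sq {z : G} (hz : z * z = 1) : IsPGroup 2 (Subgroup.zpowers z) :=
  have : Fact (Nat.Prime 2) := ⟨Nat.prime_two⟩
  (isPElt_of_pow_eq_one (k := 1) (by rw [pow_one, pow_two, hz])).isPGroup_zpowers

universe u

theorem commute_of_y {M : Ideal AlgInt} (hM : IsPModular 2 M) (n : ℕ) :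
    ∀ (G : Type u) [Group G] [Finite G], Nat.card G = n → Ab G → Y hM G →
      ∀ s t : G, s * s = 1 → t * t = 1 → Commute s t := by
  induction n using Nat.strong_induction_on with
  | _ n ih =>
  intro G _ _ hn hA hY
  suffices h : Tr G from fun s t hs ht => hY.commute_of_tr h hs ht
  intro z s t hz1 hz hs ht hzs hzt
  have hQ := isPGroup_zpowers_of_sq hz
  have hmem : ∀ a : G, Commute z a → a ∈ Subgroup.centralizer (Subgroup.zpowers z : Set G) := by
    rintro a ha _ ⟨m, rfl⟩
    exact (ha.zpow_left m).eq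
  by_cases hC : Subgroup.centralizer (Subgroup.zpowers z : Set G) = ⊤
  · have hZ : Subgroup.zpowers z ≤ Subgroup.center G := fun a ha =>
      Subgroup.mem_center_iff.2 fun g => ((hC ▸ Subgroup.mem_top g :
        g ∈ Subgroup.centralizer (Subgroup.zpowers z : Set G)) a ha).symm
    have : (Subgroup.zpowers z).Normal := ⟨fun a ha g => by
      rw [Subgroup.mem_center_iff.1 (hZ ha) g, mul_inv_cancel_right]; exact ha⟩
    have hk := QuotientGroup.ker_mk' (Subgroup.zpowers z)
    have hf := QuotientGroup.mk'_surjective (Subgroup.zpowers z)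
    generalize QuotientGroup.mk' (Subgroup.zpowers z) = f at hk hf
    have hQ' : IsPGroup 2 f.ker := by rw [hk]; exact hQ
    have hZ' : f.ker ≤ Subgroup.center G := by rw [hk]; exact hZ
    have hlt : Nat.card (G ⧸ Subgroup.zpowers z) < n := by
      rw [← hn, Subgroup.card_eq_card_quotient_mul_card_subgroup (Subgroup.zpowers z)]
      exact lt_mul_of_one_lt_right Nat.card_pos
        ((Subgroup.one_lt_card_iff_ne_bot _).2 (by simpa using hz1))
    have hs' : f s * f s = 1 := by rw [← map_mul, hs, map_one]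
    have ht' : f t * f t = 1 := by rw [← map_mul, ht, map_one]
    have hc := ih _ hlt _ rfl (hA.of_surjective f hf hQ')
      (hY.of_surjective f hf hZ' hQ') (f s) (f t) hs' ht'
    have hR : IsPGroup 2 (Subgroup.zpowers (f s) ⊔ Subgroup.zpowers (f t) :
        Subgroup (G ⧸ Subgroup.zpowers z)) := by
      refine (isPGroup_zpowers_of_sq hs').to_sup_of_normal_right' (isPGroup_zpowers_of_sq ht')
        (le_trans ?_ (Subgroup.centralizer_le_normalizer _))
      rintro _ ⟨m, rfl⟩ _ ⟨l, rfl⟩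
      exact ((hc.zpow_zpow m l).symm).eq
    exact hA _ (hR.comap_of_ker_isPGroup f hQ') s
      (Subgroup.mem_sup_left (Subgroup.mem_zpowers (f s))) t
      (Subgroup.mem_sup_right (Subgroup.mem_zpowers (f t)))
  · have hlt : Nat.card (Subgroup.centralizer (Subgroup.zpowers z : Set G)) < n := by
      rw [← hn]
      exact lt_of_le_of_ne (Subgroup.card_le_card_group _)
        fun h => hC (Subgroup.eq_top_of_card_eq _ h)
    exact congrArg Subtype.val (ih _ hlt _ rfl (hA.subgroup _) (hY.centralizer hQ)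
      ⟨s, hmem s hzs⟩ ⟨t, hmem t hzt⟩ (Subtype.ext hs) (Subtype.ext ht)).eq

end SigInv

end BT
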